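import Mathlib
import Cfsg.Agent.Lib_helper1_Basic
import Cfsg.Agent.Lib_helper7_PPrimeP

set_option autoImplicit false

namespace Cfsg.Agent.Lib_helper1_AlmostSimple

theorem normalizer_ne_top {G : Type*} [Group G] [Finite G] (T : Subgroup G) [T.Normal]
    (hT : IsSimpleGroup T) (hna : ¬ IsMulCommutative T) {r : ℕ} [Fact r.Prime] (R : Sylow r G)
    (hR0 : (R : Subgroup G) ⊓ T ≠ ⊥) :
    Subgroup.normalizer (((R : Subgroup G) ⊓ T : Subgroup G) : Set G) ≠ ⊤ := by
  intro htop
  haveI := hT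
  have hn : ((R : Subgroup G) ⊓ T).Normal := Subgroup.normalizer_eq_top_iff.mp htop
  have hn' : (((R : Subgroup G) ⊓ T).subgroupOf T).Normal := hn.subgroupOf T
  rcases Subgroup.Normal.eq_bot_or_eq_top hn' with h | h
  · rw [Subgroup.subgroupOf_eq_bot] at h
    exact hR0 (h.eq_bot_of_le inf_le_right)
  · rw [Subgroup.subgroupOf_eq_top] at h
    have hTR : T ≤ (R : Subgroup G) := h.trans inf_le_left
    have hTp : IsPGroup r T := R.isPGroup'.to_le hTR
    haveI : Nontrivial T := hT.toNontrivial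
    haveI : Nontrivial (Subgroup.center T) := hTp.center_nontrivial
    rcases Subgroup.Normal.eq_bot_or_eq_top
      (inferInstance : (Subgroup.center T).Normal) with h2 | h2
    · exact ((Subgroup.nontrivial_iff_ne_bot _).mp inferInstance) h2
    · apply hna
      refine ⟨⟨fun a b => ?_⟩⟩
      have : b ∈ Subgroup.center T := by rw [h2]; trivial
      exact (Subgroup.mem_center_iff.mp this a)

theorem le_normalizer_inf {G : Type*} [Group G] (T : Subgroup G) [hTn : T.Normal]
    (R : Subgroup G) :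
    Subgroup.normalizer (R : Set G) ≤ Subgroup.normalizer ((R ⊓ T : Subgroup G) : Set G) := by
  intro x hx
  rw [Subgroup.mem_normalizer_iff] at hx ⊢
  intro h
  constructor
  · rintro ⟨h1, h2⟩
    exact ⟨(hx h).mp h1, hTn.conj_mem h h2 x⟩
  · rintro ⟨h1, h2⟩
    refine ⟨(hx h).mpr h1, ?_⟩
    have := hTn.conj_mem _ h2 x⁻¹
    have e : x⁻¹ * (x * h * x⁻¹) * x⁻¹⁻¹ = h := by group
    rw [e] at this
    exact this

theorem frattini {G : Type*} [Group G] [Finite G] (T : Subgroup G) [T.Normal] {r : ℕ}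
    [Fact r.Prime] (R : Sylow r G) :
    Subgroup.normalizer (((R : Subgroup G) ⊓ T : Subgroup G) : Set G) ⊔ T = ⊤ := by
  have hp : IsPGroup r (((R : Subgroup G) ⊓ T).subgroupOf T) :=
    (R.isPGroup'.to_le inf_le_left).comap_subtype
  have hidx : ¬ r ∣ (((R : Subgroup G) ⊓ T).subgroupOf T).index :=
    Lib_helper7_PPrimeP.sylow_inf_normal R T
  have := Sylow.normalizer_sup_eq_top (IsPGroup.toSylow hp hidx)
  rw [IsPGroup.toSylow_coe, Subgroup.map_subgroupOf_eq_of_le inf_le_right] at this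
  exact this

theorem exists_conj_le {G : Type*} [Group G] [Finite G] {r : ℕ} [Fact r.Prime] (R : Sylow r G)
    (H : Subgroup G) (hH : ¬ r ∣ H.index) :
    ∃ g : G, ∀ x ∈ (R : Subgroup G), g * x * g⁻¹ ∈ H := by
  have hr : r.Prime := Fact.out
  obtain ⟨Q⟩ : Nonempty (Sylow r H) := inferInstance
  have hQp : IsPGroup r ((Q : Subgroup H).map H.subtype) := Q.isPGroup'.map H.subtype
  have hidx : ¬ r ∣ ((Q : Subgroup H).map H.subtype).index := by
    rw [Subgroup.index_map_subtype]
    intro hd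
    rcases (Nat.Prime.dvd_mul hr).mp hd with h | h
    · exact Q.not_dvd_index h
    · exact hH h
  obtain ⟨g, hg⟩ := MulAction.exists_smul_eq G R (IsPGroup.toSylow hQp hidx)
  refine ⟨g, fun x hx => ?_⟩
  have h1 : g * x * g⁻¹ ∈ ((g • R : Sylow r G) : Subgroup G) := by
    rw [Sylow.coe_subgroup_smul]
    exact Lib_helper1_Basic.conj_mem_conj_smul _ g x hx
  rw [hg, IsPGroup.toSylow_coe] at h1
  exact Subgroup.map_subtype_le _ h1

end Cfsg.Agent.Lib_helper1_AlmostSimple
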