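import Mathlib
import Cfsg.Prelude.Def_PLocal
import Cfsg.Prelude.Def_Local
import Cfsg.Agent.Lib_helper1_GTG

set_option autoImplicit false
set_option maxHeartbeats 1600000

/-! A relativized form of the generic normal `p`-complement induction: the groups are restricted
to a class closed under subgroups and quotients, and the final configuration carries no
stability clause (so that `p = 2` is allowed). -/

namespace Cfsg.Agent.H1GTR

open Cfsg Cfsg.Agent.Lib_helper1_Frobenius Cfsg.Agent.H1GT Cfsg.Agent.H1GTG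
open scoped commutatorElement Pointwise

universe u

/-- The configuration reached by a minimal counterexample (without the stability clause). -/
def FinalConfR (p : ℕ) (G : Type*) [Group G] (P : Sylow p G) : Prop :=
  Subgroup.centralizer (Cfsg.pCore p G : Set G) ≤ Cfsg.pCore p G ∧
  Cfsg.pPrimeCore p G = ⊥ ∧
  (∀ K : Subgroup G, (P : Subgroup G) ≤ K → K ≠ ⊤ → K = P) ∧
  ∃ (L : Subgroup G) (m : ℕ), L.Normal ∧ Cfsg.pCore p G ≤ L ∧ L ⊔ (P : Subgroup G) = ⊤ ∧
    m.Coprime p ∧ (∀ l ∈ L, l ^ m ∈ Cfsg.pCore p G) ∧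
    (∀ M : Subgroup G, M.Normal → M ≤ Cfsg.pCore p G ∨ L ≤ M ⊔ Cfsg.pCore p G)

theorem gtr_aux (p : ℕ) [Fact p.Prime] {ι : Type}
    (C : ∀ (G : Type u) [Group G], Prop)
    (hCs : ∀ (G : Type u) [Group G] [Finite G], C G → ∀ N : Subgroup G, C ↥N)
    (hCq : ∀ (G : Type u) [Group G] [Finite G], C G → ∀ (O : Subgroup G) [O.Normal], C (G ⧸ O))
    (W K : ι → ∀ (G : Type u) [Group G], Subgroup G → Subgroup G)
    (hW1 : ∀ (i : ι) (G : Type u) [Group G] (T : Subgroup G), W i G T ≤ T)
    (hW2 : ∀ (i : ι) (G G' : Type u) [Group G] [Group G'] [Finite G] [Finite G'] (f : G →* G')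
      (T : Subgroup G), (∀ x ∈ T, f x = 1 → x = 1) → (W i G T).map f = W i G' (T.map f))
    (hW3 : ∀ (i : ι) (G : Type u) [Group G] [Finite G] (T : Subgroup G), IsPGroup p T → T ≠ ⊥ →
      W i G T ≠ ⊥)
    (hK1 : ∀ (i : ι) (G : Type u) [Group G] [Finite G] (T : Subgroup G),
      K i G T ≤ Subgroup.normalizer (W i G T : Set G))
    (hK2 : ∀ (i : ι) (G : Type u) [Group G] [Finite G] (N : Subgroup G) (T : Subgroup ↥N),
      (K i ↥N T).map N.subtype ≤ K i G (T.map N.subtype))
    (hK3 : ∀ (i : ι) (G : Type u) [Group G] [Finite G] (O : Subgroup G) [O.Normal],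
      (Nat.card O).Coprime p → ∀ P : Sylow p G,
      K i (G ⧸ O) ((P : Subgroup G).map (QuotientGroup.mk' O)) ≤
        (K i G (P : Subgroup G)).map (QuotientGroup.mk' O))
    (hfin : ∀ (G : Type u) [Group G] [Finite G] (P : Sylow p G), C G → FinalConfR p G P →
      ∃ i : ι, K i G (P : Subgroup G) = ⊤)
    (n : ℕ) :
    ∀ (G : Type u) [Group G] [Finite G], Nat.card G = n → C G →
      (∀ (P : Sylow p G) (i : ι), LocFrob p (K i G (P : Subgroup G))) →
      FrobHyp p G := by
  have hWn : ∀ (i : ι) (G : Type u) [Group G] [Finite G] (T : Subgroup G),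
      Subgroup.normalizer (T : Set G) ≤ Subgroup.normalizer (W i G T : Set G) := by
    intro i G _ _ T g hg
    apply Lib_helper1_Basic.mem_normalizer_of_conj_le
    intro z hz
    have h1 : T.map (MulAut.conj g).toMonoidHom = T := by
      ext y
      rw [Lib_helper7_Sylow.mem_map_conj]
      exact ((Subgroup.mem_normalizer_iff''.mp hg y)).symm
    have h2 := hW2 i G G (MulAut.conj g).toMonoidHom T (fun x _ hx => by simpa using hx)
    rw [h1] at h2
    rw [← h2]
    exact ⟨z, hz, rfl⟩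
  induction n using Nat.strong_induction_on with
  | _ n ih =>
  intro G _ _ hn hC hyp
  by_contra hnot
  have hp : p.Prime := Fact.out
  -- Step 1: a maximal bad `p`-subgroup
  have hS : Nonempty {H : Subgroup G // H ≠ ⊥ ∧ IsPGroup p H ∧
      ¬ LocFrob p (Subgroup.normalizer (H : Set G))} := by
    unfold FrobHyp at hnot
    push_neg at hnot
    obtain ⟨Q, hQ, g, hg, hgo, hgc⟩ := hnot
    refine ⟨⟨Q, ?_, hQ, ?_⟩⟩
    · rintro rfl
      apply hgc
      rw [Subgroup.mem_centralizer_iff]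
      intro t ht
      rw [Subgroup.coe_bot, Set.mem_singleton_iff] at ht
      rw [ht]; simp
    · intro hL
      exact hgc (hL Q hQ Subgroup.le_normalizer g hg hg hgo)
  obtain ⟨⟨H, hHne, hHp, hHnot⟩, hmax⟩ := Finite.exists_max
    (fun X : {H : Subgroup G // H ≠ ⊥ ∧ IsPGroup p H ∧
      ¬ LocFrob p (Subgroup.normalizer (H : Set G))} =>
      (Nat.card (Subgroup.normalizer (X.1 : Set G))).factorization p * (Nat.card G + 1) +
        Nat.card X.1)
  have hmax' : ∀ K : Subgroup G, K ≠ ⊥ → IsPGroup p K →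
      ¬ LocFrob p (Subgroup.normalizer (K : Set G)) →
      (Nat.card (Subgroup.normalizer (K : Set G))).factorization p * (Nat.card G + 1) +
        Nat.card K ≤
      (Nat.card (Subgroup.normalizer (H : Set G))).factorization p * (Nat.card G + 1) +
        Nat.card H :=
    fun K h1 h2 h3 => hmax ⟨K, h1, h2, h3⟩
  -- Step 2: `H` is normal
  have hNtop : Subgroup.normalizer (H : Set G) = ⊤ := by
    by_contra hNne
    obtain ⟨N, hNe⟩ : ∃ N, N = Subgroup.normalizer (H : Set G) := ⟨_, rfl⟩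
    rw [← hNe] at hNne hHnot
    have hHN : H ≤ N := hNe ▸ Subgroup.le_normalizer
    have hcard : Nat.card ↥N < n := hn ▸ card_lt_of_ne_top N hNne
    have hF : FrobHyp p ↥N := by
      apply ih _ hcard ↥N rfl (hCs G hC N)
      intro S' i
      obtain ⟨S, hSe⟩ : ∃ S : Subgroup G, S = (S' : Subgroup ↥N).map N.subtype := ⟨_, rfl⟩
      have hSp : IsPGroup p S := hSe ▸ S'.isPGroup'.map _
      have hHS : H ≤ S := by
        haveI : (H.subgroupOf N).Normal := by rw [hNe]; exact Subgroup.normal_in_normalizer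
        have h1 := Lib_helper1_SS.normal_pgroup_le_sylow S' (H.subgroupOf N) hHp.comap_subtype
        intro x hx
        rw [hSe]
        exact ⟨⟨x, hHN hx⟩, h1 (Subgroup.mem_subgroupOf.mpr hx), rfl⟩
      have hSne : S ≠ ⊥ := fun h => hHne (le_bot_iff.mp (h ▸ hHS))
      apply locFrob_of_map_subtype N
      refine locFrob_mono (hK2 i G N (S' : Subgroup ↥N)) ?_
      rw [← hSe]
      by_contra hKnot
      have hZnot : ¬ LocFrob p (Subgroup.normalizer (W i G S : Set G)) :=
        fun h => hKnot (locFrob_mono (hK1 i G S) h)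
      have hZne : W i G S ≠ ⊥ := hW3 i G S hSp hSne
      have hZp : IsPGroup p (W i G S) := hSp.to_le (hW1 i G S)
      have hm := hmax' _ hZne hZp hZnot
      have hScard : Nat.card S = p ^ (Nat.card ↥N).factorization p := by
        rw [hSe, Subgroup.card_subtype]; exact S'.card_eq_multiplicity
      by_cases hSyl : (Nat.card ↥N).factorization p = (Nat.card G).factorization p
      · rw [hSyl] at hScard
        exact hKnot (hyp (Sylow.ofCard S hScard) i)
      · obtain ⟨T, hT⟩ := hSp.exists_le_sylow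
        have hlt : S < (T : Subgroup G) := by
          refine lt_of_le_of_ne hT ?_
          intro heq
          apply hSyl
          have h1 := T.card_eq_multiplicity
          rw [← heq, hScard] at h1
          exact Nat.pow_right_injective hp.two_le h1
        obtain ⟨t, htT, htN, htS⟩ :=
          Lib_helper7_Sylow.exists_mem_normalizer_not_mem T.isPGroup' hlt
        obtain ⟨S₂, hS₂⟩ : ∃ S₂, S₂ = S ⊔ Subgroup.zpowers t := ⟨_, rfl⟩
        have hS₂T : S₂ ≤ T := by rw [hS₂]; exact sup_le hT ((Subgroup.zpowers_le).mpr htT)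
        have hS₂p : IsPGroup p S₂ := T.isPGroup'.to_le hS₂T
        have hSS₂ : S ≤ S₂ := by rw [hS₂]; exact le_sup_left
        have hSS₂ne : S ≠ S₂ := by
          intro heq
          apply htS
          rw [heq, hS₂]; exact Subgroup.mem_sup_right (Subgroup.mem_zpowers t)
        have hS₂N : S₂ ≤ Subgroup.normalizer (W i G S : Set G) := by
          rw [hS₂]
          exact sup_le (Subgroup.le_normalizer.trans (hWn i G S))
            ((Subgroup.zpowers_le).mpr (hWn i G S htN))
        obtain ⟨j, hj⟩ := hS₂p.exists_card_eq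
        have hjgt : (Nat.card ↥N).factorization p < j := by
          have h1 : Nat.card S < Nat.card S₂ := by
            by_contra hge
            exact hSS₂ne (Subgroup.eq_of_le_of_card_ge hSS₂ (not_lt.mp hge))
          rw [hScard, hj] at h1
          exact (Nat.pow_lt_pow_iff_right hp.one_lt).mp h1
        have hjle : j ≤ (Nat.card (Subgroup.normalizer
            (W i G S : Set G))).factorization p := by
          rw [← hp.pow_dvd_iff_le_factorization Nat.card_pos.ne', ← hj]
          exact Subgroup.card_dvd_of_le hS₂N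
        refine measure_aux _ _ _ _ _ (Subgroup.card_le_card_group H) ?_ hm
        rw [← hNe]
        exact lt_of_lt_of_le hjgt hjle
    exact hHnot (locFrob_of_frobHyp N hF)
  haveI hHn : H.Normal := Subgroup.normalizer_eq_top_iff.mp hNtop
  have hM : ∀ K : Subgroup G, IsPGroup p K → Nat.card H < Nat.card K →
      (∃ P : Sylow p G, (P : Subgroup G) ≤ Subgroup.normalizer (K : Set G)) →
      LocFrob p (Subgroup.normalizer (K : Set G)) := by
    intro K hKp hcard ⟨P, hPK⟩
    by_contra hK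
    have hKne : K ≠ ⊥ := by
      rintro rfl
      rw [Subgroup.card_bot] at hcard
      have := Nat.card_pos (α := ↥H)
      omega
    have hm := hmax' K hKne hKp hK
    refine measure_aux2 _ _ _ _ _ ?_ hcard hm
    rw [hNtop, Subgroup.card_top]
    have h1 := P.card_eq_multiplicity
    have h2 : p ^ (Nat.card G).factorization p ∣
        Nat.card (Subgroup.normalizer (K : Set G)) := by
      rw [← h1]; exact Subgroup.card_dvd_of_le hPK
    exact (hp.pow_dvd_iff_le_factorization Nat.card_pos.ne').mp h2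
  -- Step 2b: `G ⧸ H` has a normal `p`-complement
  have hFQ : FrobHyp p (G ⧸ H) := by
    apply ih _ (hn ▸ card_quot_lt H hHne) (G ⧸ H) rfl (hCq G hC H)
    intro Pbar i
    obtain ⟨P, hP⟩ := Sylow.mapSurjective_surjective (QuotientGroup.mk'_surjective H) p Pbar
    have hPcoe : (Pbar : Subgroup (G ⧸ H)) = (P : Subgroup G).map (QuotientGroup.mk' H) := by
      rw [← hP, Sylow.coe_mapSurjective]
    obtain ⟨Zb, hZb⟩ : ∃ Zb, Zb = W i (G ⧸ H) (Pbar : Subgroup (G ⧸ H)) :=
      ⟨_, rfl⟩
    refine locFrob_mono (hK1 i (G ⧸ H) _) ?_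
    rw [← hZb]
    by_cases hZb0 : Zb = ⊥
    · have hPb : (Pbar : Subgroup (G ⧸ H)) = ⊥ := by
        by_contra hne
        exact hW3 i (G ⧸ H) _ Pbar.isPGroup' hne (hZb ▸ hZb0)
      intro Q hQ _ g _ _ _
      obtain ⟨w, -, hw⟩ := Lib_helper7_SE2.exists_conj_le_of_le Pbar ⊤ le_top Q hQ le_top
      rw [Subgroup.mem_centralizer_iff]
      intro t ht
      have h1 := hw t ht
      rw [hPb, Subgroup.mem_bot] at h1
      have h2 : t = 1 := by
        have := congrArg (fun y => w⁻¹ * y * w) h1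
        simpa [mul_assoc] using this
      rw [h2]; simp
    · obtain ⟨K, hK⟩ : ∃ K, K = Zb.comap (QuotientGroup.mk' H) := ⟨_, rfl⟩
      have hZbP : Zb ≤ (Pbar : Subgroup (G ⧸ H)) := hZb ▸ hW1 i (G ⧸ H) _
      have hKp : IsPGroup p K := by
        rw [hK]
        apply IsPGroup.comap_of_ker_isPGroup (Pbar.isPGroup'.to_le hZbP)
        rw [QuotientGroup.ker_mk']; exact hHp
      have hcardK : Nat.card H < Nat.card K := by
        rw [hK, Lib_helper1_Hall.card_comap_mk']
        have h2 : 1 < Nat.card Zb := (Subgroup.one_lt_card_iff_ne_bot Zb).mpr hZb0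
        have h3 := Nat.card_pos (α := ↥H)
        nlinarith
      have hPK : (P : Subgroup G) ≤ Subgroup.normalizer (K : Set G) := by
        intro x hx
        apply Lib_helper1_Basic.mem_normalizer_of_conj_le
        intro k hk
        rw [hK, Subgroup.mem_comap] at hk ⊢
        have hxb : (QuotientGroup.mk' H) x ∈ Subgroup.normalizer (Zb : Set (G ⧸ H)) := by
          rw [hZb]
          apply hWn i (G ⧸ H)
          apply Subgroup.le_normalizer
          rw [hPcoe]
          exact Subgroup.mem_map_of_mem _ hx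
        have := (Subgroup.mem_normalizer_iff.mp hxb _).mp hk
        simpa using this
      have hLK := hM K hKp hcardK ⟨P, hPK⟩
      refine locFrob_mono ?_ (locFrob_map (QuotientGroup.mk' H) _ hLK)
      intro gb hgb
      obtain ⟨g, rfl⟩ := QuotientGroup.mk'_surjective H gb
      refine ⟨g, ?_, rfl⟩
      apply Lib_helper1_Basic.mem_normalizer_of_conj_le
      intro k hk
      rw [hK, Subgroup.mem_comap] at hk ⊢
      have := (Subgroup.mem_normalizer_iff.mp hgb _).mp hk
      simpa using this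
  obtain ⟨Nb, hNbn, hNbc, k, hNbk⟩ := frobenius hFQ
  haveI := hNbn
  obtain ⟨π, hπ⟩ : ∃ π : G →* G ⧸ H, π = QuotientGroup.mk' H := ⟨_, rfl⟩
  have hπs : Function.Surjective π := hπ ▸ QuotientGroup.mk'_surjective H
  have hπ1 : ∀ x : G, π x = 1 ↔ x ∈ H := by
    intro x; rw [hπ]; exact QuotientGroup.eq_one_iff x
  obtain ⟨L, hL⟩ : ∃ L, L = Nb.comap π := ⟨_, rfl⟩
  haveI hLn : L.Normal := hL ▸ hNbn.comap _
  have hHL : H ≤ L := by
    intro x hx
    rw [hL, Subgroup.mem_comap, (hπ1 x).mpr hx]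
    exact Nb.one_mem
  have hLidx : L.index = p ^ k := by
    rw [hL, Subgroup.index_comap_of_surjective _ hπs]; exact hNbk
  -- `H = O_p(G)`
  have hHcore : Cfsg.pCore p G = H := by
    by_contra hne
    have hle : H ≤ Cfsg.pCore p G := Lib_helper7_PCore.le_pCore hHn hHp
    have hRp := Lib_helper7_PCore.pCore_isPGroup (G := G) p
    have hRn := Lib_helper7_PCore.pCore_normal (G := G) p
    have hcard : Nat.card H < Nat.card (Cfsg.pCore p G) := by
      by_contra hge
      exact hne (Subgroup.eq_of_le_of_card_ge hle (not_lt.mp hge)).symm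
    obtain ⟨P⟩ : Nonempty (Sylow p G) := inferInstance
    have h1 := hM _ hRp hcard
      ⟨P, by rw [Subgroup.normalizer_eq_top_iff.mpr hRn]; exact le_top⟩
    rw [Subgroup.normalizer_eq_top_iff.mpr hRn] at h1
    exact hnot (frobHyp_of_locFrob_top h1)
  -- Step 3: `O_{p'}(G) = 1`
  have hO : Cfsg.pPrimeCore p G = ⊥ := by
    by_contra hOne
    obtain ⟨O, hOe⟩ : ∃ O, O = Cfsg.pPrimeCore p G := ⟨_, rfl⟩
    rw [← hOe] at hOne
    haveI hOn : O.Normal := hOe ▸ Lib_helper7_PCore.sSup_normal_of_forall _ (fun _ h => h.1)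
    have hOc : (Nat.card O).Coprime p := hOe ▸ Lib_helper7_PPrime.card_pPrimeCore_coprime p
    have hFO : FrobHyp p (G ⧸ O) := by
      apply ih _ (hn ▸ card_quot_lt O hOne) (G ⧸ O) rfl (hCq G hC O)
      intro Pbar i
      obtain ⟨P, hP⟩ := Sylow.mapSurjective_surjective (QuotientGroup.mk'_surjective O) p Pbar
      have hPcoe : (Pbar : Subgroup (G ⧸ O)) = (P : Subgroup G).map (QuotientGroup.mk' O) := by
        rw [← hP, Sylow.coe_mapSurjective]
      rw [hPcoe]
      exact locFrob_mono (hK3 i G O hOc P)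
        (locFrob_map (QuotientGroup.mk' O) _ (hyp P i))
    obtain ⟨Mb, hMbn, hMbc, j, hMbj⟩ := frobenius hFO
    apply hnot
    apply frobHyp_of_npc
    refine ⟨Mb.comap (QuotientGroup.mk' O), hMbn.comap _, ?_, j, ?_⟩
    · rw [Lib_helper1_Hall.card_comap_mk']
      exact Nat.Coprime.mul_left hOc hMbc
    · rw [Subgroup.index_comap_of_surjective _ (QuotientGroup.mk'_surjective O)]; exact hMbj
  -- Step 4: `C_G(H) ≤ H`
  have hs : Cfsg.IsPSolvable p G := by
    have hs3 : Cfsg.IsPSolvable p ((G ⧸ H) ⧸ Nb) := by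
      haveI : Subsingleton (((G ⧸ H) ⧸ Nb) ⧸ (⊤ : Subgroup ((G ⧸ H) ⧸ Nb))) :=
        QuotientGroup.subsingleton_quotient_top
      apply Lib_helper5_PSolv2.isPSolvable_of_quotient (⊤ : Subgroup ((G ⧸ H) ⧸ Nb))
        (Or.inl ⟨k, by rw [Subgroup.card_top, ← Subgroup.index_eq_card, hNbk]⟩)
      exact isPSolvable_of_subsingleton p _
    have hs2 : Cfsg.IsPSolvable p (G ⧸ H) :=
      Lib_helper5_PSolv2.isPSolvable_of_quotient Nb (Or.inr hNbc) hs3
    exact Lib_helper5_PSolv2.isPSolvable_of_quotient H (Or.inl hHp.exists_card_eq) hs2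
  have hc : Subgroup.centralizer (H : Set G) ≤ H := by
    have := Lib_helper1_PSolvComp.centralizer_pCore_le_of_pSolvable p hO hs
    rwa [hHcore] at this
  -- Step 5: structure
  obtain ⟨P⟩ : Nonempty (Sylow p G) := inferInstance
  have hHP : H ≤ P := Lib_helper1_SS.normal_pgroup_le_sylow P H hHp
  have hPmax : ∀ K : Subgroup G, (P : Subgroup G) ≤ K → K ≠ ⊤ → K = P := by
    intro K hPK hKne
    have hFK : FrobHyp p ↥K := by
      apply ih _ (hn ▸ card_lt_of_ne_top K hKne) ↥K rfl (hCs G hC K)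
      intro S' i
      obtain ⟨S, hSe⟩ : ∃ S : Subgroup G, S = (S' : Subgroup ↥K).map K.subtype := ⟨_, rfl⟩
      apply locFrob_of_map_subtype K
      refine locFrob_mono (hK2 i G K (S' : Subgroup ↥K)) ?_
      rw [← hSe]
      have hfac : (Nat.card ↥K).factorization p = (Nat.card G).factorization p := by
        apply le_antisymm
        · exact (Nat.factorization_le_iff_dvd Nat.card_pos.ne' Nat.card_pos.ne').mpr
            (Subgroup.card_subgroup_dvd_card K) p
        · have h2 : p ^ (Nat.card G).factorization p ∣ Nat.card ↥K := by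
            rw [← P.card_eq_multiplicity]; exact Subgroup.card_dvd_of_le hPK
          exact (hp.pow_dvd_iff_le_factorization Nat.card_pos.ne').mp h2
      have hScard : Nat.card S = p ^ (Nat.card G).factorization p := by
        rw [hSe, Subgroup.card_subtype, S'.card_eq_multiplicity, hfac]
      exact hyp (Sylow.ofCard S hScard) i
    obtain ⟨N₀, hN₀n, hN₀c, k₀, hN₀k⟩ := frobenius hFK
    have hN₀c' : (Nat.card (N₀.map K.subtype)).Coprime p := by
      rw [Subgroup.card_subtype]; exact hN₀c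
    have hN₀bot : N₀ = ⊥ := by
      rw [eq_bot_iff]
      intro x hx
      rw [Subgroup.mem_bot]
      have hxc : (x : G) ∈ Subgroup.centralizer (H : Set G) := by
        rw [Subgroup.mem_centralizer_iff]
        intro h hh
        have hhK : h ∈ K := hPK (hHP hh)
        have hcH : (x : G) * h * (x : G)⁻¹ * h⁻¹ ∈ H :=
          H.mul_mem (hHn.conj_mem h hh x) (H.inv_mem hh)
        have hcN : (x * ⟨h, hhK⟩ * x⁻¹ * (⟨h, hhK⟩ : ↥K)⁻¹) ∈ N₀ := by
          have e : x * ⟨h, hhK⟩ * x⁻¹ * (⟨h, hhK⟩ : ↥K)⁻¹ =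
              x * (⟨h, hhK⟩ * x⁻¹ * (⟨h, hhK⟩ : ↥K)⁻¹) := by group
          rw [e]; exact N₀.mul_mem hx (hN₀n.conj_mem _ (N₀.inv_mem hx) _)
        have hcN' : (x : G) * h * (x : G)⁻¹ * h⁻¹ ∈ N₀.map K.subtype := ⟨_, hcN, rfl⟩
        have h1 := eq_one_of_coprime_of_pgroup (N₀.map K.subtype) H hN₀c' hHp hcN' hcH
        calc h * (x : G) = ((x : G) * h * (x : G)⁻¹ * h⁻¹)⁻¹ * ((x : G) * h) := by group
          _ = (x : G) * h := by rw [h1]; group
      have hxH : (x : G) ∈ H := hc hxc
      have := eq_one_of_coprime_of_pgroup (N₀.map K.subtype) H hN₀c' hHp ⟨x, hx, rfl⟩ hxH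
      exact Subtype.ext this
    have hKp : IsPGroup p K := by
      apply IsPGroup.of_card (n := k₀)
      rw [← hN₀k, hN₀bot, Subgroup.index_bot]
    exact P.is_maximal' hKp hPK
  have hLH : ¬ L ≤ H := by
    intro hle
    have hLeq : L = H := le_antisymm hle hHL
    apply hnot
    apply frobHyp_of_npc
    obtain ⟨b, hb⟩ := hHp.exists_card_eq
    refine ⟨⊥, inferInstance, by simp, b + k, ?_⟩
    rw [Subgroup.index_bot, ← Subgroup.card_mul_index H, hb, pow_add, ← hLeq, hLidx]
  have hLP : L ⊔ (P : Subgroup G) = ⊤ := by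
    by_contra hne
    have h1 := hPmax _ le_sup_right hne
    have hLleP : L ≤ P := by rw [← h1]; exact le_sup_left
    exact hLH ((Lib_helper7_PCore.le_pCore hLn (P.isPGroup'.to_le hLleP)).trans hHcore.le)
  have hLpow : ∀ l ∈ L, l ^ Nat.card ↥Nb ∈ H := by
    intro l hl
    rw [hL, Subgroup.mem_comap] at hl
    have h1 : (⟨π l, hl⟩ : ↥Nb) ^ Nat.card ↥Nb = 1 := pow_card_eq_one'
    have h2 : (π l) ^ Nat.card ↥Nb = 1 := congrArg Subtype.val h1
    rw [← hπ1, map_pow]; exact h2
  have hNbne : Nb ≠ ⊥ := by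
    rintro rfl
    apply hLH
    intro l hl
    rw [hL, Subgroup.mem_comap, Subgroup.mem_bot] at hl
    exact (hπ1 l).mp hl
  obtain ⟨Pb, hPbe⟩ : ∃ Pb : Subgroup (G ⧸ H), Pb = (P : Subgroup G).map π := ⟨_, rfl⟩
  have hPbp : IsPGroup p Pb := hPbe ▸ P.isPGroup'.map π
  have hPbmem : ∀ x ∈ (P : Subgroup G), π x ∈ Pb := by
    intro x hx; rw [hPbe]; exact Subgroup.mem_map_of_mem π hx
  have hR : ∀ R : Subgroup (G ⧸ H), R ≤ Nb → Pb ≤ Subgroup.normalizer (R : Set (G ⧸ H)) →
      R ≠ ⊥ → Nb ≤ R := by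
    intro R hRN hPR hRne
    have hKtop : (R ⊔ Pb).comap π = ⊤ := by
      by_contra hne
      have h1 := hPmax _ (fun x hx => Subgroup.mem_comap.mpr
        (Subgroup.mem_sup_right (hPbmem x hx))) hne
      apply hRne
      rw [eq_bot_iff]
      intro r hr
      obtain ⟨g, rfl⟩ := hπs r
      have hg : g ∈ (R ⊔ Pb).comap π := Subgroup.mem_comap.mpr (Subgroup.mem_sup_left hr)
      rw [h1] at hg
      rw [Subgroup.mem_bot]
      exact eq_one_of_coprime_of_pgroup Nb Pb hNbc hPbp (hRN hr) (hPbmem g hg)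
    have hsup : R ⊔ Pb = ⊤ := by
      rw [eq_top_iff]
      intro gb _
      obtain ⟨g, rfl⟩ := hπs gb
      have : g ∈ (R ⊔ Pb).comap π := by rw [hKtop]; trivial
      exact this
    haveI hRn : R.Normal := by
      rw [← Subgroup.normalizer_eq_top_iff, eq_top_iff, ← hsup]
      exact sup_le Subgroup.le_normalizer hPR
    intro nb hnb
    have h1 : nb ∈ ((R ⊔ Pb : Subgroup (G ⧸ H)) : Set (G ⧸ H)) := by rw [hsup]; trivial
    rw [Subgroup.normal_mul] at h1
    obtain ⟨r, hr, x, hx, rfl⟩ := Set.mem_mul.mp h1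
    have hxN : x ∈ Nb := by
      have := Nb.mul_mem (Nb.inv_mem (hRN hr)) hnb
      simpa using this
    have hx1 := eq_one_of_coprime_of_pgroup Nb Pb hNbc hPbp hxN hx
    rw [hx1, mul_one]; exact hr
  have hab : ∀ x ∈ L, ∀ y ∈ L, x * y * x⁻¹ * y⁻¹ ∈ H := by
    have hcardNb : Nat.card ↥Nb ≠ 1 := fun h1 => hNbne (Subgroup.card_eq_one.mp h1)
    obtain ⟨q, hq, hqd⟩ := Nat.exists_prime_and_dvd hcardNb
    haveI : Fact q.Prime := ⟨hq⟩
    have hPbN : Pb ≤ Subgroup.normalizer (Nb : Set (G ⧸ H)) :=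
      Subgroup.le_normalizer_of_normal
    obtain ⟨b, hb⟩ := hPbp.exists_card_eq
    have hcop : (Nat.card ↥Pb).Coprime (Nat.card ↥Nb) := by
      rw [hb]; exact Nat.Coprime.pow_left b hNbc.symm
    haveI : Group.IsNilpotent ↥Pb := hPbp.isNilpotent
    have hsolv : Group.IsSolvable ↥Pb := IsNilpotent.to_isSolvable
    obtain ⟨Q, hQ⟩ := Lib_helper1_Coprime.exists_invariant_sylow Pb Nb hPbN hcop
      (Or.inl hsolv) q
    have hQne : ((Q : Subgroup ↥Nb).map Nb.subtype) ≠ ⊥ := by
      intro h0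
      rw [Subgroup.map_eq_bot_iff_of_injective _ Nb.subtype_injective] at h0
      exact Q.ne_bot_of_dvd_card hqd h0
    have hNbQ := hR _ (Subgroup.map_subtype_le _) hQ hQne
    have hNbq : IsPGroup q ↥Nb := by
      intro x
      obtain ⟨y, hy, hye⟩ := hNbQ x.2
      have hxy : y = x := Subtype.ext hye
      obtain ⟨k', hk'⟩ := Q.isPGroup' ⟨y, hy⟩
      refine ⟨k', ?_⟩
      rw [← hxy]
      have := congrArg Subtype.val hk'
      simpa using this
    have hcomm0 : ⁅Nb, Nb⁆ = ⊥ := by
      by_contra hne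
      have h1 := hR ⁅Nb, Nb⁆ (Subgroup.commutator_le_left Nb Nb)
        Subgroup.le_normalizer_of_normal hne
      exact Lib_helper1_Coprime.commutator_ne_self_of_pgroups q Nb Nb hNbq hNbq
        Subgroup.le_normalizer hNbne (le_antisymm (Subgroup.commutator_le_left Nb Nb) h1)
    intro x hx y hy
    rw [← hπ1]
    have h1 : ⁅π x, π y⁆ ∈ ⁅Nb, Nb⁆ := Subgroup.commutator_mem_commutator
      (by rw [hL] at hx; exact hx) (by rw [hL] at hy; exact hy)
    rw [hcomm0, Subgroup.mem_bot, commutatorElement_def] at h1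
    rw [map_mul, map_mul, map_mul, map_inv, map_inv]; exact h1
  have hdich : ∀ M : Subgroup G, M.Normal → M ≤ H ∨ L ≤ M ⊔ H := by
    intro M hMn
    haveI := hMn
    by_cases hMP : M ⊔ (P : Subgroup G) = ⊤
    · right
      intro l hl
      obtain ⟨b, hb⟩ := P.isPGroup'.exists_card_eq
      apply mem_of_pow_mem_coprime (M ⊔ H) l (Nat.card ↥Nb) (p ^ b)
        (Nat.Coprime.pow_right b hNbc)
      · exact Subgroup.mem_sup_right (hLpow l hl)
      · have hl' : l ∈ ((M ⊔ (P : Subgroup G) : Subgroup G) : Set G) := by rw [hMP]; trivial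
        rw [Subgroup.normal_mul] at hl'
        obtain ⟨m, hm, x, hx, rfl⟩ := Set.mem_mul.mp hl'
        rw [← QuotientGroup.eq_one_iff]
        have hm1 : ((m : G) : G ⧸ (M ⊔ H)) = 1 :=
          (QuotientGroup.eq_one_iff m).mpr (Subgroup.mem_sup_left hm)
        have hx1 : x ^ p ^ b = 1 := by
          have := pow_card_eq_one' (G := ↥(P : Subgroup G)) (x := ⟨x, hx⟩)
          rw [hb] at this
          exact congrArg Subtype.val this
        rw [QuotientGroup.mk_pow, QuotientGroup.mk_mul, hm1, one_mul, ← QuotientGroup.mk_pow,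
          hx1]
        rfl
    · left
      have h1 := hPmax _ le_sup_right hMP
      have hMP' : M ≤ P := by rw [← h1]; exact le_sup_left
      exact (Lib_helper7_PCore.le_pCore hMn (P.isPGroup'.to_le hMP')).trans hHcore.le
  have hD : ∀ a ∈ (P : Subgroup G), (∀ y ∈ L, a⁻¹ * y⁻¹ * a * y ∈ H) → a ∈ H := by
    intro a haP ha
    obtain ⟨D, hDe⟩ : ∃ D : Subgroup G,
        D = (Subgroup.centralizer (Nb : Set (G ⧸ H))).comap π := ⟨_, rfl⟩
    haveI hDn : D.Normal :=
      hDe ▸ (inferInstance : (Subgroup.centralizer (Nb : Set (G ⧸ H))).Normal).comap _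
    have hDmem : ∀ d : G, d ∈ D ↔ ∀ y ∈ L, d⁻¹ * y⁻¹ * d * y ∈ H := by
      intro d
      rw [hDe, Subgroup.mem_comap, Subgroup.mem_centralizer_iff]
      constructor
      · intro h y hy
        have h1 := h (π y) (by rw [hL] at hy; exact hy)
        rw [← hπ1, map_mul, map_mul, map_mul, map_inv, map_inv]
        calc (π d)⁻¹ * (π y)⁻¹ * π d * π y = (π d)⁻¹ * (π y)⁻¹ * (π d * π y) := by group
          _ = (π d)⁻¹ * (π y)⁻¹ * (π y * π d) := by rw [h1]
          _ = 1 := by group
      · intro h nb hnb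
        obtain ⟨y, rfl⟩ := hπs nb
        have hy : y ∈ L := by rw [hL]; exact hnb
        have h2 := (hπ1 _).mpr (h y hy)
        rw [map_mul, map_mul, map_mul, map_inv, map_inv] at h2
        calc π y * π d = π y * π d * ((π d)⁻¹ * (π y)⁻¹ * π d * π y) := by rw [h2, mul_one]
          _ = π d * π y := by group
    have hD1n : (D ⊓ (P : Subgroup G)).Normal := by
      rw [← Subgroup.normalizer_eq_top_iff, eq_top_iff, ← hLP]
      apply sup_le
      · intro l hl
        apply Lib_helper1_Basic.mem_normalizer_of_conj_le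
        intro d hd
        obtain ⟨hdD, hdP⟩ := Subgroup.mem_inf.mp hd
        refine Subgroup.mem_inf.mpr ⟨hDn.conj_mem d hdD l, ?_⟩
        have h1 := (hDmem d).mp hdD l⁻¹ (L.inv_mem hl)
        have e : l * d * l⁻¹ = d * (d⁻¹ * l⁻¹⁻¹ * d * l⁻¹) := by group
        rw [e]; exact (P : Subgroup G).mul_mem hdP (hHP h1)
      · intro x hx
        apply Lib_helper1_Basic.mem_normalizer_of_conj_le
        intro d hd
        obtain ⟨hdD, hdP⟩ := Subgroup.mem_inf.mp hd
        exact Subgroup.mem_inf.mpr ⟨hDn.conj_mem d hdD x, (P : Subgroup G).mul_mem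
          ((P : Subgroup G).mul_mem hx hdP) ((P : Subgroup G).inv_mem hx)⟩
    have h2 : D ⊓ (P : Subgroup G) ≤ H :=
      (Lib_helper7_PCore.le_pCore hD1n (P.isPGroup'.to_le inf_le_right)).trans hHcore.le
    exact h2 (Subgroup.mem_inf.mpr ⟨(hDmem a).mpr ha, haP⟩)
  -- Step 6
  obtain ⟨i, hi⟩ := hfin G P hC ⟨by rw [hHcore]; exact hc, hO, hPmax, L, Nat.card ↥Nb, hLn,
    by rw [hHcore]; exact hHL, hLP, hNbc, by rw [hHcore]; exact hLpow,
    by rw [hHcore]; exact hdich⟩
  have h1 := hyp P i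
  rw [hi] at h1
  exact hnot (frobHyp_of_locFrob_top h1)

/-- Relativized generic normal `p`-complement theorem. -/
theorem gtr_final (p : ℕ) [Fact p.Prime] {ι : Type}
    (C : ∀ (G : Type u) [Group G], Prop)
    (hCs : ∀ (G : Type u) [Group G] [Finite G], C G → ∀ N : Subgroup G, C ↥N)
    (hCq : ∀ (G : Type u) [Group G] [Finite G], C G → ∀ (O : Subgroup G) [O.Normal], C (G ⧸ O))
    (W K : ι → ∀ (G : Type u) [Group G], Subgroup G → Subgroup G)
    (hW1 : ∀ (i : ι) (G : Type u) [Group G] (T : Subgroup G), W i G T ≤ T)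
    (hW2 : ∀ (i : ι) (G G' : Type u) [Group G] [Group G'] [Finite G] [Finite G'] (f : G →* G')
      (T : Subgroup G), (∀ x ∈ T, f x = 1 → x = 1) → (W i G T).map f = W i G' (T.map f))
    (hW3 : ∀ (i : ι) (G : Type u) [Group G] [Finite G] (T : Subgroup G), IsPGroup p T → T ≠ ⊥ →
      W i G T ≠ ⊥)
    (hK1 : ∀ (i : ι) (G : Type u) [Group G] [Finite G] (T : Subgroup G),
      K i G T ≤ Subgroup.normalizer (W i G T : Set G))
    (hK2 : ∀ (i : ι) (G : Type u) [Group G] [Finite G] (N : Subgroup G) (T : Subgroup ↥N),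
      (K i ↥N T).map N.subtype ≤ K i G (T.map N.subtype))
    (hK3 : ∀ (i : ι) (G : Type u) [Group G] [Finite G] (O : Subgroup G) [O.Normal],
      (Nat.card O).Coprime p → ∀ P : Sylow p G,
      K i (G ⧸ O) ((P : Subgroup G).map (QuotientGroup.mk' O)) ≤
        (K i G (P : Subgroup G)).map (QuotientGroup.mk' O))
    (hK4 : ∀ (i : ι) (G : Type u) [Group G] [Finite G] (g : G) (T : Subgroup G),
      K i G (T.map (MulAut.conj g).toMonoidHom) ≤ (K i G T).map (MulAut.conj g).toMonoidHom)
    (hfin : ∀ (G : Type u) [Group G] [Finite G] (P : Sylow p G), C G → FinalConfR p G P →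
      ∃ i : ι, K i G (P : Subgroup G) = ⊤)
    (G : Type u) [Group G] [Finite G] (hC : C G) (P : Sylow p G)
    (hN : ∀ i : ι, Cfsg.HasNormalPComplement p ↥(K i G (P : Subgroup G))) :
    Cfsg.HasNormalPComplement p G := by
  apply hasNormalPComplement_of_npc
  apply Lib_helper1_Frobenius.frobenius
  apply gtr_aux p C hCs hCq W K hW1 hW2 hW3 hK1 hK2 hK3 hfin _ G rfl hC
  intro P' i
  have h0 : LocFrob p (K i G (P : Subgroup G)) :=
    locFrob_of_npc _ (npc_of_hasNormalPComplement (hN i))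
  obtain ⟨g, hg⟩ := MulAction.exists_smul_eq G P P'
  have hP' : (P' : Subgroup G) = (P : Subgroup G).map (MulAut.conj g).toMonoidHom := by
    rw [← hg]
    ext y
    rw [mem_smul_sylow, Lib_helper7_Sylow.mem_map_conj]
  rw [hP']
  exact locFrob_mono (hK4 i G g _) (locFrob_map _ _ h0)

end Cfsg.Agent.H1GTR
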