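import Mathlib
import Cfsg.Prelude.Def_ConjugacyFunctors
import Cfsg.Agent.Lib_helper1_GTR
import Cfsg.Agent.Lib_helper1_PLength

set_option autoImplicit false
set_option maxHeartbeats 1600000

/-!
# Thompson's normal `p`-complement criterion in functor form

Sections of a fixed group form a class closed under subgroups and quotients; an
isomorphism-invariant `p`-group functor induces a family to which the relativized generic
normal `p`-complement theorem applies.
-/

namespace Cfsg.Agent.H1CF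

open Cfsg Cfsg.Agent.Lib_helper1_Frobenius Cfsg.Agent.H1GT Cfsg.Agent.H1GTG Cfsg.Agent.H1GTR

universe u

/-- `X` is isomorphic to a section of `G₀`. -/
def IsSec (G₀ : Type u) [Group G₀] (X : Type u) [Group X] : Prop :=
  ∃ (K R : Subgroup G₀) (hR : (R.subgroupOf K).Normal), Nonempty (X ≃* ↥K ⧸ R.subgroupOf K)

theorem isSec_self (G₀ : Type u) [Group G₀] : IsSec G₀ G₀ := by
  refine ⟨⊤, ⊥, inferInstance, ⟨?_⟩⟩
  exact (Subgroup.topEquiv.symm.trans (QuotientGroup.quotientBot.symm)).trans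
    (QuotientGroup.quotientMulEquivOfEq (Subgroup.bot_subgroupOf ⊤).symm)

theorem isSec_subgroup {G₀ : Type u} [Group G₀] {X : Type u} [Group X] (h : IsSec G₀ X)
    (N : Subgroup X) : IsSec G₀ ↥N := by
  obtain ⟨K, R, hR, ⟨e⟩⟩ := h
  obtain ⟨K₁', hK₁'⟩ : ∃ K₁' : Subgroup ↥K, K₁' =
      (N.map e.toMonoidHom).comap (QuotientGroup.mk' (R.subgroupOf K)) := ⟨_, rfl⟩
  have hK₁K : K₁'.map K.subtype ≤ K := Subgroup.map_subtype_le K₁'
  obtain ⟨f₀, hf₀⟩ : ∃ f₀ : ↥(K₁'.map K.subtype) →* ↥K ⧸ R.subgroupOf K,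
      ∀ k, f₀ k = QuotientGroup.mk' (R.subgroupOf K) (Subgroup.inclusion hK₁K k) :=
    ⟨(QuotientGroup.mk' (R.subgroupOf K)).comp (Subgroup.inclusion hK₁K), fun k => rfl⟩
  have hker : f₀.ker = R.subgroupOf (K₁'.map K.subtype) := by
    ext k
    rw [MonoidHom.mem_ker, Subgroup.mem_subgroupOf, hf₀, QuotientGroup.mk'_apply,
      QuotientGroup.eq_one_iff, Subgroup.mem_subgroupOf]
    rfl
  have hrange : f₀.range = N.map e.toMonoidHom := by
    ext y
    constructor
    · rintro ⟨k, rfl⟩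
      obtain ⟨k', hk', hkk'⟩ := k.2
      have h1 : Subgroup.inclusion hK₁K k = k' := Subtype.ext hkk'.symm
      rw [hf₀, h1]
      rw [hK₁'] at hk'
      exact hk'
    · intro hy
      obtain ⟨k', rfl⟩ := QuotientGroup.mk'_surjective (R.subgroupOf K) y
      have hk' : k' ∈ K₁' := by rw [hK₁']; exact hy
      refine ⟨⟨(k' : G₀), ⟨k', hk', rfl⟩⟩, ?_⟩
      rw [hf₀]
      rfl
  haveI hRn : (R.subgroupOf (K₁'.map K.subtype)).Normal := by
    rw [← hker]; exact MonoidHom.normal_ker f₀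
  refine ⟨K₁'.map K.subtype, R, hRn, ⟨?_⟩⟩
  exact (N.equivMapOfInjective e.toMonoidHom e.injective).trans
    ((MulEquiv.subgroupCongr hrange.symm).trans
      ((QuotientGroup.quotientKerEquivRange f₀).symm.trans
        (QuotientGroup.quotientMulEquivOfEq hker)))

theorem isSec_quotient {G₀ : Type u} [Group G₀] {X : Type u} [Group X] (h : IsSec G₀ X)
    (O : Subgroup X) [O.Normal] : IsSec G₀ (X ⧸ O) := by
  obtain ⟨K, R, hR, ⟨e⟩⟩ := h
  obtain ⟨O', hO'⟩ : ∃ O' : Subgroup (↥K ⧸ R.subgroupOf K), O' = O.map e.toMonoidHom :=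
    ⟨_, rfl⟩
  haveI hO'n : O'.Normal := by
    rw [hO']; exact Subgroup.Normal.map inferInstance _ e.surjective
  obtain ⟨φ, hφ⟩ : ∃ φ : ↥K →* (↥K ⧸ R.subgroupOf K) ⧸ O',
      φ = (QuotientGroup.mk' O').comp (QuotientGroup.mk' (R.subgroupOf K)) := ⟨_, rfl⟩
  have hφs : Function.Surjective φ := by
    rw [hφ]
    exact (QuotientGroup.mk'_surjective O').comp (QuotientGroup.mk'_surjective _)
  have hsub : (φ.ker.map K.subtype).subgroupOf K = φ.ker :=
    Subgroup.comap_map_eq_self_of_injective K.subtype_injective φ.ker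
  haveI hR₁ : ((φ.ker.map K.subtype).subgroupOf K).Normal := by
    rw [hsub]; exact MonoidHom.normal_ker φ
  refine ⟨K, φ.ker.map K.subtype, hR₁, ⟨?_⟩⟩
  exact (QuotientGroup.congr O O' e (by rw [hO']; rfl)).trans
    ((QuotientGroup.quotientKerEquivOfSurjective φ hφs).symm.trans
      (QuotientGroup.quotientMulEquivOfEq hsub.symm))

open Classical in
/-- the family induced by `W` (trivial outside `p`-groups) -/
noncomputable def WF (p : ℕ) (W : ∀ (Q : Type u) [Group Q], Subgroup Q) :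
    Unit → ∀ (G : Type u) [Group G], Subgroup G → Subgroup G :=
  fun _ G _ T => if IsPGroup p T then Cfsg.inducedFunctor W T else ⊥

/-- the normalizers of the induced family -/
noncomputable def KF (p : ℕ) (W : ∀ (Q : Type u) [Group Q], Subgroup Q) :
    Unit → ∀ (G : Type u) [Group G], Subgroup G → Subgroup G :=
  fun _ G _ T => Subgroup.normalizer (WF p W () G T : Set G)

theorem wf_pos (p : ℕ) (W : ∀ (Q : Type u) [Group Q], Subgroup Q) {G : Type u} [Group G]
    (T : Subgroup G) (hT : IsPGroup p T) : WF p W () G T = Cfsg.inducedFunctor W T := by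
  unfold WF
  exact if_pos hT

theorem wf_neg (p : ℕ) (W : ∀ (Q : Type u) [Group Q], Subgroup Q) {G : Type u} [Group G]
    (T : Subgroup G) (hT : ¬ IsPGroup p T) : WF p W () G T = ⊥ := by
  unfold WF
  exact if_neg hT

theorem wf_le (p : ℕ) (W : ∀ (Q : Type u) [Group Q], Subgroup Q) {G : Type u} [Group G]
    (T : Subgroup G) : WF p W () G T ≤ T := by
  by_cases hT : IsPGroup p T
  · rw [wf_pos p W T hT]; exact Subgroup.map_subtype_le _
  · rw [wf_neg p W T hT]; exact bot_le

theorem wf_map (p : ℕ) (W : ∀ (Q : Type u) [Group Q], Subgroup Q) (hW : Cfsg.IsCharPFunctor.{u} p W)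
    {G G' : Type u} [Group G] [Group G'] [Finite G] (f : G →* G') (T : Subgroup G)
    (hinj : ∀ x ∈ T, f x = 1 → x = 1) :
    (WF p W () G T).map f = WF p W () G' (T.map f) := by
  have hφi : Function.Injective (f.subgroupMap T) := by
    rw [injective_iff_map_eq_one]
    intro a ha
    have h1 : f (a : G) = 1 := congrArg Subtype.val ha
    exact Subtype.ext (hinj a a.2 h1)
  obtain ⟨φ, hφ⟩ : ∃ φ : ↥T ≃* ↥(T.map f), ∀ x : ↥T, ((φ x : ↥(T.map f)) : G') = f x :=
    ⟨MulEquiv.ofBijective (f.subgroupMap T) ⟨hφi, f.subgroupMap_surjective T⟩, fun x => rfl⟩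
  by_cases hT : IsPGroup p T
  · have hT' : IsPGroup p (T.map f) := hT.map f
    rw [wf_pos p W T hT, wf_pos p W _ hT']
    unfold Cfsg.inducedFunctor
    have hcomp : f.comp T.subtype = (Subgroup.map f T).subtype.comp φ.toMonoidHom :=
      MonoidHom.ext fun x => (hφ x).symm
    rw [← hW.2 ↥T ↥(T.map f) hT φ, Subgroup.map_map, Subgroup.map_map, hcomp]
  · have hT' : ¬ IsPGroup p (T.map f) := fun h => hT (h.of_equiv φ.symm)
    rw [wf_neg p W T hT, wf_neg p W _ hT', Subgroup.map_bot]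

theorem wf_ne_bot (p : ℕ) (W : ∀ (Q : Type u) [Group Q], Subgroup Q) (hW : Cfsg.IsCharPFunctor.{u} p W)
    {G : Type u} [Group G] [Finite G] (T : Subgroup G) (hT : IsPGroup p T) (hne : T ≠ ⊥) :
    WF p W () G T ≠ ⊥ := by
  rw [wf_pos p W T hT]
  unfold Cfsg.inducedFunctor
  haveI : Nontrivial ↥T := (Subgroup.nontrivial_iff_ne_bot T).mpr hne
  have h1 := hW.1 ↥T hT inferInstance
  intro h2
  exact h1 ((Subgroup.map_eq_bot_iff_of_injective _ T.subtype_injective).mp h2)

theorem npc_of_equiv {A B : Type u} [Group A] [Group B] [Finite A] {p : ℕ} (e : A ≃* B)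
    (h : NPC p A) : NPC p B := by
  obtain ⟨N, hN, hc, k, hk⟩ := h
  refine ⟨N.map e.toMonoidHom, Subgroup.Normal.map hN _ e.surjective, ?_, k, ?_⟩
  · rw [Subgroup.card_map_of_injective e.injective]; exact hc
  · rw [← hk]; exact Subgroup.index_map_equiv N e

theorem cf_fin {p : ℕ} [Fact p.Prime] (W : ∀ (Q : Type u) [Group Q], Subgroup Q)
    (hW : Cfsg.IsCharPFunctor.{u} p W) {G₀ : Type u} [Group G₀] [Finite G₀]
    (hloc : ∀ (K R : Subgroup G₀) [hR : (R.subgroupOf K).Normal],
      Subgroup.centralizer ((Cfsg.pCore p (↥K ⧸ R.subgroupOf K) :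
        Subgroup (↥K ⧸ R.subgroupOf K)) : Set (↥K ⧸ R.subgroupOf K)) ≤
        Cfsg.pCore p (↥K ⧸ R.subgroupOf K) →
      Cfsg.HasNormalPComplement p ((↥K ⧸ R.subgroupOf K) ⧸ Cfsg.pCore p (↥K ⧸ R.subgroupOf K)) →
      ∀ T : Sylow p (↥K ⧸ R.subgroupOf K), IsCoatom (T : Subgroup (↥K ⧸ R.subgroupOf K)) →
        (Cfsg.inducedFunctor (G := (↥K ⧸ R.subgroupOf K)) W
          ((T : Subgroup (↥K ⧸ R.subgroupOf K)))).Normal)
    (X : Type u) [Group X] [Finite X] (P : Sylow p X) (hC : IsSec G₀ X)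
    (hF : FinalConfR p X P) : KF p W () X (P : Subgroup X) = ⊤ := by
  have hp : p.Prime := Fact.out
  obtain ⟨hc, hO, hPmax, L, m, hLn, hQL, hLP, hm, hLpow, -⟩ := hF
  show Subgroup.normalizer (WF p W () X (P : Subgroup X) : Set X) = ⊤
  by_cases hPtop : (P : Subgroup X) = ⊤
  · rw [eq_top_iff]
    intro g _
    apply Lib_helper1_Basic.mem_normalizer_of_conj_le
    intro z hz
    have h1 := wf_map p W hW (MulAut.conj g).toMonoidHom (P : Subgroup X)
      (fun x _ hx => by simpa using hx)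
    have h2 : (P : Subgroup X).map (MulAut.conj g).toMonoidHom = (P : Subgroup X) := by
      rw [hPtop]
      exact Subgroup.map_top_of_surjective _ (MulAut.conj g).surjective
    rw [h2] at h1
    rw [← h1]
    exact ⟨z, hz, rfl⟩
  obtain ⟨K, R, hR, ⟨e⟩⟩ := hC
  haveI : Finite (↥K ⧸ R.subgroupOf K) := Finite.of_equiv X e.toEquiv
  have hpc : (Cfsg.pCore p X).map e.toMonoidHom = Cfsg.pCore p (↥K ⧸ R.subgroupOf K) :=
    Lib_helper1_PLength.pCore_map_equiv p e
  -- (1) the centralizer condition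
  have h1 : Subgroup.centralizer ((Cfsg.pCore p (↥K ⧸ R.subgroupOf K) :
      Subgroup (↥K ⧸ R.subgroupOf K)) : Set (↥K ⧸ R.subgroupOf K)) ≤
      Cfsg.pCore p (↥K ⧸ R.subgroupOf K) := by
    intro y hy
    obtain ⟨x, rfl⟩ := e.surjective y
    rw [← hpc]
    refine ⟨x, hc ?_, rfl⟩
    rw [Subgroup.mem_centralizer_iff]
    intro q hq
    have h2 := Subgroup.mem_centralizer_iff.mp hy (e q) (by
      rw [SetLike.mem_coe, ← hpc]; exact ⟨q, hq, rfl⟩)
    apply e.injective
    rw [map_mul, map_mul]; exact h2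
  -- (2) the quotient by `O_p` has a normal `p`-complement
  have hnpcX : NPC p (X ⧸ Cfsg.pCore p X) := by
    refine ⟨L.map (QuotientGroup.mk' (Cfsg.pCore p X)),
      Subgroup.Normal.map hLn _ (QuotientGroup.mk'_surjective _), ?_, ?_⟩
    · rw [Nat.coprime_comm, Nat.Prime.coprime_iff_not_dvd hp]
      intro hdvd
      obtain ⟨x, hx⟩ := exists_prime_orderOf_dvd_card' p hdvd
      obtain ⟨l, hl, hlx⟩ := x.2
      have h3 : (x : X ⧸ Cfsg.pCore p X) ^ m = 1 := by
        rw [← hlx, ← map_pow]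
        exact (QuotientGroup.eq_one_iff _).mpr (hLpow l hl)
      have h4 : orderOf (x : X ⧸ Cfsg.pCore p X) ∣ m := orderOf_dvd_of_pow_eq_one h3
      rw [Subgroup.orderOf_coe, hx] at h4
      exact (Nat.Prime.coprime_iff_not_dvd hp).mp hm.symm h4
    · have h3 : (L.map (QuotientGroup.mk' (Cfsg.pCore p X))).index = L.index := by
        rw [Subgroup.index_map, QuotientGroup.ker_mk', sup_eq_left.mpr hQL,
          MonoidHom.range_eq_top.mpr (QuotientGroup.mk'_surjective _), Subgroup.index_top,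
          mul_one]
      have h4 : L.index = L.relIndex (P : Subgroup X) := by
        have h5 := Subgroup.relIndex_sup_right (K := L) (H := (P : Subgroup X))
        rw [sup_comm, hLP, Subgroup.relIndex_top_right] at h5
        exact h5
      obtain ⟨j, hj⟩ := IsPGroup.iff_card.mp P.isPGroup'
      have h6 : L.relIndex (P : Subgroup X) ∣ p ^ j := by
        rw [← hj]; exact Subgroup.index_dvd_card _
      obtain ⟨k, -, hk⟩ := (Nat.dvd_prime_pow hp).mp h6
      exact ⟨k, by rw [h3, h4, hk]⟩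
  have h2 : Cfsg.HasNormalPComplement p
      ((↥K ⧸ R.subgroupOf K) ⧸ Cfsg.pCore p (↥K ⧸ R.subgroupOf K)) := by
    apply hasNormalPComplement_of_npc
    exact npc_of_equiv (QuotientGroup.congr (Cfsg.pCore p X)
      (Cfsg.pCore p (↥K ⧸ R.subgroupOf K)) e hpc) hnpcX
  -- (3), (4) the Sylow subgroup and maximality
  have hcoat : IsCoatom (P : Subgroup X) := by
    refine ⟨hPtop, fun b hb => ?_⟩
    by_contra hbt
    exact hb.ne' (hPmax b hb.le hbt)
  have hes : Function.Surjective e.toMonoidHom := e.surjective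
  have h3 : IsCoatom ((P.mapSurjective hes :
      Sylow p (↥K ⧸ R.subgroupOf K)) : Subgroup (↥K ⧸ R.subgroupOf K)) := by
    rw [Sylow.coe_mapSurjective]
    exact (OrderIso.isCoatom_iff (MulEquiv.mapSubgroup e) (P : Subgroup X)).mpr hcoat
  have h4 := hloc K R h1 h2 _ h3
  rw [Sylow.coe_mapSurjective] at h4
  have h5 : Cfsg.inducedFunctor W ((P : Subgroup X).map e.toMonoidHom) =
      (WF p W () X (P : Subgroup X)).map e.toMonoidHom := by
    rw [wf_map p W hW e.toMonoidHom (P : Subgroup X)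
      (fun x _ hx => e.injective (by rw [map_one]; exact hx)),
      wf_pos p W _ (P.isPGroup'.map e.toMonoidHom)]
  rw [h5] at h4
  have h6 : (WF p W () X (P : Subgroup X)).Normal := by
    have h7 := h4.comap e.toMonoidHom
    rwa [Subgroup.comap_map_eq_self_of_injective e.injective] at h7
  exact Subgroup.normalizer_eq_top_iff.mpr h6

/-- **Thompson's normal `p`-complement criterion in functor form.** -/
theorem cf_npc {G : Type u} [Group G] [Finite G] {p : ℕ} [Fact p.Prime]
    (W : ∀ (Q : Type u) [Group Q], Subgroup Q) (hW : Cfsg.IsCharPFunctor.{u} p W) (S : Sylow p G)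
    (hN : Cfsg.HasNormalPComplement p ↥(Subgroup.normalizer
      ((Cfsg.inducedFunctor (G := G) W (S : Subgroup G) : Subgroup G) : Set G)))
    (hloc : ∀ (K R : Subgroup G) [hR : (R.subgroupOf K).Normal],
      Subgroup.centralizer ((Cfsg.pCore p (↥K ⧸ R.subgroupOf K) :
        Subgroup (↥K ⧸ R.subgroupOf K)) : Set (↥K ⧸ R.subgroupOf K)) ≤
        Cfsg.pCore p (↥K ⧸ R.subgroupOf K) →
      Cfsg.HasNormalPComplement p ((↥K ⧸ R.subgroupOf K) ⧸ Cfsg.pCore p (↥K ⧸ R.subgroupOf K)) →
      ∀ T : Sylow p (↥K ⧸ R.subgroupOf K), IsCoatom (T : Subgroup (↥K ⧸ R.subgroupOf K)) →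
        (Cfsg.inducedFunctor (G := (↥K ⧸ R.subgroupOf K)) W
          ((T : Subgroup (↥K ⧸ R.subgroupOf K)))).Normal) :
    Cfsg.HasNormalPComplement p G := by
  apply gtr_final p (IsSec G) (fun X _ _ h N => isSec_subgroup h N)
    (fun X _ _ h O _ => isSec_quotient h O) (WF p W) (KF p W) ?hW1 ?hW2 ?hW3 ?hK1 ?hK2 ?hK3
    ?hK4 ?hfin G (isSec_self G) S ?hN
  case hW1 =>
    intro i G _ T
    exact wf_le p W T
  case hW2 =>
    intro i G G' _ _ _ _ f T hinj
    exact wf_map p W hW f T hinj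
  case hW3 =>
    intro i G _ _ T hT hne
    exact wf_ne_bot p W hW T hT hne
  case hK1 =>
    intro i G _ _ T
    exact le_rfl
  case hK2 =>
    intro i G _ _ N T
    rintro _ ⟨x, hx, rfl⟩
    show (x : G) ∈ Subgroup.normalizer (WF p W () G (T.map N.subtype) : Set G)
    rw [← wf_map p W hW N.subtype T (fun x _ hx => Subtype.ext hx)]
    exact coe_mem_normalizer_map N _ x hx
  case hK3 =>
    intro i G _ _ O _ hOc P
    have hinj : ∀ x ∈ (P : Subgroup G), (QuotientGroup.mk' O) x = 1 → x = 1 := by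
      intro x hx hx1
      exact eq_one_of_coprime_of_pgroup O (P : Subgroup G) hOc P.isPGroup'
        ((QuotientGroup.eq_one_iff x).mp hx1) hx
    show Subgroup.normalizer (WF p W () (G ⧸ O)
        ((P : Subgroup G).map (QuotientGroup.mk' O)) : Set (G ⧸ O)) ≤
        (Subgroup.normalizer (WF p W () G (P : Subgroup G) : Set G)).map (QuotientGroup.mk' O)
    rw [← wf_map p W hW (QuotientGroup.mk' O) (P : Subgroup G) hinj]
    exact normalizer_map_le P O hOc _ (wf_le p W _)
  case hK4 =>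
    intro i G _ _ g T
    show Subgroup.normalizer (WF p W () G (T.map (MulAut.conj g).toMonoidHom) : Set G) ≤
        (Subgroup.normalizer (WF p W () G T : Set G)).map (MulAut.conj g).toMonoidHom
    rw [← wf_map p W hW (MulAut.conj g).toMonoidHom T (fun x _ hx => by simpa using hx)]
    exact normalizer_conj_le _ g
  case hfin =>
    intro X _ _ P hC hF
    exact ⟨(), cf_fin W hW hloc X P hC hF⟩
  case hN =>
    intro i
    show Cfsg.HasNormalPComplement p ↥(Subgroup.normalizer (WF p W () G (S : Subgroup G) : Set G))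
    rw [wf_pos p W _ S.isPGroup']
    exact hN

end Cfsg.Agent.H1CF
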