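import Mathlib
import Cfsg.Prelude.Def_ConjugacyFunctors
import Cfsg.Agent.Lib_helper1_CF

set_option autoImplicit false
set_option maxHeartbeats 1600000

/-!
# Control of transfer in sections and a normal subgroup of index `p`
-/

namespace Cfsg.Agent.H1CF

open Cfsg Cfsg.Agent.Lib_helper1_Frobenius Cfsg.Agent.H1GT Cfsg.Agent.H1GTG Cfsg.Agent.H1GTR
open scoped commutatorElement

universe u

theorem wf_normalizer (p : ℕ) (W : ∀ (Q : Type u) [Group Q], Subgroup Q)
    (hW : Cfsg.IsCharPFunctor.{u} p W) {G : Type u} [Group G] [Finite G] (T : Subgroup G) :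
    Subgroup.normalizer (T : Set G) ≤ Subgroup.normalizer (WF p W () G T : Set G) := by
  intro g hg
  apply Lib_helper1_Basic.mem_normalizer_of_conj_le
  intro z hz
  have h1 : T.map (MulAut.conj g).toMonoidHom = T := by
    ext y
    rw [Lib_helper7_Sylow.mem_map_conj]
    exact ((Subgroup.mem_normalizer_iff''.mp hg y)).symm
  have h2 := wf_map p W hW (MulAut.conj g).toMonoidHom T (fun x _ hx => by simpa using hx)
  rw [h1] at h2
  rw [← h2]
  exact ⟨z, hz, rfl⟩

/-- `T` is a Sylow subgroup whose intersection with the derived subgroup lies in the derived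
subgroup of `N(W(T))`. -/
def CT (p : ℕ) (W : ∀ (Q : Type u) [Group Q], Subgroup Q) (X : Type u) [Group X] : Prop :=
  ∃ T : Subgroup X, IsPGroup p T ∧ ¬ p ∣ T.index ∧
    T ⊓ ⁅(⊤ : Subgroup X), ⊤⁆ ≤ ⁅Subgroup.normalizer (WF p W () X T : Set X),
      Subgroup.normalizer (WF p W () X T : Set X)⁆

theorem ct_of_sec {p : ℕ} [Fact p.Prime] (W : ∀ (Q : Type u) [Group Q], Subgroup Q)
    (hW : Cfsg.IsCharPFunctor.{u} p W) {G₀ : Type u} [Group G₀] [Finite G₀]
    (hctl : ∀ (K R : Subgroup G₀) [hR : (R.subgroupOf K).Normal],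
      Cfsg.ControlsTransferIn p (Cfsg.inducedFunctor (G := (↥K ⧸ R.subgroupOf K)) W) ⊤)
    (X : Type u) [Group X] [Finite X] (hC : IsSec G₀ X) : CT p W X := by
  obtain ⟨K, R, hR, ⟨e⟩⟩ := hC
  obtain ⟨TY, -, hTYp, hTYi, hTY⟩ := hctl K R
  rw [Subgroup.relIndex_top_right] at hTYi
  rw [top_inf_eq] at hTY
  have hmapT : (TY.comap e.toMonoidHom).map e.toMonoidHom = TY :=
    Subgroup.map_comap_eq_self_of_surjective e.surjective TY
  have hV : (WF p W () X (TY.comap e.toMonoidHom)).map e.toMonoidHom =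
      Cfsg.inducedFunctor W TY := by
    rw [wf_map p W hW e.toMonoidHom _ (fun x _ hx => e.injective (by rw [map_one]; exact hx)),
      hmapT, wf_pos p W _ hTYp]
  have hNmap : (Subgroup.normalizer (WF p W () X (TY.comap e.toMonoidHom) : Set X)).map
      e.toMonoidHom = Subgroup.normalizer ((Cfsg.inducedFunctor W TY :
        Subgroup (↥K ⧸ R.subgroupOf K)) : Set (↥K ⧸ R.subgroupOf K)) := by
    rw [← hV]; exact Subgroup.map_equiv_normalizer_eq _ e
  refine ⟨TY.comap e.toMonoidHom, hTYp.comap_of_injective e.toMonoidHom e.injective, ?_, ?_⟩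
  · rw [Subgroup.index_comap_of_surjective TY e.surjective]; exact hTYi
  · intro x hx
    obtain ⟨hxT, hxc⟩ := Subgroup.mem_inf.mp hx
    have h1 : e x ∈ TY ⊓ ⁅(⊤ : Subgroup (↥K ⧸ R.subgroupOf K)), ⊤⁆ := by
      refine Subgroup.mem_inf.mpr ⟨hxT, ?_⟩
      have h2 : Subgroup.map e.toMonoidHom ⁅(⊤ : Subgroup X), (⊤ : Subgroup X)⁆ =
          ⁅(⊤ : Subgroup (↥K ⧸ R.subgroupOf K)), (⊤ : Subgroup (↥K ⧸ R.subgroupOf K))⁆ := by
        rw [Subgroup.map_commutator, Subgroup.map_top_of_surjective _ e.surjective]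
      rw [← h2]; exact ⟨x, hxc, rfl⟩
    rw [hTY] at h1
    have h3 := (Subgroup.mem_inf.mp h1).2
    rw [← hNmap, ← Subgroup.map_commutator] at h3
    obtain ⟨x', hx', hxx'⟩ := h3
    have h4 : x' = x := e.injective hxx'
    rw [← h4]; exact hx'

theorem exists_sylow_eq {X : Type*} [Group X] [Finite X] {p : ℕ} [Fact p.Prime] (T : Subgroup X)
    (hT : IsPGroup p T) (hi : ¬ p ∣ T.index) : ∃ P : Sylow p X, (P : Subgroup X) = T := by
  obtain ⟨P, hP⟩ := hT.exists_le_sylow
  refine ⟨P, le_antisymm ?_ hP⟩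
  have h1 : T.relIndex (P : Subgroup X) ∣ T.index := Subgroup.relIndex_dvd_index_of_le hP
  obtain ⟨j, hj⟩ := IsPGroup.iff_card.mp P.isPGroup'
  have h2 : T.relIndex (P : Subgroup X) ∣ p ^ j := by
    rw [← hj]; exact Subgroup.index_dvd_card _
  obtain ⟨i, -, hi'⟩ := (Nat.dvd_prime_pow (Fact.out)).mp h2
  have hi0 : i = 0 := by
    by_contra h
    exact hi ((hi' ▸ dvd_pow_self p h).trans h1)
  rw [hi0, pow_zero] at hi'
  exact Subgroup.relIndex_eq_one.mp hi'

theorem exists_index_p_of_surj {X Y : Type u} [Group X] [Group Y] [Finite Y] {p : ℕ}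
    [Fact p.Prime] (φ : X →* Y) (hφ : Function.Surjective φ) (k : ℕ) (hk : k ≠ 0)
    (hcard : Nat.card Y = p ^ k) : ∃ N : Subgroup X, N.Normal ∧ N.index = p := by
  have hp : p.Prime := Fact.out
  obtain ⟨K, hK⟩ := Sylow.exists_subgroup_card_pow_prime p (n := k - 1) (G := Y)
    (by rw [hcard]; exact pow_dvd_pow p (Nat.sub_le k 1))
  have hKidx : K.index = p := by
    have h1 := Subgroup.card_mul_index K
    rw [hK, hcard] at h1
    have h2 : p ^ k = p ^ (k - 1) * p := by
      rw [← pow_succ]; congr 1; omega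
    rw [h2] at h1
    exact Nat.eq_of_mul_eq_mul_left (pow_pos hp.pos _) h1
  haveI : K.Normal := Subgroup.normal_of_index_eq_minFac_card
    (by rw [hKidx, hcard, Nat.Prime.pow_minFac hp hk])
  exact ⟨K.comap φ, Subgroup.Normal.comap inferInstance _,
    by rw [Subgroup.index_comap_of_surjective K hφ]; exact hKidx⟩

theorem exists_index_p_of_not_le_commutator {X : Type u} [Group X] [Finite X] {p : ℕ}
    [Fact p.Prime] (T : Subgroup X) (hT : IsPGroup p T)
    (hne : ¬ T ≤ ⁅(⊤ : Subgroup X), ⊤⁆) : ∃ N : Subgroup X, N.Normal ∧ N.index = p := by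
  have hp : p.Prime := Fact.out
  obtain ⟨t, htT, htc⟩ := SetLike.not_le_iff_exists.mp hne
  have hsurj : Function.Surjective (Abelianization.of : X →* Abelianization X) :=
    fun a => QuotientGroup.induction_on a (fun x => ⟨x, rfl⟩)
  have hcard : p ∣ Nat.card (Abelianization X) := by
    have h1 : (Abelianization.of t : Abelianization X) ≠ 1 := by
      intro h
      apply htc
      have h0 : t ∈ (Abelianization.of : X →* Abelianization X).ker := h
      rw [Abelianization.ker_of] at h0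
      exact h0
    obtain ⟨k, hk⟩ := hT ⟨t, htT⟩
    have h2 : (Abelianization.of t : Abelianization X) ^ p ^ k = 1 := by
      rw [← map_pow]
      have h0 : t ^ p ^ k = 1 := congrArg Subtype.val hk
      rw [h0, map_one]
    obtain ⟨j, -, hjo⟩ := (Nat.dvd_prime_pow hp).mp (orderOf_dvd_of_pow_eq_one h2)
    have hj0 : j ≠ 0 := by
      rintro rfl
      rw [pow_zero] at hjo
      exact h1 (orderOf_eq_one_iff.mp hjo)
    have h3 : p ∣ orderOf (Abelianization.of t : Abelianization X) := by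
      rw [hjo]; exact dvd_pow_self p hj0
    exact h3.trans (orderOf_dvd_natCard _)
  obtain ⟨k, m, hm, hkm⟩ := Nat.exists_eq_pow_mul_and_not_dvd
    (Nat.card_pos (α := Abelianization X)).ne' p hp.ne_one
  obtain ⟨f, hf⟩ : ∃ f : Abelianization X →* Abelianization X, ∀ a, f a = a ^ m :=
    ⟨powMonoidHom m, fun a => rfl⟩
  have hRp : IsPGroup p ↥f.range := by
    rintro ⟨r, a, rfl⟩
    refine ⟨k, Subtype.ext ?_⟩
    show (f a) ^ p ^ k = 1
    rw [hf, ← pow_mul, mul_comm, ← hkm]
    exact pow_card_eq_one'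
  haveI hRne : Nontrivial ↥f.range := by
    obtain ⟨a, ha⟩ := exists_prime_orderOf_dvd_card' p hcard
    refine ⟨⟨⟨f a, a, rfl⟩, 1, ?_⟩⟩
    intro h
    have h1 : f a = 1 := congrArg Subtype.val h
    rw [hf] at h1
    have h2 := orderOf_dvd_of_pow_eq_one h1
    rw [ha] at h2
    exact hm h2
  obtain ⟨j, hj⟩ := IsPGroup.iff_card.mp hRp
  have hj0 : j ≠ 0 := by
    rintro rfl
    rw [pow_zero] at hj
    have h1 := Finite.one_lt_card (α := ↥f.range)
    omega
  exact exists_index_p_of_surj (f.rangeRestrict.comp Abelianization.of)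
    (f.rangeRestrict_surjective.comp hsurj) j hj0 hj

theorem commutator_le_of_index_prime {Y : Type*} [Group Y] [Finite Y] {p : ℕ} [Fact p.Prime]
    (N₁ : Subgroup Y) [N₁.Normal] (hidx : N₁.index = p) : ⁅(⊤ : Subgroup Y), ⊤⁆ ≤ N₁ := by
  haveI : IsCyclic (Y ⧸ N₁) := isCyclic_of_prime_card (p := p)
    (by rw [← Subgroup.index_eq_card]; exact hidx)
  obtain ⟨g, hg⟩ := IsCyclic.exists_generator (α := Y ⧸ N₁)
  rw [Subgroup.commutator_le]
  intro x _ y _
  have h1 : (QuotientGroup.mk' N₁) ⁅x, y⁆ = 1 := by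
    rw [map_commutatorElement]
    obtain ⟨i, hi⟩ := Subgroup.mem_zpowers_iff.mp (hg (QuotientGroup.mk' N₁ x))
    obtain ⟨j, hj⟩ := Subgroup.mem_zpowers_iff.mp (hg (QuotientGroup.mk' N₁ y))
    rw [← hi, ← hj]
    exact commutatorElement_eq_one_iff_commute.mpr ((Commute.refl g).zpow_zpow i j)
  exact (QuotientGroup.eq_one_iff _).mp h1

theorem cf_index_aux {p : ℕ} [Fact p.Prime] (W : ∀ (Q : Type u) [Group Q], Subgroup Q)
    (hW : Cfsg.IsCharPFunctor.{u} p W) {G₀ : Type u} [Group G₀] [Finite G₀]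
    (hctl : ∀ (K R : Subgroup G₀) [hR : (R.subgroupOf K).Normal],
      Cfsg.ControlsTransferIn p (Cfsg.inducedFunctor (G := (↥K ⧸ R.subgroupOf K)) W) ⊤)
    (n : ℕ) :
    ∀ (X : Type u) [Group X] [Finite X], Nat.card X = n → IsSec G₀ X →
      ∀ T : Subgroup X, IsPGroup p T → ¬ p ∣ T.index → T ≠ ⊥ →
      (∀ g ∈ Subgroup.normalizer (T : Set X), (orderOf g).Coprime p →
        g ∈ Subgroup.centralizer (T : Set X)) →
      ∃ N : Subgroup X, N.Normal ∧ N.index = p := by
  induction n using Nat.strong_induction_on with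
  | _ n ih =>
  intro X _ _ hn hC T₀ hT₀p hT₀i hT₀ne hT₀c
  have hp : p.Prime := Fact.out
  obtain ⟨T, hTp, hTi, hTct⟩ := ct_of_sec W hW hctl X hC
  -- transfer the hypotheses from `T₀` to `T`
  obtain ⟨P₀, hP₀⟩ := exists_sylow_eq T₀ hT₀p hT₀i
  obtain ⟨P, hP⟩ := exists_sylow_eq T hTp hTi
  obtain ⟨g, hg⟩ := MulAction.exists_smul_eq X P P₀
  have hmem : ∀ y : X, y ∈ T₀ ↔ g⁻¹ * y * g ∈ T := by
    intro y
    rw [← hP₀, ← hP, ← hg]
    exact Lib_helper1_Frobenius.mem_smul_sylow g y P
  have hTne : T ≠ ⊥ := by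
    intro h
    apply hT₀ne
    rw [eq_bot_iff]
    intro y hy
    have h1 := (hmem y).mp hy
    rw [h, Subgroup.mem_bot] at h1
    rw [Subgroup.mem_bot]
    have h2 : y = g * (g⁻¹ * y * g) * g⁻¹ := by group
    rw [h2, h1]; group
  have hTc : ∀ g₁ ∈ Subgroup.normalizer (T : Set X), (orderOf g₁).Coprime p →
      g₁ ∈ Subgroup.centralizer (T : Set X) := by
    intro g₁ hg₁ hg₁o
    have h1 : g * g₁ * g⁻¹ ∈ Subgroup.normalizer (T₀ : Set X) := by
      apply Lib_helper1_Basic.mem_normalizer_of_conj_le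
      intro y hy
      rw [hmem]
      have h2 := (Subgroup.mem_normalizer_iff.mp hg₁ _).mp ((hmem y).mp hy)
      have h3 : g⁻¹ * (g * g₁ * g⁻¹ * y * (g * g₁ * g⁻¹)⁻¹) * g =
          g₁ * (g⁻¹ * y * g) * g₁⁻¹ := by group
      rw [h3]; exact h2
    have h2 : (orderOf (g * g₁ * g⁻¹)).Coprime p := by
      have h0 : g * g₁ * g⁻¹ = (MulAut.conj g) g₁ := by simp [MulAut.conj_apply]
      rw [h0, MulEquiv.orderOf_eq]
      exact hg₁o
    have h3 := hT₀c _ h1 h2
    rw [Subgroup.mem_centralizer_iff] at h3 ⊢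
    intro t ht
    have h4 := h3 (g * t * g⁻¹) ((hmem _).mpr (by
      have h0 : g⁻¹ * (g * t * g⁻¹) * g = t := by group
      rw [h0]; exact ht))
    calc t * g₁ = g⁻¹ * (g * t * g⁻¹ * (g * g₁ * g⁻¹)) * g := by group
      _ = g⁻¹ * (g * g₁ * g⁻¹ * (g * t * g⁻¹)) * g := by rw [h4]
      _ = g₁ * t := by group
  -- the functor value
  obtain ⟨V, hVe⟩ : ∃ V, V = WF p W () X T := ⟨_, rfl⟩
  rw [← hVe] at hTct
  have hVT : V ≤ T := hVe ▸ wf_le p W T
  have hVne : V ≠ ⊥ := hVe ▸ wf_ne_bot p W hW T hTp hTne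
  have hTNV : T ≤ Subgroup.normalizer (V : Set X) :=
    Subgroup.le_normalizer.trans (hVe ▸ wf_normalizer p W hW T)
  by_cases hNtop : Subgroup.normalizer (V : Set X) = ⊤
  · by_cases hVeq : V = T
    · -- `T` is normal
      haveI hTn : T.Normal := by
        rw [hVeq] at hNtop
        exact Subgroup.normalizer_eq_top_iff.mp hNtop
      obtain ⟨k, hk⟩ := IsPGroup.iff_card.mp hTp
      have hk0 : k ≠ 0 := by
        rintro rfl
        rw [pow_zero] at hk
        exact hTne (Subgroup.card_eq_one.mp hk)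
      have hcop : Nat.Coprime (Nat.card T) T.index := by
        rw [hk]
        exact Nat.Coprime.pow_left k ((Nat.Prime.coprime_iff_not_dvd hp).mpr hTi)
      obtain ⟨H, hH⟩ := Subgroup.exists_right_complement'_of_coprime hcop
      have hcardH : Nat.card H = T.index := by
        have h1 := hH.card_mul_card
        have h2 := Subgroup.card_mul_index T
        exact Nat.eq_of_mul_eq_mul_left Nat.card_pos (h1.trans h2.symm)
      have hHc : H ≤ Subgroup.centralizer (T : Set X) := by
        intro h hh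
        apply hTc h
        · rw [Subgroup.normalizer_eq_top_iff.mpr hTn]; exact Subgroup.mem_top h
        · have h1 : orderOf h ∣ Nat.card H := by
            have h2 := orderOf_dvd_natCard (⟨h, hh⟩ : ↥H)
            rwa [Subgroup.orderOf_mk] at h2
          rw [hcardH] at h1
          exact Nat.Coprime.coprime_dvd_left h1
            ((Nat.Prime.coprime_iff_not_dvd hp).mpr hTi).symm
      haveI hHn : H.Normal := by
        constructor
        intro h hh x
        have hx : x ∈ ((T ⊔ H : Subgroup X) : Set X) := by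
          rw [hH.sup_eq_top]; trivial
        rw [Subgroup.normal_mul] at hx
        obtain ⟨t, ht, h₁, hh₁, rfl⟩ := Set.mem_mul.mp hx
        have h2 : h₁ * h * h₁⁻¹ ∈ H := H.mul_mem (H.mul_mem hh₁ hh) (H.inv_mem hh₁)
        have h3 := Subgroup.mem_centralizer_iff.mp (hHc h2) t ht
        have h4 : t * h₁ * h * (t * h₁)⁻¹ = t * (h₁ * h * h₁⁻¹) * t⁻¹ := by group
        rw [h4, h3]
        have h5 : h₁ * h * h₁⁻¹ * t * t⁻¹ = h₁ * h * h₁⁻¹ := by group
        rw [h5]; exact h2
      have hcardQ : Nat.card (X ⧸ H) = p ^ k := by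
        rw [← Subgroup.index_eq_card]
        have h1 := hH.card_mul_card
        have h2 := Subgroup.card_mul_index H
        rw [← hk]
        exact Nat.eq_of_mul_eq_mul_left Nat.card_pos (by rw [h2, mul_comm, h1])
      exact exists_index_p_of_surj (QuotientGroup.mk' H) (QuotientGroup.mk'_surjective H) k hk0
        hcardQ
    · -- pass to `X ⧸ V`
      haveI hVn : V.Normal := Subgroup.normalizer_eq_top_iff.mp hNtop
      have hTbi : (T.map (QuotientGroup.mk' V)).index = T.index := by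
        rw [Subgroup.index_map, QuotientGroup.ker_mk', sup_eq_left.mpr hVT,
          MonoidHom.range_eq_top.mpr (QuotientGroup.mk'_surjective _), Subgroup.index_top,
          mul_one]
      obtain ⟨Nb, hNbn, hNbi⟩ := ih _ (hn ▸ card_quot_lt V hVne) (X ⧸ V) rfl
        (isSec_quotient hC V) (T.map (QuotientGroup.mk' V)) (hTp.map _)
        (by rw [hTbi]; exact hTi)
        (by
          intro h
          have h1 : T ≤ V := by
            have h2 := (Subgroup.map_eq_bot_iff _).mp h
            rwa [QuotientGroup.ker_mk'] at h2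
          exact hVeq (le_antisymm hVT h1))
        (by
          intro gb hgb hgbo
          obtain ⟨g₁, rfl⟩ := QuotientGroup.mk'_surjective V gb
          have hg₁N : g₁ ∈ Subgroup.normalizer (T : Set X) := by
            apply Lib_helper1_Basic.mem_normalizer_of_conj_le
            intro t ht
            have h1 := (Subgroup.mem_normalizer_iff.mp hgb _).mp
              (Subgroup.mem_map_of_mem (QuotientGroup.mk' V) ht)
            obtain ⟨t', ht', ht'e⟩ := h1
            have h2 : (QuotientGroup.mk' V) (t'⁻¹ * (g₁ * t * g₁⁻¹)) = 1 := by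
              rw [map_mul, map_inv, ht'e, map_mul, map_mul, map_inv, inv_mul_cancel]
            have h3 : t'⁻¹ * (g₁ * t * g₁⁻¹) ∈ V := (QuotientGroup.eq_one_iff _).mp h2
            have h4 : g₁ * t * g₁⁻¹ = t' * (t'⁻¹ * (g₁ * t * g₁⁻¹)) := by group
            rw [h4]
            exact T.mul_mem ht' (hVT h3)
          have hno : orderOf g₁ ≠ 0 := (orderOf_pos g₁).ne'
          obtain ⟨a, m, hm, ham⟩ := Nat.exists_eq_pow_mul_and_not_dvd hno p hp.ne_one
          obtain ⟨j, hj⟩ := exists_pow_eq_self_of_coprime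
            (x := (QuotientGroup.mk' V) g₁) (Nat.Coprime.pow_left a hgbo.symm)
          have h1 : (g₁ ^ (p ^ a * j)) ∈ Subgroup.centralizer (T : Set X) := by
            apply hTc _ (Subgroup.pow_mem _ hg₁N _)
            have h2 : (g₁ ^ p ^ a) ^ m = 1 := by
              rw [← pow_mul, ← ham, pow_orderOf_eq_one]
            have h3 : orderOf (g₁ ^ p ^ a) ∣ m := orderOf_dvd_of_pow_eq_one h2
            have h4 : Nat.Coprime m p := ((Nat.Prime.coprime_iff_not_dvd hp).2 hm).symm
            rw [pow_mul]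
            exact Nat.Coprime.coprime_dvd_left ((orderOf_pow_dvd j).trans h3) h4
          have h2 : (QuotientGroup.mk' V) (g₁ ^ (p ^ a * j)) = (QuotientGroup.mk' V) g₁ := by
            rw [map_pow, pow_mul]; exact hj
          rw [← h2, Subgroup.mem_centralizer_iff]
          rintro _ ⟨t, ht, rfl⟩
          rw [← map_mul, ← map_mul, Subgroup.mem_centralizer_iff.mp h1 t ht])
      exact ⟨Nb.comap (QuotientGroup.mk' V), hNbn.comap _,
        by rw [Subgroup.index_comap_of_surjective Nb (QuotientGroup.mk'_surjective V)]; exact hNbi⟩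
  · -- `N = N(V)` is proper
    obtain ⟨N, hNe⟩ : ∃ N, N = Subgroup.normalizer (V : Set X) := ⟨_, rfl⟩
    rw [← hNe] at hNtop hTNV hTct
    have hTsi : ¬ p ∣ (T.subgroupOf N).index := fun h =>
      hTi (h.trans (Subgroup.relIndex_dvd_index_of_le hTNV))
    obtain ⟨N₁, hN₁n, hN₁i⟩ := ih _ (hn ▸ card_lt_of_ne_top N hNtop) ↥N rfl
      (isSec_subgroup hC N) (T.subgroupOf N) hTp.comap_subtype hTsi
      (by
        intro h
        apply hTne
        rw [eq_bot_iff]
        intro t ht
        have h1 : (⟨t, hTNV ht⟩ : ↥N) ∈ T.subgroupOf N := ht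
        rw [h, Subgroup.mem_bot] at h1
        rw [Subgroup.mem_bot]
        exact congrArg Subtype.val h1)
      (by
        intro g' hg' hg'o
        have h1 : (g' : X) ∈ Subgroup.normalizer (T : Set X) := by
          apply Lib_helper1_Basic.mem_normalizer_of_conj_le
          intro t ht
          exact (Subgroup.mem_normalizer_iff.mp hg' ⟨t, hTNV ht⟩).mp ht
        have h2 := hTc (g' : X) h1 (by rw [Subgroup.orderOf_coe]; exact hg'o)
        rw [Subgroup.mem_centralizer_iff]
        intro y hy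
        exact Subtype.ext (Subgroup.mem_centralizer_iff.mp h2 (y : X) hy))
    haveI := hN₁n
    have hcomm := commutator_le_of_index_prime N₁ hN₁i
    have hNN : ⁅N, N⁆ ≤ N₁.map N.subtype := by
      have h1 : (⊤ : Subgroup ↥N).map N.subtype = N := by
        rw [← MonoidHom.range_eq_map, Subgroup.range_subtype]
      calc ⁅N, N⁆ = Subgroup.map N.subtype ⁅(⊤ : Subgroup ↥N), (⊤ : Subgroup ↥N)⁆ := by
            rw [Subgroup.map_commutator, h1]
        _ ≤ N₁.map N.subtype := Subgroup.map_mono hcomm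
    apply exists_index_p_of_not_le_commutator T hTp
    intro hTle
    apply hTsi
    have h1 : T.subgroupOf N ≤ N₁ := by
      intro y hy
      have h2 : (y : X) ∈ T ⊓ ⁅(⊤ : Subgroup X), ⊤⁆ := Subgroup.mem_inf.mpr ⟨hy, hTle hy⟩
      obtain ⟨y', hy', hyy'⟩ := hNN (hTct h2)
      have h3 : y' = y := Subtype.ext hyy'
      rw [← h3]; exact hy'
    rw [← hN₁i]
    exact Subgroup.index_dvd_of_le h1

/-- control of transfer in all sections plus a `p`-group automizer of `S` gives a normal subgroup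
of index `p`. -/
theorem cf_index {G : Type u} [Group G] [Finite G] {p : ℕ} [Fact p.Prime]
    (W : ∀ (Q : Type u) [Group Q], Subgroup Q) (hW : Cfsg.IsCharPFunctor.{u} p W)
    (hctl : ∀ (K R : Subgroup G) [hR : (R.subgroupOf K).Normal],
      Cfsg.ControlsTransferIn p (Cfsg.inducedFunctor (G := (↥K ⧸ R.subgroupOf K)) W) ⊤)
    (S : Sylow p G) (hS : (S : Subgroup G) ≠ ⊥)
    (hN : ∀ g ∈ Subgroup.normalizer (((S : Subgroup G) : Subgroup G) : Set G),
      (orderOf g).Coprime p → g ∈ Subgroup.centralizer ((S : Subgroup G) : Set G)) :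
    ∃ N : Subgroup G, N.Normal ∧ N.index = p :=
  cf_index_aux W hW hctl _ G rfl (isSec_self G) (S : Subgroup G) S.isPGroup' S.not_dvd_index hS hN

end Cfsg.Agent.H1CF
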