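import Mathlib

set_option autoImplicit false

namespace Cfsg.Agent.Lib_helper9_CentPrime

open scoped commutatorElement

theorem mem_zpowers_of_ne_one {G : Type*} [Group G] [Finite G] (p : ℕ) [Fact p.Prime] (x w : G)
    (hx : orderOf x = p) (hw : w ∈ Subgroup.zpowers x) (hw1 : w ≠ 1) :
    x ∈ Subgroup.zpowers w := by
  have hle : Subgroup.zpowers w ≤ Subgroup.zpowers x := by
    rw [Subgroup.zpowers_le]; exact hw
  have hwp : w ^ p = 1 := by
    obtain ⟨k, rfl⟩ := Subgroup.mem_zpowers_iff.mp hw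
    rw [← zpow_natCast, ← zpow_mul, mul_comm, zpow_mul, zpow_natCast, ← hx, pow_orderOf_eq_one,
      one_zpow]
  have ho : orderOf w = p := orderOf_eq_prime hwp hw1
  have e : Subgroup.zpowers w = Subgroup.zpowers x :=
    Subgroup.eq_of_le_of_card_ge hle (by rw [Nat.card_zpowers, Nat.card_zpowers, hx, ho])
  rw [e]; exact Subgroup.mem_zpowers x

theorem pgroup_eq {G : Type*} [Group G] [Finite G] (p : ℕ) [Fact p.Prime] (x : G)
    (hx : orderOf x = p)
    (hC : Subgroup.centralizer ({x} : Set G) = Subgroup.zpowers x) (Q : Subgroup G)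
    (hQ : IsPGroup p Q) (hxQ : x ∈ Q) : Q = Subgroup.zpowers x := by
  have hx1 : x ≠ 1 := by
    rintro rfl
    rw [orderOf_one] at hx
    exact (Fact.out : p.Prime).one_lt.ne' hx.symm
  refine le_antisymm ?_ (by rw [Subgroup.zpowers_le]; exact hxQ)
  haveI : Nontrivial Q := ⟨⟨⟨x, hxQ⟩, 1, fun h => hx1 (congrArg Subtype.val h)⟩⟩
  haveI := hQ.center_nontrivial
  obtain ⟨z, hz⟩ := exists_ne (1 : Subgroup.center Q)
  have hzc : ∀ q : Q, q * (z : Q) = (z : Q) * q := fun q =>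
    (Subgroup.mem_center_iff.mp z.2 q)
  have hzx : ((z : Q) : G) ∈ Subgroup.centralizer ({x} : Set G) := by
    rw [Subgroup.mem_centralizer_iff]
    intro y hy
    rw [Set.mem_singleton_iff] at hy
    subst hy
    exact congrArg Subtype.val (hzc ⟨y, hxQ⟩)
  rw [hC] at hzx
  have hz1 : ((z : Q) : G) ≠ 1 := by
    intro h
    apply hz
    apply Subtype.ext; apply Subtype.ext
    exact h
  have hxz := mem_zpowers_of_ne_one p x _ hx hzx hz1
  intro q hq
  rw [← hC, Subgroup.mem_centralizer_iff]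
  intro y hy
  rw [Set.mem_singleton_iff] at hy
  subst hy
  obtain ⟨k, hk⟩ := Subgroup.mem_zpowers_iff.mp hxz
  have hcomm : Commute q ((z : Q) : G) := congrArg Subtype.val (hzc ⟨q, hq⟩)
  have := (hcomm.zpow_right k).eq
  rw [hk] at this
  exact this.symm

theorem card_dvd_index_of_disjoint {G : Type*} [Group G] [Finite G] (S N : Subgroup G)
    [S.Normal] (h : S ⊓ N = ⊥) : Nat.card S ∣ N.index := by
  have h1 : S.relIndex (S ⊔ N) = Nat.card N := by
    rw [Subgroup.relIndex_sup_left, ← Subgroup.inf_relIndex_right, h, Subgroup.relIndex_bot_left]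
  have h2 : Nat.card S * S.relIndex (S ⊔ N) = Nat.card (S ⊔ N : Subgroup G) := by
    have := Subgroup.relIndex_mul_relIndex (⊥ : Subgroup G) S (S ⊔ N) bot_le le_sup_left
    rwa [Subgroup.relIndex_bot_left, Subgroup.relIndex_bot_left] at this
  have h3 : Nat.card (S ⊔ N : Subgroup G) ∣ Nat.card G := Subgroup.card_subgroup_dvd_card _
  have h4 : Nat.card N * N.index = Nat.card G := Subgroup.card_mul_index N
  rw [← h2, h1, ← h4, mul_comm] at h3
  exact Nat.dvd_of_mul_dvd_mul_left Nat.card_pos h3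

/-- conjugation action of `⟨x⟩` on a stable set -/
def conjOn {G : Type*} [Group G] (x : G) (T : Set G)
    (hT : ∀ z ∈ Subgroup.zpowers x, ∀ t ∈ T, z * t * z⁻¹ ∈ T) :
    MulAction (Subgroup.zpowers x) T where
  smul z t := ⟨(z : G) * t * (z : G)⁻¹, hT z z.2 t t.2⟩
  one_smul t := Subtype.ext (by
    show ((1 : Subgroup.zpowers x) : G) * t * ((1 : Subgroup.zpowers x) : G)⁻¹ = t
    rw [Subgroup.coe_one]; group)
  mul_smul a b t := Subtype.ext (by
    show ((a * b : Subgroup.zpowers x) : G) * t * ((a * b : Subgroup.zpowers x) : G)⁻¹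
      = (a : G) * ((b : G) * t * (b : G)⁻¹) * (a : G)⁻¹
    rw [Subgroup.coe_mul]; group)

theorem exists_fixed {G : Type*} [Group G] [Finite G] (p : ℕ) [Fact p.Prime] (x : G)
    (hx : orderOf x = p) (T : Set G)
    (hT : ∀ z ∈ Subgroup.zpowers x, ∀ t ∈ T, z * t * z⁻¹ ∈ T) (hp : ¬ p ∣ Nat.card T) :
    ∃ t ∈ T, x * t * x⁻¹ = t := by
  letI := conjOn x T hT
  have hP : IsPGroup p (Subgroup.zpowers x) :=
    IsPGroup.of_card (n := 1) (by rw [Nat.card_zpowers, hx, pow_one])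
  obtain ⟨t, ht⟩ := IsPGroup.nonempty_fixed_point_of_prime_not_dvd_card hP T hp
  refine ⟨t.1, t.2, ?_⟩
  have := ht ⟨x, Subgroup.mem_zpowers x⟩
  exact congrArg Subtype.val this

theorem card_modEq_one {G : Type*} [Group G] [Finite G] (p : ℕ) [Fact p.Prime] (x : G)
    (hx : orderOf x = p) (T : Set G)
    (hT : ∀ z ∈ Subgroup.zpowers x, ∀ t ∈ T, z * t * z⁻¹ ∈ T) (t₀ : G) (h0 : t₀ ∈ T)
    (hfix0 : ∀ z ∈ Subgroup.zpowers x, z * t₀ * z⁻¹ = t₀)
    (huniq : ∀ t ∈ T, x * t * x⁻¹ = t → t = t₀) : Nat.card T ≡ 1 [MOD p] := by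
  letI := conjOn x T hT
  have hP : IsPGroup p (Subgroup.zpowers x) :=
    IsPGroup.of_card (n := 1) (by rw [Nat.card_zpowers, hx, pow_one])
  have h := IsPGroup.card_modEq_card_fixedPoints hP T
  have h1 : Nat.card (MulAction.fixedPoints (Subgroup.zpowers x) T) = 1 := by
    rw [Nat.card_eq_one_iff_unique]
    refine ⟨⟨fun a b => ?_⟩, ⟨⟨⟨t₀, h0⟩, fun z => Subtype.ext (hfix0 z z.2)⟩⟩⟩
    apply Subtype.ext; apply Subtype.ext
    rw [huniq a.1.1 a.1.2 (congrArg Subtype.val (a.2 ⟨x, Subgroup.mem_zpowers x⟩)),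
      huniq b.1.1 b.1.2 (congrArg Subtype.val (b.2 ⟨x, Subgroup.mem_zpowers x⟩))]
  rwa [h1] at h


theorem comm_mem_cent {G : Type*} [Group G] (x n₁ n₂ : G)
    (h₁ : n₁ ∈ Subgroup.normalizer ((Subgroup.zpowers x : Subgroup G) : Set G))
    (h₂ : n₂ ∈ Subgroup.normalizer ((Subgroup.zpowers x : Subgroup G) : Set G)) :
    (n₂ * n₁)⁻¹ * (n₁ * n₂) ∈ Subgroup.centralizer ({x} : Set G) := by
  have k₁ : n₁ * x * n₁⁻¹ ∈ Subgroup.zpowers x :=
    (Subgroup.mem_set_normalizer_iff.mp h₁ x).mp (Subgroup.mem_zpowers x)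
  have k₂ : n₂ * x * n₂⁻¹ ∈ Subgroup.zpowers x :=
    (Subgroup.mem_set_normalizer_iff.mp h₂ x).mp (Subgroup.mem_zpowers x)
  obtain ⟨i, hi⟩ := Subgroup.mem_zpowers_iff.mp k₁
  obtain ⟨j, hj⟩ := Subgroup.mem_zpowers_iff.mp k₂
  have e1 : n₁ * n₂ * x * (n₁ * n₂)⁻¹ = x ^ (i * j) := by
    have : n₁ * n₂ * x * (n₁ * n₂)⁻¹ = n₁ * (n₂ * x * n₂⁻¹) * n₁⁻¹ := by group
    rw [this, ← hj, ← conj_zpow, ← hi, ← zpow_mul]
  have e2 : n₂ * n₁ * x * (n₂ * n₁)⁻¹ = x ^ (i * j) := by
    have : n₂ * n₁ * x * (n₂ * n₁)⁻¹ = n₂ * (n₁ * x * n₁⁻¹) * n₂⁻¹ := by group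
    rw [this, ← hi, ← conj_zpow, ← hj, ← zpow_mul, mul_comm]
  rw [Subgroup.mem_centralizer_iff]
  intro y hy
  rw [Set.mem_singleton_iff] at hy
  rw [hy]
  have e3 : n₁ * n₂ * x * (n₁ * n₂)⁻¹ = n₂ * n₁ * x * (n₂ * n₁)⁻¹ := e1.trans e2.symm
  have e4 : (n₂ * n₁)⁻¹ * (n₁ * n₂) * x
      = (n₂ * n₁)⁻¹ * (n₁ * n₂ * x * (n₁ * n₂)⁻¹) * (n₁ * n₂) := by group
  rw [e4, e3]; group

theorem part_a {G : Type*} [Group G] [Finite G] (p : ℕ) [Fact p.Prime] (x : G)
    (hx : orderOf x = p) (hC : Subgroup.centralizer ({x} : Set G) = Subgroup.zpowers x)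
    (S : Subgroup G) [S.Normal] (hpS : p ∣ Nat.card S) : commutator G ≤ S := by
  obtain ⟨y, hy⟩ := exists_prime_orderOf_dvd_card' (G := S) p hpS
  have hyG : orderOf (y : G) = p := by rw [Subgroup.orderOf_coe]; exact hy
  have hPy : IsPGroup p (Subgroup.zpowers (y : G)) :=
    IsPGroup.of_card (n := 1) (by rw [Nat.card_zpowers, hyG, pow_one])
  have hPx : IsPGroup p (Subgroup.zpowers x) :=
    IsPGroup.of_card (n := 1) (by rw [Nat.card_zpowers, hx, pow_one])
  obtain ⟨P, hP⟩ := hPy.exists_le_sylow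
  obtain ⟨P₀, hP₀⟩ := hPx.exists_le_sylow
  have hP₀e : (P₀ : Subgroup G) = Subgroup.zpowers x :=
    pgroup_eq p x hx hC P₀ P₀.isPGroup' (hP₀ (Subgroup.mem_zpowers x))
  obtain ⟨g, hg⟩ := MulAction.exists_smul_eq G P P₀
  have hw : g * (y : G) * g⁻¹ ∈ Subgroup.zpowers x := by
    rw [← hP₀e, ← hg, Sylow.coe_subgroup_smul]
    exact Subgroup.smul_mem_pointwise_smul _ _ _ (hP (Subgroup.mem_zpowers _))
  have hw1 : g * (y : G) * g⁻¹ ≠ 1 := by
    intro h
    have : (y : G) = 1 := by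
      have e : (y : G) = g⁻¹ * (g * (y : G) * g⁻¹) * g := by group
      rw [e, h]; group
    rw [this, orderOf_one] at hyG
    exact (Fact.out : p.Prime).one_lt.ne' hyG.symm
  have hxw := mem_zpowers_of_ne_one p x _ hx hw hw1
  have hwS : g * (y : G) * g⁻¹ ∈ S := Subgroup.Normal.conj_mem inferInstance _ y.2 g
  have hxS : x ∈ S := (Subgroup.zpowers_le.mpr hwS) hxw
  have hQ : IsPGroup p ((Subgroup.zpowers x).subgroupOf S) := hPx.comap_subtype
  obtain ⟨R, hR⟩ := hQ.exists_le_sylow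
  have hRe : (R : Subgroup S).map S.subtype = Subgroup.zpowers x := by
    apply pgroup_eq p x hx hC _ (R.isPGroup'.map S.subtype)
    exact ⟨⟨x, hxS⟩, hR (Subgroup.mem_subgroupOf.mpr (Subgroup.mem_zpowers x)), rfl⟩
  have hF := Sylow.normalizer_sup_eq_top R
  rw [hRe] at hF
  have hzS : Subgroup.zpowers x ≤ S := Subgroup.zpowers_le.mpr hxS
  rw [commutator_def, Subgroup.commutator_le]
  intro a _ b _
  have ha : a ∈ ((Subgroup.normalizer ((Subgroup.zpowers x : Subgroup G) : Set G) ⊔ S :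
      Subgroup G) : Set G) := by rw [hF]; trivial
  have hb : b ∈ ((Subgroup.normalizer ((Subgroup.zpowers x : Subgroup G) : Set G) ⊔ S :
      Subgroup G) : Set G) := by rw [hF]; trivial
  rw [Subgroup.mul_normal] at ha hb
  obtain ⟨n₁, hn₁, s₁, hs₁, rfl⟩ := Set.mem_mul.mp ha
  obtain ⟨n₂, hn₂, s₂, hs₂, rfl⟩ := Set.mem_mul.mp hb
  have key : ⁅n₁, n₂⁆ ∈ S := by
    have h := comm_mem_cent x n₁⁻¹ n₂⁻¹ (inv_mem hn₁) (inv_mem hn₂)
    rw [hC] at h
    have e : ⁅n₁, n₂⁆ = (n₂⁻¹ * n₁⁻¹)⁻¹ * (n₁⁻¹ * n₂⁻¹) := by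
      rw [commutatorElement_def]; group
    rw [e]; exact hzS h
  have hπ : ∀ g : G, g ∈ S ↔ QuotientGroup.mk' S g = 1 := fun g => by
    rw [QuotientGroup.mk'_apply, QuotientGroup.eq_one_iff]
  rw [hπ, map_commutatorElement, map_mul, map_mul, (hπ s₁).mp hs₁, (hπ s₂).mp hs₂, mul_one,
    mul_one, ← map_commutatorElement, ← hπ]
  exact key

theorem part_b {G : Type*} [Group G] [Finite G] (p : ℕ) [Fact p.Prime] (x : G)
    (hx : orderOf x = p) (hC : Subgroup.centralizer ({x} : Set G) = Subgroup.zpowers x)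
    (S : Subgroup G) [S.Normal] (hpS : ¬ p ∣ Nat.card S) :
    Nat.card S ∣ Nat.card {H : Subgroup G // Nat.card H = p} ∧ Nat.card S % p = 1 ∧
      orderOf (QuotientGroup.mk x : G ⧸ S) = p ∧
      Subgroup.centralizer ({(QuotientGroup.mk x : G ⧸ S)} : Set (G ⧸ S))
        = Subgroup.zpowers (QuotientGroup.mk x : G ⧸ S) := by
  have hxS : x ∉ S := by
    intro h
    apply hpS
    have := orderOf_dvd_natCard (⟨x, h⟩ : S)
    rwa [Subgroup.orderOf_mk, hx] at this
  have hdisj : ∀ z ∈ S, z ∈ Subgroup.zpowers x → z = 1 := by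
    intro z hzS hz
    by_contra h1
    exact hxS (Subgroup.zpowers_le.mpr hzS (mem_zpowers_of_ne_one p x z hx hz h1))
  have hcent : ∀ t : G, x * t * x⁻¹ = t → t ∈ Subgroup.zpowers x := by
    intro t hfix
    rw [← hC, Subgroup.mem_centralizer_iff]
    intro y hy
    rw [Set.mem_singleton_iff] at hy
    rw [hy]
    calc x * t = x * t * x⁻¹ * x := by group
      _ = t * x := by rw [hfix]
  refine ⟨?_, ?_, ?_, ?_⟩
  · have hPx : IsPGroup p (Subgroup.zpowers x) :=
      IsPGroup.of_card (n := 1) (by rw [Nat.card_zpowers, hx, pow_one])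
    obtain ⟨P₀, hP₀⟩ := hPx.exists_le_sylow
    have hP₀e : (P₀ : Subgroup G) = Subgroup.zpowers x :=
      pgroup_eq p x hx hC P₀ P₀.isPGroup' (hP₀ (Subgroup.mem_zpowers x))
    have hcardP : ∀ P : Sylow p G, Nat.card (P : Subgroup G) = p := by
      intro P
      rw [Sylow.card_eq_multiplicity P, ← Sylow.card_eq_multiplicity P₀, hP₀e, Nat.card_zpowers,
        hx]
    have hcount : Nat.card {H : Subgroup G // Nat.card H = p} = Nat.card (Sylow p G) := by
      symm
      apply Nat.card_congr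
      refine Equiv.ofBijective (fun P => ⟨(P : Subgroup G), hcardP P⟩) ⟨?_, ?_⟩
      · intro P Q h
        exact Sylow.ext (congrArg Subtype.val h)
      · rintro ⟨H, hH⟩
        have hHp : IsPGroup p H := IsPGroup.of_card (n := 1) (by rw [hH, pow_one])
        obtain ⟨P, hP⟩ := hHp.exists_le_sylow
        refine ⟨P, Subtype.ext ?_⟩
        exact (Subgroup.eq_of_le_of_card_ge hP (by rw [hcardP P, hH])).symm
    rw [hcount, Sylow.card_eq_index_normalizer P₀]
    show Nat.card S ∣ (Subgroup.normalizer ((P₀ : Subgroup G) : Set G)).index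
    rw [hP₀e]
    apply card_dvd_index_of_disjoint
    rw [eq_bot_iff]
    intro s hs
    obtain ⟨hsS, hsN⟩ := Subgroup.mem_inf.mp hs
    rw [Subgroup.mem_bot]
    apply hdisj s hsS
    have k1 : s * x * s⁻¹ ∈ Subgroup.zpowers x :=
      (Subgroup.mem_set_normalizer_iff.mp hsN x).mp (Subgroup.mem_zpowers x)
    have k2 : s * x * s⁻¹ * x⁻¹ ∈ Subgroup.zpowers x :=
      Subgroup.mul_mem _ k1 (Subgroup.inv_mem _ (Subgroup.mem_zpowers x))
    have k3 : s * x * s⁻¹ * x⁻¹ ∈ S := by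
      have : s * x * s⁻¹ * x⁻¹ = s * (x * s⁻¹ * x⁻¹) := by group
      rw [this]
      exact S.mul_mem hsS (Subgroup.Normal.conj_mem inferInstance _ (S.inv_mem hsS) x)
    have k4 := hdisj _ k3 k2
    apply hcent
    calc x * s * x⁻¹ = (s * x * s⁻¹ * x⁻¹)⁻¹ * s := by group
      _ = s := by rw [k4]; group
  · have hT : ∀ z ∈ Subgroup.zpowers x, ∀ t ∈ (S : Set G), z * t * z⁻¹ ∈ (S : Set G) :=
      fun z _ t ht => Subgroup.Normal.conj_mem inferInstance t ht z
    have h := card_modEq_one p x hx (S : Set G) hT 1 S.one_mem (fun z _ => by group) (by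
      intro t ht hfix
      exact hdisj t ht (hcent t hfix))
    have h' : Nat.card S ≡ 1 [MOD p] := h
    rw [Nat.ModEq] at h'
    rw [h', Nat.mod_eq_of_lt (Fact.out : p.Prime).one_lt]
  · apply orderOf_eq_prime
    · rw [← QuotientGroup.mk_pow, ← hx, pow_orderOf_eq_one]; rfl
    · rw [Ne, QuotientGroup.eq_one_iff]; exact hxS
  · apply le_antisymm
    · intro gb hgb
      obtain ⟨g, rfl⟩ := QuotientGroup.mk_surjective gb
      have hcomm : (QuotientGroup.mk x : G ⧸ S) * (QuotientGroup.mk g)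
          = (QuotientGroup.mk g) * (QuotientGroup.mk x) :=
        Subgroup.mem_centralizer_iff.mp hgb _ (Set.mem_singleton _)
      have hzcomm : ∀ z ∈ Subgroup.zpowers x, (QuotientGroup.mk z : G ⧸ S) * QuotientGroup.mk g
          = QuotientGroup.mk g * QuotientGroup.mk z := by
        intro z hz
        obtain ⟨k, rfl⟩ := Subgroup.mem_zpowers_iff.mp hz
        rw [QuotientGroup.mk_zpow]
        exact (Commute.zpow_left hcomm k).eq
      have hT : ∀ z ∈ Subgroup.zpowers x,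
          ∀ t ∈ {y : G | (QuotientGroup.mk y : G ⧸ S) = QuotientGroup.mk g},
          z * t * z⁻¹ ∈ {y : G | (QuotientGroup.mk y : G ⧸ S) = QuotientGroup.mk g} := by
        intro z hz t ht
        show (QuotientGroup.mk (z * t * z⁻¹) : G ⧸ S) = QuotientGroup.mk g
        rw [QuotientGroup.mk_mul, QuotientGroup.mk_mul, QuotientGroup.mk_inv,
          show (QuotientGroup.mk t : G ⧸ S) = QuotientGroup.mk g from ht, hzcomm z hz,
          mul_inv_cancel_right]
      have hcardT : Nat.card {y : G | (QuotientGroup.mk y : G ⧸ S) = QuotientGroup.mk g}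
          = Nat.card S := by
        apply Nat.card_congr
        exact
          { toFun := fun t => ⟨g⁻¹ * t, QuotientGroup.eq.mp (Eq.symm t.2)⟩
            invFun := fun s => ⟨g * s, by
              show (QuotientGroup.mk (g * s) : G ⧸ S) = QuotientGroup.mk g
              rw [QuotientGroup.mk_mul, (QuotientGroup.eq_one_iff (s : G)).mpr s.2, mul_one]⟩
            left_inv := fun t => Subtype.ext (by simp)
            right_inv := fun s => Subtype.ext (by simp) }
      obtain ⟨t, htT, hfix⟩ := exists_fixed p x hx _ hT (by rw [hcardT]; exact hpS)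
      have htc : t ∈ Subgroup.zpowers x := hcent t hfix
      obtain ⟨k, rfl⟩ := Subgroup.mem_zpowers_iff.mp htc
      rw [← (show (QuotientGroup.mk (x ^ k) : G ⧸ S) = QuotientGroup.mk g from htT),
        QuotientGroup.mk_zpow]
      exact Subgroup.zpow_mem_zpowers _ k
    · rw [Subgroup.zpowers_le, Subgroup.mem_centralizer_iff]
      intro y hy
      rw [Set.mem_singleton_iff] at hy
      rw [hy]

theorem main {G : Type*} [Group G] [Finite G] (p : ℕ) (hp : p.Prime) (x : G)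
    (hx : orderOf x = p) (hC : Subgroup.centralizer ({x} : Set G) = Subgroup.zpowers x)
    (S : Subgroup G) [S.Normal] :
    (p ∣ Nat.card S → commutator G ≤ S) ∧
    (¬ p ∣ Nat.card S → Nat.card S ∣ Nat.card {H : Subgroup G // Nat.card H = p} ∧
      Nat.card S % p = 1 ∧ orderOf (QuotientGroup.mk x : G ⧸ S) = p ∧
      Subgroup.centralizer ({(QuotientGroup.mk x : G ⧸ S)} : Set (G ⧸ S))
        = Subgroup.zpowers (QuotientGroup.mk x : G ⧸ S)) := by
  haveI : Fact p.Prime := ⟨hp⟩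
  exact ⟨part_a p x hx hC S, part_b p x hx hC S⟩

end Cfsg.Agent.Lib_helper9_CentPrime
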