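import Mathlib
import Cfsg.Agent.Lib_helper9_CentPrime
import Cfsg.Agent.Lib_helper7_SE2
import Cfsg.Agent.Lib_helper1_Basic
import Cfsg.Agent.Lib_helper1_CF2

set_option autoImplicit false

/-! Groups with a self-centralizing element of prime order: counting classes of elements of
order `p`, Frattini argument, and the commutator subgroup. -/

namespace Cfsg.Agent.H1CP

open Cfsg.Agent.Lib_helper9_CentPrime
open scoped commutatorElement

theorem mem_normalizer_of_conj_mem {G : Type*} [Group G] [Finite G] (x g : G)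
    (hg : g * x * g⁻¹ ∈ Subgroup.zpowers x) :
    g ∈ Subgroup.normalizer ((Subgroup.zpowers x : Subgroup G) : Set G) := by
  apply Lib_helper1_Basic.mem_normalizer_of_conj_le
  intro m hm
  obtain ⟨k, rfl⟩ := Subgroup.mem_zpowers_iff.mp hm
  rw [← conj_zpow]
  exact Subgroup.zpow_mem _ hg k

theorem cent_eq {G : Type*} [Group G] [Finite G] (p : ℕ) [Fact p.Prime] (x : G)
    (hx : orderOf x = p) (hC : Subgroup.centralizer ({x} : Set G) = Subgroup.zpowers x)
    (w : G) (hw : w ∈ Subgroup.zpowers x) (hw1 : w ≠ 1) (g : G) (hg : g * w = w * g) :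
    g ∈ Subgroup.zpowers x := by
  have hxw := mem_zpowers_of_ne_one p x w hx hw hw1
  obtain ⟨k, hk⟩ := Subgroup.mem_zpowers_iff.mp hxw
  rw [← hC, Subgroup.mem_centralizer_iff]
  intro y hy
  rw [Set.mem_singleton_iff] at hy
  rw [hy, ← hk]
  have hcomm : Commute g w := hg
  exact ((hcomm.zpow_right k).eq).symm

theorem exists_sylow {G : Type*} [Group G] [Finite G] (p : ℕ) [Fact p.Prime] (x : G)
    (hx : orderOf x = p) (hC : Subgroup.centralizer ({x} : Set G) = Subgroup.zpowers x) :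
    ∃ P : Sylow p G, (P : Subgroup G) = Subgroup.zpowers x := by
  have hPx : IsPGroup p (Subgroup.zpowers x) :=
    IsPGroup.of_card (n := 1) (by rw [Nat.card_zpowers, hx, pow_one])
  obtain ⟨P, hP⟩ := hPx.exists_le_sylow
  exact ⟨P, pgroup_eq p x hx hC P P.2 (hP (Subgroup.mem_zpowers x))⟩

theorem frattini {G : Type*} [Group G] [Finite G] (p : ℕ) [Fact p.Prime] (x : G)
    (hx : orderOf x = p) (hC : Subgroup.centralizer ({x} : Set G) = Subgroup.zpowers x)
    (S : Subgroup G) [hS : S.Normal] (hxS : x ∈ S) :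
    S ⊔ Subgroup.normalizer ((Subgroup.zpowers x : Subgroup G) : Set G) = ⊤ := by
  obtain ⟨P, hP⟩ := exists_sylow p x hx hC
  rw [eq_top_iff]
  intro g _
  have hPS : (P : Subgroup G) ≤ S := by rw [hP, Subgroup.zpowers_le]; exact hxS
  have hD : IsPGroup p (Subgroup.zpowers (g * x * g⁻¹)) := by
    apply IsPGroup.of_card (n := 1)
    rw [Nat.card_zpowers, pow_one, ← hx]
    exact orderOf_injective (MulAut.conj g).toMonoidHom (MulAut.conj g).injective x
  have hDS : Subgroup.zpowers (g * x * g⁻¹) ≤ S := by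
    rw [Subgroup.zpowers_le]; exact hS.conj_mem x hxS g
  obtain ⟨w, hw, hwP⟩ := Lib_helper7_SE2.exists_conj_le_of_le P S hPS _ hD hDS
  have h1 : w * (g * x * g⁻¹) * w⁻¹ ∈ Subgroup.zpowers x := by
    rw [← hP]; exact hwP _ (Subgroup.mem_zpowers _)
  have h2 : w * g ∈ Subgroup.normalizer ((Subgroup.zpowers x : Subgroup G) : Set G) := by
    apply mem_normalizer_of_conj_mem
    have e : w * g * x * (w * g)⁻¹ = w * (g * x * g⁻¹) * w⁻¹ := by group
    rw [e]; exact h1
  have e : g = w⁻¹ * (w * g) := by group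
  rw [e]
  exact Subgroup.mul_mem _ (Subgroup.mem_sup_left (Subgroup.inv_mem _ hw))
    (Subgroup.mem_sup_right h2)

theorem count {G : Type*} [Group G] [Finite G] (p : ℕ) [Fact p.Prime] (x : G)
    (hx : orderOf x = p) (hC : Subgroup.centralizer ({x} : Set G) = Subgroup.zpowers x) (t : ℕ)
    (ht : Nat.card {C : ConjClasses G // ∃ g ∈ C.carrier, orderOf g = p} = t) :
    t * (Subgroup.zpowers x).relIndex
      (Subgroup.normalizer ((Subgroup.zpowers x : Subgroup G) : Set G)) = p - 1 := by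
  classical
  have hp : p.Prime := Fact.out
  obtain ⟨P, hP⟩ := exists_sylow p x hx hC
  obtain ⟨N, hN⟩ : ∃ N : Subgroup G,
      N = Subgroup.normalizer ((Subgroup.zpowers x : Subgroup G) : Set G) := ⟨_, rfl⟩
  rw [← hN]
  have hord : ∀ w : G, w ∈ Subgroup.zpowers x → w ≠ 1 → orderOf w = p := by
    intro w hw hw1
    have h1 : orderOf w ∣ p := by rw [← hx]; exact orderOf_dvd_of_mem_zpowers hw
    rcases (Nat.dvd_prime hp).mp h1 with h | h
    · exact absurd (orderOf_eq_one_iff.mp h) hw1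
    · exact h
  let φ : {w : ↥(Subgroup.zpowers x) // w ≠ 1} →
      {C : ConjClasses G // ∃ g ∈ C.carrier, orderOf g = p} :=
    fun w => ⟨ConjClasses.mk ((w.1 : ↥(Subgroup.zpowers x)) : G),
      ⟨((w.1 : ↥(Subgroup.zpowers x)) : G), ConjClasses.mem_carrier_mk,
        hord _ w.1.2 (fun h => w.2 (Subtype.ext h))⟩⟩
  have hfib : ∀ C : {C : ConjClasses G // ∃ g ∈ C.carrier, orderOf g = p},
      Nat.card {w : {w : ↥(Subgroup.zpowers x) // w ≠ 1} // φ w = C} =
        (Subgroup.zpowers x).relIndex N := by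
    rintro ⟨c, g, hgc, hgo⟩
    have hD : IsPGroup p (Subgroup.zpowers g) :=
      IsPGroup.of_card (n := 1) (by rw [Nat.card_zpowers, hgo, pow_one])
    obtain ⟨v, -, hv⟩ := Lib_helper7_SE2.exists_conj_le_of_le P ⊤ le_top _ hD le_top
    have hu : v * g * v⁻¹ ∈ Subgroup.zpowers x := by
      rw [← hP]; exact hv g (Subgroup.mem_zpowers g)
    have hg1 : g ≠ 1 := by
      rintro rfl
      rw [orderOf_one] at hgo
      exact hp.one_lt.ne' hgo.symm
    have hu1 : v * g * v⁻¹ ≠ 1 := by
      intro h; apply hg1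
      have e : g = v⁻¹ * (v * g * v⁻¹) * v := by group
      rw [e, h]; group
    obtain ⟨u, hue⟩ : ∃ u : G, u = v * g * v⁻¹ := ⟨_, rfl⟩
    rw [← hue] at hu hu1
    have hcu : c = ConjClasses.mk u := by
      have h1 : ConjClasses.mk g = c := ConjClasses.mem_carrier_iff_mk_eq.mp hgc
      rw [← h1, hue]
      exact ConjClasses.mk_eq_mk_iff_isConj.mpr (isConj_iff.mpr ⟨v, rfl⟩)
    have hxu : x ∈ Subgroup.zpowers u := mem_zpowers_of_ne_one p x u hx hu hu1
    have key : ∀ n : ↥N, ∃ w : {w : {w : ↥(Subgroup.zpowers x) // w ≠ 1} //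
        φ w = ⟨c, g, hgc, hgo⟩},
        (((w.1.1 : ↥(Subgroup.zpowers x)) : G)) = (n : G) * u * (n : G)⁻¹ := by
      intro n
      have hn : (n : G) ∈ Subgroup.normalizer ((Subgroup.zpowers x : Subgroup G) : Set G) := by
        rw [← hN]; exact n.2
      have h1 : (n : G) * u * (n : G)⁻¹ ∈ Subgroup.zpowers x :=
        (Subgroup.mem_normalizer_iff.mp hn u).mp hu
      have h2 : (n : G) * u * (n : G)⁻¹ ≠ 1 := by
        intro h; apply hu1
        have e : u = (n : G)⁻¹ * ((n : G) * u * (n : G)⁻¹) * (n : G) := by group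
        rw [e, h]; group
      refine ⟨⟨⟨⟨_, h1⟩, fun h => h2 (congrArg Subtype.val h)⟩, ?_⟩, rfl⟩
      apply Subtype.ext
      show ConjClasses.mk ((n : G) * u * (n : G)⁻¹) = c
      rw [hcu]
      exact ConjClasses.mk_eq_mk_iff_isConj.mpr (isConj_iff.mpr ⟨(n : G)⁻¹, by group⟩)
    choose g0 hg0 using key
    have hwd : ∀ a b : ↥N, a⁻¹ * b ∈ (Subgroup.zpowers x).subgroupOf N → g0 a = g0 b := by
      intro a b h1
      have h2 : (a : G)⁻¹ * (b : G) ∈ Subgroup.zpowers x := Subgroup.mem_subgroupOf.mp h1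
      apply Subtype.ext; apply Subtype.ext; apply Subtype.ext
      rw [hg0 a, hg0 b]
      obtain ⟨i, hi⟩ := Subgroup.mem_zpowers_iff.mp h2
      obtain ⟨j, hj⟩ := Subgroup.mem_zpowers_iff.mp hu
      have h3 : ((a : G)⁻¹ * (b : G)) * u = u * ((a : G)⁻¹ * (b : G)) := by
        rw [← hi, ← hj]; exact zpow_mul_comm x i j
      have e : (b : G) * u * (b : G)⁻¹ =
          (a : G) * (((a : G)⁻¹ * (b : G)) * u) * (b : G)⁻¹ := by group
      rw [e, h3]; group
    let f : (↥N ⧸ (Subgroup.zpowers x).subgroupOf N) →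
        {w : {w : ↥(Subgroup.zpowers x) // w ≠ 1} // φ w = ⟨c, g, hgc, hgo⟩} :=
      fun q => Quotient.liftOn' q g0
        (fun a b hab => hwd a b (QuotientGroup.leftRel_apply.mp hab))
    have hfmk : ∀ a : ↥N, f (QuotientGroup.mk a) = g0 a := fun a => rfl
    have hinj : Function.Injective f := by
      intro q1 q2 h
      obtain ⟨a, rfl⟩ := QuotientGroup.mk_surjective q1
      obtain ⟨b, rfl⟩ := QuotientGroup.mk_surjective q2
      rw [hfmk, hfmk] at h
      have h1 : (a : G) * u * (a : G)⁻¹ = (b : G) * u * (b : G)⁻¹ := by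
        rw [← hg0 a, ← hg0 b, h]
      apply QuotientGroup.eq.mpr
      rw [Subgroup.mem_subgroupOf]
      have h2 : ((a : G)⁻¹ * (b : G)) * u = u * ((a : G)⁻¹ * (b : G)) := by
        have e : (a : G)⁻¹ * (b : G) * u =
            (a : G)⁻¹ * ((b : G) * u * (b : G)⁻¹) * (b : G) := by group
        rw [e, ← h1]; group
      exact cent_eq p x hx hC u hu hu1 _ h2
    have hsurj : Function.Surjective f := by
      intro w
      have hw : φ w.1 = ⟨c, g, hgc, hgo⟩ := w.2
      have h1 : ConjClasses.mk (((w.1.1 : ↥(Subgroup.zpowers x)) : G)) = ConjClasses.mk u := by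
        have h0 := congrArg Subtype.val hw
        rw [← hcu]; exact h0
      obtain ⟨d, hd⟩ := isConj_iff.mp (ConjClasses.mk_eq_mk_iff_isConj.mp h1.symm)
      have hdN : d ∈ N := by
        rw [hN]
        apply mem_normalizer_of_conj_mem
        obtain ⟨j, hj⟩ := Subgroup.mem_zpowers_iff.mp hxu
        have hx' : d * x * d⁻¹ = (d * u * d⁻¹) ^ j := by rw [conj_zpow, hj]
        rw [hx', hd]
        exact Subgroup.zpow_mem _ w.1.1.2 j
      refine ⟨QuotientGroup.mk ⟨d, hdN⟩, ?_⟩
      rw [hfmk]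
      apply Subtype.ext; apply Subtype.ext; apply Subtype.ext
      rw [hg0 ⟨d, hdN⟩]
      exact hd
    have hcard := Nat.card_congr (Equiv.ofBijective f ⟨hinj, hsurj⟩)
    rw [← hcard]
    rfl
  haveI : Fintype {C : ConjClasses G // ∃ g ∈ C.carrier, orderOf g = p} := Fintype.ofFinite _
  have hsum : Nat.card {w : ↥(Subgroup.zpowers x) // w ≠ 1} =
      Nat.card {C : ConjClasses G // ∃ g ∈ C.carrier, orderOf g = p} *
        (Subgroup.zpowers x).relIndex N := by
    rw [← Nat.card_congr (Equiv.sigmaFiberEquiv φ), Nat.card_sigma,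
      Finset.sum_congr rfl (fun C _ => hfib C), Finset.sum_const, Finset.card_univ, smul_eq_mul,
      Nat.card_eq_fintype_card]
  have hY : Nat.card {w : ↥(Subgroup.zpowers x) // w ≠ 1} + 1 = p := by
    rw [← Finite.card_option,
      Nat.card_congr (Equiv.optionSubtypeNe (1 : ↥(Subgroup.zpowers x))), Nat.card_zpowers, hx]
  rw [← ht, ← hsum]
  omega

theorem index_of_self_normalizing {G : Type*} [Group G] [Finite G] (p : ℕ) [Fact p.Prime]
    (x : G) (hx : orderOf x = p)
    (hC : Subgroup.centralizer ({x} : Set G) = Subgroup.zpowers x)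
    (hNX : Subgroup.normalizer ((Subgroup.zpowers x : Subgroup G) : Set G) ≤
      Subgroup.zpowers x) :
    (commutator G).index = p := by
  obtain ⟨P, hP⟩ := exists_sylow p x hx hC
  have hPN : Subgroup.normalizer ((P : Subgroup G) : Set G) ≤
      Subgroup.centralizer ((P : Subgroup G) : Set G) := by
    rw [hP]
    intro n hn
    have hnX := hNX hn
    rw [Subgroup.mem_centralizer_iff]
    intro y hy
    obtain ⟨i, rfl⟩ := Subgroup.mem_zpowers_iff.mp hnX
    obtain ⟨j, rfl⟩ := Subgroup.mem_zpowers_iff.mp hy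
    exact zpow_mul_comm x j i
  have hcomp := MonoidHom.ker_transferSylow_isComplement' P hPN
  obtain ⟨K, hK⟩ : ∃ K : Subgroup G, K = (MonoidHom.transferSylow P hPN).ker := ⟨_, rfl⟩
  rw [← hK] at hcomp
  haveI hKn : K.Normal := by rw [hK]; infer_instance
  have hKidx : K.index = p := by
    have h1 := hcomp.symm.index_eq_card
    rw [h1, hP, Nat.card_zpowers, hx]
  have h1 : commutator G ≤ K := H1CF.commutator_le_of_index_prime K hKidx
  have hKX : ∀ k ∈ K, k ∈ Subgroup.zpowers x → k = 1 := by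
    intro k hk hkX
    have hdisj := hcomp.disjoint
    have h2 : k ∈ K ⊓ (P : Subgroup G) := ⟨hk, by rw [hP]; exact hkX⟩
    rw [hdisj.eq_bot] at h2
    exact Subgroup.mem_bot.mp h2
  have h2 : K ≤ commutator G := by
    let ψ : K → K := fun l => ⟨(l : G)⁻¹ * (x * (l : G) * x⁻¹),
      K.mul_mem (K.inv_mem l.2) (hKn.conj_mem _ l.2 x)⟩
    have hinj : Function.Injective ψ := by
      intro a b hab
      have h3 : (a : G)⁻¹ * (x * (a : G) * x⁻¹) = (b : G)⁻¹ * (x * (b : G) * x⁻¹) :=
        congrArg Subtype.val hab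
      have h4 : ((b : G) * (a : G)⁻¹) * x = x * ((b : G) * (a : G)⁻¹) := by
        have e1 : (b : G) * (a : G)⁻¹ * x =
            (b : G) * ((a : G)⁻¹ * (x * (a : G) * x⁻¹)) * (x * (a : G)⁻¹) := by group
        rw [e1, h3]; group
      have h5 : (b : G) * (a : G)⁻¹ ∈ Subgroup.zpowers x := by
        rw [← hC, Subgroup.mem_centralizer_iff]
        intro y hy
        rw [Set.mem_singleton_iff] at hy
        rw [hy]; exact h4.symm
      have h6 := hKX _ (K.mul_mem b.2 (K.inv_mem a.2)) h5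
      exact Subtype.ext (mul_inv_eq_one.mp h6).symm
    have hsurj : Function.Surjective ψ := Finite.surjective_of_injective hinj
    intro k hk
    obtain ⟨l, hl⟩ := hsurj ⟨k, hk⟩
    have h3 : k = (l : G)⁻¹ * (x * (l : G) * x⁻¹) := (congrArg Subtype.val hl).symm
    rw [h3]
    have h4 : (l : G)⁻¹ * (x * (l : G) * x⁻¹) = ⁅(l : G)⁻¹, x⁆ := by
      rw [commutatorElement_def]; group
    rw [h4]
    exact Subgroup.commutator_mem_commutator (Subgroup.mem_top _) (Subgroup.mem_top _)
  rw [le_antisymm h1 h2, hKidx]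

end Cfsg.Agent.H1CP
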