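import Mathlib
import Cfsg.Prelude.Def_Solvable
import Cfsg.Agent.Lib_helper1_CentPrime2
import Cfsg.Agent.Lib_helper1_PStabQ
import Cfsg.Agent.Lib_helper2_PCons

set_option autoImplicit false

/-! Groups with a self-centralizing element of prime order: the commutator subgroup modulo
`O_{p'}`. -/

namespace Cfsg.Agent.H1CP

open Cfsg.Agent.Lib_helper9_CentPrime
open scoped commutatorElement

theorem le_commutator_of_disjoint {G : Type*} [Group G] [Finite G] (x : G)
    (hC : Subgroup.centralizer ({x} : Set G) = Subgroup.zpowers x)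
    (K : Subgroup G) [hKn : K.Normal] (hKX : ∀ k ∈ K, k ∈ Subgroup.zpowers x → k = 1) :
    K ≤ commutator G := by
  let ψ : K → K := fun l => ⟨(l : G)⁻¹ * (x * (l : G) * x⁻¹),
    K.mul_mem (K.inv_mem l.2) (hKn.conj_mem _ l.2 x)⟩
  have hinj : Function.Injective ψ := by
    intro a b hab
    have h3 : (a : G)⁻¹ * (x * (a : G) * x⁻¹) = (b : G)⁻¹ * (x * (b : G) * x⁻¹) :=
      congrArg Subtype.val hab
    have h4 : ((b : G) * (a : G)⁻¹) * x = x * ((b : G) * (a : G)⁻¹) := by
      have e1 : (b : G) * (a : G)⁻¹ * x =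
          (b : G) * ((a : G)⁻¹ * (x * (a : G) * x⁻¹)) * (x * (a : G)⁻¹) := by group
      rw [e1, h3]; group
    have h5 : (b : G) * (a : G)⁻¹ ∈ Subgroup.zpowers x := by
      rw [← hC, Subgroup.mem_centralizer_iff]
      intro y hy
      rw [Set.mem_singleton_iff] at hy
      rw [hy]; exact h4.symm
    have h6 := hKX _ (K.mul_mem b.2 (K.inv_mem a.2)) h5
    exact Subtype.ext (mul_inv_eq_one.mp h6).symm
  have hsurj : Function.Surjective ψ := Finite.surjective_of_injective hinj
  intro k hk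
  obtain ⟨l, hl⟩ := hsurj ⟨k, hk⟩
  have h3 : k = (l : G)⁻¹ * (x * (l : G) * x⁻¹) := (congrArg Subtype.val hl).symm
  rw [h3]
  have h4 : (l : G)⁻¹ * (x * (l : G) * x⁻¹) = ⁅(l : G)⁻¹, x⁆ := by
    rw [commutatorElement_def]; group
  rw [h4]
  exact Subgroup.commutator_mem_commutator (Subgroup.mem_top _) (Subgroup.mem_top _)

theorem pPrimeCore_le_commutator {G : Type*} [Group G] [Finite G] (p : ℕ) [Fact p.Prime]
    (x : G) (hx : orderOf x = p)
    (hC : Subgroup.centralizer ({x} : Set G) = Subgroup.zpowers x) :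
    Cfsg.pPrimeCore p G ≤ commutator G := by
  haveI : (Cfsg.pPrimeCore p G).Normal := Lib_helper6_PCore.pPrimeCore_normal p
  apply le_commutator_of_disjoint x hC
  intro k hk hkX
  exact H1PSQ.pgroup_inf_triv _ (Lib_helper7_PPrime.card_pPrimeCore_coprime p)
    (Subgroup.zpowers x) (IsPGroup.of_card (n := 1) (by rw [Nat.card_zpowers, hx, pow_one]))
    k hkX hk

theorem commutator_eq_of_self_normalizing {G : Type*} [Group G] [Finite G] (p : ℕ)
    [Fact p.Prime] (x : G) (hx : orderOf x = p)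
    (hC : Subgroup.centralizer ({x} : Set G) = Subgroup.zpowers x)
    (hNX : Subgroup.normalizer ((Subgroup.zpowers x : Subgroup G) : Set G) ≤
      Subgroup.zpowers x) :
    commutator G = Cfsg.pPrimeCore p G := by
  have hp : p.Prime := Fact.out
  obtain ⟨P, hP⟩ := exists_sylow p x hx hC
  have hPN : Subgroup.normalizer ((P : Subgroup G) : Set G) ≤
      Subgroup.centralizer ((P : Subgroup G) : Set G) := by
    rw [hP]
    intro n hn
    have hnX := hNX hn
    rw [Subgroup.mem_centralizer_iff]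
    intro y hy
    obtain ⟨i, rfl⟩ := Subgroup.mem_zpowers_iff.mp hnX
    obtain ⟨j, rfl⟩ := Subgroup.mem_zpowers_iff.mp hy
    exact zpow_mul_comm x j i
  have hcomp := MonoidHom.ker_transferSylow_isComplement' P hPN
  obtain ⟨K, hK⟩ : ∃ K : Subgroup G, K = (MonoidHom.transferSylow P hPN).ker := ⟨_, rfl⟩
  rw [← hK] at hcomp
  haveI hKn : K.Normal := by rw [hK]; infer_instance
  have hKidx : K.index = p := by
    have h1 := hcomp.symm.index_eq_card
    rw [h1, hP, Nat.card_zpowers, hx]
  have h1 : commutator G ≤ K := H1CF.commutator_le_of_index_prime K hKidx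
  have hKc : (Nat.card K).Coprime p := by
    have h2 : (P : Subgroup G).index = Nat.card K := hcomp.index_eq_card
    rw [← h2]
    exact ((Nat.Prime.coprime_iff_not_dvd hp).mpr P.not_dvd_index).symm
  have h2 : K ≤ Cfsg.pPrimeCore p G := Lib_helper7_PPrime.le_pPrimeCore p K hKc
  have h3 : Cfsg.pPrimeCore p G ≤ commutator G := pPrimeCore_le_commutator p x hx hC
  exact le_antisymm (h1.trans h2) h3

theorem mem_commutator_of_not_le {G : Type*} [Group G] [Finite G] (p : ℕ) [Fact p.Prime]
    (x : G) (hx : orderOf x = p)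
    (hC : Subgroup.centralizer ({x} : Set G) = Subgroup.zpowers x)
    (hNX : ¬ Subgroup.normalizer ((Subgroup.zpowers x : Subgroup G) : Set G) ≤
      Subgroup.zpowers x) : x ∈ commutator G := by
  obtain ⟨n, hn', hnX⟩ := SetLike.not_le_iff_exists.mp hNX
  have h1 : n * x * n⁻¹ ∈ Subgroup.zpowers x :=
    (Subgroup.mem_normalizer_iff.mp hn' x).mp (Subgroup.mem_zpowers x)
  have h2 : n * x * n⁻¹ * x⁻¹ ∈ Subgroup.zpowers x :=
    Subgroup.mul_mem _ h1 (Subgroup.inv_mem _ (Subgroup.mem_zpowers x))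
  have h3 : n * x * n⁻¹ * x⁻¹ ≠ 1 := by
    intro h
    apply hnX
    rw [← hC, Subgroup.mem_centralizer_iff]
    intro y hy
    rw [Set.mem_singleton_iff] at hy
    rw [hy]
    have h4 : n * x * n⁻¹ = x := mul_inv_eq_one.mp h
    have h5 : n * x = x * n := mul_inv_eq_iff_eq_mul.mp h4
    exact h5.symm
  have h4 : n * x * n⁻¹ * x⁻¹ ∈ commutator G := by
    show n * x * n⁻¹ * x⁻¹ ∈ ⁅(⊤ : Subgroup G), (⊤ : Subgroup G)⁆
    exact Subgroup.commutator_mem_commutator (Subgroup.mem_top n) (Subgroup.mem_top x)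
  have h5 := mem_zpowers_of_ne_one p x _ hx h2 h3
  exact (Subgroup.zpowers_le.mpr h4) h5

/-- general form of the simplicity statement -/
theorem simple_gen {G : Type*} [Group G] [Finite G] (p : ℕ) [Fact p.Prime] (x : G)
    (hx : orderOf x = p) (hC : Subgroup.centralizer ({x} : Set G) = Subgroup.zpowers x)
    (L : Subgroup G) [hLn : L.Normal] (O : Subgroup G) [hOn : O.Normal]
    (hOc : (Nat.card O).Coprime p) (hxL : x ∈ L)
    (hLmin : ∀ S : Subgroup G, S.Normal → p ∣ Nat.card S → L ≤ S)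
    (hOmax : ∀ S : Subgroup G, S.Normal → (Nat.card S).Coprime p → S ≤ O)
    (hcentQ : Subgroup.centralizer ({(QuotientGroup.mk x : G ⧸ O)} : Set (G ⧸ O)) =
      Subgroup.zpowers (QuotientGroup.mk x : G ⧸ O))
    (h : (O.subgroupOf L).Normal) : IsSimpleGroup (↥L ⧸ O.subgroupOf L) := by
  classical
  have hp : p.Prime := Fact.out
  have hXp : IsPGroup p (Subgroup.zpowers x) :=
    IsPGroup.of_card (n := 1) (by rw [Nat.card_zpowers, hx, pow_one])
  obtain ⟨x', hx'⟩ : ∃ x' : ↥L, (x' : G) = x := ⟨⟨x, hxL⟩, rfl⟩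
  have hx'o : orderOf x' = p := by rw [← Subgroup.orderOf_coe, hx']; exact hx
  have hx'C : Subgroup.centralizer ({x'} : Set ↥L) = Subgroup.zpowers x' := by
    apply le_antisymm
    · intro y hy
      have h1 : x' * y = y * x' := by
        rw [Subgroup.mem_centralizer_iff] at hy
        exact hy x' (Set.mem_singleton x')
      have h2 : (y : G) ∈ Subgroup.zpowers x := by
        rw [← hC, Subgroup.mem_centralizer_iff]
        intro z hz
        rw [Set.mem_singleton_iff] at hz
        rw [hz, ← hx']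
        exact congrArg Subtype.val h1
      obtain ⟨k, hk⟩ := Subgroup.mem_zpowers_iff.mp h2
      rw [Subgroup.mem_zpowers_iff]
      exact ⟨k, Subtype.ext (by rw [Subgroup.coe_zpow, hx']; exact hk)⟩
    · rw [Subgroup.zpowers_le, Subgroup.mem_centralizer_iff]
      intro z hz
      rw [Set.mem_singleton_iff] at hz
      rw [hz]
  have hxO : x ∉ O := by
    intro hxO
    have h1 := H1PSQ.pgroup_inf_triv O hOc (Subgroup.zpowers x) hXp x (Subgroup.mem_zpowers x) hxO
    rw [h1, orderOf_one] at hx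
    exact hp.one_lt.ne' hx.symm
  have hnt : Nontrivial (↥L ⧸ O.subgroupOf L) := by
    refine ⟨⟨QuotientGroup.mk x', 1, ?_⟩⟩
    intro h1
    rw [QuotientGroup.eq_one_iff, Subgroup.mem_subgroupOf, hx'] at h1
    exact hxO h1
  refine { toNontrivial := hnt, eq_bot_or_eq_top_of_normal := ?_ }
  intro Mb hMbn
  obtain ⟨M', hM'⟩ : ∃ M' : Subgroup ↥L,
      M' = Mb.comap (QuotientGroup.mk' (O.subgroupOf L)) := ⟨_, rfl⟩
  haveI hM'n : M'.Normal := by rw [hM']; exact Subgroup.Normal.comap hMbn _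
  have hSM : O.subgroupOf L ≤ M' := by
    rw [hM']; intro y hy
    show (QuotientGroup.mk' (O.subgroupOf L)) y ∈ Mb
    have h1 : (QuotientGroup.mk' (O.subgroupOf L)) y = 1 := (QuotientGroup.eq_one_iff y).mpr hy
    rw [h1]
    exact Mb.one_mem
  have hMb : Mb = M'.map (QuotientGroup.mk' (O.subgroupOf L)) := by
    rw [hM', Subgroup.map_comap_eq_self_of_surjective (QuotientGroup.mk'_surjective _)]
  have hOM : ∀ s : G, ∀ hs : s ∈ L, s ∈ O → (⟨s, hs⟩ : ↥L) ∈ M' :=
    fun s hs hsO => hSM (Subgroup.mem_subgroupOf.mpr hsO)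
  by_cases hpM : p ∣ Nat.card M'
  · right
    have hcomm := part_a p x' hx'o hx'C M' hpM
    have hMtop : M' = ⊤ := by
      by_cases hp2 : p ∣ Nat.card (⁅L, L⁆ : Subgroup G)
      · have h1 : L ≤ ⁅L, L⁆ := hLmin _ inferInstance hp2
        rw [eq_top_iff]
        intro y _
        apply hcomm
        have h2 : (y : G) ∈ (commutator ↥L).map L.subtype := by
          rw [Subgroup.map_subtype_commutator]; exact h1 y.2
        obtain ⟨z, hz, hzy⟩ := h2
        have hzy' : z = y := Subtype.ext hzy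
        rw [← hzy']; exact hz
      · have hc2 : (Nat.card (⁅L, L⁆ : Subgroup G)).Coprime p :=
          ((Nat.Prime.coprime_iff_not_dvd hp).mpr hp2).symm
        have h1 : ⁅L, L⁆ ≤ O := hOmax _ inferInstance hc2
        have hdec : ∀ l ∈ L, ∃ k : ℤ, (x ^ k)⁻¹ * l ∈ O := by
          intro l hl
          have h2 : (QuotientGroup.mk l : G ⧸ O) ∈
              Subgroup.centralizer ({(QuotientGroup.mk x : G ⧸ O)} : Set (G ⧸ O)) := by
            rw [Subgroup.mem_centralizer_iff]
            intro z hz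
            rw [Set.mem_singleton_iff] at hz
            rw [hz, ← QuotientGroup.mk_mul, ← QuotientGroup.mk_mul]
            apply QuotientGroup.eq.mpr
            have h3 : ⁅l⁻¹, x⁻¹⁆ ∈ ⁅L, L⁆ :=
              Subgroup.commutator_mem_commutator (L.inv_mem hl) (L.inv_mem hxL)
            have e : (x * l)⁻¹ * (l * x) = ⁅l⁻¹, x⁻¹⁆ := by
              rw [commutatorElement_def]; group
            rw [e]; exact h1 h3
          rw [hcentQ] at h2
          obtain ⟨k, hk⟩ := Subgroup.mem_zpowers_iff.mp h2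
          refine ⟨k, ?_⟩
          apply QuotientGroup.eq.mp
          rw [QuotientGroup.mk_zpow]; exact hk
        obtain ⟨m, hm⟩ := exists_prime_orderOf_dvd_card' (G := M') p hpM
        have hmo : orderOf ((m : ↥L) : G) = p := by
          rw [Subgroup.orderOf_coe, Subgroup.orderOf_coe]; exact hm
        obtain ⟨j, hj⟩ := hdec _ (m : ↥L).2
        have hxjL : x ^ j ∈ L := L.zpow_mem hxL j
        have hxjM : (⟨x ^ j, hxjL⟩ : ↥L) ∈ M' := by
          have hs : (x ^ j)⁻¹ * ((m : ↥L) : G) ∈ L :=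
            L.mul_mem (L.inv_mem hxjL) (m : ↥L).2
          have h5 := hOM _ hs hj
          have e : (⟨x ^ j, hxjL⟩ : ↥L) =
              (m : ↥L) * (⟨(x ^ j)⁻¹ * ((m : ↥L) : G), hs⟩ : ↥L)⁻¹ := by
            apply Subtype.ext
            show x ^ j = ((m : ↥L) : G) * ((x ^ j)⁻¹ * ((m : ↥L) : G))⁻¹
            group
          rw [e]
          exact M'.mul_mem m.2 (M'.inv_mem h5)
        have hxj1 : x ^ j ≠ 1 := by
          intro h6
          rw [h6, inv_one, one_mul] at hj
          have h7 := H1PSQ.pgroup_inf_triv O hOc (Subgroup.zpowers ((m : ↥L) : G))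
            (IsPGroup.of_card (n := 1) (by rw [Nat.card_zpowers, hmo, pow_one])) _
            (Subgroup.mem_zpowers _) hj
          rw [h7, orderOf_one] at hmo
          exact hp.one_lt.ne' hmo.symm
        have hxx : x ∈ Subgroup.zpowers (x ^ j) :=
          mem_zpowers_of_ne_one p x _ hx
            (Subgroup.zpow_mem _ (Subgroup.mem_zpowers x) j) hxj1
        have hxM : x' ∈ M' := by
          obtain ⟨i, hi⟩ := Subgroup.mem_zpowers_iff.mp hxx
          have e : x' = (⟨x ^ j, hxjL⟩ : ↥L) ^ i := by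
            apply Subtype.ext
            rw [Subgroup.coe_zpow, hx']; exact hi.symm
          rw [e]; exact M'.zpow_mem hxjM i
        rw [eq_top_iff]
        intro y _
        obtain ⟨k, hk⟩ := hdec _ y.2
        have hs : (x ^ k)⁻¹ * (y : G) ∈ L :=
          L.mul_mem (L.inv_mem (L.zpow_mem hxL k)) y.2
        have e : y = x' ^ k * (⟨(x ^ k)⁻¹ * (y : G), hs⟩ : ↥L) := by
          apply Subtype.ext
          show (y : G) = ((x' ^ k : ↥L) : G) * ((x ^ k)⁻¹ * (y : G))
          rw [Subgroup.coe_zpow, hx']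
          group
        rw [e]
        exact M'.mul_mem (M'.zpow_mem hxM k) (hOM _ hs hk)
    rw [hMb, hMtop, Subgroup.map_top_of_surjective _ (QuotientGroup.mk'_surjective _)]
  · left
    have hcM : (Nat.card M').Coprime p := ((Nat.Prime.coprime_iff_not_dvd hp).mpr hpM).symm
    have h1 : M' ≤ Cfsg.pPrimeCore p ↥L := Lib_helper7_PPrime.le_pPrimeCore p M' hcM
    have h2 : (Cfsg.pPrimeCore p ↥L).map L.subtype ≤ O := by
      apply hOmax
      · constructor
        rintro _ ⟨y, hy, rfl⟩ g
        refine ⟨MulAut.conjNormal g y, ?_, ?_⟩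
        · exact Lib_helper2_PCons.pPrimeCore_map_le p
            (MulAut.conjNormal g : ↥L ≃* ↥L).toMonoidHom
            (MulAut.conjNormal g : ↥L ≃* ↥L).surjective ⟨y, hy, rfl⟩
        · exact MulAut.conjNormal_apply g y
      · rw [Subgroup.card_subtype]; exact Lib_helper7_PPrime.card_pPrimeCore_coprime p
    have h3 : M' ≤ O.subgroupOf L := by
      intro y hy
      rw [Subgroup.mem_subgroupOf]
      exact h2 ⟨y, h1 hy, rfl⟩
    rw [hMb, eq_bot_iff]
    rintro _ ⟨y, hy, rfl⟩
    rw [Subgroup.mem_bot]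
    exact (QuotientGroup.eq_one_iff y).mpr (h3 hy)

end Cfsg.Agent.H1CP
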