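import Mathlib
import Cfsg.Prelude.Def_Solvable
import Cfsg.Agent.Lib_helper1_CentPrime3

set_option autoImplicit false

/-! Groups with a self-centralizing element of prime order: normal subgroups of order `1 + np`. -/

namespace Cfsg.Agent.H1CP

open Cfsg.Agent.Lib_helper9_CentPrime
open scoped commutatorElement Pointwise

theorem card_subgroups {G : Type*} [Group G] [Finite G] (p : ℕ) [Fact p.Prime] (x : G)
    (hx : orderOf x = p) (hC : Subgroup.centralizer ({x} : Set G) = Subgroup.zpowers x) :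
    Nat.card {H : Subgroup G // Nat.card H = p} =
      (Subgroup.normalizer ((Subgroup.zpowers x : Subgroup G) : Set G)).index := by
  obtain ⟨P₀, hP₀e⟩ := exists_sylow p x hx hC
  have hcardP : ∀ P : Sylow p G, Nat.card (P : Subgroup G) = p := by
    intro P
    rw [Sylow.card_eq_multiplicity P, ← Sylow.card_eq_multiplicity P₀, hP₀e, Nat.card_zpowers,
      hx]
  have hcount : Nat.card {H : Subgroup G // Nat.card H = p} = Nat.card (Sylow p G) := by
    symm
    apply Nat.card_congr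
    refine Equiv.ofBijective (fun P => ⟨(P : Subgroup G), hcardP P⟩) ⟨?_, ?_⟩
    · intro P Q h
      exact Sylow.ext (congrArg Subtype.val h)
    · rintro ⟨H, hH⟩
      have hHp : IsPGroup p H := IsPGroup.of_card (n := 1) (by rw [hH, pow_one])
      obtain ⟨P, hP⟩ := hHp.exists_le_sylow
      refine ⟨P, Subtype.ext ?_⟩
      exact (Subgroup.eq_of_le_of_card_ge hP (by rw [hcardP P, hH])).symm
  rw [hcount, Sylow.card_eq_index_normalizer P₀]
  show (Subgroup.normalizer ((P₀ : Subgroup G) : Set G)).index = _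
  rw [hP₀e]

theorem inf_normalizer_eq_bot {G : Type*} [Group G] [Finite G] (p : ℕ) [Fact p.Prime] (x : G)
    (hx : orderOf x = p) (hC : Subgroup.centralizer ({x} : Set G) = Subgroup.zpowers x)
    (S : Subgroup G) [S.Normal] (hdisj : ∀ z ∈ S, z ∈ Subgroup.zpowers x → z = 1) :
    S ⊓ Subgroup.normalizer ((Subgroup.zpowers x : Subgroup G) : Set G) = ⊥ := by
  have hcent : ∀ t : G, x * t * x⁻¹ = t → t ∈ Subgroup.zpowers x := by
    intro t hfix
    rw [← hC, Subgroup.mem_centralizer_iff]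
    intro y hy
    rw [Set.mem_singleton_iff] at hy
    rw [hy]
    calc x * t = x * t * x⁻¹ * x := by group
      _ = t * x := by rw [hfix]
  rw [eq_bot_iff]
  intro s hs
  obtain ⟨hsS, hsN⟩ := Subgroup.mem_inf.mp hs
  rw [Subgroup.mem_bot]
  apply hdisj s hsS
  have k1 : s * x * s⁻¹ ∈ Subgroup.zpowers x :=
    (Subgroup.mem_normalizer_iff.mp hsN x).mp (Subgroup.mem_zpowers x)
  have k2 : s * x * s⁻¹ * x⁻¹ ∈ Subgroup.zpowers x :=
    Subgroup.mul_mem _ k1 (Subgroup.inv_mem _ (Subgroup.mem_zpowers x))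
  have k3 : s * x * s⁻¹ * x⁻¹ ∈ S := by
    have e : s * x * s⁻¹ * x⁻¹ = s * (x * s⁻¹ * x⁻¹) := by group
    rw [e]
    exact S.mul_mem hsS (Subgroup.Normal.conj_mem inferInstance _ (S.inv_mem hsS) x)
  have k4 := hdisj _ k3 k2
  apply hcent
  calc x * s * x⁻¹ = (s * x * s⁻¹ * x⁻¹)⁻¹ * s := by group
    _ = s := by rw [k4]; group

theorem card_sup_of_disjoint {G : Type*} [Group G] [Finite G] (S N : Subgroup G) [S.Normal]
    (h : S ⊓ N = ⊥) : Nat.card (S ⊔ N : Subgroup G) = Nat.card S * Nat.card N := by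
  have h1 : S.relIndex (S ⊔ N) = Nat.card N := by
    rw [Subgroup.relIndex_sup_left, ← Subgroup.inf_relIndex_right, h, Subgroup.relIndex_bot_left]
  have h2 : Nat.card S * S.relIndex (S ⊔ N) = Nat.card (S ⊔ N : Subgroup G) := by
    have := Subgroup.relIndex_mul_relIndex (⊥ : Subgroup G) S (S ⊔ N) bot_le le_sup_left
    rwa [Subgroup.relIndex_bot_left, Subgroup.relIndex_bot_left] at this
  rw [← h2, h1]

theorem le_commutator_of_disjoint' {G : Type*} [Group G] [Finite G] (x : G)
    (hC : Subgroup.centralizer ({x} : Set G) = Subgroup.zpowers x)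
    (K : Subgroup G) [hKn : K.Normal] (hKX : ∀ k ∈ K, k ∈ Subgroup.zpowers x → k = 1)
    (L : Subgroup G) (hKL : K ≤ L) (hxL : x ∈ L) : K ≤ ⁅L, L⁆ := by
  let ψ : K → K := fun l => ⟨(l : G)⁻¹ * (x * (l : G) * x⁻¹),
    K.mul_mem (K.inv_mem l.2) (hKn.conj_mem _ l.2 x)⟩
  have hinj : Function.Injective ψ := by
    intro a b hab
    have h3 : (a : G)⁻¹ * (x * (a : G) * x⁻¹) = (b : G)⁻¹ * (x * (b : G) * x⁻¹) :=
      congrArg Subtype.val hab
    have h4 : ((b : G) * (a : G)⁻¹) * x = x * ((b : G) * (a : G)⁻¹) := by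
      have e1 : (b : G) * (a : G)⁻¹ * x =
          (b : G) * ((a : G)⁻¹ * (x * (a : G) * x⁻¹)) * (x * (a : G)⁻¹) := by group
      rw [e1, h3]; group
    have h5 : (b : G) * (a : G)⁻¹ ∈ Subgroup.zpowers x := by
      rw [← hC, Subgroup.mem_centralizer_iff]
      intro y hy
      rw [Set.mem_singleton_iff] at hy
      rw [hy]; exact h4.symm
    have h6 := hKX _ (K.mul_mem b.2 (K.inv_mem a.2)) h5
    exact Subtype.ext (mul_inv_eq_one.mp h6).symm
  have hsurj : Function.Surjective ψ := Finite.surjective_of_injective hinj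
  intro k hk
  obtain ⟨l, hl⟩ := hsurj ⟨k, hk⟩
  have h3 : k = (l : G)⁻¹ * (x * (l : G) * x⁻¹) := (congrArg Subtype.val hl).symm
  rw [h3]
  have h4 : (l : G)⁻¹ * (x * (l : G) * x⁻¹) = ⁅(l : G)⁻¹, x⁆ := by
    rw [commutatorElement_def]; group
  rw [h4]
  exact Subgroup.commutator_mem_commutator (L.inv_mem (hKL l.2)) hxL

theorem dec_of_comm_le {G : Type*} [Group G] (x : G) (L O : Subgroup G) [O.Normal]
    (hxL : x ∈ L) (hLL : ⁅L, L⁆ ≤ O)
    (hcentQ : Subgroup.centralizer ({(QuotientGroup.mk x : G ⧸ O)} : Set (G ⧸ O)) =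
      Subgroup.zpowers (QuotientGroup.mk x : G ⧸ O)) :
    ∀ l ∈ L, ∃ k : ℤ, (x ^ k)⁻¹ * l ∈ O := by
  intro l hl
  have h2 : (QuotientGroup.mk l : G ⧸ O) ∈
      Subgroup.centralizer ({(QuotientGroup.mk x : G ⧸ O)} : Set (G ⧸ O)) := by
    rw [Subgroup.mem_centralizer_iff]
    intro z hz
    rw [Set.mem_singleton_iff] at hz
    rw [hz, ← QuotientGroup.mk_mul, ← QuotientGroup.mk_mul]
    apply QuotientGroup.eq.mpr
    have h3 : ⁅l⁻¹, x⁻¹⁆ ∈ ⁅L, L⁆ :=
      Subgroup.commutator_mem_commutator (L.inv_mem hl) (L.inv_mem hxL)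
    have e : (x * l)⁻¹ * (l * x) = ⁅l⁻¹, x⁻¹⁆ := by
      rw [commutatorElement_def]; group
    rw [e]; exact hLL h3
  rw [hcentQ] at h2
  obtain ⟨k, hk⟩ := Subgroup.mem_zpowers_iff.mp h2
  refine ⟨k, ?_⟩
  apply QuotientGroup.eq.mp
  rw [QuotientGroup.mk_zpow]; exact hk

theorem brauer_main {G : Type*} [Group G] [Finite G] (p : ℕ) [Fact p.Prime] (x : G)
    (hx : orderOf x = p) (hC : Subgroup.centralizer ({x} : Set G) = Subgroup.zpowers x) (t : ℕ)
    (ht : Nat.card {C : ConjClasses G // ∃ g ∈ C.carrier, orderOf g = p} = t) (n : ℕ)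
    (hn : Nat.card {H : Subgroup G // Nat.card H = p} = 1 + n * p) :
    ((∃ S : Subgroup G, S.Normal ∧ Nat.card S = 1 + n * p) ↔
      (t = p - 1 ∨ (t < p - 1 ∧ ⁅commutator G, commutator G⁆ ≠ commutator G))) ∧
    (t = p - 1 → Nat.card (commutator G) = 1 + n * p ∧ (commutator G).index = p) ∧
    (t < p - 1 → ⁅commutator G, commutator G⁆ ≠ commutator G →
      Nat.card (⁅commutator G, commutator G⁆ : Subgroup G) = 1 + n * p ∧
        Nat.card (commutator G) = p * (1 + n * p)) := by
  classical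
  have hp : p.Prime := Fact.out
  have hp2 : 2 ≤ p := hp.two_le
  have hcount := count p x hx hC t ht
  obtain ⟨N, hN⟩ : ∃ N : Subgroup G,
      N = Subgroup.normalizer ((Subgroup.zpowers x : Subgroup G) : Set G) := ⟨_, rfl⟩
  obtain ⟨L, hL⟩ : ∃ L : Subgroup G, L = commutator G := ⟨_, rfl⟩
  obtain ⟨O, hO⟩ : ∃ O : Subgroup G, O = Cfsg.pPrimeCore p G := ⟨_, rfl⟩
  haveI hLn : L.Normal := by rw [hL]; infer_instance
  haveI hOn : O.Normal := by rw [hO]; exact Lib_helper6_PCore.pPrimeCore_normal p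
  have hOc : (Nat.card O).Coprime p := by
    rw [hO]; exact Lib_helper7_PPrime.card_pPrimeCore_coprime p
  have hOnd : ¬ p ∣ Nat.card O := (Nat.Prime.coprime_iff_not_dvd hp).mp hOc.symm
  have hOmax : ∀ S : Subgroup G, S.Normal → ¬ p ∣ Nat.card S → S ≤ O := by
    intro S hS hnd
    haveI := hS
    rw [hO]
    exact Lib_helper7_PPrime.le_pPrimeCore p S ((Nat.Prime.coprime_iff_not_dvd hp).mpr hnd).symm
  have hXp : IsPGroup p (Subgroup.zpowers x) :=
    IsPGroup.of_card (n := 1) (by rw [Nat.card_zpowers, hx, pow_one])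
  have hOX : ∀ k ∈ O, k ∈ Subgroup.zpowers x → k = 1 :=
    fun k hk hkX => H1PSQ.pgroup_inf_triv O hOc _ hXp k hkX hk
  have hxO : x ∉ O := by
    intro h
    have h1 := hOX x h (Subgroup.mem_zpowers x)
    rw [h1, orderOf_one] at hx
    exact hp.one_lt.ne' hx.symm
  have hOL : O ≤ L := by rw [hO, hL]; exact pPrimeCore_le_commutator p x hx hC
  have hXN : Subgroup.zpowers x ≤ N := by rw [hN]; exact Subgroup.le_normalizer
  rw [← hN] at hcount
  rw [← hL]
  have hm : N.index = 1 + n * p := by rw [hN, ← card_subgroups p x hx hC, hn]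
  have hcardN : Nat.card N = p * (Subgroup.zpowers x).relIndex N := by
    have h1 := Subgroup.relIndex_mul_relIndex (⊥ : Subgroup G) (Subgroup.zpowers x) N bot_le hXN
    rw [Subgroup.relIndex_bot_left, Subgroup.relIndex_bot_left, Nat.card_zpowers, hx] at h1
    exact h1.symm
  have hcardG : Nat.card G = (1 + n * p) * (p * (Subgroup.zpowers x).relIndex N) := by
    rw [← Subgroup.card_mul_index N, hm, hcardN, mul_comm]
  have hepos : 0 < (Subgroup.zpowers x).relIndex N :=
    Nat.pos_of_ne_zero (show ((Subgroup.zpowers x).subgroupOf N).index ≠ 0 from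
      Subgroup.index_ne_zero_of_finite)
  have hON : O ⊓ N = ⊥ := by rw [hN]; exact inf_normalizer_eq_bot p x hx hC O hOX
  have hcentQ := (part_b p x hx hC O hOnd).2.2.2
  have hB : t = p - 1 → Nat.card L = 1 + n * p ∧ L.index = p := by
    intro hte
    have he : (Subgroup.zpowers x).relIndex N = 1 := by
      rw [hte] at hcount
      have hpos : 0 < p - 1 := by omega
      exact Nat.eq_of_mul_eq_mul_left hpos (by rw [hcount, mul_one])
    have hNX : Subgroup.normalizer ((Subgroup.zpowers x : Subgroup G) : Set G) ≤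
        Subgroup.zpowers x := by
      rw [← hN]; exact Subgroup.relIndex_eq_one.mp he
    have hidx : L.index = p := by rw [hL]; exact index_of_self_normalizing p x hx hC hNX
    refine ⟨?_, hidx⟩
    have h1 := Subgroup.card_mul_index L
    rw [hidx, hcardG, he, mul_one] at h1
    exact Nat.eq_of_mul_eq_mul_right hp.pos h1
  have hxL : t ≠ p - 1 → x ∈ L := by
    intro htne
    rw [hL]
    apply mem_commutator_of_not_le p x hx hC
    intro hle
    rw [← hN] at hle
    have he := Subgroup.relIndex_eq_one.mpr hle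
    rw [he, mul_one] at hcount
    exact htne hcount
  have hCc : t < p - 1 → ⁅L, L⁆ ≠ L →
      ⁅L, L⁆ = O ∧ Nat.card O = 1 + n * p ∧ Nat.card L = p * (1 + n * p) := by
    intro htlt hne
    have hxL' := hxL (Nat.ne_of_lt htlt)
    have hLLle : ⁅L, L⁆ ≤ L := Subgroup.commutator_le_right L L
    have hnd2 : ¬ p ∣ Nat.card (⁅L, L⁆ : Subgroup G) := by
      intro hdvd
      apply hne
      have h1 : commutator G ≤ ⁅L, L⁆ := part_a p x hx hC _ hdvd
      rw [← hL] at h1
      exact le_antisymm hLLle h1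
    have h1 : ⁅L, L⁆ ≤ O := hOmax _ inferInstance hnd2
    have h2 : O ≤ ⁅L, L⁆ := le_commutator_of_disjoint' x hC O hOX L hOL hxL'
    have hLLO : ⁅L, L⁆ = O := le_antisymm h1 h2
    have hdec := dec_of_comm_le x L O hxL' h1 hcentQ
    have hLN : L ⊓ N = Subgroup.zpowers x := by
      apply le_antisymm
      · rintro g ⟨hgL, hgN⟩
        obtain ⟨k, hk⟩ := hdec g hgL
        have h3 : (x ^ k)⁻¹ * g ∈ O ⊓ N :=
          ⟨hk, N.mul_mem (N.inv_mem (N.zpow_mem (hXN (Subgroup.mem_zpowers x)) k)) hgN⟩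
        rw [hON, Subgroup.mem_bot] at h3
        have h4 : x ^ k = g := inv_mul_eq_one.mp h3
        rw [← h4]; exact Subgroup.zpow_mem _ (Subgroup.mem_zpowers x) k
      · exact le_inf (Subgroup.zpowers_le.mpr hxL') hXN
    have hfr : L ⊔ N = ⊤ := by rw [hN]; exact frattini p x hx hC L hxL'
    have hidx : L.index = (Subgroup.zpowers x).relIndex N := by
      rw [← Subgroup.relIndex_top_right, ← hfr, Subgroup.relIndex_sup_left,
        ← Subgroup.inf_relIndex_right, hLN]
    have hcardL : Nat.card L = p * (1 + n * p) := by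
      have h3 := Subgroup.card_mul_index L
      rw [hidx, hcardG] at h3
      have h4 : Nat.card L * (Subgroup.zpowers x).relIndex N =
          (p * (1 + n * p)) * (Subgroup.zpowers x).relIndex N := by rw [h3]; ring
      exact Nat.eq_of_mul_eq_mul_right hepos h4
    have hLOX : L = O ⊔ Subgroup.zpowers x := by
      apply le_antisymm
      · intro l hl
        obtain ⟨k, hk⟩ := hdec l hl
        have e : l = x ^ k * ((x ^ k)⁻¹ * l) := by group
        rw [e]
        exact Subgroup.mul_mem _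
          (Subgroup.mem_sup_right (Subgroup.zpow_mem _ (Subgroup.mem_zpowers x) k))
          (Subgroup.mem_sup_left hk)
      · exact sup_le hOL (Subgroup.zpowers_le.mpr hxL')
    have hOXbot : O ⊓ Subgroup.zpowers x = ⊥ := by
      rw [eq_bot_iff]
      rintro k ⟨hkO, hkX⟩
      rw [Subgroup.mem_bot]
      exact hOX k hkO hkX
    have hcardL2 : Nat.card (O ⊔ Subgroup.zpowers x : Subgroup G) = Nat.card O * p := by
      rw [card_sup_of_disjoint O _ hOXbot, Nat.card_zpowers, hx]
    rw [← hLOX, hcardL] at hcardL2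
    have hcardO : Nat.card O = 1 + n * p := by
      have h5 : (1 + n * p) * p = Nat.card O * p := by rw [← hcardL2]; ring
      exact (Nat.eq_of_mul_eq_mul_right hp.pos h5).symm
    exact ⟨hLLO, hcardO, hcardL⟩
  refine ⟨⟨?_, ?_⟩, ?_, ?_⟩
  · rintro ⟨S, hSn, hScard⟩
    by_cases hte : t = p - 1
    · exact Or.inl hte
    · right
      have htle : t ≤ p - 1 := by
        calc t = t * 1 := (mul_one t).symm
          _ ≤ t * (Subgroup.zpowers x).relIndex N := Nat.mul_le_mul_left _ hepos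
          _ = p - 1 := hcount
      refine ⟨lt_of_le_of_ne htle hte, ?_⟩
      intro hLL
      have hxL' := hxL hte
      have hSnd : ¬ p ∣ Nat.card S := by
        rw [hScard]
        intro hdvd
        have h' : p ∣ n * p := Dvd.intro_left n rfl
        have h1 : p ∣ 1 := (Nat.dvd_add_iff_left h').mpr hdvd
        exact hp.one_lt.ne' (Nat.dvd_one.mp h1)
      have hSO : S ≤ O := hOmax S hSn hSnd
      have h1 : Nat.card S ≤ Nat.card O := Subgroup.card_le_of_le hSO
      have h2 : Nat.card O ∣ N.index := card_dvd_index_of_disjoint O N hON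
      have h3 : Nat.card O ≤ 1 + n * p := by
        rw [← hm]; exact Nat.le_of_dvd (by rw [hm]; omega) h2
      have hcardO : Nat.card O = N.index := by rw [hm]; omega
      have htop : O ⊔ N = ⊤ := by
        apply Subgroup.eq_top_of_card_eq
        rw [card_sup_of_disjoint O N hON, hcardO, mul_comm, Subgroup.card_mul_index]
      have hLle : L ≤ O ⊔ Subgroup.zpowers x := by
        rw [hL]
        show ⁅(⊤ : Subgroup G), (⊤ : Subgroup G)⁆ ≤ _
        rw [Subgroup.commutator_le]
        intro g1 _ g2 _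
        have hg1 : g1 ∈ ((O ⊔ N : Subgroup G) : Set G) := by
          rw [htop]; exact Subgroup.mem_top g1
        have hg2 : g2 ∈ ((O ⊔ N : Subgroup G) : Set G) := by
          rw [htop]; exact Subgroup.mem_top g2
        rw [Subgroup.normal_mul] at hg1 hg2
        obtain ⟨s1, hs1, n1, hn1, rfl⟩ := Set.mem_mul.mp hg1
        obtain ⟨s2, hs2, n2, hn2, rfl⟩ := Set.mem_mul.mp hg2
        have hn1' : n1⁻¹ ∈ Subgroup.normalizer ((Subgroup.zpowers x : Subgroup G) : Set G) := by
          rw [← hN]; exact N.inv_mem hn1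
        have hn2' : n2⁻¹ ∈ Subgroup.normalizer ((Subgroup.zpowers x : Subgroup G) : Set G) := by
          rw [← hN]; exact N.inv_mem hn2
        have hc := comm_mem_cent x n1⁻¹ n2⁻¹ hn1' hn2'
        rw [hC] at hc
        have e1 : (n2⁻¹ * n1⁻¹)⁻¹ * (n1⁻¹ * n2⁻¹) = ⁅n1, n2⁆ := by
          rw [commutatorElement_def]; group
        rw [e1] at hc
        have es1 : (QuotientGroup.mk' O) s1 = 1 := (QuotientGroup.eq_one_iff s1).mpr hs1
        have es2 : (QuotientGroup.mk' O) s2 = 1 := (QuotientGroup.eq_one_iff s2).mpr hs2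
        have h5 : (QuotientGroup.mk' O) ⁅s1 * n1, s2 * n2⁆ = (QuotientGroup.mk' O) ⁅n1, n2⁆ := by
          rw [map_commutatorElement, map_commutatorElement, map_mul, map_mul, es1, es2, one_mul,
            one_mul]
        have h6 : ⁅n1, n2⁆⁻¹ * ⁅s1 * n1, s2 * n2⁆ ∈ O := QuotientGroup.eq.mp h5.symm
        have e2 : ⁅s1 * n1, s2 * n2⁆ = ⁅n1, n2⁆ * (⁅n1, n2⁆⁻¹ * ⁅s1 * n1, s2 * n2⁆) := by group
        rw [e2]
        exact Subgroup.mul_mem _ (Subgroup.mem_sup_right hc) (Subgroup.mem_sup_left h6)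
      have hLLO : ⁅L, L⁆ ≤ O := by
        rw [Subgroup.commutator_le]
        intro a ha b hb
        have ha' : a ∈ ((O ⊔ Subgroup.zpowers x : Subgroup G) : Set G) := hLle ha
        have hb' : b ∈ ((O ⊔ Subgroup.zpowers x : Subgroup G) : Set G) := hLle hb
        rw [Subgroup.normal_mul] at ha' hb'
        obtain ⟨s1, hs1, y1, hy1, rfl⟩ := Set.mem_mul.mp ha'
        obtain ⟨s2, hs2, y2, hy2, rfl⟩ := Set.mem_mul.mp hb'
        obtain ⟨i, rfl⟩ := Subgroup.mem_zpowers_iff.mp hy1
        obtain ⟨j, rfl⟩ := Subgroup.mem_zpowers_iff.mp hy2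
        have es1 : (QuotientGroup.mk' O) s1 = 1 := (QuotientGroup.eq_one_iff s1).mpr hs1
        have es2 : (QuotientGroup.mk' O) s2 = 1 := (QuotientGroup.eq_one_iff s2).mpr hs2
        apply (QuotientGroup.eq_one_iff _).mp
        show (QuotientGroup.mk' O) ⁅s1 * x ^ i, s2 * x ^ j⁆ = 1
        rw [map_commutatorElement, map_mul, map_mul, es1, es2, one_mul, one_mul, map_zpow,
          map_zpow, commutatorElement_eq_one_iff_commute]
        exact (Commute.refl _).zpow_zpow i j
      rw [hLL] at hLLO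
      exact hxO (hLLO hxL')
  · rintro (hte | ⟨htlt, hne⟩)
    · exact ⟨L, hLn, (hB hte).1⟩
    · obtain ⟨-, h2, -⟩ := hCc htlt hne
      exact ⟨O, hOn, h2⟩
  · exact hB
  · intro htlt hne
    obtain ⟨h1, h2, h3⟩ := hCc htlt hne
    exact ⟨by rw [h1]; exact h2, h3⟩

end Cfsg.Agent.H1CP
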