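import Cfsg.Prelude
import Cfsg.Agent.Lib_helper1_FpfCyclic
import Cfsg.Agent.Lib_helper1_FrobConj
import Cfsg.Agent.Lib_helper1_NormalRankTwo

set_option autoImplicit false
open Cfsg

namespace Cfsg.Agent.Lib_helper1_FrobSylow

open Cfsg.Agent.Lib_helper1_Basic

/-- In a group acting fixed-point-freely on a nontrivial abelian group, two commuting elements
of order `p` generate the same subgroup. -/
theorem fpf_no_rank_two {F V : Type*} [Group F] [CommGroup V] [Finite V] (ρ : F →* MulAut V)
    (hV : ∃ v : V, v ≠ 1) (hfpf : ∀ f : F, f ≠ 1 → ∀ v, ρ f v = v → v = 1) (p : ℕ)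
    [hp : Fact p.Prime] (x y : F) (hxy : x * y = y * x) (hx : x ^ p = 1) (hy : y ^ p = 1)
    (hx1 : x ≠ 1) : y ∈ Subgroup.zpowers x := by
  by_contra hyx
  obtain ⟨v, hv⟩ := hV
  have hpV : p ∣ Nat.card V := by
    have h1 : orderOf v = p :=
      orderOf_eq_prime (Cfsg.Agent.Lib_helper1_FpfCyclic.pow_eq_one_of_rank_two ρ hfpf p hp.out
        x y hxy hx hy hx1 hyx v) hv
    rw [← h1]
    exact orderOf_dvd_natCard v
  obtain ⟨w, hw1, hw⟩ := Cfsg.Agent.Lib_helper1_FpfCyclic.exists_fixed_of_dvd ρ x p hx hpV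
  exact hw1 (hfpf x hx1 w hw)

/-- A `p`-subgroup of a group acting fixed-point-freely on a nontrivial abelian group has a
unique subgroup of order `p`. -/
theorem unique_order_p {F V : Type*} [Group F] [Finite F] [CommGroup V] [Finite V]
    (ρ : F →* MulAut V) (hV : ∃ v : V, v ≠ 1) (hfpf : ∀ f : F, f ≠ 1 → ∀ v, ρ f v = v → v = 1)
    (p : ℕ) [hp : Fact p.Prime] (P : Subgroup F) (hP : IsPGroup p P)
    (X Y : Subgroup P) (hX : Nat.card X = p) (hY : Nat.card Y = p) : X = Y := by
  have hpp : p.Prime := hp.out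
  haveI : Nontrivial P := by
    rw [← Finite.one_lt_card_iff_nontrivial]
    have h1 := Subgroup.card_le_card_group X (G := P)
    have h2 := hpp.one_lt
    omega
  obtain ⟨z, -, hzc, hzo⟩ :=
    Cfsg.Agent.Lib_helper1_NormalRankTwo.exists_central_order_p hP (⊤ : Subgroup P)
      (by
        intro h
        have h1 : (⊤ : Subgroup P) ≠ ⊥ := top_ne_bot
        exact h1 h)
  have key : ∀ X : Subgroup P, Nat.card X = p → X = Subgroup.zpowers z := by
    intro X hX
    have hex : ∃ x ∈ X, x ≠ 1 := by
      by_contra hcon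
      push Not at hcon
      have h1 : X = ⊥ := by
        rw [eq_bot_iff]
        intro a ha
        rw [Subgroup.mem_bot]
        exact hcon a ha
      rw [h1, Subgroup.card_bot] at hX
      have := hpp.one_lt
      omega
    obtain ⟨x, hxX, hx1⟩ := hex
    have hxp : x ^ p = 1 := by
      have h1 : (⟨x, hxX⟩ : X) ^ Nat.card X = 1 := pow_card_eq_one'
      rw [hX] at h1
      have h2 := congrArg Subtype.val h1
      simpa using h2
    have hXz : X = Subgroup.zpowers x := by
      symm
      apply Subgroup.eq_of_le_of_card_ge (Subgroup.zpowers_le.mpr hxX)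
      rw [hX, Nat.card_zpowers, orderOf_eq_prime hxp hx1]
    have hzp : z ^ p = 1 := by
      rw [← hzo]
      exact pow_orderOf_eq_one z
    have hz1 : z ≠ 1 := by
      intro h
      rw [h, orderOf_one] at hzo
      exact hpp.one_lt.ne hzo
    have hmem : (x : F) ∈ Subgroup.zpowers (z : F) := by
      apply fpf_no_rank_two ρ hV hfpf p (z : F) (x : F)
      · have h1 := Subgroup.mem_center_iff.mp hzc x
        exact (congrArg Subtype.val h1).symm
      · have h1 := congrArg Subtype.val hzp
        simpa using h1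
      · have h1 := congrArg Subtype.val hxp
        simpa using h1
      · intro h
        exact hz1 (Subtype.ext h)
    obtain ⟨k, hk⟩ := Subgroup.mem_zpowers_iff.mp hmem
    have hxz : x ∈ Subgroup.zpowers z := by
      rw [Subgroup.mem_zpowers_iff]
      refine ⟨k, Subtype.ext ?_⟩
      rw [Subgroup.coe_zpow]
      exact hk
    rw [hXz]
    apply Subgroup.eq_of_le_of_card_ge (Subgroup.zpowers_le.mpr hxz)
    rw [Nat.card_zpowers, Nat.card_zpowers, hzo, orderOf_eq_prime hxp hx1]
  rw [key X hX, key Y hY]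

end Cfsg.Agent.Lib_helper1_FrobSylow
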