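import Mathlib
import Cfsg.Prelude.Def_Solvable
import Cfsg.Agent.Lib_helper1_CentPrime4

set_option autoImplicit false

/-! Metacyclic `p`-groups, `p` odd: the elements of order dividing `p`. -/

namespace Cfsg.Agent.H1MC

open scoped Pointwise

theorem geom_sum_val (p : ℕ) (hp : p.Prime) (hp2 : p ≠ 2) (r : ℕ) (hr : r % p = 1) :
    ∃ u : ℕ, ∑ i ∈ Finset.range p, r ^ i = p * u ∧ ¬ p ∣ u := by
  have hodd : Odd p := hp.odd_of_ne_two hp2
  obtain ⟨t, ht⟩ : ∃ t : ℕ, r = 1 + p * t :=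
    ⟨r / p, by have := Nat.div_add_mod r p; rw [hr] at this; linarith⟩
  have h := odd_sq_dvd_geom_sum₂_sub (R := ℤ) (p := p) 1 (t : ℤ) hodd
  simp only [one_pow, mul_one] at h
  have hS : ((∑ i ∈ Finset.range p, r ^ i : ℕ) : ℤ) =
      ∑ i ∈ Finset.range p, (1 + (p : ℤ) * t) ^ i := by
    rw [ht]; push_cast; rfl
  obtain ⟨c, hc⟩ := h
  have hpS : (p : ℤ) ∣ ((∑ i ∈ Finset.range p, r ^ i : ℕ) : ℤ) := by
    rw [hS]; exact ⟨1 + p * c, by linear_combination hc⟩
  obtain ⟨u, hu⟩ := Int.natCast_dvd_natCast.mp hpS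
  refine ⟨u, hu, ?_⟩
  rintro ⟨v, rfl⟩
  have h1 : ((∑ i ∈ Finset.range p, r ^ i : ℕ) : ℤ) = p * (p * v) := by
    rw [hu]; push_cast; ring
  rw [hS] at h1
  have hp0 : (p : ℤ) ≠ 0 := by exact_mod_cast hp.ne_zero
  have h2 : (p : ℤ) ∣ 1 := by
    refine ⟨v - c, ?_⟩
    apply mul_left_cancel₀ hp0
    linear_combination h1 - hc
  have h3 : p ∣ 1 := by exact_mod_cast h2
  exact hp.one_lt.ne' (Nat.dvd_one.mp h3)

theorem conj_pow_pow {R : Type*} [Group R] (y n : R) (r : ℕ) (h : y * n * y⁻¹ = n ^ r) :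
    ∀ k : ℕ, y ^ k * n * (y ^ k)⁻¹ = n ^ (r ^ k) := by
  intro k
  induction k with
  | zero => simp
  | succ k ih =>
    have h1 : y ^ (k + 1) * n * (y ^ (k + 1))⁻¹ = y * (y ^ k * n * (y ^ k)⁻¹) * y⁻¹ := by
      rw [pow_succ']; group
    rw [h1, ih, ← conj_pow, h, ← pow_mul, ← pow_succ']

theorem mul_pow_conj {R : Type*} [Group R] (y n : R) (r : ℕ) (h : y * n * y⁻¹ = n ^ r) :
    ∀ k : ℕ, (n * y) ^ k = n ^ (∑ i ∈ Finset.range k, r ^ i) * y ^ k := by
  intro k
  induction k with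
  | zero => simp
  | succ k ih =>
    rw [pow_succ, ih, Finset.sum_range_succ, pow_add, ← conj_pow_pow y n r h k, pow_succ]
    group

theorem conj_exp {R : Type*} [Group R] [Finite R] {p : ℕ} [Fact p.Prime] (hR : IsPGroup p R)
    (N : Subgroup R) [N.Normal] (a : R) (haN : ∀ n ∈ N, n ∈ Subgroup.zpowers a) (ha : a ∈ N)
    (y : R) : ∃ r : ℕ, r % p = 1 ∧ ∀ n ∈ N, y * n * y⁻¹ = n ^ r := by
  have hp : p.Prime := Fact.out
  by_cases ha1 : a = 1
  · refine ⟨1, Nat.mod_eq_of_lt hp.one_lt, fun n hn => ?_⟩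
    have := haN n hn
    rw [ha1, Subgroup.zpowers_one_eq_bot, Subgroup.mem_bot] at this
    rw [this]; simp
  · have h1 : y * a * y⁻¹ ∈ Subgroup.zpowers a :=
      haN _ (Subgroup.Normal.conj_mem inferInstance a ha y)
    rw [← mem_powers_iff_mem_zpowers] at h1
    obtain ⟨r, hr⟩ := (Submonoid.mem_powers_iff _ _).mp h1
    have hr' : y * a * y⁻¹ = a ^ r := hr.symm
    refine ⟨r, ?_, ?_⟩
    · obtain ⟨k, hk⟩ := (IsPGroup.iff_orderOf.mp hR) y
      have h2 := conj_pow_pow y a r hr' (p ^ k)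
      rw [← hk, pow_orderOf_eq_one] at h2
      simp only [one_mul, inv_one, mul_one] at h2
      have h3 : r ^ orderOf y ≡ 1 [MOD orderOf a] := by
        rw [← pow_eq_pow_iff_modEq, pow_one]; exact h2.symm
      obtain ⟨j, hj⟩ := (IsPGroup.iff_orderOf.mp hR) a
      have hj0 : j ≠ 0 := by
        rintro rfl; rw [pow_zero, orderOf_eq_one_iff] at hj; exact ha1 hj
      have hpa : p ∣ orderOf a := by rw [hj]; exact dvd_pow_self p hj0
      have h4 : r ^ orderOf y ≡ 1 [MOD p] := h3.of_dvd hpa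
      have h5 : ((r ^ orderOf y : ℕ) : ZMod p) = ((1 : ℕ) : ZMod p) :=
        (ZMod.natCast_eq_natCast_iff _ _ _).mpr h4
      rw [hk] at h5
      push_cast at h5
      rw [ZMod.pow_card_pow] at h5
      have h6 : r ≡ 1 [MOD p] :=
        (ZMod.natCast_eq_natCast_iff _ _ _).mp (by push_cast; exact h5)
      unfold Nat.ModEq at h6
      rw [h6, Nat.mod_eq_of_lt hp.one_lt]
    · intro n hn
      obtain ⟨m, rfl⟩ := (Submonoid.mem_powers_iff _ _).mp
        (mem_powers_iff_mem_zpowers.mpr (haN n hn))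
      rw [← conj_pow, hr', ← pow_mul, ← pow_mul, mul_comm]

theorem main {R : Type*} [Group R] [Finite R] {p : ℕ} [Fact p.Prime] (hp2 : p ≠ 2)
    (hR : IsPGroup p R) (N : Subgroup R) [N.Normal] (hN : IsCyclic N) (hQ : IsCyclic (R ⧸ N))
    (hnc : ¬ IsCyclic R) :
    ∃ W : Subgroup R, (∀ x : R, x ∈ W ↔ x ^ p = 1) ∧ Nat.card W = p ^ 2 := by
  classical
  have hp : p.Prime := Fact.out
  haveI := hN
  obtain ⟨a, ha, haN⟩ : ∃ a : R, a ∈ N ∧ ∀ n ∈ N, n ∈ Subgroup.zpowers a := by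
    obtain ⟨a', ha'⟩ := IsCyclic.exists_generator (α := N)
    refine ⟨a', a'.2, fun n hn => ?_⟩
    obtain ⟨k, hk⟩ := Subgroup.mem_zpowers_iff.mp (ha' ⟨n, hn⟩)
    exact Subgroup.mem_zpowers_iff.mpr ⟨k, by rw [← Subgroup.coe_zpow, hk]⟩
  obtain ⟨g, hg⟩ := IsCyclic.exists_generator (α := R ⧸ N)
  obtain ⟨b, rfl⟩ := QuotientGroup.mk_surjective g
  have hb : ∀ x : R, ∃ k : ℕ, ∃ n ∈ N, x = b ^ k * n := by
    intro x
    have h1 := hg (x : R ⧸ N)
    rw [← mem_powers_iff_mem_zpowers] at h1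
    obtain ⟨k, hk⟩ := (Submonoid.mem_powers_iff _ _).mp h1
    refine ⟨k, (b ^ k)⁻¹ * x, ?_, by group⟩
    rw [← QuotientGroup.eq, QuotientGroup.mk_pow]
    exact hk
  have hcyc : ∀ c : R, (∀ x : R, x ∈ Subgroup.zpowers c) → IsCyclic R :=
    fun c h => ⟨⟨c, fun x => Subgroup.mem_zpowers_iff.mp (h x)⟩⟩
  have hNc : ∀ m n : R, m ∈ N → n ∈ N → Commute m n := by
    intro m n hm hn
    obtain ⟨i, rfl⟩ := Subgroup.mem_zpowers_iff.mp (haN m hm)
    obtain ⟨j, rfl⟩ := Subgroup.mem_zpowers_iff.mp (haN n hn)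
    exact (Commute.refl a).zpow_zpow i j
  have hF1 : ∀ y : R, ∃ u : ℕ, ¬ p ∣ u ∧ ∀ n ∈ N, (n * y) ^ p = (n ^ u) ^ p * y ^ p := by
    intro y
    obtain ⟨r, hr1, hr⟩ := conj_exp hR N a haN ha y
    obtain ⟨u, hu, hpu⟩ := geom_sum_val p hp hp2 r hr1
    refine ⟨u, hpu, fun n hn => ?_⟩
    rw [mul_pow_conj y n r (hr n hn) p, hu, ← pow_mul, mul_comm p u]
  have hF2 : ∀ (n : R) (u : ℕ), ¬ p ∣ u → (n ^ u) ^ p = 1 → n ^ p = 1 := by
    intro n u hu h
    rw [← pow_mul, mul_comm, pow_mul] at h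
    obtain ⟨k, hk⟩ := (IsPGroup.iff_orderOf.mp hR) (n ^ p)
    have h1 : orderOf (n ^ p) ∣ u := orderOf_dvd_of_pow_eq_one h
    rw [hk] at h1
    cases k with
    | zero => rw [pow_zero, orderOf_eq_one_iff] at hk; exact hk
    | succ k => exact absurd (dvd_trans (dvd_pow_self p (Nat.succ_ne_zero k)) h1) hu
  let Z : Subgroup R :=
    { carrier := {n | n ∈ N ∧ n ^ p = 1}
      one_mem' := ⟨N.one_mem, one_pow p⟩
      mul_mem' := fun {x y} hx hy => ⟨N.mul_mem hx.1 hy.1, by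
        rw [(hNc x y hx.1 hy.1).mul_pow, hx.2, hy.2, one_mul]⟩
      inv_mem' := fun {x} hx => ⟨N.inv_mem hx.1, by rw [inv_pow, hx.2, inv_one]⟩ }
  have hZmem : ∀ x, x ∈ Z ↔ x ∈ N ∧ x ^ p = 1 := fun x => Iff.rfl
  haveI hZn : Z.Normal := ⟨fun n hn g => (hZmem _).mpr
    ⟨Subgroup.Normal.conj_mem inferInstance n ((hZmem n).mp hn).1 g, by
      rw [conj_pow, ((hZmem n).mp hn).2]; simp⟩⟩
  have hZE : ∀ n ∈ Z, ∀ y : R, y ^ p = 1 → (n * y) ^ p = 1 := by
    intro n hn y hy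
    obtain ⟨u, hu, h⟩ := hF1 y
    rw [h n ((hZmem n).mp hn).1, hy, mul_one, ← pow_mul, mul_comm, pow_mul,
      ((hZmem n).mp hn).2, one_pow]
  have hane : a ≠ 1 := by
    intro ha1
    apply hnc
    apply hcyc b
    intro x
    obtain ⟨k, n, hn, rfl⟩ := hb x
    have := haN n hn
    rw [ha1, Subgroup.zpowers_one_eq_bot, Subgroup.mem_bot] at this
    rw [this, mul_one]
    exact Subgroup.pow_mem _ (Subgroup.mem_zpowers b) k
  by_cases hex : ∃ x₀ : R, x₀ ^ p = 1 ∧ x₀ ∉ N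
  · obtain ⟨x₀, hx₀p, hx₀N⟩ := hex
    have hx₀1 : x₀ ≠ 1 := fun h => hx₀N (h ▸ N.one_mem)
    have hx₀o : orderOf x₀ = p := orderOf_eq_prime hx₀p hx₀1
    -- an element of order `p` in `N`
    have hZbot : Z ≠ ⊥ := by
      obtain ⟨j, hj⟩ := (IsPGroup.iff_orderOf.mp hR) a
      cases j with
      | zero => rw [pow_zero, orderOf_eq_one_iff] at hj; exact absurd hj hane
      | succ j =>
        intro hZ
        have hz : a ^ (p ^ j) ∈ Z := (hZmem _).mpr ⟨N.pow_mem ha _, by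
          rw [← pow_mul, ← pow_succ, ← hj, pow_orderOf_eq_one]⟩
        rw [hZ, Subgroup.mem_bot] at hz
        have hlt : p ^ j < orderOf a := by
          rw [hj]; exact Nat.pow_lt_pow_right hp.one_lt (Nat.lt_succ_self j)
        exact pow_ne_one_of_lt_orderOf (pow_pos hp.pos j).ne' hlt hz
    have hZcard : Nat.card Z = p := by
      have hZN : Z ≤ N := fun x hx => ((hZmem x).mp hx).1
      have h1 : Nat.card (Z.subgroupOf N) = Nat.card Z :=
        Nat.card_congr (Subgroup.subgroupOfEquivOfLe hZN).toEquiv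
      have h2 : Monoid.exponent (Z.subgroupOf N) ∣ p := by
        apply Monoid.exponent_dvd_of_forall_pow_eq_one
        intro z
        have hz := ((hZmem _).mp (Subgroup.mem_subgroupOf.mp z.2)).2
        apply Subtype.ext; apply Subtype.ext
        simpa using hz
      rw [IsCyclic.exponent_eq_card, h1] at h2
      rcases (Nat.dvd_prime hp).mp h2 with h | h
      · exact absurd (Subgroup.eq_bot_of_card_eq Z h) hZbot
      · exact h
    have hdisj : Z ⊓ Subgroup.zpowers x₀ = ⊥ := by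
      rw [eq_bot_iff]
      intro w hw
      rw [Subgroup.mem_bot]
      by_contra hw1
      have h1 := Cfsg.Agent.Lib_helper9_CentPrime.mem_zpowers_of_ne_one p x₀ w hx₀o hw.2 hw1
      have h2 : Subgroup.zpowers w ≤ N := by
        rw [Subgroup.zpowers_le]; exact ((hZmem w).mp hw.1).1
      exact hx₀N (h2 h1)
    have hy_of : ∀ y ∈ Subgroup.zpowers x₀, y ^ p = 1 := by
      intro y hy
      obtain ⟨k, rfl⟩ := Subgroup.mem_zpowers_iff.mp hy
      rw [← zpow_natCast, ← zpow_mul, mul_comm, zpow_mul, zpow_natCast, hx₀p, one_zpow]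
    refine ⟨Z ⊔ Subgroup.zpowers x₀, fun x => ⟨fun hx => ?_, fun hx => ?_⟩, ?_⟩
    · have h1 : x ∈ ((Z ⊔ Subgroup.zpowers x₀ : Subgroup R) : Set R) := hx
      rw [Subgroup.normal_mul] at h1
      obtain ⟨n, hn, y, hy, rfl⟩ := Set.mem_mul.mp h1
      exact hZE n hn y (hy_of y hy)
    · -- quotient argument
      have hq₀1 : (x₀ : R ⧸ N) ≠ 1 := fun h => hx₀N ((QuotientGroup.eq_one_iff x₀).mp h)
      have hq₀p : (x₀ : R ⧸ N) ^ p = 1 := by
        rw [← QuotientGroup.mk_pow, hx₀p, QuotientGroup.mk_one]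
      have hq₀o : orderOf (x₀ : R ⧸ N) = p := orderOf_eq_prime hq₀p hq₀1
      have hqx : (x : R ⧸ N) ^ p = 1 := by
        rw [← QuotientGroup.mk_pow, hx, QuotientGroup.mk_one]
      have hmem : (x : R ⧸ N) ∈ Subgroup.zpowers (x₀ : R ⧸ N) := by
        haveI := Fintype.ofFinite (R ⧸ N)
        have hle := IsCyclic.card_pow_eq_one_le (α := R ⧸ N) hp.pos
        have hsub : (Finset.univ.filter fun q : R ⧸ N => q ∈ Subgroup.zpowers (x₀ : R ⧸ N)) ⊆
            Finset.univ.filter fun q : R ⧸ N => q ^ p = 1 := by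
          intro q' hq'
          rw [Finset.mem_filter] at hq' ⊢
          obtain ⟨k, rfl⟩ := Subgroup.mem_zpowers_iff.mp hq'.2
          exact ⟨Finset.mem_univ _, by
            rw [← zpow_natCast, ← zpow_mul, mul_comm, zpow_mul, zpow_natCast, hq₀p, one_zpow]⟩
        have hcard : (Finset.univ.filter
            fun q : R ⧸ N => q ∈ Subgroup.zpowers (x₀ : R ⧸ N)).card = p := by
          rw [← Fintype.card_subtype, ← Nat.card_eq_fintype_card]
          exact (Nat.card_zpowers (x₀ : R ⧸ N)).trans hq₀o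
        have heq := Finset.eq_of_subset_of_card_le hsub (by rw [hcard]; convert hle)
        have h1 : (x : R ⧸ N) ∈ Finset.univ.filter fun q : R ⧸ N => q ^ p = 1 := by
          rw [Finset.mem_filter]; exact ⟨Finset.mem_univ _, hqx⟩
        rw [← heq, Finset.mem_filter] at h1
        exact h1.2
      obtain ⟨k, hk⟩ := Subgroup.mem_zpowers_iff.mp hmem
      have hnN : x * (x₀ ^ k)⁻¹ ∈ N := by
        apply (QuotientGroup.eq_one_iff _).mp
        rw [QuotientGroup.mk_mul, QuotientGroup.mk_inv, QuotientGroup.mk_zpow, hk,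
          mul_inv_cancel]
      have hyp : (x₀ ^ k) ^ p = 1 := hy_of _ (Subgroup.zpow_mem_zpowers x₀ k)
      obtain ⟨u, hu, h⟩ := hF1 (x₀ ^ k)
      have h1 := h _ hnN
      rw [inv_mul_cancel_right, hx, hyp, mul_one] at h1
      have hnZ : x * (x₀ ^ k)⁻¹ ∈ Z := (hZmem _).mpr ⟨hnN, hF2 _ u hu h1.symm⟩
      have hxe : x = x * (x₀ ^ k)⁻¹ * x₀ ^ k := by group
      rw [hxe]
      exact Subgroup.mul_mem _ (Subgroup.mem_sup_left hnZ)
        (Subgroup.mem_sup_right (Subgroup.zpow_mem_zpowers x₀ k))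
    · rw [Cfsg.Agent.H1CP.card_sup_of_disjoint Z (Subgroup.zpowers x₀) hdisj, hZcard,
        Nat.card_zpowers, hx₀o, sq]
  · exfalso
    push Not at hex
    apply hnc
    obtain ⟨m, hm⟩ := (IsPGroup.iff_orderOf.mp (hR.to_quotient N)) (b : R ⧸ N)
    cases m with
    | zero =>
      rw [pow_zero, orderOf_eq_one_iff] at hm
      have hbN : b ∈ N := (QuotientGroup.eq_one_iff b).mp hm
      apply hcyc a
      intro x
      obtain ⟨k, n, hn, rfl⟩ := hb x
      exact haN _ (N.mul_mem (N.pow_mem hbN k) hn)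
    | succ m =>
      have hyN : b ^ (p ^ m) ∉ N := by
        intro h
        have h1 : (b : R ⧸ N) ^ (p ^ m) = 1 := by
          rw [← QuotientGroup.mk_pow]; exact (QuotientGroup.eq_one_iff _).mpr h
        have hlt : p ^ m < orderOf (b : R ⧸ N) := by
          rw [hm]; exact Nat.pow_lt_pow_right hp.one_lt (Nat.lt_succ_self m)
        exact pow_ne_one_of_lt_orderOf (pow_pos hp.pos m).ne' hlt h1
      have hypN : (b ^ (p ^ m)) ^ p ∈ N := by
        apply (QuotientGroup.eq_one_iff _).mp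
        rw [QuotientGroup.mk_pow, QuotientGroup.mk_pow, ← pow_mul, ← pow_succ, ← hm,
          pow_orderOf_eq_one]
      obtain ⟨u, hu, hF⟩ := hF1 (b ^ (p ^ m))
      obtain ⟨k, hk⟩ := (Submonoid.mem_powers_iff _ _).mp
        (mem_powers_iff_mem_zpowers.mpr (haN _ hypN))
      by_cases hpk : p ∣ k
      · exfalso
        obtain ⟨k', rfl⟩ := hpk
        have hm₀N : a ^ k' ∈ N := N.pow_mem ha k'
        obtain ⟨e, he⟩ := (IsPGroup.iff_orderOf.mp hR) ((a ^ k')⁻¹)
        have hcop : u.Coprime (orderOf ((a ^ k')⁻¹)) := by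
          rw [he]
          exact Nat.Coprime.pow_right e ((Nat.Prime.coprime_iff_not_dvd hp).mpr hu).symm
        obtain ⟨t, ht⟩ := exists_pow_eq_self_of_coprime hcop
        have hnN : ((a ^ k')⁻¹) ^ t ∈ N := N.pow_mem (N.inv_mem hm₀N) t
        have h1 := hF _ hnN
        rw [← pow_mul (a ^ k')⁻¹ t u, mul_comm t u, pow_mul, ht, ← hk, pow_mul' a p k',
          inv_pow (a ^ k') p, inv_mul_cancel] at h1
        have h2 := hex _ h1
        apply hyN
        have h3 : b ^ (p ^ m) = (((a ^ k')⁻¹) ^ t)⁻¹ * (((a ^ k')⁻¹) ^ t * b ^ (p ^ m)) := by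
          group
        rw [h3]
        exact N.mul_mem (N.inv_mem hnN) h2
      · obtain ⟨e, he⟩ := (IsPGroup.iff_orderOf.mp hR) a
        have hcop : k.Coprime (orderOf a) := by
          rw [he]
          exact Nat.Coprime.pow_right e ((Nat.Prime.coprime_iff_not_dvd hp).mpr hpk).symm
        obtain ⟨t, ht⟩ := exists_pow_eq_self_of_coprime hcop
        have hab : a ∈ Subgroup.zpowers b := by
          rw [← ht, hk]
          exact Subgroup.pow_mem _ (Subgroup.pow_mem _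
            (Subgroup.pow_mem _ (Subgroup.mem_zpowers b) _) _) _
        have hle : Subgroup.zpowers a ≤ Subgroup.zpowers b := by
          rw [Subgroup.zpowers_le]; exact hab
        apply hcyc b
        intro x
        obtain ⟨j, n, hn, rfl⟩ := hb x
        exact Subgroup.mul_mem _ (Subgroup.pow_mem _ (Subgroup.mem_zpowers b) j)
          (hle (haN n hn))

end Cfsg.Agent.H1MC
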