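import Mathlib
import Cfsg.Prelude.Def_Solvable
import Cfsg.Agent.Lib_helper1_Metacyc

set_option autoImplicit false

/-! Metacyclic `p`-groups, `p` odd: factorization as a product of two disjoint cyclic subgroups. -/

namespace Cfsg.Agent.H1MC

open scoped Pointwise

theorem setup {R : Type*} [Group R] [Finite R] {p : ℕ} [Fact p.Prime] (hp2 : p ≠ 2)
    (hR : IsPGroup p R) (N : Subgroup R) [N.Normal] (hN : IsCyclic N) (hQ : IsCyclic (R ⧸ N)) :
    ∃ a b : R, a ∈ N ∧ (∀ n ∈ N, n ∈ Subgroup.zpowers a) ∧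
      (∀ x : R ⧸ N, x ∈ Subgroup.zpowers (b : R ⧸ N)) ∧
      (∀ x : R, ∃ k : ℕ, ∃ n ∈ N, x = b ^ k * n) ∧
      (∀ s : ℕ, ∀ y : R, ∃ u : ℕ, ¬ p ∣ u ∧
        ∀ n ∈ N, (n * y) ^ (p ^ s) = (n ^ u) ^ (p ^ s) * y ^ (p ^ s)) := by
  have hp : p.Prime := Fact.out
  have := hN
  obtain ⟨a, ha, haN⟩ : ∃ a : R, a ∈ N ∧ ∀ n ∈ N, n ∈ Subgroup.zpowers a := by
    obtain ⟨a', ha'⟩ := IsCyclic.exists_generator (α := N)
    refine ⟨a', a'.2, fun n hn => ?_⟩
    obtain ⟨k, hk⟩ := Subgroup.mem_zpowers_iff.mp (ha' ⟨n, hn⟩)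
    exact Subgroup.mem_zpowers_iff.mpr ⟨k, by rw [← Subgroup.coe_zpow, hk]⟩
  obtain ⟨g, hg⟩ := IsCyclic.exists_generator (α := R ⧸ N)
  obtain ⟨b, rfl⟩ := QuotientGroup.mk_surjective g
  have hb : ∀ x : R, ∃ k : ℕ, ∃ n ∈ N, x = b ^ k * n := by
    intro x
    have h1 := hg (x : R ⧸ N)
    rw [← mem_powers_iff_mem_zpowers] at h1
    obtain ⟨k, hk⟩ := (Submonoid.mem_powers_iff _ _).mp h1
    refine ⟨k, (b ^ k)⁻¹ * x, ?_, by group⟩
    rw [← QuotientGroup.eq, QuotientGroup.mk_pow]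
    exact hk
  have hF1 : ∀ y : R, ∃ u : ℕ, ¬ p ∣ u ∧ ∀ n ∈ N, (n * y) ^ p = (n ^ u) ^ p * y ^ p := by
    intro y
    obtain ⟨r, hr1, hr⟩ := conj_exp hR N a haN ha y
    obtain ⟨u, hu, hpu⟩ := geom_sum_val p hp hp2 r hr1
    refine ⟨u, hpu, fun n hn => ?_⟩
    rw [mul_pow_conj y n r (hr n hn) p, hu, ← pow_mul, mul_comm p u]
  refine ⟨a, b, ha, haN, hg, hb, ?_⟩
  intro s
  induction s with
  | zero =>
    intro y
    exact ⟨1, by rw [Nat.dvd_one]; exact hp.one_lt.ne', fun n _ => by simp⟩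
  | succ s ih =>
    intro y
    obtain ⟨u₁, hu₁, h₁⟩ := hF1 y
    obtain ⟨u₂, hu₂, h₂⟩ := ih (y ^ p)
    refine ⟨u₁ * u₂, fun h => (hp.dvd_mul.mp h).elim hu₁ hu₂, fun n hn => ?_⟩
    rw [pow_succ' p s, pow_mul (n * y) p (p ^ s), h₁ n hn,
      h₂ _ (N.pow_mem (N.pow_mem hn _) _), ← pow_mul y p (p ^ s)]
    congr 1
    simp only [← pow_mul]
    congr 1
    ring

theorem root {R : Type*} [Group R] [Finite R] {p : ℕ} [Fact p.Prime] (hR : IsPGroup p R)
    (N : Subgroup R) (v : R) (hv : v ∈ N) (u : ℕ) (hu : ¬ p ∣ u) : ∃ n ∈ N, n ^ u = v := by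
  have hp : p.Prime := Fact.out
  obtain ⟨e, he⟩ := (IsPGroup.iff_orderOf.mp hR) v
  have hcop : u.Coprime (orderOf v) := by
    rw [he]
    exact Nat.Coprime.pow_right e ((Nat.Prime.coprime_iff_not_dvd hp).mpr hu).symm
  obtain ⟨t, ht⟩ := exists_pow_eq_self_of_coprime hcop
  exact ⟨v ^ t, N.pow_mem hv t, by rw [← pow_mul, mul_comm, pow_mul, ht]⟩

theorem order_pp {H : Type*} [Group H] {p : ℕ} [Fact p.Prime] (x : H) (d : ℕ)
    (h1 : x ^ (p ^ d) = 1) (h2 : ∀ d', d = d' + 1 → x ^ (p ^ d') ≠ 1) : orderOf x = p ^ d := by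
  cases d with
  | zero => rw [pow_zero, pow_one] at h1; rw [h1, orderOf_one, pow_zero]
  | succ d' => exact orderOf_eq_prime_pow (h2 d' rfl) h1

theorem factor {G : Type*} [Group G] [Finite G] {p : ℕ} [Fact p.Prime] (hp2 : p ≠ 2)
    (hG : IsPGroup p G) (N : Subgroup G) [N.Normal] (hN : IsCyclic N) (hQ : IsCyclic (G ⧸ N)) :
    ∃ A B : Subgroup G, IsCyclic ↥A ∧ IsCyclic ↥B ∧ A ⊓ B = ⊥ ∧
      Nat.card ↥A * Nat.card ↥B = Nat.card G := by
  classical
  have hp : p.Prime := Fact.out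
  obtain ⟨a, b, ha, haN, hg, hb, hF⟩ := setup hp2 hG N hN hQ
  obtain ⟨m, hm⟩ := (IsPGroup.iff_orderOf.mp (hG.to_quotient N)) (b : G ⧸ N)
  obtain ⟨e, he⟩ := (IsPGroup.iff_orderOf.mp hG) a
  have hNeq : N = Subgroup.zpowers a :=
    le_antisymm (fun n hn => haN n hn) (by rw [Subgroup.zpowers_le]; exact ha)
  have hNcard : Nat.card N = p ^ e := by rw [hNeq, Nat.card_zpowers, he]
  have hQcard : Nat.card (G ⧸ N) = p ^ m := by
    rw [← hm]; exact (orderOf_eq_card_of_forall_mem_zpowers hg).symm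
  have hGcard : Nat.card G = p ^ m * p ^ e := by
    rw [Subgroup.card_eq_card_quotient_mul_card_subgroup N, hQcard, hNcard]
  have hwN : b ^ (p ^ m) ∈ N := by
    apply (QuotientGroup.eq_one_iff _).mp
    rw [QuotientGroup.mk_pow, ← hm]; exact pow_orderOf_eq_one _
  obtain ⟨f, hf⟩ := (IsPGroup.iff_orderOf.mp hG) (b ^ (p ^ m))
  have hfe : f ≤ e := by
    have h1 : orderOf (b ^ (p ^ m)) ∣ orderOf a := orderOf_dvd_of_mem_zpowers (haN _ hwN)
    rw [hf, he] at h1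
    exact (Nat.pow_dvd_pow_iff_le_right hp.one_lt).mp h1
  obtain ⟨d, rfl⟩ := Nat.exists_eq_add_of_le hfe
  obtain ⟨v, hvN, hv⟩ : ∃ v ∈ N, v ^ (p ^ d) = b ^ (p ^ m) := by
    obtain ⟨k, hk⟩ := (Submonoid.mem_powers_iff _ _).mp
      (mem_powers_iff_mem_zpowers.mpr (haN _ hwN))
    have h1 : a ^ (k * p ^ f) = 1 := by rw [pow_mul, hk, ← hf, pow_orderOf_eq_one]
    have h2 : p ^ d * p ^ f ∣ k * p ^ f := by
      rw [← pow_add, add_comm d f, ← he]; exact orderOf_dvd_of_pow_eq_one h1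
    obtain ⟨k', rfl⟩ := Nat.dvd_of_mul_dvd_mul_right (pow_pos hp.pos f) h2
    exact ⟨a ^ k', N.pow_mem ha k', by rw [← pow_mul, mul_comm, hk]⟩
  by_cases hsplit : ∃ n ∈ N, (n * b) ^ (p ^ m) = 1
  · obtain ⟨n, hnN, hn⟩ := hsplit
    have hmk : ((n * b : G) : G ⧸ N) = (b : G ⧸ N) := by
      rw [QuotientGroup.mk_mul, (QuotientGroup.eq_one_iff n).mpr hnN, one_mul]
    have hdisj : N ⊓ Subgroup.zpowers (n * b) = ⊥ := by
      rw [eq_bot_iff]
      intro g hg'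
      rw [Subgroup.mem_bot]
      obtain ⟨j, rfl⟩ := (Submonoid.mem_powers_iff _ _).mp
        (mem_powers_iff_mem_zpowers.mpr hg'.2)
      have h1 : (b : G ⧸ N) ^ j = 1 := by
        rw [← hmk, ← QuotientGroup.mk_pow]; exact (QuotientGroup.eq_one_iff _).mpr hg'.1
      obtain ⟨j', rfl⟩ : p ^ m ∣ j := by rw [← hm]; exact orderOf_dvd_of_pow_eq_one h1
      rw [pow_mul, hn, one_pow]
    refine ⟨N, Subgroup.zpowers (n * b), hN, inferInstance, hdisj, ?_⟩
    rw [← Cfsg.Agent.H1CP.card_sup_of_disjoint N (Subgroup.zpowers (n * b)) hdisj]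
    have htop : N ⊔ Subgroup.zpowers (n * b) = ⊤ := by
      rw [eq_top_iff]
      intro x _
      obtain ⟨k, n', hn', rfl⟩ := hb x
      have hbm : n⁻¹ * (n * b) ∈ N ⊔ Subgroup.zpowers (n * b) :=
        Subgroup.mul_mem _ (Subgroup.mem_sup_left (N.inv_mem hnN))
          (Subgroup.mem_sup_right (Subgroup.mem_zpowers _))
      rw [inv_mul_cancel_left] at hbm
      exact Subgroup.mul_mem _ (Subgroup.pow_mem _ hbm k) (Subgroup.mem_sup_left hn')
    rw [htop, Subgroup.card_top]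
  · push Not at hsplit
    have hw1 : b ^ (p ^ m) ≠ 1 := by
      have := hsplit 1 N.one_mem
      rwa [one_mul] at this
    have hf0 : f ≠ 0 := by
      rintro rfl
      rw [pow_zero, orderOf_eq_one_iff] at hf
      exact hw1 hf
    have hdm : d < m := by
      by_contra hmd
      push Not at hmd
      obtain ⟨d₂, rfl⟩ := Nat.exists_eq_add_of_le hmd
      obtain ⟨u, hu, hFu⟩ := hF m b
      obtain ⟨n, hnN, hn⟩ := root hG N ((v ^ (p ^ d₂))⁻¹)
        (N.inv_mem (N.pow_mem hvN _)) u hu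
      apply hsplit n hnN
      rw [hFu n hnN, hn, ← hv, inv_pow, ← pow_mul, ← pow_add, add_comm d₂ m, inv_mul_cancel]
    obtain ⟨l, rfl⟩ := Nat.exists_eq_add_of_lt hdm
    have hyd : (b ^ (p ^ (l + 1))) ^ (p ^ d) = b ^ (p ^ (d + l + 1)) := by
      rw [← pow_mul, ← pow_add]; congr 2; omega
    obtain ⟨u, hu, hFu⟩ := hF d (b ^ (p ^ (l + 1)))⁻¹
    obtain ⟨n, hnN, hn⟩ := root hG N v hvN u hu
    obtain ⟨c, hc_def⟩ : ∃ c : G, c = n * (b ^ (p ^ (l + 1)))⁻¹ := ⟨_, rfl⟩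
    have hc : c ^ (p ^ d) = 1 := by
      rw [hc_def, hFu n hnN, hn, hv, inv_pow, hyd, mul_inv_cancel]
    have hmkc : (c : G ⧸ N) = ((b : G ⧸ N) ^ (p ^ (l + 1)))⁻¹ := by
      rw [hc_def, QuotientGroup.mk_mul, (QuotientGroup.eq_one_iff n).mpr hnN, one_mul,
        QuotientGroup.mk_inv, QuotientGroup.mk_pow]
    have hoq : orderOf (c : G ⧸ N) = p ^ d := by
      apply order_pp
      · rw [← QuotientGroup.mk_pow, hc, QuotientGroup.mk_one]
      · intro d' hd'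
        rw [hmkc, inv_pow, ne_eq, inv_eq_one, ← pow_mul, ← pow_add]
        apply pow_ne_one_of_lt_orderOf (pow_pos hp.pos _).ne'
        rw [hm]
        exact Nat.pow_lt_pow_right hp.one_lt (by omega)
    have hoc : orderOf c = p ^ d := by
      apply Nat.dvd_antisymm (orderOf_dvd_of_pow_eq_one hc)
      rw [← hoq]
      exact orderOf_dvd_of_pow_eq_one
        (by rw [← QuotientGroup.mk_pow, pow_orderOf_eq_one, QuotientGroup.mk_one])
    have hcN : ∀ j : ℕ, c ^ j ∈ N → c ^ j = 1 := by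
      intro j hj
      have h1 : (c : G ⧸ N) ^ j = 1 := by
        rw [← QuotientGroup.mk_pow]; exact (QuotientGroup.eq_one_iff _).mpr hj
      obtain ⟨j', rfl⟩ : p ^ d ∣ j := by rw [← hoq]; exact orderOf_dvd_of_pow_eq_one h1
      rw [pow_mul, hc, one_pow]
    have hob : orderOf b = p ^ (d + l + 1 + f) := by
      obtain ⟨M, hM⟩ := (IsPGroup.iff_orderOf.mp hG) b
      have hmM : d + l + 1 ≤ M := by
        have h1 : orderOf (b : G ⧸ N) ∣ orderOf b :=
          orderOf_dvd_of_pow_eq_one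
            (by rw [← QuotientGroup.mk_pow, pow_orderOf_eq_one, QuotientGroup.mk_one])
        rw [hm, hM] at h1
        exact (Nat.pow_dvd_pow_iff_le_right hp.one_lt).mp h1
      have h2 := orderOf_pow (n := p ^ (d + l + 1)) b
      rw [hf, hM, Nat.gcd_eq_right (pow_dvd_pow p hmM), Nat.pow_div hmM hp.pos] at h2
      have h3 : f = M - (d + l + 1) := Nat.pow_right_injective hp.two_le h2
      rw [hM]; congr 1; omega
    have hdisj : Subgroup.zpowers b ⊓ Subgroup.zpowers c = ⊥ := by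
      rw [eq_bot_iff]
      intro g hg'
      rw [Subgroup.mem_bot]
      by_contra hg1
      obtain ⟨i, hi⟩ := (IsPGroup.iff_orderOf.mp hG) g
      cases i with
      | zero => rw [pow_zero, orderOf_eq_one_iff] at hi; exact hg1 hi
      | succ i =>
        have hgp : (g ^ (p ^ i)) ^ p = 1 := by
          rw [← pow_mul, ← pow_succ, ← hi, pow_orderOf_eq_one]
        have hg0 : g ^ (p ^ i) ≠ 1 := by
          apply pow_ne_one_of_lt_orderOf (pow_pos hp.pos _).ne'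
          rw [hi]; exact Nat.pow_lt_pow_right hp.one_lt (Nat.lt_succ_self i)
        have hgb : g ^ (p ^ i) ∈ Subgroup.zpowers b := Subgroup.pow_mem _ hg'.1 _
        have hgc : g ^ (p ^ i) ∈ Subgroup.zpowers c := Subgroup.pow_mem _ hg'.2 _
        obtain ⟨t, ht⟩ := (Submonoid.mem_powers_iff _ _).mp
          (mem_powers_iff_mem_zpowers.mpr hgb)
        obtain ⟨j, hj⟩ := (Submonoid.mem_powers_iff _ _).mp
          (mem_powers_iff_mem_zpowers.mpr hgc)
        have h1 : b ^ (t * p) = 1 := by rw [pow_mul, ht, hgp]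
        have h2 : p ^ (d + l + 1 + f) ∣ t * p := by
          rw [← hob]; exact orderOf_dvd_of_pow_eq_one h1
        have h3 : p ^ (d + l + 1) * p ∣ t * p := by
          rw [← pow_succ]; exact dvd_trans (pow_dvd_pow p (by omega)) h2
        obtain ⟨t', rfl⟩ := Nat.dvd_of_mul_dvd_mul_right hp.pos h3
        have hgN : g ^ (p ^ i) ∈ N := by
          rw [← ht, pow_mul]; exact N.pow_mem hwN t'
        rw [← hj] at hgN hg0
        exact hg0 (hcN j hgN)
    refine ⟨Subgroup.zpowers b, Subgroup.zpowers c, inferInstance, inferInstance, hdisj, ?_⟩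
    rw [Nat.card_zpowers, Nat.card_zpowers, hob, hoc, hGcard]
    ring

end Cfsg.Agent.H1MC
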