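import Mathlib
import Cfsg.Agent.Lib_helper1_PStabQ
import Cfsg.Agent.Lib_helper2_PCons

set_option autoImplicit false

/-! A normal Sylow `p`-subgroup of a group with trivial `O_{p'}` is self-centralizing. -/

namespace Cfsg.Agent.H1PSQ

open Cfsg
open Cfsg.Agent.Lib_helper6_PCore

theorem cent_normal_sylow_le {H : Type*} [Group H] [Finite H] {p : ℕ} [Fact p.Prime]
    (T : Sylow p H) (hT : (T : Subgroup H).Normal) (hb : Cfsg.pPrimeCore p H = ⊥) :
    Subgroup.centralizer ((T : Subgroup H) : Set H) ≤ T := by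
  obtain ⟨C, hC⟩ : ∃ C : Subgroup H, C = Subgroup.centralizer ((T : Subgroup H) : Set H) :=
    ⟨_, rfl⟩
  rw [← hC]
  have hCn : C.Normal := by
    rw [hC]
    haveI := hT
    exact Subgroup.normal_centralizer
  have hsub : ∀ Q : Subgroup H, IsPGroup p Q → Q ≤ T := fun Q hQ => by
    obtain ⟨R, hR⟩ := hQ.exists_le_sylow
    letI := Sylow.unique_of_normal T hT
    have hRT : R = T := Subsingleton.elim _ _
    rw [hRT] at hR
    exact hR
  have hLF : H1GT.LocFrob p C := by
    intro Q hQ hQC g hg hgn hgo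
    have hg' : g ∈ Subgroup.centralizer ((T : Subgroup H) : Set H) := by rw [← hC]; exact hg
    exact Subgroup.centralizer_le (hsub Q hQ) hg'
  obtain ⟨N, hN, hc, k, hk⟩ := H1GT.npc_of_locFrob C hLF
  have hN'n : (N.map C.subtype).Normal := by
    constructor
    rintro _ ⟨x, hx, rfl⟩ g
    have hmem : g * (x : H) * g⁻¹ ∈ C := hCn.conj_mem _ x.2 g
    refine ⟨⟨_, hmem⟩, ?_, rfl⟩
    haveI := hN
    apply Lib_helper1_Frobenius.mem_of_coprime_of_index N hk
    have h1 : orderOf (⟨g * (x : H) * g⁻¹, hmem⟩ : C) = orderOf x := by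
      rw [Subgroup.orderOf_mk, ← Subgroup.orderOf_coe]
      exact orderOf_injective (MulAut.conj g).toMonoidHom (MulAut.conj g).injective (x : H)
    rw [h1]
    have h2 : orderOf x ∣ Nat.card N := by
      have := orderOf_dvd_natCard (⟨x, hx⟩ : N)
      rwa [Subgroup.orderOf_mk] at this
    exact Nat.Coprime.coprime_dvd_left h2 hc
  have hN'c : (Nat.card (N.map C.subtype)).Coprime p := by
    rw [Subgroup.card_subtype]
    exact hc
  have hN'b : N.map C.subtype = ⊥ := by
    rw [eq_bot_iff, ← hb]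
    haveI := hN'n
    exact Lib_helper7_PPrime.le_pPrimeCore p _ hN'c
  have hNb : N = ⊥ := by
    rw [eq_bot_iff]
    intro x hx
    have h1 : (x : H) ∈ N.map C.subtype := ⟨x, hx, rfl⟩
    rw [hN'b, Subgroup.mem_bot] at h1
    rw [Subgroup.mem_bot]
    exact Subtype.ext h1
  have hCp : IsPGroup p C := by
    rw [hNb, Subgroup.index_bot] at hk
    exact IsPGroup.of_card hk
  exact hsub C hCp

end Cfsg.Agent.H1PSQ
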