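import Mathlib
import Cfsg.Agent.Lib_helper1_Socle

universe u

namespace Cfsg.Agent.Lib_helper2_Cam

theorem coprime_of_fpf {G : Type*} [Group G] [Finite G] (N M : Subgroup G) [N.Normal] [M.Normal]
    (h1 : ∀ x ∈ M, x ≠ 1 → Subgroup.centralizer ({x} : Set G) ≤ N) :
    N.index.Coprime (Nat.card M) := by
  by_contra hnc
  obtain ⟨r, hr, hrN, hrM⟩ := Nat.Prime.not_coprime_iff_dvd.mp hnc
  haveI : Fact r.Prime := ⟨hr⟩
  obtain ⟨x₀, hx₀⟩ := exists_prime_orderOf_dvd_card' r hrM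
  have hx₀o : orderOf (x₀ : G) = r := by rw [Subgroup.orderOf_coe]; exact hx₀
  have hx₀1 : (x₀ : G) ≠ 1 := by
    intro h
    rw [h, orderOf_one] at hx₀o
    exact hr.one_lt.ne hx₀o
  have hz : IsPGroup r (Subgroup.zpowers (x₀ : G)) :=
    IsPGroup.of_card (n := 1) (by rw [Nat.card_zpowers, hx₀o, pow_one])
  obtain ⟨Q, hQ⟩ := hz.exists_le_sylow
  have hQN : ¬ (Q : Subgroup G) ≤ N := by
    intro hle
    have : N.index ∣ (Q : Subgroup G).index := Subgroup.index_dvd_of_le hle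
    exact Q.not_dvd_index (hrN.trans this)
  obtain ⟨g, hgQ, hgN⟩ := Set.not_subset.mp hQN
  haveI : Group.IsNilpotent (Q : Subgroup G) := Q.isPGroup'.isNilpotent
  have hne : M.subgroupOf (Q : Subgroup G) ≠ ⊥ := by
    intro h
    have hx₀Q : (x₀ : G) ∈ (Q : Subgroup G) := hQ (Subgroup.mem_zpowers _)
    have h2 : (⟨(x₀ : G), hx₀Q⟩ : (Q : Subgroup G)) ∈ M.subgroupOf (Q : Subgroup G) := by
      rw [Subgroup.mem_subgroupOf]; exact x₀.2
    rw [h, Subgroup.mem_bot] at h2
    exact hx₀1 (congrArg Subtype.val h2)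
  have hinf := Cfsg.Agent.Lib_helper1_Socle.normal_inf_center_ne_bot
    (M.subgroupOf (Q : Subgroup G)) hne
  rw [Ne, Subgroup.eq_bot_iff_forall] at hinf
  push Not at hinf
  obtain ⟨z, ⟨hzM, hzZ⟩, hz1⟩ := hinf
  have hzM' : (z : G) ∈ M := Subgroup.mem_subgroupOf.mp hzM
  have hz1' : (z : G) ≠ 1 := fun h => hz1 (Subtype.ext h)
  have hg : g ∈ Subgroup.centralizer ({(z : G)} : Set G) := by
    rw [Subgroup.mem_centralizer_singleton_iff]
    have h3 := Subgroup.mem_center_iff.mp hzZ ⟨g, hgQ⟩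
    exact congrArg Subtype.val h3
  exact hgN (h1 _ hzM' hz1' hg)

theorem fpf_of_coprime {G : Type*} [Group G] [Finite G] (N M : Subgroup G) [N.Normal]
    [M.Normal] (hcam : ∀ g : G, g ∉ N → ∀ m ∈ M, ∃ x : G, x * g * x⁻¹ = g * m)
    (hcop : N.index.Coprime (Nat.card M)) :
    ∀ x ∈ M, x ≠ 1 → Subgroup.centralizer ({x} : Set G) ≤ N := by
  intro x hxM hx1 g hg
  by_contra hgN
  rw [Subgroup.mem_centralizer_singleton_iff] at hg
  have key : ∀ g' : G, g' ∉ N → g' * x = x * g' → orderOf x ∣ orderOf g' := by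
    intro g' hg'N hc
    obtain ⟨c, hc'⟩ := hcam g' hg'N x hxM
    have ho : orderOf (g' * x) = orderOf g' := by
      rw [← hc']
      have := (MulAut.conj c).orderOf_eq g'
      rwa [MulAut.conj_apply] at this
    have h2 : (g' * x) ^ orderOf g' = 1 := by rw [← ho]; exact pow_orderOf_eq_one _
    rw [(show Commute g' x from hc).mul_pow, pow_orderOf_eq_one, one_mul] at h2
    exact orderOf_dvd_of_pow_eq_one h2
  have hox : orderOf x ≠ 1 := by rwa [Ne, orderOf_eq_one_iff]
  obtain ⟨q, hq, hqx⟩ := Nat.exists_prime_and_dvd hox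
  have hqM : q ∣ Nat.card M := by
    have h3 := orderOf_dvd_natCard (⟨x, hxM⟩ : M)
    rw [Subgroup.orderOf_mk] at h3
    exact hqx.trans h3
  have hqi : ¬ q ∣ N.index := by
    intro h
    have h3 := Nat.dvd_gcd h hqM
    rw [hcop.gcd_eq_one] at h3
    exact hq.one_lt.ne' (Nat.dvd_one.mp h3)
  have hn0 : orderOf g ≠ 0 := (orderOf_pos g).ne'
  have hjn : q ^ (orderOf g).factorization q ∣ orderOf g := Nat.ordProj_dvd (orderOf g) q
  have hj0 : q ^ (orderOf g).factorization q ≠ 0 := pow_ne_zero _ hq.ne_zero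
  have ho' : orderOf (g ^ (q ^ (orderOf g).factorization q))
      = orderOf g / q ^ (orderOf g).factorization q := orderOf_pow_of_dvd hj0 hjn
  have hq' : ¬ q ∣ orderOf (g ^ (q ^ (orderOf g).factorization q)) := by
    rw [ho']; exact Nat.not_dvd_ordCompl hq hn0
  have hg'N : g ^ (q ^ (orderOf g).factorization q) ∉ N := by
    intro h
    have e1 : (g : G ⧸ N) ^ (q ^ (orderOf g).factorization q) = 1 := by
      rw [← QuotientGroup.mk_pow]; exact (QuotientGroup.eq_one_iff _).mpr h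
    have e2 : (g : G ⧸ N) ^ N.index = 1 := by
      rw [Subgroup.index_eq_card]; exact pow_card_eq_one'
    have d1 := orderOf_dvd_of_pow_eq_one e1
    have d2 := orderOf_dvd_of_pow_eq_one e2
    have hcop' : Nat.Coprime (q ^ (orderOf g).factorization q) N.index :=
      Nat.Coprime.pow_left _ ((Nat.Prime.coprime_iff_not_dvd hq).mpr hqi)
    have d3 : orderOf (g : G ⧸ N) ∣ 1 := by
      rw [← hcop'.gcd_eq_one]; exact Nat.dvd_gcd d1 d2
    have h4 : (g : G ⧸ N) = 1 := orderOf_eq_one_iff.mp (Nat.dvd_one.mp d3)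
    exact hgN ((QuotientGroup.eq_one_iff g).mp h4)
  have hc' : g ^ (q ^ (orderOf g).factorization q) * x
      = x * g ^ (q ^ (orderOf g).factorization q) :=
    ((show Commute g x from hg).pow_left _).eq
  exact hq' (hqx.trans (key _ hg'N hc'))

theorem exists_proper_supp {G : Type*} [Group G] [Finite G] (N M : Subgroup G) [N.Normal]
    (hMN : M ≤ N) (hM : M ≠ ⊥) (hcop : N.index.Coprime (Nat.card M)) :
    ∃ G₁ : Subgroup G, G₁ ≠ ⊤ ∧ G₁ ⊔ N = ⊤ := by
  have hM1 : Nat.card M ≠ 1 := fun h => hM (Subgroup.eq_bot_of_card_eq _ h)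
  obtain ⟨q, hq, hqM⟩ := Nat.exists_prime_and_dvd hM1
  haveI : Fact q.Prime := ⟨hq⟩
  have hqi : ¬ q ∣ N.index := by
    intro h
    have h3 := Nat.dvd_gcd h hqM
    rw [hcop.gcd_eq_one] at h3
    exact hq.one_lt.ne' (Nat.dvd_one.mp h3)
  have hqN : q ∣ Nat.card N := hqM.trans (Subgroup.card_dvd_of_le hMN)
  obtain ⟨S⟩ : Nonempty (Sylow q N) := inferInstance
  have hfr : Subgroup.normalizer (((S : Subgroup N).map N.subtype : Subgroup G) : Set G) ⊔ N = ⊤ :=
    Sylow.normalizer_sup_eq_top S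
  by_cases hnorm : Subgroup.normalizer (((S : Subgroup N).map N.subtype : Subgroup G) : Set G) = ⊤
  · haveI : ((S : Subgroup N).map N.subtype).Normal := Subgroup.normalizer_eq_top_iff.mp hnorm
    have hS'N : (S : Subgroup N).map N.subtype ≤ N := by
      rintro _ ⟨s, _, rfl⟩; exact s.2
    have hS'card : Nat.card ((S : Subgroup N).map N.subtype) = Nat.card (S : Subgroup N) :=
      Subgroup.card_map_of_injective N.subtype_injective
    obtain ⟨k, hk⟩ := IsPGroup.iff_card.mp S.isPGroup'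
    have hS'idx : ((S : Subgroup N).map N.subtype).index = (S : Subgroup N).index * N.index :=
      Subgroup.index_map_subtype _
    have hqS : ¬ q ∣ (S : Subgroup N).index := S.not_dvd_index
    have hcop' : Nat.Coprime (Nat.card ((S : Subgroup N).map N.subtype))
        ((S : Subgroup N).map N.subtype).index := by
      rw [hS'card, hk, hS'idx]
      apply Nat.Coprime.pow_left
      rw [Nat.Prime.coprime_iff_not_dvd hq]
      exact hq.not_dvd_mul hqS hqi
    obtain ⟨H₀, hH₀⟩ := Subgroup.exists_right_complement'_of_coprime hcop'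
    have hSne : (S : Subgroup N).map N.subtype ≠ ⊥ := by
      intro h
      have h1 : Nat.card ((S : Subgroup N).map N.subtype) = 1 := by
        rw [h]; exact Subgroup.card_bot
      rw [hS'card] at h1
      exact S.ne_bot_of_dvd_card hqN (Subgroup.eq_bot_of_card_eq _ h1)
    refine ⟨H₀, ?_, ?_⟩
    · intro h
      have hd := hH₀.disjoint
      rw [h] at hd
      exact hSne (disjoint_top.mp hd)
    · have h1 := hH₀.sup_eq_top
      rw [eq_top_iff, ← h1]
      exact sup_le (le_sup_of_le_right hS'N) le_sup_left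
  · exact ⟨_, hnorm, hfr⟩

theorem exists_supp_aux : ∀ (n : ℕ) {G : Type u} [Group G] [Finite G], Nat.card G = n →
    ∀ (N M : Subgroup G) [N.Normal] [M.Normal], M ≤ N → N.index.Coprime (Nat.card M) →
    ∃ H : Subgroup G, H ⊔ N = ⊤ ∧ H ⊓ M = ⊥ := by
  intro n
  induction n using Nat.strong_induction_on with
  | _ n ih =>
    intro G _ _ hn N M _ _ hMN hcop
    by_cases hM : M = ⊥
    · exact ⟨⊤, top_sup_eq _, by rw [hM]; exact inf_bot_eq _⟩
    obtain ⟨G₁, hG₁, hsup⟩ := exists_proper_supp N M hMN hM hcop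
    have hlt : Nat.card G₁ < n := by
      rw [← hn]
      apply lt_of_le_of_ne (Subgroup.card_le_card_group G₁)
      intro h
      exact hG₁ (Subgroup.eq_top_of_card_eq G₁ h)
    have hMN₁ : M.subgroupOf G₁ ≤ N.subgroupOf G₁ := Subgroup.comap_mono hMN
    have hidx : (N.subgroupOf G₁).index = N.index := by
      show N.relIndex G₁ = N.index
      rw [← Subgroup.relIndex_sup_right, hsup, Subgroup.relIndex_top_right]
    have hcard : Nat.card (M.subgroupOf G₁) ∣ Nat.card M := by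
      have h1 : Nat.card (M.subgroupOf G₁) = Nat.card (M ⊓ G₁ : Subgroup G) := by
        rw [← Subgroup.subgroupOf_map_subtype]
        exact (Subgroup.card_map_of_injective G₁.subtype_injective).symm
      rw [h1]; exact Subgroup.card_dvd_of_le inf_le_left
    have hcop₁ : (N.subgroupOf G₁).index.Coprime (Nat.card (M.subgroupOf G₁)) := by
      rw [hidx]; exact Nat.Coprime.coprime_dvd_right hcard hcop
    obtain ⟨H₁, hH₁N, hH₁M⟩ := ih _ hlt rfl (N.subgroupOf G₁) (M.subgroupOf G₁) hMN₁ hcop₁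
    refine ⟨H₁.map G₁.subtype, ?_, ?_⟩
    · have h1 : (H₁ ⊔ N.subgroupOf G₁).map G₁.subtype = G₁ := by
        rw [hH₁N, ← MonoidHom.range_eq_map, Subgroup.range_subtype]
      rw [Subgroup.map_sup, Subgroup.subgroupOf_map_subtype] at h1
      rw [eq_top_iff, ← hsup]
      apply sup_le _ le_sup_right
      exact h1.ge.trans (sup_le le_sup_left (le_sup_of_le_right inf_le_left))
    · rw [Subgroup.eq_bot_iff_forall]
      rintro _ ⟨⟨h, hh, rfl⟩, hM'⟩
      have h2 : h ∈ H₁ ⊓ M.subgroupOf G₁ := ⟨hh, Subgroup.mem_subgroupOf.mpr hM'⟩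
      rw [hH₁M, Subgroup.mem_bot] at h2
      rw [h2]; rfl

theorem S4112_main {G : Type*} [Group G] [Finite G] (N M : Subgroup G) [N.Normal] [M.Normal]
    (hMN : M ≤ N)
    (hcam : ∀ g : G, g ∉ N → ∀ m ∈ M, ∃ x : G, x * g * x⁻¹ = g * m) :
    ((∀ x ∈ M, x ≠ 1 → Subgroup.centralizer ({x} : Set G) ≤ N) ↔ N.index.Coprime (Nat.card M)) ∧
    ((∀ x ∈ M, x ≠ 1 → Subgroup.centralizer ({x} : Set G) ≤ N) →
      ∃ H : Subgroup G, H ⊔ N = ⊤ ∧ H ⊓ M = ⊥) :=
  ⟨⟨coprime_of_fpf N M, fpf_of_coprime N M hcam⟩,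
    fun h => exists_supp_aux _ rfl N M hMN (coprime_of_fpf N M h)⟩

end Cfsg.Agent.Lib_helper2_Cam
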