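import Mathlib
import Cfsg.Agent.Lib_helper2_Dih3

set_option autoImplicit false

namespace Cfsg.Agent.Lib_helper2_Dih4

open Cfsg.Agent.Lib_helper2_Klein Cfsg.Agent.Lib_helper2_Isolated Cfsg.Agent.Lib_helper2_Dihedral
open Cfsg.Agent.Lib_helper2_DihSyl Cfsg.Agent.Lib_helper2_DihSyl2 Cfsg.Agent.Lib_helper2_Dih3
open Cfsg.Agent.Lib_helper1_Frobenius Cfsg.Agent.Lib_helper1_Basic
open DihedralGroup

variable {X : Type*} [Group X]

theorem klein_map_conj (V : Subgroup X) (hV : IsKleinFour V) (k : X) :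
    IsKleinFour (V.map (MulAut.conj k).toMonoidHom) := by
  have e : V ≃* V.map (MulAut.conj k).toMonoidHom :=
    V.equivMapOfInjective _ (MulAut.conj k).injective
  exact ⟨by rw [← Nat.card_congr e.toEquiv]; exact hV.card_four,
    by rw [← Monoid.exponent_eq_of_mulEquiv e]; exact hV.exponent_two⟩

theorem map_conj_eq_of_le [Finite X] {V U : Subgroup X} (hV : IsKleinFour V) (hU : IsKleinFour U)
    {x : X} (h1 : ∀ v ∈ V, x * v * x⁻¹ ∈ U) : V.map (MulAut.conj x).toMonoidHom = U := by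
  have hV' := klein_map_conj V hV x
  apply Subgroup.eq_of_le_of_card_ge
  · intro u hu
    rw [Cfsg.Agent.Lib_helper2_Isolated.mem_map_conj] at hu
    have h2 := h1 _ hu
    have h3 : x * (x⁻¹ * u * x) * x⁻¹ = u := by group
    rwa [h3] at h2
  · rw [hV'.card_four, hU.card_four]

theorem exists_conj_le_sylow [Finite X] (S : Sylow 2 X) (V : Subgroup X) (hV : IsPGroup 2 V) :
    ∃ k : X, ∀ v ∈ V, k * v * k⁻¹ ∈ (S : Subgroup X) := by
  haveI : Fact (Nat.Prime 2) := ⟨Nat.prime_two⟩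
  obtain ⟨Q, hQ⟩ := hV.exists_le_sylow
  obtain ⟨k, hk⟩ := MulAction.exists_smul_eq X Q S
  exact ⟨k, fun v hv => conj_mem_of_smul_eq hk (hQ hv)⟩

theorem klein_conj_of_card_four [Finite X] (S : Sylow 2 X) (hS : Nat.card S = 4)
    (U V : Subgroup X) (hU : IsKleinFour U) (hV : IsKleinFour V) :
    ∃ x : X, U.map (MulAut.conj x).toMonoidHom = V := by
  haveI : Fact (Nat.Prime 2) := ⟨Nat.prime_two⟩
  have key : ∀ W : Subgroup X, IsKleinFour W → ∃ Q : Sylow 2 X, (Q : Subgroup X) = W := by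
    intro W hW
    have hp : IsPGroup 2 W := IsPGroup.of_card (n := 2) (hW.card_four.trans (by norm_num))
    obtain ⟨Q, hQ⟩ := hp.exists_le_sylow
    refine ⟨Q, ?_⟩
    symm
    apply Subgroup.eq_of_le_of_card_ge hQ
    rw [hW.card_four, ← hS]
    have h1 : Nat.card (Q : Subgroup X) = Nat.card (S : Subgroup X) := by
      rw [Q.card_eq_multiplicity, S.card_eq_multiplicity]
    exact h1.le
  obtain ⟨Q₁, h1⟩ := key U hU
  obtain ⟨Q₂, h2⟩ := key V hV
  obtain ⟨k, hk⟩ := MulAction.exists_smul_eq X Q₁ Q₂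
  refine ⟨k, map_conj_eq_of_le hU hV ?_⟩
  intro v hv
  rw [← h2]
  have hv' : v ∈ (Q₁ : Subgroup X) := by rw [h1]; exact hv
  exact conj_mem_of_smul_eq hk hv'

theorem half_quarter (m : ℕ) [NeZero m] (h4 : 4 ∣ m) :
    ∃ h k : ZMod m, h + h = 0 ∧ h ≠ 0 ∧ (∀ i : ZMod m, i + i = 0 → i ≠ 0 → i = h) ∧
      k + k = h := by
  have h2 : 2 ∣ m := Dvd.dvd.trans (by norm_num) h4
  have hm0 : m ≠ 0 := NeZero.ne m
  obtain ⟨h, hh0, h0, huniq⟩ := half_spec m h2
  obtain ⟨c, hc⟩ := h4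
  refine ⟨h, ((c : ℕ) : ZMod m), hh0, h0, huniq, ?_⟩
  · apply huniq
    · rw [← Nat.cast_add, ← Nat.cast_add, ZMod.natCast_eq_zero_iff]
      exact ⟨1, by omega⟩
    · rw [← Nat.cast_add, Ne, ZMod.natCast_eq_zero_iff]
      rintro ⟨d, hd⟩
      have hd0 : d ≠ 0 := by rintro rfl; omega
      have : m * 1 ≤ m * d := Nat.mul_le_mul_left m (by omega)
      omega

theorem zz {m : ℕ} {S : Subgroup X} (e : S ≃* DihedralGroup m) {h : ZMod m} (hh0 : h + h = 0) :
    el e (r h) * el e (r h) = 1 := by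
  rw [← el_mul, r_mul_r, hh0, ← DihedralGroup.one_def, el_one]

theorem ss {m : ℕ} {S : Subgroup X} (e : S ≃* DihedralGroup m) (i : ZMod m) :
    el e (sr i) * el e (sr i) = 1 := by
  rw [← el_mul, sr_mul_self, el_one]

theorem zs_comm {m : ℕ} {S : Subgroup X} (e : S ≃* DihedralGroup m) {h : ZMod m}
    (hh0 : h + h = 0) (i : ZMod m) :
    el e (r h) * el e (sr i) = el e (sr i) * el e (r h) := by
  have hnh : -h = h := neg_eq_of_add_eq_zero_left hh0
  rw [← el_mul, ← el_mul, r_mul_sr, sr_mul_r, sub_eq_add_neg, hnh]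

/-- the standard four-subgroup `{1, z, s_i, z s_i}` of a dihedral subgroup -/
noncomputable def stdFour {m : ℕ} {S : Subgroup X} (e : S ≃* DihedralGroup m) {h : ZMod m} (hh0 : h + h = 0)
    (i : ZMod m) : Subgroup X :=
  fourSub (el e (r h)) (el e (sr i)) (zz e hh0) (ss e i) (zs_comm e hh0 i)

theorem stdFour_klein {m : ℕ} {S : Subgroup X} (e : S ≃* DihedralGroup m) {h : ZMod m}
    (hh0 : h + h = 0) (h0 : h ≠ 0) (i : ZMod m) : IsKleinFour (stdFour e hh0 i) := by
  apply fourSub_klein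
  · exact ne_one_of_orderOf_two (el_r_involution e h0 hh0)
  · exact ne_one_of_orderOf_two (el_sr_involution e i)
  · intro h'
    have h5 := el_inj e h'
    cases h5

theorem fuse_to_centralizer {z b c w : X} (hzz : z * z = 1) (hbb : b * b = 1) (hcc : c * c = 1)
    (hzb : z * b = b * z) (hzc : z * c = c * z)
    (hwz : w * z * w⁻¹ = z) (hwb : w * b * w⁻¹ = z * b) (hwc : w * c * w⁻¹ = z * c)
    (hz1 : z ≠ 1) (hbz : b ≠ z) (hb1 : b ≠ 1) {x : X}
    (hx : (fourSub z b hzz hbb hzb).map (MulAut.conj x).toMonoidHom = fourSub z c hzz hcc hzc) :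
    ∃ g : X, g * z * g⁻¹ = z ∧ g * b * g⁻¹ = c := by
  have hf : ∀ u ∈ fourSub z b hzz hbb hzb, x * u * x⁻¹ ∈ fourSub z c hzz hcc hzc := by
    intro u hu
    rw [← hx, Cfsg.Agent.Lib_helper2_Isolated.mem_map_conj]
    have h5 : x⁻¹ * (x * u * x⁻¹) * x = u := by group
    rw [h5]; exact hu
  have hb' : ∀ u ∈ fourSub z c hzz hcc hzc, x⁻¹ * u * x ∈ fourSub z b hzz hbb hzb := by
    intro u hu
    rw [← hx, Cfsg.Agent.Lib_helper2_Isolated.mem_map_conj] at hu
    exact hu
  have hw1 : ∀ u ∈ fourSub z b hzz hbb hzb, w * u * w⁻¹ ∈ fourSub z b hzz hbb hzb := by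
    intro u hu
    rcases hu with h | h | h | h
    · rw [h, mul_one, mul_inv_cancel]; exact Or.inl rfl
    · rw [h, hwz]; exact Or.inr (Or.inl rfl)
    · rw [h, hwb]; exact Or.inr (Or.inr (Or.inr rfl))
    · rw [h]
      have h5 : w * (z * b) * w⁻¹ = (w * z * w⁻¹) * (w * b * w⁻¹) := by group
      rw [h5, hwz, hwb, ← mul_assoc, hzz, one_mul]; exact Or.inr (Or.inr (Or.inl rfl))
  have hw2 : ∀ u ∈ fourSub z c hzz hcc hzc, w * u * w⁻¹ ∈ fourSub z c hzz hcc hzc := by
    intro u hu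
    rcases hu with h | h | h | h
    · rw [h, mul_one, mul_inv_cancel]; exact Or.inl rfl
    · rw [h, hwz]; exact Or.inr (Or.inl rfl)
    · rw [h, hwc]; exact Or.inr (Or.inr (Or.inr rfl))
    · rw [h]
      have h5 : w * (z * c) * w⁻¹ = (w * z * w⁻¹) * (w * c * w⁻¹) := by group
      rw [h5, hwz, hwc, ← mul_assoc, hzz, one_mul]; exact Or.inr (Or.inr (Or.inl rfl))
  have stage1 : ∃ g : X, g * z * g⁻¹ = z ∧
      ∀ u ∈ fourSub z b hzz hbb hzb, g * u * g⁻¹ ∈ fourSub z c hzz hcc hzc := by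
    have hp : x * z * x⁻¹ ∈ fourSub z c hzz hcc hzc := hf z (Or.inr (Or.inl rfl))
    have hp1 : x * z * x⁻¹ ≠ 1 := by
      intro h; apply hz1
      calc z = x⁻¹ * (x * z * x⁻¹) * x := by group
        _ = 1 := by rw [h]; group
    by_cases hpz : x * z * x⁻¹ = z
    · exact ⟨x, hpz, hf⟩
    · obtain ⟨p, hp_def⟩ : ∃ p, p = x * z * x⁻¹ := ⟨_, rfl⟩
      rw [← hp_def] at hp hp1 hpz
      have hwp : w * p * w⁻¹ = z * p := by
        rcases hp with h | h | h | h
        · exact absurd h hp1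
        · exact absurd h hpz
        · rw [h, hwc]
        · rw [h]
          have h5 : w * (z * c) * w⁻¹ = (w * z * w⁻¹) * (w * c * w⁻¹) := by group
          rw [h5, hwz, hwc]
      have hpp : p * p = 1 := by
        rw [hp_def]
        calc x * z * x⁻¹ * (x * z * x⁻¹) = x * (z * z) * x⁻¹ := by group
          _ = 1 := by rw [hzz]; group
      have hzp : z * p = p * z := by
        rcases hp with h | h | h | h
        · exact absurd h hp1
        · exact absurd h hpz
        · rw [h]; exact hzc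
        · rw [h, ← mul_assoc, hzz, one_mul, hzc, mul_assoc, hzz, mul_one]
      have hv : x⁻¹ * z * x ∈ fourSub z b hzz hbb hzb := hb' z (Or.inr (Or.inl rfl))
      have hwv : w * (x⁻¹ * z * x) * w⁻¹ = z * (x⁻¹ * z * x) := by
        rcases hv with h | h | h | h
        · exfalso; apply hz1
          calc z = x * (x⁻¹ * z * x) * x⁻¹ := by group
            _ = 1 := by rw [h]; group
        · exfalso; apply hpz
          rw [hp_def]
          calc x * z * x⁻¹ = x * (x⁻¹ * z * x) * x⁻¹ := by rw [h]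
            _ = z := by group
        · rw [h, hwb]
        · rw [h]
          have h5 : w * (z * b) * w⁻¹ = (w * z * w⁻¹) * (w * b * w⁻¹) := by group
          rw [h5, hwz, hwb]
      have hyz : (x * w * x⁻¹) * z * (x * w * x⁻¹)⁻¹ = p * z := by
        calc (x * w * x⁻¹) * z * (x * w * x⁻¹)⁻¹ = x * (w * (x⁻¹ * z * x) * w⁻¹) * x⁻¹ := by group
          _ = x * (z * (x⁻¹ * z * x)) * x⁻¹ := by rw [hwv]
          _ = (x * z * x⁻¹) * z := by group
          _ = p * z := by rw [hp_def]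
      have hyp : (x * w * x⁻¹) * p * (x * w * x⁻¹)⁻¹ = p := by
        rw [hp_def]
        calc (x * w * x⁻¹) * (x * z * x⁻¹) * (x * w * x⁻¹)⁻¹ = x * (w * z * w⁻¹) * x⁻¹ := by group
          _ = x * z * x⁻¹ := by rw [hwz]
      refine ⟨x * w * x⁻¹ * w * x, ?_, ?_⟩
      · calc x * w * x⁻¹ * w * x * z * (x * w * x⁻¹ * w * x)⁻¹
            = (x * w * x⁻¹) * (w * (x * z * x⁻¹) * w⁻¹) * (x * w * x⁻¹)⁻¹ := by group
          _ = (x * w * x⁻¹) * (z * p) * (x * w * x⁻¹)⁻¹ := by rw [← hp_def, hwp]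
          _ = ((x * w * x⁻¹) * z * (x * w * x⁻¹)⁻¹) * ((x * w * x⁻¹) * p * (x * w * x⁻¹)⁻¹) := by
              group
          _ = p * z * p := by rw [hyz, hyp]
          _ = z := by rw [← hzp, mul_assoc, hpp, mul_one]
      · intro u hu
        have h1 := hw2 _ (hf u hu)
        have h2 := hb' _ h1
        have h3 := hw1 _ h2
        have h4 := hf _ h3
        have h5 : x * (w * (x⁻¹ * (w * (x * u * x⁻¹) * w⁻¹) * x) * w⁻¹) * x⁻¹ =
            x * w * x⁻¹ * w * x * u * (x * w * x⁻¹ * w * x)⁻¹ := by group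
        rw [← h5]; exact h4
  obtain ⟨g, hgz, hgU⟩ := stage1
  have hgb : g * b * g⁻¹ ∈ fourSub z c hzz hcc hzc := hgU b (Or.inr (Or.inr (Or.inl rfl)))
  rcases hgb with h | h | h | h
  · exfalso; apply hb1
    calc b = g⁻¹ * (g * b * g⁻¹) * g := by group
      _ = 1 := by rw [h]; group
  · exfalso; apply hbz
    have h5 : g * b * g⁻¹ = g * z * g⁻¹ := by rw [h, hgz]
    exact mul_left_cancel (mul_right_cancel h5)
  · exact ⟨g, hgz, h⟩
  · refine ⟨w⁻¹ * g, ?_, ?_⟩
    · calc w⁻¹ * g * z * (w⁻¹ * g)⁻¹ = w⁻¹ * (g * z * g⁻¹) * w := by group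
        _ = w⁻¹ * (w * z * w⁻¹) * w := by rw [hgz, hwz]
        _ = z := by group
    · calc w⁻¹ * g * b * (w⁻¹ * g)⁻¹ = w⁻¹ * (g * b * g⁻¹) * w := by group
        _ = w⁻¹ * (w * c * w⁻¹) * w := by rw [h, hwc]
        _ = c := by group

theorem not_conj_in_centralizer [Finite X] (S : Sylow 2 X) (m : ℕ) [NeZero m] (h2 : 2 ∣ m)
    (hm2 : 2 ≤ m)
    (e : (S : Subgroup X) ≃* DihedralGroup m) {h k : ZMod m} (hh0 : h + h = 0) (h0 : h ≠ 0)
    (hh : ∀ i : ZMod m, i + i = 0 → i ≠ 0 → i = h) (hk : k + k = h)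
    (g : X) (hgz : g * el e (r h) * g⁻¹ = el e (r h))
    (hgb : g * el e (sr 0) * g⁻¹ = el e (sr 1)) : False := by
  haveI : Fact (Nat.Prime 2) := ⟨Nat.prime_two⟩
  have hnh : -h = h := neg_eq_of_add_eq_zero_left hh0
  have hle : (S : Subgroup X) ≤ Subgroup.centralizer ({el e (r h)} : Set X) := by
    intro s hs
    rw [Subgroup.mem_centralizer_singleton_iff]
    have hse := el_apply e hs
    cases hd : e ⟨s, hs⟩ with
    | r i =>
      rw [hd] at hse
      rw [← hse, ← el_mul, ← el_mul, r_mul_r, r_mul_r, add_comm]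
    | sr i =>
      rw [hd] at hse
      rw [← hse, ← el_mul, ← el_mul, sr_mul_r, r_mul_sr, sub_eq_add_neg, hnh]
  obtain ⟨SC, hSC⟩ : ∃ SC : Sylow 2 (Subgroup.centralizer ({el e (r h)} : Set X)),
      SC = S.subtype hle := ⟨_, rfl⟩
  obtain ⟨e', he'⟩ : ∃ e' : (SC : Subgroup (Subgroup.centralizer ({el e (r h)} : Set X))) ≃*
      DihedralGroup m, ∀ d : DihedralGroup m,
        ((el e' d : Subgroup.centralizer ({el e (r h)} : Set X)) : X) = el e d := by
    subst hSC
    exact ⟨(Subgroup.subgroupOfEquivOfLe hle).trans e, fun d => rfl⟩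
  have hgC : g ∈ Subgroup.centralizer ({el e (r h)} : Set X) := by
    rw [Subgroup.mem_centralizer_singleton_iff]
    calc g * el e (r h) = (g * el e (r h) * g⁻¹) * g := by group
      _ = el e (r h) * g := by rw [hgz]
  have hnz : ∀ i : ZMod m, ¬ IsConj (el e' (sr i)) (el e' (r h)) := by
    intro i hi
    obtain ⟨γ, hγ⟩ := isConj_iff.mp hi
    have h5 := congrArg Subtype.val hγ
    have h6 : (γ : X) * ((el e' (sr i) : Subgroup.centralizer ({el e (r h)} : Set X)) : X) *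
        (γ : X)⁻¹ = ((el e' (r h) : Subgroup.centralizer ({el e (r h)} : Set X)) : X) := h5
    rw [he', he'] at h6
    have hγc : (γ : X) * el e (r h) = el e (r h) * (γ : X) :=
      Subgroup.mem_centralizer_singleton_iff.mp γ.2
    have h7 : el e (sr i) = el e (r h) := by
      calc el e (sr i) = (γ : X)⁻¹ * ((γ : X) * el e (sr i) * (γ : X)⁻¹) * (γ : X) := by group
        _ = (γ : X)⁻¹ * (el e (r h) * (γ : X)) := by rw [h6, mul_assoc]
        _ = (γ : X)⁻¹ * ((γ : X) * el e (r h)) := by rw [hγc]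
        _ = el e (r h) := by group
    have h8 := el_inj e h7
    cases h8
  obtain ⟨-, hbc⟩ := no_fusion SC m h2 hm2 e' hh0 h0 hh hk (hnz 0) (hnz 1)
  apply hbc
  rw [isConj_iff]
  refine ⟨⟨g, hgC⟩, Subtype.ext ?_⟩
  show g * ((el e' (sr 0) : Subgroup.centralizer ({el e (r h)} : Set X)) : X) * g⁻¹ =
    ((el e' (sr 1) : Subgroup.centralizer ({el e (r h)} : Set X)) : X)
  rw [he', he']; exact hgb

theorem klein_two_classes [Finite X] (S : Sylow 2 X) (m : ℕ) [NeZero m] (h4 : 4 ∣ m)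
    (e : (S : Subgroup X) ≃* DihedralGroup m) :
    ∃ U₁ U₂ : Subgroup X, IsKleinFour U₁ ∧ IsKleinFour U₂ ∧
      ¬ (∃ x : X, U₁.map (MulAut.conj x).toMonoidHom = U₂) ∧
      ∀ V : Subgroup X, IsKleinFour V → (∃ x : X, V.map (MulAut.conj x).toMonoidHom = U₁) ∨
        (∃ x : X, V.map (MulAut.conj x).toMonoidHom = U₂) := by
  haveI : Fact (Nat.Prime 2) := ⟨Nat.prime_two⟩
  have h2 : 2 ∣ m := Dvd.dvd.trans (by norm_num) h4
  have hm0 : m ≠ 0 := NeZero.ne m
  have hm2 : 2 ≤ m := by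
    obtain ⟨c, hc⟩ := h4
    omega
  obtain ⟨h, k, hh0, h0, huniq, hk⟩ := half_quarter m h4
  have hwz : el e (r k) * el e (r h) * (el e (r k))⁻¹ = el e (r h) := by
    rw [mul_inv_eq_iff_eq_mul, ← el_mul, ← el_mul, r_mul_r, r_mul_r, add_comm]
  have hws : ∀ i : ZMod m, el e (r k) * el e (sr i) * (el e (r k))⁻¹ =
      el e (r h) * el e (sr i) := by
    intro i
    rw [conj_r_sr, ← el_mul, r_mul_sr, sub_sub, hk]
  have hK : ∀ i : ZMod m, IsKleinFour (stdFour e hh0 i) := stdFour_klein e hh0 h0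
  refine ⟨stdFour e hh0 0, stdFour e hh0 1, hK 0, hK 1, ?_, ?_⟩
  · rintro ⟨x, hx⟩
    obtain ⟨g, hgz, hgb⟩ := fuse_to_centralizer (zz e hh0) (ss e 0) (ss e 1) (zs_comm e hh0 0)
      (zs_comm e hh0 1) hwz (hws 0) (hws 1)
      (ne_one_of_orderOf_two (el_r_involution e h0 hh0))
      (by intro h'; have h5 := el_inj e h'; cases h5)
      (ne_one_of_orderOf_two (el_sr_involution e 0)) hx
    exact not_conj_in_centralizer S m h2 hm2 e hh0 h0 huniq hk g hgz hgb
  · intro V hV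
    have hp : IsPGroup 2 V := IsPGroup.of_card (n := 2) (hV.card_four.trans (by norm_num))
    obtain ⟨k₀, hk₀⟩ := exists_conj_le_sylow S V hp
    have hV' := klein_map_conj V hV k₀
    have hV'S : V.map (MulAut.conj k₀).toMonoidHom ≤ (S : Subgroup X) := by
      intro u hu
      rw [Cfsg.Agent.Lib_helper2_Isolated.mem_map_conj] at hu
      have h5 := hk₀ _ hu
      have h6 : k₀ * (k₀⁻¹ * u * k₀) * k₀⁻¹ = u := by group
      rwa [h6] at h5
    obtain ⟨i, hzV, hsV, hall⟩ := klein_struct e huniq _ hV'S hV'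
    have key : ∀ (c₀ j : ZMod m), i = j + j + c₀ →
        V.map (MulAut.conj (el e (r j) * k₀)).toMonoidHom = stdFour e hh0 c₀ := by
      intro c₀ j hj
      apply map_conj_eq_of_le hV (hK c₀)
      intro v hv
      have hv' : k₀ * v * k₀⁻¹ ∈ V.map (MulAut.conj k₀).toMonoidHom := by
        rw [Cfsg.Agent.Lib_helper2_Isolated.mem_map_conj]
        have h5 : k₀⁻¹ * (k₀ * v * k₀⁻¹) * k₀ = v := by group
        rw [h5]; exact hv
      have h5 : el e (r j) * k₀ * v * (el e (r j) * k₀)⁻¹ =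
          el e (r j) * (k₀ * v * k₀⁻¹) * (el e (r j))⁻¹ := by group
      have hρz : el e (r j) * el e (r h) * (el e (r j))⁻¹ = el e (r h) := by
        rw [mul_inv_eq_iff_eq_mul, ← el_mul, ← el_mul, r_mul_r, r_mul_r, add_comm]
      have hρs : el e (r j) * el e (sr i) * (el e (r j))⁻¹ = el e (sr c₀) := by
        rw [conj_r_sr, hj]
        congr 2
        ring
      rw [h5]
      rcases hall _ hv' with h' | h' | h' | h'
      · rw [h', mul_one, mul_inv_cancel]; exact Or.inl rfl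
      · rw [h', hρz]; exact Or.inr (Or.inl rfl)
      · rw [h', hρs]; exact Or.inr (Or.inr (Or.inl rfl))
      · rw [h']
        have h6 : el e (r j) * (el e (r h) * el e (sr i)) * (el e (r j))⁻¹ =
            (el e (r j) * el e (r h) * (el e (r j))⁻¹) *
              (el e (r j) * el e (sr i) * (el e (r j))⁻¹) := by group
        rw [h6, hρz, hρs]; exact Or.inr (Or.inr (Or.inr rfl))
    obtain ⟨j, hj | hj⟩ := parity m i
    · left
      exact ⟨_, key 0 j (by rw [add_zero]; exact hj)⟩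
    · right
      exact ⟨_, key 1 j hj⟩

theorem S1256_main [Finite X] (S : Sylow 2 X) (m : ℕ) (hm : 2 ≤ m)
    (eS : (S : Subgroup X) ≃* DihedralGroup m) :
    (Nat.card S = 4 → ∀ U V : Subgroup X, IsKleinFour U → IsKleinFour V →
      (∃ x : X, U.map (MulAut.conj x).toMonoidHom = V)) ∧
    (4 < Nat.card S → ∃ U₁ U₂ : Subgroup X, IsKleinFour U₁ ∧ IsKleinFour U₂ ∧
      ¬ (∃ x : X, U₁.map (MulAut.conj x).toMonoidHom = U₂) ∧
      ∀ V : Subgroup X, IsKleinFour V → (∃ x : X, V.map (MulAut.conj x).toMonoidHom = U₁) ∨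
        (∃ x : X, V.map (MulAut.conj x).toMonoidHom = U₂)) := by
  haveI : Fact (Nat.Prime 2) := ⟨Nat.prime_two⟩
  haveI : NeZero m := ⟨by omega⟩
  constructor
  · intro h4 U V hU hV
    exact klein_conj_of_card_four S h4 U V hU hV
  · intro h4
    have hcard : Nat.card (S : Subgroup X) = 2 * m := by
      rw [Nat.card_congr eS.toEquiv, DihedralGroup.nat_card]
    have h4' : 4 < Nat.card (S : Subgroup X) := h4
    obtain ⟨k, hk⟩ := (S.2 : IsPGroup 2 (S : Subgroup X)).exists_card_eq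
    have hmk : 2 * m = 2 ^ k := by rw [← hcard, hk]
    have h4m : 4 ∣ m := by
      have hk3 : 3 ≤ k := by
        by_contra hcon
        push Not at hcon
        rw [hcard] at h4'
        interval_cases k
        · rw [pow_zero] at hmk; omega
        · rw [pow_one] at hmk; omega
        · norm_num at hmk; omega
      obtain ⟨k', rfl⟩ : ∃ k', k = k' + 3 := ⟨k - 3, by omega⟩
      refine ⟨2 ^ k', ?_⟩
      have h5 : 2 ^ (k' + 3) = 8 * 2 ^ k' := by ring
      omega
    exact klein_two_classes S m h4m eS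

end Cfsg.Agent.Lib_helper2_Dih4
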