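import Mathlib
import Cfsg.Agent.Lib_helper2_DihGrp

set_option autoImplicit false

namespace Cfsg.Agent.Lib_helper2_Dih5

open Cfsg.Agent.Lib_helper2_DihSyl2 Cfsg.Agent.Lib_helper2_DihGrp
open DihedralGroup

/-- rotations of a subgroup as an additive subgroup of `ZMod m` -/
def rotSub {m : ℕ} (T : Subgroup (DihedralGroup m)) : AddSubgroup (ZMod m) where
  carrier := {j | r j ∈ T}
  zero_mem' := by
    show r 0 ∈ T
    rw [← one_def]; exact T.one_mem
  add_mem' := by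
    intro a b ha hb
    show r (a + b) ∈ T
    rw [← r_mul_r]; exact T.mul_mem ha hb
  neg_mem' := by
    intro a ha
    show r (-a) ∈ T
    rw [← inv_r]; exact T.inv_mem ha

theorem mem_rotSub {m : ℕ} (T : Subgroup (DihedralGroup m)) (j : ZMod m) :
    j ∈ rotSub T ↔ r j ∈ T := Iff.rfl

/-- the dihedral hom attached to an additive hom and a base point -/
def dihHom {d m : ℕ} (ψ : ZMod d →+ ZMod m) (i₀ : ZMod m) :
    DihedralGroup d →* DihedralGroup m :=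
  MonoidHom.mk' (fun x => match x with
    | r t => r (ψ t)
    | sr t => sr (i₀ + ψ t)) (by
    rintro (a | a) (b | b)
    · show r (ψ (a + b)) = r (ψ a) * r (ψ b)
      rw [r_mul_r, map_add]
    · show sr (i₀ + ψ (b - a)) = r (ψ a) * sr (i₀ + ψ b)
      rw [r_mul_sr, map_sub]; congr 1; ring
    · show sr (i₀ + ψ (a + b)) = sr (i₀ + ψ a) * r (ψ b)
      rw [sr_mul_r, map_add]; congr 1; ring
    · show r (ψ (b - a)) = sr (i₀ + ψ a) * sr (i₀ + ψ b)
      rw [sr_mul_sr, map_sub]; congr 1; ring)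

theorem dihHom_r {d m : ℕ} (ψ : ZMod d →+ ZMod m) (i₀ : ZMod m) (t : ZMod d) :
    dihHom ψ i₀ (r t) = r (ψ t) := rfl

theorem dihHom_sr {d m : ℕ} (ψ : ZMod d →+ ZMod m) (i₀ : ZMod m) (t : ZMod d) :
    dihHom ψ i₀ (sr t) = sr (i₀ + ψ t) := rfl

theorem dih_sub_iso {m : ℕ} [NeZero m] {n : ℕ} (hm : m = 2 ^ n)
    (T : Subgroup (DihedralGroup m)) {i₀ : ZMod m} (hi₀ : sr i₀ ∈ T) :
    ∃ k : ℕ, Nonempty (T ≃* DihedralGroup (2 ^ k)) := by
  obtain ⟨g, hg⟩ := IsAddCyclic.exists_generator (α := rotSub T)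
  obtain ⟨j₀, hj₀⟩ : ∃ j₀ : ZMod m, j₀ = (g : ZMod m) := ⟨_, rfl⟩
  have hj₀T : j₀ ∈ rotSub T := by rw [hj₀]; exact g.2
  have hgen : ∀ j : ZMod m, r j ∈ T → ∃ i : ℤ, i • j₀ = j := by
    intro j hj
    obtain ⟨i, hi⟩ := AddSubgroup.mem_zmultiples_iff.mp (hg ⟨j, hj⟩)
    refine ⟨i, ?_⟩
    have h1 := congrArg Subtype.val hi
    rw [hj₀]
    simpa using h1
  have hd : addOrderOf j₀ ∣ 2 ^ n := by
    have h1 := addOrderOf_dvd_natCard j₀
    rw [Nat.card_eq_fintype_card, ZMod.card] at h1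
    exact h1.trans (dvd_of_eq hm)
  obtain ⟨k, hk, hkd⟩ := (Nat.dvd_prime_pow Nat.prime_two).mp hd
  have hz : (zmultiplesHom (ZMod m) j₀) ((2 ^ k : ℕ) : ℤ) = 0 := by
    rw [zmultiplesHom_apply, natCast_zsmul, ← hkd]; exact addOrderOf_nsmul_eq_zero j₀
  haveI : NeZero (2 ^ k) := ⟨by positivity⟩
  obtain ⟨ψ, hψ⟩ : ∃ ψ : ZMod (2 ^ k) →+ ZMod m, ∀ i : ℤ, ψ (i : ZMod (2 ^ k)) = i • j₀ :=
    ⟨ZMod.lift (2 ^ k) ⟨zmultiplesHom (ZMod m) j₀, hz⟩, fun i => by rw [ZMod.lift_coe]; rfl⟩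
  have hψinj : Function.Injective ψ := by
    rw [injective_iff_map_eq_zero]
    intro t ht
    obtain ⟨i, rfl⟩ := ZMod.intCast_surjective t
    rw [hψ] at ht
    have h1 : (addOrderOf j₀ : ℤ) ∣ i := addOrderOf_dvd_iff_zsmul_eq_zero.mpr ht
    rw [hkd] at h1
    exact (ZMod.intCast_zmod_eq_zero_iff_dvd i (2 ^ k)).mpr (by exact_mod_cast h1)
  have hψT : ∀ t, r (ψ t) ∈ T := by
    intro t
    obtain ⟨i, rfl⟩ := ZMod.intCast_surjective t
    rw [hψ]
    exact (rotSub T).zsmul_mem hj₀T i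
  have hψsurj : ∀ j : ZMod m, r j ∈ T → ∃ t, ψ t = j := by
    intro j hj
    obtain ⟨i, hi⟩ := hgen j hj
    exact ⟨(i : ZMod (2 ^ k)), by rw [hψ, hi]⟩
  have hφinj : Function.Injective (dihHom ψ i₀) := by
    rintro (a | a) (b | b) h
    · rw [dihHom_r, dihHom_r] at h
      rw [hψinj (r.inj h)]
    · rw [dihHom_r, dihHom_sr] at h
      cases h
    · rw [dihHom_r, dihHom_sr] at h
      cases h
    · rw [dihHom_sr, dihHom_sr] at h
      rw [hψinj (add_left_cancel (sr.inj h))]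
  have hrange : (dihHom ψ i₀).range = T := by
    ext x
    constructor
    · rintro ⟨y, rfl⟩
      cases y with
      | r t => rw [dihHom_r]; exact hψT t
      | sr t =>
        rw [dihHom_sr, ← sr_mul_r]; exact T.mul_mem hi₀ (hψT t)
    · intro hx
      cases x with
      | r j =>
        obtain ⟨t, ht⟩ := hψsurj j hx
        exact ⟨r t, by rw [dihHom_r, ht]⟩
      | sr i =>
        have h1 : r (i - i₀) ∈ T := by rw [← sr_mul_sr]; exact T.mul_mem hi₀ hx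
        obtain ⟨t, ht⟩ := hψsurj _ h1
        exact ⟨sr t, by rw [dihHom_sr, ht]; congr 1; ring⟩
  exact ⟨k, ⟨((MonoidHom.ofInjective hφinj).trans (MulEquiv.subgroupCongr hrange)).symm⟩⟩

theorem dih_sub_classify {m : ℕ} [NeZero m] {n : ℕ} (hm : m = 2 ^ n) {A : Type*} [Group A]
    (f : A →* DihedralGroup m) (hf : Function.Injective f) :
    IsCyclic A ∨ ∃ k : ℕ, 1 ≤ k ∧ Nonempty (A ≃* DihedralGroup (2 ^ k)) := by
  by_cases hc : IsCyclic A
  · exact Or.inl hc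
  · right
    have e1 : A ≃* f.range := MonoidHom.ofInjective hf
    have hc' : ¬ IsCyclic f.range := by
      intro h
      haveI := h
      exact hc (isCyclic_of_surjective e1.symm e1.symm.surjective)
    obtain ⟨⟨i₀, hi₀⟩, -⟩ := noncyc_has f.range hc'
    obtain ⟨k, ⟨e2⟩⟩ := dih_sub_iso hm f.range hi₀
    refine ⟨k, ?_, ⟨e1.trans e2⟩⟩
    by_contra hk
    have hk0 : k = 0 := by omega
    subst hk0
    apply hc
    have hcard : Nat.card A = 2 := by
      rw [Nat.card_congr (e1.trans e2).toEquiv, DihedralGroup.nat_card, pow_zero, mul_one]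
    haveI : Fact (Nat.Prime 2) := ⟨Nat.prime_two⟩
    exact isCyclic_of_prime_card hcard

theorem dih_central {m : ℕ} [NeZero m] (hm3 : 3 ≤ m) {x : DihedralGroup m}
    (hx : ∀ y : DihedralGroup m, x * y = y * x) (hx1 : x ≠ 1) {h : ZMod m}
    (hh : ∀ i : ZMod m, i + i = 0 → i ≠ 0 → i = h) : x = r h := by
  cases x with
  | r i =>
    have h1 := hx (sr 0)
    rw [r_mul_sr, sr_mul_r] at h1
    have h2' := sr.inj h1
    have h3 : i + i = 0 := by linear_combination -h2'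
    have h4 : i ≠ 0 := by
      rintro rfl
      exact hx1 one_def.symm
    rw [hh i h3 h4]
  | sr i =>
    exfalso
    have h1 := hx (r 1)
    rw [sr_mul_r, r_mul_sr] at h1
    have h2' := sr.inj h1
    have h3 : ((2 : ℕ) : ZMod m) = 0 := by push_cast; linear_combination h2'
    rw [ZMod.natCast_eq_zero_iff] at h3
    have := Nat.le_of_dvd (by norm_num) h3
    omega

theorem a4_not_comm : ∃ a b : alternatingGroup (Fin 4), a * b ≠ b * a := by
  have ha : (Equiv.swap (0 : Fin 4) 1 * Equiv.swap 1 2) ∈ alternatingGroup (Fin 4) := by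
    rw [Equiv.Perm.mem_alternatingGroup, Equiv.Perm.sign_mul, Equiv.Perm.sign_swap (by decide),
      Equiv.Perm.sign_swap (by decide)]
    rfl
  have hb : (Equiv.swap (0 : Fin 4) 1 * Equiv.swap 2 3) ∈ alternatingGroup (Fin 4) := by
    rw [Equiv.Perm.mem_alternatingGroup, Equiv.Perm.sign_mul, Equiv.Perm.sign_swap (by decide),
      Equiv.Perm.sign_swap (by decide)]
    rfl
  refine ⟨⟨_, ha⟩, ⟨_, hb⟩, fun h => ?_⟩
  have h1 : (Equiv.swap (0 : Fin 4) 1 * Equiv.swap 1 2 * (Equiv.swap 0 1 * Equiv.swap 2 3) :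
      Equiv.Perm (Fin 4)) 0 =
      (Equiv.swap (0 : Fin 4) 1 * Equiv.swap 2 3 * (Equiv.swap 0 1 * Equiv.swap 1 2) :
      Equiv.Perm (Fin 4)) 0 :=
    congrArg (fun σ : alternatingGroup (Fin 4) => (σ : Equiv.Perm (Fin 4)) 0) h
  revert h1
  decide

theorem card_a4 : Nat.card (alternatingGroup (Fin 4)) = 12 := by
  have h1 := two_mul_nat_card_alternatingGroup (α := Fin 4)
  rw [Nat.card_eq_fintype_card (α := Equiv.Perm (Fin 4)), Fintype.card_perm, Fintype.card_fin] at h1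
  have h2 : Nat.factorial 4 = 24 := rfl
  omega

theorem klein_aut_order3 {Y : Type*} [Group Y] {a b y : Y} (haa : a * a = 1) (hbb : b * b = 1)
    (hab : a * b = b * a) (hne : a ≠ b)
    (hya : y * a * y⁻¹ = a ∨ y * a * y⁻¹ = b ∨ y * a * y⁻¹ = a * b)
    (hyb : y * b * y⁻¹ = a ∨ y * b * y⁻¹ = b ∨ y * b * y⁻¹ = a * b) :
    (y ^ 2 * a * (y ^ 2)⁻¹ = a ∧ y ^ 2 * b * (y ^ 2)⁻¹ = b) ∨
    (y ^ 3 * a * (y ^ 3)⁻¹ = a ∧ y ^ 3 * b * (y ^ 3)⁻¹ = b) := by
  have t1 : a * (a * b) = b := by rw [← mul_assoc, haa, one_mul]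
  have t2 : b * (a * b) = a := by rw [hab, ← mul_assoc, hbb, one_mul]
  have t3 : a * b * a = b := by rw [hab, mul_assoc, haa, mul_one]
  have t4 : a * b * b = a := by rw [mul_assoc, hbb, mul_one]
  have hc : ∀ x : Y, y ^ 2 * x * (y ^ 2)⁻¹ = y * (y * x * y⁻¹) * y⁻¹ := by
    intro x; rw [pow_two]; group
  have hc3 : ∀ x : Y, y ^ 3 * x * (y ^ 3)⁻¹ = y * (y * (y * x * y⁻¹) * y⁻¹) * y⁻¹ := by
    intro x
    have h5 : y ^ 3 = y * y * y := by rw [pow_succ, pow_two]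
    rw [h5]; group
  have hm : y * (a * b) * y⁻¹ = (y * a * y⁻¹) * (y * b * y⁻¹) := by group
  have hinj : y * a * y⁻¹ ≠ y * b * y⁻¹ := fun h => hne (mul_left_cancel (mul_right_cancel h))
  rcases hya with h1 | h1 | h1 <;> rcases hyb with h2 | h2 | h2
  · exact absurd (h1.trans h2.symm) hinj
  · left; exact ⟨by rw [hc, h1, h1], by rw [hc, h2, h2]⟩
  · left; exact ⟨by rw [hc, h1, h1], by rw [hc, h2, hm, h1, h2, t1]⟩
  · left; exact ⟨by rw [hc, h1, h2], by rw [hc, h2, h1]⟩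
  · exact absurd (h1.trans h2.symm) hinj
  · right; exact ⟨by rw [hc3, h1, h2, hm, h1, h2, t2], by rw [hc3, h2, hm, h1, h2, t2, h1]⟩
  · right; exact ⟨by rw [hc3, h1, hm, h1, h2, t3, h2], by rw [hc3, h2, h1, hm, h1, h2, t3]⟩
  · left; exact ⟨by rw [hc, h1, hm, h1, h2, t4], by rw [hc, h2, h2]⟩
  · exact absurd (h1.trans h2.symm) hinj

end Cfsg.Agent.Lib_helper2_Dih5
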