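import Mathlib
import Cfsg.Agent.Lib_helper2_Dih4
import Cfsg.Agent.Lib_helper2_Dih5
import Cfsg.Agent.Lib_helper2_Cyc
import Cfsg.Agent.Lib_helper2_Thompson

set_option autoImplicit false

namespace Cfsg.Agent.Lib_helper2_Dih6

open Cfsg.Agent.Lib_helper2_Klein Cfsg.Agent.Lib_helper2_Dihedral
open Cfsg.Agent.Lib_helper2_DihSyl Cfsg.Agent.Lib_helper2_DihSyl2 Cfsg.Agent.Lib_helper2_Dih3
open Cfsg.Agent.Lib_helper2_Dih4 Cfsg.Agent.Lib_helper2_Dih5 Cfsg.Agent.Lib_helper2_DihGrp
open DihedralGroup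

theorem mem_normal_sylow {Y : Type*} [Group Y] [Finite Y] (S : Sylow 2 Y)
    [(S : Subgroup Y).Normal] {x : Y} (hx : ∃ e : ℕ, x ^ (2 ^ e) = 1) : x ∈ (S : Subgroup Y) := by
  haveI : Fact (Nat.Prime 2) := ⟨Nat.prime_two⟩
  obtain ⟨e, he⟩ := hx
  have hp : IsPGroup 2 (Subgroup.zpowers x) := by
    obtain ⟨k, -, hk⟩ := (Nat.dvd_prime_pow Nat.prime_two).mp (orderOf_dvd_of_pow_eq_one he)
    exact IsPGroup.of_card (n := k) (by rw [Nat.card_zpowers, hk])
  obtain ⟨Q, hQ⟩ := hp.exists_le_sylow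
  obtain ⟨g, hg⟩ := MulAction.exists_smul_eq Y S Q
  rw [Sylow.smul_eq_of_normal] at hg
  rw [hg]; exact hQ (Subgroup.mem_zpowers x)

theorem a4_of_klein {Y : Type*} [Group Y] [Finite Y] (S K : Subgroup Y) [S.Normal]
    (hK3 : Nat.card K = 3) (hY12 : Nat.card Y = 12)
    (hdisj : ∀ x ∈ S, x ∈ K → x = 1)
    (hcent : ∀ g ∈ K, (∀ s ∈ S, g * s = s * g) → g = 1) :
    Nonempty (Y ≃* alternatingGroup (Fin 4)) := by
  classical
  let φ := MulAction.toPermHom Y (Y ⧸ K)
  have hinj : Function.Injective φ := by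
    rw [injective_iff_map_eq_one]
    intro g hg
    have h1 : ∀ x : Y, x⁻¹ * g * x ∈ K := by
      intro x
      have h2 : φ g (x : Y ⧸ K) = (x : Y ⧸ K) := by rw [hg]; rfl
      have h3 : ((g * x : Y) : Y ⧸ K) = (x : Y ⧸ K) := h2
      rw [QuotientGroup.eq] at h3
      have h4 := K.inv_mem h3
      have h5 : ((g * x)⁻¹ * x)⁻¹ = x⁻¹ * g * x := by group
      rwa [h5] at h4
    have hgK : g ∈ K := by simpa using h1 1
    apply hcent g hgK
    intro s hs
    have h6 : g * s * g⁻¹ * s⁻¹ ∈ S :=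
      S.mul_mem (Subgroup.Normal.conj_mem inferInstance s hs g) (S.inv_mem hs)
    have h7 : g * s * g⁻¹ * s⁻¹ ∈ K := by
      have h8 := K.inv_mem (h1 s⁻¹)
      have h9 : g * s * g⁻¹ * s⁻¹ = g * (s⁻¹⁻¹ * g * s⁻¹)⁻¹ := by group
      rw [h9]; exact K.mul_mem hgK h8
    have h10 := hdisj _ h6 h7
    have h11 : g * s = (g * s * g⁻¹ * s⁻¹) * (s * g) := by group
    rw [h11, h10, one_mul]
  have hq4 : Nat.card (Y ⧸ K) = 4 := by
    have h1 := Subgroup.card_eq_card_quotient_mul_card_subgroup K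
    rw [hY12, hK3] at h1
    omega
  haveI : Fintype (Y ⧸ K) := Fintype.ofFinite _
  have hq4' : Fintype.card (Y ⧸ K) = 4 := by rw [← Nat.card_eq_fintype_card]; exact hq4
  have hidx : φ.range.index = 2 := by
    have h1 : Nat.card φ.range = 12 := by
      rw [← hY12]; exact (Nat.card_congr (MonoidHom.ofInjective hinj).toEquiv).symm
    have h2 := Subgroup.card_mul_index φ.range
    rw [h1, Nat.card_eq_fintype_card, Fintype.card_perm, hq4'] at h2
    have h3 : Nat.factorial 4 = 24 := rfl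
    omega
  have hrange : φ.range = alternatingGroup (Y ⧸ K) :=
    Equiv.Perm.eq_alternatingGroup_of_index_eq_two hidx
  have e1 : Y ≃* φ.range := MonoidHom.ofInjective hinj
  have e2 : φ.range ≃* alternatingGroup (Y ⧸ K) := MulEquiv.subgroupCongr hrange
  have e3 : alternatingGroup (Y ⧸ K) ≃* alternatingGroup (Fin 4) :=
    Equiv.altCongrHom (Fintype.equivFinOfCardEq hq4')
  exact ⟨(e1.trans e2).trans e3⟩

theorem odd_centralizes_four {Y : Type*} [Group Y] (S : Subgroup Y) [S.Normal]
    (h2S : ∀ s ∈ S, ∃ e : ℕ, s ^ (2 ^ e) = 1) (m : ℕ) [NeZero m] (h4 : 4 ∣ m)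
    (e : S ≃* DihedralGroup m) {y : Y} (hyo : (orderOf y).Coprime 2) :
    ∃ U : Subgroup Y, U ≤ S ∧ Nat.card U = 4 ∧ (∀ u ∈ U, u ^ 2 = 1) ∧
      y ∈ Subgroup.centralizer (U : Set Y) := by
  obtain ⟨h, k, hh0, h0, huniq, hk⟩ := half_quarter m h4
  obtain ⟨ρ, hρ⟩ : ∃ ρ : Y, ρ = el e (r 1) := ⟨_, rfl⟩
  have hρS : ρ ∈ S := by rw [hρ]; exact el_mem e _
  have hc : y * ρ * y⁻¹ ∈ S := Subgroup.Normal.conj_mem inferInstance ρ hρS y
  have hρz : Subgroup.zpowers ρ = Subgroup.zpowers ((e.symm (DihedralGroup.r 1) : S) : Y) := by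
    rw [hρ]; rfl
  have hrot : y * ρ * y⁻¹ ∈ Subgroup.zpowers ρ := by
    rcases hE : e ⟨_, hc⟩ with i | i
    · rw [hρz]; exact dih_mem_of_r S e hc hE
    · exfalso
      have h1 : (⟨_, hc⟩ : S) * ⟨_, hc⟩ = 1 := by
        apply e.injective
        rw [map_mul, hE, sr_mul_self, map_one]
      have h2 : y * ρ * y⁻¹ * (y * ρ * y⁻¹) = 1 := congrArg Subtype.val h1
      have h3 : ρ * ρ = 1 := by
        have h4' : y * (ρ * ρ) * y⁻¹ = 1 := by rw [← h2]; group
        have h5 : ρ * ρ = y⁻¹ * (y * (ρ * ρ) * y⁻¹) * y := by group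
        rw [h5, h4']; group
      rw [hρ, ← el_mul, r_mul_r] at h3
      have h6 := el_inj e (h3.trans (el_one e).symm)
      rw [one_def] at h6
      have h7 : (1 : ZMod m) + 1 = 0 := r.inj h6
      have h8 : ((2 : ℕ) : ZMod m) = 0 := by push_cast; linear_combination h7
      rw [ZMod.natCast_eq_zero_iff] at h8
      have h9 := Nat.le_of_dvd (by norm_num) h8
      have h10 := Nat.le_of_dvd (Nat.pos_of_ne_zero (NeZero.ne m)) h4
      omega
  have hnorm : ∀ q ∈ Subgroup.zpowers ρ, y * q * y⁻¹ ∈ Subgroup.zpowers ρ := by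
    rintro q ⟨j, rfl⟩
    have h1 : y * ρ ^ j * y⁻¹ = (y * ρ * y⁻¹) ^ j := by rw [conj_zpow]
    show y * ρ ^ j * y⁻¹ ∈ Subgroup.zpowers ρ
    rw [h1]; exact (Subgroup.zpowers ρ).zpow_mem hrot j
  have hcy := centralizes_cyclic (Subgroup.zpowers ρ)
    (fun q hq => h2S q ((Subgroup.zpowers_le.mpr hρS) hq)) hnorm hyo
  have hrotc : ∀ i : ZMod m, y * el e (r i) * y⁻¹ = el e (r i) := by
    intro i
    apply hcy
    rw [hρz]
    exact dih_mem_of_r S e (el_mem e (r i)) (el_e e (r i))
  obtain ⟨s, hs⟩ : ∃ s : Y, s = el e (sr 0) := ⟨_, rfl⟩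
  have hsS : s ∈ S := by rw [hs]; exact el_mem e _
  have hcs : y * s * y⁻¹ ∈ S := Subgroup.Normal.conj_mem inferInstance s hsS y
  have hsc : y * s * y⁻¹ = s := by
    have hx : (⟨_, hcs⟩ : S) = e.symm (e ⟨_, hcs⟩) := (e.symm_apply_apply _).symm
    have hx' : y * s * y⁻¹ = el e (e ⟨_, hcs⟩) := congrArg Subtype.val hx
    rcases hE : e ⟨_, hcs⟩ with i | i
    · exfalso
      rw [hE] at hx'
      have h1 := hrotc i
      rw [← hx'] at h1
      have h2 : y * s * y⁻¹ = s := by
        have h3 : y * s * y⁻¹ = y⁻¹ * (y * (y * s * y⁻¹) * y⁻¹) * y := by group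
        rw [h3, h1]; group
      rw [h2, hs] at hx'
      have h4' := el_inj e hx'
      cases h4'
    · rw [hE] at hx'
      have h1 : el e (sr i) = s * el e (r i) := by
        rw [hs, ← el_mul, sr_mul_r, zero_add]
      rw [h1] at hx'
      obtain ⟨e', he'⟩ := h2S _ (el_mem e (r i))
      have h2 := eq_one_of_odd_conj hyo (hrotc i) hx' he'
      rw [hx', h2, mul_one]
  have hKl := stdFour_klein e hh0 h0 0
  refine ⟨stdFour e hh0 0, ?_, hKl.card_four, ?_, ?_⟩
  · intro u hu
    rcases (mem_fourSub _ _ _).mp hu with h1 | h1 | h1 | h1 <;> rw [h1]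
    · exact S.one_mem
    · exact el_mem e _
    · exact el_mem e _
    · exact S.mul_mem (el_mem e _) (el_mem e _)
  · intro u hu
    rw [pow_two]
    exact (klein_facts _ hKl).1 u hu
  · rw [Subgroup.mem_centralizer_iff]
    have hz := hrotc h
    subst hs
    have hyz : el e (r h) * y = y * el e (r h) := by
      have h5 : y * el e (r h) = (y * el e (r h) * y⁻¹) * y := by group
      rw [h5, hz]
    have hys : el e (sr 0) * y = y * el e (sr 0) := by
      have h5 : y * el e (sr 0) = (y * el e (sr 0) * y⁻¹) * y := by group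
      rw [h5, hsc]
    intro u hu
    rcases (mem_fourSub _ _ _).mp hu with h1 | h1 | h1 | h1 <;> rw [h1]
    · rw [one_mul, mul_one]
    · exact hyz
    · exact hys
    · rw [mul_assoc, hys, ← mul_assoc, hyz, mul_assoc]

theorem closed_classify {Y : Type*} [Group Y] [Finite Y] (S : Sylow 2 Y)
    [(S : Subgroup Y).Normal] (hq : IsCyclic (Y ⧸ (S : Subgroup Y)))
    (hS : IsCyclic (S : Subgroup Y) ∨
      ((∃ k : ℕ, 1 ≤ k ∧ Nonempty ((S : Subgroup Y) ≃* DihedralGroup (2 ^ k))) ∧
        ∀ U : Subgroup Y, U ≤ S → Nat.card U = 4 → (∀ u ∈ U, u ^ 2 = 1) →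
          Subgroup.centralizer (U : Set Y) ≤ U)) :
    IsCyclic Y ∨ (∃ n : ℕ, Nonempty (Y ≃* DihedralGroup (2 ^ n))) ∨
      Nonempty (Y ≃* alternatingGroup (Fin 4)) := by
  haveI : Fact (Nat.Prime 2) := ⟨Nat.prime_two⟩
  have hcop : (Nat.card (S : Subgroup Y)).Coprime (S : Subgroup Y).index := S.card_coprime_index
  obtain ⟨K, hK⟩ := Subgroup.exists_right_complement'_of_coprime hcop
  have hcard : Nat.card (S : Subgroup Y) * Nat.card K = Nat.card Y := hK.card_mul_card
  have hKS : ∀ x ∈ K, x ∈ (S : Subgroup Y) → x = 1 := by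
    intro x hxK hxS
    exact Subgroup.disjoint_def.mp hK.disjoint hxS hxK
  let f : K →* Y ⧸ (S : Subgroup Y) := (QuotientGroup.mk' (S : Subgroup Y)).comp K.subtype
  have hf : Function.Injective f := by
    rw [injective_iff_map_eq_one]
    intro x hx
    have h1 : (x : Y) ∈ (S : Subgroup Y) := by
      have h2 : ((x : Y) : Y ⧸ (S : Subgroup Y)) = 1 := hx
      rwa [QuotientGroup.eq_one_iff] at h2
    exact Subtype.ext (hKS x x.2 h1)
  haveI : IsCyclic K := isCyclic_of_injective f hf
  obtain ⟨y, hyK, hygen⟩ := exists_gen K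
  have hKzp : K = Subgroup.zpowers y := le_antisymm hygen (Subgroup.zpowers_le.mpr hyK)
  have hKcard : Nat.card K = orderOf y := by rw [hKzp, Nat.card_zpowers]
  have hKidx : Nat.card K = (S : Subgroup Y).index := by
    have h2 := Subgroup.card_mul_index (S : Subgroup Y)
    have h3 : Nat.card (S : Subgroup Y) * Nat.card K =
        Nat.card (S : Subgroup Y) * (S : Subgroup Y).index := by rw [hcard, h2]
    exact Nat.eq_of_mul_eq_mul_left Nat.card_pos h3
  have hyo : (orderOf y).Coprime 2 := by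
    rw [← hKcard, hKidx, Nat.coprime_comm, Nat.Prime.coprime_iff_not_dvd Nat.prime_two]
    exact S.not_dvd_index
  have h2S : ∀ s ∈ (S : Subgroup Y), ∃ e : ℕ, s ^ (2 ^ e) = 1 := by
    intro s hs
    obtain ⟨e, he⟩ := S.isPGroup' ⟨s, hs⟩
    exact ⟨e, congrArg Subtype.val he⟩
  have htop_of : y = 1 → (S : Subgroup Y) = ⊤ := by
    intro hy1
    have h1 : Nat.card K = 1 := by rw [hKcard, hy1, orderOf_one]
    rw [h1, mul_one] at hcard
    exact Subgroup.eq_top_of_card_eq _ hcard
  rcases hS with hSc | ⟨⟨k, hk1, ⟨eD⟩⟩, hcentU⟩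
  · left
    haveI := hSc
    obtain ⟨s₀, hs₀S, hs₀gen⟩ := exists_gen (S : Subgroup Y)
    have hconj : ∀ q ∈ (S : Subgroup Y), y * q * y⁻¹ ∈ (S : Subgroup Y) :=
      fun q hq => Subgroup.Normal.conj_mem inferInstance q hq y
    have hcy := centralizes_cyclic (S : Subgroup Y) h2S hconj hyo
    have hcomm : Commute y s₀ := mul_inv_eq_iff_eq_mul.mp (hcy s₀ hs₀S)
    have hSzp : (S : Subgroup Y) = Subgroup.zpowers s₀ :=
      le_antisymm hs₀gen (Subgroup.zpowers_le.mpr hs₀S)
    have hScard : Nat.card (S : Subgroup Y) = orderOf s₀ := by rw [hSzp, Nat.card_zpowers]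
    have hcop2 : (orderOf y).Coprime (orderOf s₀) := by
      obtain ⟨e, he⟩ := h2S s₀ hs₀S
      obtain ⟨j, -, hj⟩ := (Nat.dvd_prime_pow Nat.prime_two).mp (orderOf_dvd_of_pow_eq_one he)
      rw [hj]; exact Nat.Coprime.pow_right j hyo
    have hord := hcomm.orderOf_mul_eq_mul_orderOf_of_coprime hcop2
    apply isCyclic_of_orderOf_eq_card (y * s₀)
    rw [hord, ← hcard, hScard, hKcard, mul_comm]
  · rcases Nat.lt_or_ge k 2 with hk2 | hk2
    · have hk : k = 1 := by omega
      subst hk
      have hS4 : Nat.card (S : Subgroup Y) = 4 := by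
        rw [Nat.card_congr eD.toEquiv, DihedralGroup.nat_card]; norm_num
      have hKl : IsKleinFour (S : Subgroup Y) := by
        refine ⟨hS4, ?_⟩
        rw [Monoid.exponent_eq_of_mulEquiv eD]
        exact IsKleinFour.exponent_two (G := DihedralGroup 2)
      obtain ⟨hsq, hab', a, b, haS, hbS, ha1, hb1, hab, hall⟩ := klein_facts _ hKl
      have hexp : ∀ u ∈ (S : Subgroup Y), u ^ 2 = 1 := fun u hu => by rw [pow_two]; exact hsq u hu
      have hcS := hcentU (S : Subgroup Y) le_rfl hS4 hexp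
      have hconj : ∀ q ∈ (S : Subgroup Y), y * q * y⁻¹ ∈ (S : Subgroup Y) :=
        fun q hq => Subgroup.Normal.conj_mem inferInstance q hq y
      have hne1 : ∀ q : Y, q ≠ 1 → y * q * y⁻¹ ≠ 1 := by
        intro q hq h
        apply hq
        have h5 : q = y⁻¹ * (y * q * y⁻¹) * y := by group
        rw [h5, h]; group
      have hya : y * a * y⁻¹ = a ∨ y * a * y⁻¹ = b ∨ y * a * y⁻¹ = a * b := by
        rcases hall _ (hconj a haS) with h | h | h | h
        · exact absurd h (hne1 a ha1)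
        · exact Or.inl h
        · exact Or.inr (Or.inl h)
        · exact Or.inr (Or.inr h)
      have hyb : y * b * y⁻¹ = a ∨ y * b * y⁻¹ = b ∨ y * b * y⁻¹ = a * b := by
        rcases hall _ (hconj b hbS) with h | h | h | h
        · exact absurd h (hne1 b hb1)
        · exact Or.inl h
        · exact Or.inr (Or.inl h)
        · exact Or.inr (Or.inr h)
      have hpow : ∀ j : ℕ, y ^ j * a * (y ^ j)⁻¹ = a → y ^ j * b * (y ^ j)⁻¹ = b → y ^ j = 1 := by
        intro j h1 h2
        have hyjK : y ^ j ∈ K := K.pow_mem hyK j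
        apply hKS _ hyjK
        apply hcS
        rw [Subgroup.mem_centralizer_iff]
        have hca : a * y ^ j = y ^ j * a := by
          have h5 : y ^ j * a = (y ^ j * a * (y ^ j)⁻¹) * y ^ j := by group
          rw [h5, h1]
        have hcb : b * y ^ j = y ^ j * b := by
          have h5 : y ^ j * b = (y ^ j * b * (y ^ j)⁻¹) * y ^ j := by group
          rw [h5, h2]
        intro u hu
        rcases hall u hu with h | h | h | h <;> rw [h]
        · rw [one_mul, mul_one]
        · exact hca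
        · exact hcb
        · rw [mul_assoc, hcb, ← mul_assoc, hca, mul_assoc]
      have hdih : y = 1 → IsCyclic Y ∨ (∃ n : ℕ, Nonempty (Y ≃* DihedralGroup (2 ^ n))) ∨
          Nonempty (Y ≃* alternatingGroup (Fin 4)) := by
        intro hy1
        have htop := htop_of hy1
        exact Or.inr (Or.inl ⟨1, ⟨(Subgroup.topEquiv.symm.trans
          (MulEquiv.subgroupCongr htop.symm)).trans eD⟩⟩)
      rcases klein_aut_order3 (hsq a haS) (hsq b hbS) (hab' a haS b hbS) hab hya hyb with
        ⟨h1, h2⟩ | ⟨h1, h2⟩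
      · have hy2 := hpow 2 h1 h2
        apply hdih
        have h3 : orderOf y ∣ 2 := orderOf_dvd_of_pow_eq_one hy2
        have h4 : orderOf y = 1 := Nat.eq_one_of_dvd_coprimes hyo (dvd_refl _) h3
        exact orderOf_eq_one_iff.mp h4
      · have hy3 := hpow 3 h1 h2
        by_cases hy1 : y = 1
        · exact hdih hy1
        · right; right
          haveI : Fact (Nat.Prime 3) := ⟨Nat.prime_three⟩
          have ho3 : orderOf y = 3 := orderOf_eq_prime hy3 hy1
          have hK3 : Nat.card K = 3 := by rw [hKcard, ho3]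
          have hY12 : Nat.card Y = 12 := by rw [← hcard, hS4, hK3]
          refine a4_of_klein (S : Subgroup Y) K hK3 hY12 (fun x hxS hxK => hKS x hxK hxS) ?_
          intro g hgK hg
          apply hKS g hgK
          apply hcS
          rw [Subgroup.mem_centralizer_iff]
          intro u hu
          exact (hg u hu).symm
    · right; left
      haveI : NeZero (2 ^ k) := ⟨by positivity⟩
      have h4 : 4 ∣ 2 ^ k := by
        obtain ⟨j, rfl⟩ : ∃ j, k = 2 + j := ⟨k - 2, by omega⟩
        rw [pow_add]; exact Dvd.intro _ rfl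
      obtain ⟨U, hUS, hU4, hUexp, hyU⟩ :=
        odd_centralizes_four (S : Subgroup Y) h2S (2 ^ k) h4 eD hyo
      have hyinU := hcentU U hUS hU4 hUexp hyU
      have hy1 : y = 1 := hKS y hyK (hUS hyinU)
      have htop := htop_of hy1
      exact ⟨k, ⟨(Subgroup.topEquiv.symm.trans (MulEquiv.subgroupCongr htop.symm)).trans eD⟩⟩

theorem cent_transport {G : Type*} [Group G] [Finite G] (P : Sylow 2 G)
    (hcent : ∀ K : Subgroup G, K ≤ P → Nat.card K = 4 → (∀ k ∈ K, k ^ 2 = 1) →
      Subgroup.centralizer (K : Set G) ≤ K)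
    (V : Subgroup G) (hV4 : Nat.card V = 4) (hVexp : ∀ v ∈ V, v ^ 2 = 1) :
    Subgroup.centralizer (V : Set G) ≤ V := by
  have hVp : IsPGroup 2 V := IsPGroup.of_card (n := 2) (by rw [hV4]; norm_num)
  obtain ⟨k, hk⟩ := exists_conj_le_sylow P V hVp
  obtain ⟨W, hW⟩ : ∃ W : Subgroup G, W = V.map (MulAut.conj k).toMonoidHom := ⟨_, rfl⟩
  have hmem : ∀ w : G, w ∈ W ↔ k⁻¹ * w * k ∈ V := by
    intro w; rw [hW, Cfsg.Agent.Lib_helper2_Isolated.mem_map_conj]
  have hWP : W ≤ P := by
    intro w hw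
    have h2 := hk _ ((hmem w).mp hw)
    have h3 : k * (k⁻¹ * w * k) * k⁻¹ = w := by group
    rwa [h3] at h2
  have hW4 : Nat.card W = 4 := by
    rw [← hV4, hW]
    exact (Nat.card_congr (V.equivMapOfInjective _ (MulAut.conj k).injective).toEquiv).symm
  have hWexp : ∀ w ∈ W, w ^ 2 = 1 := by
    intro w hw
    have h2 := hVexp _ ((hmem w).mp hw)
    have h3 : w ^ 2 = k * (k⁻¹ * w * k) ^ 2 * k⁻¹ := by rw [pow_two, pow_two]; group
    rw [h3, h2]; group
  have hc := hcent W hWP hW4 hWexp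
  intro g hg
  have h1 : k * g * k⁻¹ ∈ Subgroup.centralizer (W : Set G) := by
    rw [Subgroup.mem_centralizer_iff]
    intro w hw
    have h2 := (Subgroup.mem_centralizer_iff.mp hg) _ ((hmem w).mp hw)
    have h3 : w * (k * g * k⁻¹) = k * ((k⁻¹ * w * k) * g) * k⁻¹ := by group
    have h4 : k * g * k⁻¹ * w = k * (g * (k⁻¹ * w * k)) * k⁻¹ := by group
    rw [h3, h4, h2]
  have h5 := (hmem _).mp (hc h1)
  have h6 : k⁻¹ * (k * g * k⁻¹) * k = g := by group
  rwa [h6] at h5

theorem S4083_main {G : Type*} [Group G] [Finite G] (P : Sylow 2 G) :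
    (∀ H : Subgroup G, (∀ S : Sylow 2 ↥H, (S : Subgroup ↥H).Normal) →
        (∀ (S : Sylow 2 ↥H) [(S : Subgroup ↥H).Normal], IsCyclic (↥H ⧸ (S : Subgroup ↥H))) →
        IsCyclic H ∨ (∃ n : ℕ, Nonempty (H ≃* DihedralGroup (2 ^ n))) ∨
          Nonempty (H ≃* alternatingGroup (Fin 4))) ↔
    (IsCyclic P ∨
      ((∃ n : ℕ, 1 ≤ n ∧ Nonempty ((P : Subgroup G) ≃* DihedralGroup (2 ^ n))) ∧
        ∀ K : Subgroup G, K ≤ P → Nat.card K = 4 → (∀ k ∈ K, k ^ 2 = 1) →
          Subgroup.centralizer (K : Set G) = K)) := by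
  haveI : Fact (Nat.Prime 2) := ⟨Nat.prime_two⟩
  constructor
  · intro hL
    have key2 : ∀ H : Subgroup G, IsPGroup 2 H →
        IsCyclic H ∨ (∃ n : ℕ, Nonempty (H ≃* DihedralGroup (2 ^ n))) := by
      intro H hH
      have hST : ∀ S : Sylow 2 ↥H, (S : Subgroup ↥H) = ⊤ := fun S =>
        (S.is_maximal' (hH.to_subgroup ⊤) le_top).symm
      have hN : ∀ S : Sylow 2 ↥H, (S : Subgroup ↥H).Normal := by
        intro S; rw [hST S]; infer_instance
      have hQ : ∀ (S : Sylow 2 ↥H) [(S : Subgroup ↥H).Normal],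
          IsCyclic (↥H ⧸ (S : Subgroup ↥H)) := by
        intro S _
        haveI : Subsingleton (↥H ⧸ (S : Subgroup ↥H)) := by
          constructor
          intro a b
          obtain ⟨a, rfl⟩ := QuotientGroup.mk_surjective a
          obtain ⟨b, rfl⟩ := QuotientGroup.mk_surjective b
          rw [QuotientGroup.eq, hST S]; exact Subgroup.mem_top _
        infer_instance
      rcases hL H hN hQ with h | h | ⟨⟨e⟩⟩
      · exact Or.inl h
      · exact Or.inr h
      · exfalso
        obtain ⟨j, hj⟩ := IsPGroup.iff_card.mp hH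
        rw [Nat.card_congr e.toEquiv, card_a4] at hj
        have h3 : 3 ∣ 2 ^ j := by rw [← hj]; norm_num
        have h5 := (Nat.Prime.dvd_of_dvd_pow Nat.prime_three h3)
        have h6 := Nat.le_of_dvd (by norm_num) h5
        omega
    have hcentAll : ∀ K : Subgroup G, Nat.card K = 4 → (∀ k ∈ K, k ^ 2 = 1) →
        Subgroup.centralizer (K : Set G) = K := by
      intro K hK4 hKexp
      have hsq : ∀ a ∈ K, a * a = 1 := fun a ha => by rw [← pow_two]; exact hKexp a ha
      have hinv : ∀ a ∈ K, a⁻¹ = a := fun a ha => inv_eq_of_mul_eq_one_left (hsq a ha)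
      have hKcomm : ∀ a ∈ K, ∀ b ∈ K, a * b = b * a := by
        intro a ha b hb
        have h1 := hinv _ (K.mul_mem ha hb)
        rw [mul_inv_rev, hinv a ha, hinv b hb] at h1
        exact h1.symm
      have hKle : K ≤ Subgroup.centralizer (K : Set G) := by
        intro a ha
        rw [Subgroup.mem_centralizer_iff]
        intro b hb
        exact hKcomm b hb a ha
      have hKbot : K ≠ ⊥ := by
        intro h
        rw [h, Subgroup.card_bot] at hK4
        omega
      obtain ⟨⟨a, haK⟩, ha1'⟩ := (Subgroup.ne_bot_iff_exists_ne_one).mp hKbot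
      have ha1 : a ≠ 1 := fun h => ha1' (Subtype.ext h)
      have hoa : orderOf a = 2 := orderOf_eq_prime (hKexp a haK) ha1
      obtain ⟨b, hbK, hbz⟩ : ∃ b ∈ K, b ∉ Subgroup.zpowers a := by
        by_contra hcon
        push Not at hcon
        have hle : K ≤ Subgroup.zpowers a := hcon
        have h1 := Subgroup.card_le_of_le hle
        rw [hK4, Nat.card_zpowers, hoa] at h1
        omega
      have hb1 : b ≠ 1 := fun h => hbz (by rw [h]; exact Subgroup.one_mem _)
      have hab : a ≠ b := fun h => hbz (by rw [← h]; exact Subgroup.mem_zpowers a)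
      have hob : orderOf b = 2 := orderOf_eq_prime (hKexp b hbK) hb1
      have claimA : ∀ y ∈ Subgroup.centralizer (K : Set G), (orderOf y).Coprime 2 → y = 1 := by
        intro y hyC hyo
        have hyc : ∀ u ∈ K, ∀ v ∈ Subgroup.zpowers y, u * v = v * u := by
          intro u hu v hv
          obtain ⟨j, rfl⟩ := hv
          have h1 : u * y = y * u := (Subgroup.mem_centralizer_iff.mp hyC) u hu
          exact (Commute.zpow_right (show Commute u y from h1) j).eq
        obtain ⟨H, hH⟩ : ∃ H : Subgroup G, H = K ⊔ Subgroup.zpowers y := ⟨_, rfl⟩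
        have hKH : K ≤ H := by rw [hH]; exact le_sup_left
        have hyH : y ∈ H := by
          rw [hH]; exact (le_sup_right : Subgroup.zpowers y ≤ _) (Subgroup.mem_zpowers y)
        have hdec : ∀ g ∈ H, ∃ u ∈ K, ∃ j : ℤ, g = u * y ^ j := by
          intro g hg
          rw [hH] at hg
          obtain ⟨u, hu, v, ⟨j, rfl⟩, rfl⟩ :=
            Cfsg.Agent.Lib_helper2_Cyc.exists_mul_of_mem_sup_comm K (Subgroup.zpowers y) hyc hg
          exact ⟨u, hu, j, rfl⟩
        have hHcomm : ∀ g₁ ∈ H, ∀ g₂ ∈ H, g₁ * g₂ = g₂ * g₁ := by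
          intro g₁ h1 g₂ h2
          obtain ⟨u₁, hu₁, j₁, rfl⟩ := hdec g₁ h1
          obtain ⟨u₂, hu₂, j₂, rfl⟩ := hdec g₂ h2
          have c1 := hyc u₁ hu₁ (y ^ j₂) ⟨j₂, rfl⟩
          have c2 := hyc u₂ hu₂ (y ^ j₁) ⟨j₁, rfl⟩
          have c3 := hKcomm u₁ hu₁ u₂ hu₂
          have c4 : y ^ j₁ * y ^ j₂ = y ^ j₂ * y ^ j₁ := by
            rw [← zpow_add, ← zpow_add, add_comm]
          calc u₁ * y ^ j₁ * (u₂ * y ^ j₂) = u₁ * (y ^ j₁ * u₂) * y ^ j₂ := by
                simp only [mul_assoc]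
            _ = u₁ * (u₂ * y ^ j₁) * y ^ j₂ := by rw [c2]
            _ = (u₁ * u₂) * (y ^ j₁ * y ^ j₂) := by simp only [mul_assoc]
            _ = (u₂ * u₁) * (y ^ j₂ * y ^ j₁) := by rw [c3, c4]
            _ = u₂ * (u₁ * y ^ j₂) * y ^ j₁ := by simp only [mul_assoc]
            _ = u₂ * (y ^ j₂ * u₁) * y ^ j₁ := by rw [c1]
            _ = u₂ * y ^ j₂ * (u₁ * y ^ j₁) := by simp only [mul_assoc]
        have hN : ∀ S : Sylow 2 ↥H, (S : Subgroup ↥H).Normal := by
          intro S
          constructor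
          intro n hn g
          have h1 : g * n * g⁻¹ = n := by
            have h2 : g * n = n * g := Subtype.ext (hHcomm g g.2 n n.2)
            rw [h2, mul_inv_cancel_right]
          rw [h1]; exact hn
        have hQ : ∀ (S : Sylow 2 ↥H) [(S : Subgroup ↥H).Normal],
            IsCyclic (↥H ⧸ (S : Subgroup ↥H)) := by
          intro S _
          refine ⟨⟨((⟨y, hyH⟩ : ↥H) : ↥H ⧸ (S : Subgroup ↥H)), fun q => ?_⟩⟩
          obtain ⟨g, rfl⟩ := QuotientGroup.mk_surjective q
          obtain ⟨u, hu, j, hg⟩ := hdec g g.2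
          refine ⟨j, ?_⟩
          show ((⟨y, hyH⟩ : ↥H) : ↥H ⧸ (S : Subgroup ↥H)) ^ j = (g : ↥H ⧸ (S : Subgroup ↥H))
          rw [← QuotientGroup.mk_zpow, QuotientGroup.eq]
          have h1 : ((⟨y, hyH⟩ : ↥H) ^ j)⁻¹ * g = ⟨u, hKH hu⟩ := by
            apply Subtype.ext
            show (y ^ j)⁻¹ * (g : G) = u
            rw [hg, hyc u hu (y ^ j) ⟨j, rfl⟩]; group
          rw [h1]
          apply mem_normal_sylow S
          refine ⟨1, ?_⟩
          apply Subtype.ext
          show u ^ 2 ^ 1 = 1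
          rw [pow_one]
          exact hKexp u hu
        rcases hL H hN hQ with hc | ⟨n, ⟨e⟩⟩ | ⟨⟨e⟩⟩
        · exfalso
          haveI := hc
          obtain ⟨ρ, hρH, hρgen⟩ := exists_gen H
          exact hab (Cfsg.Agent.Lib_helper2_Thompson.involution_mem_zpowers_unique hoa hob
            (hρgen a (hKH haK)) (hρgen b (hKH hbK)))
        · have hcardH : Nat.card H = 2 ^ (n + 1) := by
            rw [Nat.card_congr e.toEquiv, DihedralGroup.nat_card, pow_succ, mul_comm]
          have h1 : orderOf y ∣ 2 ^ (n + 1) := by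
            rw [← hcardH]
            have h2 := orderOf_dvd_natCard (⟨y, hyH⟩ : H)
            rwa [Subgroup.orderOf_mk] at h2
          have h2 : orderOf y = 1 :=
            Nat.eq_one_of_dvd_coprimes (Nat.Coprime.pow_right (n + 1) hyo) (dvd_refl _) h1
          exact orderOf_eq_one_iff.mp h2
        · exfalso
          obtain ⟨x₁, x₂, hx⟩ := a4_not_comm
          apply hx
          have h1 : e.symm x₁ * e.symm x₂ = e.symm x₂ * e.symm x₁ :=
            Subtype.ext (hHcomm _ (e.symm x₁).2 _ (e.symm x₂).2)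
          have h2 := congrArg e h1
          rwa [map_mul, map_mul, e.apply_symm_apply, e.apply_symm_apply] at h2
      have hC2 : IsPGroup 2 (Subgroup.centralizer (K : Set G)) := by
        rintro ⟨g, hg⟩
        have ho : orderOf g ≠ 0 := (orderOf_pos g).ne'
        obtain ⟨e, t, ht, heq⟩ := Nat.exists_eq_two_pow_mul_odd ho
        refine ⟨e, ?_⟩
        apply Subtype.ext
        show g ^ 2 ^ e = 1
        apply claimA _ (Subgroup.pow_mem _ hg _)
        have h1 : (g ^ 2 ^ e) ^ t = 1 := by rw [← pow_mul, ← heq, pow_orderOf_eq_one]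
        have h2 : orderOf (g ^ 2 ^ e) ∣ t := orderOf_dvd_of_pow_eq_one h1
        exact Nat.Coprime.coprime_dvd_left h2 (Nat.coprime_two_right.mpr ht)
      rcases key2 _ hC2 with hc | ⟨n, ⟨e⟩⟩
      · exfalso
        haveI := hc
        obtain ⟨ρ, hρH, hρgen⟩ := exists_gen (Subgroup.centralizer (K : Set G))
        exact hab (Cfsg.Agent.Lib_helper2_Thompson.involution_mem_zpowers_unique hoa hob
          (hρgen a (hKle haK)) (hρgen b (hKle hbK)))
      · rcases Nat.lt_or_ge n 2 with hn | hn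
        · have hcardC : Nat.card (Subgroup.centralizer (K : Set G)) ≤ 4 := by
            rw [Nat.card_congr e.toEquiv, DihedralGroup.nat_card]
            have h1 : 2 ^ n ≤ 2 ^ 1 := Nat.pow_le_pow_right (by norm_num) (by omega)
            omega
          exact (Subgroup.eq_of_le_of_card_ge hKle (by rw [hK4]; exact hcardC)).symm
        · exfalso
          haveI : NeZero (2 ^ n) := ⟨by positivity⟩
          have h4 : 4 ∣ 2 ^ n := by
            obtain ⟨j, rfl⟩ : ∃ j, n = 2 + j := ⟨n - 2, by omega⟩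
            rw [pow_add]; exact Dvd.intro _ rfl
          have hm3 : 3 ≤ 2 ^ n := by
            have h1 := Nat.le_of_dvd (by positivity) h4
            omega
          obtain ⟨h, k, hh0, h0, huniq, hk⟩ := half_quarter (2 ^ n) h4
          have hcen : ∀ u (hu : u ∈ K), ∀ d : DihedralGroup (2 ^ n),
              e ⟨u, hKle hu⟩ * d = d * e ⟨u, hKle hu⟩ := by
            intro u hu d
            obtain ⟨c, rfl⟩ := e.surjective d
            rw [← map_mul, ← map_mul]
            congr 1
            apply Subtype.ext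
            exact ((Subgroup.mem_centralizer_iff.mp c.2) u hu)
          have hne : ∀ u (hu : u ∈ K), u ≠ 1 → e ⟨u, hKle hu⟩ ≠ 1 := by
            intro u hu hu1 h
            apply hu1
            have h1 := e.injective (h.trans (map_one e).symm)
            exact congrArg Subtype.val h1
          have ha' := dih_central hm3 (hcen a haK) (hne a haK ha1) huniq
          have hb' := dih_central hm3 (hcen b hbK) (hne b hbK hb1) huniq
          have h1 := e.injective (ha'.trans hb'.symm)
          exact hab (congrArg Subtype.val h1)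
    rcases key2 (P : Subgroup G) P.isPGroup' with hc | ⟨n, ⟨e⟩⟩
    · exact Or.inl hc
    · rcases Nat.eq_zero_or_pos n with hn | hn
      · left
        subst hn
        have hcard : Nat.card (P : Subgroup G) = 2 := by
          rw [Nat.card_congr e.toEquiv, DihedralGroup.nat_card]; norm_num
        exact isCyclic_of_prime_card hcard
      · right
        exact ⟨⟨n, hn, ⟨e⟩⟩, fun K _ hK4 hKexp => hcentAll K hK4 hKexp⟩
  · intro hR H hN hQ
    obtain ⟨S⟩ : Nonempty (Sylow 2 ↥H) := inferInstance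
    haveI := hN S
    apply closed_classify S (hQ S)
    have hSp : IsPGroup 2 ((S : Subgroup ↥H).map H.subtype) := S.isPGroup'.map H.subtype
    obtain ⟨k, hk⟩ := exists_conj_le_sylow P _ hSp
    let f : ↥(S : Subgroup ↥H) →* ↥(P : Subgroup G) :=
      MonoidHom.mk' (fun s => ⟨k * ((s : ↥H) : G) * k⁻¹,
        hk _ (Subgroup.mem_map_of_mem _ s.2)⟩) (by
        intro a b
        apply Subtype.ext
        show k * (((a * b : ↥(S : Subgroup ↥H)) : ↥H) : G) * k⁻¹ =
          (k * ((a : ↥H) : G) * k⁻¹) * (k * ((b : ↥H) : G) * k⁻¹)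
        rw [Subgroup.coe_mul, Subgroup.coe_mul]; group)
    have hf : Function.Injective f := by
      intro a b hab
      have h1 : k * ((a : ↥H) : G) * k⁻¹ = k * ((b : ↥H) : G) * k⁻¹ := congrArg Subtype.val hab
      exact Subtype.ext (Subtype.ext (mul_left_cancel (mul_right_cancel h1)))
    rcases hR with hc | ⟨⟨n, hn1, ⟨eD⟩⟩, hcent⟩
    · left
      haveI := hc
      exact isCyclic_of_injective f hf
    · haveI : NeZero (2 ^ n) := ⟨by positivity⟩
      rcases dih_sub_classify (m := 2 ^ n) (n := n) rfl (eD.toMonoidHom.comp f)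
        (eD.injective.comp hf) with hc | ⟨j, hj1, hj⟩
      · exact Or.inl hc
      · right
        refine ⟨⟨j, hj1, hj⟩, ?_⟩
        intro U hUS hU4 hUexp g hg
        have hcent' : ∀ K : Subgroup G, K ≤ P → Nat.card K = 4 → (∀ k ∈ K, k ^ 2 = 1) →
            Subgroup.centralizer (K : Set G) ≤ K :=
          fun K h1 h2 h3 => (hcent K h1 h2 h3).le
        have hV4 : Nat.card (U.map H.subtype) = 4 := by
          rw [← hU4]
          exact (Nat.card_congr (U.equivMapOfInjective _ H.subtype_injective).toEquiv).symm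
        have hVexp : ∀ v ∈ U.map H.subtype, v ^ 2 = 1 := by
          rintro v ⟨u, hu, rfl⟩
          have h1 := hUexp u hu
          exact congrArg Subtype.val h1
        have hct := cent_transport P hcent' (U.map H.subtype) hV4 hVexp
        have hgc : (g : G) ∈ Subgroup.centralizer ((U.map H.subtype : Subgroup G) : Set G) := by
          rw [Subgroup.mem_centralizer_iff]
          rintro v ⟨u, hu, rfl⟩
          have h1 := (Subgroup.mem_centralizer_iff.mp hg) u hu
          exact congrArg Subtype.val h1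
        obtain ⟨u, hu, hug⟩ := hct hgc
        have h1 : u = g := Subtype.ext hug
        rw [← h1]; exact hu

end Cfsg.Agent.Lib_helper2_Dih6
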