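import Mathlib
import Cfsg.Agent.Lib_helper1_Socle

namespace Cfsg.Agent.Lib_helper2_P4

/-- `y ↦ [x, y]` is a homomorphism when all commutators are central. -/
def thetaHom {P : Type*} [Group P]
    (hc : ∀ x y : P, x * y * x⁻¹ * y⁻¹ ∈ Subgroup.center P) (x : P) : P →* P :=
  MonoidHom.mk' (fun y => x * y * x⁻¹ * y⁻¹) (by
    intro y z
    have h := (Subgroup.mem_center_iff.mp (hc x z)) y⁻¹
    calc x * (y * z) * x⁻¹ * (y * z)⁻¹
        = x * y * x⁻¹ * ((x * z * x⁻¹ * z⁻¹) * y⁻¹) := by group
      _ = x * y * x⁻¹ * (y⁻¹ * (x * z * x⁻¹ * z⁻¹)) := by rw [← h]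
      _ = x * y * x⁻¹ * y⁻¹ * (x * z * x⁻¹ * z⁻¹) := by group)

theorem thetaHom_apply {P : Type*} [Group P]
    (hc : ∀ x y : P, x * y * x⁻¹ * y⁻¹ ∈ Subgroup.center P) (x y : P) :
    thetaHom hc x y = x * y * x⁻¹ * y⁻¹ := rfl

/-- `x ↦ [x, y]` is a homomorphism when all commutators are central. -/
def psiHom {P : Type*} [Group P]
    (hc : ∀ x y : P, x * y * x⁻¹ * y⁻¹ ∈ Subgroup.center P) (y : P) : P →* P :=
  MonoidHom.mk' (fun x => x * y * x⁻¹ * y⁻¹) (by
    intro x x'
    have h := (Subgroup.mem_center_iff.mp (hc x' y)) x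
    have h2 := (Subgroup.mem_center_iff.mp (hc x' y)) (x * y * x⁻¹ * y⁻¹)
    calc (x * x') * y * (x * x')⁻¹ * y⁻¹
        = x * (x' * y * x'⁻¹ * y⁻¹) * (y * x⁻¹ * y⁻¹) := by group
      _ = (x' * y * x'⁻¹ * y⁻¹) * x * (y * x⁻¹ * y⁻¹) := by rw [h]
      _ = (x' * y * x'⁻¹ * y⁻¹) * (x * y * x⁻¹ * y⁻¹) := by group
      _ = (x * y * x⁻¹ * y⁻¹) * (x' * y * x'⁻¹ * y⁻¹) := h2.symm)

theorem psiHom_apply {P : Type*} [Group P]
    (hc : ∀ x y : P, x * y * x⁻¹ * y⁻¹ ∈ Subgroup.center P) (y x : P) :
    psiHom hc y x = x * y * x⁻¹ * y⁻¹ := rfl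

theorem mem_ker_theta {P : Type*} [Group P]
    (hc : ∀ x y : P, x * y * x⁻¹ * y⁻¹ ∈ Subgroup.center P) (x y : P) :
    y ∈ (thetaHom hc x).ker ↔ x * y = y * x := by
  rw [MonoidHom.mem_ker, thetaHom_apply]
  constructor
  · intro h
    calc x * y = (x * y * x⁻¹ * y⁻¹) * (y * x) := by group
      _ = y * x := by rw [h, one_mul]
  · intro h
    calc x * y * x⁻¹ * y⁻¹ = (x * y) * x⁻¹ * y⁻¹ := by group
      _ = (y * x) * x⁻¹ * y⁻¹ := by rw [h]
      _ = 1 := by group

theorem eq_top_of_lt {P : Type*} [Group P] [Finite P] {p : ℕ} [Fact p.Prime]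
    (hP : Nat.card P = p ^ 4) (M K : Subgroup P) (hM : Nat.card M = p ^ 3) (hMK : M ≤ K)
    {b : P} (hbK : b ∈ K) (hbM : b ∉ M) : K = ⊤ := by
  have hp := (Fact.out : p.Prime)
  have hKdvd : Nat.card K ∣ p ^ 4 := hP ▸ Subgroup.card_subgroup_dvd_card K
  obtain ⟨k, hk4, hk⟩ := (Nat.dvd_prime_pow hp).mp hKdvd
  have hle : Nat.card M ≤ Nat.card K := Nat.le_of_dvd Nat.card_pos (Subgroup.card_dvd_of_le hMK)
  rw [hM, hk] at hle
  have h3k : 3 ≤ k := (Nat.pow_le_pow_iff_right hp.one_lt).mp hle
  rcases Nat.lt_or_ge k 4 with h | h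
  · have hk3 : k = 3 := by omega
    have : M = K := Subgroup.eq_of_le_of_card_ge hMK (by rw [hM, hk, hk3])
    exact absurd (this ▸ hbK) hbM
  · have hk4' : k = 4 := by omega
    exact Subgroup.eq_top_of_card_eq K (by rw [hk, hk4', hP])

/-- A group of order `p^3` whose center has order at least `p^2` is commutative. -/
theorem comm_of_center_big {M : Type*} [Group M] [Finite M] {p : ℕ} [Fact p.Prime]
    (hM : Nat.card M = p ^ 3) (hZ : p ^ 2 ≤ Nat.card (Subgroup.center M)) :
    ∀ a b : M, a * b = b * a := by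
  have hp := (Fact.out : p.Prime)
  have hdvd : Nat.card (Subgroup.center M) ∣ p ^ 3 := hM ▸ Subgroup.card_subgroup_dvd_card _
  obtain ⟨k, hk3, hk⟩ := (Nat.dvd_prime_pow hp).mp hdvd
  rw [hk] at hZ
  have h2k : 2 ≤ k := (Nat.pow_le_pow_iff_right hp.one_lt).mp hZ
  rcases Nat.lt_or_ge k 3 with h | h
  · have hk2 : k = 2 := by omega
    have hidx : (Subgroup.center M).index = p := by
      have h1 := Subgroup.card_mul_index (Subgroup.center M)
      rw [hM, hk, hk2] at h1
      have : p ^ 2 * (Subgroup.center M).index = p ^ 2 * p := by rw [h1]; ring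
      exact Nat.eq_of_mul_eq_mul_left (pow_pos hp.pos 2) this
    have hQ : Nat.card (M ⧸ Subgroup.center M) = p := by
      rw [← Subgroup.index_eq_card]; exact hidx
    haveI : IsCyclic (M ⧸ Subgroup.center M) := isCyclic_of_prime_card hQ
    intro a b
    exact ((QuotientGroup.mk' (Subgroup.center M)).isMulCommutative_of_isCyclic_of_ker_le_center
      (by rw [QuotientGroup.ker_mk'])).is_comm.comm a b
  · have hk3' : k = 3 := by omega
    have htop : Subgroup.center M = ⊤ :=
      Subgroup.eq_top_of_card_eq _ (by rw [hk, hk3', hM])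
    intro a b
    have hb : b ∈ Subgroup.center M := htop ▸ Subgroup.mem_top b
    exact (Subgroup.mem_center_iff.mp hb a)

theorem comm_of_cent {P : Type*} [Group P] [Finite P] {p : ℕ} [Fact p.Prime]
    (M : Subgroup P) (hM : Nat.card M = p ^ 3) (hZM : Subgroup.center P ≤ M)
    (hZ : Subgroup.center P ≠ ⊥) {a : P} (haM : a ∈ M) (haZ : a ∉ Subgroup.center P)
    (hMa : ∀ m ∈ M, m * a = a * m) : ∀ m ∈ M, ∀ n ∈ M, m * n = n * m := by
  have hp := (Fact.out : p.Prime)
  -- the image of the center of `P` inside the center of `M`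
  have hZ0 : (Subgroup.center P).subgroupOf M ≤ Subgroup.center M := by
    intro z hz
    rw [Subgroup.mem_subgroupOf] at hz
    rw [Subgroup.mem_center_iff]
    intro g
    apply Subtype.ext
    simpa using Subgroup.mem_center_iff.mp hz (g : P)
  have hA : (⟨a, haM⟩ : M) ∈ Subgroup.center M := by
    rw [Subgroup.mem_center_iff]
    intro g
    apply Subtype.ext
    simpa using hMa g g.2
  have hA0 : (⟨a, haM⟩ : M) ∉ (Subgroup.center P).subgroupOf M := by
    rw [Subgroup.mem_subgroupOf]; exact haZ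
  have hZ0ne : (Subgroup.center P).subgroupOf M ≠ ⊥ := by
    intro h
    apply hZ
    rw [Subgroup.eq_bot_iff_forall]
    intro z hz
    have : (⟨z, hZM hz⟩ : M) ∈ (Subgroup.center P).subgroupOf M := by
      rw [Subgroup.mem_subgroupOf]; exact hz
    rw [h, Subgroup.mem_bot] at this
    exact congrArg Subtype.val this
  have hdvd : Nat.card (Subgroup.center M) ∣ p ^ 3 := hM ▸ Subgroup.card_subgroup_dvd_card _
  obtain ⟨k, hk3, hk⟩ := (Nat.dvd_prime_pow hp).mp hdvd
  have h2k : 2 ≤ k := by
    by_contra hlt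
    have hk1 : k ≤ 1 := by omega
    have hd0 : Nat.card ((Subgroup.center P).subgroupOf M) ∣ p := by
      have h1 := Subgroup.card_dvd_of_le hZ0
      rw [hk] at h1
      exact h1.trans (by
        rcases Nat.eq_zero_or_pos k with h0 | h0
        · rw [h0]; simp
        · have : k = 1 := by omega
          rw [this, pow_one])
    rcases (Nat.dvd_prime hp).mp hd0 with h1 | h1
    · exact hZ0ne (Subgroup.eq_bot_of_card_eq _ h1)
    · have hge : Nat.card (Subgroup.center M) ≤ Nat.card ((Subgroup.center P).subgroupOf M) := by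
        rw [hk, h1]
        calc p ^ k ≤ p ^ 1 := Nat.pow_le_pow_right hp.pos hk1
          _ = p := pow_one p
      have heq := Subgroup.eq_of_le_of_card_ge hZ0 hge
      exact hA0 (heq ▸ hA)
  have hcomm := comm_of_center_big hM (by
    rw [hk]; exact Nat.pow_le_pow_right hp.pos h2k)
  intro m hm n hn
  have := hcomm ⟨m, hm⟩ ⟨n, hn⟩
  exact congrArg Subtype.val this

theorem card_comm_of_index {P : Type*} [Group P] [Finite P] {p : ℕ} [Fact p.Prime]
    (hP : Nat.card P = p ^ 4) (hZ : (Subgroup.center P).index = p ^ 2) :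
    Nat.card (commutator P) = p := by
  have hp := (Fact.out : p.Prime)
  have hZc : Nat.card (Subgroup.center P) = p ^ 2 := by
    have h := Subgroup.card_mul_index (Subgroup.center P)
    rw [hP, hZ] at h
    have : Nat.card (Subgroup.center P) * p ^ 2 = p ^ 2 * p ^ 2 := by rw [h]; ring
    exact Nat.eq_of_mul_eq_mul_right (pow_pos hp.pos 2) this
  have hQ : Nat.card (P ⧸ Subgroup.center P) = p ^ 2 := by
    rw [← Subgroup.index_eq_card]; exact hZ
  have hQc : ∀ a b : P ⧸ Subgroup.center P, a * b = b * a :=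
    (IsPGroup.isMulCommutative_of_card_eq_prime_sq hQ).is_comm.comm
  have hc : ∀ x y : P, x * y * x⁻¹ * y⁻¹ ∈ Subgroup.center P := by
    intro x y
    rw [← QuotientGroup.eq_one_iff]
    simp only [QuotientGroup.mk_mul, QuotientGroup.mk_inv]
    rw [hQc (x : P ⧸ Subgroup.center P) y]; group
  have hZne : Subgroup.center P ≠ ⊥ := by
    intro h
    rw [h] at hZc
    simp at hZc
    have := hp.one_lt
    have h2 : 1 < p ^ 2 := Nat.one_lt_pow (by norm_num) this
    omega
  have hZtop : Subgroup.center P ≠ ⊤ := by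
    intro h
    rw [h, Subgroup.index_top] at hZ
    have := hp.one_lt
    have h2 : 1 < p ^ 2 := Nat.one_lt_pow (by norm_num) this
    omega
  obtain ⟨a, haZ⟩ : ∃ a : P, a ∉ Subgroup.center P := by
    by_contra h
    push Not at h
    exact hZtop ((Subgroup.eq_top_iff' _).mpr h)
  set M : Subgroup P := (thetaHom hc a).ker with hMdef
  have hmemM : ∀ y, y ∈ M ↔ a * y = y * a := fun y => mem_ker_theta hc a y
  have haM : a ∈ M := (hmemM a).mpr rfl
  have hZM : Subgroup.center P ≤ M := fun z hz => (hmemM z).mpr (Subgroup.mem_center_iff.mp hz a)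
  have hMtop : M ≠ ⊤ := by
    intro h
    apply haZ
    rw [Subgroup.mem_center_iff]
    intro g
    have : g ∈ M := h ▸ Subgroup.mem_top g
    exact ((hmemM g).mp this).symm
  have hMcard : Nat.card M = p ^ 3 := by
    have hMdvd : Nat.card M ∣ p ^ 4 := hP ▸ Subgroup.card_subgroup_dvd_card M
    obtain ⟨k, hk4, hk⟩ := (Nat.dvd_prime_pow hp).mp hMdvd
    have hlt : Nat.card (Subgroup.center P) < Nat.card M := by
      by_contra hnot
      push Not at hnot
      have := Subgroup.eq_of_le_of_card_ge hZM hnot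
      exact haZ (this ▸ haM)
    rw [hZc, hk] at hlt
    have h2k : 2 < k := (Nat.pow_lt_pow_iff_right hp.one_lt).mp hlt
    have hk4' : k ≠ 4 := by
      intro h4
      exact hMtop (Subgroup.eq_top_of_card_eq M (by rw [hk, h4, hP]))
    have : k = 3 := by omega
    rw [hk, this]
  have hMab : ∀ m ∈ M, ∀ n ∈ M, m * n = n * m :=
    comm_of_cent M hMcard hZM hZne haM haZ (fun m hm => ((hmemM m).mp hm).symm)
  obtain ⟨b, hbM⟩ : ∃ b : P, b ∉ M := by
    by_contra h
    push Not at h
    exact hMtop ((Subgroup.eq_top_iff' _).mpr h)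
  have hgen : ∀ K : Subgroup P, M ≤ K → b ∈ K → K = ⊤ :=
    fun K hMK hbK => eq_top_of_lt hP M K hMcard hMK hbK hbM
  set f : M →* P := (thetaHom hc b).comp M.subtype with hfdef
  set J : Subgroup P := f.range with hJdef
  have hfapp : ∀ m : M, f m = b * (m : P) * b⁻¹ * (m : P)⁻¹ := fun m => rfl
  -- kernel of f
  have hker : f.ker = (Subgroup.center P).subgroupOf M := by
    ext m
    rw [MonoidHom.mem_ker, Subgroup.mem_subgroupOf, hfapp]
    constructor
    · intro h
      have hbm : b * (m : P) = (m : P) * b := by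
        calc b * (m : P) = (b * (m : P) * b⁻¹ * (m : P)⁻¹) * ((m : P) * b) := by group
          _ = (m : P) * b := by rw [h, one_mul]
      have htop : Subgroup.centralizer {(m : P)} = ⊤ := by
        apply hgen
        · intro n hn
          rw [Subgroup.mem_centralizer_singleton_iff]
          exact hMab n hn m m.2
        · rw [Subgroup.mem_centralizer_singleton_iff]
          exact hbm
      rw [Subgroup.mem_center_iff]
      intro g
      have : g ∈ Subgroup.centralizer {(m : P)} := htop ▸ Subgroup.mem_top g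
      rw [Subgroup.mem_centralizer_singleton_iff] at this
      exact this
    · intro h
      have := Subgroup.mem_center_iff.mp h b
      calc b * (m : P) * b⁻¹ * (m : P)⁻¹ = (b * (m : P)) * b⁻¹ * (m : P)⁻¹ := by group
        _ = ((m : P) * b) * b⁻¹ * (m : P)⁻¹ := by rw [this]
        _ = 1 := by group
  have hJcard : Nat.card J = p := by
    have h1 := Subgroup.card_mul_index f.ker
    rw [Subgroup.index_ker, hker, hMcard,
      Nat.card_congr (Subgroup.subgroupOfEquivOfLe hZM).toEquiv, hZc] at h1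
    have : p ^ 2 * Nat.card f.range = p ^ 2 * p := by rw [h1]; ring
    exact Nat.eq_of_mul_eq_mul_left (pow_pos hp.pos 2) this
  -- step 2: [b, g] ∈ J
  have hstep2 : ∀ g : P, b * g * b⁻¹ * g⁻¹ ∈ J := by
    have htop : J.comap (thetaHom hc b) = ⊤ := by
      apply hgen
      · intro n hn
        rw [Subgroup.mem_comap]
        exact ⟨⟨n, hn⟩, rfl⟩
      · rw [Subgroup.mem_comap, thetaHom_apply]
        have : b * b * b⁻¹ * b⁻¹ = 1 := by group
        rw [this]; exact J.one_mem
    intro g
    have : g ∈ J.comap (thetaHom hc b) := htop ▸ Subgroup.mem_top g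
    exact this
  -- step 1: [m, g] ∈ J for m ∈ M
  have hstep1 : ∀ m ∈ M, ∀ g : P, m * g * m⁻¹ * g⁻¹ ∈ J := by
    intro m hm
    have htop : J.comap (thetaHom hc m) = ⊤ := by
      apply hgen
      · intro n hn
        rw [Subgroup.mem_comap, thetaHom_apply]
        have : m * n * m⁻¹ * n⁻¹ = 1 := by
          calc m * n * m⁻¹ * n⁻¹ = (m * n) * m⁻¹ * n⁻¹ := by group
            _ = (n * m) * m⁻¹ * n⁻¹ := by rw [hMab m hm n hn]
            _ = 1 := by group
        rw [this]; exact J.one_mem
      · rw [Subgroup.mem_comap, thetaHom_apply]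
        have : m * b * m⁻¹ * b⁻¹ = (b * m * b⁻¹ * m⁻¹)⁻¹ := by group
        rw [this]
        exact J.inv_mem (hstep2 m)
    intro g
    have : g ∈ J.comap (thetaHom hc m) := htop ▸ Subgroup.mem_top g
    exact this
  have hstep3 : ∀ x y : P, x * y * x⁻¹ * y⁻¹ ∈ J := by
    intro x y
    have htop : J.comap (psiHom hc y) = ⊤ := by
      apply hgen
      · intro n hn
        rw [Subgroup.mem_comap, psiHom_apply]
        exact hstep1 n hn y
      · rw [Subgroup.mem_comap, psiHom_apply]
        exact hstep2 y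
    have : x ∈ J.comap (psiHom hc y) := htop ▸ Subgroup.mem_top x
    exact this
  have hle : commutator P ≤ J := by
    rw [commutator_eq_closure, Subgroup.closure_le]
    intro g hg
    obtain ⟨g1, g2, rfl⟩ := mem_commutatorSet_iff.mp hg
    rw [commutatorElement_def]
    exact hstep3 g1 g2
  have hne : commutator P ≠ ⊥ := by
    intro h
    exact hZtop ((commutator_eq_bot_iff_center_eq_top P).mp h)
  have hd : Nat.card (commutator P) ∣ p := hJcard ▸ Subgroup.card_dvd_of_le hle
  rcases (Nat.dvd_prime hp).mp hd with h1 | h1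
  · exact absurd (Subgroup.eq_bot_of_card_eq _ h1) hne
  · exact h1

theorem index_of_card_comm {P : Type*} [Group P] [Finite P] {p : ℕ} [Fact p.Prime]
    (hP : Nat.card P = p ^ 4) (hC : Nat.card (commutator P) = p) :
    (Subgroup.center P).index = p ^ 2 := by
  have hp := (Fact.out : p.Prime)
  have hPG : IsPGroup p P := IsPGroup.of_card hP
  haveI : Group.IsNilpotent P := hPG.isNilpotent
  have hne : commutator P ≠ ⊥ := by
    intro h
    rw [h] at hC
    simp at hC
    exact hp.one_lt.ne hC
  haveI : (commutator P).Normal := inferInstance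
  have hinf := Cfsg.Agent.Lib_helper1_Socle.normal_inf_center_ne_bot (commutator P) hne
  have hCZ : commutator P ≤ Subgroup.center P := by
    have hd : Nat.card (commutator P ⊓ Subgroup.center P : Subgroup P) ∣ p :=
      hC ▸ Subgroup.card_dvd_of_le inf_le_left
    rcases (Nat.dvd_prime hp).mp hd with h1 | h1
    · exact absurd (Subgroup.eq_bot_of_card_eq _ h1) hinf
    · have heq : commutator P ⊓ Subgroup.center P = commutator P :=
        Subgroup.eq_of_le_of_card_ge inf_le_left (by rw [h1, hC])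
      rw [← heq]; exact inf_le_right
  have hcc : ∀ x y : P, x * y * x⁻¹ * y⁻¹ ∈ commutator P := by
    intro x y
    rw [commutator_eq_closure]
    apply Subgroup.subset_closure
    rw [← commutatorElement_def]
    exact commutator_mem_commutatorSet x y
  have hc : ∀ x y : P, x * y * x⁻¹ * y⁻¹ ∈ Subgroup.center P := fun x y => hCZ (hcc x y)
  have hZtop : Subgroup.center P ≠ ⊤ := fun h => hne ((commutator_eq_bot_iff_center_eq_top P).mpr h)
  obtain ⟨x, hxZ⟩ : ∃ a : P, a ∉ Subgroup.center P := by
    by_contra h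
    push Not at h
    exact hZtop ((Subgroup.eq_top_iff' _).mpr h)
  have hZdvd : Nat.card (Subgroup.center P) ∣ p ^ 4 := hP ▸ Subgroup.card_subgroup_dvd_card _
  obtain ⟨k, hk4, hk⟩ := (Nat.dvd_prime_pow hp).mp hZdvd
  have hk0 : k ≠ 0 := by
    intro h0
    have h1 := Subgroup.card_dvd_of_le hCZ
    rw [hC, hk, h0, pow_zero] at h1
    exact hp.one_lt.ne' (Nat.dvd_one.mp h1)
  have hk4' : k ≠ 4 := by
    intro h4
    exact hZtop (Subgroup.eq_top_of_card_eq _ (by rw [hk, h4, hP]))
  have hk3 : k ≠ 3 := by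
    intro h3
    have hidx : (Subgroup.center P).index = p := by
      have h1 := Subgroup.card_mul_index (Subgroup.center P)
      rw [hP, hk, h3] at h1
      have : p ^ 3 * (Subgroup.center P).index = p ^ 3 * p := by rw [h1]; ring
      exact Nat.eq_of_mul_eq_mul_left (pow_pos hp.pos 3) this
    have hQ : Nat.card (P ⧸ Subgroup.center P) = p := by
      rw [← Subgroup.index_eq_card]; exact hidx
    haveI : IsCyclic (P ⧸ Subgroup.center P) := isCyclic_of_prime_card hQ
    have hcomm : ∀ a b : P, a * b = b * a :=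
      ((QuotientGroup.mk' (Subgroup.center P)).isMulCommutative_of_isCyclic_of_ker_le_center
        (by rw [QuotientGroup.ker_mk'])).is_comm.comm
    apply hxZ
    rw [Subgroup.mem_center_iff]
    intro g
    exact hcomm g x
  have hk1 : k ≠ 1 := by
    intro h1
    rw [h1, pow_one] at hk
    have hZne : Subgroup.center P ≠ ⊥ := by
      intro h
      rw [h] at hk
      simp at hk
      exact hp.one_lt.ne hk
    -- index of centralizers
    have hidx : ∀ u : P, (thetaHom hc u).ker.index ∣ p := by
      intro u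
      rw [Subgroup.index_ker, ← hC]
      apply Subgroup.card_dvd_of_le
      rintro _ ⟨g, rfl⟩
      rw [thetaHom_apply]
      exact hcc u g
    set M : Subgroup P := (thetaHom hc x).ker with hMdef
    have hmemM : ∀ y, y ∈ M ↔ x * y = y * x := fun y => mem_ker_theta hc x y
    have hxM : x ∈ M := (hmemM x).mpr rfl
    have hZM : Subgroup.center P ≤ M :=
      fun z hz => (hmemM z).mpr (Subgroup.mem_center_iff.mp hz x)
    have hMtop : M ≠ ⊤ := by
      intro h
      apply hxZ
      rw [Subgroup.mem_center_iff]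
      intro g
      have : g ∈ M := h ▸ Subgroup.mem_top g
      exact ((hmemM g).mp this).symm
    have hMidx : M.index = p := by
      rcases (Nat.dvd_prime hp).mp (hidx x) with h | h
      · exact absurd (Subgroup.index_eq_one.mp h) hMtop
      · exact h
    have hMcard : Nat.card M = p ^ 3 := by
      have h1 := Subgroup.card_mul_index M
      rw [hP, hMidx] at h1
      have : Nat.card M * p = p ^ 3 * p := by rw [h1]; ring
      exact Nat.eq_of_mul_eq_mul_right hp.pos this
    have hMab : ∀ m ∈ M, ∀ n ∈ M, m * n = n * m :=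
      comm_of_cent M hMcard hZM hZne hxM hxZ (fun m hm => ((hmemM m).mp hm).symm)
    obtain ⟨y, hyM⟩ : ∃ b : P, b ∉ M := by
      by_contra h
      push Not at h
      exact hMtop ((Subgroup.eq_top_iff' _).mpr h)
    have hgen : ∀ K : Subgroup P, M ≤ K → y ∈ K → K = ⊤ :=
      fun K hMK hbK => eq_top_of_lt hP M K hMcard hMK hbK hyM
    set N : Subgroup P := (thetaHom hc y).ker with hNdef
    have hmemN : ∀ g, g ∈ N ↔ y * g = g * y := fun g => mem_ker_theta hc y g
    have hNidx : N.index ≤ p := Nat.le_of_dvd hp.pos (hidx y)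
    have hDidx : (M ⊓ N).index ≤ p * p := by
      calc (M ⊓ N).index ≤ M.index * N.index := Subgroup.index_inf_le
        _ ≤ p * p := by rw [hMidx]; exact Nat.mul_le_mul_left p hNidx
    have hDZ : M ⊓ N ≤ Subgroup.center P := by
      rintro d ⟨hdM, hdN⟩
      have htop : Subgroup.centralizer {d} = ⊤ := by
        apply hgen
        · intro n hn
          rw [Subgroup.mem_centralizer_singleton_iff]
          exact hMab n hn d hdM
        · rw [Subgroup.mem_centralizer_singleton_iff]
          exact (hmemN d).mp hdN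
      rw [Subgroup.mem_center_iff]
      intro g
      have : g ∈ Subgroup.centralizer {d} := htop ▸ Subgroup.mem_top g
      rw [Subgroup.mem_centralizer_singleton_iff] at this
      exact this
    have hDcard : Nat.card (M ⊓ N : Subgroup P) ≤ p := by
      rw [← hk]
      exact Nat.le_of_dvd Nat.card_pos (Subgroup.card_dvd_of_le hDZ)
    have h1 := Subgroup.card_mul_index (M ⊓ N)
    rw [hP] at h1
    have h2 : p ^ 4 ≤ p * (p * p) := by
      rw [← h1]
      exact Nat.mul_le_mul hDcard hDidx
    have h3 : p * (p * p) < p ^ 4 := by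
      have : p ^ 4 = p * (p * (p * p)) := by ring
      rw [this]
      have hpp : 0 < p * p := Nat.mul_pos hp.pos hp.pos
      have := hp.one_lt
      nlinarith
    omega
  have hk2 : k = 2 := by omega
  have h1 := Subgroup.card_mul_index (Subgroup.center P)
  rw [hP, hk, hk2] at h1
  have : p ^ 2 * (Subgroup.center P).index = p ^ 2 * p ^ 2 := by rw [h1]; ring
  exact Nat.eq_of_mul_eq_mul_left (pow_pos hp.pos 2) this

end Cfsg.Agent.Lib_helper2_P4
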