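import Mathlib
import Cfsg.Agent.Lib_helper1_Socle
import Cfsg.Agent.Lib_helper2_P4

namespace Cfsg.Agent.Lib_helper2_P4b

open Cfsg.Agent.Lib_helper2_P4
open scoped commutatorElement

theorem eq_bot_of_le_comm {P : Type*} [Group P] [Group.IsNilpotent P] (N : Subgroup P)
    (h : N ≤ ⁅N, (⊤ : Subgroup P)⁆) : N = ⊥ := by
  obtain ⟨n, hn⟩ := Subgroup.nilpotent_iff_lowerCentralSeries.mp
    (inferInstance : Group.IsNilpotent P)
  have key : ∀ m, N ≤ Subgroup.lowerCentralSeries (⊤ : Subgroup P) m := by
    intro m
    induction m with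
    | zero => rw [Subgroup.lowerCentralSeries_zero]; exact le_top
    | succ m ih =>
      rw [Subgroup.lowerCentralSeries_succ]
      exact h.trans (Subgroup.commutator_mono ih le_rfl)
  exact le_bot_iff.mp (hn ▸ key n)

/-- If `P / P'` is cyclic then `P' ≤ [P', P]`. -/
theorem comm_le_of_cyclic {P : Type*} [Group P] (hcyc : IsCyclic (P ⧸ commutator P)) :
    commutator P ≤ ⁅commutator P, (⊤ : Subgroup P)⁆ := by
  set L : Subgroup P := ⁅commutator P, (⊤ : Subgroup P)⁆ with hL
  haveI : L.Normal := by rw [hL]; infer_instance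
  have hLC : L ≤ commutator P := Subgroup.commutator_le_left _ _
  let f : P ⧸ L →* P ⧸ commutator P :=
    QuotientGroup.map L (commutator P) (MonoidHom.id P) (fun x hx => hLC hx)
  have hker : f.ker ≤ Subgroup.center (P ⧸ L) := by
    intro q hq
    induction q using QuotientGroup.induction_on with
    | H x =>
      rw [MonoidHom.mem_ker] at hq
      have hx : x ∈ commutator P := by
        have : f (x : P ⧸ L) = ((x : P) : P ⧸ commutator P) := rfl
        rw [this] at hq
        exact (QuotientGroup.eq_one_iff x).mp hq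
      rw [Subgroup.mem_center_iff]
      intro g
      induction g using QuotientGroup.induction_on with
      | H g =>
        rw [← QuotientGroup.mk_mul, ← QuotientGroup.mk_mul, QuotientGroup.eq]
        have h1 : (g * x)⁻¹ * (x * g) = ⁅x⁻¹, g⁻¹⁆ := by
          rw [commutatorElement_def]; group
        rw [h1]
        exact Subgroup.commutator_mem_commutator ((commutator P).inv_mem hx) (Subgroup.mem_top _)
  have hcomm : ∀ a b : P ⧸ L, a * b = b * a :=
    (f.isMulCommutative_of_isCyclic_of_ker_le_center hker).is_comm.comm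
  rw [commutator_eq_closure, Subgroup.closure_le]
  intro g hg
  obtain ⟨g1, g2, rfl⟩ := mem_commutatorSet_iff.mp hg
  show ⁅g1, g2⁆ ∈ L
  rw [commutatorElement_def, ← QuotientGroup.eq_one_iff]
  simp only [QuotientGroup.mk_mul, QuotientGroup.mk_inv]
  rw [hcomm (g1 : P ⧸ L) g2]; group

theorem class3_iff {P : Type*} [Group P] [Finite P] (p : ℕ) [Fact p.Prime]
    (hP : Nat.card P = p ^ 4) :
    (commutator P).index = p ^ 2 ↔ Group.nilpotencyClass P = 3 := by
  have hp := (Fact.out : p.Prime)
  have hPG : IsPGroup p P := IsPGroup.of_card hP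
  haveI : Group.IsNilpotent P := hPG.isNilpotent
  set C : Subgroup P := commutator P with hCdef
  set L : Subgroup P := ⁅C, (⊤ : Subgroup P)⁆ with hLdef
  haveI : L.Normal := by rw [hLdef]; infer_instance
  have hLC : L ≤ C := Subgroup.commutator_le_left _ _
  have hl2 : Subgroup.lowerCentralSeries (⊤ : Subgroup P) 2 = L := rfl
  have hl3 : Subgroup.lowerCentralSeries (⊤ : Subgroup P) 3 = ⁅L, (⊤ : Subgroup P)⁆ := rfl
  have hLbot : L = ⊥ ↔ C ≤ Subgroup.center P := by
    rw [hLdef, Subgroup.commutator_eq_bot_iff_le_centralizer, Subgroup.coe_top,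
      Subgroup.centralizer_univ]
  have hLLbot : ⁅L, (⊤ : Subgroup P)⁆ = ⊥ ↔ L ≤ Subgroup.center P := by
    rw [Subgroup.commutator_eq_bot_iff_le_centralizer, Subgroup.coe_top,
      Subgroup.centralizer_univ]
  have hLneC : L ≠ ⊥ → L ≠ C := by
    intro hL h
    have : C = ⊥ := eq_bot_of_le_comm C (by rw [← hLdef, h])
    rw [this] at hLC
    exact hL (le_bot_iff.mp hLC)
  have hCdvd : Nat.card C ∣ p ^ 4 := hP ▸ Subgroup.card_subgroup_dvd_card C
  obtain ⟨c, hc4, hc⟩ := (Nat.dvd_prime_pow hp).mp hCdvd
  have hidx_of : c = 2 → C.index = p ^ 2 := by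
    intro h2
    have h1 := Subgroup.card_mul_index C
    rw [hP, hc, h2] at h1
    have : p ^ 2 * C.index = p ^ 2 * p ^ 2 := by rw [h1]; ring
    exact Nat.eq_of_mul_eq_mul_left (pow_pos hp.pos 2) this
  have hc_of : C.index = p ^ 2 → c = 2 := by
    intro hidx
    have h1 := Subgroup.card_mul_index C
    rw [hP, hc, hidx, ← pow_add] at h1
    have := Nat.pow_right_injective hp.two_le h1
    omega
  constructor
  · intro hidx
    have hc2 : c = 2 := hc_of hidx
    have hCcard : Nat.card C = p ^ 2 := by rw [hc, hc2]
    -- C is not central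
    have hCZ : ¬ C ≤ Subgroup.center P := by
      intro hCZ
      have hZdvd : Nat.card (Subgroup.center P) ∣ p ^ 4 :=
        hP ▸ Subgroup.card_subgroup_dvd_card _
      obtain ⟨k, hk4, hk⟩ := (Nat.dvd_prime_pow hp).mp hZdvd
      have hCne : C ≠ ⊥ := by
        intro h
        rw [h] at hCcard
        simp at hCcard
        have h2 : 1 < p ^ 2 := Nat.one_lt_pow (by norm_num) hp.one_lt
        omega
      have hZtop : Subgroup.center P ≠ ⊤ :=
        fun h => hCne ((commutator_eq_bot_iff_center_eq_top P).mpr h)
      have hk2 : 2 ≤ k := by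
        have h1 := Nat.le_of_dvd Nat.card_pos (Subgroup.card_dvd_of_le hCZ)
        rw [hCcard, hk] at h1
        exact (Nat.pow_le_pow_iff_right hp.one_lt).mp h1
      have hk4' : k ≠ 4 := by
        intro h4
        exact hZtop (Subgroup.eq_top_of_card_eq _ (by rw [hk, h4, hP]))
      have hk3 : k ≠ 3 := by
        intro h3
        have hidx : (Subgroup.center P).index = p := by
          have h1 := Subgroup.card_mul_index (Subgroup.center P)
          rw [hP, hk, h3] at h1
          have : p ^ 3 * (Subgroup.center P).index = p ^ 3 * p := by rw [h1]; ring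
          exact Nat.eq_of_mul_eq_mul_left (pow_pos hp.pos 3) this
        have hQ : Nat.card (P ⧸ Subgroup.center P) = p := by
          rw [← Subgroup.index_eq_card]; exact hidx
        haveI : IsCyclic (P ⧸ Subgroup.center P) := isCyclic_of_prime_card hQ
        have hcomm : ∀ a b : P, a * b = b * a :=
          ((QuotientGroup.mk' (Subgroup.center P)).isMulCommutative_of_isCyclic_of_ker_le_center
            (by rw [QuotientGroup.ker_mk'])).is_comm.comm
        apply hZtop
        rw [Subgroup.eq_top_iff']
        intro x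
        rw [Subgroup.mem_center_iff]
        intro g
        exact hcomm g x
      have hk2' : k = 2 := by omega
      have hZidx : (Subgroup.center P).index = p ^ 2 := by
        have h1 := Subgroup.card_mul_index (Subgroup.center P)
        rw [hP, hk, hk2'] at h1
        have : p ^ 2 * (Subgroup.center P).index = p ^ 2 * p ^ 2 := by rw [h1]; ring
        exact Nat.eq_of_mul_eq_mul_left (pow_pos hp.pos 2) this
      have := card_comm_of_index hP hZidx
      rw [← hCdef, hCcard] at this
      have h2 : p ^ 1 < p ^ 2 := Nat.pow_lt_pow_right hp.one_lt (by norm_num)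
      rw [pow_one] at h2
      omega
    have hLne : L ≠ ⊥ := fun h => hCZ (hLbot.mp h)
    have hLcard : Nat.card L = p := by
      have hd : Nat.card L ∣ p ^ 2 := hCcard ▸ Subgroup.card_dvd_of_le hLC
      obtain ⟨l, hl2', hl⟩ := (Nat.dvd_prime_pow hp).mp hd
      have hl0 : l ≠ 0 := by
        intro h0
        rw [h0, pow_zero] at hl
        exact hLne (Subgroup.eq_bot_of_card_eq _ hl)
      have hl2'' : l ≠ 2 := by
        intro h2
        exact hLneC hLne (Subgroup.eq_of_le_of_card_ge hLC (by rw [hl, h2, hCcard]))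
      have : l = 1 := by omega
      rw [hl, this, pow_one]
    have hLZ : L ≤ Subgroup.center P := by
      have hinf := Cfsg.Agent.Lib_helper1_Socle.normal_inf_center_ne_bot L hLne
      have hd : Nat.card (L ⊓ Subgroup.center P : Subgroup P) ∣ p :=
        hLcard ▸ Subgroup.card_dvd_of_le inf_le_left
      rcases (Nat.dvd_prime hp).mp hd with h1 | h1
      · exact absurd (Subgroup.eq_bot_of_card_eq _ h1) hinf
      · have heq : L ⊓ Subgroup.center P = L :=
          Subgroup.eq_of_le_of_card_ge inf_le_left (by rw [h1, hLcard])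
        rw [← heq]; exact inf_le_right
    have h3 : Group.nilpotencyClass P ≤ 3 := by
      rw [← Subgroup.lowerCentralSeries_eq_bot_iff_nilpotencyClass_le, hl3]
      exact hLLbot.mpr hLZ
    have h2 : ¬ Group.nilpotencyClass P ≤ 2 := by
      rw [← Subgroup.lowerCentralSeries_eq_bot_iff_nilpotencyClass_le, hl2]
      exact hLne
    omega
  · intro hcl
    have hLne : L ≠ ⊥ := by
      intro h
      have : Group.nilpotencyClass P ≤ 2 := by
        rw [← Subgroup.lowerCentralSeries_eq_bot_iff_nilpotencyClass_le, hl2]
        exact h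
      omega
    have hne := hLneC hLne
    apply hidx_of
    have hCtop : C ≠ ⊤ := by
      intro h
      have h1 : (⊤ : Subgroup P) = ⊥ := eq_bot_of_le_comm ⊤ (by
        show (⊤ : Subgroup P) ≤ commutator P
        rw [← hCdef, h])
      apply hLne
      rw [← le_bot_iff, ← h1]
      exact le_top
    have hc4' : c ≠ 4 := by
      intro h4
      exact hCtop (Subgroup.eq_top_of_card_eq _ (by rw [hc, h4, hP]))
    have hc3 : c ≠ 3 := by
      intro h3
      have hidx : C.index = p := by
        have h1 := Subgroup.card_mul_index C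
        rw [hP, hc, h3] at h1
        have : p ^ 3 * C.index = p ^ 3 * p := by rw [h1]; ring
        exact Nat.eq_of_mul_eq_mul_left (pow_pos hp.pos 3) this
      have hQ : Nat.card (P ⧸ C) = p := by
        rw [← Subgroup.index_eq_card]; exact hidx
      have hcyc : IsCyclic (P ⧸ commutator P) := isCyclic_of_prime_card hQ
      exact hne (le_antisymm hLC (comm_le_of_cyclic hcyc))
    have hc2 : 2 ≤ c := by
      by_contra hlt
      have hd : Nat.card L ∣ Nat.card C := Subgroup.card_dvd_of_le hLC
      rw [hc] at hd
      obtain ⟨l, hlc, hl⟩ := (Nat.dvd_prime_pow hp).mp hd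
      have hl0 : l ≠ 0 := by
        intro h0
        rw [h0, pow_zero] at hl
        exact hLne (Subgroup.eq_bot_of_card_eq _ hl)
      have hlc' : l = c := by omega
      exact hne (Subgroup.eq_of_le_of_card_ge hLC (by rw [hl, hlc', hc]))
    omega

end Cfsg.Agent.Lib_helper2_P4b
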