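import Mathlib
import Cfsg.Prelude
import Cfsg.Agent.Lib_helper6_PCore
import Cfsg.Agent.Lib_helper7_PPrime
import Cfsg.Agent.Lib_helper7_PPrimeP
import Cfsg.Agent.Lib_helper2_PComp

set_option autoImplicit false
open Cfsg

namespace Cfsg.Agent.Lib_helper2_QCore

variable {X : Type*} [Group X] [Finite X] (q : ℕ) [Fact q.Prime]

/-- Elements of `O_{q',q}(X)` have a `q`-power in `O_{q'}(X)`. -/
theorem pPrimePCore_pow {x : X} (hx : x ∈ pPrimePCore q X) :
    ∃ j : ℕ, x ^ q ^ j ∈ pPrimeCore q X := by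
  have hx' : (QuotientGroup.mk' (pPrimeCore q X)) x ∈ pCore q (X ⧸ pPrimeCore q X) := hx
  obtain ⟨j, hj⟩ := Lib_helper6_PCore.pCore_isPGroup (G := X ⧸ pPrimeCore q X) q ⟨_, hx'⟩
  refine ⟨j, ?_⟩
  have h1 : ((QuotientGroup.mk' (pPrimeCore q X)) x) ^ q ^ j = 1 := by
    have h4 := congrArg Subtype.val hj
    rw [SubmonoidClass.coe_pow, Subgroup.coe_one] at h4
    exact h4
  rw [← map_pow] at h1
  exact (QuotientGroup.eq_one_iff _).mp h1

/-- A normal subgroup all of whose elements have a `q`-power in `O_{q'}(X)` lies in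
`O_{q',q}(X)`. -/
theorem le_pPrimePCore_of (M : Subgroup X) [hM : M.Normal]
    (h : ∀ x ∈ M, ∃ j : ℕ, x ^ q ^ j ∈ pPrimeCore q X) : M ≤ pPrimePCore q X := by
  intro x hx
  show (QuotientGroup.mk' (pPrimeCore q X)) x ∈ pCore q (X ⧸ pPrimeCore q X)
  have hn : (M.map (QuotientGroup.mk' (pPrimeCore q X))).Normal :=
    hM.map _ (QuotientGroup.mk'_surjective _)
  have hpg : IsPGroup q (M.map (QuotientGroup.mk' (pPrimeCore q X))) := by
    rintro ⟨_, ⟨y, hy, rfl⟩⟩
    obtain ⟨j, hj⟩ := h y hy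
    refine ⟨j, ?_⟩
    apply Subtype.ext
    rw [SubmonoidClass.coe_pow, Subgroup.coe_one]
    show ((QuotientGroup.mk' (pPrimeCore q X)) y) ^ q ^ j = 1
    rw [← map_pow]
    exact (QuotientGroup.eq_one_iff _).mpr hj
  exact Lib_helper6_PCore.le_pCore hn hpg ⟨x, hx, rfl⟩

instance pPrimePCore_characteristic : (pPrimePCore q X).Characteristic := by
  rw [Subgroup.characteristic_iff_map_le]
  intro φ
  haveI : ((pPrimePCore q X).map φ.toMonoidHom).Normal :=
    (Lib_helper7_PPrimeP.pPrimePCore_normal q).map _ φ.surjective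
  apply le_pPrimePCore_of q
  rintro _ ⟨x, hx, rfl⟩
  obtain ⟨j, hj⟩ := pPrimePCore_pow q hx
  refine ⟨j, ?_⟩
  have h1 : (pPrimeCore q X).map φ.toMonoidHom = pPrimeCore q X :=
    Subgroup.characteristic_iff_map_eq.mp (Lib_helper2_PComp.pPrimeCore_characteristic q) φ
  rw [← h1, ← map_pow]
  exact ⟨_, hj, rfl⟩

/-- An element of `O_{q',q}(X)` of order prime to `q` lies in `O_{q'}(X)`. -/
theorem mem_pPrimeCore_of_coprime {x : X} (hx : x ∈ pPrimePCore q X)
    (hord : (orderOf x).Coprime q) : x ∈ pPrimeCore q X := by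
  obtain ⟨j, hj⟩ := pPrimePCore_pow q hx
  have h2 : (q ^ j).Coprime (orderOf x) := Nat.Coprime.pow_left j hord.symm
  obtain ⟨m, hm⟩ := exists_pow_eq_self_of_coprime h2
  rw [← hm]
  exact Subgroup.pow_mem _ hj m

end Cfsg.Agent.Lib_helper2_QCore
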