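import Mathlib

namespace Cfsg.Agent.Lib_helper2_RepOrb

/-- With coprime orbit sizes, the stabilizer of `b` is transitive on the orbit of `a`. -/
theorem orb_trans {G X : Type*} [Group G] [Finite G] [MulAction G X] (a b : X)
    (hcop : ((MulAction.orbit G a).ncard).Coprime ((MulAction.orbit G b).ncard)) :
    ∀ g : G, ∃ β ∈ MulAction.stabilizer G b, g • a = β • a := by
  set A := MulAction.stabilizer G a with hAdef
  set B := MulAction.stabilizer G b with hBdef
  have hA : A.index = (MulAction.orbit G a).ncard := MulAction.index_stabilizer G a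
  have hB : B.index = (MulAction.orbit G b).ncard := MulAction.index_stabilizer G b
  rw [← hA, ← hB] at hcop
  have h1 : (A ⊓ B).relIndex B * B.index = (A ⊓ B).index := Subgroup.relIndex_mul_index inf_le_right
  have h2 : (A ⊓ B).relIndex A * A.index = (A ⊓ B).index := Subgroup.relIndex_mul_index inf_le_left
  have hdvd : A.index ∣ A.relIndex B := by
    have : A.index ∣ (A ⊓ B).relIndex B * B.index := by
      rw [h1, ← h2]; exact Dvd.intro_left _ rfl
    rw [Subgroup.inf_relIndex_right] at this
    exact Nat.Coprime.dvd_of_dvd_mul_right hcop this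
  have key : A.subgroupOf B = MulAction.stabilizer B a := by
    ext; rfl
  have hOB : (MulAction.orbit B a).ncard = A.relIndex B := by
    rw [Subgroup.relIndex, key, MulAction.index_stabilizer]
  have hsub : MulAction.orbit B a ⊆ MulAction.orbit G a := MulAction.orbit_subgroup_subset B a
  have hfin : (MulAction.orbit G a).Finite := Set.finite_range _
  have hpos : 0 < A.relIndex B := by
    rw [← hOB]
    exact (Set.ncard_pos (hfin.subset hsub)).mpr ⟨a, MulAction.mem_orbit_self a⟩
  have hle : (MulAction.orbit G a).ncard ≤ (MulAction.orbit B a).ncard := by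
    rw [hOB, ← hA]
    exact Nat.le_of_dvd hpos hdvd
  have heq : MulAction.orbit B a = MulAction.orbit G a :=
    Set.eq_of_subset_of_ncard_le hsub hle hfin
  intro g
  have hg : g • a ∈ MulAction.orbit B a := heq ▸ MulAction.mem_orbit a g
  obtain ⟨β, hβ⟩ := hg
  exact ⟨β, β.2, hβ.symm⟩

section Rep

variable {k V H : Type*} [Field k] [AddCommGroup V] [Module k V] [Group H]

/-- The action of `H` on `V` through a representation. -/
@[reducible] def repAction (ρ : Representation k H V) : MulAction H V where
  smul h v := ρ h v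
  one_smul v := by
    show ρ 1 v = v
    rw [map_one]; rfl
  mul_smul g h v := by
    show ρ (g * h) v = ρ g (ρ h v)
    rw [map_mul]; rfl

/-- Sum of `ρ s v` over a subgroup. -/
noncomputable def tr (ρ : Representation k H V) (S : Subgroup H) [Fintype S] (v : V) : V :=
  ∑ s : S, ρ (s : H) v

theorem tr_mul (ρ : Representation k H V) (S : Subgroup H) [Fintype S] {g : H} (hg : g ∈ S)
    (v : V) : tr ρ S (ρ g v) = tr ρ S v := by
  unfold tr
  have h := Equiv.sum_comp (Equiv.mulRight (⟨g, hg⟩ : S)) (fun s : S => ρ (s : H) v)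
  rw [← h]
  apply Finset.sum_congr rfl
  intro s _
  show ρ (s : H) (ρ g v) = ρ ((s * ⟨g, hg⟩ : S) : H) v
  rw [Subgroup.coe_mul, map_mul]; rfl

theorem mul_tr (ρ : Representation k H V) (S : Subgroup H) [Fintype S] {g : H} (hg : g ∈ S)
    (v : V) : ρ g (tr ρ S v) = tr ρ S v := by
  unfold tr
  rw [map_sum]
  have h := Equiv.sum_comp (Equiv.mulLeft (⟨g, hg⟩ : S)) (fun s : S => ρ (s : H) v)
  rw [← h]
  apply Finset.sum_congr rfl
  intro s _
  show ρ g (ρ (s : H) v) = ρ ((⟨g, hg⟩ * s : S) : H) v
  rw [Subgroup.coe_mul, map_mul]; rfl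

theorem tr_fixed (ρ : Representation k H V) (S : Subgroup H) [Fintype S] (v : V)
    (hv : ∀ s ∈ S, ρ s v = v) : tr ρ S v = (Nat.card S : k) • v := by
  unfold tr
  have h1 : ∀ s ∈ (Finset.univ : Finset S), ρ (s : H) v = v := fun s _ => hv s s.2
  rw [Finset.sum_congr rfl h1, Finset.sum_const, Finset.card_univ,
    Nat.card_eq_fintype_card, Nat.cast_smul_eq_nsmul]

theorem tr_add (ρ : Representation k H V) (S : Subgroup H) [Fintype S] (v w : V) :
    tr ρ S (v + w) = tr ρ S v + tr ρ S w := by
  unfold tr
  rw [← Finset.sum_add_distrib]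
  apply Finset.sum_congr rfl
  intro s _
  rw [map_add]

theorem tr_smul (ρ : Representation k H V) (S : Subgroup H) [Fintype S] (c : k) (v : V) :
    tr ρ S (c • v) = c • tr ρ S v := by
  unfold tr
  rw [Finset.smul_sum]
  apply Finset.sum_congr rfl
  intro s _
  rw [map_smul]

theorem tr_sum (ρ : Representation k H V) (S : Subgroup H) [Fintype S] {ι : Type*}
    (t : Finset ι) (f : ι → V) : tr ρ S (∑ i ∈ t, f i) = ∑ i ∈ t, tr ρ S (f i) := by
  classical
  induction t using Finset.induction_on with
  | empty =>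
    simp only [Finset.sum_empty]
    unfold tr
    simp
  | insert i t hi ih =>
    rw [Finset.sum_insert hi, Finset.sum_insert hi, tr_add, ih]

/-- If `tr S` is constant on the spanning orbit of `a`, its image lies in the line of `tr S a`. -/
theorem tr_mem_span (ρ : Representation k H V) (S : Subgroup H) [Fintype S] (a : V)
    (hspan : Submodule.span k {u : V | ∃ h : H, ρ h a = u} = ⊤)
    (hconst : ∀ h : H, tr ρ S (ρ h a) = tr ρ S a) (v : V) :
    tr ρ S v ∈ Submodule.span k {tr ρ S a} := by
  have hv : v ∈ Submodule.span k {u : V | ∃ h : H, ρ h a = u} := by rw [hspan]; trivial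
  induction hv using Submodule.span_induction with
  | mem u hu =>
    obtain ⟨h, rfl⟩ := hu
    rw [hconst h]
    exact Submodule.subset_span rfl
  | zero =>
    have : tr ρ S (0 : V) = 0 := by
      unfold tr; simp
    rw [this]; exact Submodule.zero_mem _
  | add x y _ _ hx hy =>
    rw [tr_add]; exact Submodule.add_mem _ hx hy
  | smul c x _ hx =>
    rw [tr_smul]; exact Submodule.smul_mem _ c hx

theorem S4177_main [Finite H] (hchar : ¬ ringChar k ∣ Nat.card H) (ρ : Representation k H V)
    (a : V) (hspan : Submodule.span k {u : V | ∃ h : H, ρ h a = u} = ⊤) :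
    Module.finrank k ρ.invariants ≤ 1 ∧
    ∀ b : V, (Nat.card {u : V | ∃ h : H, ρ h a = u}).Coprime
      (Nat.card {u : V | ∃ h : H, ρ h b = u}) → ∀ h : H, ρ h b = b := by
  classical
  have hcard : ∀ S : Subgroup H, (Nat.card S : k) ≠ 0 := by
    intro S h0
    have h1 : ringChar k ∣ Nat.card S := (ringChar.spec k (Nat.card S)).mp h0
    exact hchar (h1.trans (Subgroup.card_subgroup_dvd_card S))
  letI : Fintype (⊤ : Subgroup H) := Fintype.ofFinite _
  set s : V := tr ρ ⊤ a with hs
  have hsinv : ∀ g : H, ρ g s = s := fun g => mul_tr ρ ⊤ (Subgroup.mem_top g) a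
  have hconstH : ∀ h : H, tr ρ ⊤ (ρ h a) = tr ρ ⊤ a := fun h => tr_mul ρ ⊤ (Subgroup.mem_top h) a
  have hspan_inv : Submodule.span k {s} ≤ ρ.invariants := by
    rw [Submodule.span_le]
    intro u hu
    rw [Set.mem_singleton_iff] at hu
    rw [hu]
    exact hsinv
  have hinv_le : ρ.invariants ≤ Submodule.span k {s} := by
    intro v hv
    have h1 : tr ρ ⊤ v = (Nat.card (⊤ : Subgroup H) : k) • v := tr_fixed ρ ⊤ v (fun g _ => hv g)
    have h2 := tr_mem_span ρ ⊤ a hspan hconstH v
    rw [h1] at h2
    have h3 := Submodule.smul_mem _ ((Nat.card (⊤ : Subgroup H) : k)⁻¹) h2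
    rwa [smul_smul, inv_mul_cancel₀ (hcard ⊤), one_smul] at h3
  refine ⟨?_, ?_⟩
  · calc Module.finrank k ρ.invariants ≤ Module.finrank k (Submodule.span k {s}) :=
          Submodule.finrank_mono hinv_le
      _ ≤ 1 := by
          have := finrank_span_le_card (R := k) ({s} : Set V)
          simpa using this
  · intro b hcop h
    letI : MulAction H V := repAction ρ
    have hsa : {u : V | ∃ h : H, ρ h a = u} = MulAction.orbit H a := rfl
    have hsb : {u : V | ∃ h : H, ρ h b = u} = MulAction.orbit H b := rfl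
    rw [hsa, hsb, Nat.card_coe_set_eq, Nat.card_coe_set_eq] at hcop
    have horb := orb_trans a b hcop
    set B : Subgroup H := MulAction.stabilizer H b with hB
    have hBb : ∀ β ∈ B, ρ β b = b := fun β hβ => hβ
    letI : Fintype B := Fintype.ofFinite _
    have hconstB : ∀ h : H, tr ρ B (ρ h a) = tr ρ B a := by
      intro h
      obtain ⟨β, hβ, e⟩ := horb h
      have e' : ρ h a = ρ β a := e
      rw [e', tr_mul ρ B hβ]
    have hb1 : tr ρ B b = (Nat.card B : k) • b := tr_fixed ρ B b hBb
    have hb2 := tr_mem_span ρ B a hspan hconstB b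
    -- the two computations of `tr B s`
    have e1 : tr ρ B s = (Nat.card B : k) • s := tr_fixed ρ B s (fun g _ => hsinv g)
    have e2 : tr ρ B s = (Nat.card (⊤ : Subgroup H) : k) • tr ρ B a := by
      have hs' : s = ∑ y : (⊤ : Subgroup H), ρ (y : H) a := rfl
      rw [hs', tr_sum]
      have h1 : ∀ y ∈ (Finset.univ : Finset (⊤ : Subgroup H)),
          tr ρ B (ρ (y : H) a) = tr ρ B a := fun y _ => hconstB y
      rw [Finset.sum_congr rfl h1, Finset.sum_const, Finset.card_univ,
        Nat.card_eq_fintype_card, Nat.cast_smul_eq_nsmul]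
    have hBa : tr ρ B a ∈ ρ.invariants := by
      have h3 : (Nat.card (⊤ : Subgroup H) : k) • tr ρ B a ∈ ρ.invariants := by
        rw [← e2, e1]
        exact Submodule.smul_mem _ _ (hspan_inv (Submodule.subset_span rfl))
      have h4 := Submodule.smul_mem _ ((Nat.card (⊤ : Subgroup H) : k)⁻¹) h3
      rwa [smul_smul, inv_mul_cancel₀ (hcard ⊤), one_smul] at h4
    have hb3 : (Nat.card B : k) • b ∈ ρ.invariants := by
      rw [← hb1]
      exact (Submodule.span_le.mpr (by
        intro u hu
        rw [Set.mem_singleton_iff] at hu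
        rw [hu]; exact hBa)) hb2
    have hb4 := Submodule.smul_mem _ ((Nat.card B : k)⁻¹) hb3
    rw [smul_smul, inv_mul_cancel₀ (hcard B), one_smul] at hb4
    exact hb4 h

end Rep

end Cfsg.Agent.Lib_helper2_RepOrb
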