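import Mathlib

set_option autoImplicit false

namespace Cfsg.Agent.Lib_helper2_Wr

open Equiv

theorem bool3 {u v w : Bool} (h1 : u ≠ v) (h2 : v ≠ w) : u = w := by
  cases u <;> cases v <;> cases w <;> simp_all

theorem bool_iff {u v w : Bool} (h : u = w ↔ v = w) : u = v := by
  cases u <;> cases v <;> cases w <;> simp_all

theorem isCoatom_subgroupOf {G : Type*} [Group G] {H M : Subgroup G} (hHM : H ≤ M) (hne : ¬ M ≤ H)
    (hmax : ∀ L : Subgroup G, H ≤ L → L ≤ M → (∃ g ∈ L, g ∉ H) → M ≤ L) :
    IsCoatom (H.subgroupOf M) := by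
  refine ⟨fun h => hne (Subgroup.subgroupOf_eq_top.mp h), fun L' hL' => ?_⟩
  obtain ⟨g', hg', hg'H⟩ := SetLike.exists_of_lt hL'
  have hML : M ≤ L'.map M.subtype := by
    apply hmax
    · rw [← Subgroup.map_subgroupOf_eq_of_le hHM]
      exact Subgroup.map_mono hL'.le
    · exact Subgroup.map_subtype_le L'
    · exact ⟨g'.1, Subgroup.mem_map_of_mem _ hg', fun h => hg'H (Subgroup.mem_subgroupOf.mpr h)⟩
  rw [eq_top_iff]
  intro x _
  obtain ⟨y, hy, hyx⟩ := hML x.2
  have : y = x := Subtype.ext hyx
  rw [← this]; exact hy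

section gen

variable {α : Type*} [DecidableEq α] [Finite α]

omit [DecidableEq α] [Finite α] in
theorem perm_apply_inv (f : Perm α) (x : α) : f (f⁻¹ x) = x := f.apply_symm_apply x

omit [DecidableEq α] [Finite α] in
theorem perm_inv_apply (f : Perm α) (x : α) : f⁻¹ (f x) = x := f.symm_apply_apply x

/-- Permutations preserving the "same colour" relation of a two-colouring. -/
def colSub (c : α → Bool) : Subgroup (Perm α) where
  carrier := {σ | ∀ x y, c (σ x) = c (σ y) ↔ c x = c y}
  one_mem' := fun x y => by simp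
  mul_mem' := fun {σ τ} hσ hτ x y => by
    have h1 := hσ (τ x) (τ y)
    have h2 := hτ x y
    simp only [Perm.mul_apply]
    exact h1.trans h2
  inv_mem' := fun {σ} hσ x y => by
    have h := hσ (σ⁻¹ x) (σ⁻¹ y)
    rw [perm_apply_inv, perm_apply_inv] at h
    exact h.symm

/-- Permutations preserving a two-colouring. -/
def colFix (c : α → Bool) : Subgroup (Perm α) where
  carrier := {σ | ∀ x, c (σ x) = c x}
  one_mem' := fun x => by simp
  mul_mem' := fun {σ τ} hσ hτ x => by
    simp only [Perm.mul_apply]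
    exact (hσ (τ x)).trans (hτ x)
  inv_mem' := fun {σ} hσ x => by
    have h := hσ (σ⁻¹ x)
    rw [perm_apply_inv] at h
    exact h.symm

theorem mem_colSub (c : α → Bool) (σ : Perm α) :
    σ ∈ colSub c ↔ ∀ x y, c (σ x) = c (σ y) ↔ c x = c y := Iff.rfl

theorem mem_colFix (c : α → Bool) (σ : Perm α) :
    σ ∈ colFix c ↔ ∀ x, c (σ x) = c x := Iff.rfl

theorem swap_col (c : α → Bool) {a b : α} (h : c a = c b) (z : α) : c (swap a b z) = c z := by
  by_cases hza : z = a
  · subst hza; rw [swap_apply_left]; exact h.symm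
  · by_cases hzb : z = b
    · subst hzb; rw [swap_apply_right]; exact h
    · rw [swap_apply_of_ne_of_ne hza hzb]

theorem swap_mem_colFix (c : α → Bool) {a b : α} (h : c a = c b) : swap a b ∈ colFix c :=
  (mem_colFix c _).mpr (fun z => swap_col c h z)

theorem colFix_le_colSub (c : α → Bool) : colFix c ≤ colSub c := by
  intro σ hσ
  rw [mem_colFix] at hσ
  rw [mem_colSub]
  intro x y
  rw [hσ x, hσ y]

theorem all_swaps (c : α → Bool) (P : α → Prop) (L : Subgroup (Perm α))
    (hsame : ∀ a b, P a → P b → c a = c b → swap a b ∈ L)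
    {x y : α} (hx : P x) (hy : P y) (hxy : c x ≠ c y) (hL : swap x y ∈ L) :
    ∀ a b, P a → P b → swap a b ∈ L := by
  have main : ∀ a b, P a → P b → c a = c x → c b = c y → swap a b ∈ L := by
    intro a b ha hb hax hby
    have hκ : swap a x * swap b y ∈ L := L.mul_mem (hsame a x ha hx hax) (hsame b y hb hy hby)
    have hxb : x ≠ b := fun h => hxy (by rw [h]; exact hby)
    have hxy' : x ≠ y := fun h => hxy (by rw [h])
    have hba : b ≠ a := fun h => hxy (by rw [← hax, ← hby, h])
    have hbx : b ≠ x := fun h => hxb h.symm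
    have h1 : (swap a x * swap b y) x = a := by
      rw [Perm.mul_apply, swap_apply_of_ne_of_ne hxb hxy', swap_apply_right]
    have h2 : (swap a x * swap b y) y = b := by
      rw [Perm.mul_apply, swap_apply_right, swap_apply_of_ne_of_ne hba hbx]
    have h3 := swap_apply_apply (swap a x * swap b y) x y
    rw [h1, h2] at h3
    rw [h3]
    exact L.mul_mem (L.mul_mem hκ hL) (L.inv_mem hκ)
  intro a b ha hb
  by_cases hab : c a = c b
  · exact hsame a b ha hb hab
  · by_cases hax : c a = c x
    · exact main a b ha hb hax (bool3 (fun h => hab (by rw [hax, ← h])) hxy)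
    · have hay : c a = c y := bool3 hax hxy
      have hbx : c b = c x := bool3 (fun h => hab h.symm) hax
      rw [swap_comm]
      exact main b a hb ha hbx hay

theorem eq_top_of_swaps (L : Subgroup (Perm α)) (h : ∀ a b : α, swap a b ∈ L) : L = ⊤ := by
  rw [eq_top_iff, ← Equiv.Perm.closure_isSwap, Subgroup.closure_le]
  rintro σ ⟨a, b, _, rfl⟩
  exact h a b

theorem cross_swap (c : α → Bool) (P : α → Prop) (L : Subgroup (Perm α))
    (hsame : ∀ a b, P a → P b → c a = c b → swap a b ∈ L)
    {g : Perm α} (hg : g ∈ L) (hgP : ∀ x, P x → P (g x)) {x y : α} (hx : P x) (hy : P y)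
    (h : ¬ (c (g x) = c (g y) ↔ c x = c y)) :
    ∃ x y, P x ∧ P y ∧ c x ≠ c y ∧ swap x y ∈ L := by
  by_cases hxy : c x = c y
  · have hg' : c (g x) ≠ c (g y) := fun h' => h ⟨fun _ => hxy, fun _ => h'⟩
    refine ⟨g x, g y, hgP x hx, hgP y hy, hg', ?_⟩
    rw [swap_apply_apply]
    exact L.mul_mem (L.mul_mem hg (hsame x y hx hy hxy)) (L.inv_mem hg)
  · have hg' : c (g x) = c (g y) := by
      by_contra h'
      exact h ⟨fun h'' => absurd h'' h', fun h'' => absurd h'' hxy⟩
    refine ⟨x, y, hx, hy, hxy, ?_⟩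
    have h3 := swap_apply_apply g⁻¹ (g x) (g y)
    rw [perm_inv_apply, perm_inv_apply, inv_inv] at h3
    rw [h3]
    exact L.mul_mem (L.mul_mem (L.inv_mem hg) (hsame _ _ (hgP x hx) (hgP y hy) hg')) hg

theorem colSub_isCoatom (c : α → Bool) (hne : colSub c ≠ ⊤) : IsCoatom (colSub c) := by
  refine ⟨hne, fun L hL => ?_⟩
  obtain ⟨g, hg, hgK⟩ := SetLike.exists_of_lt hL
  have hsame : ∀ a b, True → True → c a = c b → swap a b ∈ L :=
    fun a b _ _ h => hL.le (colFix_le_colSub c (swap_mem_colFix c h))
  rw [mem_colSub] at hgK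
  rcases not_forall.mp hgK with ⟨x, hx⟩
  rcases not_forall.mp hx with ⟨y, h⟩
  obtain ⟨x', y', _, _, hxy, hsw⟩ :=
    cross_swap c (fun _ => True) L hsame hg (fun _ _ => trivial) trivial trivial h
  apply eq_top_of_swaps
  intro a b
  exact all_swaps c (fun _ => True) L hsame trivial trivial hxy hsw a b trivial trivial

theorem stab_le_of_swaps (o : α) (L : Subgroup (Perm α))
    (h : ∀ a b : α, a ≠ o → b ≠ o → swap a b ∈ L) :
    MulAction.stabilizer (Perm α) o ≤ L := by
  classical
  intro σ hσ
  rw [MulAction.mem_stabilizer_iff, Perm.smul_def] at hσ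
  have h₁ : ∀ x, σ x ≠ o ↔ x ≠ o := by
    intro x
    constructor
    · intro hx hxo; apply hx; rw [hxo]; exact hσ
    · intro hx hxo; apply hx; apply σ.injective; rw [hxo, hσ]
  have h₂ : ∀ x, σ x ≠ x → x ≠ o := by
    intro x hx hxo; apply hx; rw [hxo]; exact hσ
  have e := Perm.ofSubtype_subtypePerm (p := fun x => x ≠ o) h₁ h₂
  rw [← e]
  have key : ∀ τ : Perm {x // x ≠ o}, Perm.ofSubtype τ ∈ L := by
    intro τ
    have hτ : τ ∈ Subgroup.closure {σ : Perm {x // x ≠ o} | σ.IsSwap} := by
      rw [Perm.closure_isSwap]; trivial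
    induction hτ using Subgroup.closure_induction with
    | mem τ hτ =>
      obtain ⟨a, b, _, rfl⟩ := hτ
      rw [Perm.ofSubtype_swap_eq]
      exact h _ _ a.2 b.2
    | one => rw [map_one]; exact L.one_mem
    | mul τ₁ τ₂ _ _ h1 h2 => rw [map_mul]; exact L.mul_mem h1 h2
    | inv τ _ h1 => rw [map_inv]; exact L.inv_mem h1
  exact key _

theorem coatom_aux (c : α → Bool) (o : α) (ρ : Perm α) (hρ : ∀ x, c (ρ x) ≠ c x)
    (L : Subgroup (Perm α)) (hHL : MulAction.stabilizer (Perm α) o ⊓ colSub c ≤ L)
    {g : Perm α} (hgL : g ∈ L) (hgo : g o = o) (hgK : g ∉ colSub c) :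
    MulAction.stabilizer (Perm α) o ≤ L := by
  have hsame : ∀ a b, a ≠ o → b ≠ o → c a = c b → swap a b ∈ L := by
    intro a b ha hb hab
    apply hHL
    refine Subgroup.mem_inf.mpr ⟨?_, colFix_le_colSub c (swap_mem_colFix c hab)⟩
    rw [MulAction.mem_stabilizer_iff, Perm.smul_def]
    exact swap_apply_of_ne_of_ne (Ne.symm ha) (Ne.symm hb)
  have hgP : ∀ x, x ≠ o → g x ≠ o := by
    intro x hx hgx; apply hx; apply g.injective; rw [hgx, hgo]
  have hex : ∃ x y, x ≠ o ∧ y ≠ o ∧ ¬ (c (g x) = c (g y) ↔ c x = c y) := by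
    by_contra hcon
    have hcon' : ∀ x y, x ≠ o → y ≠ o → (c (g x) = c (g y) ↔ c x = c y) := by
      intro x y hx hy; by_contra h; exact hcon ⟨x, y, hx, hy, h⟩
    -- some nonzero point flips
    have hflip0 : ∃ y₀, y₀ ≠ o ∧ c (g y₀) ≠ c y₀ := by
      rw [mem_colSub] at hgK
      rcases not_forall.mp hgK with ⟨x, hx⟩
      rcases not_forall.mp hx with ⟨y, h⟩
      by_cases hxo : x = o
      · by_cases hyo : y = o
        · exfalso; apply h; rw [hxo, hyo]; exact ⟨fun _ => rfl, fun _ => rfl⟩
        · refine ⟨y, hyo, fun hy => h ?_⟩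
          rw [hxo, hgo, hy]
      · by_cases hyo : y = o
        · refine ⟨x, hxo, fun hx' => h ?_⟩
          rw [hyo, hgo, hx']
        · exact absurd (hcon' x y hxo hyo) h
    obtain ⟨y₀, hy₀, hfl⟩ := hflip0
    have hflip : ∀ x, x ≠ o → c (g x) ≠ c x := by
      intro x hx hgx
      have h1 := hcon' x y₀ hx hy₀
      by_cases hxy : c x = c y₀
      · have := h1.mpr hxy
        apply hfl
        rw [← this, hgx, hxy]
      · have h2 : c (g x) ≠ c (g y₀) := fun h' => hxy (h1.mp h')
        have h3 : c (g y₀) = c x := bool3 hfl (fun h' => hxy h'.symm)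
        apply h2
        rw [h3, hgx]
    -- an injective non-surjective self-map
    have hρo : ∀ x, c x = c o → ρ x ≠ o := by
      intro x hx hρx
      apply hρ x
      rw [hρx, hx]
    set f : α → α := fun x => if c x = c o then g (ρ x) else x with hf
    have hfval : ∀ x, c x = c o → c (f x) = c o := by
      intro x hx
      have : f x = g (ρ x) := by simp [hf, hx]
      rw [this]
      exact bool3 (hflip (ρ x) (hρo x hx)) (fun h' => hρ x (by rw [h', hx]))
    have hfval' : ∀ x, c x ≠ c o → f x = x := by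
      intro x hx
      simp [hf, hx]
    have hfinj : Function.Injective f := by
      intro x x' hxx
      by_cases hx : c x = c o
      · by_cases hx' : c x' = c o
        · have e1 : f x = g (ρ x) := by simp [hf, hx]
          have e2 : f x' = g (ρ x') := by simp [hf, hx']
          rw [e1, e2] at hxx
          exact ρ.injective (g.injective hxx)
        · exfalso
          apply hx'
          rw [← hfval' x' hx', ← hxx]
          exact hfval x hx
      · by_cases hx' : c x' = c o
        · exfalso
          apply hx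
          rw [← hfval' x hx, hxx]
          exact hfval x' hx'
        · rw [hfval' x hx, hfval' x' hx'] at hxx
          exact hxx
    have hfsurj : Function.Surjective f := Finite.injective_iff_surjective.mp hfinj
    obtain ⟨w, hw⟩ := hfsurj o
    by_cases hwc : c w = c o
    · have e1 : f w = g (ρ w) := by simp [hf, hwc]
      rw [e1] at hw
      exact hgP _ (hρo w hwc) hw
    · rw [hfval' w hwc] at hw
      exact hwc (by rw [hw])
  obtain ⟨x, y, hx, hy, h⟩ := hex
  obtain ⟨x', y', hx', hy', hxy, hsw⟩ := cross_swap c (fun z => z ≠ o) L hsame hgL hgP hx hy h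
  apply stab_le_of_swaps
  intro a b ha hb
  exact all_swaps c (fun z => z ≠ o) L hsame hx' hy' hxy hsw a b ha hb

end gen

/-- The two-colouring of `Fin (2 * m)` by the lower and the upper half. -/
def col (m : ℕ) (x : Fin (2 * m)) : Bool := decide (x.val < m)

theorem col_true (m : ℕ) (x : Fin (2 * m)) (h : x.val < m) : col m x = true := by simp [col, h]

theorem col_false (m : ℕ) (x : Fin (2 * m)) (h : ¬ x.val < m) : col m x = false := by
  simp [col, h]

theorem col_rev (m : ℕ) (x : Fin (2 * m)) : col m (Fin.revPerm x) ≠ col m x := by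
  have hx := x.2
  have hv : (Fin.revPerm x).val = 2 * m - (x.val + 1) := by simp [Fin.revPerm_apply, Fin.val_rev]
  by_cases h : x.val < m
  · rw [col_true m x h, col_false m _ (by rw [hv]; omega)]; decide
  · rw [col_false m x h, col_true m _ (by rw [hv]; omega)]; decide

theorem S5894_main (m : ℕ) (hm : 2 ≤ m) :
    ∃ M H K : Subgroup (Equiv.Perm (Fin (2 * m))), IsCoatom M ∧ M.index = 2 * m ∧ H ≤ M ∧
      IsCoatom (H.subgroupOf M) ∧
      IsCoatom K ∧ H ≤ K ∧ ¬ IsCoatom (H.subgroupOf K) := by
  have h0 : 0 < 2 * m := by omega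
  have h1 : 1 < 2 * m := by omega
  have hmm : m < 2 * m := by omega
  obtain ⟨o, ho⟩ : ∃ o : Fin (2 * m), o.val = 0 := ⟨⟨0, h0⟩, rfl⟩
  obtain ⟨e1, he1⟩ : ∃ o : Fin (2 * m), o.val = 1 := ⟨⟨1, h1⟩, rfl⟩
  obtain ⟨em, hem⟩ : ∃ o : Fin (2 * m), o.val = m := ⟨⟨m, hmm⟩, rfl⟩
  have hco : col m o = true := col_true m o (by omega)
  have hc1 : col m e1 = true := col_true m e1 (by omega)
  have hcm : col m em = false := col_false m em (by omega)
  have ho1 : o ≠ e1 := by intro h; rw [h] at ho; omega
  have hom : o ≠ em := by intro h; rw [h] at ho; omega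
  have h1m : e1 ≠ em := by intro h; rw [h] at he1; omega
  have hρ : ∀ x, col m ((Fin.revPerm : Perm (Fin (2 * m))) x) ≠ col m x := col_rev m
  have hσM : swap e1 em ∈ MulAction.stabilizer (Perm (Fin (2 * m))) o := by
    rw [MulAction.mem_stabilizer_iff, Perm.smul_def]
    exact swap_apply_of_ne_of_ne ho1 hom
  have hσK : swap e1 em ∉ colSub (col m) := by
    intro h
    rw [mem_colSub] at h
    have h2 := (h o e1).mpr (by rw [hco, hc1])
    rw [swap_apply_of_ne_of_ne ho1 hom, swap_apply_left, hco, hcm] at h2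
    exact absurd h2 (by decide)
  haveI : Nontrivial (Fin (2 * m)) := ⟨⟨o, e1, ho1⟩⟩
  refine ⟨MulAction.stabilizer (Perm (Fin (2 * m))) o,
    MulAction.stabilizer (Perm (Fin (2 * m))) o ⊓ colSub (col m), colSub (col m),
    ?_, ?_, inf_le_left, ?_, ?_, inf_le_right, ?_⟩
  · exact (MulAction.isCoatom_stabilizer_iff_preprimitive (G := Perm (Fin (2 * m))) o).mpr
      inferInstance
  · rw [MulAction.index_stabilizer_of_transitive, Nat.card_eq_fintype_card, Fintype.card_fin]
  · apply isCoatom_subgroupOf inf_le_left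
    · intro h
      exact hσK (h hσM).2
    · rintro L hHL hLM ⟨g, hgL, hgH⟩
      have hgo : g o = o := by
        have := hLM hgL
        rwa [MulAction.mem_stabilizer_iff, Perm.smul_def] at this
      have hgK : g ∉ colSub (col m) := fun h => hgH (Subgroup.mem_inf.mpr ⟨hLM hgL, h⟩)
      exact coatom_aux (col m) o Fin.revPerm hρ L hHL hgL hgo hgK
  · apply colSub_isCoatom
    intro h
    apply hσK
    rw [h]; trivial
  · intro hco'
    have hHN : MulAction.stabilizer (Perm (Fin (2 * m))) o ⊓ colSub (col m) ≤ colFix (col m) := by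
      intro σ hσ
      obtain ⟨hσM', hσK'⟩ := Subgroup.mem_inf.mp hσ
      rw [MulAction.mem_stabilizer_iff, Perm.smul_def] at hσM'
      rw [mem_colSub] at hσK'
      rw [mem_colFix]
      intro x
      have := hσK' x o
      rw [hσM'] at this
      exact bool_iff this
    have hNK : colFix (col m) ≤ colSub (col m) := colFix_le_colSub (col m)
    have hle : (MulAction.stabilizer (Perm (Fin (2 * m))) o ⊓ colSub (col m)).subgroupOf
        (colSub (col m)) ≤ (colFix (col m)).subgroupOf (colSub (col m)) := Subgroup.comap_mono hHN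
    rcases hco'.le_iff.mp hle with h | h
    · have hKN : colSub (col m) ≤ colFix (col m) := Subgroup.subgroupOf_eq_top.mp h
      have hρK : (Fin.revPerm : Perm (Fin (2 * m))) ∈ colSub (col m) := by
        rw [mem_colSub]
        intro x y
        have hx := hρ x
        have hy := hρ y
        revert hx hy
        cases col m (Fin.revPerm x) <;> cases col m (Fin.revPerm y) <;> cases col m x <;>
          cases col m y <;> simp
      have := hKN hρK
      rw [mem_colFix] at this
      exact hρ o (this o)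
    · have hτN : swap o e1 ∈ colFix (col m) := swap_mem_colFix (col m) (by rw [hco, hc1])
      have hτK : swap o e1 ∈ colSub (col m) := hNK hτN
      have h3 : (⟨swap o e1, hτK⟩ : colSub (col m)) ∈ (colFix (col m)).subgroupOf (colSub (col m)) :=
        Subgroup.mem_subgroupOf.mpr hτN
      rw [h] at h3
      have h4 : swap o e1 ∈ MulAction.stabilizer (Perm (Fin (2 * m))) o ⊓ colSub (col m) :=
        Subgroup.mem_subgroupOf.mp h3
      have h5 := (Subgroup.mem_inf.mp h4).1
      rw [MulAction.mem_stabilizer_iff, Perm.smul_def, swap_apply_left] at h5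
      exact ho1 h5.symm

end Cfsg.Agent.Lib_helper2_Wr
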