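import Mathlib

namespace Cfsg.Agent.Lib_helper2_Zp2

/-- Abstract form: `M` abelian of order `p^4`, exponent `p^2`, with `M[p] = pM`; an additive
endomorphism `f` with `f^p = id` (`p > 3`) fixes every element killed by `p`. -/
theorem fix_of_order_p {M : Type*} [AddCommGroup M] [Finite M] {p : ℕ} (hp : p.Prime)
    (hp3 : 3 < p) (hexp : ∀ y : M, (p ^ 2) • y = 0)
    (hdiv : ∀ y : M, p • y = 0 → ∃ z : M, y = p • z) (hcard : Nat.card M = p ^ 4)
    (f : M →+ M) (hf : ∀ y, f^[p] y = y) (x : M) (hx : p • x = 0) : f x = x := by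
  classical
  have hpp : ∀ y : M, p • (p • y) = 0 := by
    intro y
    rw [← mul_smul, ← pow_two]; exact hexp y
  -- the ring of endomorphisms
  let F : AddMonoid.End M := f
  let N : AddMonoid.End M := F - 1
  have hN : ∀ y, N y = f y - y := fun y => rfl
  have hfN : ∀ y, f y = y + N y := fun y => by rw [hN]; abel
  have hFp : F ^ p = 1 := by
    ext y
    rw [AddMonoid.End.coe_pow]
    exact hf y
  have hodd : Odd p := hp.odd_of_ne_two (by omega)
  obtain ⟨r, hr⟩ := (Commute.neg_one_right F : Commute F (-1)).exists_add_pow_prime_eq hp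
  have hNp : N ^ p = (p : AddMonoid.End M) * (F * (-1) * r) := by
    have : N = F + -1 := sub_eq_add_neg F 1
    rw [this, hr, hFp, hodd.neg_one_pow]
    simp only [mul_assoc]
    abel
  -- the subgroup killed by p
  let pm : M →+ M :=
    { toFun := fun y => p • y
      map_zero' := smul_zero p
      map_add' := fun a b => smul_add p a b }
  have hpm : ∀ y, pm y = p • y := fun y => rfl
  set W : AddSubgroup M := pm.ker with hW
  have hWmem : ∀ y, y ∈ W ↔ p • y = 0 := fun y => AddMonoidHom.mem_ker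
  have hrange : pm.range = W := by
    ext y
    rw [hWmem, AddMonoidHom.mem_range]
    constructor
    · rintro ⟨z, rfl⟩
      rw [hpm]; exact hpp z
    · intro h
      obtain ⟨z, rfl⟩ := hdiv y h
      exact ⟨z, rfl⟩
  have hWcard : Nat.card W = p ^ 2 := by
    have h1 := AddSubgroup.card_mul_index pm.ker
    rw [AddSubgroup.index_ker, hrange, hcard] at h1
    have h2 : Nat.card W * Nat.card W = p ^ 2 * p ^ 2 := by rw [h1]; ring
    exact Nat.mul_self_inj.mp h2
  have hNpW : ∀ w ∈ W, (N ^ p) w = 0 := by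
    intro w hw
    rw [hNp]
    show (p : AddMonoid.End M) ((F * (-1) * r) w) = 0
    rw [AddMonoid.End.natCast_apply, ← map_nsmul, (hWmem w).mp hw, map_zero]
  have hNW : ∀ w ∈ W, N w ∈ W := by
    intro w hw
    rw [hWmem, ← map_nsmul, (hWmem w).mp hw, map_zero]
  -- no nonzero subgroup of W is mapped onto itself by N
  have hclaim : ∀ U : AddSubgroup M, U ≤ W → U.map N = U → U = ⊥ := by
    intro U hUW hU
    have key : ∀ k : ℕ, ∀ u ∈ U, ∃ v ∈ U, (N ^ k) v = u := by
      intro k
      induction k with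
      | zero => intro u hu; exact ⟨u, hu, rfl⟩
      | succ k ih =>
        intro u hu
        have hu' : u ∈ U.map N := by rw [hU]; exact hu
        obtain ⟨u', hu'U, rfl⟩ := hu'
        obtain ⟨v, hv, hv'⟩ := ih u' hu'U
        refine ⟨v, hv, ?_⟩
        rw [pow_succ', ← hv']
        rfl
    rw [AddSubgroup.eq_bot_iff_forall]
    intro u hu
    obtain ⟨v, hv, rfl⟩ := key p u hu
    exact hNpW v (hUW hv)
  set W1 : AddSubgroup M := W.map N with hW1
  have hW1W : W1 ≤ W := by
    rintro _ ⟨w, hw, rfl⟩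
    exact hNW w hw
  set W2 : AddSubgroup M := W1.map N with hW2
  have hW2W1 : W2 ≤ W1 := AddSubgroup.map_mono hW1W
  have hWne : W ≠ ⊥ := by
    intro h
    rw [h, AddSubgroup.card_bot] at hWcard
    have : 1 < p ^ 2 := Nat.one_lt_pow (by norm_num) hp.one_lt
    omega
  have hW2bot : W2 = ⊥ := by
    by_cases h21 : W2 = W1
    · have h1 : W1 = ⊥ := hclaim W1 hW1W h21
      rw [h21, h1]
    · have hW1ne : W1 ≠ W := fun h => hWne (hclaim W le_rfl h)
      have hd1 : Nat.card W1 ∣ p ^ 2 := hWcard ▸ AddSubgroup.card_dvd_of_le hW1W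
      obtain ⟨i, hi2, hi⟩ := (Nat.dvd_prime_pow hp).mp hd1
      have hi2' : i ≠ 2 := by
        intro h2
        exact hW1ne (AddSubgroup.eq_of_le_of_card_ge hW1W (by rw [hi, h2, hWcard]))
      have hd2 : Nat.card W2 ∣ p ^ i := hi ▸ AddSubgroup.card_dvd_of_le hW2W1
      obtain ⟨j, hji, hj⟩ := (Nat.dvd_prime_pow hp).mp hd2
      have hji' : j ≠ i := by
        intro h
        exact h21 (AddSubgroup.eq_of_le_of_card_ge hW2W1 (by rw [hj, h, hi]))
      have hj0 : j = 0 := by omega
      rw [hj0, pow_zero] at hj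
      exact AddSubgroup.eq_bot_of_card_eq _ hj
  have hC : ∀ w ∈ W, N (N w) = 0 := by
    intro w hw
    have h1 : N (N w) ∈ W2 := ⟨N w, ⟨w, hw, rfl⟩, rfl⟩
    rw [hW2bot, AddSubgroup.mem_bot] at h1
    exact h1
  have hpyW : ∀ y : M, p • y ∈ W := fun y => (hWmem _).mpr (hpp y)
  have hW1' : ∀ y : M, p • N (N y) = 0 := by
    intro y
    rw [← map_nsmul, ← map_nsmul]
    exact hC _ (hpyW y)
  have hN4 : ∀ y : M, N (N (N (N y))) = 0 := fun y => hC _ ((hWmem _).mpr (hW1' y))
  have hbin : ∀ k : ℕ, ∀ y : M, f^[k] y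
      = y + k • N y + k.choose 2 • N (N y) + k.choose 3 • N (N (N y)) := by
    intro k
    induction k with
    | zero => intro y; simp
    | succ k ih =>
      intro y
      rw [Function.iterate_succ_apply', hfN, ih y]
      simp only [map_add, map_nsmul, hN4, smul_zero, add_zero]
      have e2 : (k + 1).choose 2 = k + k.choose 2 := by
        rw [Nat.choose_succ_succ' k 1, Nat.choose_one_right]
      have e3 : (k + 1).choose 3 = k.choose 2 + k.choose 3 := Nat.choose_succ_succ' k 2
      rw [e2, e3]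
      simp only [add_smul, one_smul]
      abel
  have hkill : ∀ (c : ℕ) (u : M), p • u = 0 → (c * p) • u = 0 := by
    intro c u h
    rw [mul_smul, h, smul_zero]
  have hpN : ∀ y : M, p • N y = 0 := by
    intro y
    have h1 := hbin p y
    rw [hf y] at h1
    obtain ⟨c2, hc2⟩ := hp.dvd_choose_self (k := 2) (by norm_num) (by omega)
    obtain ⟨c3, hc3⟩ := hp.dvd_choose_self (k := 3) (by norm_num) hp3
    have z2 : p.choose 2 • N (N y) = 0 := by
      rw [hc2, mul_comm]; exact hkill c2 _ (hW1' y)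
    have z3 : p.choose 3 • N (N (N y)) = 0 := by
      rw [hc3, mul_comm]
      apply hkill c3
      rw [← map_nsmul, hW1' y, map_zero]
    rw [z2, z3, add_zero, add_zero] at h1
    have h2 : y + p • N y = y + 0 := by rw [add_zero]; exact h1.symm
    exact add_left_cancel h2
  obtain ⟨z, rfl⟩ := hdiv x hx
  rw [hfN, map_nsmul, hpN z, add_zero]

/-- The concrete statement for `C_{p^2} × C_{p^2}`. -/
theorem S4080_main {p : ℕ} [Fact p.Prime] (hp : 3 < p)
    (a : MulAut (Multiplicative (ZMod (p ^ 2) × ZMod (p ^ 2)))) (ha : orderOf a = p)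
    (x : Multiplicative (ZMod (p ^ 2) × ZMod (p ^ 2))) (hx : orderOf x = p) : a x = x := by
  have hpp := (Fact.out : p.Prime)
  haveI : NeZero (p ^ 2) := ⟨pow_ne_zero 2 hpp.ne_zero⟩
  have hexp : ∀ y : ZMod (p ^ 2) × ZMod (p ^ 2), (p ^ 2) • y = 0 := by
    have h1 : ∀ c : ZMod (p ^ 2), (p ^ 2) • c = 0 := by
      intro c
      rw [nsmul_eq_mul, ZMod.natCast_self, zero_mul]
    intro y
    exact Prod.ext (h1 y.1) (h1 y.2)
  have hdiv1 : ∀ c : ZMod (p ^ 2), p • c = 0 → ∃ d : ZMod (p ^ 2), c = p • d := by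
    intro c hc
    have h1 : ((p * c.val : ℕ) : ZMod (p ^ 2)) = 0 := by
      rw [Nat.cast_mul, ZMod.natCast_zmod_val, ← nsmul_eq_mul]; exact hc
    have h2 : p ^ 2 ∣ p * c.val := (ZMod.natCast_eq_zero_iff _ _).mp h1
    have h2' : p * p ∣ p * c.val := (dvd_of_eq (pow_two p).symm).trans h2
    have h3 : p ∣ c.val := Nat.dvd_of_mul_dvd_mul_left hpp.pos h2'
    obtain ⟨t, ht⟩ := h3
    refine ⟨(t : ZMod (p ^ 2)), ?_⟩
    rw [nsmul_eq_mul, ← Nat.cast_mul, ← ht, ZMod.natCast_zmod_val]
  have hdiv : ∀ y : ZMod (p ^ 2) × ZMod (p ^ 2), p • y = 0 → ∃ z, y = p • z := by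
    intro y hy
    have hy1 : p • y.1 = 0 := congrArg Prod.fst hy
    have hy2 : p • y.2 = 0 := congrArg Prod.snd hy
    obtain ⟨d1, hd1⟩ := hdiv1 y.1 hy1
    obtain ⟨d2, hd2⟩ := hdiv1 y.2 hy2
    exact ⟨(d1, d2), Prod.ext hd1 hd2⟩
  have hcard : Nat.card (ZMod (p ^ 2) × ZMod (p ^ 2)) = p ^ 4 := by
    rw [Nat.card_prod, Nat.card_zmod]; ring
  let f : (ZMod (p ^ 2) × ZMod (p ^ 2)) →+ (ZMod (p ^ 2) × ZMod (p ^ 2)) :=
    { toFun := fun m => Multiplicative.toAdd (a (Multiplicative.ofAdd m))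
      map_zero' := by
        show Multiplicative.toAdd (a 1) = 0
        rw [map_one]; rfl
      map_add' := fun m n => by
        show Multiplicative.toAdd (a (Multiplicative.ofAdd m * Multiplicative.ofAdd n)) = _
        rw [map_mul]; rfl }
  have hfk : ∀ (k : ℕ) (y : ZMod (p ^ 2) × ZMod (p ^ 2)),
      f^[k] y = Multiplicative.toAdd ((a ^ k) (Multiplicative.ofAdd y)) := by
    intro k
    induction k with
    | zero => intro y; rfl
    | succ k ih =>
      intro y
      have e : a ^ (k + 1) = a * a ^ k := pow_succ' a k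
      rw [Function.iterate_succ_apply', ih y, e, MulAut.mul_apply]
      rfl
  have hf : ∀ y, f^[p] y = y := by
    intro y
    have hap : a ^ p = 1 := by
      have h0 := pow_orderOf_eq_one a
      rwa [ha] at h0
    rw [hfk, hap]
    rfl
  have hx' : p • Multiplicative.toAdd x = 0 := by
    have h1 : x ^ p = 1 := by
      have h0 := pow_orderOf_eq_one x
      rwa [hx] at h0
    have h2 := congrArg Multiplicative.toAdd h1
    rwa [toAdd_pow] at h2
  have key := fix_of_order_p hpp hp hexp hdiv hcard f hf (Multiplicative.toAdd x) hx'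
  exact Multiplicative.toAdd.injective key

end Cfsg.Agent.Lib_helper2_Zp2
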