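import Mathlib
import Cfsg.Prelude.Def_Characters
import Cfsg.Agent.Lib_helper3_CharBasic
import Cfsg.Agent.Lib_helper3_CharMore
import Cfsg.Agent.Lib_helper3_CharDiag
import Cfsg.Agent.Lib_helper3_CharInd
import Cfsg.Agent.Lib_helper3_Galois
import Cfsg.Agent.Lib_helper3_Galois2

set_option autoImplicit false

namespace Cfsg.Agent.Lib_helper3_CharAvg

open Cfsg
open Cfsg.Agent.Lib_helper3_CharBasic Cfsg.Agent.Lib_helper3_CharDiag
open Cfsg.Agent.Lib_helper3_CharMore Cfsg.Agent.Lib_helper3_Galois
open Cfsg.Agent.Lib_helper3_Galois2 Cfsg.Agent.Lib_helper3_CharInd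
open scoped ComplexConjugate

universe u v

variable {G : Type u} [Group G]

/-- Average of a function over the cosets of a subgroup. -/
noncomputable def avgFun (N : Subgroup G) [Fintype N] (χ : G → ℂ) : G → ℂ :=
  fun x => (Nat.card N : ℂ)⁻¹ * ∑ n : N, χ (x * (n : G))

theorem avgFun_apply (N : Subgroup G) [Fintype N] (χ : G → ℂ) (x : G) :
    avgFun N χ x = (Nat.card N : ℂ)⁻¹ * ∑ n : N, χ (x * (n : G)) := rfl

theorem avgFun_zero (N : Subgroup G) [Fintype N] : avgFun N (0 : G → ℂ) = 0 := by
  funext x
  simp [avgFun]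

theorem avgFun_add (N : Subgroup G) [Fintype N] (χ ψ : G → ℂ) :
    avgFun N (χ + ψ) = avgFun N χ + avgFun N ψ := by
  funext x
  simp [avgFun, Finset.sum_add_distrib, mul_add]

/-- The sum of an irreducible representation over a normal subgroup not in the kernel is zero. -/
theorem sum_rep_normal_eq_zero {V : Type v} [AddCommGroup V] [Module ℂ V] [FiniteDimensional ℂ V]
    (ρ : Representation ℂ G V) [ρ.IsIrreducible] (N : Subgroup G) [N.Normal] [Fintype N]
    (hker : ∃ h ∈ N, ρ h ≠ LinearMap.id) : ∑ n : N, ρ (n : G) = 0 := by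
  classical
  let P : V →ₗ[ℂ] V := ∑ h : N, ρ (h : G)
  have hcomm : ∀ x : G, ρ x * P = P * ρ x := by
    intro x
    simp only [P, Finset.mul_sum, Finset.sum_mul, ← map_mul]
    rw [← Equiv.sum_comp (MulAut.conjNormal x : MulAut N).toEquiv (fun h : N => ρ ((h : G) * x))]
    apply Finset.sum_congr rfl
    intro h _
    congr 1
    show x * (h : G) = ((MulAut.conjNormal x h : N) : G) * x
    rw [MulAut.conjNormal_apply]
    group
  have hHP : ∀ h : N, ρ (h : G) * P = P := by
    intro h
    simp only [P, Finset.mul_sum, ← map_mul]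
    exact Fintype.sum_equiv (Equiv.mulLeft h) _ _ (fun y => rfl)
  show P = 0
  let W : Subrepresentation ρ :=
    { toSubmodule := LinearMap.range P
      apply_mem_toSubmodule := by
        rintro x v ⟨w, rfl⟩
        refine ⟨ρ x w, ?_⟩
        have := congrArg (fun T : V →ₗ[ℂ] V => T w) (hcomm x)
        exact this.symm }
  have hI : IsSimpleOrder (Subrepresentation ρ) := ‹ρ.IsIrreducible›
  rcases hI.eq_bot_or_eq_top W with hW | hW
  · have h1 : LinearMap.range P = ⊥ := by
      have : W.toSubmodule = (⊥ : Subrepresentation ρ).toSubmodule := by rw [hW]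
      exact this
    exact LinearMap.range_eq_bot.mp h1
  · exfalso
    have h1 : LinearMap.range P = ⊤ := by
      have : W.toSubmodule = (⊤ : Subrepresentation ρ).toSubmodule := by rw [hW]
      exact this
    obtain ⟨h, hh, hne⟩ := hker
    apply hne
    apply LinearMap.ext
    intro v
    have hv : v ∈ LinearMap.range P := by rw [h1]; exact Submodule.mem_top
    obtain ⟨w, rfl⟩ := hv
    have := congrArg (fun T : V →ₗ[ℂ] V => T w) (hHP ⟨h, hh⟩)
    exact this

/-- The coset average of an irreducible character is the character itself or zero. -/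
theorem avgFun_irr (N : Subgroup G) [N.Normal] [Fintype N] {θ : G → ℂ}
    (hθ : IsIrrCharacter G θ) : avgFun N θ = θ ∨ avgFun N θ = 0 := by
  classical
  obtain ⟨k, ρ, hirr, rfl⟩ := hθ
  have hN0 : (Nat.card N : ℂ) ≠ 0 := by
    exact_mod_cast (Nat.card_pos (α := N)).ne'
  by_cases hker : ∃ h ∈ N, ρ h ≠ LinearMap.id
  · right
    funext x
    have h1 : ∀ n : N, ρ.character (x * (n : G)) = LinearMap.trace ℂ _ (ρ x * ρ (n : G)) := by
      intro n
      rw [← map_mul]; rfl
    rw [avgFun_apply, Finset.sum_congr rfl (fun n _ => h1 n), ← map_sum, ← Finset.mul_sum,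
      sum_rep_normal_eq_zero ρ N hker, mul_zero, map_zero, mul_zero]
    rfl
  · left
    push Not at hker
    funext x
    have h1 : ∀ n : N, ρ.character (x * (n : G)) = ρ.character x := by
      intro n
      simp only [Representation.character, map_mul, hker n n.2]
      rfl
    rw [avgFun_apply, Finset.sum_congr rfl (fun n _ => h1 n), Finset.sum_const, Finset.card_univ,
      nsmul_eq_mul, ← Nat.card_eq_fintype_card]
    field_simp

/-- The coset average of a character is a character. -/
theorem isCharacter_avgFun [Finite G] (N : Subgroup G) [N.Normal] [Fintype N] {χ : G → ℂ}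
    (hχ : IsCharacter G χ) : IsCharacter G (avgFun N χ) := by
  obtain ⟨l, hl, rfl⟩ := isCharacter_iff_list.mp hχ
  clear hχ
  induction l with
  | nil =>
    simp only [List.sum_nil]
    rw [avgFun_zero]
    exact isCharacter_zero
  | cons a l ih =>
    rw [List.sum_cons, avgFun_add]
    apply isCharacter_add
    · rcases avgFun_irr N (hl a (by simp)) with h | h
      · rw [h]; exact isCharacter_of_irr (hl a (by simp))
      · rw [h]; exact isCharacter_zero
    · exact ih (fun ψ hψ => hl ψ (by simp [hψ]))

/-- A character of degree one vanishes nowhere. -/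
theorem isCharacter_ne_zero_of_degree_one {χ : G → ℂ} (hχ : IsCharacter G χ) (h1 : χ 1 = 1)
    (x : G) : χ x ≠ 0 := by
  obtain ⟨k, ρ, rfl⟩ := hχ
  rw [Representation.char_one] at h1
  have hk : Module.finrank ℂ (Fin k → ℂ) = 1 := by exact_mod_cast h1
  obtain ⟨lam, hlam⟩ := exists_monoidHom_of_finrank_eq_one ρ hk
  have : ρ x = (lam x : ℂ) • LinearMap.id := by
    apply LinearMap.ext
    intro v
    rw [hlam]; rfl
  simp only [Representation.character, this, map_smul]
  rw [LinearMap.trace_id, hk]
  simp

/-- Restriction of an irreducible character to a normal subgroup is irreducible iff the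
character vanishes on no coset. -/
theorem restrict_irr_iff [Finite G] (N : Subgroup G) [N.Normal] {χ : G → ℂ}
    (hχ : IsIrrCharacter G χ) :
    IsIrrCharacter N (fun n : N => χ n) ↔ ∀ x : G, ∃ n : N, χ (x * (n : G)) ≠ 0 := by
  classical
  have := Fintype.ofFinite G
  have := Fintype.ofFinite N
  have hχc := isCharacter_of_irr hχ
  have hψ : IsCharacter G (χ * fun g => conj (χ g)) := isCharacter_mul hχc (isCharacter_conj hχc)
  have hΦ := isCharacter_avgFun N hψ
  set Φ := avgFun N (χ * fun g => conj (χ g)) with hΦdef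
  let Φr : G → ℝ := fun x => (Nat.card N : ℝ)⁻¹ * ∑ n : N, ‖χ (x * (n : G))‖ ^ 2
  have hΦr : ∀ x, Φ x = (Φr x : ℂ) := by
    intro x
    simp only [hΦdef, avgFun_apply, Φr, Pi.mul_apply, Complex.mul_conj']
    push_cast
    rfl
  have hN0 : (0 : ℝ) < (Nat.card N : ℝ) := by exact_mod_cast (Nat.card_pos (α := N))
  have hΦr0 : ∀ x, 0 ≤ Φr x := by
    intro x
    apply mul_nonneg (inv_nonneg.mpr hN0.le)
    exact Finset.sum_nonneg (fun n _ => by positivity)
  have hΦrne : ∀ x, Φr x ≠ 0 ↔ ∃ n : N, χ (x * (n : G)) ≠ 0 := by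
    intro x
    constructor
    · intro h
      by_contra hcon
      push Not at hcon
      apply h
      simp [Φr, hcon]
    · rintro ⟨n, hn⟩
      have : 0 < Φr x := by
        apply mul_pos (inv_pos.mpr hN0)
        apply Finset.sum_pos' (fun n _ => by positivity)
        exact ⟨n, Finset.mem_univ _, by positivity⟩
      exact this.ne'
  have hsum : ∑ x : G, Φr x = (Nat.card G : ℝ) := by
    simp only [Φr]
    rw [← Finset.mul_sum, Finset.sum_comm]
    have : ∀ n : N, ∑ x : G, ‖χ (x * (n : G))‖ ^ 2 = (Nat.card G : ℝ) := by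
      intro n
      rw [← sum_norm_sq_irr hχ]
      exact Fintype.sum_equiv (Equiv.mulRight (n : G)) _ _ (fun x => rfl)
    rw [Finset.sum_congr rfl (fun n _ => this n), Finset.sum_const, Finset.card_univ,
      nsmul_eq_mul, ← Nat.card_eq_fintype_card]
    field_simp
  have hinner : classInner (fun n : N => χ n) (fun n : N => χ n) = Φ 1 := by
    rw [classInner_def, hΦdef, avgFun_apply]
    simp only [Pi.mul_apply, one_mul]
  obtain ⟨m, hm⟩ := classInner_nat (isCharacter_restrict N hχc) (isCharacter_restrict N hχc)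
  have hΦ1 : Φr 1 = m := by
    have : ((Φr 1 : ℝ) : ℂ) = (m : ℂ) := by rw [← hΦr, ← hinner, hm]
    exact_mod_cast this
  have hm0 : m ≠ 0 := by
    intro h0
    have h1 : Φr 1 = 0 := by rw [hΦ1, h0]; simp
    have h2 : Φr 1 ≠ 0 := (hΦrne 1).mpr ⟨1, by
      rw [one_mul]
      exact irr_apply_one_ne_zero hχ⟩
    exact h2 h1
  constructor
  · intro hirr x
    have h1 : Φ 1 = 1 := by rw [← hinner]; exact irr_inner_self hirr
    have h2 := isCharacter_ne_zero_of_degree_one hΦ h1 x
    rw [hΦr] at h2
    exact (hΦrne x).mp (by exact_mod_cast h2)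
  · intro hall
    apply isIrrCharacter_of_inner_self_eq_one (isCharacter_restrict N hχc)
    have hKL := card_nonzero_le_sum hΦ (Finset.univ.erase (1 : G))
      (fun k hk x hx => by
        rw [Finset.mem_erase] at hx ⊢
        exact ⟨pow_ne_one_of_coprime hx.1 hk, Finset.mem_univ _⟩) 1
    have hfilter : (Finset.univ.erase (1 : G)).filter (fun x => Φ x ≠ 0)
        = Finset.univ.erase (1 : G) := by
      apply Finset.filter_true_of_mem
      intro x _
      rw [hΦr]
      exact_mod_cast (hΦrne x).mpr (hall x)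
    rw [hfilter, Finset.card_erase_of_mem (Finset.mem_univ _), Finset.card_univ] at hKL
    have hnorm : ∀ x, ‖Φ x‖ ^ 1 = Φr x := by
      intro x
      rw [pow_one, hΦr, Complex.norm_real, Real.norm_eq_abs, abs_of_nonneg (hΦr0 x)]
    rw [Finset.sum_congr rfl (fun x _ => hnorm x)] at hKL
    rw [← Finset.add_sum_erase Finset.univ _ (Finset.mem_univ (1 : G)), hΦ1,
      Nat.card_eq_fintype_card] at hsum
    have hN : 1 ≤ Fintype.card G := Fintype.card_pos
    have h1 : ((Fintype.card G - 1 : ℕ) : ℝ) = (Fintype.card G : ℝ) - 1 := by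
      rw [Nat.cast_sub hN]; simp
    rw [h1] at hKL
    have hm1 : (m : ℝ) ≤ 1 := by linarith
    have hm1' : m ≤ 1 := by exact_mod_cast hm1
    have : m = 1 := by omega
    rw [hm, this]
    simp

end Cfsg.Agent.Lib_helper3_CharAvg
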