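import Mathlib
import Cfsg.Prelude.Def_Characters
import Cfsg.Agent.Lib_helper3_CharBasic
import Cfsg.Agent.Lib_helper3_CharMore
import Cfsg.Agent.Lib_helper3_CharOdd

set_option autoImplicit false

namespace Cfsg.Agent.Lib_helper3_FS

open Cfsg
open Cfsg.Agent.Lib_helper3_CharBasic Cfsg.Agent.Lib_helper3_CharMore
open Cfsg.Agent.Lib_helper3_CharOdd
open scoped ComplexConjugate
open Matrix

universe u

section Mat

variable {n : ℕ}

theorem stdBasis_repr_apply (M : Matrix (Fin n) (Fin n) ℂ) (i j : Fin n) :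
    (Matrix.stdBasis ℂ (Fin n) (Fin n)).repr M (i, j) = M i j := by
  simp [Matrix.stdBasis]

/-- The trace of an endomorphism of the space of square matrices. -/
theorem trace_mat_end (L : Matrix (Fin n) (Fin n) ℂ →ₗ[ℂ] Matrix (Fin n) (Fin n) ℂ) :
    LinearMap.trace ℂ _ L = ∑ i, ∑ j, L (Matrix.single i j 1) i j := by
  rw [LinearMap.trace_eq_matrix_trace ℂ (Matrix.stdBasis ℂ (Fin n) (Fin n)) L, Matrix.trace]
  simp only [Matrix.diag_apply, LinearMap.toMatrix_apply]
  rw [Fintype.sum_prod_type]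
  apply Finset.sum_congr rfl
  intro i _
  apply Finset.sum_congr rfl
  intro j _
  rw [Matrix.stdBasis_eq_single, stdBasis_repr_apply]

theorem mul_single_mul_apply (A B : Matrix (Fin n) (Fin n) ℂ) (i j a b : Fin n) :
    (A * Matrix.single i j (1 : ℂ) * B) a b = A a i * B j b := by
  rw [Matrix.mul_apply, Finset.sum_eq_single j]
  · rw [Matrix.mul_single_apply_same, mul_one]
  · intro k _ hk
    rw [Matrix.mul_single_apply_of_ne _ _ _ _ _ hk, zero_mul]
  · intro h
    exact absurd (Finset.mem_univ j) h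

/-- The operator `M ↦ A * M * Aᵀ`. -/
noncomputable def Lop (A : Matrix (Fin n) (Fin n) ℂ) :
    Matrix (Fin n) (Fin n) ℂ →ₗ[ℂ] Matrix (Fin n) (Fin n) ℂ :=
  (LinearMap.mulLeft ℂ A) ∘ₗ (LinearMap.mulRight ℂ Aᵀ)

theorem Lop_apply (A M : Matrix (Fin n) (Fin n) ℂ) : Lop A M = A * M * Aᵀ := by
  simp [Lop, mul_assoc]

/-- Transposition as a linear map. -/
noncomputable def Top : Matrix (Fin n) (Fin n) ℂ →ₗ[ℂ] Matrix (Fin n) (Fin n) ℂ :=
  (Matrix.transposeLinearEquiv (Fin n) (Fin n) ℂ ℂ).toLinearMap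

theorem Top_apply (M : Matrix (Fin n) (Fin n) ℂ) : Top M = Mᵀ := rfl

theorem trace_Lop (A : Matrix (Fin n) (Fin n) ℂ) :
    LinearMap.trace ℂ _ (Lop A) = A.trace * A.trace := by
  rw [trace_mat_end]
  simp only [Lop_apply, mul_single_mul_apply, Matrix.transpose_apply, Matrix.trace,
    Matrix.diag_apply]
  rw [Finset.sum_mul_sum]

theorem trace_Lop_Top (A : Matrix (Fin n) (Fin n) ℂ) :
    LinearMap.trace ℂ _ (Lop A * Top) = (A * A).trace := by
  rw [trace_mat_end]
  have h : ∀ i j : Fin n, ((Lop A * Top : Matrix (Fin n) (Fin n) ℂ →ₗ[ℂ] Matrix (Fin n) (Fin n) ℂ)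
      (Matrix.single i j 1)) i j = A i j * A j i := by
    intro i j
    rw [Module.End.mul_apply, Top_apply, Lop_apply, Matrix.transpose_single,
      mul_single_mul_apply, Matrix.transpose_apply]
  simp only [h, Matrix.trace, Matrix.diag_apply, Matrix.mul_apply]

theorem Top_mul_Top : (Top : Matrix (Fin n) (Fin n) ℂ →ₗ[ℂ] Matrix (Fin n) (Fin n) ℂ) * Top = 1 := by
  apply LinearMap.ext
  intro M
  simp [Top_apply]

theorem Top_mul_Lop (A : Matrix (Fin n) (Fin n) ℂ) : Top * Lop A = Lop A * Top := by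
  apply LinearMap.ext
  intro M
  simp [Top_apply, Lop_apply, Matrix.transpose_mul, mul_assoc]

theorem Lop_mul (A B : Matrix (Fin n) (Fin n) ℂ) : Lop A * Lop B = Lop (A * B) := by
  apply LinearMap.ext
  intro M
  simp [Lop_apply, Matrix.transpose_mul, mul_assoc]

end Mat

section Rep

variable {G : Type u} [Group G] {n : ℕ}

/-- The matrix of a representation on a coordinate space. -/
noncomputable def Amat (ρ : Representation ℂ G (Fin n → ℂ)) (g : G) : Matrix (Fin n) (Fin n) ℂ :=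
  LinearMap.toMatrix' (ρ g)

theorem Amat_mul (ρ : Representation ℂ G (Fin n → ℂ)) (g h : G) :
    Amat ρ (g * h) = Amat ρ g * Amat ρ h := by
  simp only [Amat, map_mul]
  exact LinearMap.toMatrix'_mul _ _

theorem Amat_one (ρ : Representation ℂ G (Fin n → ℂ)) : Amat ρ 1 = 1 := by
  simp only [Amat, map_one]
  exact LinearMap.toMatrix'_one

theorem Amat_trace (ρ : Representation ℂ G (Fin n → ℂ)) (g : G) :
    (Amat ρ g).trace = ρ.character g := by
  show _ = LinearMap.trace ℂ _ (ρ g)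
  rw [LinearMap.trace_eq_matrix_trace ℂ (Pi.basisFun ℂ (Fin n)) (ρ g),
    LinearMap.toMatrix_eq_toMatrix']
  rfl

theorem Amat_mulVec (ρ : Representation ℂ G (Fin n → ℂ)) (g : G) (v : Fin n → ℂ) :
    Amat ρ g *ᵥ v = ρ g v := by
  simp [Amat, LinearMap.toMatrix'_mulVec]

variable [Fintype G]

/-- The averaging operator on the matrix space. -/
noncomputable def Eop (ρ : Representation ℂ G (Fin n → ℂ)) :
    Matrix (Fin n) (Fin n) ℂ →ₗ[ℂ] Matrix (Fin n) (Fin n) ℂ :=
  (Nat.card G : ℂ)⁻¹ • ∑ g : G, Lop (Amat ρ g)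

theorem Lop_mul_Eop (ρ : Representation ℂ G (Fin n → ℂ)) (h : G) :
    Lop (Amat ρ h) * Eop ρ = Eop ρ := by
  simp only [Eop, mul_smul_comm, Finset.mul_sum, Lop_mul, ← Amat_mul]
  congr 1
  exact Fintype.sum_equiv (Equiv.mulLeft h) _ _ (fun g => rfl)

theorem Eop_idem (ρ : Representation ℂ G (Fin n → ℂ)) : IsIdempotentElem (Eop ρ) := by
  show Eop ρ * Eop ρ = Eop ρ
  have h1 : Eop ρ * Eop ρ = (Nat.card G : ℂ)⁻¹ • ∑ g : G, Lop (Amat ρ g) * Eop ρ := by
    conv_lhs => rw [Eop, smul_mul_assoc, Finset.sum_mul]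
    rfl
  rw [h1]
  simp only [Lop_mul_Eop]
  rw [Finset.sum_const, Finset.card_univ, ← Nat.card_eq_fintype_card, ← Nat.cast_smul_eq_nsmul ℂ,
    smul_smul, inv_mul_cancel₀ card_ne_zero, one_smul]

theorem Eop_comm_Top (ρ : Representation ℂ G (Fin n → ℂ)) : Commute (Eop ρ) Top := by
  show Eop ρ * Top = Top * Eop ρ
  simp only [Eop, smul_mul_assoc, mul_smul_comm, Finset.sum_mul, Finset.mul_sum, Top_mul_Lop]

theorem trace_Eop (ρ : Representation ℂ G (Fin n → ℂ)) :
    LinearMap.trace ℂ _ (Eop ρ)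
      = (Nat.card G : ℂ)⁻¹ * ∑ g, ρ.character g * ρ.character g := by
  simp only [Eop, map_smul, map_sum, trace_Lop, Amat_trace, smul_eq_mul]

theorem trace_Eop_Top (ρ : Representation ℂ G (Fin n → ℂ)) :
    LinearMap.trace ℂ _ (Eop ρ * Top)
      = (Nat.card G : ℂ)⁻¹ * ∑ g, ρ.character (g * g) := by
  simp only [Eop, smul_mul_assoc, Finset.sum_mul, map_smul, map_sum, trace_Lop_Top, ← Amat_mul,
    Amat_trace, smul_eq_mul]

/-- Projection to symmetric matrices. -/
noncomputable def Pp : Matrix (Fin n) (Fin n) ℂ →ₗ[ℂ] Matrix (Fin n) (Fin n) ℂ :=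
  (2⁻¹ : ℂ) • (1 + Top)

/-- Projection to alternating matrices. -/
noncomputable def Pm : Matrix (Fin n) (Fin n) ℂ →ₗ[ℂ] Matrix (Fin n) (Fin n) ℂ :=
  (2⁻¹ : ℂ) • (1 - Top)

theorem Pp_idem : IsIdempotentElem (Pp : Matrix (Fin n) (Fin n) ℂ →ₗ[ℂ] Matrix (Fin n) (Fin n) ℂ) := by
  show Pp * Pp = Pp
  simp only [Pp, smul_mul_assoc, mul_smul_comm, mul_add, add_mul, one_mul, mul_one, Top_mul_Top]
  module

theorem Pm_idem : IsIdempotentElem (Pm : Matrix (Fin n) (Fin n) ℂ →ₗ[ℂ] Matrix (Fin n) (Fin n) ℂ) := by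
  show Pm * Pm = Pm
  simp only [Pm, smul_mul_assoc, mul_smul_comm, mul_sub, sub_mul, one_mul, mul_one, Top_mul_Top]
  module

theorem Top_mul_Pm : (Top : Matrix (Fin n) (Fin n) ℂ →ₗ[ℂ] Matrix (Fin n) (Fin n) ℂ) * Pm = -Pm := by
  simp only [Pm, mul_smul_comm, mul_sub, mul_one, Top_mul_Top]
  module

/-- Frobenius--Schur: the core statement. -/
theorem fs_main (ρ : Representation ℂ G (Fin n → ℂ)) :
    ∃ a b : ℕ, (a : ℂ) + b = (Nat.card G : ℂ)⁻¹ * ∑ g, ρ.character g * ρ.character g ∧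
      (a : ℂ) - b = (Nat.card G : ℂ)⁻¹ * ∑ g, ρ.character (g * g) ∧
      (b ≠ 0 → ∃ M : Matrix (Fin n) (Fin n) ℂ, M ≠ 0 ∧ Mᵀ = -M ∧
        ∀ g, Amat ρ g * M * (Amat ρ g)ᵀ = M) := by
  have hE := Eop_idem ρ
  have hcT := Eop_comm_Top ρ
  have hcp : Commute (Eop ρ) Pp := by
    unfold Pp
    exact Commute.smul_right ((Commute.one_right _).add_right hcT) _
  have hcm : Commute (Eop ρ) Pm := by
    unfold Pm
    exact Commute.smul_right ((Commute.one_right _).sub_right hcT) _
  have hip := IsIdempotentElem.mul_of_commute hcp hE Pp_idem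
  have him := IsIdempotentElem.mul_of_commute hcm hE Pm_idem
  have htp := (LinearMap.IsIdempotentElem.isProj_range _ hip).trace
  have htm := (LinearMap.IsIdempotentElem.isProj_range _ him).trace
  have h1 : LinearMap.trace ℂ _ (Eop ρ * Pp)
      = 2⁻¹ * (LinearMap.trace ℂ _ (Eop ρ) + LinearMap.trace ℂ _ (Eop ρ * Top)) := by
    simp only [Pp, mul_smul_comm, mul_add, mul_one, map_smul, map_add, smul_eq_mul]
  have h2 : LinearMap.trace ℂ _ (Eop ρ * Pm)
      = 2⁻¹ * (LinearMap.trace ℂ _ (Eop ρ) - LinearMap.trace ℂ _ (Eop ρ * Top)) := by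
    simp only [Pm, mul_smul_comm, mul_sub, mul_one, map_smul, map_sub, smul_eq_mul]
  refine ⟨Module.finrank ℂ (LinearMap.range (Eop ρ * Pp)),
    Module.finrank ℂ (LinearMap.range (Eop ρ * Pm)), ?_, ?_, ?_⟩
  · rw [← htp, ← htm, h1, h2, ← trace_Eop]
    ring
  · rw [← htp, ← htm, h1, h2, ← trace_Eop_Top]
    ring
  · intro hb
    have hne : Eop ρ * Pm ≠ 0 := by
      intro h0
      apply hb
      rw [h0]
      simp
    let EP : Matrix (Fin n) (Fin n) ℂ →ₗ[ℂ] Matrix (Fin n) (Fin n) ℂ := Eop ρ * Pm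
    obtain ⟨M₀, hM₀⟩ : ∃ M₀, EP M₀ ≠ 0 := by
      by_contra hcon
      push Not at hcon
      exact hne (LinearMap.ext hcon)
    refine ⟨EP M₀, hM₀, ?_, ?_⟩
    · have e1 : Top (Eop ρ (Pm M₀)) = Eop ρ (Top (Pm M₀)) := by
        have := congrArg (fun L : Module.End ℂ (Matrix (Fin n) (Fin n) ℂ) => L (Pm M₀)) hcT.eq
        exact this.symm
      have e2 : Top (Pm M₀) = -(Pm M₀) := by
        have := congrArg (fun L : Module.End ℂ (Matrix (Fin n) (Fin n) ℂ) => L M₀)
          (Top_mul_Pm (n := n))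
        exact this
      show Top (Eop ρ (Pm M₀)) = -(Eop ρ (Pm M₀))
      rw [e1, e2, map_neg]
    · intro g
      have h3 : Lop (Amat ρ g) * (Eop ρ * Pm) = Eop ρ * Pm := by
        rw [← mul_assoc, Lop_mul_Eop]
      have h4 := congrArg (fun L : Matrix (Fin n) (Fin n) ℂ →ₗ[ℂ] Matrix (Fin n) (Fin n) ℂ =>
        L M₀) h3
      simp only [Module.End.mul_apply, Lop_apply] at h4
      exact h4

/-- The Frobenius--Schur indicator of an irreducible character is `0`, `1` or `-1`, and it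
vanishes exactly when the character is not real. -/
theorem fs_irr {χ : G → ℂ} (hχ : IsIrrCharacter G χ) :
    ((Nat.card G : ℂ)⁻¹ * ∑ s : G, χ (s * s) = 0 ∨ (Nat.card G : ℂ)⁻¹ * ∑ s : G, χ (s * s) = 1 ∨
      (Nat.card G : ℂ)⁻¹ * ∑ s : G, χ (s * s) = -1) ∧
    ((Nat.card G : ℂ)⁻¹ * ∑ s : G, χ (s * s) = 0 ↔ ∃ s : G, (χ s).im ≠ 0) := by
  have hinner := irr_orthonormal hχ (isIrrCharacter_conj hχ)
  rw [classInner_def] at hinner
  simp only [Complex.conj_conj] at hinner
  obtain ⟨n, ρ, hirr, rfl⟩ := hχ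
  obtain ⟨a, b, hab, hν, -⟩ := fs_main ρ
  rw [hinner] at hab
  rw [← hν]
  by_cases hreal : ρ.character = fun g => conj (ρ.character g)
  · rw [if_pos hreal] at hab
    have hab' : a + b = 1 := by exact_mod_cast hab
    have hnoim : ¬ ∃ s : G, (ρ.character s).im ≠ 0 := by
      push Not
      intro s
      have := congrFun hreal s
      exact Complex.conj_eq_iff_im.mp this.symm
    have hcases : (a = 1 ∧ b = 0) ∨ (a = 0 ∧ b = 1) := by omega
    rcases hcases with ⟨ha, hb⟩ | ⟨ha, hb⟩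
    · subst ha hb
      refine ⟨Or.inr (Or.inl (by simp)), ?_⟩
      constructor
      · intro h
        simp at h
      · intro h
        exact absurd h hnoim
    · subst ha hb
      refine ⟨Or.inr (Or.inr (by simp)), ?_⟩
      constructor
      · intro h
        simp at h
      · intro h
        exact absurd h hnoim
  · rw [if_neg hreal] at hab
    have hab' : a + b = 0 := by exact_mod_cast hab
    have ha : a = 0 := by omega
    have hb : b = 0 := by omega
    subst ha hb
    refine ⟨Or.inl (by simp), ?_⟩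
    constructor
    · intro _
      by_contra hcon
      push Not at hcon
      apply hreal
      funext g
      exact (Complex.conj_eq_iff_im.mpr (hcon g)).symm
    · intro _
      simp

/-- A real-valued irreducible character of odd degree has Frobenius--Schur indicator one. -/
theorem fs_odd {χ : G → ℂ} (hχ : IsIrrCharacter G χ) (hreal : ∀ g : G, (χ g).im = 0) (d : ℕ)
    (hd : χ 1 = d) (hodd : Odd d) : (Nat.card G : ℂ)⁻¹ * ∑ s : G, χ (s * s) = 1 := by
  have hinner := irr_orthonormal hχ (isIrrCharacter_conj hχ)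
  rw [classInner_def] at hinner
  simp only [Complex.conj_conj] at hinner
  obtain ⟨n, ρ, hirr, rfl⟩ := hχ
  have hnd : n = d := by
    rw [Representation.char_one] at hd
    have : Module.finrank ℂ (Fin n → ℂ) = d := by exact_mod_cast hd
    simpa using this
  subst hnd
  obtain ⟨a, b, hab, hν, hM⟩ := fs_main ρ
  rw [hinner] at hab
  rw [← hν]
  have hreal' : ρ.character = fun g => conj (ρ.character g) := by
    funext g
    exact (Complex.conj_eq_iff_im.mpr (hreal g)).symm
  rw [if_pos hreal'] at hab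
  have hab' : a + b = 1 := by exact_mod_cast hab
  have hb : b = 0 := by
    by_contra hb0
    obtain ⟨M, hM0, hMt, hMinv⟩ := hM hb0
    have hAM : ∀ g : G, Amat ρ g * M = M * (Amat ρ g⁻¹)ᵀ := by
      intro g
      have h1 : (Amat ρ g)ᵀ * (Amat ρ g⁻¹)ᵀ = 1 := by
        rw [← Matrix.transpose_mul, ← Amat_mul, inv_mul_cancel, Amat_one, Matrix.transpose_one]
      calc Amat ρ g * M = Amat ρ g * M * ((Amat ρ g)ᵀ * (Amat ρ g⁻¹)ᵀ) := by rw [h1, mul_one]
        _ = (Amat ρ g * M * (Amat ρ g)ᵀ) * (Amat ρ g⁻¹)ᵀ := by simp only [mul_assoc]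
        _ = M * (Amat ρ g⁻¹)ᵀ := by rw [hMinv g]
    let W : Subrepresentation ρ :=
      { toSubmodule := LinearMap.range (Matrix.mulVecLin M)
        apply_mem_toSubmodule := by
          rintro g v ⟨w, rfl⟩
          refine ⟨(Amat ρ g⁻¹)ᵀ *ᵥ w, ?_⟩
          simp only [Matrix.mulVecLin_apply]
          rw [← Amat_mulVec, Matrix.mulVec_mulVec, Matrix.mulVec_mulVec, hAM g] }
    have hI : IsSimpleOrder (Subrepresentation ρ) := hirr
    have hWtop : W = ⊤ := by
      rcases hI.eq_bot_or_eq_top W with h | h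
      · exfalso
        apply hM0
        have h1 : LinearMap.range (Matrix.mulVecLin M) = ⊥ := by
          have : W.toSubmodule = (⊥ : Subrepresentation ρ).toSubmodule := by rw [h]
          exact this
        have h2 := LinearMap.range_eq_bot.mp h1
        have h3 : Matrix.toLin' M = 0 := by
          rw [Matrix.toLin'_apply']
          exact h2
        exact (LinearEquiv.map_eq_zero_iff Matrix.toLin').mp h3
      · exact h
    have hsurj : Function.Surjective (Matrix.mulVecLin M) := by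
      rw [← LinearMap.range_eq_top]
      have : W.toSubmodule = (⊤ : Subrepresentation ρ).toSubmodule := by rw [hWtop]
      exact this
    have hunit : IsUnit M := Matrix.mulVec_surjective_iff_isUnit.mp hsurj
    have hdet : IsUnit M.det := (Matrix.isUnit_iff_isUnit_det M).mp hunit
    have hdet0 : M.det = 0 := by
      have h1 : M.det = (-M).det := by rw [← hMt, Matrix.det_transpose]
      rw [Matrix.det_neg, Fintype.card_fin, hodd.neg_one_pow] at h1
      linear_combination (1 / 2 : ℂ) * h1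
    rw [hdet0] at hdet
    exact not_isUnit_zero hdet
  have ha : a = 1 := by omega
  subst ha hb
  simp

end Rep

end Cfsg.Agent.Lib_helper3_FS
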