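import Mathlib
import Cfsg.Prelude.Def_Characters
import Cfsg.Prelude.Def_Blocks
import Cfsg.Agent.Lib_helper3_InvClass

set_option autoImplicit false
open Cfsg
open Cfsg.Agent.Lib_helper3_CharBasic Cfsg.Agent.Lib_helper3_CharMore
  Cfsg.Agent.Lib_helper3_ClassMult Cfsg.Agent.Lib_helper3_CharInd
  Cfsg.Agent.Lib_helper3_CharOdd Cfsg.Agent.Lib_helper3_CharDiag
  Cfsg.Agent.Lib_helper3_IntLemmas Cfsg.Agent.Lib_helper3_DefectZero
  Cfsg.Agent.Lib_helper3_InvClass
open scoped ComplexConjugate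

namespace Cfsg.Agent.Lib_helper3_InvClass2

universe u

variable {G : Type u} [Group G] [Fintype G]

/-- If no product of a conjugate of `a` and a conjugate of `b` is a non-identity element of the
subgroup `P` of order `p ^ c`, and no irreducible character has degree divisible by `p ^ e`,
then `p ^ (c - e + 1)` divides the integer `∑ χ, χ a * χ b`. -/
theorem pow_dvd_of_avoid [Fintype (IrrCharacter G)] (p : ℕ) [Fact p.Prime] (a b : G)
    (P : Subgroup G) (c : ℕ) (hP : Nat.card P = p ^ c)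
    (havoid : ∀ u v : G, IsConj a u → IsConj b v → u * v ∈ P → u * v = 1)
    (T : ℕ) (hT : ∑ χ : IrrCharacter G, (χ : G → ℂ) a * (χ : G → ℂ) b = T)
    (e : ℕ) (he1 : 1 ≤ e) (hec : e ≤ c)
    (hno : ∀ χ : IrrCharacter G, ¬ p ^ e ∣ charDegree (χ : G → ℂ)) :
    p ^ (c - e + 1) ∣ T := by
  classical
  have hp : p.Prime := Fact.out
  -- vanishing of the class multiplication constants
  have h1 : ∀ z ∈ P, z ≠ 1 → ∑ χ : IrrCharacter G, (χ : G → ℂ) a * (χ : G → ℂ) b *
      conj ((χ : G → ℂ) z) / (χ : G → ℂ) 1 = 0 := by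
    intro z hz hz1
    have h := class_mult_aux a b z
    have hL : ∀ u v : G, ¬ (IsConj a u ∧ IsConj b v ∧ u * v = z) := by
      rintro u v ⟨hu, hv, huv⟩
      apply hz1
      rw [← huv]
      exact havoid u v hu hv (by rw [huv]; exact hz)
    simp only [hL, if_false, Finset.sum_const_zero] at h
    have hKa : (Nat.card {y : G // IsConj a y} : ℂ) ≠ 0 := by
      have : Nonempty {y : G // IsConj a y} := ⟨⟨a, IsConj.refl a⟩⟩
      exact_mod_cast (Nat.card_pos (α := {y : G // IsConj a y})).ne'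
    have hKb : (Nat.card {y : G // IsConj b y} : ℂ) ≠ 0 := by
      have : Nonempty {y : G // IsConj b y} := ⟨⟨b, IsConj.refl b⟩⟩
      exact_mod_cast (Nat.card_pos (α := {y : G // IsConj b y})).ne'
    rcases mul_eq_zero.mp h.symm with h' | h'
    · exfalso
      rcases div_eq_zero_iff.mp h' with h'' | h''
      · rcases mul_eq_zero.mp h'' with h3 | h3
        · exact hKa h3
        · exact hKb h3
      · exact card_ne_zero h''
    · exact h'
  -- summing over `P`
  have h2 : ∑ z : P, ∑ χ : IrrCharacter G, (χ : G → ℂ) a * (χ : G → ℂ) b *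
      conj ((χ : G → ℂ) (z : G)) / (χ : G → ℂ) 1 = (T : ℂ) := by
    rw [Finset.sum_eq_single (1 : P)]
    · rw [← hT]
      apply Finset.sum_congr rfl
      intro χ _
      obtain ⟨n, hn, hχ1⟩ := irr_apply_one_pos χ.2
      have hn0 : (n : ℂ) ≠ 0 := by exact_mod_cast hn.ne'
      rw [Subgroup.coe_one, hχ1, Complex.conj_natCast, mul_div_assoc, div_self hn0, mul_one]
    · intro z _ hz
      exact h1 z z.2 (fun h => hz (Subtype.ext h))
    · intro h
      exact absurd (Finset.mem_univ _) h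
  rw [Finset.sum_comm] at h2
  -- the multiplicities
  have h3 : ∀ χ : IrrCharacter G, ∃ n : ℕ, ∑ z : P, conj ((χ : G → ℂ) (z : G)) =
      (Nat.card P : ℂ) * n := fun χ => sum_subgroup_nat P χ
  choose nχ hnχ using h3
  -- the degrees
  have hdeg : ∀ χ : IrrCharacter G, ∃ d : ℕ, 0 < d ∧ (χ : G → ℂ) 1 = d ∧
      d ∣ p ^ (e - 1) * (Nat.card G / p ^ (Nat.card G).factorization p) := by
    intro χ
    obtain ⟨d, hd, hχ1⟩ := irr_apply_one_pos χ.2
    refine ⟨d, hd, hχ1, ?_⟩
    have hdG : d ∣ Nat.card G := irr_degree_dvd_card χ.2 hχ1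
    have hnd : ¬ p ^ e ∣ d := by
      have := hno χ
      rwa [charDegree_eq hχ1] at this
    have hfac : d.factorization p ≤ e - 1 := by
      by_contra hgt
      apply hnd
      exact (hp.pow_dvd_iff_le_factorization hd.ne').mpr (by omega)
    have h4 : d = p ^ d.factorization p * (d / p ^ d.factorization p) :=
      (Nat.ordProj_mul_ordCompl_eq_self d p).symm
    rw [h4]
    exact Nat.mul_dvd_mul (pow_dvd_pow p hfac) (Nat.ordCompl_dvd_ordCompl_of_dvd hdG p)
  choose dχ hdpos hdχ hddvd using hdeg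
  choose kχ hkχ using hddvd
  -- the key identity
  obtain ⟨N, hN⟩ : ∃ N : ℕ, N = Nat.card G / p ^ (Nat.card G).factorization p := ⟨_, rfl⟩
  rw [← hN] at hkχ
  have hNp : Nat.Coprime p N := by
    rw [hN]
    exact Nat.coprime_ordCompl hp Nat.card_pos.ne'
  have h5 : (p : ℂ) ^ c * ∑ χ : IrrCharacter G, (χ : G → ℂ) a * (χ : G → ℂ) b * (nχ χ : ℂ) *
      (kχ χ : ℂ) = (T : ℂ) * ((p : ℂ) ^ (e - 1) * (N : ℂ)) := by
    rw [← h2, Finset.mul_sum, Finset.sum_mul]
    apply Finset.sum_congr rfl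
    intro χ _
    have h6 : ∑ z : P, (χ : G → ℂ) a * (χ : G → ℂ) b * conj ((χ : G → ℂ) (z : G)) /
        (χ : G → ℂ) 1 = (χ : G → ℂ) a * (χ : G → ℂ) b / (χ : G → ℂ) 1 *
        ((Nat.card P : ℂ) * nχ χ) := by
      rw [← hnχ χ, Finset.mul_sum]
      apply Finset.sum_congr rfl
      intro z _
      ring
    rw [h6, hP, hdχ χ]
    have hd0 : (dχ χ : ℂ) ≠ 0 := by exact_mod_cast (hdpos χ).ne'
    have h7 : ((p : ℂ) ^ (e - 1) * (N : ℂ)) = (dχ χ : ℂ) * (kχ χ : ℂ) := by
      exact_mod_cast congrArg (Nat.cast : ℕ → ℂ) (hkχ χ)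
    rw [h7]
    push_cast
    field_simp
  have hint : IsIntegral ℤ (∑ χ : IrrCharacter G, (χ : G → ℂ) a * (χ : G → ℂ) b * (nχ χ : ℂ) *
      (kχ χ : ℂ)) := by
    apply IsIntegral.sum
    intro χ _
    exact IsIntegral.mul (IsIntegral.mul (IsIntegral.mul (irr_isIntegral χ a)
      (irr_isIntegral χ b)) isIntegral_algebraMap) isIntegral_algebraMap
  have hpC : (p : ℂ) ≠ 0 := by exact_mod_cast hp.ne_zero
  have h8 : ∑ χ : IrrCharacter G, (χ : G → ℂ) a * (χ : G → ℂ) b * (nχ χ : ℂ) * (kχ χ : ℂ) =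
      ((T * N : ℕ) : ℂ) / ((p ^ (c - e + 1) : ℕ) : ℂ) := by
    have h9 : c = (e - 1) + (c - e + 1) := by omega
    rw [eq_div_iff (by exact_mod_cast pow_ne_zero _ hp.ne_zero)]
    have h10 : (p : ℂ) ^ c = (p : ℂ) ^ (e - 1) * (p : ℂ) ^ (c - e + 1) := by
      rw [← pow_add, ← h9]
    rw [h10] at h5
    have h11 : (p : ℂ) ^ (e - 1) ≠ 0 := pow_ne_zero _ hpC
    push_cast
    apply mul_left_cancel₀ h11
    linear_combination h5
  rw [h8] at hint
  have h12 := nat_dvd_of_isIntegral_div (pow_ne_zero (c - e + 1) hp.ne_zero) hint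
  exact (Nat.Coprime.pow_left (c - e + 1) hNp).dvd_of_dvd_mul_right h12

/-- The sum of `χ z * χ z⁻¹` over the irreducible characters is the order of the centralizer. -/
theorem sum_irr_mul_inv [Fintype (IrrCharacter G)] (z : G) :
    ∑ χ : IrrCharacter G, (χ : G → ℂ) z * (χ : G → ℂ) z⁻¹ =
      (Nat.card (Subgroup.centralizer ({z} : Set G)) : ℕ) := by
  classical
  have h3 := second_orthogonality z z
  rw [if_pos (IsConj.refl z)] at h3
  rw [← h3]
  apply Finset.sum_congr rfl
  intro χ _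
  rw [irr_conj_eq]

/-- A character whose degree is divisible by the full `p`-part of the group order has
`p`-defect zero. -/
theorem factorization_eq_of_pow_dvd (p : ℕ) [Fact p.Prime] (χ : IrrCharacter G)
    (h : p ^ (Nat.card G).factorization p ∣ charDegree (χ : G → ℂ)) :
    (charDegree (χ : G → ℂ)).factorization p = (Nat.card G).factorization p := by
  have hp : p.Prime := Fact.out
  obtain ⟨d, hd, hχ1⟩ := irr_apply_one_pos χ.2
  have hdG : d ∣ Nat.card G := irr_degree_dvd_card χ.2 hχ1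
  rw [charDegree_eq hχ1] at h ⊢
  apply le_antisymm
  · exact (Nat.factorization_le_iff_dvd hd.ne' Nat.card_pos.ne').mpr hdG p
  · exact (hp.pow_dvd_iff_le_factorization hd.ne').mp h

/-- If the centralizer of every non-identity `p`-element has order prime to `q`, then either
there is a character of `p`-defect zero or every non-identity `q`-element has two conjugates
whose quotient is a non-identity `p`-element. -/
theorem defect_zero_or_class (p q : ℕ) [Fact p.Prime] [Fact q.Prime] (hpG : p ∣ Nat.card G)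
    (hC : ∀ g : G, g ≠ 1 → (∃ k : ℕ, orderOf g = p ^ k) →
      ¬ q ∣ Nat.card (Subgroup.centralizer ({g} : Set G))) :
    (∃ χ : IrrCharacter G,
      (charDegree (χ : G → ℂ)).factorization p = (Nat.card G).factorization p) ∨
    ∀ z : G, z ≠ 1 → (∃ k : ℕ, orderOf z = q ^ k) → ∃ g h : G, IsConj z g ∧ IsConj z h ∧
      g * h⁻¹ ≠ 1 ∧ ∃ k : ℕ, orderOf (g * h⁻¹) = p ^ k := by
  classical
  have hp : p.Prime := Fact.out
  have hq : q.Prime := Fact.out
  have hfin := irr_finite (G := G)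
  have hft := Fintype.ofFinite (IrrCharacter G)
  by_contra hcon
  push Not at hcon
  obtain ⟨hno, z, hz1, hzq, hz⟩ := hcon
  obtain ⟨P⟩ : Nonempty (Sylow p G) := inferInstance
  have hPcard : Nat.card (P : Subgroup G) = p ^ (Nat.card G).factorization p :=
    P.card_eq_multiplicity
  have hm1 : 1 ≤ (Nat.card G).factorization p :=
    (hp.dvd_iff_one_le_factorization Nat.card_pos.ne').mp hpG
  have hdvd := pow_dvd_of_avoid p z z⁻¹ (P : Subgroup G) _ hPcard (by
    intro u v hu hv huv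
    by_contra hne
    obtain ⟨g, hg⟩ := isConj_iff.mp hv
    have hv' : IsConj z v⁻¹ := by
      rw [isConj_iff]
      refine ⟨g, ?_⟩
      rw [← hg]
      group
    obtain ⟨k, hk⟩ := (IsPGroup.iff_orderOf.mp P.isPGroup') ⟨u * v, huv⟩
    have hk' : orderOf (u * v⁻¹⁻¹) = p ^ k := by
      rw [inv_inv, ← hk]
      exact Subgroup.orderOf_coe (⟨u * v, huv⟩ : (P : Subgroup G))
    exact hz u v⁻¹ hu hv' (by rwa [inv_inv]) k hk') _ (sum_irr_mul_inv z) _ hm1 le_rfl (by
    intro χ hdiv
    exact hno χ (factorization_eq_of_pow_dvd p χ hdiv))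
  rw [Nat.sub_self, zero_add, pow_one] at hdvd
  obtain ⟨y, hy⟩ := exists_prime_orderOf_dvd_card' p hdvd
  have hyo : orderOf (y : G) = p := by
    rw [Subgroup.orderOf_coe, hy]
  have hy1 : (y : G) ≠ 1 := by
    intro h
    rw [h, orderOf_one] at hyo
    exact hp.one_lt.ne hyo
  apply hC (y : G) hy1 ⟨1, by rw [hyo, pow_one]⟩
  obtain ⟨k, hk⟩ := hzq
  have hk0 : k ≠ 0 := by
    rintro rfl
    rw [pow_zero, orderOf_eq_one_iff] at hk
    exact hz1 hk
  have hzy : z ∈ Subgroup.centralizer ({(y : G)} : Set G) := by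
    rw [Subgroup.mem_centralizer_singleton_iff]
    exact (Subgroup.mem_centralizer_singleton_iff.mp y.2).symm
  have h1 : orderOf (⟨z, hzy⟩ : Subgroup.centralizer ({(y : G)} : Set G)) ∣
      Nat.card (Subgroup.centralizer ({(y : G)} : Set G)) := orderOf_dvd_natCard _
  have h2 : orderOf (⟨z, hzy⟩ : Subgroup.centralizer ({(y : G)} : Set G)) = orderOf z :=
    (Subgroup.orderOf_coe (⟨z, hzy⟩ : Subgroup.centralizer ({(y : G)} : Set G))).symm
  rw [h2, hk] at h1
  exact dvd_trans (dvd_pow_self q hk0) h1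

end Cfsg.Agent.Lib_helper3_InvClass2
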