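import Cfsg.Statements.S0190
import Cfsg.Agent.Lib_helper3_CharInd

set_option autoImplicit false
open Cfsg

namespace Cfsg.Agent.S0190

/-- For a transitive action of a finite group on X, the permutation character g ↦ (number of fixed points of g) is the function induced from the principal character of the stabilizer of any point. -/
theorem result {G : Type*} [Group G] [Fintype G] (X : Type*) [MulAction G X] [Finite X] [MulAction.IsPretransitive G X] (x : X) : (fun g : G => (Nat.card (MulAction.fixedBy X g) : ℂ)) = Cfsg.indFun (MulAction.stabilizer G x) (fun _ => 1) := by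
  classical
  have := Fintype.ofFinite X
  ext g
  rw [Cfsg.Agent.Lib_helper3_CharInd.indFun_apply]
  set S := MulAction.stabilizer G x with hS
  have h1 : ∀ y : G, Cfsg.extendByZero S (fun _ => (1:ℂ)) (y⁻¹ * g * y) =
      if g • (y • x) = y • x then 1 else 0 := by
    intro y
    by_cases h : g • (y • x) = y • x
    · rw [if_pos h, Cfsg.Agent.Lib_helper3_CharInd.extendByZero_mem]
      rw [hS, MulAction.mem_stabilizer_iff, mul_smul, mul_smul, h, inv_smul_smul]
    · rw [if_neg h, Cfsg.Agent.Lib_helper3_CharInd.extendByZero_not_mem]
      intro h'
      apply h
      rw [hS, MulAction.mem_stabilizer_iff, mul_smul, mul_smul] at h'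
      have := congrArg (fun z => y • z) h'
      simpa using this
  simp only [h1]
  rw [Finset.sum_boole]
  have h2 : (Finset.univ.filter (fun y : G => g • (y • x) = y • x)).card =
      Nat.card (MulAction.fixedBy X g) * Nat.card S := by
    rw [Finset.card_eq_sum_card_fiberwise (f := fun y : G => y • x)
      (t := Finset.univ.filter (fun z : X => g • z = z))]
    · have h3 : ∀ z ∈ Finset.univ.filter (fun z : X => g • z = z),
          ((Finset.univ.filter (fun y : G => g • (y • x) = y • x)).filter
            (fun y => y • x = z)).card = Nat.card S := by
        intro z hz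
        simp only [Finset.mem_filter, Finset.mem_univ, true_and] at hz
        obtain ⟨y₀, hy₀⟩ := MulAction.exists_smul_eq G x z
        rw [Nat.card_eq_fintype_card, ← Finset.card_univ]
        symm
        apply Finset.card_bij (fun (s : S) _ => y₀ * (s : G))
        · intro s _
          simp only [Finset.mem_filter, Finset.mem_univ, true_and]
          have hs : (s : G) • x = x := s.2
          refine ⟨?_, ?_⟩
          · rw [mul_smul, hs, hy₀, hz]
          · rw [mul_smul, hs, hy₀]
        · intro a _ b _ hab
          exact Subtype.ext (mul_left_cancel hab)
        · intro y hy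
          simp only [Finset.mem_filter, Finset.mem_univ, true_and] at hy
          refine ⟨⟨y₀⁻¹ * y, ?_⟩, Finset.mem_univ _, by simp⟩
          rw [hS, MulAction.mem_stabilizer_iff, mul_smul, hy.2, ← hy₀, inv_smul_smul]
      rw [Finset.sum_congr rfl h3, Finset.sum_const, smul_eq_mul]
      congr 1
      rw [Nat.card_eq_fintype_card, Fintype.card_subtype]
      rfl
    · intro y hy
      simpa using hy
  rw [h2]
  push_cast
  have := Cfsg.Agent.Lib_helper3_CharInd.card_subgroup_ne_zero S
  field_simp
end Cfsg.Agent.S0190
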