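import Cfsg.Prelude.Def_Characters
import Cfsg.Agent.Lib_helper3_CharInd
import Cfsg.Agent.Lib_helper3_CharMore
import Cfsg.Agent.S0190

set_option autoImplicit false
open Cfsg
open Cfsg.Agent.Lib_helper3_CharBasic Cfsg.Agent.Lib_helper3_CharInd
  Cfsg.Agent.Lib_helper3_CharMore

namespace Cfsg.Agent.Lib_helper3_TwoTrans

open scoped ComplexConjugate
open MulAction

universe u v

/-- Burnside's lemma with `Nat.card`. -/
theorem burnside_card {H : Type u} {X : Type v} [Group H] [MulAction H X] [Fintype H] [Finite X] :
    ∑ h : H, Nat.card (fixedBy X h) = Nat.card (Quotient (orbitRel H X)) * Nat.card H := by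
  classical
  have : Fintype X := Fintype.ofFinite X
  have h := sum_card_fixedBy_eq_card_orbits_mul_card_group H X
  simpa [Nat.card_eq_fintype_card] using h

theorem card_fixedBy_prod_eq {G : Type u} {X : Type v} [Group G] [MulAction G X] (g : G) :
    Nat.card (fixedBy (X × X) g) = Nat.card (fixedBy X g) * Nat.card (fixedBy X g) := by
  rw [← Nat.card_prod]
  exact Nat.card_congr
    { toFun := fun p => (⟨p.1.1, congrArg Prod.fst p.2⟩, ⟨p.1.2, congrArg Prod.snd p.2⟩)
      invFun := fun q => ⟨(q.1.1, q.2.1), Prod.ext q.1.2 q.2.2⟩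
      left_inv := fun p => rfl
      right_inv := fun q => rfl }

/-- A transitive action on at least two points is `2`-transitive iff there are exactly two
orbits on pairs. -/
theorem card_orbits_prod_eq_two_iff {G : Type u} {X : Type v} [Group G] [MulAction G X]
    [Finite X] [IsPretransitive G X] (hX : 2 ≤ Nat.card X) :
    Nat.card (Quotient (orbitRel G (X × X))) = 2 ↔ IsMultiplyPretransitive G X 2 := by
  have hnt : Nontrivial X := Finite.one_lt_card_iff_nontrivial.1 hX
  obtain ⟨x₀, x₁, h01⟩ := exists_pair_ne X
  have hdiag : ∀ a b c : X, a ≠ b →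
      (Quotient.mk (orbitRel G (X × X)) (a, b)) ≠ Quotient.mk (orbitRel G (X × X)) (c, c) := by
    intro a b c hab h
    have h1 := Quotient.exact h
    change (a, b) ∈ orbit G (c, c) at h1
    obtain ⟨g, hg⟩ := h1
    have h2 : g • c = a := congrArg Prod.fst hg
    have h3 : g • c = b := congrArg Prod.snd hg
    exact hab (h2.symm.trans h3)
  constructor
  · intro hcard
    rw [is_two_pretransitive_iff]
    intro a b c d hab hcd
    obtain ⟨q₀, q₁, hne, huniv⟩ := Nat.card_eq_two_iff.1 hcard
    have hmem : ∀ q : Quotient (orbitRel G (X × X)), q = q₀ ∨ q = q₁ := by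
      intro q
      have : q ∈ ({q₀, q₁} : Set _) := by rw [huniv]; exact Set.mem_univ q
      simpa using this
    have hkey : Quotient.mk (orbitRel G (X × X)) (c, d) = Quotient.mk (orbitRel G (X × X)) (a, b) := by
      have h1 := hdiag a b a hab
      have h2 := hdiag c d a hcd
      rcases hmem (Quotient.mk (orbitRel G (X × X)) (a, b)) with e1 | e1 <;>
      rcases hmem (Quotient.mk (orbitRel G (X × X)) (c, d)) with e2 | e2 <;>
      rcases hmem (Quotient.mk (orbitRel G (X × X)) (a, a)) with e3 | e3
      · exact absurd (e1.trans e3.symm) h1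
      · exact e2.trans e1.symm
      · exact absurd (e1.trans e3.symm) h1
      · exact absurd (e2.trans e3.symm) h2
      · exact absurd (e2.trans e3.symm) h2
      · exact absurd (e1.trans e3.symm) h1
      · exact e2.trans e1.symm
      · exact absurd (e1.trans e3.symm) h1
    have h3 := Quotient.exact hkey
    change (c, d) ∈ orbit G (a, b) at h3
    obtain ⟨g, hg⟩ := h3
    exact ⟨g, congrArg Prod.fst hg, congrArg Prod.snd hg⟩
  · intro h2t
    rw [is_two_pretransitive_iff] at h2t
    rw [Nat.card_eq_two_iff]
    refine ⟨Quotient.mk (orbitRel G (X × X)) (x₀, x₁), Quotient.mk (orbitRel G (X × X)) (x₀, x₀),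
      hdiag x₀ x₁ x₀ h01, ?_⟩
    apply Set.eq_univ_of_forall
    intro q
    induction q using Quotient.inductionOn with
    | _ p =>
      obtain ⟨a, b⟩ := p
      by_cases hab : a = b
      · right
        subst hab
        rw [Set.mem_singleton_iff]
        apply Quotient.sound
        change (a, a) ∈ orbit G (x₀, x₀)
        obtain ⟨g, hg⟩ := exists_smul_eq G x₀ a
        exact ⟨g, by simp [hg]⟩
      · left
        apply Quotient.sound
        change (a, b) ∈ orbit G (x₀, x₁)
        obtain ⟨g, hg1, hg2⟩ := h2t h01 hab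
        exact ⟨g, by simp [hg1, hg2]⟩

section Char

variable {G : Type u} [Group G] [Fintype G] {X : Type v} [MulAction G X] [Finite X]
  [IsPretransitive G X]

theorem isCharacter_perm [Nonempty X] :
    IsCharacter G (fun g : G => (Nat.card (fixedBy X g) : ℂ)) := by
  obtain ⟨x⟩ := ‹Nonempty X›
  rw [Cfsg.Agent.S0190.result X x]
  exact isCharacter_indFun _ isCharacter_one

theorem inner_perm_one [Nonempty X] :
    classInner (fun g : G => (Nat.card (fixedBy X g) : ℂ)) (fun _ => 1) = 1 := by
  classical
  obtain ⟨x⟩ := ‹Nonempty X›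
  have := Fintype.ofFinite (stabilizer G x)
  rw [Cfsg.Agent.S0190.result X x, frobenius_reciprocity (stabilizer G x) (fun _ => 1) (fun _ => 1)
    (fun _ _ => rfl)]
  exact irr_inner_self isIrrCharacter_one

theorem inner_one_perm [Nonempty X] :
    classInner (fun _ => 1) (fun g : G => (Nat.card (fixedBy X g) : ℂ)) = 1 := by
  rw [← classInner_conj_symm, inner_perm_one, map_one]

theorem inner_perm_perm :
    classInner (fun g : G => (Nat.card (fixedBy X g) : ℂ))
      (fun g : G => (Nat.card (fixedBy X g) : ℂ)) = Nat.card (Quotient (orbitRel G (X × X))) := by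
  rw [classInner_def]
  have h1 : ∀ g : G, (Nat.card (fixedBy X g) : ℂ) * conj (Nat.card (fixedBy X g) : ℂ)
      = ((Nat.card (fixedBy (X × X) g) : ℕ) : ℂ) := by
    intro g
    rw [Complex.conj_natCast, card_fixedBy_prod_eq, Nat.cast_mul]
  simp only [h1]
  rw [← Nat.cast_sum, burnside_card, Nat.cast_mul, mul_comm, mul_assoc, mul_inv_cancel₀ card_ne_zero,
    mul_one]

theorem inner_sub_one [Nonempty X] :
    classInner (fun g : G => (Nat.card (fixedBy X g) : ℂ) - 1)
      (fun g : G => (Nat.card (fixedBy X g) : ℂ) - 1)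
      = (Nat.card (Quotient (orbitRel G (X × X))) : ℂ) - 1 := by
  have e : (fun g : G => (Nat.card (fixedBy X g) : ℂ) - 1)
      = (fun g : G => (Nat.card (fixedBy X g) : ℂ)) - (fun _ => 1) := rfl
  rw [e, classInner_sub_left, classInner_sub_right, classInner_sub_right, inner_perm_perm,
    inner_perm_one, inner_one_perm, irr_inner_self isIrrCharacter_one]
  ring

theorem isCharacter_perm_sub_one [Nonempty X] :
    IsCharacter G (fun g : G => (Nat.card (fixedBy X g) : ℂ) - 1) := by
  have e : (fun g : G => (Nat.card (fixedBy X g) : ℂ) - 1)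
      = (fun g : G => (Nat.card (fixedBy X g) : ℂ)) - (fun _ => 1) := rfl
  have hπ : IsCharacter G (fun g : G => (Nat.card (fixedBy X g) : ℂ)) := isCharacter_perm
  rw [e]
  apply isCharacter_of_inner_nat
  · exact isClassFunction_sub (isClassFunction_of_isCharacter hπ) (fun _ _ => rfl)
  · intro χ hχ
    rw [classInner_sub_left]
    by_cases h1 : χ = (fun _ => 1)
    · subst h1
      rw [inner_perm_one, irr_inner_self isIrrCharacter_one]
      exact ⟨0, by simp⟩
    · rw [irr_inner_ne isIrrCharacter_one hχ (Ne.symm h1), sub_zero]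
      exact classInner_nat hπ (isCharacter_of_irr hχ)

theorem irr_iff_two_transitive (hX : 2 ≤ Nat.card X) :
    IsIrrCharacter G (fun g : G => (Nat.card (fixedBy X g) : ℂ) - 1) ↔
      IsMultiplyPretransitive G X 2 := by
  have hnt : Nontrivial X := Finite.one_lt_card_iff_nontrivial.1 hX
  rw [← card_orbits_prod_eq_two_iff hX]
  constructor
  · intro h
    have h1 := irr_inner_self h
    rw [inner_sub_one] at h1
    have h2 : (Nat.card (Quotient (orbitRel G (X × X))) : ℂ) = ((2 : ℕ) : ℂ) := by
      push_cast
      linear_combination h1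
    exact_mod_cast h2
  · intro h
    apply isIrrCharacter_of_inner_self_eq_one isCharacter_perm_sub_one
    rw [inner_sub_one, h]
    norm_num

end Char

end Cfsg.Agent.Lib_helper3_TwoTrans
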