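import Mathlib

set_option autoImplicit false

/-! Symplectic bases (with radical) for alternating bilinear forms. -/

namespace Cfsg.Agent.Lib_helper4_AltBasis
open Module

/-- Index reshuffling. -/
def sigma (ι κ : Type) :
    (Unit ⊕ Unit) ⊕ ((ι ⊕ ι) ⊕ κ) ≃ ((Unit ⊕ ι) ⊕ (Unit ⊕ ι)) ⊕ κ where
  toFun
    | Sum.inl (Sum.inl _) => Sum.inl (Sum.inl (Sum.inl ()))
    | Sum.inl (Sum.inr _) => Sum.inl (Sum.inr (Sum.inl ()))
    | Sum.inr (Sum.inl (Sum.inl i)) => Sum.inl (Sum.inl (Sum.inr i))
    | Sum.inr (Sum.inl (Sum.inr i)) => Sum.inl (Sum.inr (Sum.inr i))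
    | Sum.inr (Sum.inr j) => Sum.inr j
  invFun
    | Sum.inl (Sum.inl (Sum.inl _)) => Sum.inl (Sum.inl ())
    | Sum.inl (Sum.inr (Sum.inl _)) => Sum.inl (Sum.inr ())
    | Sum.inl (Sum.inl (Sum.inr i)) => Sum.inr (Sum.inl (Sum.inl i))
    | Sum.inl (Sum.inr (Sum.inr i)) => Sum.inr (Sum.inl (Sum.inr i))
    | Sum.inr j => Sum.inr (Sum.inr j)
  left_inv := by rintro ((_ | _) | ((_ | _) | _)) <;> rfl
  right_inv := by rintro (((_ | _) | (_ | _)) | _) <;> rfl

theorem exists_basis_type {F : Type*} [Field F] :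
    ∀ (n : ℕ) {V : Type*} [AddCommGroup V] [Module F V] [FiniteDimensional F V]
      (B : LinearMap.BilinForm F V) (_ : B.IsAlt), finrank F V = n →
      ∃ (ι κ : Type) (_ : Fintype ι) (_ : Fintype κ) (_ : DecidableEq ι)
        (b : Module.Basis ((ι ⊕ ι) ⊕ κ) F V),
        (∀ i j : ι, B (b (Sum.inl (Sum.inl i))) (b (Sum.inl (Sum.inr j))) = if i = j then 1 else 0) ∧
        (∀ i j : ι, B (b (Sum.inl (Sum.inl i))) (b (Sum.inl (Sum.inl j))) = 0) ∧
        (∀ i j : ι, B (b (Sum.inl (Sum.inr i))) (b (Sum.inl (Sum.inr j))) = 0) ∧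
        (∀ (j : κ) (v : V), B (b (Sum.inr j)) v = 0) := by
  intro n
  induction n using Nat.strong_induction_on with
  | _ n ih =>
    intro V _ _ _ B hA hn
    classical
    by_cases hB0 : ∀ x y : V, B x y = 0
    · -- zero form
      let b₀ := Module.finBasis F V
      let e : Fin (finrank F V) ≃ (Empty ⊕ Empty) ⊕ Fin (finrank F V) :=
        (Equiv.emptySum (Empty ⊕ Empty) (Fin (finrank F V))).symm
      refine ⟨Empty, Fin (finrank F V), inferInstance, inferInstance, inferInstance,
        b₀.reindex e, ?_, ?_, ?_, ?_⟩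
      · intro i; exact i.elim
      · intro i; exact i.elim
      · intro i; exact i.elim
      · intro j v; exact hB0 _ _
    · push Not at hB0
      obtain ⟨u, v₀, huv⟩ := hB0
      set v := (B u v₀)⁻¹ • v₀ with hvdef
      have huv1 : B u v = 1 := by
        rw [hvdef, map_smul, smul_eq_mul, inv_mul_cancel₀ huv]
      have hvu : B v u = -1 := by rw [← hA.neg_eq, huv1]
      let g : Unit ⊕ Unit → V := Sum.elim (fun _ => u) (fun _ => v)
      have hli : LinearIndependent F g := by
        rw [Fintype.linearIndependent_iff]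
        intro c hc
        simp only [Fintype.sum_sum_type, Finset.univ_unique, Finset.sum_singleton, g,
          Sum.elim_inl, Sum.elim_inr] at hc
        have h1 := congrArg (fun x => B x v) hc
        have h2 := congrArg (fun x => B u x) hc
        simp only [map_add, map_smul, LinearMap.add_apply, LinearMap.smul_apply, smul_eq_mul,
          huv1, hA.self_eq_zero, map_zero, LinearMap.zero_apply, mul_one, mul_zero, add_zero,
          zero_add] at h1 h2
        rintro (i | i)
        · exact h1
        · exact h2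
      let H : Submodule F V := Submodule.span F (Set.range g)
      let bH : Module.Basis (Unit ⊕ Unit) F H := Module.Basis.span hli
      let W : Submodule F V := LinearMap.ker (B u) ⊓ LinearMap.ker (B v)
      have hWmem : ∀ x, x ∈ W ↔ B u x = 0 ∧ B v x = 0 := fun x => by
        simp [W, LinearMap.mem_ker]
      have huH : u ∈ H := Submodule.subset_span ⟨Sum.inl (), rfl⟩
      have hvH : v ∈ H := Submodule.subset_span ⟨Sum.inr (), rfl⟩
      have hHmem : ∀ x ∈ H, ∃ a c : F, x = a • u + c • v := by
        intro x hx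
        refine Submodule.span_induction ?_ ?_ ?_ ?_ hx
        · rintro _ ⟨(i | i), rfl⟩
          · exact ⟨1, 0, by simp [g]⟩
          · exact ⟨0, 1, by simp [g]⟩
        · exact ⟨0, 0, by simp⟩
        · rintro x y _ _ ⟨a, c, rfl⟩ ⟨a', c', rfl⟩
          exact ⟨a + a', c + c', by rw [add_smul, add_smul]; abel⟩
        · rintro t x _ ⟨a, c, rfl⟩
          exact ⟨t * a, t * c, by rw [smul_add, smul_smul, smul_smul]⟩
      have hcompl : IsCompl H W := by
        constructor
        · rw [Submodule.disjoint_def]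
          intro x hxH hxW
          obtain ⟨a, c, rfl⟩ := hHmem x hxH
          obtain ⟨h1, h2⟩ := (hWmem _).1 hxW
          simp only [map_add, map_smul, smul_eq_mul, huv1, hvu, hA.self_eq_zero, mul_zero,
            mul_one, zero_add, add_zero, mul_neg, neg_eq_zero] at h1 h2
          rw [h1, h2]; simp
        · rw [codisjoint_iff, eq_top_iff]
          intro x _
          have hx : x = (-(B v x) • u + (B u x) • v) + (x - (-(B v x) • u + (B u x) • v)) := by
            abel
          rw [hx]
          refine Submodule.add_mem_sup (H.add_mem (H.smul_mem _ huH) (H.smul_mem _ hvH)) ?_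
          rw [hWmem]
          constructor
          · simp only [map_sub, map_add, map_smul, smul_eq_mul, huv1, hA.self_eq_zero]; ring
          · simp only [map_sub, map_add, map_smul, smul_eq_mul, hvu, hA.self_eq_zero]; ring
      have hfin := Submodule.finrank_add_eq_of_isCompl hcompl
      have hHpos : 0 < finrank F H := by
        rw [finrank_eq_card_basis bH]; simp
      obtain ⟨ι, κ, _, _, _, b', h1, h2, h3, h4⟩ :=
        ih (finrank F W) (by omega) (B.restrict W) (fun x => hA x) rfl
      let b₀ : Module.Basis ((Unit ⊕ Unit) ⊕ ((ι ⊕ ι) ⊕ κ)) F V :=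
        (bH.prod b').map (Submodule.prodEquivOfIsCompl H W hcompl)
      have hb₀l : ∀ a, b₀ (Sum.inl a) = g a := by
        intro a
        simp only [b₀, bH, Module.Basis.map_apply, Submodule.coe_prodEquivOfIsCompl',
          Module.Basis.prod_apply_inl_fst, Module.Basis.prod_apply_inl_snd, Submodule.coe_zero,
          add_zero]
        exact congrArg Subtype.val (Module.Basis.span_apply hli a)
      have hb₀r : ∀ c, b₀ (Sum.inr c) = (b' c : V) := by
        intro c
        simp [b₀, Submodule.coe_prodEquivOfIsCompl']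
      have hWu : ∀ w : W, B u w = 0 := fun w => ((hWmem _).1 w.2).1
      have hWv : ∀ w : W, B v w = 0 := fun w => ((hWmem _).1 w.2).2
      have hWu' : ∀ w : W, B w u = 0 := fun w => by rw [← hA.neg_eq, hWu, neg_zero]
      have hWv' : ∀ w : W, B w v = 0 := fun w => by rw [← hA.neg_eq, hWv, neg_zero]
      refine ⟨Unit ⊕ ι, κ, inferInstance, inferInstance, inferInstance,
        b₀.reindex (sigma ι κ), ?_, ?_, ?_, ?_⟩
      · rintro (_ | i) (_ | j)
        · simp [Module.Basis.reindex_apply, sigma, hb₀l, g, huv1]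
        · simp [Module.Basis.reindex_apply, sigma, hb₀l, hb₀r, g, hWu]
        · simp [Module.Basis.reindex_apply, sigma, hb₀l, hb₀r, g, hWv']
        · have e : B (b' (Sum.inl (Sum.inl i)) : V) (b' (Sum.inl (Sum.inr j)) : V)
              = if i = j then 1 else 0 := h1 i j
          simp [Module.Basis.reindex_apply, sigma, hb₀r, e]
      · rintro (_ | i) (_ | j)
        · simp [Module.Basis.reindex_apply, sigma, hb₀l, g, hA.self_eq_zero]
        · simp [Module.Basis.reindex_apply, sigma, hb₀l, hb₀r, g, hWu]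
        · simp [Module.Basis.reindex_apply, sigma, hb₀l, hb₀r, g, hWu']
        · have e : B (b' (Sum.inl (Sum.inl i)) : V) (b' (Sum.inl (Sum.inl j)) : V) = 0 := h2 i j
          simp [Module.Basis.reindex_apply, sigma, hb₀r, e]
      · rintro (_ | i) (_ | j)
        · simp [Module.Basis.reindex_apply, sigma, hb₀l, g, hA.self_eq_zero]
        · simp [Module.Basis.reindex_apply, sigma, hb₀l, hb₀r, g, hWv]
        · simp [Module.Basis.reindex_apply, sigma, hb₀l, hb₀r, g, hWv']
        · have e : B (b' (Sum.inl (Sum.inr i)) : V) (b' (Sum.inl (Sum.inr j)) : V) = 0 := h3 i j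
          simp [Module.Basis.reindex_apply, sigma, hb₀r, e]
      · intro j x
        have hbj : (b₀.reindex (sigma ι κ)) (Sum.inr j) = (b' (Sum.inr j) : V) := by
          simp [Module.Basis.reindex_apply, sigma, hb₀r]
        rw [hbj]
        obtain ⟨h, hh, w, hw, rfl⟩ := Submodule.mem_sup.1
          (show x ∈ H ⊔ W by rw [hcompl.sup_eq_top]; trivial)
        obtain ⟨a, c, rfl⟩ := hHmem h hh
        have e : B (b' (Sum.inr j) : V) w = 0 := h4 j ⟨w, hw⟩
        simp only [map_add, map_smul, smul_eq_mul, hWu', hWv', mul_zero, add_zero, zero_add]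
        exact e

theorem exists_basis {F V : Type*} [Field F] [AddCommGroup V] [Module F V] [FiniteDimensional F V]
    (B : LinearMap.BilinForm F V) (hA : B.IsAlt) :
    ∃ (m k : ℕ) (b : Module.Basis ((Fin m ⊕ Fin m) ⊕ Fin k) F V),
      (∀ i j : Fin m, B (b (Sum.inl (Sum.inl i))) (b (Sum.inl (Sum.inr j))) = if i = j then 1 else 0) ∧
      (∀ i j : Fin m, B (b (Sum.inl (Sum.inl i))) (b (Sum.inl (Sum.inl j))) = 0) ∧
      (∀ i j : Fin m, B (b (Sum.inl (Sum.inr i))) (b (Sum.inl (Sum.inr j))) = 0) ∧
      (∀ (j : Fin k) (v : V), B (b (Sum.inr j)) v = 0) := by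
  obtain ⟨ι, κ, _, _, _, b, h1, h2, h3, h4⟩ := exists_basis_type (finrank F V) B hA rfl
  let e := Fintype.equivFin ι
  let e' := Fintype.equivFin κ
  refine ⟨Fintype.card ι, Fintype.card κ,
    b.reindex (Equiv.sumCongr (Equiv.sumCongr e e) e'), ?_, ?_, ?_, ?_⟩
  · intro i j
    simp only [Module.Basis.reindex_apply, Equiv.sumCongr_symm, Equiv.sumCongr_apply,
      Sum.map_inl, Sum.map_inr, h1]
    by_cases hij : i = j
    · simp [hij]
    · simp [hij]
  · intro i j
    simp only [Module.Basis.reindex_apply, Equiv.sumCongr_symm, Equiv.sumCongr_apply,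
      Sum.map_inl, h2]
  · intro i j
    simp only [Module.Basis.reindex_apply, Equiv.sumCongr_symm, Equiv.sumCongr_apply,
      Sum.map_inl, Sum.map_inr, h3]
  · intro j v
    simp only [Module.Basis.reindex_apply, Equiv.sumCongr_symm, Equiv.sumCongr_apply,
      Sum.map_inr, h4]

end Cfsg.Agent.Lib_helper4_AltBasis
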