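import Mathlib
import Cfsg.Agent.Lib_helper4_Card

set_option autoImplicit false

namespace Cfsg.Agent.Lib_helper4_PSL2

open scoped LinearAlgebra.Projectivization

/-- A subgroup of `Perm (Fin n)` of index 2 contains the alternating group. -/
theorem alternatingGroup_le_of_index_two {n : ℕ} (H : Subgroup (Equiv.Perm (Fin n)))
    (hi2 : H.index = 2) : alternatingGroup (Fin n) ≤ H := by
  rw [← Equiv.Perm.closure_three_cycles_eq_alternating, Subgroup.closure_le]
  intro g hg
  have h3 : g ^ 3 = 1 := hg.orderOf ▸ pow_orderOf_eq_one g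
  have h4 : g = (g ^ 2) ^ 2 := by
    rw [← pow_mul]
    calc g = g ^ 3 * g := by rw [h3, one_mul]
      _ = g ^ (2 * 2) := by group
  rw [SetLike.mem_coe, h4]
  exact Subgroup.sq_mem_of_index_two hi2 _

/-- A subgroup of `Perm (Fin n)` of order `n!/2` is the alternating group. -/
theorem eq_alternatingGroup_of_card {n : ℕ} (hn : 2 ≤ n) (H : Subgroup (Equiv.Perm (Fin n)))
    (h : 2 * Nat.card H = n.factorial) : H = alternatingGroup (Fin n) := by
  have hnontriv : Nontrivial (Fin n) := Fin.nontrivial_iff_two_le.mpr hn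
  have e1 := Subgroup.card_mul_index H
  rw [Nat.card_perm, Nat.card_fin, ← h] at e1
  have hpos : 0 < Nat.card H := Nat.card_pos
  have hi2 : H.index = 2 := by
    have : Nat.card H * H.index = Nat.card H * 2 := by rw [e1]; ring
    exact Nat.eq_of_mul_eq_mul_left hpos this
  have key := alternatingGroup_le_of_index_two H hi2
  symm
  apply Subgroup.eq_of_le_of_card_ge key
  have e2 := Subgroup.card_mul_index (alternatingGroup (Fin n))
  rw [alternatingGroup.index_eq_two, Nat.card_perm, Nat.card_fin, ← h] at e2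
  omega

theorem nonempty_mulEquiv_alternatingGroup {G : Type*} [Group G] {n : ℕ} (hn : 2 ≤ n)
    (f : G →* Equiv.Perm (Fin n)) (hf : Function.Injective f)
    (hcard : 2 * Nat.card G = n.factorial) : Nonempty (G ≃* alternatingGroup (Fin n)) := by
  have h1 : Nat.card f.range = Nat.card G := (Nat.card_congr (Equiv.ofInjective f hf)).symm
  have h2 : f.range = alternatingGroup (Fin n) :=
    eq_alternatingGroup_of_card hn _ (by rw [h1]; exact hcard)
  exact ⟨(MonoidHom.ofInjective hf).trans (MulEquiv.subgroupCongr h2)⟩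

variable {F : Type*} [Field F] [Fintype F]

lemma card_proj_line {q : ℕ} (hF : Fintype.card F = q) : Nat.card (ℙ F (Fin 2 → F)) = q + 1 := by
  rw [Projectivization.card_of_finrank_two F (Fin 2 → F) (by simp), Nat.card_eq_fintype_card, hF]

/-- `PSL(2, F)` embeds in `Perm (Fin (q + 1))`. -/
theorem exists_injective_hom_perm {q : ℕ} (hF : Fintype.card F = q) :
    ∃ f : Matrix.ProjectiveSpecialLinearGroup (Fin 2) F →* Equiv.Perm (Fin (q + 1)),
      Function.Injective f := by
  have hcard := card_proj_line hF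
  have : Finite (ℙ F (Fin 2 → F)) := Nat.finite_of_card_ne_zero (by omega)
  let e : ℙ F (Fin 2 → F) ≃ Fin (q + 1) := Finite.equivFinOfCardEq hcard
  exact ⟨(e.permCongrHom).toMonoidHom.comp Projectivization.PSLAction.toPermHom,
    (e.permCongrHom).injective.comp Matrix.ProjectiveSpecialLinearGroup.toPermHom_injective⟩

/-- `gcd(2, q-1) (q-1) |PSL_2(q)| = (q^2-1)(q^2-q)`. -/
theorem card_PSL2 {q : ℕ} (hF : Fintype.card F = q) :
    Nat.gcd 2 (q - 1) * ((q - 1) * Nat.card (Matrix.ProjectiveSpecialLinearGroup (Fin 2) F)) =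
      (q ^ 2 - 1) * (q ^ 2 - q) := by
  have := Cfsg.Agent.Lib_helper4_Card.card_PSL hF 2 (by norm_num)
  rw [this, Fin.prod_univ_two]
  simp

theorem card_SL2 {q : ℕ} (hF : Fintype.card F = q) :
    (q - 1) * Nat.card (Matrix.SpecialLinearGroup (Fin 2) F) = (q ^ 2 - 1) * (q ^ 2 - q) := by
  have := Cfsg.Agent.Lib_helper4_Card.card_SL hF 2 (by norm_num)
  rw [this, Fin.prod_univ_two]
  simp

end Cfsg.Agent.Lib_helper4_PSL2
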