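import Mathlib

set_option autoImplicit false

namespace Cfsg.Agent.Lib_helper4_Perm

/-- A nontrivial normal subgroup of a quasiprimitive faithful group is transitive. -/
lemma isPretransitive_of_normal_ne_bot {G α : Type*} [Group G] [MulAction G α] [FaithfulSMul G α]
    [MulAction.IsQuasiPreprimitive G α] (K : Subgroup G) [K.Normal] (hK : K ≠ ⊥) :
    MulAction.IsPretransitive K α := by
  apply MulAction.IsQuasiPreprimitive.isPretransitive_of_normal
  intro h
  apply hK
  rw [Subgroup.eq_bot_iff_forall]
  intro k hk
  apply FaithfulSMul.eq_of_smul_eq_smul (α := α)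
  intro a
  rw [one_smul]
  have : a ∈ MulAction.fixedPoints K α := h ▸ Set.mem_univ a
  exact this ⟨k, hk⟩

/-- The degree of a transitive action divides the group order. -/
lemma card_dvd_of_isPretransitive {G α : Type*} [Group G] [MulAction G α]
    [MulAction.IsPretransitive G α] [Nonempty α] : Nat.card α ∣ Nat.card G := by
  obtain ⟨a⟩ := ‹Nonempty α›
  rw [← MulAction.index_stabilizer_of_transitive G a]
  exact Subgroup.index_dvd_card _

/-- `p ^ 2` does not divide the order of a subgroup of the symmetric group of prime degree `p`. -/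
lemma not_sq_dvd_card_of_prime_degree {α : Type*} [Fintype α] [DecidableEq α] {p : ℕ}
    (hp : p.Prime) (hα : Fintype.card α = p) (G : Subgroup (Equiv.Perm α)) :
    ¬ p ^ 2 ∣ Nat.card G := by
  intro h
  have h1 : Nat.card G ∣ p.factorial := by
    have := Subgroup.card_subgroup_dvd_card G
    rwa [Nat.card_perm, Nat.card_eq_fintype_card (α := α), hα] at this
  have h2 : p ^ 2 ∣ p.factorial := h.trans h1
  have h3 : p.factorial = p * (p - 1).factorial := by
    obtain ⟨k, rfl⟩ : ∃ k, p = k + 1 := ⟨p - 1, by have := hp.pos; omega⟩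
    rw [Nat.factorial_succ]; simp
  rw [h3, pow_two] at h2
  have h4 : p ∣ (p - 1).factorial := Nat.dvd_of_mul_dvd_mul_left hp.pos h2
  have h5 := (hp.dvd_factorial).mp h4
  have := hp.pos
  omega

end Cfsg.Agent.Lib_helper4_Perm
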