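import Mathlib
import Cfsg.Prelude.Def_ClassicalGeometry

/-! The symplectic group `Matrix.symplecticGroup (Fin m) F`: the alternating form, symplectic
transvections, transitivity on non-zero vectors and hyperbolic pairs, generation by transvections. -/

namespace Cfsg.Agent.Lib_helper4_Sp
open Matrix

variable {F : Type*} [Field F] {m : ℕ}

lemma J_mulVec_inl (v : Fin m ⊕ Fin m → F) (i : Fin m) :
    (J (Fin m) F *ᵥ v) (Sum.inl i) = - v (Sum.inr i) := by
  simp [J, mulVec, dotProduct, Fintype.sum_sum_type, Matrix.one_apply]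

lemma J_mulVec_inr (v : Fin m ⊕ Fin m → F) (i : Fin m) :
    (J (Fin m) F *ᵥ v) (Sum.inr i) = v (Sum.inl i) := by
  simp [J, mulVec, dotProduct, Fintype.sum_sum_type, Matrix.one_apply]

lemma form_eq_sum (u v : Fin m ⊕ Fin m → F) :
    Cfsg.sympForm m F u v =
      ∑ i, (u (Sum.inr i) * v (Sum.inl i) - u (Sum.inl i) * v (Sum.inr i)) := by
  unfold Cfsg.sympForm
  rw [dotProduct, Fintype.sum_sum_type]
  simp only [J_mulVec_inl, J_mulVec_inr, Finset.sum_sub_distrib, mul_neg, Finset.sum_neg_distrib]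
  ring

lemma form_add_left (u u' v : Fin m ⊕ Fin m → F) :
    Cfsg.sympForm m F (u + u') v = Cfsg.sympForm m F u v + Cfsg.sympForm m F u' v := by
  unfold Cfsg.sympForm; rw [add_dotProduct]

lemma form_smul_left (c : F) (u v : Fin m ⊕ Fin m → F) :
    Cfsg.sympForm m F (c • u) v = c * Cfsg.sympForm m F u v := by
  unfold Cfsg.sympForm; rw [smul_dotProduct, smul_eq_mul]

lemma form_add_right (u v v' : Fin m ⊕ Fin m → F) :
    Cfsg.sympForm m F u (v + v') = Cfsg.sympForm m F u v + Cfsg.sympForm m F u v' := by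
  unfold Cfsg.sympForm; rw [mulVec_add, dotProduct_add]

lemma form_smul_right (c : F) (u v : Fin m ⊕ Fin m → F) :
    Cfsg.sympForm m F u (c • v) = c * Cfsg.sympForm m F u v := by
  unfold Cfsg.sympForm; rw [mulVec_smul, dotProduct_smul, smul_eq_mul]

lemma form_sub_left (u u' v : Fin m ⊕ Fin m → F) :
    Cfsg.sympForm m F (u - u') v = Cfsg.sympForm m F u v - Cfsg.sympForm m F u' v := by
  unfold Cfsg.sympForm; rw [sub_dotProduct]

lemma form_sub_right (u v v' : Fin m ⊕ Fin m → F) :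
    Cfsg.sympForm m F u (v - v') = Cfsg.sympForm m F u v - Cfsg.sympForm m F u v' := by
  unfold Cfsg.sympForm; rw [mulVec_sub, dotProduct_sub]

lemma form_zero_left (v : Fin m ⊕ Fin m → F) : Cfsg.sympForm m F 0 v = 0 := by
  unfold Cfsg.sympForm; rw [zero_dotProduct]

lemma form_zero_right (u : Fin m ⊕ Fin m → F) : Cfsg.sympForm m F u 0 = 0 := by
  unfold Cfsg.sympForm; rw [mulVec_zero, dotProduct_zero]

lemma form_self (v : Fin m ⊕ Fin m → F) : Cfsg.sympForm m F v v = 0 := by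
  rw [form_eq_sum]
  apply Finset.sum_eq_zero
  intro i _
  ring

lemma form_swap (u v : Fin m ⊕ Fin m → F) : Cfsg.sympForm m F u v = - Cfsg.sympForm m F v u := by
  rw [form_eq_sum, form_eq_sum, ← Finset.sum_neg_distrib]
  apply Finset.sum_congr rfl
  intro i _
  ring

/-- The standard basis vectors. -/
def eb (i : Fin m) : Fin m ⊕ Fin m → F := Pi.single (Sum.inl i) 1
def fb (i : Fin m) : Fin m ⊕ Fin m → F := Pi.single (Sum.inr i) 1

lemma form_eb (u : Fin m ⊕ Fin m → F) (i : Fin m) :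
    Cfsg.sympForm m F u (eb i) = u (Sum.inr i) := by
  rw [form_eq_sum]
  simp [eb, Pi.single_apply]

lemma form_fb (u : Fin m ⊕ Fin m → F) (i : Fin m) :
    Cfsg.sympForm m F u (fb i) = - u (Sum.inl i) := by
  rw [form_eq_sum]
  simp [fb, Pi.single_apply]

/-- Vectors supported on the first `k` hyperbolic pairs. -/
def Supp (k : ℕ) (x : Fin m ⊕ Fin m → F) : Prop :=
  ∀ i : Fin m, k ≤ i.val → x (Sum.inl i) = 0 ∧ x (Sum.inr i) = 0

lemma supp_top (x : Fin m ⊕ Fin m → F) : Supp m x := fun i hi => absurd i.2 (not_lt.mpr hi)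

lemma Supp.add {k : ℕ} {x y : Fin m ⊕ Fin m → F} (hx : Supp k x) (hy : Supp k y) :
    Supp k (x + y) := fun i hi => by
  simp [(hx i hi).1, (hx i hi).2, (hy i hi).1, (hy i hi).2]

lemma Supp.sub {k : ℕ} {x y : Fin m ⊕ Fin m → F} (hx : Supp k x) (hy : Supp k y) :
    Supp k (x - y) := fun i hi => by
  simp [(hx i hi).1, (hx i hi).2, (hy i hi).1, (hy i hi).2]

lemma Supp.smul {k : ℕ} {x : Fin m ⊕ Fin m → F} (hx : Supp k x) (c : F) :
    Supp k (c • x) := fun i hi => by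
  simp [(hx i hi).1, (hx i hi).2]

lemma supp_eb {k : ℕ} (i : Fin m) (h : i.val < k) : Supp k (eb i : Fin m ⊕ Fin m → F) := by
  intro j hj
  have : j ≠ i := fun hji => by rw [hji] at hj; omega
  simp [eb, this]

lemma supp_fb {k : ℕ} (i : Fin m) (h : i.val < k) : Supp k (fb i : Fin m ⊕ Fin m → F) := by
  intro j hj
  have : j ≠ i := fun hji => by rw [hji] at hj; omega
  simp [fb, this]

lemma exists_form_ne_zero_supp {k : ℕ} (u : Fin m ⊕ Fin m → F) (hs : Supp k u) (hu : u ≠ 0) :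
    ∃ z, Supp k z ∧ Cfsg.sympForm m F u z ≠ 0 := by
  obtain ⟨j, hj⟩ : ∃ j, u j ≠ 0 := by
    by_contra h
    apply hu
    funext j
    by_contra hj
    exact h ⟨j, hj⟩
  rcases j with i | i
  · have hik : i.val < k := by
      by_contra h
      exact hj (hs i (not_lt.mp h)).1
    exact ⟨fb i, supp_fb i hik, by rw [form_fb]; exact neg_ne_zero.mpr hj⟩
  · have hik : i.val < k := by
      by_contra h
      exact hj (hs i (not_lt.mp h)).2
    exact ⟨eb i, supp_eb i hik, by rw [form_eb]; exact hj⟩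

lemma exists_form_ne_zero (u : Fin m ⊕ Fin m → F) (hu : u ≠ 0) :
    ∃ z, Cfsg.sympForm m F u z ≠ 0 := by
  obtain ⟨z, -, hz⟩ := exists_form_ne_zero_supp u (supp_top u) hu
  exact ⟨z, hz⟩

/-- Two hyperplanes do not cover the space. -/
lemma exists_form_ne_zero_both {k : ℕ} (u w : Fin m ⊕ Fin m → F) (hsu : Supp k u) (hsw : Supp k w)
    (hu : u ≠ 0) (hw : w ≠ 0) :
    ∃ z, Supp k z ∧ Cfsg.sympForm m F u z ≠ 0 ∧ Cfsg.sympForm m F w z ≠ 0 := by
  obtain ⟨z1, hz1s, hz1⟩ := exists_form_ne_zero_supp u hsu hu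
  obtain ⟨z2, hz2s, hz2⟩ := exists_form_ne_zero_supp w hsw hw
  by_cases h1 : Cfsg.sympForm m F w z1 = 0
  · by_cases h2 : Cfsg.sympForm m F u z2 = 0
    · refine ⟨z1 + z2, hz1s.add hz2s, ?_, ?_⟩
      · rw [form_add_right, h2, add_zero]; exact hz1
      · rw [form_add_right, h1, zero_add]; exact hz2
    · exact ⟨z2, hz2s, h2, hz2⟩
  · exact ⟨z1, hz1s, hz1, h1⟩

lemma form_mulVec_eq (A : Matrix (Fin m ⊕ Fin m) (Fin m ⊕ Fin m) F) (u v : Fin m ⊕ Fin m → F) :
    Cfsg.sympForm m F (A *ᵥ u) (A *ᵥ v) = u ⬝ᵥ ((Aᵀ * J (Fin m) F * A) *ᵥ v) := by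
  unfold Cfsg.sympForm
  calc (A *ᵥ u) ⬝ᵥ (J (Fin m) F *ᵥ (A *ᵥ v))
      = (J (Fin m) F *ᵥ (A *ᵥ v)) ⬝ᵥ (A *ᵥ u) := dotProduct_comm _ _
    _ = ((J (Fin m) F *ᵥ (A *ᵥ v)) ᵥ* A) ⬝ᵥ u := dotProduct_mulVec _ _ _
    _ = (Aᵀ *ᵥ (J (Fin m) F *ᵥ (A *ᵥ v))) ⬝ᵥ u := by rw [mulVec_transpose]
    _ = ((Aᵀ * J (Fin m) F * A) *ᵥ v) ⬝ᵥ u := by
        rw [mulVec_mulVec, mulVec_mulVec, Matrix.mul_assoc]
    _ = u ⬝ᵥ ((Aᵀ * J (Fin m) F * A) *ᵥ v) := dotProduct_comm _ _

lemma form_mulVec_of_mem {A : Matrix (Fin m ⊕ Fin m) (Fin m ⊕ Fin m) F}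
    (hA : A ∈ symplecticGroup (Fin m) F) (u v : Fin m ⊕ Fin m → F) :
    Cfsg.sympForm m F (A *ᵥ u) (A *ᵥ v) = Cfsg.sympForm m F u v := by
  rw [form_mulVec_eq, SymplecticGroup.mem_iff'.mp hA]
  rfl

lemma mem_of_form_mulVec {A : Matrix (Fin m ⊕ Fin m) (Fin m ⊕ Fin m) F}
    (h : ∀ u v, Cfsg.sympForm m F (A *ᵥ u) (A *ᵥ v) = Cfsg.sympForm m F u v) :
    A ∈ symplecticGroup (Fin m) F := by
  rw [SymplecticGroup.mem_iff']
  apply Matrix.toLin'.injective
  apply LinearMap.ext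
  intro v
  rw [toLin'_apply, toLin'_apply]
  funext i
  have h1 := h (Pi.single i 1) v
  rw [form_mulVec_eq] at h1
  unfold Cfsg.sympForm at h1
  rw [single_one_dotProduct, single_one_dotProduct] at h1
  exact h1

lemma matrix_ext_mulVec {A B : Matrix (Fin m ⊕ Fin m) (Fin m ⊕ Fin m) F}
    (h : ∀ x, A *ᵥ x = B *ᵥ x) : A = B := by
  apply Matrix.toLin'.injective
  apply LinearMap.ext
  intro v
  rw [toLin'_apply, toLin'_apply]
  exact h v

lemma tv_mulVec (v : Fin m ⊕ Fin m → F) (c : F) (x : Fin m ⊕ Fin m → F) :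
    Cfsg.sympTransvection m v c *ᵥ x = x + (c * Cfsg.sympForm m F x v) • v := by
  unfold Cfsg.sympTransvection Cfsg.sympForm
  rw [add_mulVec, one_mulVec, smul_mulVec, vecMulVec_mulVec, dotProduct_comm x]
  simp [smul_smul]

lemma tv_mem (v : Fin m ⊕ Fin m → F) (c : F) :
    Cfsg.sympTransvection m v c ∈ symplecticGroup (Fin m) F := by
  apply mem_of_form_mulVec
  intro x y
  simp only [tv_mulVec, form_add_left, form_add_right, form_smul_left, form_smul_right, form_self]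
  rw [form_swap v y]
  ring

lemma tv_mul (v : Fin m ⊕ Fin m → F) (c d : F) :
    Cfsg.sympTransvection m v c * Cfsg.sympTransvection m v d = Cfsg.sympTransvection m v (c + d) := by
  apply matrix_ext_mulVec
  intro x
  rw [← mulVec_mulVec]
  simp only [tv_mulVec, form_add_left, form_smul_left, form_self]
  rw [add_assoc, ← add_smul]
  congr 2
  ring

lemma tv_zero (v : Fin m ⊕ Fin m → F) : Cfsg.sympTransvection m v 0 = 1 := by
  unfold Cfsg.sympTransvection
  rw [zero_smul, add_zero]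

/-- The symplectic transvection as an element of the symplectic group. -/
def tv (v : Fin m ⊕ Fin m → F) (c : F) : symplecticGroup (Fin m) F :=
  ⟨Cfsg.sympTransvection m v c, tv_mem v c⟩

lemma tv_inv (v : Fin m ⊕ Fin m → F) (c : F) : (tv v c)⁻¹ = tv v (-c) := by
  apply inv_eq_of_mul_eq_one_right
  apply Subtype.ext
  show Cfsg.sympTransvection m v c * Cfsg.sympTransvection m v (-c) = 1
  rw [tv_mul, add_neg_cancel, tv_zero]

/-- The set of symplectic transvections. -/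
def TS (m : ℕ) (F : Type*) [Field F] : Set (symplecticGroup (Fin m) F) :=
  {A | ∃ (w : Fin m ⊕ Fin m → F) (c : F),
    (A : Matrix (Fin m ⊕ Fin m) (Fin m ⊕ Fin m) F) = Cfsg.sympTransvection m w c}

/-- The symplectic transvections along vectors supported on the first `k` hyperbolic pairs. -/
def TSk (k : ℕ) : Set (symplecticGroup (Fin m) F) :=
  {A | ∃ (w : Fin m ⊕ Fin m → F) (c : F), Supp k w ∧
    (A : Matrix (Fin m ⊕ Fin m) (Fin m ⊕ Fin m) F) = Cfsg.sympTransvection m w c}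

lemma TSk_subset (k : ℕ) : (TSk k : Set (symplecticGroup (Fin m) F)) ⊆ TS m F := by
  rintro A ⟨w, c, -, h⟩
  exact ⟨w, c, h⟩

lemma tv_mem_TSk {k : ℕ} {w : Fin m ⊕ Fin m → F} (hw : Supp k w) (c : F) : tv w c ∈ TSk k :=
  ⟨w, c, hw, rfl⟩

lemma inv_mem_TSk {k : ℕ} {A : symplecticGroup (Fin m) F} (hA : A ∈ TSk k) : A⁻¹ ∈ TSk k := by
  obtain ⟨w, c, hw, h⟩ := hA
  have : A = tv w c := Subtype.ext h
  rw [this, tv_inv]
  exact tv_mem_TSk hw _

/-- Elements preserving the support condition and fixing the remaining basis vectors. -/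
def Good (k : ℕ) (A : symplecticGroup (Fin m) F) : Prop :=
  (∀ x, Supp k x → Supp k ((A : Matrix (Fin m ⊕ Fin m) (Fin m ⊕ Fin m) F) *ᵥ x)) ∧
  (∀ i : Fin m, k ≤ i.val →
    (A : Matrix (Fin m ⊕ Fin m) (Fin m ⊕ Fin m) F) *ᵥ eb i = eb i ∧
    (A : Matrix (Fin m ⊕ Fin m) (Fin m ⊕ Fin m) F) *ᵥ fb i = fb i)

lemma good_of_mem_TSk {k : ℕ} {A : symplecticGroup (Fin m) F} (hA : A ∈ TSk k) : Good k A := by
  obtain ⟨w, c, hw, h⟩ := hA
  rw [Good, h]
  refine ⟨fun x hx => ?_, fun i hi => ⟨?_, ?_⟩⟩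
  · rw [tv_mulVec]
    exact hx.add (hw.smul _)
  · rw [tv_mulVec, form_swap, form_eb, (hw i hi).2]
    simp
  · rw [tv_mulVec, form_swap, form_fb, (hw i hi).1]
    simp

lemma good_of_mem_closure {k : ℕ} {A : symplecticGroup (Fin m) F}
    (hA : A ∈ Subgroup.closure (TSk k : Set (symplecticGroup (Fin m) F))) : Good k A := by
  induction hA using Subgroup.closure_induction'' with
  | mem x hx => exact good_of_mem_TSk hx
  | inv_mem x hx => exact good_of_mem_TSk (inv_mem_TSk hx)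
  | one =>
    refine ⟨fun x hx => ?_, fun i _ => ⟨?_, ?_⟩⟩
    · simpa using hx
    · simp
    · simp
  | mul x y _ _ hx hy =>
    refine ⟨fun z hz => ?_, fun i hi => ⟨?_, ?_⟩⟩
    · rw [Submonoid.coe_mul, ← mulVec_mulVec]
      exact hx.1 _ (hy.1 _ hz)
    · rw [Submonoid.coe_mul, ← mulVec_mulVec, (hy.2 i hi).1, (hx.2 i hi).1]
    · rw [Submonoid.coe_mul, ← mulVec_mulVec, (hy.2 i hi).2, (hx.2 i hi).2]

/-- One transvection moves `u` to `w` when `f(u, w) ≠ 0`. -/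
lemma exists_tv_map {k : ℕ} (u w : Fin m ⊕ Fin m → F) (hsu : Supp k u) (hsw : Supp k w)
    (h : Cfsg.sympForm m F u w ≠ 0) :
    ∃ A ∈ (TSk k : Set (symplecticGroup (Fin m) F)),
      (A : Matrix (Fin m ⊕ Fin m) (Fin m ⊕ Fin m) F) *ᵥ u = w := by
  refine ⟨tv (u - w) (Cfsg.sympForm m F u w)⁻¹, tv_mem_TSk (hsu.sub hsw) _, ?_⟩
  show Cfsg.sympTransvection m (u - w) (Cfsg.sympForm m F u w)⁻¹ *ᵥ u = w
  rw [tv_mulVec, form_sub_right, form_self, zero_sub, mul_neg, inv_mul_cancel₀ h, neg_smul, one_smul]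
  abel

/-- Transitivity of the group generated by transvections on non-zero vectors. -/
lemma exists_closure_map {k : ℕ} (u w : Fin m ⊕ Fin m → F) (hsu : Supp k u) (hsw : Supp k w)
    (hu : u ≠ 0) (hw : w ≠ 0) :
    ∃ A ∈ Subgroup.closure (TSk k : Set (symplecticGroup (Fin m) F)),
      (A : Matrix (Fin m ⊕ Fin m) (Fin m ⊕ Fin m) F) *ᵥ u = w := by
  by_cases h : Cfsg.sympForm m F u w = 0
  · obtain ⟨z, hsz, hz1, hz2⟩ := exists_form_ne_zero_both u w hsu hsw hu hw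
    obtain ⟨A1, hA1, h1⟩ := exists_tv_map u z hsu hsz hz1
    have hz2' : Cfsg.sympForm m F z w ≠ 0 := by
      rw [form_swap]
      exact neg_ne_zero.mpr hz2
    obtain ⟨A2, hA2, h2⟩ := exists_tv_map z w hsz hsw hz2'
    refine ⟨A2 * A1, mul_mem (Subgroup.subset_closure hA2) (Subgroup.subset_closure hA1), ?_⟩
    rw [Submonoid.coe_mul, ← mulVec_mulVec, h1, h2]
  · obtain ⟨A, hA, h1⟩ := exists_tv_map u w hsu hsw h
    exact ⟨A, Subgroup.subset_closure hA, h1⟩

/-- One transvection fixing `u` moves `v` to `v'` when `f(v, v') ≠ 0`. -/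
lemma exists_tv_map_pair {k : ℕ} (u v v' : Fin m ⊕ Fin m → F) (hsv : Supp k v)
    (hsv' : Supp k v') (huv : Cfsg.sympForm m F u v = 1) (huv' : Cfsg.sympForm m F u v' = 1)
    (h : Cfsg.sympForm m F v v' ≠ 0) :
    ∃ A ∈ (TSk k : Set (symplecticGroup (Fin m) F)),
      (A : Matrix (Fin m ⊕ Fin m) (Fin m ⊕ Fin m) F) *ᵥ u = u ∧
      (A : Matrix (Fin m ⊕ Fin m) (Fin m ⊕ Fin m) F) *ᵥ v = v' := by
  refine ⟨tv (v - v') (Cfsg.sympForm m F v v')⁻¹, tv_mem_TSk (hsv.sub hsv') _, ?_, ?_⟩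
  · show Cfsg.sympTransvection m (v - v') (Cfsg.sympForm m F v v')⁻¹ *ᵥ u = u
    rw [tv_mulVec, form_sub_right, huv, huv', sub_self, mul_zero, zero_smul, add_zero]
  · show Cfsg.sympTransvection m (v - v') (Cfsg.sympForm m F v v')⁻¹ *ᵥ v = v'
    rw [tv_mulVec, form_sub_right, form_self, zero_sub, mul_neg, inv_mul_cancel₀ h, neg_smul,
      one_smul]
    abel

lemma exists_closure_map_pair {k : ℕ} (u v v' : Fin m ⊕ Fin m → F) (hsu : Supp k u)
    (hsv : Supp k v) (hsv' : Supp k v') (huv : Cfsg.sympForm m F u v = 1)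
    (huv' : Cfsg.sympForm m F u v' = 1) :
    ∃ A ∈ Subgroup.closure (TSk k : Set (symplecticGroup (Fin m) F)),
      (A : Matrix (Fin m ⊕ Fin m) (Fin m ⊕ Fin m) F) *ᵥ u = u ∧
      (A : Matrix (Fin m ⊕ Fin m) (Fin m ⊕ Fin m) F) *ᵥ v = v' := by
  by_cases h : Cfsg.sympForm m F v v' = 0
  · have h1 : Cfsg.sympForm m F u (u + v) = 1 := by rw [form_add_right, form_self, zero_add, huv]
    have h2 : Cfsg.sympForm m F v (u + v) ≠ 0 := by
      rw [form_add_right, form_self, add_zero, form_swap, huv]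
      exact neg_ne_zero.mpr one_ne_zero
    have h3 : Cfsg.sympForm m F (u + v) v' ≠ 0 := by
      rw [form_add_left, huv', h, add_zero]
      exact one_ne_zero
    obtain ⟨A1, hA1, h11, h12⟩ := exists_tv_map_pair u v (u + v) hsv (hsu.add hsv) huv h1 h2
    obtain ⟨A2, hA2, h21, h22⟩ := exists_tv_map_pair u (u + v) v' (hsu.add hsv) hsv' h1 huv' h3
    refine ⟨A2 * A1, mul_mem (Subgroup.subset_closure hA2) (Subgroup.subset_closure hA1), ?_, ?_⟩
    · rw [Submonoid.coe_mul, ← mulVec_mulVec, h11, h21]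
    · rw [Submonoid.coe_mul, ← mulVec_mulVec, h12, h22]
  · obtain ⟨A, hA, h1, h2⟩ := exists_tv_map_pair u v v' hsv hsv' huv huv' h
    exact ⟨A, Subgroup.subset_closure hA, h1, h2⟩

/-- Transitivity of the group generated by transvections on hyperbolic pairs. -/
lemma exists_closure_map_hyp {k : ℕ} (u v u' v' : Fin m ⊕ Fin m → F) (hsu : Supp k u)
    (hsv : Supp k v) (hsu' : Supp k u') (hsv' : Supp k v') (huv : Cfsg.sympForm m F u v = 1)
    (huv' : Cfsg.sympForm m F u' v' = 1) :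
    ∃ A ∈ Subgroup.closure (TSk k : Set (symplecticGroup (Fin m) F)),
      (A : Matrix (Fin m ⊕ Fin m) (Fin m ⊕ Fin m) F) *ᵥ u = u' ∧
      (A : Matrix (Fin m ⊕ Fin m) (Fin m ⊕ Fin m) F) *ᵥ v = v' := by
  have hu : u ≠ 0 := by
    rintro rfl
    rw [form_zero_left] at huv
    exact zero_ne_one huv
  have hu' : u' ≠ 0 := by
    rintro rfl
    rw [form_zero_left] at huv'
    exact zero_ne_one huv'
  obtain ⟨A1, hA1, h1⟩ := exists_closure_map u u' hsu hsu' hu hu'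
  have hs1 : Supp k ((A1 : Matrix (Fin m ⊕ Fin m) (Fin m ⊕ Fin m) F) *ᵥ v) :=
    (good_of_mem_closure hA1).1 v hsv
  have hf1 : Cfsg.sympForm m F u' ((A1 : Matrix (Fin m ⊕ Fin m) (Fin m ⊕ Fin m) F) *ᵥ v) = 1 := by
    rw [← h1, form_mulVec_of_mem A1.2, huv]
  obtain ⟨A2, hA2, h21, h22⟩ := exists_closure_map_pair u' _ v' hsu' hs1 hsv' hf1 huv'
  refine ⟨A2 * A1, mul_mem hA2 hA1, ?_, ?_⟩
  · rw [Submonoid.coe_mul, ← mulVec_mulVec, h1, h21]
  · rw [Submonoid.coe_mul, ← mulVec_mulVec, h22]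

/-- Coordinates along a hyperbolic pair fixed by a symplectic matrix are preserved. -/
lemma coord_of_fix {A : Matrix (Fin m ⊕ Fin m) (Fin m ⊕ Fin m) F}
    (hA : A ∈ symplecticGroup (Fin m) F) (i : Fin m)
    (he : A *ᵥ eb i = eb i) (hf : A *ᵥ fb i = fb i) (x : Fin m ⊕ Fin m → F) :
    (A *ᵥ x) (Sum.inl i) = x (Sum.inl i) ∧ (A *ᵥ x) (Sum.inr i) = x (Sum.inr i) := by
  constructor
  · have h := form_mulVec_of_mem hA x (fb i)
    rw [hf, form_fb, form_fb] at h
    exact neg_injective h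
  · have h := form_mulVec_of_mem hA x (eb i)
    rw [he, form_eb, form_eb] at h
    exact h

lemma form_fb_eb (i : Fin m) : Cfsg.sympForm m F (fb i) (eb i) = 1 := by
  rw [form_eb]
  simp [fb]

/-- A symplectic matrix fixing the basis vectors of index `≥ k` is a product of transvections. -/
theorem mem_closure_of_fix (k : ℕ) (hk : k ≤ m) : ∀ A : symplecticGroup (Fin m) F,
    (∀ i : Fin m, k ≤ i.val →
      (A : Matrix (Fin m ⊕ Fin m) (Fin m ⊕ Fin m) F) *ᵥ eb i = eb i ∧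
      (A : Matrix (Fin m ⊕ Fin m) (Fin m ⊕ Fin m) F) *ᵥ fb i = fb i) →
    A ∈ Subgroup.closure (TS m F) := by
  induction k with
  | zero =>
    intro A hA
    have h1 : A = 1 := by
      apply Subtype.ext
      ext a b
      have hb : (A : Matrix (Fin m ⊕ Fin m) (Fin m ⊕ Fin m) F) *ᵥ Pi.single b 1 = Pi.single b 1 := by
        rcases b with i | i
        · exact (hA i (Nat.zero_le _)).1
        · exact (hA i (Nat.zero_le _)).2
      have h2 := congrFun hb a
      rw [mulVec_single_one] at h2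
      simpa [Matrix.one_apply, Pi.single_apply] using h2
    rw [h1]
    exact one_mem _
  | succ k ih =>
    intro A hA
    have hk' : k < m := hk
    have hsu : Supp (k + 1) (fb ⟨k, hk'⟩ : Fin m ⊕ Fin m → F) := supp_fb _ (Nat.lt_succ_self k)
    have hsv : Supp (k + 1) (eb ⟨k, hk'⟩ : Fin m ⊕ Fin m → F) := supp_eb _ (Nat.lt_succ_self k)
    have hsAu : Supp (k + 1)
        ((A : Matrix (Fin m ⊕ Fin m) (Fin m ⊕ Fin m) F) *ᵥ fb ⟨k, hk'⟩) := by
      intro i hi
      obtain ⟨h1, h2⟩ := coord_of_fix A.2 i (hA i hi).1 (hA i hi).2 (fb ⟨k, hk'⟩)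
      rw [h1, h2]
      exact hsu i hi
    have hsAv : Supp (k + 1)
        ((A : Matrix (Fin m ⊕ Fin m) (Fin m ⊕ Fin m) F) *ᵥ eb ⟨k, hk'⟩) := by
      intro i hi
      obtain ⟨h1, h2⟩ := coord_of_fix A.2 i (hA i hi).1 (hA i hi).2 (eb ⟨k, hk'⟩)
      rw [h1, h2]
      exact hsv i hi
    have hf : Cfsg.sympForm m F ((A : Matrix (Fin m ⊕ Fin m) (Fin m ⊕ Fin m) F) *ᵥ fb ⟨k, hk'⟩)
        ((A : Matrix (Fin m ⊕ Fin m) (Fin m ⊕ Fin m) F) *ᵥ eb ⟨k, hk'⟩) = 1 := by
      rw [form_mulVec_of_mem A.2, form_fb_eb]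
    obtain ⟨B, hB, hB1, hB2⟩ := exists_closure_map_hyp _ _ (fb ⟨k, hk'⟩) (eb ⟨k, hk'⟩) hsAu hsAv hsu hsv
      hf (form_fb_eb _)
    have hgood := good_of_mem_closure hB
    have hBA : B * A ∈ Subgroup.closure (TS m F) := by
      apply ih (by omega)
      intro i hi
      rcases Nat.eq_or_lt_of_le hi with h | h
      · have hi0 : i = ⟨k, hk'⟩ := Fin.ext h.symm
        rw [hi0, Submonoid.coe_mul, ← mulVec_mulVec, ← mulVec_mulVec]
        exact ⟨hB2, hB1⟩
      · have h' : k + 1 ≤ i.val := h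
        rw [Submonoid.coe_mul, ← mulVec_mulVec, ← mulVec_mulVec, (hA i h').1, (hA i h').2]
        exact hgood.2 i h'
    have hB' : B ∈ Subgroup.closure (TS m F) := Subgroup.closure_mono (TSk_subset (k + 1)) hB
    have h3 : A = B⁻¹ * (B * A) := by group
    rw [h3]
    exact mul_mem (inv_mem hB') hBA

/-- The symplectic group is generated by the symplectic transvections. -/
theorem closure_TS_eq_top : Subgroup.closure (TS m F) = ⊤ := by
  rw [eq_top_iff]
  intro A _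
  exact mem_closure_of_fix m le_rfl A (fun i hi => absurd i.2 (not_lt.mpr hi))

end Cfsg.Agent.Lib_helper4_Sp
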