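import Mathlib

set_option autoImplicit false

/-! Two "binary tree structures" on 8 points always have a common nontrivial automorphism
(computational core for: two Sylow 2-subgroups of `S₈` never intersect trivially). -/

namespace Cfsg.Agent.Lib_helper4_Syl8

abbrev P8 := Equiv.Perm (Fin 8)

def lab0 : Fin 8 → Fin 4 := ![0, 0, 1, 1, 2, 2, 3, 3]

/-- `s` preserves the tree structure (pairs, and pairs of pairs) given by the labelling `l`. -/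
def pres (s : Fin 8 → Fin 8) (l : Fin 8 → Fin 4) : Prop :=
  ∀ i j : Fin 8, (l (s i) = l (s j) ↔ l i = l j) ∧
    ((l (s i)).val / 2 = (l (s j)).val / 2 ↔ (l i).val / 2 = (l j).val / 2)

instance instDecPres (s : Fin 8 → Fin 8) (l : Fin 8 → Fin 4) : Decidable (pres s l) := by
  unfold pres; infer_instance

def cf : Fin 14 → Fin 8 → Fin 8 :=
  ![![5, 4, 6, 7, 1, 0, 2, 3],
    ![6, 7, 4, 5, 2, 3, 0, 1],
    ![1, 0, 3, 2, 6, 7, 4, 5],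
    ![1, 0, 3, 2, 7, 6, 5, 4],
    ![0, 1, 2, 3, 4, 5, 7, 6],
    ![0, 1, 2, 3, 5, 4, 6, 7],
    ![1, 0, 2, 3, 4, 5, 6, 7],
    ![0, 1, 3, 2, 4, 5, 6, 7],
    ![7, 6, 5, 4, 3, 2, 1, 0],
    ![4, 5, 7, 6, 0, 1, 3, 2],
    ![7, 6, 4, 5, 2, 3, 1, 0],
    ![6, 7, 5, 4, 3, 2, 0, 1],
    ![5, 4, 7, 6, 1, 0, 3, 2],
    ![4, 5, 6, 7, 0, 1, 2, 3]]

def cfi : Fin 14 → Fin 8 → Fin 8 :=
  ![![5, 4, 6, 7, 1, 0, 2, 3],
    ![6, 7, 4, 5, 2, 3, 0, 1],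
    ![1, 0, 3, 2, 6, 7, 4, 5],
    ![1, 0, 3, 2, 7, 6, 5, 4],
    ![0, 1, 2, 3, 4, 5, 7, 6],
    ![0, 1, 2, 3, 5, 4, 6, 7],
    ![1, 0, 2, 3, 4, 5, 6, 7],
    ![0, 1, 3, 2, 4, 5, 6, 7],
    ![7, 6, 5, 4, 3, 2, 1, 0],
    ![4, 5, 7, 6, 0, 1, 3, 2],
    ![7, 6, 4, 5, 2, 3, 1, 0],
    ![6, 7, 5, 4, 3, 2, 0, 1],
    ![5, 4, 7, 6, 1, 0, 3, 2],
    ![4, 5, 6, 7, 0, 1, 2, 3]]

set_option maxHeartbeats 40000000 in
theorem L : ∀ a0 a1 a2 a3 a4 a5 a6 a7 : Fin 4,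
    (∀ v : Fin 4, [a0, a1, a2, a3, a4, a5, a6, a7].count v = 2) →
    ∃ k : Fin 14, pres (cf k) ![a0, a1, a2, a3, a4, a5, a6, a7] := by decide +kernel

end Cfsg.Agent.Lib_helper4_Syl8
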