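import Mathlib

set_option autoImplicit false

/-! The imprimitive wreath product `S_a ≀ S_b` is maximal in the symmetric group. -/

namespace Cfsg.Agent.Lib_helper4_Wreath
open Equiv MulAction
open scoped Pointwise

variable {Ω : Type*} [Fintype Ω] [DecidableEq Ω] {b : ℕ} (f : Ω → Fin b)

/-- partition-preserving permutations -/
def S : Subgroup (Perm Ω) where
  carrier := {g | ∀ x y : Ω, f x = f y ↔ f (g x) = f (g y)}
  mul_mem' := by
    intro g h hg hh x y
    rw [hh x y, hg (h x) (h y)]; rfl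
  one_mem' := by intro x y; rfl
  inv_mem' := by
    intro g hg x y
    have := hg (g⁻¹ x) (g⁻¹ y)
    simp only [Perm.inv_def, Equiv.apply_symm_apply] at this
    exact this.symm

lemma mem_S (g : Perm Ω) : g ∈ S f ↔ ∀ x y : Ω, f x = f y ↔ f (g x) = f (g y) := Iff.rfl

lemma closure_eq :
    Subgroup.closure {g : Perm Ω | ∀ x y : Ω, f x = f y ↔ f (g x) = f (g y)} = S f :=
  Subgroup.closure_eq (S f)

lemma swap_mem {x x' : Ω} (h : f x = f x') : swap x x' ∈ S f := by
  have key : ∀ u, f (swap x x' u) = f u := by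
    intro u
    rw [swap_apply_def]
    split_ifs with h1 h2
    · rw [h1, h]
    · rw [h2, h]
    · rfl
  intro u v
  rw [key, key]

/-- swapping two blocks -/
noncomputable def sigma (i j : Fin b) (e : {x : Ω // f x = i} ≃ {x : Ω // f x = j}) (u : Ω) : Ω :=
  if h : f u = i then (e ⟨u, h⟩ : Ω) else if h' : f u = j then (e.symm ⟨u, h'⟩ : Ω) else u

lemma f_sigma (i j : Fin b) (e : {x : Ω // f x = i} ≃ {x : Ω // f x = j}) (u : Ω) :
    f (sigma f i j e u) = swap i j (f u) := by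
  unfold sigma
  split_ifs with h h'
  · rw [(e ⟨u, h⟩).2, h, swap_apply_left]
  · rw [(e.symm ⟨u, h'⟩).2, h', swap_apply_right]
  · rw [swap_apply_of_ne_of_ne h h']

lemma sigma_sigma (i j : Fin b) (hij : i ≠ j) (e : {x : Ω // f x = i} ≃ {x : Ω // f x = j})
    (u : Ω) : sigma f i j e (sigma f i j e u) = u := by
  by_cases h : f u = i
  · have h1 : sigma f i j e u = (e ⟨u, h⟩ : Ω) := by unfold sigma; rw [dif_pos h]
    have h2 : f (e ⟨u, h⟩ : Ω) = j := (e ⟨u, h⟩).2
    have h3 : ¬ f (e ⟨u, h⟩ : Ω) = i := by rw [h2]; exact hij.symm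
    rw [h1]; unfold sigma; rw [dif_neg h3, dif_pos h2]
    simp
  · by_cases h' : f u = j
    · have h1 : sigma f i j e u = (e.symm ⟨u, h'⟩ : Ω) := by
        unfold sigma; rw [dif_neg h, dif_pos h']
      have h2 : f (e.symm ⟨u, h'⟩ : Ω) = i := (e.symm ⟨u, h'⟩).2
      rw [h1]; unfold sigma; rw [dif_pos h2]
      simp
    · have h1 : sigma f i j e u = u := by unfold sigma; rw [dif_neg h, dif_neg h']
      rw [h1, h1]

/-- the permutation swapping two blocks -/
noncomputable def sigmaPerm (i j : Fin b) (hij : i ≠ j)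
    (e : {x : Ω // f x = i} ≃ {x : Ω // f x = j}) : Perm Ω :=
  Function.Involutive.toPerm (sigma f i j e) (sigma_sigma f i j hij e)

lemma f_sigmaPerm (i j : Fin b) (hij : i ≠ j) (e : {x : Ω // f x = i} ≃ {x : Ω // f x = j})
    (u : Ω) : f (sigmaPerm f i j hij e u) = swap i j (f u) := f_sigma f i j e u

lemma sigmaPerm_mem (i j : Fin b) (hij : i ≠ j) (e : {x : Ω // f x = i} ≃ {x : Ω // f x = j}) :
    sigmaPerm f i j hij e ∈ S f := by
  intro u v
  rw [f_sigmaPerm f, f_sigmaPerm f]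
  exact ((swap i j).injective.eq_iff).symm

lemma exists_equiv {a : ℕ} (hf : ∀ i : Fin b, Nat.card {x : Ω // f x = i} = a) (i j : Fin b) :
    Nonempty ({x : Ω // f x = i} ≃ {x : Ω // f x = j}) := by
  apply Fintype.card_eq.mp
  rw [← Nat.card_eq_fintype_card, ← Nat.card_eq_fintype_card, hf i, hf j]

lemma exists_mem_map {a : ℕ} (hf : ∀ i : Fin b, Nat.card {x : Ω // f x = i} = a) (x y : Ω) :
    ∃ g ∈ S f, g x = y := by
  by_cases hxy : f x = f y
  · exact ⟨swap x y, swap_mem f hxy, swap_apply_left x y⟩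
  · obtain ⟨e⟩ := exists_equiv f hf (f x) (f y)
    refine ⟨swap (sigmaPerm f _ _ hxy e x) y * sigmaPerm f _ _ hxy e,
      (S f).mul_mem (swap_mem f ?_) (sigmaPerm_mem f _ _ hxy e), ?_⟩
    · rw [f_sigmaPerm f, swap_apply_left]
    · simp

lemma fiber_of_block {a : ℕ} (hf : ∀ i : Fin b, Nat.card {x : Ω // f x = i} = a)
    (K : Subgroup (Perm Ω)) (hK : S f ≤ K) (B : Set Ω) (hB : IsBlock K B) (x y : Ω)
    (hx : x ∈ B) (hy : y ∈ B) (hxy : x ≠ y) (hne : B ≠ Set.univ) :
    ∀ z, z ∈ B ↔ f z = f x := by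
  have hmove : ∀ k ∈ K, ∀ w ∈ B, k w ∈ B → ∀ z ∈ B, k z ∈ B := by
    intro k hk w hw hkw z hz
    rcases hB.smul_eq_or_disjoint ⟨k, hk⟩ with h | h
    · rw [← h]
      exact Set.smul_mem_smul_set (a := (⟨k, hk⟩ : K)) hz
    · exact absurd hkw
        (Set.disjoint_left.mp h (Set.smul_mem_smul_set (a := (⟨k, hk⟩ : K)) hw))
  -- saturation
  have hsat : ∀ z ∈ B, ∀ u, f u = f z → u ∈ B := by
    intro z hz u hu
    obtain ⟨w, hw, hwz⟩ : ∃ w ∈ B, w ≠ z := by
      by_cases hzx : z = x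
      · exact ⟨y, hy, fun h => hxy (hzx.symm.trans h.symm)⟩
      · exact ⟨x, hx, fun h => hzx h.symm⟩
    by_cases huz : u = z
    · rw [huz]; exact hz
    · by_cases huw : u = w
      · rw [huw]; exact hw
      · have h1 := hmove (swap z u) (hK (swap_mem f hu.symm)) w hw
          (by rw [swap_apply_of_ne_of_ne hwz (fun h => huw h.symm)]; exact hw) z hz
        rwa [swap_apply_left] at h1
  -- all points of `B` have the same label
  have hsame : ∀ z₁ ∈ B, ∀ z₂ ∈ B, f z₁ = f z₂ := by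
    intro z₁ hz₁ z₂ hz₂
    by_contra hz
    apply hne
    rw [Set.eq_univ_iff_forall]
    intro u
    by_cases h1 : f u = f z₁
    · exact hsat z₁ hz₁ u h1
    · by_cases h2 : f u = f z₂
      · exact hsat z₂ hz₂ u h2
      · obtain ⟨e⟩ := exists_equiv f hf (f z₂) (f u)
        have hne' : f z₂ ≠ f u := fun h => h2 h.symm
        have hσ := hK (sigmaPerm_mem f (f z₂) (f u) hne' e)
        have hfix : sigmaPerm f (f z₂) (f u) hne' e z₁ = z₁ := by
          show sigma f (f z₂) (f u) e z₁ = z₁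
          unfold sigma
          rw [dif_neg hz, dif_neg (fun h => h1 h.symm)]
        have h3 := hmove _ hσ z₁ hz₁ (by rw [hfix]; exact hz₁) z₂ hz₂
        apply hsat _ h3 u
        rw [f_sigmaPerm f, swap_apply_left]
  intro z
  exact ⟨fun hz => hsame z hz x hx, fun hz => hsat x hx z hz⟩

theorem isCoatom (a : ℕ) (ha : 2 ≤ a) (hb : 2 ≤ b)
    (hf : ∀ i : Fin b, Nat.card {x : Ω // f x = i} = a) : IsCoatom (S f) := by
  have hfib : ∀ i : Fin b, ∃ x x' : Ω, x ≠ x' ∧ f x = i ∧ f x' = i := by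
    intro i
    have h1 : 1 < Nat.card {x : Ω // f x = i} := by rw [hf i]; omega
    rw [Nat.card_eq_fintype_card] at h1
    obtain ⟨⟨x, hx⟩, ⟨x', hx'⟩, hne⟩ := Fintype.exists_pair_of_one_lt_card h1
    exact ⟨x, x', fun h => hne (Subtype.ext h), hx, hx'⟩
  obtain ⟨x, x', hxx', hx, hx'⟩ := hfib ⟨0, by omega⟩
  obtain ⟨y, y', hyy', hy, hy'⟩ := hfib ⟨1, by omega⟩
  have h01 : (⟨0, by omega⟩ : Fin b) ≠ ⟨1, by omega⟩ := by
    intro h; simp [Fin.ext_iff] at h
  constructor
  · intro htop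
    have hmem : swap x y ∈ S f := by rw [htop]; trivial
    have h1 := (hmem x x').mp (hx.trans hx'.symm)
    have hx'y : x' ≠ y := by
      rintro rfl
      exact h01 (hx'.symm.trans hy)
    rw [swap_apply_left, swap_apply_of_ne_of_ne hxx'.symm hx'y, hy, hx'] at h1
    exact h01 h1.symm
  · intro K hK
    have hSK : S f ≤ K := hK.le
    apply Equiv.Perm.subgroup_eq_top_of_isPreprimitive_of_isSwap_mem ?_ (swap x x')
      ⟨x, x', hxx', rfl⟩ (hSK (swap_mem f (hx.trans hx'.symm)))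
    have htrans : IsPretransitive K Ω := by
      constructor
      intro u v
      obtain ⟨g, hg, hguv⟩ := exists_mem_map f hf u v
      exact ⟨⟨g, hSK hg⟩, hguv⟩
    refine { toIsPretransitive := htrans, isTrivialBlock_of_isBlock := ?_ }
    intro B hB
    by_contra hnt
    unfold IsTrivialBlock at hnt
    push Not at hnt
    obtain ⟨hns, hnu⟩ := hnt
    obtain ⟨u, hu, v, hv, huv⟩ := hns
    have hfibB := fiber_of_block f hf K hSK B hB u v hu hv huv hnu
    apply not_le_of_gt hK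
    have hfwd : ∀ k ∈ K, ∀ p q : Ω, f p = f q → f (k p) = f (k q) := by
      intro k hk p q hpq
      obtain ⟨h, hh, hhu⟩ := exists_mem_map f hf u p
      have hg : k * h ∈ K := K.mul_mem hk (hSK hh)
      have hB' : IsBlock K ((⟨k * h, hg⟩ : K) • B) := hB.translate _
      have hne' : ((⟨k * h, hg⟩ : K) • B) ≠ Set.univ := by
        intro h'
        apply hnu
        have := congrArg (fun T : Set Ω => (⟨k * h, hg⟩ : K)⁻¹ • T) h'
        simpa using this
      have hfibB' := fiber_of_block f hf K hSK _ hB' ((k * h) u) ((k * h) v)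
        (Set.smul_mem_smul_set (a := (⟨k * h, hg⟩ : K)) hu)
        (Set.smul_mem_smul_set (a := (⟨k * h, hg⟩ : K)) hv)
        (fun h' => huv ((k * h).injective h')) hne'
      -- `q = h q₀` with `q₀ ∈ B`
      have hq₀ : h⁻¹ q ∈ B := by
        rw [hfibB]
        have h1 := ((S f).inv_mem hh q p).mp hpq.symm
        rw [h1, ← hhu]
        simp
      have h2 : (k * h) (h⁻¹ q) ∈ ((⟨k * h, hg⟩ : K) • B) :=
        Set.smul_mem_smul_set (a := (⟨k * h, hg⟩ : K)) hq₀
      have h3 := (hfibB' _).mp h2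
      simp only [Perm.coe_mul, Function.comp_apply, Perm.inv_def, Equiv.apply_symm_apply] at h3
      rw [h3, hhu]
    intro k hk p q
    refine ⟨hfwd k hk p q, fun h => ?_⟩
    have := hfwd k⁻¹ (K.inv_mem hk) (k p) (k q) h
    simpa using this

end Cfsg.Agent.Lib_helper4_Wreath
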