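import Mathlib
import Cfsg.Agent.Lib_helper5_Fitting
import Cfsg.Agent.Lib_helper6_PCore
import Cfsg.Agent.Lib_helper1_Subnormal
import Cfsg.Agent.Lib_helper2_Comp
import Cfsg.Agent.Lib_helper1_Basic
import Cfsg.Agent.Lib_helper1_Hall
import Cfsg.Agent.Lib_helper1_Coprime

set_option autoImplicit false

namespace Cfsg.Agent.Lib_helper5_Baer

open Cfsg
open scoped Pointwise

universe u

/-- the Engel sequence `[x, g, g, …, g]` -/
def eng {G : Type*} [Group G] (g x : G) (n : ℕ) : G :=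
  (List.replicate n g).foldl (fun a b => a * b * a⁻¹ * b⁻¹) x

theorem eng_zero {G : Type*} [Group G] (g x : G) : eng g x 0 = x := rfl

theorem eng_succ {G : Type*} [Group G] (g x : G) (n : ℕ) :
    eng g x (n + 1) = eng g x n * g * (eng g x n)⁻¹ * g⁻¹ := by
  unfold eng
  rw [List.replicate_succ', List.foldl_append]
  rfl

theorem map_eng {G H : Type*} [Group G] [Group H] (f : G →* H) (g x : G) (n : ℕ) :
    f (eng g x n) = eng (f g) (f x) n := by
  induction n with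
  | zero => rfl
  | succ n ih => rw [eng_succ, eng_succ, map_mul, map_mul, map_mul, map_inv, map_inv, ih]

theorem eng_of_mem_fitting {G : Type*} [Group G] [Finite G] (g : G)
    (hg : g ∈ Cfsg.fittingSubgroup G) (x : G) : ∃ n, eng g x n = 1 := by
  haveI hFn : (Cfsg.fittingSubgroup G).Normal :=
    Cfsg.Agent.Lib_helper6_PCore.fittingSubgroup_normal
  have hnil : Group.IsNilpotent (Cfsg.fittingSubgroup G) :=
    Cfsg.Agent.Lib_helper5_Fitting.fitting_isNilpotent
  obtain ⟨n, hn⟩ := (Subgroup.isNilpotent_iff_lowerCentralSeries _).mp hnil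
  have key : ∀ k, eng g x (k + 1) ∈ (Cfsg.fittingSubgroup G).lowerCentralSeries k := by
    intro k
    induction k with
    | zero =>
      rw [eng_succ, Subgroup.lowerCentralSeries_zero]
      exact Subgroup.mul_mem _ (hFn.conj_mem g hg _) (Subgroup.inv_mem _ hg)
    | succ k ih =>
      rw [eng_succ, Subgroup.lowerCentralSeries_succ]
      exact Subgroup.commutator_mem_commutator ih hg
  refine ⟨n + 1, ?_⟩
  have := key n
  rw [hn] at this
  exact Subgroup.mem_bot.mp this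

theorem mem_fitting_of_eng_aux (n : ℕ) : ∀ (G : Type u) [Group G] [Finite G], Nat.card G = n →
    ∀ g : G, (∀ x : G, ∃ k, eng g x k = 1) → g ∈ Cfsg.fittingSubgroup G := by
  induction n using Nat.strong_induction_on with
  | _ n IH =>
  intro G _ _ hcard g hE
  by_contra hgF
  classical
  obtain ⟨A, hA⟩ : ∃ A : Subgroup G, A = Subgroup.zpowers g := ⟨_, rfl⟩
  have hgA : g ∈ A := hA ▸ Subgroup.mem_zpowers g
  have hAnil : Group.IsNilpotent A := by
    rw [Subgroup.isNilpotent_iff_lowerCentralSeries]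
    refine ⟨1, ?_⟩
    rw [Subgroup.lowerCentralSeries_succ, Subgroup.lowerCentralSeries_zero,
      Subgroup.commutator_eq_bot_iff_le_centralizer, hA]
    exact Subgroup.le_centralizer _
  -- IH on proper subgroups
  have hIH : ∀ (V : Subgroup G), V ≠ ⊤ → ∀ v : V, (∀ x : V, ∃ k, eng v x k = 1) →
      v ∈ Cfsg.fittingSubgroup V := by
    intro V hV v hv
    exact IH (Nat.card V) (hcard ▸ Cfsg.Agent.Lib_helper5_Fitting.card_lt_of_lt_top
      (lt_top_iff_ne_top.mpr hV)) V rfl v hv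
  -- conjugates are Engel
  have hEconj : ∀ h x : G, ∃ k, eng (h * g * h⁻¹) x k = 1 := by
    intro h x
    obtain ⟨k, hk⟩ := hE (h⁻¹ * x * h)
    refine ⟨k, ?_⟩
    have := map_eng (MulAut.conj h).toMonoidHom g (h⁻¹ * x * h) k
    simp only [MulEquiv.coe_toMonoidHom, MulAut.conj_apply] at this
    rw [hk] at this
    have e : h * (h⁻¹ * x * h) * h⁻¹ = x := by group
    rw [e] at this
    rw [← this]; group
  have hsub : ∀ (V : Subgroup G) (v x : V) (k : ℕ), eng (v : G) (x : G) k = 1 →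
      eng v x k = 1 := by
    intro V v x k hk
    apply Subtype.ext
    have := map_eng V.subtype v x k
    simp only [Subgroup.coe_subtype] at this
    rw [this, hk]; rfl
  -- key: conjugates of A inside proper V are subnormal in V
  have key : ∀ (V : Subgroup G), V ≠ ⊤ → ∀ h : G, MulAut.conj h • A ≤ V →
      ((MulAut.conj h • A).subgroupOf V).IsSubnormal := by
    intro V hV h hle
    have hmem : h * g * h⁻¹ ∈ V :=
      hle (Cfsg.Agent.Lib_helper1_Basic.conj_mem_conj_smul A h g hgA)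
    have h1 : (⟨h * g * h⁻¹, hmem⟩ : V) ∈ Cfsg.fittingSubgroup V := by
      apply hIH V hV
      intro x
      obtain ⟨k, hk⟩ := hEconj h (x : G)
      exact ⟨k, hsub V _ _ k hk⟩
    have h2 : (MulAut.conj h • A).subgroupOf V ≤ Cfsg.fittingSubgroup V := by
      intro z hz
      rw [Subgroup.mem_subgroupOf, Cfsg.Agent.Lib_helper1_Basic.mem_conj_smul, hA] at hz
      obtain ⟨k, hk⟩ := Subgroup.mem_zpowers_iff.mp hz
      have : z = (⟨h * g * h⁻¹, hmem⟩ : V) ^ k := by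
        apply Subtype.ext
        rw [Subgroup.coe_zpow]
        show (z : G) = (h * g * h⁻¹) ^ k
        rw [conj_zpow, hk]; group
      rw [this]
      exact Subgroup.zpow_mem _ h1 k
    haveI := Cfsg.Agent.Lib_helper5_Fitting.fitting_isNilpotent (G := V)
    haveI : (Cfsg.fittingSubgroup V).Normal :=
      Cfsg.Agent.Lib_helper6_PCore.fittingSubgroup_normal
    have h3 : (((MulAut.conj h • A).subgroupOf V).subgroupOf
        (Cfsg.fittingSubgroup V)).IsSubnormal :=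
      Cfsg.Agent.Lib_helper5_Fitting.isSubnormal_of_isNilpotent _
    exact Subgroup.IsSubnormal.trans h2 h3 (Subgroup.Normal.isSubnormal inferInstance)
  -- g lies in no proper normal subgroup
  have hnormal : ∀ T : Subgroup G, T.Normal → T ≠ ⊤ → g ∉ T := by
    intro T hTn hT hgT
    have h1 : (⟨g, hgT⟩ : T) ∈ Cfsg.fittingSubgroup T := by
      apply hIH T hT
      intro x
      obtain ⟨k, hk⟩ := hE (x : G)
      exact ⟨k, hsub T _ _ k hk⟩
    have h2 := Cfsg.Agent.Lib_helper2_Comp.fitting_subnormal T (Subgroup.Normal.isSubnormal hTn)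
    have h3 : g ∈ (Cfsg.fittingSubgroup T).map T.subtype := ⟨⟨g, hgT⟩, h1, rfl⟩
    rw [h2] at h3
    exact hgF h3.1
  have hAtop : A ≠ ⊤ := by
    intro h
    have hn : A.Normal := by rw [h]; infer_instance
    exact hgF (Cfsg.Agent.Lib_helper5_Fitting.subnormal_nilpotent_le_fitting A
      (Subgroup.Normal.isSubnormal hn) hAnil hgA)
  obtain ⟨U, hU⟩ : ∃ U : Set (Subgroup G), U = {V | A ≤ V ∧ V ≠ ⊤} := ⟨_, rfl⟩
  have hUmem : ∀ V, V ∈ U ↔ A ≤ V ∧ V ≠ ⊤ := by intro V; rw [hU]; rfl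
  have hUne : U.Nonempty := ⟨A, (hUmem A).mpr ⟨le_rfl, hAtop⟩⟩
  have hconj1 : MulAut.conj (1 : G) • A = A := by simp
  obtain ⟨S, hS⟩ : ∃ S : Subgroup G → Set (Subgroup G), ∀ V B, B ∈ S V ↔
      (∃ h : G, B = MulAut.conj h • A) ∧ B ≤ V ∧ (B.subgroupOf V).IsSubnormal :=
    ⟨fun V => {B | (∃ h : G, B = MulAut.conj h • A) ∧ B ≤ V ∧ (B.subgroupOf V).IsSubnormal},
      fun V B => Iff.rfl⟩
  have hAS : ∀ V ∈ U, A ∈ S V := by
    intro V hVU
    obtain ⟨hAV, hV⟩ := (hUmem V).mp hVU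
    rw [hS]
    refine ⟨⟨1, hconj1.symm⟩, hAV, ?_⟩
    have := key V hV 1 (by rw [hconj1]; exact hAV)
    rwa [hconj1] at this
  have h2 : ∀ V ∈ U, ∀ W ∈ U, ∀ B ∈ S W, B ≤ V → B ∈ S V := by
    intro V hVU W _ B hB hBV
    obtain ⟨hAV, hV⟩ := (hUmem V).mp hVU
    obtain ⟨⟨h, rfl⟩, _, _⟩ := (hS W B).mp hB
    exact (hS V _).mpr ⟨⟨h, rfl⟩, hBV, key V hV h hBV⟩
  have h3 : ∀ V ∈ U, ∀ W ∈ U, ∃ X ∈ U,
      Subgroup.normalizer ((sSup (S V ∩ S W) : Subgroup G) : Set G) ≤ X := by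
    intro V hVU W hWU
    obtain ⟨hAV, hV⟩ := (hUmem V).mp hVU
    have hAT : A ≤ sSup (S V ∩ S W) := le_sSup ⟨hAS V hVU, hAS W hWU⟩
    have hTV : sSup (S V ∩ S W) ≤ V := sSup_le (fun B hB => ((hS V B).mp hB.1).2.1)
    have hTtop : sSup (S V ∩ S W) ≠ ⊤ := fun h => hV (top_le_iff.mp (h ▸ hTV))
    refine ⟨Subgroup.normalizer ((sSup (S V ∩ S W) : Subgroup G) : Set G),
      (hUmem _).mpr ⟨hAT.trans Subgroup.le_normalizer, ?_⟩, le_rfl⟩
    intro hN
    exact hnormal _ (Subgroup.normalizer_eq_top_iff.mp hN) hTtop (hAT hgA)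
  obtain ⟨M, hMU, hM⟩ := Cfsg.Agent.Lib_helper1_Subnormal.zipper A U hUne S hS h2 h3
  obtain ⟨hAM, hMtop⟩ := (hUmem M).mp hMU
  obtain ⟨x, hx⟩ : ∃ x, x ∉ M := by
    by_contra hcon
    push Not at hcon
    exact hMtop (eq_top_iff.mpr fun x _ => hcon x)
  obtain ⟨k, hk⟩ := hE x
  have hex : ∃ k, eng g x k ∈ M := ⟨k, hk ▸ M.one_mem⟩
  obtain ⟨k0, hk0, hmin⟩ : ∃ k0, eng g x k0 ∈ M ∧ ∀ j < k0, eng g x j ∉ M :=
    ⟨Nat.find hex, Nat.find_spec hex, fun j hj => Nat.find_min hex hj⟩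
  cases k0 with
  | zero => exact hx hk0
  | succ j =>
  rw [eng_succ] at hk0
  have hy := hmin j (Nat.lt_succ_self j)
  obtain ⟨y, hy_def⟩ : ∃ y, y = eng g x j := ⟨_, rfl⟩
  rw [← hy_def] at hk0 hy
  have hyg : y * g * y⁻¹ ∈ M := by
    have : y * g * y⁻¹ = (y * g * y⁻¹ * g⁻¹) * g := by group
    rw [this]; exact M.mul_mem hk0 (hAM hgA)
  have hA' : A ≤ MulAut.conj y⁻¹ • M := by
    rw [hA, Subgroup.zpowers_le, Cfsg.Agent.Lib_helper1_Basic.mem_conj_smul]
    simpa using hyg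
  have hcard' : Nat.card (MulAut.conj y⁻¹ • M : Subgroup G) = Nat.card M :=
    Cfsg.Agent.Lib_helper1_Hall.card_conj_smul _ _
  have hne' : MulAut.conj y⁻¹ • M ≠ ⊤ := by
    intro h
    apply hMtop
    apply Subgroup.eq_top_of_card_eq
    rw [← hcard', h]; exact Subgroup.card_top
  have hle' : MulAut.conj y⁻¹ • M ≤ M := hM _ ((hUmem _).mpr ⟨hA', hne'⟩)
  have heq' : MulAut.conj y⁻¹ • M = M := Subgroup.eq_of_le_of_card_ge hle' hcard'.ge
  have hyN : y⁻¹ ∈ Subgroup.normalizer (M : Set G) :=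
    Cfsg.Agent.Lib_helper1_Coprime.mem_normalizer_of_conj_smul_eq M _ heq'
  have hNtop : Subgroup.normalizer (M : Set G) = ⊤ := by
    by_contra hN
    have := hM _ ((hUmem _).mpr ⟨hAM.trans Subgroup.le_normalizer, hN⟩)
    exact hy (by simpa using M.inv_mem (this hyN))
  exact hnormal M (Subgroup.normalizer_eq_top_iff.mp hNtop) hMtop (hAM hgA)

/-- **Baer's theorem**: left Engel elements of a finite group lie in the Fitting subgroup. -/
theorem mem_fitting_iff_eng {G : Type u} [Group G] [Finite G] (g : G) :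
    g ∈ Cfsg.fittingSubgroup G ↔ ∀ x : G, ∃ n : ℕ, eng g x n = 1 :=
  ⟨fun h x => eng_of_mem_fitting g h x, fun h => mem_fitting_of_eng_aux _ G rfl g h⟩

end Cfsg.Agent.Lib_helper5_Baer
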