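import Mathlib
import Cfsg.Agent.Lib_helper6_Cyclic

set_option autoImplicit false
open Pointwise MulAction

namespace Cfsg.Agent.Lib_helper5_Frob

/-- If `c` divides the index of every stabilizer, then `c` divides the number of points. -/
theorem dvd_card_of_dvd_index {G X : Type*} [Group G] [Finite G] [MulAction G X] [Finite X] (c : ℕ)
    (h : ∀ x : X, c ∣ (stabilizer G x).index) : c ∣ Nat.card X := by
  classical
  haveI := Fintype.ofFinite (Quotient (orbitRel G X))
  rw [Nat.card_congr (selfEquivSigmaOrbitsQuotientStabilizer G X), Nat.card_sigma]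
  apply Finset.dvd_sum
  intro ω _
  exact h _

section fin
variable {G : Type*} [Group G] [Fintype G] [DecidableEq G]

/-- the stabilizer of a finite subset under left translation acts on it -/
def stabAct (S : Finset G) : MulAction (stabilizer G S) {x // x ∈ S} where
  smul t s := ⟨(t : G) * s.1, by
    have h1 := t.2
    rw [mem_stabilizer_iff] at h1
    have h2 : (t : G) • s.1 ∈ (t : G) • S := Finset.smul_mem_smul_finset s.2
    rw [h1] at h2
    exact h2⟩
  one_smul s := Subtype.ext (one_mul _)
  mul_smul a b s := Subtype.ext (mul_assoc _ _ _)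

theorem card_stabilizer_dvd (S : Finset G) : Nat.card (stabilizer G S) ∣ S.card := by
  letI := stabAct S
  have h := dvd_card_of_dvd_index (G := stabilizer G S) (X := {x // x ∈ S})
    (Nat.card (stabilizer G S)) (by
      intro x
      have hb : stabilizer (stabilizer G S) x = ⊥ := by
        rw [eq_bot_iff]
        intro t ht
        rw [mem_stabilizer_iff] at ht
        have h3 : (t : G) * x.1 = x.1 := congrArg Subtype.val ht
        rw [Subgroup.mem_bot]
        ext
        simpa using h3
      rw [hb, Subgroup.index_bot])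
  simpa using h

open Classical in
/-- right coset `H g` as a finset -/
noncomputable def cosetF (H : Subgroup G) (g : G) : Finset G :=
  (Finset.univ.filter (fun x => x ∈ H)).image (fun x => x * g)

theorem mem_cosetF {H : Subgroup G} {g x : G} : x ∈ cosetF H g ↔ ∃ h ∈ H, h * g = x := by
  classical
  simp only [cosetF, Finset.mem_image, Finset.mem_filter, Finset.mem_univ, true_and]

theorem card_cosetF (H : Subgroup G) (g : G) : (cosetF H g).card = Nat.card H := by
  classical
  rw [cosetF, Finset.card_image_of_injective _ (mul_left_injective g), Nat.card_eq_fintype_card,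
    Fintype.card_subtype]

theorem cosetF_stabilizer (S : Finset G) (s : G) (hs : s ∈ S)
    (hcard : Nat.card (stabilizer G S) = S.card) : cosetF (stabilizer G S) s = S := by
  apply Finset.eq_of_subset_of_card_le
  · intro x hx
    rw [mem_cosetF] at hx
    obtain ⟨h, hh, rfl⟩ := hx
    rw [mem_stabilizer_iff] at hh
    have h2 : h • s ∈ h • S := Finset.smul_mem_smul_finset hs
    rw [hh] at h2
    exact h2
  · rw [card_cosetF, hcard]

theorem stabilizer_cosetF (H : Subgroup G) (g : G) : stabilizer G (cosetF H g) = H := by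
  symm
  apply Subgroup.eq_of_le_of_card_ge
  · intro h hh
    rw [mem_stabilizer_iff]
    apply Finset.eq_of_subset_of_card_le
    · intro x hx
      rw [Finset.mem_smul_finset] at hx
      obtain ⟨y, hy, rfl⟩ := hx
      rw [mem_cosetF] at hy ⊢
      obtain ⟨k, hk, rfl⟩ := hy
      exact ⟨h * k, H.mul_mem hh hk, by simp [mul_assoc]⟩
    · rw [Finset.card_smul_finset]
  · have := Nat.le_of_dvd (by rw [card_cosetF]; exact Nat.card_pos) (card_stabilizer_dvd (cosetF H g))
    rwa [card_cosetF] at this

theorem self_mem_cosetF (H : Subgroup G) (g : G) : g ∈ cosetF H g :=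
  mem_cosetF.mpr ⟨1, H.one_mem, one_mul g⟩

/-- counting the subsets of size `q` with stabilizer of order `q` -/
theorem card_full_stab (q : ℕ) :
    (Finset.univ.filter (fun S : Finset G => S.card = q ∧ Nat.card (stabilizer G S) = q)).card * q =
      Nat.card {H : Subgroup G // Nat.card H = q} * Fintype.card G := by
  classical
  haveI : Fintype (Subgroup G) := Fintype.ofFinite _
  set 𝒮 := Finset.univ.filter (fun S : Finset G => S.card = q ∧ Nat.card (stabilizer G S) = q)
    with h𝒮
  have e1 : (𝒮.sigma (fun S => S)).card = 𝒮.card * q := by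
    rw [Finset.card_sigma]
    rw [Finset.sum_const_nat (m := q)]
    intro S hS
    rw [h𝒮, Finset.mem_filter] at hS
    exact hS.2.1
  have e2 : ((Finset.univ.filter (fun H : Subgroup G => Nat.card H = q)) ×ˢ (Finset.univ : Finset G)).card
      = Nat.card {H : Subgroup G // Nat.card H = q} * Fintype.card G := by
    rw [Finset.card_product, Nat.card_eq_fintype_card, Fintype.card_subtype, Finset.card_univ]
  rw [← e1, ← e2]
  apply Finset.card_nbij' (fun x => (stabilizer G x.1, x.2)) (fun y => ⟨cosetF y.1 y.2, y.2⟩)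
  · intro x hx
    simp only [Finset.coe_sigma, Set.mem_sigma_iff, Finset.mem_coe, h𝒮, Finset.mem_filter,
      Finset.mem_univ, true_and] at hx
    simp only [Finset.coe_product, Set.mem_prod, Finset.mem_coe, Finset.mem_filter,
      Finset.mem_univ, true_and, and_true]
    exact hx.1.2
  · intro y hy
    simp only [Finset.coe_product, Set.mem_prod, Finset.mem_coe, Finset.mem_filter,
      Finset.mem_univ, true_and, and_true] at hy
    simp only [Finset.coe_sigma, Set.mem_sigma_iff, Finset.mem_coe, h𝒮, Finset.mem_filter,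
      Finset.mem_univ, true_and]
    refine ⟨⟨?_, ?_⟩, self_mem_cosetF _ _⟩
    · rw [card_cosetF]; exact hy
    · rw [stabilizer_cosetF]; exact hy
  · intro x hx
    simp only [Finset.coe_sigma, Set.mem_sigma_iff, Finset.mem_coe, h𝒮, Finset.mem_filter,
      Finset.mem_univ, true_and] at hx
    obtain ⟨S, s⟩ := x
    simp only at hx ⊢
    rw [cosetF_stabilizer S s hx.2 (hx.1.2.trans hx.1.1.symm)]
  · intro y hy
    obtain ⟨H, g⟩ := y
    simp only
    rw [stabilizer_cosetF]

/-- the sub-action on subsets of size `q` whose stabilizer does not have order `q` -/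
def X1 (G : Type*) [Group G] [Fintype G] [DecidableEq G] (q : ℕ) : SubMulAction G (Finset G) where
  carrier := {S | S.card = q ∧ Nat.card (stabilizer G S) ≠ q}
  smul_mem' := by
    intro g S hS
    obtain ⟨h1, h2⟩ := hS
    refine ⟨by rw [Finset.card_smul_finset]; exact h1, ?_⟩
    rw [stabilizer_smul_eq_stabilizer_map_conj,
      Subgroup.card_map_of_injective (MulAut.conj g).injective]
    exact h2

theorem dvd_card_X1 (p β m : ℕ) (hp : p.Prime) (hG : Fintype.card G = p ^ β * m) :
    p * m ∣ Nat.card (X1 G (p ^ β)) := by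
  apply dvd_card_of_dvd_index (G := G)
  intro x
  rw [SubMulAction.stabilizer_of_subMul]
  obtain ⟨h1, h2⟩ := x.2
  have h3 := card_stabilizer_dvd (x : Finset G)
  rw [h1, Nat.dvd_prime_pow hp] at h3
  obtain ⟨j, hj, hcard⟩ := h3
  have hjlt : j < β := by
    rcases Nat.lt_or_ge j β with h | h
    · exact h
    · exfalso; apply h2; rw [hcard, le_antisymm hj h]
  have h4 := Subgroup.index_mul_card (stabilizer G (x : Finset G))
  rw [hcard, Nat.card_eq_fintype_card, hG] at h4
  have h5 : p ^ β * m = (p ^ (β - j - 1) * (p * m)) * p ^ j := by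
    have : β = (β - j - 1) + 1 + j := by omega
    conv_lhs => rw [this]
    ring
  rw [h5] at h4
  have h6 := Nat.eq_of_mul_eq_mul_right (pow_pos hp.pos j) h4
  rw [h6]
  exact dvd_mul_left _ _

/-- Wielandt's count -/
theorem wielandt (p β m : ℕ) (hp : p.Prime) (hG : Fintype.card G = p ^ β * m) :
    ∃ t, (p ^ β * m).choose (p ^ β) =
      Nat.card {H : Subgroup G // Nat.card H = p ^ β} * m + p * m * t := by
  classical
  obtain ⟨t, ht⟩ := dvd_card_X1 (G := G) p β m hp hG
  refine ⟨t, ?_⟩
  have hq : 0 < p ^ β := pow_pos hp.pos β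
  have h0 := card_full_stab (G := G) (p ^ β)
  rw [hG, mul_comm (p ^ β) m, ← mul_assoc] at h0
  have h1 := Nat.eq_of_mul_eq_mul_right hq h0
  rw [← h1, ← ht, ← hG, ← Finset.card_univ, ← Finset.card_powersetCard]
  have h2 : Nat.card (X1 G (p ^ β)) = (Finset.univ.filter
      (fun S : Finset G => S.card = p ^ β ∧ Nat.card (stabilizer G S) ≠ p ^ β)).card := by
    show Nat.card {S : Finset G // S.card = p ^ β ∧ Nat.card (stabilizer G S) ≠ p ^ β} = _
    rw [Nat.card_eq_fintype_card, Fintype.card_subtype]
  rw [h2]
  have h3 := Finset.card_filter_add_card_filter_not (s := Finset.powersetCard (p ^ β)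
    (Finset.univ : Finset G)) (fun S : Finset G => Nat.card (stabilizer G S) = p ^ β)
  rw [← h3]
  congr 2
  · ext S
    simp [Finset.mem_powersetCard]
  · ext S
    simp [Finset.mem_powersetCard]

end fin

/-- **Frobenius**: the number of subgroups of order `p ^ β` is `≡ 1 mod p`. -/
theorem card_subgroups_modEq_one {G : Type*} [Group G] [Finite G] (p β : ℕ) (hp : p.Prime)
    (hdiv : p ^ β ∣ Nat.card G) :
    Nat.card {H : Subgroup G // Nat.card H = p ^ β} ≡ 1 [MOD p] := by
  classical
  haveI := Fintype.ofFinite G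
  obtain ⟨m, hm⟩ := hdiv
  have hmpos : 0 < m := by
    rcases Nat.eq_zero_or_pos m with h | h
    · rw [h, mul_zero] at hm
      exact absurd hm Nat.card_pos.ne'
    · exact h
  have hn : p ^ β * m ≠ 0 := (Nat.mul_pos (pow_pos hp.pos β) hmpos).ne'
  haveI : NeZero (p ^ β * m) := ⟨hn⟩
  obtain ⟨t, ht⟩ := wielandt (G := G) p β m hp (by rw [← Nat.card_eq_fintype_card, hm])
  obtain ⟨t', ht'⟩ := wielandt (G := Multiplicative (ZMod (p ^ β * m))) p β m hp (by
    rw [Fintype.card_multiplicative, ZMod.card])
  have hcyc : Nat.card {H : Subgroup (Multiplicative (ZMod (p ^ β * m))) // Nat.card H = p ^ β} = 1 := by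
    haveI : Fact p.Prime := ⟨hp⟩
    obtain ⟨H, hH⟩ := Sylow.exists_subgroup_card_pow_prime (G := Multiplicative (ZMod (p ^ β * m))) p
      (n := β) (by rw [Nat.card_eq_fintype_card, Fintype.card_multiplicative, ZMod.card]; exact dvd_mul_right _ _)
    rw [Nat.card_eq_one_iff_unique]
    refine ⟨⟨?_⟩, ⟨⟨H, hH⟩⟩⟩
    intro a b
    ext1
    exact Cfsg.Agent.Lib_helper6_Cyclic.eq_of_card_eq a.1 b.1 (a.2.trans b.2.symm)
  rw [hcyc, ht, one_mul] at ht'
  have h5 : m * (Nat.card {H : Subgroup G // Nat.card H = p ^ β} + p * t) = m * (1 + p * t') := by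
    rw [mul_add, mul_add, mul_one]
    linarith
  have h6 := Nat.eq_of_mul_eq_mul_left hmpos h5
  show _ % p = 1 % p
  have : (Nat.card {H : Subgroup G // Nat.card H = p ^ β} + p * t) % p = (1 + p * t') % p := by
    rw [h6]
  simpa using this

end Cfsg.Agent.Lib_helper5_Frob
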