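import Mathlib
import Cfsg.Agent.Lib_helper5_Frob
import Cfsg.Agent.Lib_helper5_Basic
import Cfsg.Agent.Lib_helper6_OrderCount

set_option autoImplicit false
open MulAction

namespace Cfsg.Agent.Lib_helper5_FrobThm

/-- units of `ZMod d` act on the elements of order `d` by powers -/
@[reducible] noncomputable def unitsAct (G : Type*) [Group G] (d : ℕ) :
    MulAction (ZMod d)ˣ {g : G // orderOf g = d} where
  smul u g := ⟨g.1 ^ (u : ZMod d).val, by
    rw [Nat.Coprime.orderOf_pow]
    · exact g.2
    · rw [g.2]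
      exact (ZMod.val_coe_unit_coprime u).symm⟩
  one_smul g := by
    obtain ⟨g, rfl⟩ := g
    apply Subtype.ext
    show g ^ ((1 : (ZMod (orderOf g))ˣ) : ZMod (orderOf g)).val = g
    rw [Units.val_one, ZMod.val_one_eq_one_mod, pow_mod_orderOf, pow_one]
  mul_smul u v g := by
    obtain ⟨g, rfl⟩ := g
    apply Subtype.ext
    show g ^ ((u * v : (ZMod (orderOf g))ˣ) : ZMod (orderOf g)).val =
      (g ^ (v : ZMod (orderOf g)).val) ^ (u : ZMod (orderOf g)).val
    rw [Units.val_mul, ZMod.val_mul, ← pow_mul, pow_mod_orderOf, mul_comm]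

/-- the number of elements of order `d` is divisible by `φ(d)` -/
theorem totient_dvd_card_orderOf (G : Type*) [Group G] [Finite G] (d : ℕ) :
    Nat.totient d ∣ Nat.card {g : G // orderOf g = d} := by
  rcases Nat.eq_zero_or_pos d with rfl | hd
  · rw [Lib_helper6_OrderCount.card_orderOf_eq_zero]
    exact dvd_zero _
  · haveI : NeZero d := ⟨hd.ne'⟩
    letI := unitsAct G d
    apply Lib_helper5_Frob.dvd_card_of_dvd_index (G := (ZMod d)ˣ) (X := {g : G // orderOf g = d})
    intro x
    have hb : stabilizer (ZMod d)ˣ x = ⊥ := by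
      rw [eq_bot_iff]
      intro u hu
      rw [mem_stabilizer_iff] at hu
      have h1 : x.1 ^ (u : ZMod d).val = x.1 := congrArg Subtype.val hu
      have h2 : (u : ZMod d).val ≡ 1 [MOD d] := by
        have := (pow_eq_pow_iff_modEq (x := x.1) (n := (u : ZMod d).val) (m := 1)).mp
          (by rw [h1, pow_one])
        rwa [x.2] at this
      rw [Subgroup.mem_bot]
      ext
      have h3 := (ZMod.natCast_eq_natCast_iff _ _ _).mpr h2
      rw [ZMod.natCast_zmod_val] at h3
      simpa using h3
    rw [hb, Subgroup.index_bot, Nat.card_eq_fintype_card, ZMod.card_units_eq_totient]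

/-- weighted orbit counting -/
theorem dvd_sum_of_dvd_index_mul {G Y : Type*} [Group G] [Finite G] [MulAction G Y] [Fintype Y]
    (c : ℕ) (F : Y → ℕ) (hF : ∀ (g : G) (y : Y), F (g • y) = F y)
    (h : ∀ y : Y, c ∣ (stabilizer G y).index * F y) : c ∣ ∑ y, F y := by
  classical
  haveI := Fintype.ofFinite (Quotient (orbitRel G Y))
  rw [← Finset.sum_fiberwise Finset.univ (Quotient.mk (orbitRel G Y)) F]
  apply Finset.dvd_sum
  intro ω _
  induction ω using Quotient.inductionOn with
  | h y0 =>
    have h1 : ∀ y ∈ Finset.univ.filter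
        (fun y => Quotient.mk (orbitRel G Y) y = Quotient.mk _ y0), F y = F y0 := by
      intro y hy
      rw [Finset.mem_filter] at hy
      have h2 := Quotient.exact hy.2
      obtain ⟨g, rfl⟩ := h2
      exact hF g y0
    rw [Finset.sum_congr rfl h1, Finset.sum_const, smul_eq_mul]
    have h3 : (Finset.univ.filter
        (fun y => Quotient.mk (orbitRel G Y) y = Quotient.mk _ y0)).card =
        (stabilizer G y0).index := by
      rw [index_stabilizer, ← Set.ncard_coe_finset]
      congr 1
      ext y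
      simp only [Finset.coe_filter, Finset.mem_univ, true_and, Set.mem_ofPred_eq]
      rw [Quotient.eq]
      rfl
    rw [h3]
    exact h y0

theorem normal_of_le_center {H : Type*} [Group H] (Z : Subgroup H)
    (hZ : Z ≤ Subgroup.center H) : Z.Normal := by
  refine ⟨fun n hn g => ?_⟩
  have h := hZ hn
  rw [Subgroup.mem_center_iff] at h
  rw [h g, mul_inv_cancel_right]
  exact hn

/-- `k`-torsion count is unchanged modulo a central subgroup of order prime to `k` -/
theorem card_pow_eq_one_quotient {H : Type*} [Group H] [Finite H] (Z : Subgroup H) [Z.Normal]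
    (hZ : Z ≤ Subgroup.center H) (k : ℕ) (hk : (Nat.card Z).Coprime k) :
    Nat.card {z : H // z ^ k = 1} = Nat.card {w : H ⧸ Z // w ^ k = 1} := by
  apply Nat.card_congr
  refine Equiv.ofBijective
    (fun z => ⟨(z.1 : H ⧸ Z), by rw [← QuotientGroup.mk_pow, z.2]; rfl⟩) ⟨?_, ?_⟩
  · intro z1 z2 h
    have h1 : (z1.1 : H ⧸ Z) = z2.1 := congrArg Subtype.val h
    rw [QuotientGroup.eq] at h1
    have hc := hZ h1
    rw [Subgroup.mem_center_iff] at hc
    have hcomm : Commute z1.1 (z1.1⁻¹ * z2.1) := hc z1.1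
    have h2 : (z1.1⁻¹ * z2.1) ^ k = 1 := by
      have e : z2.1 = z1.1 * (z1.1⁻¹ * z2.1) := by group
      have h3 := z2.2
      rw [e, hcomm.mul_pow, z1.2, one_mul] at h3
      exact h3
    have h3 : orderOf (z1.1⁻¹ * z2.1) ∣ k := orderOf_dvd_of_pow_eq_one h2
    have h4 : orderOf (z1.1⁻¹ * z2.1) ∣ Nat.card Z := by
      have := orderOf_dvd_natCard (⟨_, h1⟩ : Z)
      rwa [Subgroup.orderOf_mk] at this
    have h5 : orderOf (z1.1⁻¹ * z2.1) = 1 := Nat.eq_one_of_dvd_coprimes hk h4 h3
    rw [orderOf_eq_one_iff] at h5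
    apply Subtype.ext
    exact inv_mul_eq_one.mp h5
  · rintro ⟨w, hw⟩
    obtain ⟨h, rfl⟩ := QuotientGroup.mk_surjective w
    have h1 : h ^ k ∈ Z := by
      rw [← QuotientGroup.eq_one_iff, QuotientGroup.mk_pow]
      exact hw
    obtain ⟨c, hc⟩ := (powCoprime hk).surjective ⟨(h ^ k)⁻¹, Z.inv_mem h1⟩
    have hc' : (c : H) ^ k = (h ^ k)⁻¹ := by
      have := congrArg Subtype.val hc
      simpa using this
    have hcomm : Commute h (c : H) := Subgroup.mem_center_iff.mp (hZ c.2) h
    refine ⟨⟨h * c, by rw [hcomm.mul_pow, hc', mul_inv_cancel]⟩, ?_⟩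
    apply Subtype.ext
    show ((h * c : H) : H ⧸ Z) = h
    rw [QuotientGroup.mk_mul, (QuotientGroup.eq_one_iff _).mpr c.2, mul_one]

theorem card_pow_eq_one_gcd (G : Type*) [Group G] [Finite G] (k : ℕ) :
    Nat.card {g : G // g ^ k = 1} = Nat.card {g : G // g ^ (Nat.gcd k (Nat.card G)) = 1} := by
  apply Nat.card_congr
  apply Equiv.subtypeEquivRight
  intro g
  constructor
  · intro h
    exact orderOf_dvd_iff_pow_eq_one.mp
      (Nat.dvd_gcd (orderOf_dvd_of_pow_eq_one h) (orderOf_dvd_natCard g))
  · intro h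
    exact orderOf_dvd_iff_pow_eq_one.mp
      (dvd_trans (orderOf_dvd_of_pow_eq_one h) (Nat.gcd_dvd_left _ _))

theorem card_split {α : Type*} [Finite α] (P Q : α → Prop) (h : ∀ a, P a → Q a) :
    Nat.card {a // Q a} = Nat.card {a // P a} + Nat.card {a // Q a ∧ ¬ P a} := by
  classical
  haveI := Fintype.ofFinite α
  rw [Nat.card_eq_fintype_card, Nat.card_eq_fintype_card, Nat.card_eq_fintype_card,
    Fintype.card_subtype, Fintype.card_subtype, Fintype.card_subtype]
  rw [← Finset.card_filter_add_card_filter_not (s := Finset.univ.filter Q) P,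
    Finset.filter_filter, Finset.filter_filter]
  congr 2
  ext a
  simp only [Finset.mem_filter, Finset.mem_univ, true_and, and_iff_right_iff_imp]
  exact h a

/-- conjugation action on the elements of a given order -/
@[reducible] def conjOrd (G : Type*) [Group G] (q : ℕ) : MulAction G {y : G // orderOf y = q} where
  smul g y := ⟨g * y.1 * g⁻¹, by rw [Lib_helper5_Basic.orderOf_conj']; exact y.2⟩
  one_smul y := Subtype.ext (by show 1 * y.1 * 1⁻¹ = y.1; simp)
  mul_smul a b y := Subtype.ext (by
    show (a * b) * y.1 * (a * b)⁻¹ = a * (b * y.1 * b⁻¹) * a⁻¹; group)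

theorem F_invariant {G : Type*} [Group G] [Finite G] (g : G) (y : G) (k : ℕ) :
    Nat.card {z : G // Commute z (g * y * g⁻¹) ∧ z ^ k = 1} =
      Nat.card {z : G // Commute z y ∧ z ^ k = 1} := by
  symm
  apply Nat.card_congr
  refine Equiv.subtypeEquiv (MulAut.conj g).toEquiv ?_
  intro z
  show Commute z y ∧ z ^ k = 1 ↔
    Commute (g * z * g⁻¹) (g * y * g⁻¹) ∧ (g * z * g⁻¹) ^ k = 1
  rw [conj_pow]
  constructor
  · rintro ⟨h1, h2⟩
    refine ⟨?_, by rw [h2]; group⟩
    have := h1.map (MulAut.conj g)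
    simpa using this
  · rintro ⟨h1, h2⟩
    refine ⟨?_, ?_⟩
    · have := h1.map (MulAut.conj g⁻¹)
      simpa [mul_assoc] using this
    · have := congrArg (fun t => g⁻¹ * t * g) h2
      simpa [mul_assoc] using this

theorem card_commute_eq {G : Type*} [Group G] [Finite G] (y : G) (k : ℕ) :
    Nat.card {z : G // Commute z y ∧ z ^ k = 1} =
      Nat.card {z : Subgroup.centralizer ({y} : Set G) // z ^ k = 1} := by
  apply Nat.card_congr
  exact
    { toFun := fun z => ⟨⟨z.1, Subgroup.mem_centralizer_singleton_iff.mpr z.2.1⟩,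
        Subtype.ext (by simpa using z.2.2)⟩
      invFun := fun z => ⟨z.1.1, Subgroup.mem_centralizer_singleton_iff.mp z.1.2, by
        have := congrArg Subtype.val z.2
        simpa using this⟩
      left_inv := fun _ => rfl
      right_inv := fun _ => rfl }

/-- the elements killed by `p^(a+1) k` but not by `p^a k`, fibred over their `p`-parts -/
theorem card_X_eq {G : Type*} [Group G] [Finite G] (p a k : ℕ) (hp : p.Prime) (hpk : ¬ p ∣ k) :
    Nat.card {x : G // x ^ (p ^ (a + 1) * k) = 1 ∧ x ^ (p ^ a * k) ≠ 1} =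
      Nat.card (Σ y : {y : G // orderOf y = p ^ (a + 1)},
        {z : G // Commute z y.1 ∧ z ^ k = 1}) := by
  classical
  have hq2 : p ^ (a + 1) = p ^ a * p := pow_succ p a
  generalize hq : p ^ (a + 1) = q at hq2
  have hqk : q.Coprime k := by
    rw [← hq]
    exact Nat.Coprime.pow_left _ ((Nat.Prime.coprime_iff_not_dvd hp).mpr hpk)
  obtain ⟨e, he1, he0⟩ := Nat.chineseRemainder hqk 1 0
  obtain ⟨e', he'0, he'1⟩ := Nat.chineseRemainder hqk 0 1
  have hke : k ∣ e := (Nat.modEq_zero_iff_dvd).mp he0
  have hqe' : q ∣ e' := (Nat.modEq_zero_iff_dvd).mp he'0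
  have hsum : e + e' ≡ 1 [MOD q * k] := by
    rw [← Nat.modEq_and_modEq_iff_modEq_mul hqk]
    constructor
    · simpa using he1.add he'0
    · simpa using he0.add he'1
  have key1 : ∀ x : G, x ^ (q * k) = 1 → x ^ e * x ^ e' = x := by
    intro x hx
    rw [← pow_add]
    have := (pow_eq_pow_iff_modEq (x := x) (n := e + e') (m := 1)).mpr
      (hsum.of_dvd (orderOf_dvd_of_pow_eq_one hx))
    rw [this, pow_one]
  have hord : ∀ x : G, x ^ (q * k) = 1 → x ^ (p ^ a * k) ≠ 1 → orderOf (x ^ e) = q := by
    intro x hx hx2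
    have h1 : (x ^ e) ^ q = 1 := by
      obtain ⟨t, rfl⟩ := hke
      rw [← pow_mul, show k * t * q = q * k * t by ring, pow_mul, hx, one_pow]
    have h2 : orderOf (x ^ e) ∣ p ^ (a + 1) := by
      rw [hq]
      exact orderOf_dvd_of_pow_eq_one h1
    obtain ⟨j, hj, hj2⟩ := (Nat.dvd_prime_pow hp).mp h2
    by_contra hne
    have hja : j ≤ a := by
      by_contra hcon
      have : j = a + 1 := by omega
      rw [this, hq] at hj2
      exact hne hj2
    have h3 : (x ^ e) ^ (p ^ a) = 1 := by
      apply orderOf_dvd_iff_pow_eq_one.mp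
      rw [hj2]
      exact pow_dvd_pow p hja
    apply hx2
    have h4 : p ^ a * (k * e) ≡ p ^ a * (k * 1) [MOD k * q] := (he1.mul_left' k).mul_left _
    have h5 := (pow_eq_pow_iff_modEq (x := x)).mpr
      (h4.of_dvd (by rw [mul_comm k q]; exact orderOf_dvd_of_pow_eq_one hx))
    rw [mul_one] at h5
    rw [← h5, show p ^ a * (k * e) = e * p ^ a * k by ring, pow_mul, pow_mul, h3, one_pow]
  have hy1 : ∀ y : G, orderOf y = q → ∀ z : G, Commute z y → z ^ k = 1 →
      (y * z) ^ e = y ∧ (y * z) ^ e' = z := by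
    intro y hy z hzy hz
    constructor
    · rw [hzy.symm.mul_pow]
      have h1 : z ^ e = 1 := by
        obtain ⟨t, rfl⟩ := hke
        rw [pow_mul, hz, one_pow]
      have h2 : y ^ e = y ^ 1 := by
        rw [pow_eq_pow_iff_modEq, hy]
        exact he1
      rw [h1, h2, pow_one, mul_one]
    · rw [hzy.symm.mul_pow]
      have h1 : y ^ e' = 1 := by
        obtain ⟨t, rfl⟩ := hqe'
        rw [pow_mul, ← hy, pow_orderOf_eq_one, one_pow]
      have h2 : z ^ e' = z ^ 1 := by
        rw [pow_eq_pow_iff_modEq]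
        exact he'1.of_dvd (orderOf_dvd_of_pow_eq_one hz)
      rw [h1, h2, pow_one, one_mul]
  have hy2 : ∀ y : G, orderOf y = q → ∀ z : G, Commute z y → z ^ k = 1 →
      (y * z) ^ (q * k) = 1 ∧ (y * z) ^ (p ^ a * k) ≠ 1 := by
    intro y hy z hzy hz
    have hyq : y ^ q = 1 := by rw [← hy, pow_orderOf_eq_one]
    constructor
    · rw [hzy.symm.mul_pow, pow_mul, hyq, one_pow, one_mul, mul_comm,
        pow_mul, hz, one_pow]
    · rw [hzy.symm.mul_pow, mul_comm (p ^ a) k, pow_mul z, hz, one_pow, mul_one]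
      intro hcon
      have h1 := orderOf_dvd_of_pow_eq_one hcon
      rw [hy, hq2, mul_comm k] at h1
      exact hpk (Nat.dvd_of_mul_dvd_mul_left (pow_pos hp.pos a) h1)
  apply Nat.card_congr
  exact
    { toFun := fun x => ⟨⟨x.1 ^ e, hord x.1 x.2.1 x.2.2⟩, ⟨x.1 ^ e', Commute.pow_pow_self x.1 e' e, by
        obtain ⟨t, rfl⟩ := hqe'
        rw [← pow_mul, show q * t * k = q * k * t by ring, pow_mul, x.2.1, one_pow]⟩⟩
      invFun := fun yz => ⟨yz.1.1 * yz.2.1, hy2 yz.1.1 yz.1.2 yz.2.1 yz.2.2.1 yz.2.2.2⟩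
      left_inv := fun x => Subtype.ext (key1 x.1 x.2.1)
      right_inv := fun yz => by
        obtain ⟨h1, h2⟩ := hy1 yz.1.1 yz.1.2 yz.2.1 yz.2.2.1 yz.2.2.2
        apply Sigma.subtype_ext
        · exact Subtype.ext h1
        · exact h2 }

universe u

theorem frobenius_aux : ∀ (n : ℕ) (G : Type u) [Group G] [Finite G], Nat.card G = n →
    ∀ m, m ∣ n → m ∣ Nat.card {g : G // g ^ m = 1} := by
  intro n
  induction n using Nat.strong_induction_on with
  | _ n IH =>
  intro G _ _ hG
  have hn0 : n ≠ 0 := by rw [← hG]; exact Nat.card_pos.ne'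
  have inner : ∀ d m, m * d = n → m ∣ Nat.card {g : G // g ^ m = 1} := by
    intro d
    induction d using Nat.strong_induction_on with
    | _ d IHd =>
    intro m hmd
    have hm0 : m ≠ 0 := by
      rintro rfl
      rw [zero_mul] at hmd
      exact hn0 hmd.symm
    have hd0 : d ≠ 0 := by
      rintro rfl
      rw [mul_zero] at hmd
      exact hn0 hmd.symm
    by_cases hd1 : d = 1
    · subst hd1
      rw [mul_one] at hmd
      subst hmd
      have h1 := Lib_helper6_OrderCount.card_pow_card_eq_one (G := G) 1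
      rw [mul_one, hG] at h1
      rw [h1]
    · obtain ⟨p, hp, hpd⟩ := Nat.exists_prime_and_dvd hd1
      obtain ⟨d', rfl⟩ := hpd
      have hd'0 : d' ≠ 0 := by
        rintro rfl
        exact hd0 (mul_zero p)
      have hlt : d' < p * d' := by
        have := hp.two_le
        have : 0 < d' := Nat.pos_of_ne_zero hd'0
        nlinarith
      have h1 : m * p ∣ Nat.card {g : G // g ^ (m * p) = 1} :=
        IHd d' hlt (m * p) (by rw [← hmd]; ring)
      obtain ⟨a, k, hpk, rfl⟩ := Nat.exists_eq_pow_mul_and_not_dvd hm0 p hp.ne_one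
      have hk0 : k ≠ 0 := by
        rintro rfl
        exact hm0 (mul_zero _)
      have hcop1 : p.Coprime k := (Nat.Prime.coprime_iff_not_dvd hp).mpr hpk
      have hcop : (p ^ a).Coprime k := Nat.Coprime.pow_left _ hcop1
      have hpos : 0 < p ^ a * k * p :=
        Nat.mul_pos (Nat.pos_of_ne_zero hm0) hp.pos
      apply Nat.Coprime.mul_dvd_of_dvd_of_dvd hcop
      · have hs1 := Lib_helper6_OrderCount.card_pow_eq_one_eq_sum (G := G) (p ^ a * k * p) hpos
        have hs2 := Lib_helper6_OrderCount.card_pow_eq_one_eq_sum (G := G) (p ^ a * k)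
          (Nat.pos_of_ne_zero hm0)
        have hsub : (p ^ a * k).divisors ⊆ (p ^ a * k * p).divisors :=
          Nat.divisors_subset_of_dvd hpos.ne' (dvd_mul_right _ _)
        have hsd := Finset.sum_sdiff hsub (f := fun d => Nat.card {g : G // orderOf g = d})
        rw [← hs1, ← hs2] at hsd
        have hX : p ^ a ∣ ∑ d ∈ (p ^ a * k * p).divisors \ (p ^ a * k).divisors,
            Nat.card {g : G // orderOf g = d} := by
          apply Finset.dvd_sum
          intro d hd
          rw [Finset.mem_sdiff, Nat.mem_divisors, Nat.mem_divisors] at hd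
          have hd1 : d ∣ p ^ a * k * p := hd.1.1
          have hd2 : ¬ d ∣ p ^ a * k := fun h => hd.2 ⟨h, hm0⟩
          have hd0' : d ≠ 0 := by
            rintro rfl
            exact hpos.ne' (zero_dvd_iff.mp hd1)
          have hpd : p ^ (a + 1) ∣ d := by
            obtain ⟨b, d'', hpd'', rfl⟩ := Nat.exists_eq_pow_mul_and_not_dvd hd0' p hp.ne_one
            have hab : a + 1 ≤ b := by
              by_contra hcon
              have hba : b ≤ a := by omega
              apply hd2
              apply Nat.mul_dvd_mul (pow_dvd_pow p hba)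
              have h3 : d'' ∣ k * p ^ (a + 1) := by
                refine dvd_trans (dvd_mul_left _ _) (dvd_trans hd1 ?_)
                rw [pow_succ]
                exact dvd_of_eq (by ring)
              exact Nat.Coprime.dvd_of_dvd_mul_right
                (Nat.Coprime.pow_right _ ((Nat.Prime.coprime_iff_not_dvd hp).mpr hpd'').symm) h3
            exact dvd_trans (pow_dvd_pow p hab) (dvd_mul_right _ _)
          calc p ^ a ∣ p ^ a * (p - 1) := dvd_mul_right _ _
            _ = Nat.totient (p ^ (a + 1)) := (Nat.totient_prime_pow_succ hp a).symm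
            _ ∣ Nat.totient d := Nat.totient_dvd_of_dvd hpd
            _ ∣ _ := totient_dvd_card_orderOf G d
        have h2 : p ^ a ∣ Nat.card {g : G // g ^ (p ^ a * k * p) = 1} :=
          dvd_trans (dvd_mul_of_dvd_left (dvd_mul_right _ _) _) h1
        rw [← hsd] at h2
        exact (Nat.dvd_add_right hX).mp h2
      · have hexp : p ^ a * k * p = p ^ (a + 1) * k := by rw [pow_succ]; ring
        have hsplit := card_split (α := G) (fun g => g ^ (p ^ a * k) = 1)
          (fun g => g ^ (p ^ a * k * p) = 1) (fun g hg => by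
            show g ^ (p ^ a * k * p) = 1
            rw [pow_mul, hg, one_pow])
        have hX : k ∣ Nat.card {x : G // x ^ (p ^ a * k * p) = 1 ∧ ¬ x ^ (p ^ a * k) = 1} := by
          classical
          haveI := Fintype.ofFinite {y : G // orderOf y = p ^ (a + 1)}
          rw [hexp]
          have hc := card_X_eq (G := G) p a k hp hpk
          rw [Nat.card_sigma] at hc
          rw [show Nat.card {x : G // x ^ (p ^ (a + 1) * k) = 1 ∧ ¬ x ^ (p ^ a * k) = 1} = _ from hc]
          letI := conjOrd G (p ^ (a + 1))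
          apply dvd_sum_of_dvd_index_mul (G := G)
          · intro g y
            exact F_invariant g y.1 k
          · intro y
            have hstab : stabilizer G y = Subgroup.centralizer ({y.1} : Set G) := by
              ext g
              rw [mem_stabilizer_iff, Subgroup.mem_centralizer_singleton_iff]
              constructor
              · intro h
                have h' : g * y.1 * g⁻¹ = y.1 := congrArg Subtype.val h
                calc g * y.1 = (g * y.1 * g⁻¹) * g := by group
                  _ = y.1 * g := by rw [h']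
              · intro h
                apply Subtype.ext
                show g * y.1 * g⁻¹ = y.1
                rw [h, mul_inv_cancel_right]
            rw [hstab]
            generalize hH : Subgroup.centralizer ({y.1} : Set G) = H
            have hyH : y.1 ∈ H := by
              rw [← hH, Subgroup.mem_centralizer_singleton_iff]
            have hZc : Subgroup.zpowers (⟨y.1, hyH⟩ : H) ≤ Subgroup.center H := by
              rw [Subgroup.zpowers_le, Subgroup.mem_center_iff]
              intro h
              apply Subtype.ext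
              show h.1 * y.1 = y.1 * h.1
              have h' : (h : G) ∈ Subgroup.centralizer ({y.1} : Set G) := by
                rw [hH]
                exact h.2
              exact Subgroup.mem_centralizer_singleton_iff.mp h'
            generalize hZ : Subgroup.zpowers (⟨y.1, hyH⟩ : H) = Z at hZc
            haveI : Z.Normal := normal_of_le_center Z hZc
            have hZcard : Nat.card Z = p ^ (a + 1) := by
              rw [← hZ, Nat.card_zpowers, Subgroup.orderOf_mk]
              exact y.2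
            have hF1 : Nat.card {z : G // Commute z y.1 ∧ z ^ k = 1} =
                Nat.card {z : H // z ^ k = 1} := by
              rw [← hH]
              exact card_commute_eq y.1 k
            have hF2 := card_pow_eq_one_quotient Z hZc k (by
              rw [hZcard]
              exact Nat.Coprime.pow_left _ hcop1)
            have hF3 := card_pow_eq_one_gcd (H ⧸ Z) k
            rw [hF1, hF2, hF3]
            have e1 : Nat.card (H ⧸ Z) * p ^ (a + 1) = Nat.card H := by
              rw [← hZcard]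
              exact Subgroup.index_mul_card Z
            have e2 : H.index * Nat.card H = n := by
              rw [Subgroup.index_mul_card, hG]
            have hlt : Nat.card (H ⧸ Z) < n := by
              have h5 : Nat.card H ≤ n := by
                rw [← hG]
                exact Subgroup.card_le_card_group H
              have h6 : 0 < Nat.card (H ⧸ Z) := Nat.card_pos
              have h7 : 2 ≤ p ^ (a + 1) := by
                calc 2 ≤ p := hp.two_le
                  _ = p ^ 1 := (pow_one p).symm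
                  _ ≤ p ^ (a + 1) := Nat.pow_le_pow_right hp.pos (by omega)
              nlinarith
            have hIH := IH (Nat.card (H ⧸ Z)) hlt (H ⧸ Z) rfl (Nat.gcd k (Nat.card (H ⧸ Z)))
              (Nat.gcd_dvd_right _ _)
            refine dvd_trans ?_ (Nat.mul_dvd_mul_left _ hIH)
            rw [← Nat.gcd_mul_left]
            apply Nat.dvd_gcd (dvd_mul_left _ _)
            have e3 : p ^ (a + 1) * k ∣ p ^ (a + 1) * (H.index * Nat.card (H ⧸ Z)) := by
              have e4 : p ^ (a + 1) * (H.index * Nat.card (H ⧸ Z)) = n := by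
                rw [← e2, ← e1]
                ring
              rw [e4]
              exact ⟨d', by rw [← hmd, pow_succ]; ring⟩
            exact Nat.dvd_of_mul_dvd_mul_left (pow_pos hp.pos _) e3
        have h2 : k ∣ Nat.card {g : G // g ^ (p ^ a * k * p) = 1} :=
          dvd_trans (dvd_mul_of_dvd_left (dvd_mul_left _ _) _) h1
        rw [hsplit] at h2
        exact (Nat.dvd_add_left hX).mp h2
  intro m hm
  obtain ⟨d, hd⟩ := hm
  exact inner d m hd.symm

/-- **Frobenius' theorem**: if `m ∣ |G|` then `m` divides the number of solutions of `g ^ m = 1`. -/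
theorem frobenius {G : Type u} [Group G] [Finite G] (m : ℕ) (hm : m ∣ Nat.card G) :
    m ∣ Nat.card {g : G // g ^ m = 1} :=
  frobenius_aux (Nat.card G) G rfl m hm

/-- splitting elements into commuting `A`-part and `c`-part for coprime `A`, `c` -/
theorem card_split_coprime {G : Type*} [Group G] [Finite G] (A c : ℕ) (hAc : A.Coprime c)
    (P : G → Prop)
    (hP : ∀ u v : G, u ^ A = 1 → v ^ c = 1 → Commute v u → (P (u * v) ↔ P u)) :
    Nat.card {g : G // g ^ (A * c) = 1 ∧ P g} =
      Nat.card (Σ u : {u : G // u ^ A = 1 ∧ P u}, {v : G // Commute v u.1 ∧ v ^ c = 1}) := by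
  classical
  obtain ⟨e, he1, he0⟩ := Nat.chineseRemainder hAc 1 0
  obtain ⟨e', he'0, he'1⟩ := Nat.chineseRemainder hAc 0 1
  have hce : c ∣ e := (Nat.modEq_zero_iff_dvd).mp he0
  have hAe' : A ∣ e' := (Nat.modEq_zero_iff_dvd).mp he'0
  have hsum : e + e' ≡ 1 [MOD A * c] := by
    rw [← Nat.modEq_and_modEq_iff_modEq_mul hAc]
    constructor
    · simpa using he1.add he'0
    · simpa using he0.add he'1
  have key1 : ∀ x : G, x ^ (A * c) = 1 → x ^ e * x ^ e' = x := by
    intro x hx
    rw [← pow_add]
    have := (pow_eq_pow_iff_modEq (x := x) (n := e + e') (m := 1)).mpr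
      (hsum.of_dvd (orderOf_dvd_of_pow_eq_one hx))
    rw [this, pow_one]
  have hA1 : ∀ x : G, x ^ (A * c) = 1 → (x ^ e) ^ A = 1 := by
    intro x hx
    obtain ⟨t, rfl⟩ := hce
    rw [← pow_mul, show c * t * A = A * c * t by ring, pow_mul, hx, one_pow]
  have hc1 : ∀ x : G, x ^ (A * c) = 1 → (x ^ e') ^ c = 1 := by
    intro x hx
    obtain ⟨t, rfl⟩ := hAe'
    rw [← pow_mul, show A * t * c = A * c * t by ring, pow_mul, hx, one_pow]
  have hy1 : ∀ u : G, u ^ A = 1 → ∀ v : G, Commute v u → v ^ c = 1 →
      (u * v) ^ e = u ∧ (u * v) ^ e' = v := by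
    intro u hu v hvu hv
    constructor
    · rw [hvu.symm.mul_pow]
      have h1 : v ^ e = 1 := by
        obtain ⟨t, rfl⟩ := hce
        rw [pow_mul, hv, one_pow]
      have h2 : u ^ e = u ^ 1 := by
        rw [pow_eq_pow_iff_modEq]
        exact he1.of_dvd (orderOf_dvd_of_pow_eq_one hu)
      rw [h1, h2, pow_one, mul_one]
    · rw [hvu.symm.mul_pow]
      have h1 : u ^ e' = 1 := by
        obtain ⟨t, rfl⟩ := hAe'
        rw [pow_mul, hu, one_pow]
      have h2 : v ^ e' = v ^ 1 := by
        rw [pow_eq_pow_iff_modEq]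
        exact he'1.of_dvd (orderOf_dvd_of_pow_eq_one hv)
      rw [h1, h2, pow_one, one_mul]
  have hy2 : ∀ u : G, u ^ A = 1 → ∀ v : G, Commute v u → v ^ c = 1 →
      (u * v) ^ (A * c) = 1 := by
    intro u hu v hvu hv
    rw [hvu.symm.mul_pow, pow_mul, hu, one_pow, one_mul, mul_comm, pow_mul, hv, one_pow]
  apply Nat.card_congr
  exact
    { toFun := fun x => ⟨⟨x.1 ^ e, hA1 x.1 x.2.1, by
          have h := hP (x.1 ^ e) (x.1 ^ e') (hA1 x.1 x.2.1) (hc1 x.1 x.2.1)
            (Commute.pow_pow_self x.1 e' e)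
          rw [key1 x.1 x.2.1] at h
          exact h.mp x.2.2⟩,
        ⟨x.1 ^ e', Commute.pow_pow_self x.1 e' e, hc1 x.1 x.2.1⟩⟩
      invFun := fun yz => ⟨yz.1.1 * yz.2.1, hy2 yz.1.1 yz.1.2.1 yz.2.1 yz.2.2.1 yz.2.2.2,
        (hP yz.1.1 yz.2.1 yz.1.2.1 yz.2.2.2 yz.2.2.1).mpr yz.1.2.2⟩
      left_inv := fun x => Subtype.ext (key1 x.1 x.2.1)
      right_inv := fun yz => by
        obtain ⟨h1, h2⟩ := hy1 yz.1.1 yz.1.2.1 yz.2.1 yz.2.2.1 yz.2.2.2
        apply Sigma.subtype_ext
        · exact Subtype.ext h1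
        · exact h2 }

/-- conjugation action on a conjugation-invariant set of elements -/
@[reducible] def conjSub (G : Type*) [Group G] (Q : G → Prop)
    (hQ : ∀ g u : G, Q u → Q (g * u * g⁻¹)) : MulAction G {u : G // Q u} where
  smul g y := ⟨g * y.1 * g⁻¹, hQ g y.1 y.2⟩
  one_smul y := Subtype.ext (by show 1 * y.1 * 1⁻¹ = y.1; simp)
  mul_smul a b y := Subtype.ext (by
    show (a * b) * y.1 * (a * b)⁻¹ = a * (b * y.1 * b⁻¹) * a⁻¹; group)

theorem conjSub_stabilizer {G : Type*} [Group G] (Q : G → Prop)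
    (hQ : ∀ g u : G, Q u → Q (g * u * g⁻¹)) (y : {u : G // Q u}) :
    @stabilizer G {u : G // Q u} _ (conjSub G Q hQ) y =
      Subgroup.centralizer ({y.1} : Set G) := by
  letI := conjSub G Q hQ
  ext g
  rw [mem_stabilizer_iff, Subgroup.mem_centralizer_singleton_iff]
  constructor
  · intro h
    have h' : g * y.1 * g⁻¹ = y.1 := congrArg Subtype.val h
    calc g * y.1 = (g * y.1 * g⁻¹) * g := by group
      _ = y.1 * g := by rw [h']
  · intro h
    apply Subtype.ext
    show g * y.1 * g⁻¹ = y.1
    rw [h, mul_inv_cancel_right]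

theorem coprime_div_gcd_pow (N n : ℕ) (hN : 0 < N) :
    Nat.Coprime (N / Nat.gcd N (n ^ N)) n := by
  have hgN : Nat.gcd N (n ^ N) ∣ N := Nat.gcd_dvd_left _ _
  generalize hg : Nat.gcd N (n ^ N) = g at hgN
  have hg0 : g ≠ 0 := by
    rintro rfl
    rw [zero_dvd_iff] at hgN
    omega
  apply Nat.coprime_of_dvd
  intro p hp hpc hpn
  obtain ⟨s, g', hpg', hgs⟩ := Nat.exists_eq_pow_mul_and_not_dvd hg0 p hp.ne_one
  have h1 : p ^ (s + 1) ∣ N := by
    have h0 : g * (N / g) = N := Nat.mul_div_cancel' hgN
    rw [← h0, pow_succ]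
    exact Nat.mul_dvd_mul (hgs ▸ dvd_mul_right _ _) hpc
  have h2 : s + 1 ≤ N := by
    have h3 := Nat.le_of_dvd hN h1
    have h4 : s + 1 < p ^ (s + 1) := Nat.lt_pow_self hp.one_lt
    omega
  have h3 : p ^ (s + 1) ∣ n ^ N := dvd_trans (pow_dvd_pow p h2) (pow_dvd_pow_of_dvd hpn N)
  have h4 : p ^ (s + 1) ∣ g := by
    rw [← hg]
    exact Nat.dvd_gcd h1 h3
  rw [hgs, pow_succ] at h4
  exact hpg' (Nat.dvd_of_mul_dvd_mul_left (pow_pos hp.pos s) h4)

/-- the number of elements of order divisible by `n` is divisible by the `n'`-part of `|G|` -/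
theorem card_dvd_orderOf_dvd {G : Type u} [Group G] [Finite G] (n : ℕ) :
    (Nat.card G / Nat.gcd (Nat.card G) (n ^ Nat.card G)) ∣ Nat.card {g : G // n ∣ orderOf g} := by
  have hNpos : 0 < Nat.card G := Nat.card_pos
  have hcn := coprime_div_gcd_pow (Nat.card G) n hNpos
  have hAc : Nat.gcd (Nat.card G) (n ^ Nat.card G) *
      (Nat.card G / Nat.gcd (Nat.card G) (n ^ Nat.card G)) = Nat.card G :=
    Nat.mul_div_cancel' (Nat.gcd_dvd_left _ _)
  have hAn : Nat.gcd (Nat.card G) (n ^ Nat.card G) ∣ n ^ Nat.card G := Nat.gcd_dvd_right _ _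
  generalize Nat.card G / Nat.gcd (Nat.card G) (n ^ Nat.card G) = c at hcn hAc
  generalize Nat.gcd (Nat.card G) (n ^ Nat.card G) = A at hAc hAn
  have hcop : A.Coprime c :=
    Nat.Coprime.coprime_dvd_left hAn (Nat.Coprime.pow_left _ hcn.symm)
  have h1 : Nat.card {g : G // n ∣ orderOf g} =
      Nat.card {g : G // g ^ (A * c) = 1 ∧ n ∣ orderOf g} :=
    Nat.card_congr (Equiv.subtypeEquivRight (fun g => by
      rw [hAc, pow_card_eq_one']
      simp))
  have hP : ∀ u v : G, u ^ A = 1 → v ^ c = 1 → Commute v u →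
      (n ∣ orderOf (u * v) ↔ n ∣ orderOf u) := by
    intro u v hu hv hvu
    have hco : (orderOf u).Coprime (orderOf v) :=
      Nat.Coprime.coprime_dvd_left (orderOf_dvd_of_pow_eq_one hu)
        (Nat.Coprime.coprime_dvd_right (orderOf_dvd_of_pow_eq_one hv) hcop)
    rw [hvu.symm.orderOf_mul_eq_mul_orderOf_of_coprime hco]
    constructor
    · intro h
      exact Nat.Coprime.dvd_of_dvd_mul_right
        (Nat.Coprime.coprime_dvd_right (orderOf_dvd_of_pow_eq_one hv) hcn.symm) h
    · intro h
      exact dvd_mul_of_dvd_left h _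
  rw [h1, card_split_coprime A c hcop (fun g => n ∣ orderOf g) hP]
  classical
  haveI := Fintype.ofFinite {u : G // u ^ A = 1 ∧ n ∣ orderOf u}
  rw [Nat.card_sigma]
  have hQ : ∀ g u : G, (u ^ A = 1 ∧ n ∣ orderOf u) →
      ((g * u * g⁻¹) ^ A = 1 ∧ n ∣ orderOf (g * u * g⁻¹)) := by
    rintro g u ⟨h1, h2⟩
    rw [conj_pow, h1, Lib_helper5_Basic.orderOf_conj']
    exact ⟨by group, h2⟩
  letI := conjSub G (fun u => u ^ A = 1 ∧ n ∣ orderOf u) hQ
  apply dvd_sum_of_dvd_index_mul (G := G)
  · intro g u
    exact F_invariant g u.1 c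
  · intro u
    rw [conjSub_stabilizer, card_commute_eq, card_pow_eq_one_gcd]
    generalize Subgroup.centralizer ({u.1} : Set G) = H
    have hfr := frobenius (G := H) (Nat.gcd c (Nat.card H)) (Nat.gcd_dvd_right _ _)
    refine dvd_trans ?_ (Nat.mul_dvd_mul_left _ hfr)
    rw [← Nat.gcd_mul_left]
    apply Nat.dvd_gcd (dvd_mul_left _ _)
    rw [Subgroup.index_mul_card]
    exact ⟨A, by rw [mul_comm]; exact hAc.symm⟩

end Cfsg.Agent.Lib_helper5_FrobThm
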