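import Mathlib
import Cfsg.Prelude.Def_Characters
import Cfsg.Agent.Lib_helper3_CharBasic
import Cfsg.Agent.Lib_helper3_CharMore
import Cfsg.Agent.Lib_helper3_CharOdd
import Cfsg.Agent.Lib_helper3_CharProd
import Cfsg.Agent.Lib_helper3_CharInd
import Cfsg.Agent.Lib_helper3_FS
import Cfsg.Agent.Lib_helper1_PGroup

set_option autoImplicit false

namespace Cfsg.Agent.Lib_helper5_InvCount

open Cfsg MulAction
open Cfsg.Agent.Lib_helper3_CharBasic Cfsg.Agent.Lib_helper3_CharMore
open scoped ComplexConjugate commutatorElement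

universe u

variable {G : Type u} [Group G]

/-- the group of sign characters: homomorphisms `G →* ℂˣ` with square one -/
def signChars (G : Type u) [Group G] : Subgroup (G →* ℂˣ) :=
  (powMonoidHom 2 : (G →* ℂˣ) →* (G →* ℂˣ)).ker

theorem sign_sq (l : signChars G) (g : G) : ((l.1 g : ℂˣ) : ℂ) ^ 2 = 1 := by
  have h1 : l.1 ^ 2 = 1 := l.2
  have h2 : (l.1 ^ 2) g = 1 := by rw [h1]; rfl
  have h3 : (l.1 g) ^ 2 = 1 := h2
  have := congrArg Units.val h3
  simpa using this

theorem sign_cases (l : signChars G) (g : G) :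
    ((l.1 g : ℂˣ) : ℂ) = 1 ∨ ((l.1 g : ℂˣ) : ℂ) = -1 :=
  mul_self_eq_one_iff.mp (by rw [← pow_two]; exact sign_sq l g)

theorem sign_conj (l : signChars G) (g : G) :
    conj ((l.1 g : ℂˣ) : ℂ) = ((l.1 g : ℂˣ) : ℂ) := by
  rcases sign_cases l g with h | h <;> rw [h] <;> simp

theorem sign_mul_conj (l : signChars G) (g : G) :
    ((l.1 g : ℂˣ) : ℂ) * conj ((l.1 g : ℂˣ) : ℂ) = 1 := by
  rw [sign_conj, ← pow_two, sign_sq]

theorem sign_mul_self (l : signChars G) (s : G) : ((l.1 (s * s) : ℂˣ) : ℂ) = 1 := by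
  rw [map_mul, Units.val_mul, ← pow_two, sign_sq]

theorem irr_mul_sign [Finite G] (l : signChars G) (χ : IrrCharacter G) :
    IsIrrCharacter G (fun g => ((l.1 g : ℂˣ) : ℂ) * χ.1 g) := by
  classical
  haveI := Fintype.ofFinite G
  have hchar : IsCharacter G (fun g => ((l.1 g : ℂˣ) : ℂ) * χ.1 g) :=
    isCharacter_mul (isCharacter_of_irr (isIrrCharacter_of_monoidHom l.1)) (isCharacter_of_irr χ.2)
  apply isIrrCharacter_of_inner_self_eq_one hchar
  have h1 := irr_inner_self χ.2
  rw [classInner_def] at h1 ⊢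
  rw [← h1]
  congr 1
  apply Finset.sum_congr rfl
  intro g _
  rw [map_mul, mul_mul_mul_comm, sign_mul_conj l g, one_mul]

/-- the sign characters act on the irreducible characters by multiplication -/
noncomputable instance signAct [Finite G] : MulAction (signChars G) (IrrCharacter G) where
  smul l χ := ⟨fun g => ((l.1 g : ℂˣ) : ℂ) * χ.1 g, irr_mul_sign l χ⟩
  one_smul χ := Subtype.ext (by
    funext g
    show (((1 : signChars G).1 g : ℂˣ) : ℂ) * χ.1 g = χ.1 g
    simp)
  mul_smul a b χ := Subtype.ext (by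
    funext g
    show (((a * b : signChars G).1 g : ℂˣ) : ℂ) * χ.1 g =
      ((a.1 g : ℂˣ) : ℂ) * (((b.1 g : ℂˣ) : ℂ) * χ.1 g)
    simp [mul_assoc])

theorem smul_apply [Finite G] (l : signChars G) (χ : IrrCharacter G) (g : G) :
    (l • χ).1 g = ((l.1 g : ℂˣ) : ℂ) * χ.1 g := rfl

/-- the Frobenius–Schur count of the solutions of `x ^ 2 = 1` -/
theorem card_sq_eq_sum [Fintype G] [Fintype (IrrCharacter G)] [DecidableEq G] :
    (Nat.card {x : G // x ^ 2 = 1} : ℂ) = ∑ χ : IrrCharacter G,
      χ.1 1 * ((Nat.card G : ℂ)⁻¹ * ∑ s : G, χ.1 (s * s)) := by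
  have h1 : ∀ χ : IrrCharacter G, χ.1 1 * ((Nat.card G : ℂ)⁻¹ * ∑ s : G, χ.1 (s * s)) =
      (Nat.card G : ℂ)⁻¹ * ∑ s : G, χ.1 1 * χ.1 (s * s) := by
    intro χ
    rw [Finset.mul_sum, Finset.mul_sum, Finset.mul_sum]
    apply Finset.sum_congr rfl
    intro s _
    ring
  simp_rw [h1]
  rw [← Finset.mul_sum, Finset.sum_comm]
  simp_rw [Lib_helper3_CharProd.regular_char]
  rw [Finset.sum_ite, Finset.sum_const_zero, add_zero, Finset.sum_const, nsmul_eq_mul]
  rw [Nat.card_eq_fintype_card (α := {x : G // x ^ 2 = 1}), Fintype.card_subtype]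
  have hne : (Nat.card G : ℂ) ≠ 0 := card_ne_zero
  have hf : (Finset.univ.filter (fun s : G => s * s = 1)) =
      (Finset.univ.filter (fun x : G => x ^ 2 = 1)) := by
    apply Finset.filter_congr
    intro x _
    rw [pow_two]
  rw [hf]
  field_simp

theorem exists_nuZ [Fintype G] (χ : IrrCharacter G) :
    ∃ z : ℤ, (z : ℂ) = (Nat.card G : ℂ)⁻¹ * ∑ s : G, χ.1 (s * s) := by
  rcases (Lib_helper3_FS.fs_irr χ.2).1 with h | h | h
  · exact ⟨0, by rw [h]; simp⟩
  · exact ⟨1, by rw [h]; simp⟩
  · exact ⟨-1, by rw [h]; simp⟩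

theorem exists_deg [Fintype G] (χ : IrrCharacter G) :
    ∃ n : ℕ, (n : ℂ) = χ.1 1 ∧ n ∣ Nat.card G := by
  obtain ⟨n, -, hn⟩ := irr_apply_one_pos χ.2
  exact ⟨n, hn.symm, Lib_helper3_CharOdd.irr_degree_dvd_card χ.2 hn⟩

/-- weighted orbit counting, integer version -/
theorem dvd_sum_of_dvd_index_mul_int {H Y : Type*} [Group H] [Finite H] [MulAction H Y]
    [Fintype Y] (c : ℤ) (F : Y → ℤ) (hF : ∀ (g : H) (y : Y), F (g • y) = F y)
    (h : ∀ y : Y, c ∣ ((stabilizer H y).index : ℤ) * F y) : c ∣ ∑ y, F y := by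
  classical
  haveI := Fintype.ofFinite (Quotient (orbitRel H Y))
  rw [← Finset.sum_fiberwise Finset.univ (Quotient.mk (orbitRel H Y)) F]
  apply Finset.dvd_sum
  intro ω _
  induction ω using Quotient.inductionOn with
  | h y0 =>
    have h1 : ∀ y ∈ Finset.univ.filter
        (fun y => Quotient.mk (orbitRel H Y) y = Quotient.mk _ y0), F y = F y0 := by
      intro y hy
      rw [Finset.mem_filter] at hy
      have h2 := Quotient.exact hy.2
      obtain ⟨g, rfl⟩ := h2
      exact hF g y0
    rw [Finset.sum_congr rfl h1, Finset.sum_const, nsmul_eq_mul]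
    have h3 : (Finset.univ.filter
        (fun y => Quotient.mk (orbitRel H Y) y = Quotient.mk _ y0)).card =
        (stabilizer H y0).index := by
      rw [index_stabilizer, ← Set.ncard_coe_finset]
      congr 1
      ext y
      simp only [Finset.coe_filter, Finset.mem_univ, true_and, Set.mem_ofPred_eq]
      rw [Quotient.eq]
      rfl
    rw [h3]
    exact h y0

theorem isPGroup_signChars : IsPGroup 2 (signChars G) := by
  intro l
  refine ⟨1, ?_⟩
  apply Subtype.ext
  have h1 : l.1 ^ 2 = 1 := l.2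
  simpa using h1

theorem card_le_card_signChars [Finite G] (hG : IsPGroup 2 G) :
    Nat.card (G ⧸ frattini G) ≤ Nat.card (signChars G) := by
  haveI : Fact (Nat.Prime 2) := ⟨Nat.prime_two⟩
  letI : CommGroup (G ⧸ frattini G) :=
    { (inferInstance : Group (G ⧸ frattini G)) with
      mul_comm := by
        intro a b
        induction a using QuotientGroup.induction_on with
        | _ a =>
        induction b using QuotientGroup.induction_on with
        | _ b =>
        rw [← QuotientGroup.mk_mul, ← QuotientGroup.mk_mul, QuotientGroup.eq]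
        apply Lib_helper1_PGroup.commutator_le_frattini hG
        have h1 : (a * b)⁻¹ * (b * a) = ⁅b⁻¹, a⁻¹⁆ := by
          rw [commutatorElement_def]; group
        rw [h1]
        exact Subgroup.commutator_mem_commutator (Subgroup.mem_top _) (Subgroup.mem_top _) }
  haveI : NeZero ((Monoid.exponent (G ⧸ frattini G) : ℕ) : ℂ) := ⟨by
    have := Monoid.exponent_ne_zero_of_finite (G := G ⧸ frattini G)
    exact_mod_cast this⟩
  have h1 := CommGroup.card_monoidHom_of_hasEnoughRootsOfUnity (G ⧸ frattini G) ℂ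
  rw [← h1]
  have hmem : ∀ φ : (G ⧸ frattini G) →* ℂˣ,
      φ.comp (QuotientGroup.mk' (frattini G)) ∈ signChars G := by
    intro φ
    show (φ.comp (QuotientGroup.mk' (frattini G))) ^ 2 = 1
    apply MonoidHom.ext
    intro g
    show (φ (QuotientGroup.mk' (frattini G) g)) ^ 2 = 1
    rw [← map_pow, ← map_pow]
    have h2 : QuotientGroup.mk' (frattini G) (g ^ 2) = 1 := by
      rw [QuotientGroup.mk'_apply, QuotientGroup.eq_one_iff]
      exact Lib_helper1_PGroup.pow_p_mem_frattini hG g
    rw [h2, map_one]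
  apply Nat.card_le_card_of_injective
    (fun φ : (G ⧸ frattini G) →* ℂˣ =>
      (⟨φ.comp (QuotientGroup.mk' (frattini G)), hmem φ⟩ : signChars G))
  intro φ φ' h
  have h3 := congrArg Subtype.val h
  apply MonoidHom.ext
  intro q
  induction q using QuotientGroup.induction_on with
  | _ g => exact DFunLike.congr_fun h3 g

/-- a sign character as an irreducible character -/
noncomputable def signIrr (l : signChars G) : IrrCharacter G :=
  ⟨fun g => ((l.1 g : ℂˣ) : ℂ), isIrrCharacter_of_monoidHom l.1⟩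

theorem signIrr_injective : Function.Injective (signIrr (G := G)) := by
  intro l l' h
  apply Subtype.ext
  apply MonoidHom.ext
  intro g
  apply Units.ext
  exact congrFun (congrArg Subtype.val h) g

theorem card_stabilizer_le [Finite G] (χ : IrrCharacter G) (n : ℕ) (hn : (n : ℂ) = χ.1 1) :
    Nat.card (stabilizer (signChars G) χ) ≤ n ^ 2 := by
  classical
  haveI := Fintype.ofFinite G
  haveI : Finite (IrrCharacter G) := irr_finite
  haveI := Fintype.ofFinite (IrrCharacter G)
  have hχ := isCharacter_of_irr χ.2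
  have hψ : IsCharacter G (χ.1 * fun g => conj (χ.1 g)) :=
    isCharacter_mul hχ (isCharacter_conj hχ)
  obtain ⟨ψ, hψdef⟩ : ∃ ψ : G → ℂ, ψ = χ.1 * fun g => conj (χ.1 g) := ⟨_, rfl⟩
  rw [← hψdef] at hψ
  have hψg : ∀ g, ψ g = χ.1 g * conj (χ.1 g) := by
    intro g; rw [hψdef]; rfl
  have h1 := classFunction_eq_sum_apply ψ (isClassFunction_of_isCharacter hψ) 1
  have ha : ∀ φ : IrrCharacter G, ∃ a : ℕ, classInner ψ φ.1 = a :=
    fun φ => Lib_helper3_CharInd.classInner_nat hψ (isCharacter_of_irr φ.2)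
  have hd : ∀ φ : IrrCharacter G, ∃ d : ℕ, 0 < d ∧ φ.1 1 = d := fun φ => irr_apply_one_pos φ.2
  choose a ha using ha
  choose d hd0 hd using hd
  have h2 : n ^ 2 = ∑ φ : IrrCharacter G, a φ * d φ := by
    have h3 : ((n ^ 2 : ℕ) : ℂ) = ((∑ φ : IrrCharacter G, a φ * d φ : ℕ) : ℂ) := by
      push_cast
      have h4 : (n : ℂ) ^ 2 = ψ 1 := by
        rw [hψg, ← hn, Complex.conj_natCast, pow_two]
      rw [h4, h1]
      apply Finset.sum_congr rfl
      intro φ _
      rw [ha, hd]
    exact_mod_cast h3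
  rw [h2]
  haveI : Fintype (stabilizer (signChars G) χ) := Fintype.ofFinite _
  have h3 : ∀ l : stabilizer (signChars G) χ, a (signIrr l.1) = 1 := by
    intro l
    have h4 : (a (signIrr l.1) : ℂ) = 1 := by
      rw [← ha, classInner_def]
      have h5 := irr_inner_self χ.2
      rw [classInner_def] at h5
      rw [← h5]
      congr 1
      apply Finset.sum_congr rfl
      intro g _
      have h6 : (l.1 • χ).1 g = χ.1 g := by
        have h7 : l.1 • χ = χ := l.2
        rw [h7]
      rw [smul_apply] at h6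
      rw [hψg]
      show χ.1 g * conj (χ.1 g) * conj ((l.1.1 g : ℂˣ) : ℂ) = χ.1 g * conj (χ.1 g)
      calc χ.1 g * conj (χ.1 g) * conj ((l.1.1 g : ℂˣ) : ℂ)
          = χ.1 g * conj (((l.1.1 g : ℂˣ) : ℂ) * χ.1 g) := by rw [map_mul]; ring
        _ = χ.1 g * conj (χ.1 g) := by rw [h6]
    exact_mod_cast h4
  calc Nat.card (stabilizer (signChars G) χ)
      = Fintype.card (stabilizer (signChars G) χ) := Nat.card_eq_fintype_card
    _ = (Finset.univ.image (fun l : stabilizer (signChars G) χ => signIrr l.1)).card := by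
        rw [Finset.card_image_of_injective _
          (fun l l' h => Subtype.ext (signIrr_injective h)), Finset.card_univ]
    _ = ∑ φ ∈ Finset.univ.image (fun l : stabilizer (signChars G) χ => signIrr l.1), 1 := by
        simp
    _ ≤ ∑ φ ∈ Finset.univ.image (fun l : stabilizer (signChars G) χ => signIrr l.1),
          a φ * d φ := by
        apply Finset.sum_le_sum
        intro φ hφ
        obtain ⟨l, -, rfl⟩ := Finset.mem_image.mp hφ
        rw [h3 l, one_mul]
        exact hd0 _
    _ ≤ ∑ φ : IrrCharacter G, a φ * d φ :=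
        Finset.sum_le_sum_of_subset (Finset.subset_univ _)

/-- In a `2`-group with `|G/Φ(G)| ≥ 2^(2k+1)`, the number of solutions of `x^2 = 1` is
divisible by `2^(k+1)`. -/
theorem two_pow_dvd_card_sq [Finite G] (hG : IsPGroup 2 G) (k : ℕ)
    (hgen : 2 ^ (2 * k + 1) ≤ Nat.card (G ⧸ frattini G)) :
    2 ^ (k + 1) ∣ Nat.card {x : G // x ^ 2 = 1} := by
  classical
  haveI : Fact (Nat.Prime 2) := ⟨Nat.prime_two⟩
  haveI := Fintype.ofFinite G
  haveI : Finite (IrrCharacter G) := irr_finite
  haveI := Fintype.ofFinite (IrrCharacter G)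
  choose nu hnu using (fun χ : IrrCharacter G => exists_nuZ χ)
  choose deg hdeg hdvd using (fun χ : IrrCharacter G => exists_deg χ)
  have hsum : (Nat.card {x : G // x ^ 2 = 1} : ℤ) =
      ∑ χ : IrrCharacter G, (deg χ : ℤ) * nu χ := by
    have h1 : ((Nat.card {x : G // x ^ 2 = 1} : ℤ) : ℂ) =
        ((∑ χ : IrrCharacter G, (deg χ : ℤ) * nu χ : ℤ) : ℂ) := by
      push_cast
      rw [card_sq_eq_sum]
      apply Finset.sum_congr rfl
      intro χ _
      rw [hnu, hdeg]
    exact_mod_cast h1
  obtain ⟨D, hD⟩ : ∃ D, Nat.card (signChars G) = 2 ^ D :=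
    (IsPGroup.iff_card).mp isPGroup_signChars
  obtain ⟨N, hN⟩ : ∃ N, Nat.card G = 2 ^ N := (IsPGroup.iff_card).mp hG
  have hDk : 2 * k + 1 ≤ D := by
    have h1 := hgen.trans (card_le_card_signChars hG)
    rw [hD] at h1
    exact (Nat.pow_le_pow_iff_right (by norm_num)).mp h1
  have key : ((2 : ℤ) ^ (k + 1)) ∣ ∑ χ : IrrCharacter G, (deg χ : ℤ) * nu χ := by
    apply dvd_sum_of_dvd_index_mul_int (H := signChars G) ((2 : ℤ) ^ (k + 1))
      (fun χ => (deg χ : ℤ) * nu χ)
    · intro l χ
      have h1 : deg (l • χ) = deg χ := by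
        have h2 : ((deg (l • χ) : ℕ) : ℂ) = (deg χ : ℂ) := by
          rw [hdeg, hdeg, smul_apply, map_one, Units.val_one, one_mul]
        exact_mod_cast h2
      have h2 : nu (l • χ) = nu χ := by
        have h3 : ((nu (l • χ) : ℤ) : ℂ) = (nu χ : ℂ) := by
          rw [hnu, hnu]
          congr 1
          apply Finset.sum_congr rfl
          intro s _
          rw [smul_apply, sign_mul_self, one_mul]
        exact_mod_cast h3
      show (deg (l • χ) : ℤ) * nu (l • χ) = (deg χ : ℤ) * nu χ
      rw [h1, h2]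
    · intro χ
      obtain ⟨e, -, he⟩ := (Nat.dvd_prime_pow Nat.prime_two).mp (hN ▸ hdvd χ)
      obtain ⟨j, hj⟩ : ∃ j, Nat.card (stabilizer (signChars G) χ) = 2 ^ j :=
        (IsPGroup.iff_card).mp (isPGroup_signChars.to_subgroup _)
      have hje : j ≤ 2 * e := by
        have h1 := card_stabilizer_le χ (deg χ) (hdeg χ)
        rw [hj, he, ← pow_mul] at h1
        have h2 := (Nat.pow_le_pow_iff_right (by norm_num)).mp h1
        omega
      have hjD : j ≤ D := by
        have h1 := Subgroup.card_subgroup_dvd_card (stabilizer (signChars G) χ)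
        rw [hj, hD] at h1
        exact (Nat.pow_dvd_pow_iff_le_right (by norm_num)).mp h1
      have hidx : (stabilizer (signChars G) χ).index = 2 ^ (D - j) := by
        have h1 := Subgroup.card_mul_index (stabilizer (signChars G) χ)
        rw [hj, hD] at h1
        have h2 : 2 ^ D = 2 ^ j * 2 ^ (D - j) := by
          rw [← pow_add]; congr 1; omega
        rw [h2] at h1
        exact Nat.eq_of_mul_eq_mul_left (by positivity) h1
      show (2 : ℤ) ^ (k + 1) ∣ ((stabilizer (signChars G) χ).index : ℤ) * ((deg χ : ℤ) * nu χ)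
      rw [hidx, he]
      push_cast
      rw [← mul_assoc, ← pow_add]
      exact Dvd.dvd.mul_right (pow_dvd_pow 2 (by omega)) _
  rw [← hsum] at key
  exact_mod_cast key

end Cfsg.Agent.Lib_helper5_InvCount
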