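import Mathlib
import Cfsg.Agent.Lib_helper1_Basic
import Cfsg.Agent.Lib_helper5_Basic
import Cfsg.Agent.Lib_helper1_Coprime
import Cfsg.Agent.Lib_helper2_Thompson
import Cfsg.Agent.Lib_helper5_AutP
import Cfsg.Agent.Lib_helper5_AutP2
import Cfsg.Agent.Lib_helper5_Class
import Cfsg.Agent.Lib_helper6_Sylow

set_option autoImplicit false

namespace Cfsg.Agent.Lib_helper5_Irr

variable {G : Type*} [Group G]

theorem mem_normalizer_zpowers_iff [Finite G] (x g : G) :
    g ∈ Subgroup.normalizer ((Subgroup.zpowers x : Subgroup G) : Set G) ↔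
      g * x * g⁻¹ ∈ Subgroup.zpowers x := by
  constructor
  · intro h
    exact ((Subgroup.mem_normalizer_iff).mp h x).mp (Subgroup.mem_zpowers x)
  · intro h
    apply Lib_helper1_Basic.mem_normalizer_of_conj_le
    intro m hm
    obtain ⟨k, rfl⟩ := Subgroup.mem_zpowers_iff.mp hm
    rw [← conj_zpow]
    exact Subgroup.zpow_mem _ h k

/-- an element of odd order normalizing a cyclic `2`-group centralizes it -/
theorem odd_centralizes_cyclic_two [Finite G] (x h : G) (k : ℕ) (hx : orderOf x = 2 ^ k)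
    (hh : h ∈ Subgroup.normalizer ((Subgroup.zpowers x : Subgroup G) : Set G))
    (hodd : Odd (orderOf h)) : h * x * h⁻¹ = x := by
  have hK : IsPGroup 2 (Subgroup.zpowers x) := by
    apply IsPGroup.of_card (n := k)
    rw [Nat.card_zpowers, hx]
  have key := Lib_helper5_AutP.aut_trivial_of_omega (A := Subgroup.zpowers x) (p := 2)
    (r := orderOf h) (Nat.Coprime.symm (Nat.coprime_two_left.mpr hodd)) hK
    (Lib_helper1_Coprime.conjNormalizer (Subgroup.zpowers x) h hh) (by
      intro c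
      apply Subtype.ext
      rw [Lib_helper5_AutP2.conjNormalizer_pow, pow_orderOf_eq_one]
      simp) (by
      intro c hc
      by_cases hc1 : c = 1
      · rw [hc1, map_one]
      · apply Subtype.ext
        rw [Lib_helper1_Coprime.conjNormalizer_coe]
        have hc2 : (c : G) ^ 2 = 1 := by
          have := congrArg Subtype.val hc
          simpa using this
        have hc3 : (c : G) ≠ 1 := fun h0 => hc1 (Subtype.ext h0)
        have ho : orderOf (c : G) = 2 := orderOf_eq_prime hc2 hc3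
        have ho' : orderOf (h * (c : G) * h⁻¹) = 2 := by
          rw [← ho]
          exact orderOf_eq_orderOf_iff.mpr (fun n => by
            rw [conj_pow, conj_eq_one_iff])
        exact Lib_helper2_Thompson.involution_mem_zpowers_unique ho' ho
          (((Subgroup.mem_normalizer_iff).mp hh c).mp c.2) c.2)
  have := congrArg Subtype.val (key ⟨x, Subgroup.mem_zpowers x⟩)
  rwa [Lib_helper1_Coprime.conjNormalizer_coe] at this

theorem two_elem_of_primes (x : G) [Finite G] (hx : ∀ r : ℕ, r.Prime → r ∣ orderOf x → r = 2) :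
    ∃ k : ℕ, orderOf x = 2 ^ k :=
  ⟨_, Nat.eq_prime_pow_of_unique_prime_dvd (orderOf_pos x).ne' (fun {d} hd hdx => hx d hd hdx)⟩

theorem irr_iff_sylow [Finite G] (P : Sylow 2 G) :
    (∀ x : G, (∀ r : ℕ, r.Prime → r ∣ orderOf x → r = 2) →
      Subgroup.normalizer ((Subgroup.zpowers x : Subgroup G) : Set G) ≤ Subgroup.centralizer {x}) ↔
    (∀ y : ↥(P : Subgroup G), Subgroup.normalizer
        ((Subgroup.zpowers y : Subgroup ↥(P : Subgroup G)) : Set ↥(P : Subgroup G)) ≤
        Subgroup.centralizer {y}) := by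
  constructor
  · intro h y g hg
    rw [mem_normalizer_zpowers_iff] at hg
    rw [Subgroup.mem_centralizer_singleton_iff]
    have hy2 : ∀ r : ℕ, r.Prime → r ∣ orderOf (y : G) → r = 2 := by
      intro r hr hry
      obtain ⟨n, hn⟩ := (IsPGroup.iff_card.mp P.2)
      have h1 : orderOf (y : G) ∣ 2 ^ n := by
        rw [Subgroup.orderOf_coe, ← hn]
        exact orderOf_dvd_natCard y
      exact (Nat.prime_dvd_prime_iff_eq hr Nat.prime_two).mp
        (hr.dvd_of_dvd_pow (dvd_trans hry h1))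
    have hgN : (g : G) ∈ Subgroup.normalizer ((Subgroup.zpowers (y : G) : Subgroup G) : Set G) := by
      rw [mem_normalizer_zpowers_iff]
      obtain ⟨k, hk⟩ := Subgroup.mem_zpowers_iff.mp hg
      rw [Subgroup.mem_zpowers_iff]
      refine ⟨k, ?_⟩
      have := congrArg Subtype.val hk
      simpa using this
    have h2 := h (y : G) hy2 hgN
    rw [Subgroup.mem_centralizer_singleton_iff] at h2
    exact Subtype.ext h2
  · intro h x hx g hg
    obtain ⟨k, hk⟩ := two_elem_of_primes x hx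
    obtain ⟨a, m, hm, hn⟩ := Nat.exists_eq_pow_mul_and_not_dvd (orderOf_pos g).ne' 2
      (by norm_num)
    have hmodd : Odd m := Nat.odd_iff.mpr (Nat.two_dvd_ne_zero.mp hm)
    apply Lib_helper5_Class.mem_of_pow_mem_of_coprime' _ g (m := 2 ^ a) (n := m)
      (Nat.Coprime.pow_left _ (Nat.coprime_two_left.mpr hmodd))
    · -- odd part
      rw [Subgroup.mem_centralizer_singleton_iff]
      have h1 : Odd (orderOf (g ^ 2 ^ a)) := by
        have h2 : orderOf (g ^ 2 ^ a) ∣ m := by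
          apply orderOf_dvd_of_pow_eq_one
          rw [← pow_mul, ← hn, pow_orderOf_eq_one]
        exact Odd.of_dvd_nat hmodd h2
      have h3 := odd_centralizes_cyclic_two x (g ^ 2 ^ a) k hk (Subgroup.pow_mem _ hg _) h1
      calc g ^ 2 ^ a * x = (g ^ 2 ^ a * x * (g ^ 2 ^ a)⁻¹) * g ^ 2 ^ a := by group
        _ = x * g ^ 2 ^ a := by rw [h3]
    · -- 2-part
      rw [Subgroup.mem_centralizer_singleton_iff]
      have huN : g ^ m ∈ Subgroup.normalizer ((Subgroup.zpowers x : Subgroup G) : Set G) :=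
        Subgroup.pow_mem _ hg _
      have hu2 : IsPGroup 2 (Subgroup.zpowers (g ^ m)) := by
        have h2 : orderOf (g ^ m) ∣ 2 ^ a := by
          apply orderOf_dvd_of_pow_eq_one
          rw [← pow_mul, mul_comm, ← hn, pow_orderOf_eq_one]
        obtain ⟨j, -, hj⟩ := (Nat.dvd_prime_pow Nat.prime_two).mp h2
        apply IsPGroup.of_card (n := j)
        rw [Nat.card_zpowers, hj]
      have hK : IsPGroup 2 (Subgroup.zpowers x) := by
        apply IsPGroup.of_card (n := k)
        rw [Nat.card_zpowers, hk]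
      have hsup : IsPGroup 2 (Subgroup.zpowers (g ^ m) ⊔ Subgroup.zpowers x : Subgroup G) :=
        IsPGroup.to_sup_of_normal_right' hu2 hK (by
          rw [Subgroup.zpowers_le]
          exact huN)
      obtain ⟨Q, hQ⟩ := hsup.exists_le_sylow
      obtain ⟨t, ht⟩ := MulAction.exists_smul_eq G P Q
      have hmem : ∀ e ∈ (Subgroup.zpowers (g ^ m) ⊔ Subgroup.zpowers x : Subgroup G),
          t⁻¹ * e * t ∈ (P : Subgroup G) := by
        intro e he
        have := hQ he
        rw [← ht, Lib_helper6_Sylow.mem_smul_sylow] at this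
        exact this
      have hxP := hmem x ((le_sup_right : Subgroup.zpowers x ≤ _) (Subgroup.mem_zpowers x))
      have huP := hmem (g ^ m)
        ((le_sup_left : Subgroup.zpowers (g ^ m) ≤ _) (Subgroup.mem_zpowers _))
      have hnorm : (⟨t⁻¹ * g ^ m * t, huP⟩ : (P : Subgroup G)) ∈ Subgroup.normalizer
          ((Subgroup.zpowers (⟨t⁻¹ * x * t, hxP⟩ : (P : Subgroup G)) :
            Subgroup ↥(P : Subgroup G)) : Set ↥(P : Subgroup G)) := by
        rw [mem_normalizer_zpowers_iff]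
        obtain ⟨i, hi⟩ := Subgroup.mem_zpowers_iff.mp ((mem_normalizer_zpowers_iff x (g ^ m)).mp huN)
        rw [Subgroup.mem_zpowers_iff]
        refine ⟨i, ?_⟩
        apply Subtype.ext
        simp only [Subgroup.coe_zpow, Subgroup.coe_mul, Subgroup.coe_inv]
        have e1 : t⁻¹ * g ^ m * t * (t⁻¹ * x * t) * (t⁻¹ * g ^ m * t)⁻¹ =
            t⁻¹ * (g ^ m * x * (g ^ m)⁻¹) * t := by group
        have e2 : (t⁻¹ * x * t) ^ i = t⁻¹ * x ^ i * t := by
          have := conj_zpow (i := i) (a := t⁻¹) (b := x)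
          rwa [inv_inv] at this
        rw [e1, ← hi, e2]
      have h4 := h _ hnorm
      rw [Subgroup.mem_centralizer_singleton_iff] at h4
      have h5 : t⁻¹ * g ^ m * t * (t⁻¹ * x * t) = t⁻¹ * x * t * (t⁻¹ * g ^ m * t) :=
        congrArg Subtype.val h4
      have h6 : t⁻¹ * (g ^ m * x) * t = t⁻¹ * (x * g ^ m) * t := by
        calc t⁻¹ * (g ^ m * x) * t = t⁻¹ * g ^ m * t * (t⁻¹ * x * t) := by group
          _ = t⁻¹ * x * t * (t⁻¹ * g ^ m * t) := h5
          _ = t⁻¹ * (x * g ^ m) * t := by group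
      exact mul_left_cancel (mul_right_cancel h6)

/-- a `π`-element of `G ⧸ N`, `N` a normal `π'`-subgroup, lifts to a `π`-element of `G` -/
theorem exists_pi_lift [Finite G] (π : Set ℕ) (N : Subgroup G) [N.Normal]
    (hN : ∀ r : ℕ, r.Prime → r ∣ Nat.card N → r ∉ π) (y : G ⧸ N)
    (hy : ∀ r : ℕ, r.Prime → r ∣ orderOf y → r ∈ π) :
    ∃ x : G, (x : G ⧸ N) = y ∧ ∀ r : ℕ, r.Prime → r ∣ orderOf x → r ∈ π := by
  obtain ⟨x0, rfl⟩ := QuotientGroup.mk_surjective y
  have hcop : (orderOf (x0 : G ⧸ N)).Coprime (Nat.card N) :=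
    Nat.coprime_of_dvd (fun r hr h1 h2 => hN r hr h2 (hy r hr h1))
  obtain ⟨e, he1, he0⟩ := Nat.chineseRemainder hcop 1 0
  have hNe : Nat.card N ∣ e := (Nat.modEq_zero_iff_dvd).mp he0
  refine ⟨x0 ^ e, ?_, ?_⟩
  · rw [QuotientGroup.mk_pow]
    have := (pow_eq_pow_iff_modEq (x := (x0 : G ⧸ N)) (n := e) (m := 1)).mpr he1
    rw [this, pow_one]
  · have h1 : x0 ^ orderOf (x0 : G ⧸ N) ∈ N := by
      rw [← QuotientGroup.eq_one_iff, QuotientGroup.mk_pow, pow_orderOf_eq_one]
    have h2 : (x0 ^ orderOf (x0 : G ⧸ N)) ^ Nat.card N = 1 := by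
      have := Subgroup.orderOf_dvd_natCard N h1
      exact orderOf_dvd_iff_pow_eq_one.mp this
    have h3 : (x0 ^ e) ^ orderOf (x0 : G ⧸ N) = 1 := by
      obtain ⟨t, rfl⟩ := hNe
      rw [← pow_mul, show Nat.card N * t * orderOf (x0 : G ⧸ N) =
        orderOf (x0 : G ⧸ N) * Nat.card N * t by ring, pow_mul, pow_mul, h2, one_pow]
    intro r hr hrx
    exact hy r hr (dvd_trans hrx (orderOf_dvd_of_pow_eq_one h3))

theorem irr_quotient [Finite G] (π : Set ℕ)
    (hirr : ∀ x : G, (∀ r : ℕ, r.Prime → r ∣ orderOf x → r ∈ π) →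
      Subgroup.normalizer ((Subgroup.zpowers x : Subgroup G) : Set G) ≤ Subgroup.centralizer {x})
    (N : Subgroup G) [N.Normal] (hN : ∀ r : ℕ, r.Prime → r ∣ Nat.card N → r ∉ π) :
    ∀ y : G ⧸ N, (∀ r : ℕ, r.Prime → r ∣ orderOf y → r ∈ π) →
      Subgroup.normalizer ((Subgroup.zpowers y : Subgroup (G ⧸ N)) : Set (G ⧸ N)) ≤
        Subgroup.centralizer {y} := by
  intro y hy gb hgb
  obtain ⟨x, rfl, hxπ⟩ := exists_pi_lift π N hN y hy
  obtain ⟨g, rfl⟩ := QuotientGroup.mk_surjective gb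
  rw [mem_normalizer_zpowers_iff] at hgb
  obtain ⟨i, hi⟩ := Subgroup.mem_zpowers_iff.mp hgb
  rw [Subgroup.mem_centralizer_singleton_iff]
  -- elements of ⟨g x g⁻¹⟩ lie in N ⟨x⟩
  have hmem : ∀ a ∈ Subgroup.zpowers (g * x * g⁻¹), ∃ n ∈ N, ∃ l : ℤ, a = n * x ^ l := by
    intro a ha
    obtain ⟨j, rfl⟩ := Subgroup.mem_zpowers_iff.mp ha
    have h1 : (((g * x * g⁻¹) ^ j : G) : G ⧸ N) = ((x ^ (i * j) : G) : G ⧸ N) := by
      rw [QuotientGroup.mk_zpow, QuotientGroup.mk_mul, QuotientGroup.mk_mul, QuotientGroup.mk_inv,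
        ← hi, QuotientGroup.mk_zpow, zpow_mul]
    rw [QuotientGroup.eq_iff_div_mem] at h1
    refine ⟨_, h1, i * j, ?_⟩
    rw [div_eq_mul_inv, inv_mul_cancel_right]
  have hcop : (Nat.card (Subgroup.zpowers (g * x * g⁻¹))).Coprime (Nat.card N) := by
    rw [Nat.card_zpowers, Lib_helper5_Basic.orderOf_conj']
    exact Nat.coprime_of_dvd (fun r hr h1 h2 => hN r hr h2 (hxπ r hr h1))
  haveI hsolv : Group.IsSolvable (Subgroup.zpowers (g * x * g⁻¹)) :=
    Lib_helper1_Coprime.isSolvable_of_isMulCommutative _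
  obtain ⟨n, hnN, hfix⟩ := Lib_helper1_Coprime.coprime_fixed_point (X := G ⧸ Subgroup.zpowers x)
    (Subgroup.zpowers (g * x * g⁻¹)) N (by
      rw [Subgroup.normalizer_eq_top]
      exact le_top) hcop (Or.inl hsolv) ((1 : G) : G ⧸ Subgroup.zpowers x) (by
      intro a ha
      obtain ⟨n, hn, l, rfl⟩ := hmem a ha
      refine ⟨n, hn, ?_⟩
      rw [MulAction.Quotient.smul_mk, MulAction.Quotient.smul_mk, smul_eq_mul, smul_eq_mul,
        mul_one, mul_one, QuotientGroup.eq]
      have : (n * x ^ l)⁻¹ * n = (x ^ l)⁻¹ := by group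
      rw [this]
      exact Subgroup.inv_mem _ (Subgroup.zpow_mem _ (Subgroup.mem_zpowers x) l))
  have h1 := hfix (g * x * g⁻¹) (Subgroup.mem_zpowers _)
  rw [MulAction.Quotient.smul_mk, MulAction.Quotient.smul_mk, smul_eq_mul, smul_eq_mul,
    mul_one, QuotientGroup.eq] at h1
  have h2 := Subgroup.inv_mem _ h1
  have e1 : ((g * x * g⁻¹ * n)⁻¹ * n)⁻¹ = (n⁻¹ * g) * x * (n⁻¹ * g)⁻¹ := by group
  rw [e1, ← mem_normalizer_zpowers_iff] at h2
  have h3 := hirr x hxπ h2
  rw [Subgroup.mem_centralizer_singleton_iff] at h3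
  -- g x g⁻¹ = n x n⁻¹
  have h4 : g * x = n * x * n⁻¹ * g := by
    calc g * x = n * (n⁻¹ * g * x) := by group
      _ = n * (x * (n⁻¹ * g)) := by rw [h3]
      _ = n * x * n⁻¹ * g := by group
  have hn1 : ((n : G) : G ⧸ N) = 1 := (QuotientGroup.eq_one_iff n).mpr hnN
  rw [← QuotientGroup.mk_mul, ← QuotientGroup.mk_mul, h4, QuotientGroup.mk_mul,
    QuotientGroup.mk_mul, QuotientGroup.mk_mul, QuotientGroup.mk_inv, hn1]
  simp

end Cfsg.Agent.Lib_helper5_Irr
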