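import Mathlib
import Cfsg.Prelude.Def_Transfer
import Cfsg.Agent.Lib_helper1_Basic
import Cfsg.Agent.Lib_helper6_Sylow

set_option autoImplicit false

namespace Cfsg.Agent.Lib_helper5_KpCount

open Cfsg
open scoped Pointwise
open Cfsg.Agent.Lib_helper1_Basic

variable {G : Type*} [Group G] {p : ℕ} [Fact p.Prime]

theorem pelem_class (P : Sylow p G) (x : G) (hx : x ∈ (P : Subgroup G)) :
    ∀ y ∈ (ConjClasses.mk x).carrier, ∃ k : ℕ, orderOf y = p ^ k := by
  intro y hy
  rw [ConjClasses.mem_carrier_iff_mk_eq, ConjClasses.mk_eq_mk_iff_isConj, isConj_iff] at hy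
  obtain ⟨c, hc⟩ := hy
  obtain ⟨k, hk⟩ := P.2 ⟨x, hx⟩
  have hx1 : x ^ p ^ k = 1 := congrArg Subtype.val hk
  have hy1 : y ^ p ^ k = 1 := by
    have h1 : (c * y * c⁻¹) ^ p ^ k = 1 := by rw [hc]; exact hx1
    rw [conj_pow] at h1
    have h2 : y ^ p ^ k = c⁻¹ * (c * y ^ p ^ k * c⁻¹) * c := by group
    rw [h2, h1]; group
  obtain ⟨j, -, hj⟩ := (Nat.dvd_prime_pow Fact.out).mp (orderOf_dvd_of_pow_eq_one hy1)
  exact ⟨j, hj⟩

variable [Finite G]

theorem card_classes_le (P : Sylow p G) :
    Nat.card {c : ConjClasses G // ∀ x ∈ c.carrier, ∃ k : ℕ, orderOf x = p ^ k} ≤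
      Nat.card (Quotient (MulAction.orbitRel (Subgroup.normalizer ((P : Subgroup G) : Set G))
        (P : Subgroup G))) := by
  let f : ↥(P : Subgroup G) →
      {c : ConjClasses G // ∀ x ∈ c.carrier, ∃ k : ℕ, orderOf x = p ^ k} :=
    fun x => ⟨ConjClasses.mk (x : G), pelem_class P x x.2⟩
  have hinv : ∀ a b : (P : Subgroup G),
      (MulAction.orbitRel (Subgroup.normalizer ((P : Subgroup G) : Set G)) (P : Subgroup G)) a b →
        f a = f b := by
    intro a b hab
    obtain ⟨n, hn⟩ := hab
    apply Subtype.ext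
    show ConjClasses.mk (a : G) = ConjClasses.mk (b : G)
    rw [ConjClasses.mk_eq_mk_iff_isConj, isConj_iff]
    refine ⟨(n : G)⁻¹, ?_⟩
    have h1 : (a : G) = (n : G) * (b : G) * (n : G)⁻¹ := by rw [← hn]; rfl
    rw [h1]; group
  apply Nat.card_le_card_of_surjective (Quotient.lift f hinv)
  rintro ⟨c, hc⟩
  obtain ⟨y, rfl⟩ := ConjClasses.exists_rep c
  have hy := hc y ConjClasses.mem_carrier_mk
  obtain ⟨Q, hQ⟩ := Cfsg.Agent.Lib_helper6_Sylow.pElem_mem_sylow hy
  obtain ⟨g, hg⟩ := MulAction.exists_smul_eq G P Q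
  rw [← hg, Sylow.coe_subgroup_smul, mem_conj_smul] at hQ
  refine ⟨Quotient.mk _ ⟨g⁻¹ * y * g, hQ⟩, ?_⟩
  apply Subtype.ext
  show ConjClasses.mk (g⁻¹ * y * g) = ConjClasses.mk y
  rw [ConjClasses.mk_eq_mk_iff_isConj, isConj_iff]
  exact ⟨g, by group⟩

theorem fixed_le (P : Sylow p G) (g : Subgroup.normalizer ((P : Subgroup G) : Set G))
    (hg : ∃ x : (P : Subgroup G), g • x ≠ x) :
    p * Nat.card (MulAction.fixedBy (P : Subgroup G) g) ≤ Nat.card (P : Subgroup G) := by
  let F : Subgroup (P : Subgroup G) :=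
    { carrier := MulAction.fixedBy (P : Subgroup G) g
      one_mem' := by
        show g • (1 : (P : Subgroup G)) = 1
        exact smul_one g
      mul_mem' := by
        intro a b ha hb
        have ha' : g • a = a := ha
        have hb' : g • b = b := hb
        show g • (a * b) = a * b
        rw [smul_mul', ha', hb']
      inv_mem' := by
        intro a ha
        have ha' : g • a = a := ha
        show g • a⁻¹ = a⁻¹
        rw [smul_inv', ha'] }
  have hFcard : Nat.card F = Nat.card (MulAction.fixedBy (P : Subgroup G) g) := rfl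
  have hFtop : F ≠ ⊤ := by
    obtain ⟨x, hx⟩ := hg
    intro h
    have h1 : x ∈ F := by rw [h]; trivial
    exact hx h1
  have h1 := Subgroup.card_mul_index F
  obtain ⟨n, hn⟩ := IsPGroup.iff_card.mp P.2
  have hidx : F.index ∣ p ^ n := hn ▸ Subgroup.index_dvd_card F
  obtain ⟨i, -, hi⟩ := (Nat.dvd_prime_pow Fact.out).mp hidx
  have hi0 : i ≠ 0 := by
    rintro rfl
    rw [pow_zero] at hi
    exact hFtop (Subgroup.index_eq_one.mp hi)
  have hp_le : p ≤ F.index := by rw [hi]; exact Nat.le_self_pow hi0 p
  rw [← hFcard, ← h1, mul_comm]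
  exact Nat.mul_le_mul_left _ hp_le

theorem normalizer_le_centralizer_of_kp (P : Sylow p G)
    (h : (p + 1) * Nat.card ↥(P : Subgroup G) < 2 * p *
      Nat.card {c : ConjClasses G // ∀ x ∈ c.carrier, ∃ k : ℕ, orderOf x = p ^ k}) :
    Subgroup.normalizer ((P : Subgroup G) : Set G) ≤
      Subgroup.centralizer ((P : Subgroup G) : Set G) := by
  classical
  have hp : p.Prime := Fact.out
  by_contra hcon
  obtain ⟨K, hK⟩ : ∃ K : Subgroup (Subgroup.normalizer ((P : Subgroup G) : Set G)),
      K = (P : Subgroup G).normalizerMonoidHom.ker := ⟨_, rfl⟩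
  have hKtop : K ≠ ⊤ := by
    intro h1
    apply hcon
    rw [hK, Subgroup.normalizerMonoidHom_ker, Subgroup.subgroupOf_eq_top] at h1
    exact h1
  have hKmem : ∀ g : Subgroup.normalizer ((P : Subgroup G) : Set G),
      g ∈ K ↔ ∀ x : (P : Subgroup G), g • x = x := by
    intro g
    rw [hK, MonoidHom.mem_ker]
    constructor
    · intro h1 x
      exact DFunLike.congr_fun h1 x
    · intro h1
      ext x
      exact congrArg Subtype.val (h1 x)
  haveI := Fintype.ofFinite (Subgroup.normalizer ((P : Subgroup G) : Set G))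
  haveI : ∀ g : Subgroup.normalizer ((P : Subgroup G) : Set G),
      Fintype (MulAction.fixedBy (P : Subgroup G) g) := fun g => Fintype.ofFinite _
  haveI := Fintype.ofFinite (Quotient (MulAction.orbitRel
    (Subgroup.normalizer ((P : Subgroup G) : Set G)) (P : Subgroup G)))
  have hB := MulAction.sum_card_fixedBy_eq_card_orbits_mul_card_group
    (Subgroup.normalizer ((P : Subgroup G) : Set G)) (P : Subgroup G)
  obtain ⟨q, hq⟩ : ∃ q, p = q + 1 := ⟨p - 1, by have := hp.pos; omega⟩
  obtain ⟨A, hA⟩ : ∃ A, A = Nat.card (P : Subgroup G) := ⟨_, rfl⟩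
  have hterm : ∀ g : Subgroup.normalizer ((P : Subgroup G) : Set G),
      p * Fintype.card (MulAction.fixedBy (P : Subgroup G) g) ≤
        A + (if g ∈ K then 1 else 0) * (q * A) := by
    intro g
    by_cases hg : g ∈ K
    · rw [if_pos hg, one_mul]
      have h1 : Fintype.card (MulAction.fixedBy (P : Subgroup G) g) ≤ A := by
        rw [← Nat.card_eq_fintype_card, hA]
        exact Nat.card_le_card_of_injective _ Subtype.val_injective
      calc p * Fintype.card (MulAction.fixedBy (P : Subgroup G) g) ≤ p * A :=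
            Nat.mul_le_mul_left _ h1
        _ = A + q * A := by rw [hq]; ring
    · rw [if_neg hg, zero_mul, add_zero]
      have hex : ∃ x : (P : Subgroup G), g • x ≠ x := by
        by_contra h1
        push Not at h1
        exact hg ((hKmem g).mpr h1)
      rw [← Nat.card_eq_fintype_card, hA]
      exact fixed_le P g hex
  have hsum : p * ∑ g : Subgroup.normalizer ((P : Subgroup G) : Set G),
      Fintype.card (MulAction.fixedBy (P : Subgroup G) g) ≤
        Nat.card (Subgroup.normalizer ((P : Subgroup G) : Set G)) * A + Nat.card K * (q * A) := by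
    rw [Finset.mul_sum]
    calc ∑ g : Subgroup.normalizer ((P : Subgroup G) : Set G),
          p * Fintype.card (MulAction.fixedBy (P : Subgroup G) g)
        ≤ ∑ g : Subgroup.normalizer ((P : Subgroup G) : Set G),
          (A + (if g ∈ K then 1 else 0) * (q * A)) := Finset.sum_le_sum (fun g _ => hterm g)
      _ = Nat.card (Subgroup.normalizer ((P : Subgroup G) : Set G)) * A +
          Nat.card K * (q * A) := by
        have hcK : ∑ g : Subgroup.normalizer ((P : Subgroup G) : Set G),
            (if g ∈ K then 1 else 0 : ℕ) = Nat.card K := by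
          rw [Finset.sum_boole, Nat.cast_id]
          exact (Nat.subtype_card _ (by simp)).symm
        rw [Finset.sum_add_distrib, Finset.sum_const, Finset.card_univ, ← Finset.sum_mul, hcK,
          smul_eq_mul, ← Nat.card_eq_fintype_card]
  have hK2 : 2 * Nat.card K ≤ Nat.card (Subgroup.normalizer ((P : Subgroup G) : Set G)) := by
    have h1 := Subgroup.card_mul_index K
    have h2 : 2 ≤ K.index := by
      have h3 : K.index ≠ 1 := fun h => hKtop (Subgroup.index_eq_one.mp h)
      have h4 : K.index ≠ 0 := Subgroup.index_ne_zero_of_finite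
      omega
    calc 2 * Nat.card K ≤ K.index * Nat.card K := Nat.mul_le_mul_right _ h2
      _ = Nat.card (Subgroup.normalizer ((P : Subgroup G) : Set G)) := by rw [mul_comm]; exact h1
  have hcl := card_classes_le P
  rw [Nat.card_eq_fintype_card (α := Quotient (MulAction.orbitRel
    (Subgroup.normalizer ((P : Subgroup G) : Set G)) (P : Subgroup G)))] at hcl
  rw [← Nat.card_eq_fintype_card (α := Subgroup.normalizer ((P : Subgroup G) : Set G))] at hB
  rw [← hA] at h
  have hnpos : 0 < Nat.card (Subgroup.normalizer ((P : Subgroup G) : Set G)) := Nat.card_pos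
  have e1 := Nat.mul_lt_mul_of_pos_right h hnpos
  have e2 : 2 * p * Nat.card {c : ConjClasses G // ∀ x ∈ c.carrier, ∃ k : ℕ, orderOf x = p ^ k} *
      Nat.card (Subgroup.normalizer ((P : Subgroup G) : Set G)) ≤
      2 * p * Fintype.card (Quotient (MulAction.orbitRel
        (Subgroup.normalizer ((P : Subgroup G) : Set G)) (P : Subgroup G))) *
      Nat.card (Subgroup.normalizer ((P : Subgroup G) : Set G)) :=
    Nat.mul_le_mul_right _ (Nat.mul_le_mul_left _ hcl)
  have e3 : 2 * p * Fintype.card (Quotient (MulAction.orbitRel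
        (Subgroup.normalizer ((P : Subgroup G) : Set G)) (P : Subgroup G))) *
      Nat.card (Subgroup.normalizer ((P : Subgroup G) : Set G)) =
      2 * (p * ∑ g : Subgroup.normalizer ((P : Subgroup G) : Set G),
        Fintype.card (MulAction.fixedBy (P : Subgroup G) g)) := by
    rw [hB]; ring
  have e4 := Nat.mul_le_mul_left 2 hsum
  have e5 : 2 * (Nat.card (Subgroup.normalizer ((P : Subgroup G) : Set G)) * A +
      Nat.card K * (q * A)) ≤
      (p + 1) * A * Nat.card (Subgroup.normalizer ((P : Subgroup G) : Set G)) := by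
    have h5 : 2 * Nat.card K * (q * A) ≤
        Nat.card (Subgroup.normalizer ((P : Subgroup G) : Set G)) * (q * A) :=
      Nat.mul_le_mul_right _ hK2
    calc 2 * (Nat.card (Subgroup.normalizer ((P : Subgroup G) : Set G)) * A +
          Nat.card K * (q * A))
        = 2 * Nat.card (Subgroup.normalizer ((P : Subgroup G) : Set G)) * A +
          2 * Nat.card K * (q * A) := by ring
      _ ≤ 2 * Nat.card (Subgroup.normalizer ((P : Subgroup G) : Set G)) * A +
          Nat.card (Subgroup.normalizer ((P : Subgroup G) : Set G)) * (q * A) :=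
        Nat.add_le_add_left h5 _
      _ = (p + 1) * A * Nat.card (Subgroup.normalizer ((P : Subgroup G) : Set G)) := by
        have hp1 : p + 1 = q + 2 := by omega
        rw [hp1]; ring
  omega

/-- `k_p(G) > (p+1)|P|/(2p)` iff `G` has a normal `p`-complement and `P` is abelian -/
theorem kp_iff (P : Sylow p G) :
    (p + 1) * Nat.card ↥(P : Subgroup G) < 2 * p *
      Nat.card {c : ConjClasses G // ∀ x ∈ c.carrier, ∃ k : ℕ, orderOf x = p ^ k} ↔
      Cfsg.HasNormalPComplement p G ∧ IsMulCommutative ↥(P : Subgroup G) := by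
  have hp : p.Prime := Fact.out
  constructor
  · intro h
    have hNC := normalizer_le_centralizer_of_kp P h
    refine ⟨⟨P, (MonoidHom.transferSylow P hNC).ker, inferInstance,
      MonoidHom.ker_transferSylow_isComplement' P hNC⟩, ?_⟩
    refine ⟨⟨fun u v => ?_⟩⟩
    have hu : (u : G) ∈ Subgroup.centralizer ((P : Subgroup G) : Set G) :=
      hNC (Subgroup.le_normalizer u.2)
    rw [Subgroup.mem_centralizer_iff] at hu
    exact Subtype.ext (hu v v.2).symm
  · rintro ⟨⟨P', N, hNn, hcompl⟩, hPc⟩
    haveI := hNn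
    have hNcard : Nat.card N = (P' : Subgroup G).index := hcompl.index_eq_card.symm
    have hPP' : Nat.card (P : Subgroup G) = Nat.card (P' : Subgroup G) := by
      rw [Sylow.card_eq_multiplicity, Sylow.card_eq_multiplicity]
    have hmul : Nat.card N * Nat.card (P : Subgroup G) = Nat.card G := by
      rw [hNcard, hPP', mul_comm]; exact Subgroup.card_mul_index _
    have hcop : (Nat.card N).Coprime (Nat.card (P : Subgroup G)) := by
      obtain ⟨n, hn⟩ := IsPGroup.iff_card.mp P.2
      rw [hn, hNcard]
      exact Nat.Coprime.pow_right n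
        ((Nat.Prime.coprime_iff_not_dvd hp).mpr P'.not_dvd_index).symm
    have hcomplP : Subgroup.IsComplement' N (P : Subgroup G) :=
      Subgroup.isComplement'_of_coprime hmul hcop
    have htop := hcomplP.sup_eq_top
    have hdisj := hcomplP.disjoint
    let f : ↥(P : Subgroup G) →
        {c : ConjClasses G // ∀ x ∈ c.carrier, ∃ k : ℕ, orderOf x = p ^ k} :=
      fun x => ⟨ConjClasses.mk (x : G), pelem_class P x x.2⟩
    have hf : Function.Injective f := by
      intro x y hxy
      have h1 : ConjClasses.mk (x : G) = ConjClasses.mk (y : G) := congrArg Subtype.val hxy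
      rw [ConjClasses.mk_eq_mk_iff_isConj, isConj_iff] at h1
      obtain ⟨g, hg⟩ := h1
      obtain ⟨n, hn, u, hu, rfl⟩ := exists_mul_of_sup_eq_top N (P : Subgroup G) htop g
      have hux : u * (x : G) * u⁻¹ = x := by
        have h2 : u * (x : G) = (x : G) * u :=
          congrArg Subtype.val (hPc.is_comm.comm ⟨u, hu⟩ x)
        rw [h2]; group
      have hy : (y : G) = n * (x : G) * n⁻¹ := by
        rw [← hg]
        have h2 : n * u * (x : G) * (n * u)⁻¹ = n * (u * (x : G) * u⁻¹) * n⁻¹ := by group
        rw [h2, hux]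
      have h3 : (y : G) * (x : G)⁻¹ ∈ N := by
        rw [hy]
        have h2 : n * (x : G) * n⁻¹ * (x : G)⁻¹ = n * ((x : G) * n⁻¹ * (x : G)⁻¹) := by group
        rw [h2]
        exact N.mul_mem hn (hNn.conj_mem _ (N.inv_mem hn) _)
      have h4 : (y : G) * (x : G)⁻¹ ∈ (P : Subgroup G) :=
        Subgroup.mul_mem _ y.2 (Subgroup.inv_mem _ x.2)
      have h5 : (y : G) * (x : G)⁻¹ ∈ N ⊓ (P : Subgroup G) := ⟨h3, h4⟩
      rw [disjoint_iff.mp hdisj, Subgroup.mem_bot] at h5
      exact Subtype.ext (mul_inv_eq_one.mp h5).symm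
    have hle := Nat.card_le_card_of_injective f hf
    have hApos : 0 < Nat.card (P : Subgroup G) := Nat.card_pos
    have hp2 := hp.two_le
    have h1 : (p + 1) * Nat.card (P : Subgroup G) < 2 * p * Nat.card (P : Subgroup G) :=
      Nat.mul_lt_mul_of_pos_right (by omega) hApos
    exact lt_of_lt_of_le h1 (Nat.mul_le_mul_left _ hle)

end Cfsg.Agent.Lib_helper5_KpCount
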