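import Mathlib
import Cfsg.Agent.Lib_helper5_PSolv2
import Cfsg.Agent.Lib_helper5_Class
import Cfsg.Agent.Lib_helper5_PParts
import Cfsg.Agent.Lib_helper3_Burnside
import Cfsg.Agent.Lib_helper3_Burnside2
import Cfsg.Agent.Lib_helper1_Coprime
import Cfsg.Agent.Lib_helper6_Sylow

set_option autoImplicit false

namespace Cfsg.Agent.Lib_helper5_PRegClass

open Cfsg
open scoped Pointwise commutatorElement
open Cfsg.Agent.Lib_helper1_Basic Cfsg.Agent.Lib_helper1_Hall Cfsg.Agent.Lib_helper1_SZConj
  Cfsg.Agent.Lib_helper1_Primitive Cfsg.Agent.Lib_helper5_PSolv Cfsg.Agent.Lib_helper5_PSolv2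

universe u

/-- all `p`-regular elements have centralizers of `p`-power index -/
def Hyp (p : ℕ) (G : Type*) [Group G] : Prop :=
  ∀ x : G, (orderOf x).Coprime p → ∃ k : ℕ, (Subgroup.centralizer ({x} : Set G)).index = p ^ k

theorem relIndex_dvd_index_of_normal_right {G : Type*} [Group G] [Finite G] (C M : Subgroup G)
    [M.Normal] : C.relIndex M ∣ C.index := by
  have h1 : (C ⊓ M).relIndex M * M.index = (C ⊓ M).index :=
    Subgroup.relIndex_mul_index inf_le_right
  have h2 : (C ⊓ M).relIndex C * C.index = (C ⊓ M).index :=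
    Subgroup.relIndex_mul_index inf_le_left
  rw [Subgroup.inf_relIndex_right] at h1
  rw [Subgroup.inf_relIndex_left] at h2
  have h3 : M.relIndex (M ⊔ C) * (M ⊔ C).index = M.index :=
    Subgroup.relIndex_mul_index le_sup_left
  rw [Subgroup.relIndex_sup_left] at h3
  have hne : (C ⊓ M).index ≠ 0 := Subgroup.index_ne_zero_of_finite
  have hb : 0 < M.relIndex C := by
    rcases Nat.eq_zero_or_pos (M.relIndex C) with h | h
    · rw [h, zero_mul] at h2; exact absurd h2.symm hne
    · exact h
  refine ⟨(M ⊔ C).index, ?_⟩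
  apply Nat.eq_of_mul_eq_mul_left hb
  rw [h2, ← h1, ← h3]; ring

theorem hyp_normal {G : Type*} [Group G] [Finite G] {p : ℕ} [Fact p.Prime] (M : Subgroup G)
    [M.Normal] (h : Hyp p G) : Hyp p M := by
  intro x hx
  have hx' : (orderOf (x : G)).Coprime p := by rwa [Subgroup.orderOf_coe]
  obtain ⟨k, hk⟩ := h (x : G) hx'
  have e : Subgroup.centralizer ({x} : Set M) =
      (Subgroup.centralizer ({(x : G)} : Set G)).subgroupOf M := by
    ext y
    rw [Subgroup.mem_subgroupOf, Subgroup.mem_centralizer_singleton_iff,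
      Subgroup.mem_centralizer_singleton_iff]
    constructor
    · intro hy; exact congrArg Subtype.val hy
    · intro hy; exact Subtype.ext hy
  have hd : (Subgroup.centralizer ({x} : Set M)).index ∣ p ^ k := by
    rw [e, ← hk]; exact relIndex_dvd_index_of_normal_right _ M
  obtain ⟨j, -, hj⟩ := (Nat.dvd_prime_pow Fact.out).mp hd
  exact ⟨j, hj⟩

theorem hyp_quotient {G : Type*} [Group G] [Finite G] {p : ℕ} [Fact p.Prime] (N : Subgroup G)
    [N.Normal] (h : Hyp p G) : Hyp p (G ⧸ N) := by
  intro xb hxb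
  obtain ⟨m, a, hcard, hm⟩ := card_decomp G p
  obtain ⟨g, rfl⟩ := QuotientGroup.mk'_surjective N xb
  obtain ⟨π, hπ⟩ : ∃ π : G →* G ⧸ N, π = QuotientGroup.mk' N := ⟨_, rfl⟩
  rw [← hπ] at hxb ⊢
  have hπs : Function.Surjective π := hπ ▸ QuotientGroup.mk'_surjective N
  have hy : (g ^ p ^ a) ^ m = 1 := by
    rw [← pow_mul, mul_comm, ← hcard]; exact pow_card_eq_one'
  have hyo : (orderOf (g ^ p ^ a)).Coprime p :=
    Nat.Coprime.coprime_dvd_left (orderOf_dvd_of_pow_eq_one hy) hm
  obtain ⟨k, hk⟩ := h _ hyo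
  obtain ⟨v, hv⟩ := exists_pow_eq_self_of_coprime (x := π g) (n := p ^ a)
    (Nat.Coprime.pow_left a hxb.symm)
  have hle : (Subgroup.centralizer ({g ^ p ^ a} : Set G)).map π ≤
      Subgroup.centralizer ({π g} : Set (G ⧸ N)) := by
    rintro _ ⟨c, hc0, rfl⟩
    have hc : c ∈ Subgroup.centralizer ({g ^ p ^ a} : Set G) := hc0
    rw [Subgroup.mem_centralizer_singleton_iff] at hc ⊢
    have h1 : Commute (π c) ((π g) ^ p ^ a) := by
      show π c * (π g) ^ p ^ a = (π g) ^ p ^ a * π c
      rw [← map_pow, ← map_mul, hc, map_mul]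
    have h2 := h1.pow_right v
    rw [hv] at h2
    exact h2
  have hd : (Subgroup.centralizer ({π g} : Set (G ⧸ N))).index ∣ p ^ k := by
    rw [← hk]
    exact (Subgroup.index_dvd_of_le hle).trans (Subgroup.index_map_dvd _ hπs)
  obtain ⟨j, -, hj⟩ := (Nat.dvd_prime_pow Fact.out).mp hd
  exact ⟨j, hj⟩

theorem exists_simple_quotient (Γ : Type*) [Group Γ] [Finite Γ] [Nontrivial Γ] :
    ∃ K : Subgroup Γ, ∃ _ : K.Normal, K ≠ ⊤ ∧ IsSimpleGroup (Γ ⧸ K) := by
  obtain ⟨K, ⟨hKn, hKtop⟩, hKmax⟩ := exists_maximal_subgroup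
    (fun K : Subgroup Γ => K.Normal ∧ K ≠ ⊤) ⟨⊥, inferInstance, bot_ne_top⟩
  haveI := hKn
  refine ⟨K, hKn, hKtop, ?_⟩
  haveI : Nontrivial (Γ ⧸ K) := by
    obtain ⟨g, hg⟩ : ∃ g, g ∉ K := by
      by_contra hcon
      push Not at hcon
      exact hKtop (eq_top_iff.mpr fun x _ => hcon x)
    refine ⟨⟨QuotientGroup.mk' K g, 1, ?_⟩⟩
    intro h
    exact hg ((QuotientGroup.eq_one_iff g).mp h)
  refine ⟨fun L hL => ?_⟩
  haveI := hL
  by_cases hLt : L.comap (QuotientGroup.mk' K) = ⊤
  · right
    rw [← Subgroup.map_comap_eq_self_of_surjective (QuotientGroup.mk'_surjective K) L, hLt]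
    exact Subgroup.map_top_of_surjective _ (QuotientGroup.mk'_surjective K)
  · left
    have h1 := hKmax (L.comap (QuotientGroup.mk' K)) ⟨inferInstance, hLt⟩
      (le_comap_mk'_of_le K L)
    rw [← Subgroup.map_comap_eq_self_of_surjective (QuotientGroup.mk'_surjective K) L, h1]
    exact QuotientGroup.map_mk'_self K

/-- Burnside-type: if all `p`-regular classes have `p`-power size, the group is `p`-solvable -/
theorem isPSolvable_of_hyp {p : ℕ} [Fact p.Prime] (n : ℕ) : ∀ (G : Type u) [Group G] [Finite G],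
    Nat.card G = n → Hyp p G → Cfsg.IsPSolvable p G := by
  induction n using Nat.strong_induction_on with
  | _ n ih =>
  intro G _ _ hGn hyp
  have hp : p.Prime := Fact.out
  by_cases htriv : Subsingleton G
  · refine ⟨0, fun _ => ⊤, ?_, rfl, monotone_const, fun _ => inferInstance, fun i => i.elim0⟩
    exact eq_bot_iff.mpr (fun x _ => Subgroup.mem_bot.mpr (Subsingleton.elim x 1))
  · rw [not_subsingleton_iff_nontrivial] at htriv
    obtain ⟨M, ⟨hMn, hM1⟩, hMmin⟩ := exists_minimal_subgroup
      (fun M : Subgroup G => M.Normal ∧ M ≠ ⊥) ⟨⊤, inferInstance, top_ne_bot⟩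
    haveI := hMn
    have hmin' : ∀ K : Subgroup G, K.Normal → K ≤ M → K = ⊥ ∨ K = M := by
      intro K hK hKM
      by_cases hK1 : K = ⊥
      · exact Or.inl hK1
      · exact Or.inr (hMmin K ⟨hK, hK1⟩ hKM)
    have hMpp : (∃ b, Nat.card M = p ^ b) ∨ (Nat.card M).Coprime p := by
      haveI : Nontrivial M := (Subgroup.nontrivial_iff_ne_bot M).mpr hM1
      have hypM : Hyp p M := hyp_normal M hyp
      obtain ⟨M₁, hM₁n, hM₁top, hsimple⟩ := exists_simple_quotient M
      haveI := hM₁n
      haveI := hsimple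
      have hypT : Hyp p (M ⧸ M₁) := hyp_quotient M₁ hypM
      have hTsolv : Group.IsSolvable (M ⧸ M₁) := by
        by_cases hex : ∃ t : M ⧸ M₁, t ≠ 1 ∧ (orderOf t).Coprime p
        · obtain ⟨t, ht1, htc⟩ := hex
          obtain ⟨k, hk⟩ := hypT t htc
          exact Cfsg.Agent.Lib_helper3_Burnside2.solvable_of_prime_card
            (Cfsg.Agent.Lib_helper3_Burnside.prime_card_of_prime_power_class p k hp t ht1 hk)
        · push Not at hex
          have hT : IsPGroup p (M ⧸ M₁) := by
            intro t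
            obtain ⟨m, a, hcard, hm⟩ := card_decomp (M ⧸ M₁) p
            refine ⟨a, ?_⟩
            by_contra hne
            apply hex (t ^ p ^ a) hne
            have h1 : (t ^ p ^ a) ^ m = 1 := by
              rw [← pow_mul, mul_comm, ← hcard]; exact pow_card_eq_one'
            exact Nat.Coprime.coprime_dvd_left (orderOf_dvd_of_pow_eq_one h1) hm
          haveI := hT.isNilpotent
          infer_instance
      have hTcomm : ∀ a b : M ⧸ M₁, a * b = b * a :=
        IsSimpleGroup.comm_iff_isSolvable.mpr hTsolv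
      have hcomm_le : ⁅M, M⁆ ≤ M₁.map M.subtype := by
        rw [Subgroup.commutator_le]
        intro u hu v hv
        refine ⟨⁅(⟨u, hu⟩ : M), ⟨v, hv⟩⁆, ?_, rfl⟩
        have h1 : (QuotientGroup.mk' M₁) ⁅(⟨u, hu⟩ : M), ⟨v, hv⟩⁆ = 1 := by
          rw [map_commutatorElement, commutatorElement_eq_one_iff_mul_comm]
          exact hTcomm _ _
        exact (QuotientGroup.eq_one_iff _).mp h1
      have hne : M₁.map M.subtype ≠ M := by
        intro h
        apply hM₁top
        rw [eq_top_iff]
        rintro ⟨u, hu⟩ -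
        have h1 : u ∈ M₁.map M.subtype := by rw [h]; exact hu
        obtain ⟨w, hw, hwu⟩ := h1
        have h2 : w = ⟨u, hu⟩ := Subtype.ext hwu
        rw [← h2]; exact hw
      have hcomm_bot : ⁅M, M⁆ = ⊥ := by
        rcases hmin' ⁅M, M⁆ inferInstance (Subgroup.commutator_le_left M M) with h | h
        · exact h
        · exfalso; apply hne
          exact le_antisymm (Subgroup.map_subtype_le _)
            (fun w hw => hcomm_le (by rw [h]; exact hw))
      have hMc : ∀ u ∈ M, ∀ v ∈ M, u * v = v * u := by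
        intro u hu v hv
        have h1 : ⁅u, v⁆ ∈ ⁅M, M⁆ := Subgroup.commutator_mem_commutator hu hv
        rw [hcomm_bot, Subgroup.mem_bot, commutatorElement_eq_one_iff_mul_comm] at h1
        exact h1
      obtain ⟨P⟩ : Nonempty (Sylow p M) := inferInstance
      have hPn : (P : Subgroup M).Normal := by
        constructor
        intro x hx g
        have h1 : g * x * g⁻¹ = x := by
          have h2 := hMc g g.2 x x.2
          apply Subtype.ext
          simp only [Subgroup.coe_mul, Subgroup.coe_inv]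
          rw [h2]; group
        rw [h1]; exact hx
      haveI := Sylow.characteristic_of_normal P hPn
      have hPG : ((P : Subgroup M).map M.subtype).Normal := by
        rw [← Subgroup.normalizer_eq_top_iff, eq_top_iff]
        have h1 : (⊤ : Subgroup G) ≤ Subgroup.normalizer (M : Set G) := by
          rw [Subgroup.normalizer_eq_top]
        exact h1.trans
          (Cfsg.Agent.Lib_helper1_Coprime.normalizer_le_normalizer_map_characteristic M
            (P : Subgroup M))
      have hPcard : Nat.card ((P : Subgroup M).map M.subtype) =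
          p ^ (Nat.card M).factorization p := by
        rw [Subgroup.card_map_of_injective M.subtype_injective, Sylow.card_eq_multiplicity]
      rcases hmin' _ hPG (Subgroup.map_subtype_le _) with h | h
      · right
        rw [h, Subgroup.card_bot] at hPcard
        have hf : (Nat.card M).factorization p = 0 := by
          by_contra hne0
          have : 1 < p ^ (Nat.card M).factorization p := Nat.one_lt_pow hne0 hp.one_lt
          omega
        have hnd : ¬ p ∣ Nat.card M := by
          intro hd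
          have := hp.factorization_pos_of_dvd Nat.card_pos.ne' hd
          omega
        exact ((Nat.Prime.coprime_iff_not_dvd hp).mpr hnd).symm
      · left
        exact ⟨_, by rw [← hPcard, h]⟩
    have hcQ : Nat.card M * Nat.card (G ⧸ M) = Nat.card G := by
      rw [mul_comm]; exact (Subgroup.card_eq_card_quotient_mul_card_subgroup M).symm
    have hM2 : 2 ≤ Nat.card M := two_le_card_of_ne_bot M hM1
    have hQpos : 0 < Nat.card (G ⧸ M) := Nat.card_pos
    have hlt : Nat.card (G ⧸ M) < n := by
      rw [← hGn, ← hcQ]; nlinarith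
    exact isPSolvable_of_quotient M hMpp (ih _ hlt (G ⧸ M) rfl (hyp_quotient M hyp))

end Cfsg.Agent.Lib_helper5_PRegClass
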