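import Mathlib
import Cfsg.Agent.Lib_helper5_PRegClass

set_option autoImplicit false

namespace Cfsg.Agent.Lib_helper5_PRegClass2

open Cfsg
open scoped Pointwise commutatorElement
open Cfsg.Agent.Lib_helper1_Basic Cfsg.Agent.Lib_helper1_Hall Cfsg.Agent.Lib_helper1_SZConj
  Cfsg.Agent.Lib_helper1_Primitive Cfsg.Agent.Lib_helper5_PSolv Cfsg.Agent.Lib_helper5_PSolv2
  Cfsg.Agent.Lib_helper5_PRegClass

universe u

/-- every `p`-regular element is central in some `p`-complement -/
theorem exists_pcomp_centralizing {G : Type u} [Group G] [Finite G] {p : ℕ} [Fact p.Prime]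
    (hG : Cfsg.IsPSolvable p G) (hyp : Hyp p G) (m a : ℕ) (hcard : Nat.card G = m * p ^ a)
    (hm : m.Coprime p) (x : G) (hx : (orderOf x).Coprime p) :
    ∃ H₁ : Subgroup G, Nat.card H₁ = m ∧ x ∈ H₁ ∧
      H₁ ≤ Subgroup.centralizer ({x} : Set G) := by
  have hp : p.Prime := Fact.out
  obtain ⟨k, hk⟩ := hyp x hx
  obtain ⟨C, hC⟩ : ∃ C : Subgroup G, C = Subgroup.centralizer ({x} : Set G) := ⟨_, rfl⟩
  rw [← hC] at hk ⊢
  have hxC : x ∈ C := by rw [hC]; exact Subgroup.mem_centralizer_singleton_iff.mpr rfl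
  have hka : k ≤ a ∧ Nat.card C = m * p ^ (a - k) := by
    have h1 := Subgroup.card_mul_index C
    rw [hk, hcard] at h1
    have h2 : p ^ k ∣ p ^ a :=
      (Nat.Coprime.pow_left k hm.symm).dvd_of_dvd_mul_left (Dvd.intro_left _ h1)
    have h3 : k ≤ a := (Nat.pow_dvd_pow_iff_le_right hp.one_lt).mp h2
    refine ⟨h3, ?_⟩
    have h4 : p ^ a = p ^ (a - k) * p ^ k := (Nat.pow_sub_mul_pow p h3).symm
    rw [h4, ← mul_assoc] at h1
    exact Nat.eq_of_mul_eq_mul_right (pow_pos hp.pos k) h1
  obtain ⟨hka1, hCcard⟩ := hka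
  have hCps : Cfsg.IsPSolvable p C := isPSolvable_subgroup C hG
  have hZ : (Nat.card (Subgroup.zpowers (⟨x, hxC⟩ : C))).Coprime p := by
    rw [Nat.card_zpowers, Subgroup.orderOf_mk]; exact hx
  obtain ⟨H', hH', hle⟩ := pcomp_dominance hCps m (a - k) hCcard hm _ hZ
  refine ⟨H'.map C.subtype, by rw [Subgroup.card_map_of_injective C.subtype_injective, hH'],
    ?_, Subgroup.map_subtype_le _⟩
  exact ⟨⟨x, hxC⟩, hle (Subgroup.mem_zpowers _), rfl⟩

/-- a normal `p'`-subgroup lies in every `p`-complement -/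
theorem normal_le_pcomp {G : Type u} [Group G] [Finite G] {p : ℕ} [Fact p.Prime]
    (hG : Cfsg.IsPSolvable p G) (m a : ℕ) (hcard : Nat.card G = m * p ^ a) (hm : m.Coprime p)
    (N : Subgroup G) [hNn : N.Normal] (hN : (Nat.card N).Coprime p) (H₁ : Subgroup G)
    (hH₁ : Nat.card H₁ = m) : N ≤ H₁ := by
  obtain ⟨H₂, hH₂, hNH₂⟩ := pcomp_dominance hG m a hcard hm N hN
  obtain ⟨g, hg⟩ := pcomp_conj hG m a hcard hm H₂ H₁ hH₂ hH₁
  intro n hn
  rw [← hg, mem_conj_smul]
  apply hNH₂
  have := hNn.conj_mem n hn g⁻¹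
  simpa using this

/-- if all `p`-regular classes have `p`-power size, there is an abelian `p`-complement -/
theorem abelian_pcomp_aux {p : ℕ} [Fact p.Prime] (n : ℕ) : ∀ (G : Type u) [Group G] [Finite G],
    Nat.card G = n → Hyp p G → ∀ m a : ℕ, Nat.card G = m * p ^ a → m.Coprime p →
      ∃ H : Subgroup G, Nat.card H = m ∧ ∀ u ∈ H, ∀ v ∈ H, u * v = v * u := by
  induction n using Nat.strong_induction_on with
  | _ n ih =>
  intro G _ _ hGn hyp m a hcard hm
  have hp : p.Prime := Fact.out
  have hG : Cfsg.IsPSolvable p G := isPSolvable_of_hyp _ G rfl hyp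
  by_cases hNp : ∃ N : Subgroup G, N.Normal ∧ N ≠ ⊥ ∧ ∃ b, Nat.card N = p ^ b
  · obtain ⟨N, hNn, hN1, b, hb⟩ := hNp
    haveI := hNn
    have hcQ : Nat.card N * Nat.card (G ⧸ N) = Nat.card G := by
      rw [mul_comm]; exact (Subgroup.card_eq_card_quotient_mul_card_subgroup N).symm
    have hN2 : 2 ≤ Nat.card N := two_le_card_of_ne_bot N hN1
    have hQpos : 0 < Nat.card (G ⧸ N) := Nat.card_pos
    have hlt : Nat.card (G ⧸ N) < n := by
      rw [← hGn, ← hcQ]; nlinarith
    have hNG : Nat.card N ∣ m * p ^ a := hcard ▸ Dvd.intro _ hcQ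
    have hba' : p ^ b ∣ p ^ a := by
      rw [hb] at hNG
      exact (Nat.Coprime.pow_left b hm.symm).dvd_of_dvd_mul_left hNG
    have hba : b ≤ a := (Nat.pow_dvd_pow_iff_le_right hp.one_lt).mp hba'
    have hQcard : Nat.card (G ⧸ N) = m * p ^ (a - b) := by
      have h1 : p ^ b * Nat.card (G ⧸ N) = p ^ b * (m * p ^ (a - b)) := by
        rw [← hb, hcQ, hcard, hb]
        have : p ^ a = p ^ (a - b) * p ^ b := (Nat.pow_sub_mul_pow p hba).symm
        rw [this]; ring
      exact Nat.eq_of_mul_eq_mul_left (pow_pos hp.pos b) h1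
    obtain ⟨S, hS, hSc⟩ := ih _ hlt (G ⧸ N) rfl (hyp_quotient N hyp) m (a - b) hQcard hm
    obtain ⟨H₀, hH₀, hmap, hdisj⟩ := exists_lift N b hb S m hm hS
    refine ⟨H₀, hH₀, ?_⟩
    intro u hu v hv
    have hu' : (QuotientGroup.mk' N) u ∈ S := by rw [← hmap]; exact ⟨u, hu, rfl⟩
    have hv' : (QuotientGroup.mk' N) v ∈ S := by rw [← hmap]; exact ⟨v, hv, rfl⟩
    have h1 : (QuotientGroup.mk' N) ((u * v) * (v * u)⁻¹) = 1 := by
      rw [map_mul, map_inv, map_mul, map_mul, hSc _ hu' _ hv', mul_inv_cancel]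
    have h2 : (u * v) * (v * u)⁻¹ ∈ N := (QuotientGroup.eq_one_iff _).mp h1
    have h3 : (u * v) * (v * u)⁻¹ ∈ H₀ :=
      H₀.mul_mem (H₀.mul_mem hu hv) (H₀.inv_mem (H₀.mul_mem hv hu))
    have h4 : (u * v) * (v * u)⁻¹ ∈ N ⊓ H₀ := ⟨h2, h3⟩
    rw [disjoint_iff.mp hdisj, Subgroup.mem_bot] at h4
    exact mul_inv_eq_one.mp h4
  · push Not at hNp
    obtain ⟨N, ⟨hNn, hNc⟩, hNmax⟩ := exists_maximal_subgroup
      (fun N : Subgroup G => N.Normal ∧ (Nat.card N).Coprime p)
      ⟨⊥, inferInstance, by rw [Subgroup.card_bot]; exact Nat.coprime_one_left p⟩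
    haveI := hNn
    obtain ⟨D, hD⟩ : ∃ D : Subgroup G, D = Subgroup.centralizer (N : Set G) := ⟨_, rfl⟩
    have hDn : D.Normal := by rw [hD]; infer_instance
    have hpreg : ∀ x : G, (orderOf x).Coprime p → x ∈ D := by
      intro x hx
      obtain ⟨H₁, hH₁, hxH₁, hH₁C⟩ := exists_pcomp_centralizing hG hyp m a hcard hm x hx
      have hNH₁ := normal_le_pcomp hG m a hcard hm N hNc H₁ hH₁
      rw [hD, Subgroup.mem_centralizer_iff]
      intro y hy
      exact Subgroup.mem_centralizer_singleton_iff.mp (hH₁C (hNH₁ hy))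
    have hND : N ≤ D := by
      intro y hy
      apply hpreg
      exact Nat.Coprime.coprime_dvd_left (Subgroup.orderOf_dvd_natCard N hy) hNc
    have hDN : D ≤ N := by
      by_contra hcon
      obtain ⟨π, hπ⟩ : ∃ π : G →* G ⧸ N, π = QuotientGroup.mk' N := ⟨_, rfl⟩
      have hπs : Function.Surjective π := hπ ▸ QuotientGroup.mk'_surjective N
      have hker : π.ker = N := hπ ▸ QuotientGroup.ker_mk' N
      have hQ : Cfsg.IsPSolvable p (G ⧸ N) := isPSolvable_of_surjective π hπs hG
      haveI : (D.map π).Normal := Subgroup.Normal.map hDn π hπs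
      have hDb : D.map π ≠ ⊥ := by
        intro h
        apply hcon
        intro d hd
        have h1 : π d ∈ D.map π := ⟨d, hd, rfl⟩
        rw [h, Subgroup.mem_bot, ← MonoidHom.mem_ker, hker] at h1
        exact h1
      obtain ⟨Lb, hLbn, hLb1, hLbD, hLbpp⟩ := exists_normal_le_of_isPSolvable hQ (D.map π) hDb
      haveI := hLbn
      obtain ⟨L, hL⟩ : ∃ L : Subgroup G, L = Lb.comap π := ⟨_, rfl⟩
      have hLn : L.Normal := by rw [hL]; infer_instance
      have hLcard : Nat.card L = Nat.card N * Nat.card Lb := by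
        rw [hL, hπ]; exact card_comap_mk' N Lb
      have hNL : N ≤ L := by rw [hL, hπ]; exact le_comap_mk'_of_le N Lb
      have hLD : L ≤ D := by
        intro l hl
        rw [hL] at hl
        obtain ⟨d, hd, hdl⟩ := hLbD (Subgroup.mem_comap.mp hl)
        have h1 : l * d⁻¹ ∈ N := by
          rw [← hker, MonoidHom.mem_ker, map_mul, map_inv, hdl, mul_inv_cancel]
        have h2 : l = (l * d⁻¹) * d := by group
        rw [h2]; exact D.mul_mem (hND h1) hd
      have hLb2 : 2 ≤ Nat.card Lb := two_le_card_of_ne_bot Lb hLb1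
      have hNpos : 0 < Nat.card N := Nat.card_pos
      rcases hLbpp with ⟨b, hb⟩ | hc
      · have hb1 : b ≠ 0 := by
          rintro rfl
          rw [pow_zero] at hb; omega
        haveI : (N.subgroupOf L).Normal := Subgroup.Normal.subgroupOf hNn L
        have hN'card : Nat.card (N.subgroupOf L) = Nat.card N := card_subgroupOf_of_le hNL
        have hN'idx : (N.subgroupOf L).index = p ^ b := by
          have h1 := Subgroup.card_mul_index (N.subgroupOf L)
          rw [hN'card, hLcard, hb] at h1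
          exact Nat.eq_of_mul_eq_mul_left hNpos h1
        have hcop' : (Nat.card (N.subgroupOf L)).Coprime (N.subgroupOf L).index := by
          rw [hN'card, hN'idx]; exact Nat.Coprime.pow_right b hNc
        obtain ⟨S', hS'⟩ := Subgroup.exists_right_complement'_of_coprime hcop'
        have hS'card : Nat.card S' = p ^ b := by rw [← hS'.symm.index_eq_card, hN'idx]
        obtain ⟨S, hS⟩ : ∃ S : Subgroup G, S = S'.map L.subtype := ⟨_, rfl⟩
        have hScard : Nat.card S = p ^ b := by
          rw [hS, Subgroup.card_map_of_injective L.subtype_injective, hS'card]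
        have hSL : S ≤ L := by rw [hS]; exact Subgroup.map_subtype_le _
        have hpow : ∀ s ∈ S, s ^ p ^ b = 1 := by
          intro s hs
          rw [← orderOf_dvd_iff_pow_eq_one, ← hScard]
          exact Subgroup.orderOf_dvd_natCard S hs
        have hSn : S.Normal := by
          constructor
          intro s hs g
          have hsL : s ∈ L := hSL hs
          have hyL : g * s * g⁻¹ ∈ L := hLn.conj_mem s hsL g
          have hdec : (⟨g * s * g⁻¹, hyL⟩ : L) ∈ ((N.subgroupOf L : Subgroup L) : Set L) *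
              ((S' : Subgroup L) : Set L) := by
            rw [Subgroup.IsComplement.mul_eq hS']; trivial
          obtain ⟨n', hn', s', hs', hns⟩ := hdec
          have hn₁ : (n' : G) ∈ N := Subgroup.mem_subgroupOf.mp hn'
          have hs₁ : (s' : G) ∈ S := by rw [hS]; exact ⟨s', hs', rfl⟩
          have hns' : (n' : G) * (s' : G) = g * s * g⁻¹ := congrArg Subtype.val hns
          have hcomm : Commute (n' : G) (s' : G) := by
            have h1 := hLD s'.2
            rw [hD, Subgroup.mem_centralizer_iff] at h1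
            exact h1 _ hn₁
          have hy1 : (g * s * g⁻¹) ^ p ^ b = 1 := by
            rw [conj_pow, hpow s hs]; group
          have hn1 : (n' : G) ^ p ^ b = 1 := by
            rw [← hns', hcomm.mul_pow, hpow _ hs₁, mul_one] at hy1
            exact hy1
          have hn2 : (n' : G) ^ Nat.card N = 1 := by
            rw [← orderOf_dvd_iff_pow_eq_one]
            exact Subgroup.orderOf_dvd_natCard N hn₁
          have hn3 : (n' : G) = 1 := by
            rw [← orderOf_eq_one_iff, ← Nat.dvd_one]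
            have h1 : orderOf (n' : G) ∣ Nat.gcd (p ^ b) (Nat.card N) :=
              Nat.dvd_gcd (orderOf_dvd_of_pow_eq_one hn1) (orderOf_dvd_of_pow_eq_one hn2)
            have h2 : Nat.gcd (p ^ b) (Nat.card N) = 1 := (Nat.Coprime.pow_right b hNc).symm
            rwa [h2] at h1
          rw [← hns', hn3, one_mul]; exact hs₁
        have hS1 : S ≠ ⊥ := by
          intro h
          rw [h, Subgroup.card_bot] at hScard
          have : 1 < p ^ b := Nat.one_lt_pow hb1 hp.one_lt
          omega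
        exact hNp S hSn hS1 b hScard
      · have h1 : (Nat.card L).Coprime p := by
          rw [hLcard]; exact Nat.Coprime.mul_left hNc hc
        have h2 := hNmax L ⟨hLn, h1⟩ hNL
        rw [h2] at hLcard
        nlinarith
    obtain ⟨H, hH⟩ := exists_pcomp hG m a hcard hm
    refine ⟨H, hH, ?_⟩
    have hHreg : ∀ w ∈ H, (orderOf w).Coprime p := fun w hw =>
      Nat.Coprime.coprime_dvd_left (Subgroup.orderOf_dvd_natCard H hw) (hH ▸ hm)
    intro u hu v hv
    have hu' : u ∈ D := hpreg u (hHreg u hu)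
    have hv' : v ∈ N := hDN (hpreg v (hHreg v hv))
    rw [hD, Subgroup.mem_centralizer_iff] at hu'
    exact (hu' v hv').symm

end Cfsg.Agent.Lib_helper5_PRegClass2
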