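import Mathlib
import Cfsg.Agent.Lib_helper5_PRegClass2

set_option autoImplicit false

namespace Cfsg.Agent.Lib_helper5_PRegClass3

open Cfsg
open scoped Pointwise commutatorElement
open Cfsg.Agent.Lib_helper1_Basic Cfsg.Agent.Lib_helper1_Hall Cfsg.Agent.Lib_helper1_SZConj
  Cfsg.Agent.Lib_helper1_Primitive Cfsg.Agent.Lib_helper5_PSolv Cfsg.Agent.Lib_helper5_PSolv2
  Cfsg.Agent.Lib_helper5_PRegClass

universe u

theorem index_conj_smul {G : Type*} [Group G] [Finite G] (c : G) (K : Subgroup G) :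
    (MulAut.conj c • K).index = K.index := by
  have h1 := Subgroup.card_mul_index (MulAut.conj c • K)
  have h2 := Subgroup.card_mul_index K
  rw [card_conj_smul] at h1
  exact Nat.eq_of_mul_eq_mul_left Nat.card_pos (h1.trans h2.symm)

/-- a `q`-element of `C` lies in a `C`-conjugate of a subgroup `K ≤ C` of index prime to `q` -/
theorem exists_conj_mem_of_prime_pow {G : Type*} [Group G] [Finite G] {q : ℕ} [Fact q.Prime]
    (C K : Subgroup G) (hq : ¬ q ∣ K.relIndex C) (y : G) (hyC : y ∈ C) (e : ℕ)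
    (hy : orderOf y = q ^ e) : ∃ c ∈ C, y ∈ MulAut.conj c • K := by
  have hy' : ∃ k : ℕ, orderOf (⟨y, hyC⟩ : C) = q ^ k := ⟨e, by rw [Subgroup.orderOf_mk, hy]⟩
  obtain ⟨Q, hQ⟩ := Cfsg.Agent.Lib_helper6_Sylow.pElem_mem_sylow hy'
  obtain ⟨P, hPK, -⟩ := Cfsg.Agent.Lib_helper5_Class.exists_sylow_le_of_mem (K.subgroupOf C) hq 1
    (Subgroup.one_mem _) ⟨0, by simp⟩
  obtain ⟨c, hc⟩ := MulAction.exists_smul_eq C P Q
  refine ⟨(c : G), c.2, ?_⟩
  rw [← hc, Sylow.coe_subgroup_smul, mem_conj_smul] at hQ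
  have h1 := hPK hQ
  rw [Subgroup.mem_subgroupOf] at h1
  rw [mem_conj_smul]
  simpa using h1

/-- in a group with an abelian subgroup `K` of `p`-power index, every `p`-regular element lies
in a conjugate of `K` (relative version) -/
theorem exists_conj_mem_of_abelian {G : Type*} [Group G] [Finite G] {p : ℕ} [Fact p.Prime]
    (n : ℕ) : ∀ x : G, orderOf x = n → n.Coprime p → ∀ C K : Subgroup G, K ≤ C → x ∈ C →
      (∀ u ∈ K, ∀ v ∈ K, u * v = v * u) → (∃ k, K.index = p ^ k) →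
      ∃ c ∈ C, x ∈ MulAut.conj c • K := by
  induction n using Nat.strong_induction_on with
  | _ n ih =>
  intro x hxn hn C K hKC hxC hKc hKi
  by_cases hx1 : n = 1
  · refine ⟨1, C.one_mem, ?_⟩
    have : x = 1 := by rw [← orderOf_eq_one_iff, hxn, hx1]
    rw [this]; exact Subgroup.one_mem _
  · obtain ⟨q, hq, hqn⟩ := Nat.exists_prime_and_dvd hx1
    haveI := Fact.mk hq
    have hqp : q ≠ p := by
      rintro rfl
      exact (Nat.Prime.coprime_iff_not_dvd hq).mp hn.symm hqn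
    have hn0 : n ≠ 0 := by rw [← hxn]; exact (orderOf_pos x).ne'
    obtain ⟨e, he⟩ : ∃ e, e = n.factorization q := ⟨_, rfl⟩
    obtain ⟨s, hs⟩ : ∃ s, s = n / q ^ e := ⟨_, rfl⟩
    have hns : q ^ e * s = n := by rw [hs, he]; exact Nat.ordProj_mul_ordCompl_eq_self n q
    have hcop : (q ^ e).Coprime s := by
      rw [hs, he]; exact (Nat.coprime_ordCompl hq hn0).pow_left _
    have he1 : e ≠ 0 := by rw [he]; exact (hq.factorization_pos_of_dvd hn0 hqn).ne'
    have hy1 : (x ^ s) ^ (q ^ e) = 1 := by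
      rw [← pow_mul, mul_comm, hns, ← hxn]; exact pow_orderOf_eq_one x
    obtain ⟨j, -, hj⟩ := (Nat.dvd_prime_pow hq).mp (orderOf_dvd_of_pow_eq_one hy1)
    have hz1 : (x ^ q ^ e) ^ s = 1 := by
      rw [← pow_mul, hns, ← hxn]; exact pow_orderOf_eq_one x
    have hzo : orderOf (x ^ q ^ e) ∣ s := orderOf_dvd_of_pow_eq_one hz1
    have hs_pos : 0 < s := by
      rcases Nat.eq_zero_or_pos s with h | h
      · rw [h, mul_zero] at hns; exact absurd hns.symm hn0
      · exact h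
    have hslt : s < n := by
      have h2 : 1 < q ^ e := Nat.one_lt_pow he1 hq.one_lt
      nlinarith
    have hzlt : orderOf (x ^ q ^ e) < n := lt_of_le_of_lt (Nat.le_of_dvd hs_pos hzo) hslt
    have hzcop : (orderOf (x ^ q ^ e)).Coprime p :=
      Nat.Coprime.coprime_dvd_left (hzo.trans (Dvd.intro_left _ hns)) hn
    obtain ⟨k, hk⟩ := hKi
    have hqK : ¬ q ∣ K.relIndex C := by
      intro hd
      have h1 : q ∣ p ^ k := hk ▸ hd.trans (Subgroup.relIndex_dvd_index_of_le hKC)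
      exact hqp ((Nat.prime_dvd_prime_iff_eq hq Fact.out).mp (hq.dvd_of_dvd_pow h1))
    obtain ⟨c₁, hc₁, hyK₁⟩ := exists_conj_mem_of_prime_pow C K hqK (x ^ s) (C.pow_mem hxC s) j hj
    obtain ⟨K₁, hK₁⟩ : ∃ K₁ : Subgroup G, K₁ = MulAut.conj c₁ • K := ⟨_, rfl⟩
    rw [← hK₁] at hyK₁
    have hK₁C : K₁ ≤ C := by
      intro w hw
      rw [hK₁, mem_conj_smul] at hw
      have h2 : w = c₁ * (c₁⁻¹ * w * c₁) * c₁⁻¹ := by group
      rw [h2]; exact C.mul_mem (C.mul_mem hc₁ (hKC hw)) (C.inv_mem hc₁)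
    have hK₁c : ∀ u ∈ K₁, ∀ v ∈ K₁, u * v = v * u := by
      intro u hu v hv
      rw [hK₁, mem_conj_smul] at hu hv
      have h3 := hKc _ hu _ hv
      have e1 : u * v = c₁ * ((c₁⁻¹ * u * c₁) * (c₁⁻¹ * v * c₁)) * c₁⁻¹ := by group
      have e2 : v * u = c₁ * ((c₁⁻¹ * v * c₁) * (c₁⁻¹ * u * c₁)) * c₁⁻¹ := by group
      rw [e1, e2, h3]
    have hK₁i : K₁.index = p ^ k := by rw [hK₁, index_conj_smul, hk]
    have hK₁C₁ : K₁ ≤ C ⊓ Subgroup.centralizer ({x ^ s} : Set G) := fun w hw =>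
      ⟨hK₁C hw, Subgroup.mem_centralizer_singleton_iff.mpr (hK₁c w hw _ hyK₁)⟩
    have hzC₁ : x ^ q ^ e ∈ C ⊓ Subgroup.centralizer ({x ^ s} : Set G) :=
      ⟨C.pow_mem hxC _, Subgroup.mem_centralizer_singleton_iff.mpr
        (by rw [← pow_add, ← pow_add, add_comm])⟩
    obtain ⟨c₂, hc₂, hzK₂⟩ := ih _ hzlt (x ^ q ^ e) rfl hzcop
      (C ⊓ Subgroup.centralizer ({x ^ s} : Set G)) K₁ hK₁C₁ hzC₁ hK₁c ⟨k, hK₁i⟩
    refine ⟨c₂ * c₁, C.mul_mem hc₂.1 hc₁, ?_⟩
    rw [← conj_smul_conj_smul, ← hK₁]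
    apply Cfsg.Agent.Lib_helper5_PParts.mem_of_pow_mem_of_coprime (MulAut.conj c₂ • K₁) x s (q ^ e)
      hcop.symm
    · rw [mem_conj_smul]
      have hcomm := Subgroup.mem_centralizer_singleton_iff.mp hc₂.2
      have h4 : c₂⁻¹ * x ^ s * c₂ = x ^ s := by
        rw [mul_assoc, ← hcomm, inv_mul_cancel_left]
      rw [h4]; exact hyK₁
    · exact hzK₂

/-- a group with an abelian subgroup of `p`-power index has `p`-regular classes of `p`-power
size -/
theorem hyp_of_abelian_pcomp {G : Type*} [Group G] [Finite G] {p : ℕ} [Fact p.Prime]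
    (H : Subgroup G) (hHc : ∀ u ∈ H, ∀ v ∈ H, u * v = v * u) (k : ℕ) (hk : H.index = p ^ k) :
    Hyp p G := by
  intro x hx
  obtain ⟨c, -, hxc⟩ := exists_conj_mem_of_abelian (orderOf x) x rfl hx ⊤ H le_top
    (Subgroup.mem_top x) hHc ⟨k, hk⟩
  have hle : MulAut.conj c • H ≤ Subgroup.centralizer ({x} : Set G) := by
    intro w hw
    rw [Subgroup.mem_centralizer_singleton_iff]
    rw [mem_conj_smul] at hw hxc
    have h3 := hHc _ hw _ hxc
    have e1 : w * x = c * ((c⁻¹ * w * c) * (c⁻¹ * x * c)) * c⁻¹ := by group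
    have e2 : x * w = c * ((c⁻¹ * x * c) * (c⁻¹ * w * c)) * c⁻¹ := by group
    rw [e1, e2, h3]
  have hd : (Subgroup.centralizer ({x} : Set G)).index ∣ p ^ k := by
    rw [← hk, ← index_conj_smul c H]; exact Subgroup.index_dvd_of_le hle
  obtain ⟨j, -, hj⟩ := (Nat.dvd_prime_pow Fact.out).mp hd
  exact ⟨j, hj⟩

end Cfsg.Agent.Lib_helper5_PRegClass3
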