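import Mathlib
import Cfsg.Agent.Lib_helper1_PGroup
import Cfsg.Agent.Lib_helper5_FrobThm
import Cfsg.Agent.Lib_helper5_Irr

set_option autoImplicit false
open MulAction

namespace Cfsg.Agent.Lib_helper5_RealCount

variable {P : Type*} [Group P]

/-- conjugation invariance of `x ^ 2 = 1` -/
theorem sq_conj (g u : P) (h : u ^ 2 = 1) : (g * u * g⁻¹) ^ 2 = 1 := by
  rw [conj_pow, h]; group

/-- the orbits of conjugation on the elements with `x ^ 2 = 1` are the classes of such elements -/
theorem card_orbits_sq [Finite P] :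
    Nat.card (Quotient (@orbitRel P {u : P // u ^ 2 = 1} _
      (Lib_helper5_FrobThm.conjSub P (fun u => u ^ 2 = 1) sq_conj))) =
    Nat.card {c : ConjClasses P // ∃ y : P, ConjClasses.mk y = c ∧ y ^ 2 = 1} := by
  letI := Lib_helper5_FrobThm.conjSub P (fun u => u ^ 2 = 1) sq_conj
  apply Nat.card_congr
  refine Equiv.ofBijective (Quotient.lift
    (fun x : {u : P // u ^ 2 = 1} =>
      (⟨ConjClasses.mk x.1, x.1, rfl, x.2⟩ :
        {c : ConjClasses P // ∃ y : P, ConjClasses.mk y = c ∧ y ^ 2 = 1})) ?_) ⟨?_, ?_⟩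
  · intro a b hab
    apply Subtype.ext
    show ConjClasses.mk a.1 = ConjClasses.mk b.1
    obtain ⟨g, hg⟩ := hab
    rw [ConjClasses.mk_eq_mk_iff_isConj, isConj_comm, isConj_iff]
    exact ⟨g, congrArg Subtype.val hg⟩
  · intro a b
    induction a using Quotient.inductionOn with
    | h a =>
    induction b using Quotient.inductionOn with
    | h b =>
    intro hab
    have h1 : ConjClasses.mk a.1 = ConjClasses.mk b.1 := congrArg Subtype.val hab
    rw [ConjClasses.mk_eq_mk_iff_isConj, isConj_comm, isConj_iff] at h1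
    obtain ⟨g, hg⟩ := h1
    apply Quotient.sound
    exact ⟨g, Subtype.ext hg⟩
  · rintro ⟨c, y, rfl, hy⟩
    exact ⟨Quotient.mk _ ⟨y, hy⟩, rfl⟩

theorem card_classes_sq [Finite P] :
    Nat.card {c : ConjClasses P // ∃ y : P, ConjClasses.mk y = c ∧ y ^ 2 = 1} =
      Nat.card {c : ConjClasses P // ∃ y : P, ConjClasses.mk y = c ∧ orderOf y = 2} + 1 := by
  rw [Lib_helper5_FrobThm.card_split
    (fun c : ConjClasses P => ∃ y : P, ConjClasses.mk y = c ∧ orderOf y = 2)
    (fun c : ConjClasses P => ∃ y : P, ConjClasses.mk y = c ∧ y ^ 2 = 1)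
    (by
      rintro c ⟨y, hy, h2⟩
      exact ⟨y, hy, by rw [← h2, pow_orderOf_eq_one]⟩)]
  congr 1
  rw [Nat.card_eq_one_iff_unique]
  constructor
  · constructor
    rintro ⟨a, ha1, ha2⟩ ⟨b, hb1, hb2⟩
    apply Subtype.ext
    show a = b
    obtain ⟨y, rfl, hy⟩ := ha1
    obtain ⟨y', rfl, hy'⟩ := hb1
    have h1 : y = 1 := by
      by_contra hne
      exact ha2 ⟨y, rfl, orderOf_eq_prime hy hne⟩
    have h2 : y' = 1 := by
      by_contra hne
      exact hb2 ⟨y', rfl, orderOf_eq_prime hy' hne⟩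
    rw [h1, h2]
  · refine ⟨⟨ConjClasses.mk 1, ⟨1, rfl, one_pow 2⟩, ?_⟩⟩
    rintro ⟨y, hy, h2⟩
    rw [ConjClasses.mk_eq_mk_iff_isConj, isConj_one_left] at hy
    rw [hy, orderOf_one] at h2
    omega

/-- fixed points of `g` on the involutions-or-one correspond to square roots of `g ^ 2` -/
theorem card_fixedBy_eq [Finite P]
    (hirr : ∀ y : P, Subgroup.normalizer ((Subgroup.zpowers y : Subgroup P) : Set P) ≤
      Subgroup.centralizer {y}) (g : P) :
    Nat.card (@fixedBy P {u : P // u ^ 2 = 1} _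
      (Lib_helper5_FrobThm.conjSub P (fun u => u ^ 2 = 1) sq_conj) g) =
    Nat.card {y : P // y ^ 2 = g ^ 2} := by
  letI := Lib_helper5_FrobThm.conjSub P (fun u => u ^ 2 = 1) sq_conj
  apply Nat.card_congr
  exact
    { toFun := fun x => ⟨x.1.1 * g, by
        have h1 : g * x.1.1 * g⁻¹ = x.1.1 := congrArg Subtype.val x.2
        have h2 : x.1.1 ^ 2 = 1 := x.1.2
        calc (x.1.1 * g) ^ 2 = x.1.1 * (g * x.1.1 * g⁻¹) * g ^ 2 := by rw [pow_two, pow_two]; group
          _ = g ^ 2 := by rw [h1, ← pow_two, h2, one_mul]⟩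
      invFun := fun y => by
        have h1 : g * (y.1 * g⁻¹) * g⁻¹ = (y.1 * g⁻¹)⁻¹ := by
          have h0 : g * g = y.1 * y.1 := by rw [← pow_two, ← pow_two, y.2]
          calc g * (y.1 * g⁻¹) * g⁻¹ = (y.1 * y.1)⁻¹ * (g * g) * (g * y.1 * g⁻¹ * g⁻¹) := by
                rw [h0]; group
            _ = (y.1 * y.1)⁻¹ * (y.1 * y.1) * (g * y.1 * g⁻¹ * g⁻¹) := by rw [h0]
            _ = g * y.1 * (g * g)⁻¹ := by group
            _ = g * y.1 * (y.1 * y.1)⁻¹ := by rw [h0]
            _ = (y.1 * g⁻¹)⁻¹ := by group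
        have h2 : g ∈ Subgroup.normalizer
            ((Subgroup.zpowers (y.1 * g⁻¹) : Subgroup P) : Set P) := by
          rw [Lib_helper5_Irr.mem_normalizer_zpowers_iff, h1]
          exact Subgroup.inv_mem _ (Subgroup.mem_zpowers _)
        have h3 := hirr _ h2
        rw [Subgroup.mem_centralizer_singleton_iff] at h3
        have h4 : g * (y.1 * g⁻¹) * g⁻¹ = y.1 * g⁻¹ := by rw [h3, mul_inv_cancel_right]
        have h5 : (y.1 * g⁻¹) ^ 2 = 1 := by
          rw [pow_two]
          nth_rewrite 1 [← h4]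
          rw [h1, inv_mul_cancel]
        exact ⟨⟨y.1 * g⁻¹, h5⟩, Subtype.ext h4⟩
      left_inv := fun x => by
        apply Subtype.ext
        apply Subtype.ext
        show x.1.1 * g * g⁻¹ = x.1.1
        rw [mul_inv_cancel_right]
      right_inv := fun y => by
        apply Subtype.ext
        show y.1 * g⁻¹ * g = y.1
        rw [inv_mul_cancel_right] }

/-- Burnside count: `(s + 1) |P| = Σ_g #{y : y² = g²}` -/
theorem burnside_sq [Fintype P] [DecidableEq P]
    (hirr : ∀ y : P, Subgroup.normalizer ((Subgroup.zpowers y : Subgroup P) : Set P) ≤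
      Subgroup.centralizer {y}) :
    (Nat.card {c : ConjClasses P // ∃ y : P, ConjClasses.mk y = c ∧ orderOf y = 2} + 1) *
      Fintype.card P = ∑ g : P, (Finset.univ.filter (fun y : P => y ^ 2 = g ^ 2)).card := by
  classical
  letI := Lib_helper5_FrobThm.conjSub P (fun u => u ^ 2 = 1) sq_conj
  haveI : Fintype (Quotient (orbitRel P {u : P // u ^ 2 = 1})) := Fintype.ofFinite _
  have hB := sum_card_fixedBy_eq_card_orbits_mul_card_group P {u : P // u ^ 2 = 1}
  rw [← card_classes_sq, ← card_orbits_sq, Nat.card_eq_fintype_card, ← hB]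
  apply Finset.sum_congr rfl
  intro g _
  rw [← Nat.card_eq_fintype_card, card_fixedBy_eq hirr g, Nat.card_eq_fintype_card,
    Fintype.card_subtype]

theorem sum_sqrt_sq [Fintype P] [DecidableEq P] :
    ∑ g : P, (Finset.univ.filter (fun y : P => y ^ 2 = g ^ 2)).card =
      ∑ z : P, (Finset.univ.filter (fun y : P => y ^ 2 = z)).card ^ 2 := by
  rw [← Finset.sum_fiberwise Finset.univ (fun g : P => g ^ 2)
    (fun g => (Finset.univ.filter (fun y : P => y ^ 2 = g ^ 2)).card)]
  apply Finset.sum_congr rfl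
  intro z _
  have h1 : ∀ g ∈ Finset.univ.filter (fun g : P => g ^ 2 = z),
      (Finset.univ.filter (fun y : P => y ^ 2 = g ^ 2)).card =
        (Finset.univ.filter (fun y : P => y ^ 2 = z)).card := by
    intro g hg
    rw [Finset.mem_filter] at hg
    rw [hg.2]
  rw [Finset.sum_congr rfl h1, Finset.sum_const, smul_eq_mul, pow_two]

theorem frattini_quotient_le [Finite P] (hP : IsPGroup 2 P)
    (hirr : ∀ y : P, Subgroup.normalizer ((Subgroup.zpowers y : Subgroup P) : Set P) ≤
      Subgroup.centralizer {y}) :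
    Nat.card (P ⧸ frattini P) ≤
      Nat.card {c : ConjClasses P // ∃ y : P, ConjClasses.mk y = c ∧ orderOf y = 2} + 1 := by
  classical
  haveI := Fintype.ofFinite P
  haveI : Fact (Nat.Prime 2) := ⟨Nat.prime_two⟩
  have h1 := (burnside_sq hirr).trans sum_sqrt_sq
  set s := Nat.card {c : ConjClasses P // ∃ y : P, ConjClasses.mk y = c ∧ orderOf y = 2} with hs
  set ΦF : Finset P := Finset.univ.filter (fun z : P => z ∈ frattini P) with hΦF
  have hcardΦ : ΦF.card = Nat.card (frattini P) := by
    rw [Nat.card_eq_fintype_card, Fintype.card_subtype]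
  have h2 : Fintype.card P = ∑ z ∈ ΦF, (Finset.univ.filter (fun y : P => y ^ 2 = z)).card := by
    rw [← Finset.card_univ]
    apply Finset.card_eq_sum_card_fiberwise
    intro y _
    rw [Finset.mem_coe, hΦF, Finset.mem_filter]
    exact ⟨Finset.mem_univ _, Lib_helper1_PGroup.pow_p_mem_frattini hP y⟩
  have h3 := sq_sum_le_card_mul_sum_sq (s := ΦF)
    (f := fun z : P => (Finset.univ.filter (fun y : P => y ^ 2 = z)).card)
  rw [← h2] at h3
  have h4 : ∑ z ∈ ΦF, (Finset.univ.filter (fun y : P => y ^ 2 = z)).card ^ 2 ≤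
      ∑ z : P, (Finset.univ.filter (fun y : P => y ^ 2 = z)).card ^ 2 :=
    Finset.sum_le_sum_of_subset (Finset.subset_univ _)
  rw [← h1] at h4
  have h5 : Fintype.card P ^ 2 ≤ ΦF.card * ((s + 1) * Fintype.card P) := by
    calc Fintype.card P ^ 2 ≤ ΦF.card * ∑ z ∈ ΦF,
          (Finset.univ.filter (fun y : P => y ^ 2 = z)).card ^ 2 := by simpa using h3
      _ ≤ ΦF.card * ((s + 1) * Fintype.card P) := Nat.mul_le_mul_left _ h4
  have hPpos : 0 < Fintype.card P := Fintype.card_pos
  have h6 : Fintype.card P ≤ ΦF.card * (s + 1) := by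
    have : Fintype.card P * Fintype.card P ≤ (ΦF.card * (s + 1)) * Fintype.card P := by
      calc Fintype.card P * Fintype.card P = Fintype.card P ^ 2 := (pow_two _).symm
        _ ≤ ΦF.card * ((s + 1) * Fintype.card P) := h5
        _ = (ΦF.card * (s + 1)) * Fintype.card P := by ring
    exact Nat.le_of_mul_le_mul_right this hPpos
  have h7 : Nat.card (P ⧸ frattini P) * Nat.card (frattini P) = Fintype.card P := by
    rw [← Nat.card_eq_fintype_card]
    exact (Subgroup.index_mul_card (frattini P))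
  rw [← h7, hcardΦ, mul_comm] at h6
  exact Nat.le_of_mul_le_mul_left h6 Nat.card_pos

theorem frattini_quotient_le_closure [Finite P] (hP : IsPGroup 2 P)
    (hirr : ∀ y : P, Subgroup.normalizer ((Subgroup.zpowers y : Subgroup P) : Set P) ≤
      Subgroup.centralizer {y}) :
    Nat.card (P ⧸ frattini P) ≤ Nat.card (Subgroup.closure {y : P | orderOf y = 2}) := by
  classical
  refine le_trans (frattini_quotient_le hP hirr) ?_
  have h1 : Nat.card {c : ConjClasses P // ∃ y : P, ConjClasses.mk y = c ∧ orderOf y = 2} ≤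
      Nat.card {y : P // orderOf y = 2} := by
    apply Nat.card_le_card_of_surjective
      (fun y : {y : P // orderOf y = 2} =>
        (⟨ConjClasses.mk y.1, y.1, rfl, y.2⟩ :
          {c : ConjClasses P // ∃ y : P, ConjClasses.mk y = c ∧ orderOf y = 2}))
    rintro ⟨c, y, rfl, hy⟩
    exact ⟨⟨y, hy⟩, rfl⟩
  have h2 : Nat.card {y : P // orderOf y = 2} <
      Nat.card (Subgroup.closure {y : P | orderOf y = 2}) := by
    haveI := Fintype.ofFinite {y : P // orderOf y = 2}
    haveI := Fintype.ofFinite (Subgroup.closure {y : P | orderOf y = 2})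
    rw [Nat.card_eq_fintype_card, Nat.card_eq_fintype_card]
    apply Fintype.card_lt_of_injective_of_notMem
      (fun y : {y : P // orderOf y = 2} =>
        (⟨y.1, Subgroup.subset_closure y.2⟩ : Subgroup.closure {y : P | orderOf y = 2}))
      (b := 1)
    · intro a b hab
      have h0 : (a : P) = b :=
        congrArg (fun z : Subgroup.closure {y : P | orderOf y = 2} => (z : P)) hab
      exact Subtype.ext h0
    · rintro ⟨y, hy⟩
      have h3 : y.1 = 1 := congrArg Subtype.val hy
      have h4 := y.2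
      rw [h3, orderOf_one] at h4
      omega
  omega

end Cfsg.Agent.Lib_helper5_RealCount
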