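import Mathlib
import Cfsg.Agent.Lib_helper6_Conj
import Cfsg.Agent.Lib_helper6_Sylow

set_option autoImplicit false

namespace Cfsg.Agent.Lib_helper5_TI

open scoped Pointwise

variable {G : Type*} [Group G]

/-- elementwise form of the TI property -/
theorem ti_iff (H : Subgroup G) :
    (∀ g : G, g ∉ Subgroup.normalizer (H : Set G) → H ⊓ (MulAut.conj g • H) = ⊥) ↔
      ∀ g x : G, x ∈ H → g⁻¹ * x * g ∈ H → x ≠ 1 → g ∈ Subgroup.normalizer (H : Set G) := by
  constructor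
  · intro h g x hx hgx hx1
    by_contra hg
    have h1 := h g hg
    have h2 : x ∈ H ⊓ (MulAut.conj g • H) :=
      ⟨hx, Cfsg.Agent.Lib_helper6_Conj.mem_conj_smul.mpr hgx⟩
    rw [h1, Subgroup.mem_bot] at h2
    exact hx1 h2
  · intro h g hg
    rw [Subgroup.eq_bot_iff_forall]
    intro x hx
    by_contra hx1
    exact hg (h g x hx.1 (Cfsg.Agent.Lib_helper6_Conj.mem_conj_smul.mp hx.2) hx1)

/-- the TI property passes to conjugate Sylow subgroups -/
theorem ti_sylow_conj [Finite G] {p : ℕ} [Fact p.Prime] (P : Sylow p G)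
    (hTI : ∀ g x : G, x ∈ (P : Subgroup G) → g⁻¹ * x * g ∈ (P : Subgroup G) → x ≠ 1 →
      g ∈ Subgroup.normalizer ((P : Subgroup G) : Set G)) (P' : Sylow p G) :
    ∀ g x : G, x ∈ (P' : Subgroup G) → g⁻¹ * x * g ∈ (P' : Subgroup G) → x ≠ 1 →
      g ∈ Subgroup.normalizer ((P' : Subgroup G) : Set G) := by
  obtain ⟨h, hh⟩ := MulAction.exists_smul_eq G P P'
  have hmem : ∀ x : G, x ∈ (P' : Subgroup G) ↔ h⁻¹ * x * h ∈ (P : Subgroup G) := by
    intro x
    rw [← hh]; exact Cfsg.Agent.Lib_helper6_Sylow.mem_smul_sylow P h x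
  intro g x hx hgx hx1
  have h1 : (h⁻¹ * g * h)⁻¹ * (h⁻¹ * x * h) * (h⁻¹ * g * h) ∈ (P : Subgroup G) := by
    have := (hmem _).mp hgx
    have e : (h⁻¹ * g * h)⁻¹ * (h⁻¹ * x * h) * (h⁻¹ * g * h) = h⁻¹ * (g⁻¹ * x * g) * h := by group
    rw [e]; exact this
  have h2 := hTI (h⁻¹ * g * h) (h⁻¹ * x * h) ((hmem x).mp hx) h1 (by
    intro h3
    apply hx1
    have : x = h * (h⁻¹ * x * h) * h⁻¹ := by group
    rw [this, h3]; group)
  have h3 : (h⁻¹ * g * h) • P = P := Sylow.smul_eq_iff_mem_normalizer.mpr h2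
  have h4 : g • P' = P' := by
    rw [← hh, ← mul_smul]
    have : g * h = h * (h⁻¹ * g * h) := by group
    rw [this, mul_smul, h3]
  exact Sylow.smul_eq_iff_mem_normalizer.mp h4

end Cfsg.Agent.Lib_helper5_TI
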