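import Mathlib

set_option autoImplicit false

namespace Cfsg.Agent.Lib_helper6_CycSylow

/-- conjugation by powers of `z` when `z` raises `b` to the power `n` -/
theorem conj_pow_zpow {Y : Type*} [Group Y] (b z : Y) (n : ℤ) (h : z * b * z⁻¹ = b ^ n) (j : ℕ) :
    z ^ j * b * (z ^ j)⁻¹ = b ^ (n ^ j) := by
  induction j with
  | zero => simp
  | succ j ih =>
    have h1 : z ^ (j + 1) * b * (z ^ (j + 1))⁻¹ = z * (z ^ j * b * (z ^ j)⁻¹) * z⁻¹ := by
      rw [pow_succ']; group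
    rw [h1, ih]
    have h2 : z * b ^ (n ^ j) * z⁻¹ = (z * b * z⁻¹) ^ (n ^ j) := by
      simp
    rw [h2, h, ← zpow_mul, pow_succ']

/-- An element normalizing an abelian Sylow `p`-subgroup, some `p`-power of which
centralizes it, centralizes it. -/
theorem commute_of_pow_commute {Y : Type*} [Group Y] [Finite Y] {p : ℕ} [Fact p.Prime]
    (P : Sylow p Y) (hab : ∀ x ∈ (P : Subgroup Y), ∀ y ∈ (P : Subgroup Y), x * y = y * x)
    (z : Y) (hz : ∀ x, x ∈ (P : Subgroup Y) ↔ z * x * z⁻¹ ∈ (P : Subgroup Y)) (k : ℕ)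
    (hk : ∀ x ∈ (P : Subgroup Y), z ^ (p ^ k) * x = x * z ^ (p ^ k)) :
    ∀ x ∈ (P : Subgroup Y), z * x = x * z := by
  have hp : p.Prime := Fact.out
  have ho : orderOf z ≠ 0 := (orderOf_pos z).ne'
  obtain ⟨a, m, hm, hom⟩ := Nat.exists_eq_pow_mul_and_not_dvd ho p hp.ne_one
  have hzN : z ∈ Subgroup.normalizer ((P : Subgroup Y) : Set Y) := by
    rw [Subgroup.mem_normalizer_iff]; exact hz
  -- `z ^ m` is a `p`-element of the normalizer, so lies in `P`
  have hw : z ^ m ∈ (P : Subgroup Y) := by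
    have hpg : IsPGroup p (Subgroup.zpowers (z ^ m)) := by
      rintro ⟨x, hx⟩
      obtain ⟨i, rfl⟩ := Subgroup.mem_zpowers_iff.mp hx
      refine ⟨a, Subtype.ext ?_⟩
      show ((z ^ m) ^ i) ^ (p ^ a) = 1
      rw [← zpow_natCast, ← zpow_mul, mul_comm, zpow_mul, zpow_natCast, ← pow_mul, mul_comm,
        ← hom, pow_orderOf_eq_one, one_zpow]
    have h1 := hpg.inf_normalizer_sylow P
    have h2 : z ^ m ∈ Subgroup.zpowers (z ^ m) ⊓ Subgroup.normalizer ((P : Subgroup Y) : Set Y) :=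
      ⟨Subgroup.mem_zpowers _, Subgroup.pow_mem _ hzN m⟩
    have h3 : z ^ m ∈ Subgroup.zpowers (z ^ m) ⊓ (P : Subgroup Y) := by
      rw [← h1]; exact h2
    exact h3.2
  have hcop : IsCoprime (m : ℤ) ((p ^ k : ℕ) : ℤ) := by
    rw [Nat.isCoprime_iff_coprime]
    exact (Nat.Coprime.pow_left k ((Nat.Prime.coprime_iff_not_dvd hp).mpr hm)).symm
  obtain ⟨s, t, hst⟩ := hcop
  intro x hx
  have hzz : z = (z ^ m) ^ s * (z ^ (p ^ k)) ^ t := by
    rw [← zpow_natCast z m, ← zpow_natCast z (p ^ k), ← zpow_mul, ← zpow_mul, ← zpow_add,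
      mul_comm (m : ℤ) s, mul_comm ((p ^ k : ℕ) : ℤ) t, hst, zpow_one]
  have c1 : Commute (z ^ m) x := hab _ hw _ hx
  have c2 : Commute (z ^ (p ^ k)) x := hk x hx
  have c3 : Commute ((z ^ m) ^ s * (z ^ (p ^ k)) ^ t) x := (c1.zpow_left s).mul_left (c2.zpow_left t)
  rw [← hzz] at c3
  exact c3

/-- An element normalizing a cyclic Sylow `p`-subgroup `P` which either acts trivially modulo a
proper subgroup of `P` or fixes a nonidentity element of `P` centralizes `P`. -/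
theorem commute_of_cyclic {Y : Type*} [Group Y] [Finite Y] {p : ℕ} [Fact p.Prime]
    (P : Sylow p Y) (hcyc : IsCyclic (P : Subgroup Y)) (z : Y)
    (hz : ∀ x, x ∈ (P : Subgroup Y) ↔ z * x * z⁻¹ ∈ (P : Subgroup Y))
    (h : (∃ Q : Subgroup Y, Q ≤ P ∧ Q ≠ P ∧ ∀ b ∈ (P : Subgroup Y), z * b * z⁻¹ * b⁻¹ ∈ Q) ∨
      (∃ q ∈ (P : Subgroup Y), q ≠ 1 ∧ z * q * z⁻¹ = q)) :
    ∀ x ∈ (P : Subgroup Y), z * x = x * z := by
  have hp : p.Prime := Fact.out
  obtain ⟨g, hg⟩ := hcyc.exists_generator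
  set b : Y := (g : Y) with hbdef
  have hb : b ∈ (P : Subgroup Y) := g.2
  have hgen : ∀ x ∈ (P : Subgroup Y), ∃ i : ℤ, b ^ i = x := by
    intro x hx
    obtain ⟨i, hi⟩ := Subgroup.mem_zpowers_iff.mp (hg ⟨x, hx⟩)
    refine ⟨i, ?_⟩
    have := congrArg (Subtype.val) hi
    simpa using this
  have hab : ∀ x ∈ (P : Subgroup Y), ∀ y ∈ (P : Subgroup Y), x * y = y * x := by
    intro x hx y hy
    obtain ⟨i, rfl⟩ := hgen x hx
    obtain ⟨j, rfl⟩ := hgen y hy
    rw [← zpow_add, ← zpow_add, add_comm]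
  obtain ⟨k, hk⟩ := IsPGroup.iff_card.mp P.2
  have hord : orderOf b = p ^ k := by
    rw [hbdef, Subgroup.orderOf_coe, orderOf_eq_card_of_forall_mem_zpowers hg, hk]
  have hbpk : b ^ (p ^ k) = 1 := by rw [← hord, pow_orderOf_eq_one]
  obtain ⟨n, hn⟩ := hgen _ ((hz b).mp hb)
  have hpn : (p : ℤ) ∣ n - 1 := by
    by_contra hnd
    have hcop : IsCoprime ((p : ℤ) ^ k) (n - 1) :=
      ((Nat.prime_iff_prime_int.mp hp).coprime_iff_not_dvd.mpr hnd).pow_left
    rcases h with ⟨Q, hQP, hQne, hQ⟩ | ⟨q, hq, hq1, hzq⟩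
    · have h1 : b ^ (n - 1) ∈ Q := by
        have := hQ b hb
        rw [← hn] at this
        rw [zpow_sub, zpow_one]; exact this
      obtain ⟨s, t, hst⟩ := hcop
      have h2 : b ∈ Q := by
        have : b = (b ^ (n - 1)) ^ t := by
          have h3 : b ^ (s * (p : ℤ) ^ k + t * (n - 1)) = b := by rw [hst, zpow_one]
          rw [zpow_add, mul_comm s, zpow_mul, ← Nat.cast_pow, zpow_natCast, hbpk, one_zpow, one_mul,
            mul_comm, zpow_mul] at h3
          exact h3.symm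
        rw [this]; exact Q.zpow_mem h1 t
      apply hQne
      apply le_antisymm hQP
      intro x hx
      obtain ⟨i, rfl⟩ := hgen x hx
      exact Q.zpow_mem h2 i
    · obtain ⟨j, rfl⟩ := hgen q hq
      have h1 : z * b ^ j * z⁻¹ = (z * b * z⁻¹) ^ j := by
        simp
      rw [h1, ← hn, ← zpow_mul] at hzq
      have h2 : b ^ ((n - 1) * j) = 1 := by
        have : (n - 1) * j = n * j - j := by ring
        rw [this, zpow_sub, hzq, mul_inv_cancel]
      rw [← orderOf_dvd_iff_zpow_eq_one, hord, Nat.cast_pow] at h2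
      have h3 : ((p : ℤ) ^ k) ∣ j := hcop.dvd_of_dvd_mul_left h2
      apply hq1
      rw [← orderOf_dvd_iff_zpow_eq_one, hord, Nat.cast_pow]
      exact h3
  -- a `p`-power of `z` centralizes `b`
  have hfix : z ^ (p ^ k) * b * (z ^ (p ^ k))⁻¹ = b := by
    rw [conj_pow_zpow b z n hn.symm]
    have h1 : ((p : ℤ) ^ (k + 1)) ∣ n ^ (p ^ k) - 1 ^ (p ^ k) := dvd_sub_pow_of_dvd_sub hpn k
    rw [one_pow] at h1
    obtain ⟨t, ht⟩ := (dvd_trans (pow_dvd_pow (p : ℤ) (Nat.le_succ k)) h1)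
    have h2 : n ^ (p ^ k) = 1 + (p : ℤ) ^ k * t := by rw [← ht]; ring
    rw [h2, zpow_add, zpow_one, zpow_mul, ← Nat.cast_pow, zpow_natCast, hbpk, one_zpow, mul_one]
  apply commute_of_pow_commute P hab z hz k
  intro x hx
  obtain ⟨i, rfl⟩ := hgen x hx
  have c1 : Commute (z ^ (p ^ k)) b := by
    have : z ^ (p ^ k) * b = b * z ^ (p ^ k) := by
      have h1 := congrArg (fun y => y * z ^ (p ^ k)) hfix
      simpa using h1
    exact this
  exact c1.zpow_right i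

/-- A normal subgroup `L₀` of a normal subgroup `N` of `G` whose order is coprime to its index
in `N` is normal in `G`. -/
theorem normal_map_of_coprime {G : Type*} [Group G] [Finite G] (N : Subgroup G) [N.Normal]
    (L₀ : Subgroup N) [L₀.Normal] (hco : Nat.Coprime (Nat.card L₀) L₀.index) :
    (L₀.map N.subtype).Normal := by
  constructor
  intro x hx g
  obtain ⟨x₀, hx₀, rfl⟩ := hx
  have hmem : g * (x₀ : G) * g⁻¹ ∈ N := ‹N.Normal›.conj_mem _ x₀.2 g
  refine ⟨⟨g * (x₀ : G) * g⁻¹, hmem⟩, ?_, rfl⟩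
  set y : N := ⟨g * (x₀ : G) * g⁻¹, hmem⟩ with hy
  have h1 : y ^ Nat.card L₀ = 1 := by
    apply Subtype.ext
    show (g * (x₀ : G) * g⁻¹) ^ Nat.card L₀ = 1
    have h2 : x₀ ^ Nat.card L₀ = 1 :=
      orderOf_dvd_iff_pow_eq_one.mp (Subgroup.orderOf_dvd_natCard L₀ hx₀)
    have h3 : (x₀ : G) ^ Nat.card L₀ = 1 := by
      rw [← Subgroup.coe_pow, h2]; rfl
    rw [conj_pow, h3]; group
  have h4 : (QuotientGroup.mk y : N ⧸ L₀) ^ Nat.card L₀ = 1 := by
    rw [← QuotientGroup.mk_pow, h1]; rfl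
  have h5 : (QuotientGroup.mk y : N ⧸ L₀) ^ L₀.index = 1 := by
    rw [Subgroup.index_eq_card]; exact pow_card_eq_one'
  have h6 : orderOf (QuotientGroup.mk y : N ⧸ L₀) = 1 :=
    Nat.eq_one_of_dvd_coprimes hco (orderOf_dvd_of_pow_eq_one h4) (orderOf_dvd_of_pow_eq_one h5)
  rw [orderOf_eq_one_iff] at h6
  exact (QuotientGroup.eq_one_iff y).mp h6

end Cfsg.Agent.Lib_helper6_CycSylow
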