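import Mathlib
import Cfsg.Prelude.Def_Solvable
import Cfsg.Agent.Lib_helper6_PCore
import Cfsg.Agent.Lib_helper5_Fitting

set_option autoImplicit false

namespace Cfsg.Agent.Lib_helper6_EqOrd

open Cfsg.Agent.Lib_helper6_PCore Cfsg.Agent.Lib_helper5_Fitting

variable {G : Type*} [Group G]

/-- if `O_p(G)` is not inside `N` (all cosets outside `N` of constant order) then `N` is a
`p`-group -/
theorem isPGroup_of_pCore_not_le [Finite G] (N : Subgroup G) [N.Normal]
    (heq : ∀ x : G, x ∉ N → ∀ n ∈ N, orderOf (x * n) = orderOf x)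
    (p : ℕ) [Fact p.Prime] (h : ¬ Cfsg.pCore p G ≤ N) : IsPGroup p N := by
  obtain ⟨x, hxR, hxN⟩ := SetLike.not_le_iff_exists.mp h
  have hR := pCore_isPGroup (G := G) p
  obtain ⟨a, ha⟩ := hR ⟨x, hxR⟩
  have hxa : x ^ p ^ a = 1 := by simpa [Subtype.ext_iff] using ha
  rintro ⟨n, hn⟩
  have h1 : orderOf (x * n) = orderOf x := heq x hxN n hn
  have h2 : (x * n) ^ p ^ a = 1 := by
    rw [← orderOf_dvd_iff_pow_eq_one, h1, orderOf_dvd_iff_pow_eq_one]; exact hxa
  have h3 : n ^ p ^ a ∈ Cfsg.pCore p G := by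
    rw [← QuotientGroup.eq_one_iff]
    have h4 : ((x * n : G) : G ⧸ Cfsg.pCore p G) = (n : G ⧸ Cfsg.pCore p G) := by
      rw [QuotientGroup.mk_mul, (QuotientGroup.eq_one_iff x).mpr hxR, one_mul]
    rw [QuotientGroup.mk_pow, ← h4, ← QuotientGroup.mk_pow, h2]; rfl
  obtain ⟨b, hb⟩ := hR ⟨n ^ p ^ a, h3⟩
  have hb' : (n ^ p ^ a) ^ p ^ b = 1 := by simpa [Subtype.ext_iff] using hb
  refine ⟨a + b, ?_⟩
  apply Subtype.ext
  rw [Subgroup.coe_pow, Subgroup.coe_one, pow_add, pow_mul]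
  exact hb'

theorem fitting_dichotomy [Finite G] (N : Subgroup G) [N.Normal] (hN1 : N ≠ ⊥)
    (heq : ∀ x : G, x ∉ N → ∀ n ∈ N, orderOf (x * n) = orderOf x) :
    (N ≤ Cfsg.fittingSubgroup G ∨ Cfsg.fittingSubgroup G ≤ N) ∧
    (N < Cfsg.fittingSubgroup G → IsPrimePow (Nat.card (Cfsg.fittingSubgroup G))) := by
  have key : ∀ (p : ℕ) [Fact p.Prime], ¬ Cfsg.pCore p G ≤ N → N ≤ Cfsg.pCore p G :=
    fun p _ h => le_pCore inferInstance (isPGroup_of_pCore_not_le N heq p h)
  have hpF : ∀ (p : ℕ) [Fact p.Prime], Cfsg.pCore p G ≤ Cfsg.fittingSubgroup G := by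
    intro p _
    exact le_fitting inferInstance (pCore_isPGroup p).isNilpotent
  constructor
  · by_cases h : ∀ p : Nat.Primes, Cfsg.pCore (p : ℕ) G ≤ N
    · right
      rw [fitting_eq_iSup_pCore]
      exact iSup_le h
    · left
      push Not at h
      obtain ⟨p, hp⟩ := h
      haveI : Fact (p : ℕ).Prime := ⟨p.2⟩
      exact (key p hp).trans (hpF p)
  · intro hlt
    have h : ¬ ∀ p : Nat.Primes, Cfsg.pCore (p : ℕ) G ≤ N := by
      intro h
      have h5 : Cfsg.fittingSubgroup G ≤ N := by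
        rw [fitting_eq_iSup_pCore]
        exact iSup_le h
      exact absurd (lt_of_lt_of_le hlt h5) (lt_irrefl _)
    push Not at h
    obtain ⟨p, hp⟩ := h
    haveI : Fact (p : ℕ).Prime := ⟨p.2⟩
    have hNp := isPGroup_of_pCore_not_le N heq p hp
    have hF : Cfsg.fittingSubgroup G = Cfsg.pCore (p : ℕ) G := by
      apply le_antisymm
      · rw [fitting_eq_iSup_pCore]
        apply iSup_le
        intro q
        haveI : Fact (q : ℕ).Prime := ⟨q.2⟩
        by_cases hqp : q = p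
        · subst hqp
          exact le_rfl
        · have hne : (q : ℕ) ≠ (p : ℕ) := fun h => hqp (Subtype.ext h)
          have hqN : Cfsg.pCore (q : ℕ) G ≤ N := by
            by_contra hq
            have hNq := isPGroup_of_pCore_not_le N heq q hq
            have hd := IsPGroup.disjoint_of_ne (q : ℕ) (p : ℕ) hne N N hNq hNp
            exact hN1 (disjoint_self.mp hd)
          have hd := IsPGroup.disjoint_of_ne (q : ℕ) (p : ℕ) hne _ _
            (pCore_isPGroup (G := G) (q : ℕ)) (hNp.to_le hqN)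
          rw [disjoint_self.mp hd]
          exact bot_le
      · exact hpF p
    rw [hF]
    obtain ⟨k, hk⟩ := IsPGroup.iff_card.mp (pCore_isPGroup (G := G) (p : ℕ))
    rw [hk]
    have hk0 : k ≠ 0 := by
      rintro rfl
      rw [pow_zero] at hk
      have h6 := Subgroup.card_eq_one.mp hk
      have h7 : N ≤ ⊥ := h6 ▸ (key p hp)
      exact hN1 (le_bot_iff.mp h7)
    exact (Nat.Prime.isPrimePow p.2).pow hk0

open Pointwise in
theorem frob_of_eqOrd [Finite G] (N : Subgroup G) [N.Normal] (hN1 : N ≠ ⊥)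
    (heq : ∀ x : G, x ∉ N → ∀ n ∈ N, orderOf (x * n) = orderOf x)
    (p : ℕ) [Fact p.Prime] (hNp : IsPGroup p N) (H : Subgroup G) (hH1 : H ≠ ⊥)
    (hcop : (Nat.card H).Coprime p) :
    Cfsg.IsFrobeniusComplement (H.subgroupOf (N ⊔ H)) ∧
      Cfsg.frobeniusKernel (H.subgroupOf (N ⊔ H)) = (N.subgroupOf (N ⊔ H) : Set ↥(N ⊔ H)) := by
  obtain ⟨k, hk⟩ := IsPGroup.iff_card.mp hNp
  have hcop2 : (Nat.card N).Coprime (Nat.card H) := by
    rw [hk]
    exact Nat.Coprime.pow_left k hcop.symm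
  have hdisj : N ⊓ H = ⊥ := Subgroup.inf_eq_bot_of_coprime hcop2
  have hNH : ∀ x, x ∈ N → x ∈ H → x = 1 := by
    intro x hx1 hx2
    have h0 : x ∈ N ⊓ H := ⟨hx1, hx2⟩
    rw [hdisj] at h0
    exact Subgroup.mem_bot.mp h0
  have hcent : ∀ h ∈ H, h ≠ 1 → ∀ n ∈ N, n * h = h * n → n = 1 := by
    intro h hh hh1 n hn hcomm
    have hhN : h ∉ N := fun hc => hh1 (hNH h hc hh)
    have h1 := heq h hhN n hn
    have h2 : (orderOf h).Coprime (orderOf n) := by
      have a1 : orderOf h ∣ Nat.card H := by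
        have := orderOf_dvd_natCard (⟨h, hh⟩ : H)
        rwa [Subgroup.orderOf_mk] at this
      have a2 : orderOf n ∣ Nat.card N := by
        have := orderOf_dvd_natCard (⟨n, hn⟩ : N)
        rwa [Subgroup.orderOf_mk] at this
      exact Nat.Coprime.coprime_dvd_left a1 (Nat.Coprime.coprime_dvd_right a2 hcop2.symm)
    have h3 : orderOf (h * n) = orderOf h * orderOf n :=
      Commute.orderOf_mul_eq_mul_orderOf_of_coprime (show Commute h n from hcomm.symm) h2
    rw [h1] at h3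
    have h4 : orderOf n = 1 := by
      have hpos : 0 < orderOf h := orderOf_pos h
      have h5 : orderOf h * 1 = orderOf h * orderOf n := by rw [mul_one]; exact h3
      exact (Nat.eq_of_mul_eq_mul_left hpos h5).symm
    exact orderOf_eq_one_iff.mp h4
  have hsurj : ∀ h ∈ H, h ≠ 1 → ∀ n ∈ N, ∃ m ∈ N, n = m * h * m⁻¹ * h⁻¹ := by
    intro h hh hh1
    let φ : N → N := fun m => ⟨(m : G) * h * (m : G)⁻¹ * h⁻¹, by
      have h0 : h * (m : G)⁻¹ * h⁻¹ ∈ N :=
        Subgroup.Normal.conj_mem inferInstance _ (N.inv_mem m.2) h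
      have h1 := N.mul_mem m.2 h0
      simpa [mul_assoc] using h1⟩
    have hinj : Function.Injective φ := by
      intro m m' hmm
      have h1 : (m : G) * h * (m : G)⁻¹ * h⁻¹ = (m' : G) * h * (m' : G)⁻¹ * h⁻¹ :=
        congrArg Subtype.val hmm
      have h3 : (m : G) * h * (m : G)⁻¹ = (m' : G) * h * (m' : G)⁻¹ := mul_right_cancel h1
      have h2 : ((m' : G)⁻¹ * (m : G)) * h = h * ((m' : G)⁻¹ * (m : G)) := by
        calc ((m' : G)⁻¹ * (m : G)) * h
            = (m' : G)⁻¹ * ((m : G) * h * (m : G)⁻¹) * (m : G) := by group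
          _ = (m' : G)⁻¹ * ((m' : G) * h * (m' : G)⁻¹) * (m : G) := by rw [h3]
          _ = h * ((m' : G)⁻¹ * (m : G)) := by group
      have h4 := hcent h hh hh1 _ (N.mul_mem (N.inv_mem m'.2) m.2) h2
      apply Subtype.ext
      exact (inv_mul_eq_one.mp h4).symm
    have hsur := Finite.injective_iff_surjective.mp hinj
    intro n hn
    obtain ⟨m, hm⟩ := hsur ⟨n, hn⟩
    exact ⟨m, m.2, (congrArg Subtype.val hm).symm⟩
  have hNK : N ≤ N ⊔ H := le_sup_left
  have hHK : H ≤ N ⊔ H := le_sup_right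
  have hdecomp : ∀ g ∈ N ⊔ H, ∃ n ∈ N, ∃ h ∈ H, g = n * h := by
    intro g hg
    have h0 : g ∈ ((N ⊔ H : Subgroup G) : Set G) := hg
    rw [Subgroup.normal_mul] at h0
    obtain ⟨n, hn, h, hh, rfl⟩ := Set.mem_mul.mp h0
    exact ⟨n, hn, h, hh, rfl⟩
  have hconj : ∀ (S : Subgroup ↥(N ⊔ H)) (g z : ↥(N ⊔ H)),
      z ∈ MulAut.conj g • S ↔ g⁻¹ * z * g ∈ S := by
    intro S g z
    rw [Subgroup.mem_pointwise_smul_iff_inv_smul_mem]
    simp [MulAut.smul_def]
  refine ⟨⟨?_, ?_, ?_⟩, ?_⟩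
  · intro hbot
    apply hH1
    rw [eq_bot_iff]
    intro x hx
    have h0 : (⟨x, hHK hx⟩ : ↥(N ⊔ H)) ∈ H.subgroupOf (N ⊔ H) := by
      rw [Subgroup.mem_subgroupOf]
      exact hx
    rw [hbot, Subgroup.mem_bot] at h0
    rw [Subgroup.mem_bot]
    exact congrArg Subtype.val h0
  · intro htop
    apply hN1
    rw [eq_bot_iff]
    intro x hx
    have h0 : (⟨x, hNK hx⟩ : ↥(N ⊔ H)) ∈ H.subgroupOf (N ⊔ H) := by
      rw [htop]
      exact Subgroup.mem_top _
    rw [Subgroup.mem_subgroupOf] at h0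
    rw [Subgroup.mem_bot]
    exact hNH x hx h0
  · intro g hg
    rw [eq_bot_iff]
    intro y hy
    rw [Subgroup.mem_bot]
    obtain ⟨hy1, hy2⟩ := hy
    have hy2a : y ∈ MulAut.conj g • H.subgroupOf (N ⊔ H) := hy2
    have hy1a : y ∈ H.subgroupOf (N ⊔ H) := hy1
    rw [hconj, Subgroup.mem_subgroupOf] at hy2a
    rw [Subgroup.mem_subgroupOf] at hy1a hg
    obtain ⟨n, hn, h, hh, hgnh⟩ := hdecomp g g.2
    have hy2' : (n * h)⁻¹ * (y : G) * (n * h) ∈ H := by
      have h0 : ((g⁻¹ * y * g : ↥(N ⊔ H)) : G) = (n * h)⁻¹ * (y : G) * (n * h) := by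
        rw [← hgnh]
        simp
      rw [← h0]
      exact hy2a
    have h5 : n⁻¹ * (y : G) * n ∈ H := by
      have h0 := H.mul_mem (H.mul_mem hh hy2') (H.inv_mem hh)
      have e : h * ((n * h)⁻¹ * (y : G) * (n * h)) * h⁻¹ = n⁻¹ * (y : G) * n := by group
      rwa [e] at h0
    have h6 : n⁻¹ * (y : G) * n * (y : G)⁻¹ ∈ N := by
      have h0 := N.mul_mem (N.inv_mem hn)
        (Subgroup.Normal.conj_mem (inferInstance : N.Normal) n hn (y : G))
      simpa [mul_assoc] using h0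
    have h7 : n⁻¹ * (y : G) * n * (y : G)⁻¹ ∈ H := H.mul_mem h5 (H.inv_mem hy1a)
    have h8 := hNH _ h6 h7
    have h9 : n * (y : G) = (y : G) * n := by
      have h0 : n⁻¹ * (y : G) * n = (y : G) := by
        rw [mul_inv_eq_one] at h8
        exact h8
      calc n * (y : G) = n * (n⁻¹ * (y : G) * n) := by rw [h0]
        _ = (y : G) * n := by group
    by_contra hy0
    have hy0' : (y : G) ≠ 1 := fun hc => hy0 (Subtype.ext hc)
    have hn1 := hcent (y : G) hy1a hy0' n hn h9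
    apply hg
    rw [hgnh, hn1, one_mul]
    exact hh
  · ext x
    simp only [Cfsg.frobeniusKernel, Set.mem_setOf_eq, SetLike.mem_coe, Subgroup.mem_subgroupOf]
    constructor
    · rintro (rfl | hx)
      · simp
      · by_contra hxN
        obtain ⟨n, hn, h, hh, hxnh⟩ := hdecomp x x.2
        have hh1 : h ≠ 1 := by
          rintro rfl
          apply hxN
          rw [hxnh, mul_one]
          exact hn
        obtain ⟨m, hm, hnm⟩ := hsurj h hh hh1 n hn
        apply hx ⟨m, hNK hm⟩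
        rw [hconj, Subgroup.mem_subgroupOf]
        have h0 : (((⟨m, hNK hm⟩ : ↥(N ⊔ H))⁻¹ * x * ⟨m, hNK hm⟩ : ↥(N ⊔ H)) : G) = h := by
          simp only [Subgroup.coe_mul, Subgroup.coe_inv]
          rw [hxnh, hnm]
          group
        rw [h0]
        exact hh
    · intro hxN
      by_cases hx1 : x = 1
      · left
        exact hx1
      · right
        intro g hg
        rw [hconj, Subgroup.mem_subgroupOf] at hg
        have h1 : ((g⁻¹ * x * g : ↥(N ⊔ H)) : G) ∈ N := by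
          have h0 := Subgroup.Normal.conj_mem (inferInstance : N.Normal) (x : G) hxN ((g : G)⁻¹)
          simpa using h0
        have h2 := hNH _ h1 hg
        apply hx1
        have h3 : g⁻¹ * x * g = 1 := Subtype.ext h2
        have h4 : x = g * (g⁻¹ * x * g) * g⁻¹ := by group
        rw [h4, h3]
        group

end Cfsg.Agent.Lib_helper6_EqOrd
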