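import Mathlib
import Cfsg.Agent.Lib_helper6_Conj

set_option autoImplicit false

namespace Cfsg.Agent.Lib_helper6_InvFix

open Cfsg.Agent.Lib_helper6_Conj

variable {G : Type*} [Group G]

/-- `x` fixes the coset `gH` iff `g⁻¹ x g ∈ H` -/
theorem smul_coset_eq_iff (H : Subgroup G) (x g : G) :
    x • (g : G ⧸ H) = (g : G ⧸ H) ↔ g⁻¹ * x * g ∈ H := by
  rw [MulAction.Quotient.smul_coe, smul_eq_mul, QuotientGroup.eq]
  constructor
  · intro h
    have h1 := H.inv_mem h
    have e : ((x * g)⁻¹ * g)⁻¹ = g⁻¹ * x * g := by group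
    rwa [e] at h1
  · intro h
    have h1 := H.inv_mem h
    have e : (g⁻¹ * x * g)⁻¹ = (x * g)⁻¹ * g := by group
    rwa [e] at h1

theorem coset_eq_one_iff (H : Subgroup G) (g : G) :
    (g : G ⧸ H) = ((1 : G) : G ⧸ H) ↔ g ∈ H := by
  rw [QuotientGroup.eq]
  constructor
  · intro h
    have h1 := H.inv_mem h
    simpa using h1
  · intro h
    have h1 := H.inv_mem h
    simpa using h1

theorem fix_equiv (I : Set G) (hIc : ∀ g : G, ∀ x ∈ I, g * x * g⁻¹ ∈ I) (H : Subgroup G) :
    ((∀ x ∈ I, x ∈ H → (∀ g : G, g * x * g⁻¹ ∈ H → ∃ h ∈ H, h * x * h⁻¹ = g * x * g⁻¹) ∧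
        Subgroup.centralizer ({x} : Set G) ≤ H) ↔
      (∀ g : G, g ∉ H → ∀ x ∈ I,
        ¬ (x ∈ H ∧ x ∈ (H : Subgroup G).map (MulAut.conj g).toMonoidHom))) ∧
    ((∀ g : G, g ∉ H → ∀ x ∈ I,
        ¬ (x ∈ H ∧ x ∈ (H : Subgroup G).map (MulAut.conj g).toMonoidHom)) ↔
      ∀ x ∈ I, x ∈ H → ∃! c : G ⧸ H, x • c = c) := by
  refine ⟨⟨?_, ?_⟩, ⟨?_, ?_⟩⟩
  · intro h1 g hg x hxI ⟨hxH, hxg⟩
    rw [mem_conjMap] at hxg
    have hyI : g⁻¹ * x * g ∈ I := by
      have h0 := hIc g⁻¹ x hxI
      simpa using h0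
    obtain ⟨hA, hB⟩ := h1 _ hyI hxg
    have e : g * (g⁻¹ * x * g) * g⁻¹ = x := by group
    obtain ⟨h, hh, hhe⟩ := hA g (by rw [e]; exact hxH)
    have h2 : h⁻¹ * g ∈ Subgroup.centralizer ({g⁻¹ * x * g} : Set G) := by
      rw [Subgroup.mem_centralizer_iff]
      intro y hy
      rw [Set.mem_singleton_iff] at hy
      rw [hy]
      have h3 : h⁻¹ * (h * (g⁻¹ * x * g) * h⁻¹) * h = h⁻¹ * (g * (g⁻¹ * x * g) * g⁻¹) * h := by
        rw [hhe]
      have h4 : g⁻¹ * x * g = h⁻¹ * x * h := by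
        have e1 : h⁻¹ * (h * (g⁻¹ * x * g) * h⁻¹) * h = g⁻¹ * x * g := by group
        have e2 : h⁻¹ * (g * (g⁻¹ * x * g) * g⁻¹) * h = h⁻¹ * x * h := by group
        rw [e1, e2] at h3
        exact h3
      calc g⁻¹ * x * g * (h⁻¹ * g) = (h⁻¹ * x * h) * (h⁻¹ * g) := by rw [h4]
        _ = h⁻¹ * g * (g⁻¹ * x * g) := by group
    have h5 := H.mul_mem hh (hB h2)
    apply hg
    simpa using h5
  · intro h2 x hxI hxH
    constructor
    · intro g hgx
      have hgH : g ∈ H := by
        by_contra hg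
        have hg' : g⁻¹ ∉ H := fun h => hg (by simpa using H.inv_mem h)
        apply h2 g⁻¹ hg' x hxI
        refine ⟨hxH, ?_⟩
        rw [mem_conjMap]
        simpa using hgx
      exact ⟨g, hgH, rfl⟩
    · intro c hc
      by_contra hcH
      apply h2 c hcH x hxI
      refine ⟨hxH, ?_⟩
      rw [mem_conjMap]
      rw [Subgroup.mem_centralizer_iff] at hc
      have h0 := hc x (Set.mem_singleton x)
      have e : c⁻¹ * x * c = x := by
        calc c⁻¹ * x * c = c⁻¹ * (x * c) := by group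
          _ = c⁻¹ * (c * x) := by rw [h0]
          _ = x := by group
      rw [e]
      exact hxH
  · intro h2 x hxI hxH
    refine ⟨((1 : G) : G ⧸ H), ?_, ?_⟩
    · show x • ((1 : G) : G ⧸ H) = ((1 : G) : G ⧸ H)
      rw [smul_coset_eq_iff]
      simpa using hxH
    · intro c hc
      induction c using QuotientGroup.induction_on with
      | H g =>
        have hc' : x • (g : G ⧸ H) = (g : G ⧸ H) := hc
        rw [smul_coset_eq_iff] at hc'
        rw [coset_eq_one_iff]
        by_contra hg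
        apply h2 g hg x hxI
        exact ⟨hxH, mem_conjMap.mpr hc'⟩
  · intro h3 g hg x hxI ⟨hxH, hxg⟩
    rw [mem_conjMap] at hxg
    obtain ⟨c, _, huniq⟩ := h3 x hxI hxH
    have e1 : ((1 : G) : G ⧸ H) = c := by
      apply huniq
      show x • ((1 : G) : G ⧸ H) = ((1 : G) : G ⧸ H)
      rw [smul_coset_eq_iff]
      simpa using hxH
    have e2 : (g : G ⧸ H) = c := by
      apply huniq
      show x • (g : G ⧸ H) = (g : G ⧸ H)
      rw [smul_coset_eq_iff]
      exact hxg
    apply hg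
    rw [← coset_eq_one_iff, e1, e2]

/-! ### dihedral computations -/

theorem conj_pow_inv (a r : G) (ha : a * a = 1) (har : a * r * a = r⁻¹) (j : ℕ) :
    a * r ^ j * a = (r ^ j)⁻¹ := by
  induction j with
  | zero => simp [ha]
  | succ j ih =>
    have h1 : a * r ^ (j + 1) * a = (a * r ^ j * a) * (a * r * a) := by
      have h2 : (a * r ^ j * a) * (a * r * a) = a * r ^ j * (a * a) * r * a := by group
      rw [h2, ha, mul_one, pow_succ]
      group
    rw [h1, ih, har, pow_succ', mul_inv_rev]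

theorem inv_pow_conj (a r : G) (ha : a * a = 1) (har : a * r * a = r⁻¹) (j : ℕ) :
    (r ^ j)⁻¹ * a * r ^ j = a * (r ^ j * r ^ j) := by
  rw [← conj_pow_inv a r ha har j]
  have h2 : a * r ^ j * a * a * r ^ j = a * r ^ j * (a * a) * r ^ j := by group
  rw [h2, ha]
  group

theorem dihedral_dichotomy [Finite G] (a b : G) (ha : a * a = 1) (hb : b * b = 1) (hb1 : b ≠ 1) :
    (∃ g : G, g * a * g⁻¹ = b) ∨
      (∃ w : G, w ≠ 1 ∧ a * w = w * a ∧ b * w = w * b ∧
        ((∃ g : G, a * w = g * a * g⁻¹) ∨ (∃ g : G, a * w = g * b * g⁻¹))) := by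
  have hainv : a⁻¹ = a := inv_eq_of_mul_eq_one_left ha
  have hbinv : b⁻¹ = b := inv_eq_of_mul_eq_one_left hb
  have har : a * (a * b) * a = (a * b)⁻¹ := by
    rw [mul_inv_rev, hainv, hbinv, ← mul_assoc a a b, ha, one_mul]
  have hbr : b * (a * b) * b = (a * b)⁻¹ := by
    rw [mul_inv_rev, hainv, hbinv]
    calc b * (a * b) * b = b * a * (b * b) := by group
      _ = b * a := by rw [hb, mul_one]
  have hm : 0 < orderOf (a * b) := orderOf_pos (a * b)
  rcases Nat.even_or_odd (orderOf (a * b)) with hev | hodd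
  · right
    obtain ⟨n, hn⟩ := hev
    have hn0 : n ≠ 0 := by omega
    have hnlt : n < orderOf (a * b) := by omega
    have hw1 : (a * b) ^ n ≠ 1 := pow_ne_one_of_lt_orderOf hn0 hnlt
    have hw2 : (a * b) ^ n * (a * b) ^ n = 1 := by
      rw [← pow_add, ← hn, pow_orderOf_eq_one]
    have hwinv : ((a * b) ^ n)⁻¹ = (a * b) ^ n := inv_eq_of_mul_eq_one_left hw2
    refine ⟨(a * b) ^ n, hw1, ?_, ?_, ?_⟩
    · have h1 := conj_pow_inv a (a * b) ha har n
      rw [hwinv] at h1
      calc a * (a * b) ^ n = a * (a * b) ^ n * (a * a) := by rw [ha, mul_one]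
        _ = (a * (a * b) ^ n * a) * a := by group
        _ = (a * b) ^ n * a := by rw [h1]
    · have h1 := conj_pow_inv b (a * b) hb hbr n
      rw [hwinv] at h1
      calc b * (a * b) ^ n = b * (a * b) ^ n * (b * b) := by rw [hb, mul_one]
        _ = (b * (a * b) ^ n * b) * b := by group
        _ = (a * b) ^ n * b := by rw [h1]
    · rcases Nat.even_or_odd n with ⟨j, hj⟩ | ⟨j, hj⟩
      · left
        refine ⟨((a * b) ^ j)⁻¹, ?_⟩
        rw [inv_inv, inv_pow_conj a (a * b) ha har j, ← pow_add, ← hj]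
      · right
        refine ⟨((a * b) ^ j)⁻¹, ?_⟩
        rw [inv_inv, inv_pow_conj b (a * b) hb hbr j, ← pow_add, hj]
        have h3 : (a * b) ^ (2 * j + 1) = (a * b) * (a * b) ^ (j + j) := by
          rw [← pow_succ']
          congr 1
          omega
        rw [h3, ← mul_assoc a (a * b), ← mul_assoc a a b, ha, one_mul]
  · left
    obtain ⟨j, hj⟩ := hodd
    refine ⟨((a * b) ^ (j + 1))⁻¹, ?_⟩
    rw [inv_inv, inv_pow_conj a (a * b) ha har (j + 1), ← pow_add]
    have h3 : (a * b) ^ (j + 1 + (j + 1)) = (a * b) ^ orderOf (a * b) * (a * b) := by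
      rw [← pow_succ]
      congr 1
      omega
    rw [h3, pow_orderOf_eq_one, one_mul, ← mul_assoc, ha, one_mul]

/-- Aschbacher's lemma: two classes of involutions each fixing a unique coset -/
theorem eq_top_of_two_classes [Finite G] (I J : Set G) (a₀ b₀ : G) (ha₀ : orderOf a₀ = 2)
    (hb₀ : orderOf b₀ = 2) (hI : I = {x | IsConj a₀ x}) (hJ : J = {x | IsConj b₀ x})
    (hIJ : I ≠ J) (H : Subgroup G) (hfix : ∀ x ∈ I ∪ J, ∃! c : G ⧸ H, x • c = c)
    (hcent : ∀ a ∈ I, a ∈ H → ∀ b ∈ I ∪ J, b ∈ H → a ≠ b → a * b = b * a →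
      Subgroup.centralizer ({a * b} : Set G) ≤ H) : H = ⊤ := by
  have ha₀I : a₀ ∈ I := by rw [hI]; exact IsConj.refl a₀
  have hb₀J : b₀ ∈ J := by rw [hJ]; exact IsConj.refl b₀
  have hIc : ∀ g : G, ∀ x ∈ I, g * x * g⁻¹ ∈ I := by
    intro g x hx
    rw [hI] at hx ⊢
    exact hx.trans (isConj_iff.mpr ⟨g, rfl⟩)
  have hJc : ∀ g : G, ∀ x ∈ J, g * x * g⁻¹ ∈ J := by
    intro g x hx
    rw [hJ] at hx ⊢
    exact hx.trans (isConj_iff.mpr ⟨g, rfl⟩)
  have hnc : ¬ IsConj a₀ b₀ := by
    intro h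
    apply hIJ
    rw [hI, hJ]
    ext x
    exact ⟨fun hx => h.symm.trans hx, fun hx => h.trans hx⟩
  have hsq : ∀ c : G, orderOf c = 2 → ∀ x : G, IsConj c x → x * x = 1 ∧ x ≠ 1 := by
    intro c hc x hx
    obtain ⟨g, rfl⟩ := isConj_iff.mp hx
    have hc2 : c * c = 1 := by
      have := pow_orderOf_eq_one c
      rwa [hc, pow_two] at this
    have hc1 : c ≠ 1 := by
      intro h
      rw [h, orderOf_one] at hc
      omega
    constructor
    · calc g * c * g⁻¹ * (g * c * g⁻¹) = g * (c * c) * g⁻¹ := by group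
        _ = 1 := by rw [hc2]; group
    · intro h
      apply hc1
      have h1 : c = g⁻¹ * (g * c * g⁻¹) * g := by group
      rw [h1, h]
      group
  -- key step
  have key : ∀ a ∈ I, a ∈ H → ∀ b ∈ J, b ∈ H := by
    intro a haI haH b hbJ
    obtain ⟨ha2, ha1⟩ := hsq a₀ ha₀ a (by rw [hI] at haI; exact haI)
    obtain ⟨hb2, hb1⟩ := hsq b₀ hb₀ b (by rw [hJ] at hbJ; exact hbJ)
    rcases dihedral_dichotomy a b ha2 hb2 hb1 with ⟨g, hg⟩ | ⟨w, hw1, haw, hbw, hconj⟩
    · exfalso
      apply hnc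
      have h1 : IsConj a₀ a := by rw [hI] at haI; exact haI
      have h2 : IsConj b₀ b := by rw [hJ] at hbJ; exact hbJ
      exact (h1.trans (isConj_iff.mpr ⟨g, hg⟩)).trans h2.symm
    · -- w ∈ H
      obtain ⟨c, _, huniq⟩ := hfix a (Or.inl haI)
      have e1 : ((1 : G) : G ⧸ H) = c := by
        apply huniq
        show a • ((1 : G) : G ⧸ H) = ((1 : G) : G ⧸ H)
        rw [smul_coset_eq_iff]
        simpa using haH
      have e2 : (w : G ⧸ H) = c := by
        apply huniq
        show a • (w : G ⧸ H) = (w : G ⧸ H)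
        rw [smul_coset_eq_iff]
        have e : w⁻¹ * a * w = a := by
          calc w⁻¹ * a * w = w⁻¹ * (a * w) := by group
            _ = w⁻¹ * (w * a) := by rw [haw]
            _ = a := by group
        rw [e]
        exact haH
      have hwH : w ∈ H := by
        rw [← coset_eq_one_iff, e1, e2]
      have hawIJ : a * w ∈ I ∪ J := by
        rcases hconj with ⟨g, hg⟩ | ⟨g, hg⟩
        · left
          rw [hg]
          exact hIc g a haI
        · right
          rw [hg]
          exact hJc g b hbJ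
      have hne : a ≠ a * w := by
        intro h
        apply hw1
        have h1 : a * 1 = a * w := by rw [mul_one]; exact h
        exact (mul_left_cancel h1).symm
      have hcomm : a * (a * w) = (a * w) * a := by
        rw [mul_assoc a w a, ← haw]
      have h3 := hcent a haI haH (a * w) hawIJ (H.mul_mem haH hwH) hne hcomm
      have e3 : a * (a * w) = w := by
        rw [← mul_assoc, ha2, one_mul]
      rw [e3] at h3
      apply h3
      rw [Subgroup.mem_centralizer_iff]
      intro y hy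
      rw [Set.mem_singleton_iff] at hy
      rw [hy]
      exact hbw.symm
  -- conjugated key step
  have key' : ∀ (g : G), ∀ a ∈ I, g⁻¹ * a * g ∈ H → ∀ b ∈ J, g⁻¹ * b * g ∈ H := by
    intro g a haI haH b hbJ
    have h1 : g⁻¹ * a * g ∈ I := by
      have := hIc g⁻¹ a haI
      simpa using this
    have h2 : g⁻¹ * b * g ∈ J := by
      have := hJc g⁻¹ b hbJ
      simpa using this
    exact key _ h1 haH _ h2
  -- the fixed coset of b₀
  obtain ⟨c₀, hc₀, hc₀u⟩ := hfix b₀ (Or.inr hb₀J)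
  induction c₀ using QuotientGroup.induction_on with
  | H g₀ =>
    have hIH : ∀ a ∈ I, g₀⁻¹ * a * g₀ ∈ H := by
      intro a haI
      obtain ⟨c, hc, _⟩ := hfix a (Or.inl haI)
      induction c using QuotientGroup.induction_on with
      | H g =>
        have hc' : a • (g : G ⧸ H) = (g : G ⧸ H) := hc
        rw [smul_coset_eq_iff] at hc'
        have h1 := key' g a haI hc' b₀ hb₀J
        have h2 : (g : G ⧸ H) = (g₀ : G ⧸ H) := by
          apply hc₀u
          show b₀ • (g : G ⧸ H) = (g : G ⧸ H)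
          rw [smul_coset_eq_iff]
          exact h1
        have h3 : a • (g₀ : G ⧸ H) = (g₀ : G ⧸ H) := by
          rw [← h2]
          exact hc
        rw [smul_coset_eq_iff] at h3
        exact h3
    have hIH' : ∀ a ∈ I, a ∈ H := by
      intro a haI
      have h1 := hIH (g₀ * a * g₀⁻¹) (hIc g₀ a haI)
      have e : g₀⁻¹ * (g₀ * a * g₀⁻¹) * g₀ = a := by group
      rwa [e] at h1
    rw [eq_top_iff]
    intro g _
    obtain ⟨c, _, huniq⟩ := hfix a₀ (Or.inl ha₀I)
    have e1 : ((1 : G) : G ⧸ H) = c := by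
      apply huniq
      show a₀ • ((1 : G) : G ⧸ H) = ((1 : G) : G ⧸ H)
      rw [smul_coset_eq_iff]
      simpa using hIH' a₀ ha₀I
    have e2 : (g : G ⧸ H) = c := by
      apply huniq
      show a₀ • (g : G ⧸ H) = (g : G ⧸ H)
      rw [smul_coset_eq_iff]
      have h1 := hIc g⁻¹ a₀ ha₀I
      have h2 := hIH' _ h1
      simpa using h2
    rw [← coset_eq_one_iff, e1, e2]

/-! ### classes of involutions with products of odd order -/

theorem odd_sq_inj (y y' : G) (hy : Odd (orderOf y)) (hy' : Odd (orderOf y'))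
    (h : y * y = y' * y') : y = y' := by
  obtain ⟨k, hk⟩ := hy
  obtain ⟨k', hk'⟩ := hy'
  have h1 : y ^ (2 * (2 * k * k' + k + k') + 1) = 1 := by
    have e1 : 2 * (2 * k * k' + k + k') + 1 = orderOf y * (2 * k' + 1) := by rw [hk]; ring
    rw [e1, pow_mul, pow_orderOf_eq_one, one_pow]
  have h1' : y' ^ (2 * (2 * k * k' + k + k') + 1) = 1 := by
    have e1 : 2 * (2 * k * k' + k + k') + 1 = orderOf y' * (2 * k + 1) := by rw [hk']; ring
    rw [e1, pow_mul, pow_orderOf_eq_one, one_pow]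
  have h2 : y = (y * y) ^ (2 * k * k' + k + k' + 1) := by
    rw [← pow_two, ← pow_mul]
    have e1 : 2 * (2 * k * k' + k + k' + 1) = (2 * (2 * k * k' + k + k') + 1) + 1 := by ring
    rw [e1, pow_succ, h1, one_mul]
  have h2' : y' = (y' * y') ^ (2 * k * k' + k + k' + 1) := by
    rw [← pow_two, ← pow_mul]
    have e1 : 2 * (2 * k * k' + k + k' + 1) = (2 * (2 * k * k' + k + k') + 1) + 1 := by ring
    rw [e1, pow_succ, h1', one_mul]
  calc y = (y * y) ^ (2 * k * k' + k + k' + 1) := h2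
    _ = (y' * y') ^ (2 * k * k' + k + k' + 1) := by rw [h]
    _ = y' := h2'.symm

theorem exists_unique_comm (d : G) (hd : orderOf d = 2)
    (hodd : ∀ a ∈ conjugatesOf d, ∀ b ∈ conjugatesOf d, Odd (orderOf (a * b)))
    (x : G) (hx : orderOf x = 2) (e : G) (he : e ∈ conjugatesOf d) :
    ∃! a : G, a ∈ conjugatesOf d ∧ Commute a x ∧ Commute e (a * x) := by
  have hd2 : d * d = 1 := by
    have := pow_orderOf_eq_one d
    rwa [hd, pow_two] at this
  have hx2 : x * x = 1 := by
    have := pow_orderOf_eq_one x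
    rwa [hx, pow_two] at this
  have hxinv : x⁻¹ = x := inv_eq_of_mul_eq_one_left hx2
  have hsq : ∀ y ∈ conjugatesOf d, y * y = 1 := by
    intro y hy
    have hy' : IsConj d y := hy
    rw [isConj_iff] at hy'
    obtain ⟨g, rfl⟩ := hy'
    calc g * d * g⁻¹ * (g * d * g⁻¹) = g * (d * d) * g⁻¹ := by group
      _ = 1 := by rw [hd2]; group
  have hcm : ∀ y ∈ conjugatesOf d, ∀ g : G, g * y * g⁻¹ ∈ conjugatesOf d := by
    intro y hy g
    have hy' : IsConj d y := hy
    exact hy'.trans (isConj_iff.mpr ⟨g, rfl⟩)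
  have he2 := hsq e he
  have hf : x * e * x ∈ conjugatesOf d := by
    have := hcm e he x
    rwa [hxinv] at this
  obtain ⟨f, hfdef⟩ : ∃ f : G, f = x * e * x := ⟨_, rfl⟩
  rw [← hfdef] at hf
  have hf2 := hsq f hf
  obtain ⟨r, hrdef⟩ : ∃ r : G, r = e * f := ⟨_, rfl⟩
  have hm : Odd (orderOf r) := by
    rw [hrdef]
    exact hodd e he f hf
  have hrinv : r⁻¹ = f * e := by
    rw [hrdef, mul_inv_rev, inv_eq_of_mul_eq_one_left he2, inv_eq_of_mul_eq_one_left hf2]
  have hfer : f = e * r := by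
    rw [hrdef, ← mul_assoc, he2, one_mul]
  have her : e * r * e = r⁻¹ := by
    rw [hrinv, hrdef, ← mul_assoc, he2, one_mul]
  have hxr : x * r * x = r⁻¹ := by
    rw [hrinv, hrdef, hfdef]
    calc x * (e * (x * e * x)) * x = x * e * x * e * (x * x) := by group
      _ = x * e * x * e := by rw [hx2, mul_one]
  obtain ⟨k, hk⟩ := hm
  obtain ⟨P, hP⟩ : ∃ P : G, P = r ^ ((k + 1) ^ 2) * r ^ ((k + 1) ^ 2) := ⟨_, rfl⟩
  have hPP : P * P = r := by
    rw [hP, ← pow_add, ← pow_add]
    have e1 : (k + 1) ^ 2 + (k + 1) ^ 2 + ((k + 1) ^ 2 + (k + 1) ^ 2) =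
        orderOf r * (2 * k + 3) + 1 := by rw [hk]; ring
    rw [e1, pow_succ, pow_mul, pow_orderOf_eq_one, one_pow, one_mul]
  have ha : (r ^ ((k + 1) ^ 2))⁻¹ * e * r ^ ((k + 1) ^ 2) = e * P := by
    rw [hP]
    exact inv_pow_conj e r he2 her _
  have hxP : x * P * x = P⁻¹ := by
    have h1 := conj_pow_inv x r hx2 hxr ((k + 1) ^ 2 + (k + 1) ^ 2)
    rw [pow_add, ← hP] at h1
    exact h1
  have haD : e * P ∈ conjugatesOf d := by
    rw [← ha]
    have := hcm e he (r ^ ((k + 1) ^ 2))⁻¹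
    rwa [inv_inv] at this
  have haea : (e * P) * e * (e * P) = f := by
    calc (e * P) * e * (e * P) = e * P * (e * e) * P := by group
      _ = e * (P * P) := by rw [he2]; group
      _ = f := by rw [hPP, hfer]
  have haa := hsq _ haD
  refine ⟨e * P, ⟨haD, ?_, ?_⟩, ?_⟩
  · show e * P * x = x * (e * P)
    have h1 : x * (e * P) * x = e * P := by
      have e1 : x * (e * P) * x = (x * e * x) * (x * P * x) := by
        have e2 : (x * e * x) * (x * P * x) = x * e * (x * x) * P * x := by group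
        rw [e2, hx2]
        group
      rw [e1, hxP, ← hfdef, hfer]
      calc e * r * P⁻¹ = e * (P * P) * P⁻¹ := by rw [hPP]
        _ = e * P := by group
    calc e * P * x = x * (e * P) * x * x := by rw [h1]
      _ = x * (e * P) * (x * x) := by group
      _ = x * (e * P) := by rw [hx2, mul_one]
  · show e * (e * P * x) = e * P * x * e
    have e1 : e * (e * P * x) = (e * P) * ((e * P) * e * (e * P)) * x := by
      have e2 : (e * P) * ((e * P) * e * (e * P)) * x =
          ((e * P) * (e * P)) * e * (e * P) * x := by group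
      rw [e2, haa]
      group
    rw [e1, haea, hfdef]
    calc e * P * (x * e * x) * x = e * P * x * e * (x * x) := by group
      _ = e * P * x * e := by rw [hx2, mul_one]
  · rintro a' ⟨ha'D, ha'x, ha'e⟩
    have ha'2 := hsq a' ha'D
    have hc2 : e * (a' * x) = a' * x * e := ha'e
    have h1 : a' * e * a' = f := by
      have e1 : a' * e * a' = a' * (e * (a' * x)) * x := by
        have e2 : a' * (e * (a' * x)) * x = a' * e * a' * (x * x) := by group
        rw [e2, hx2, mul_one]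
      rw [e1, hc2, hfdef]
      calc a' * (a' * x * e) * x = (a' * a') * x * e * x := by group
        _ = x * e * x := by rw [ha'2, one_mul]
    have h2 : (a' * e) * (a' * e) = (e * P * e) * (e * P * e) := by
      calc (a' * e) * (a' * e) = (a' * e * a') * e := by group
        _ = ((e * P) * e * (e * P)) * e := by rw [h1, haea]
        _ = (e * P * e) * (e * P * e) := by group
    have h3 : a' * e = e * P * e :=
      odd_sq_inj _ _ (hodd a' ha'D e he) (hodd (e * P) haD e he) h2
    exact mul_right_cancel h3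

end Cfsg.Agent.Lib_helper6_InvFix
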