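import Mathlib
import Cfsg.Agent.Lib_helper6_Conj
import Cfsg.Agent.Lib_helper6_Sylow
import Cfsg.Agent.Lib_helper6_Sylow2
import Cfsg.Agent.Lib_helper6_Count

set_option autoImplicit false
open Pointwise

namespace Cfsg.Agent.Lib_helper6_SylowFib

variable {G : Type*} [Group G]

/-- the image of a Sylow subgroup in the quotient by a normal subgroup -/
noncomputable def qmap [Finite G] {p : ℕ} [Fact p.Prime] (K : Subgroup G) [K.Normal]
    (Q : Sylow p G) : Sylow p (G ⧸ K) :=
  Q.mapSurjective (QuotientGroup.mk'_surjective K)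

theorem mem_qmap [Finite G] {p : ℕ} [Fact p.Prime] (K : Subgroup G) [K.Normal]
    (Q : Sylow p G) (x : G ⧸ K) :
    x ∈ (qmap K Q : Subgroup (G ⧸ K)) ↔ ∃ y ∈ (Q : Subgroup G), (QuotientGroup.mk y : G ⧸ K) = x := by
  unfold qmap
  rw [Sylow.coe_mapSurjective]
  exact Subgroup.mem_map

theorem qmap_smul [Finite G] {p : ℕ} [Fact p.Prime] (K : Subgroup G) [K.Normal]
    (g : G) (Q : Sylow p G) :
    qmap K (g • Q) = (QuotientGroup.mk g : G ⧸ K) • qmap K Q := by
  apply Sylow.ext
  ext x
  rw [Lib_helper6_Sylow.mem_smul_sylow, mem_qmap, mem_qmap]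
  constructor
  · rintro ⟨y, hy, rfl⟩
    rw [Lib_helper6_Sylow.mem_smul_sylow] at hy
    exact ⟨g⁻¹ * y * g, hy, rfl⟩
  · rintro ⟨z, hz, hzx⟩
    refine ⟨g * z * g⁻¹, ?_, ?_⟩
    · rw [Lib_helper6_Sylow.mem_smul_sylow]
      have : g⁻¹ * (g * z * g⁻¹) * g = z := by group
      rw [this]; exact hz
    · rw [QuotientGroup.mk_mul, QuotientGroup.mk_mul, hzx, QuotientGroup.mk_inv]
      group

/-- first fibration: the Sylow subgroups of `G` fibre over those of `G ⧸ K` with fibres of equal
size -/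
theorem card_sylow_eq_mul_fiber [Finite G] {p : ℕ} [Fact p.Prime] (K : Subgroup G) [K.Normal]
    (P : Sylow p G) :
    Nat.card (Sylow p G) =
      Nat.card (Sylow p (G ⧸ K)) * Nat.card {Q : Sylow p G // qmap K Q = qmap K P} := by
  classical
  let _ : Fintype (Sylow p (G ⧸ K)) := Fintype.ofFinite _
  rw [Lib_helper6_Count.card_eq_sum_fiber (qmap K (p := p))]
  have hfib : ∀ R : Sylow p (G ⧸ K), Nat.card {Q : Sylow p G // qmap K Q = R} =
      Nat.card {Q : Sylow p G // qmap K Q = qmap K P} := by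
    intro R
    obtain ⟨P', rfl⟩ : ∃ P' : Sylow p G, qmap K P' = R :=
      Sylow.mapSurjective_surjective (QuotientGroup.mk'_surjective K) p R
    obtain ⟨g, rfl⟩ := MulAction.exists_smul_eq G P P'
    refine Nat.card_congr
      { toFun := fun Q => ⟨g⁻¹ • Q.1, ?_⟩
        invFun := fun Q => ⟨g • Q.1, ?_⟩
        left_inv := fun Q => Subtype.ext (smul_inv_smul g Q.1)
        right_inv := fun Q => Subtype.ext (inv_smul_smul g Q.1) }
    · rw [qmap_smul, Q.2, qmap_smul, ← mul_smul, ← QuotientGroup.mk_mul, inv_mul_cancel]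
      exact one_smul _ _
    · rw [qmap_smul, Q.2, qmap_smul]
  rw [Finset.sum_congr rfl (fun R _ => hfib R), Finset.sum_const, Finset.card_univ, smul_eq_mul,
    Nat.card_eq_fintype_card (α := Sylow p (G ⧸ K))]

/-- the fibre of the first fibration through `P` is the `K`-orbit of `P` -/
theorem fiber_iff [Finite G] {p : ℕ} [Fact p.Prime] (K : Subgroup G) [K.Normal]
    (P Q : Sylow p G) :
    qmap K Q = qmap K P ↔ ∃ k ∈ K, Q = k • P := by
  constructor
  · intro h
    have hQL : (Q : Subgroup G) ≤ (P : Subgroup G) ⊔ K := by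
      intro q hq
      have h1 : (QuotientGroup.mk q : G ⧸ K) ∈ (qmap K Q : Subgroup (G ⧸ K)) :=
        (mem_qmap K Q _).mpr ⟨q, hq, rfl⟩
      rw [h, mem_qmap] at h1
      obtain ⟨y, hy, hyq⟩ := h1
      have h2 : y⁻¹ * q ∈ K := QuotientGroup.eq.mp hyq
      have : q = y * (y⁻¹ * q) := by group
      rw [this]
      exact Subgroup.mul_mem _ (Subgroup.mem_sup_left hy) (Subgroup.mem_sup_right h2)
    have hPL : (P : Subgroup G) ≤ (P : Subgroup G) ⊔ K := le_sup_left
    obtain ⟨s, hs⟩ := MulAction.exists_smul_eq (↥((P : Subgroup G) ⊔ K)) (P.subtype hPL)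
      (Q.subtype hQL)
    have h3 := Lib_helper6_Sylow2.map_smul_sylow ((P : Subgroup G) ⊔ K) (P.subtype hPL) s
    rw [hs, Sylow.coe_subtype, Sylow.coe_subtype, Subgroup.map_subgroupOf_eq_of_le hQL,
      Subgroup.map_subgroupOf_eq_of_le hPL] at h3
    have hsmem : (s : G) ∈ ((K ⊔ (P : Subgroup G) : Subgroup G) : Set G) := by
      rw [sup_comm]; exact s.2
    rw [Subgroup.normal_mul, Set.mem_mul] at hsmem
    obtain ⟨k, hk, y, hy, hky⟩ := hsmem
    refine ⟨k, hk, ?_⟩
    apply Sylow.ext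
    rw [h3, ← hky, Lib_helper6_Conj.conjMap_mul, Lib_helper6_Conj.conjMap_of_mem hy,
      Sylow.coe_subgroup_smul, Lib_helper6_Conj.conj_smul_eq_conjMap]
  · rintro ⟨k, hk, rfl⟩
    rw [qmap_smul, (QuotientGroup.eq_one_iff k).mpr hk]
    exact one_smul _ _

/-- the fibre has size congruent to `1` modulo `p` -/
theorem card_fiber_modEq_one [Finite G] {p : ℕ} [Fact p.Prime] (K : Subgroup G) [K.Normal]
    (P : Sylow p G) :
    Nat.card {Q : Sylow p G // qmap K Q = qmap K P} ≡ 1 [MOD p] := by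
  classical
  let S : SubMulAction (P : Subgroup G) (Sylow p G) :=
    { carrier := {Q | qmap K Q = qmap K P}
      smul_mem' := by
        intro y Q hQ
        have hQ' : qmap K Q = qmap K P := hQ
        show qmap K ((y : G) • Q) = qmap K P
        have hy : (y : G) • P = P :=
          Sylow.smul_eq_iff_mem_normalizer.mpr (Subgroup.le_normalizer y.2)
        rw [qmap_smul, hQ', ← qmap_smul, hy] }
  have h1 : Nat.card S ≡ Nat.card (MulAction.fixedPoints (P : Subgroup G) S) [MOD p] :=
    P.2.card_modEq_card_fixedPoints S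
  have h2 : Nat.card (MulAction.fixedPoints (P : Subgroup G) S) = 1 := by
    rw [Nat.card_eq_one_iff_unique]
    refine ⟨⟨?_⟩, ⟨⟨⟨P, rfl⟩, ?_⟩⟩⟩
    · rintro ⟨⟨Q, hQ⟩, hfix⟩ ⟨⟨Q', hQ'⟩, hfix'⟩
      have key : ∀ (R : Sylow p G) (hR : R ∈ S),
          (⟨R, hR⟩ : S) ∈ MulAction.fixedPoints (P : Subgroup G) S → R = P := by
        intro R hR hf
        have hR' : R ∈ MulAction.fixedPoints (P : Subgroup G) (Sylow p G) := by
          intro y
          have := hf y
          exact congrArg Subtype.val this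
        rw [P.2.sylow_mem_fixedPoints_iff] at hR'
        exact Sylow.ext (P.3 R.2 hR')
      have e1 := key Q hQ hfix
      have e2 := key Q' hQ' hfix'
      subst e1
      subst e2
      rfl
    · intro y
      apply Subtype.ext
      show (y : G) • P = P
      exact Sylow.smul_eq_iff_mem_normalizer.mpr (Subgroup.le_normalizer y.2)
  rw [h2] at h1
  exact h1

/-- the fibre has size dividing the order of `K` -/
theorem card_fiber_dvd [Finite G] {p : ℕ} [Fact p.Prime] (K : Subgroup G) [K.Normal]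
    (P : Sylow p G) :
    Nat.card {Q : Sylow p G // qmap K Q = qmap K P} ∣ Nat.card K := by
  classical
  have hset : {Q : Sylow p G | qmap K Q = qmap K P} = MulAction.orbit K P := by
    ext Q
    rw [Set.mem_ofPred_eq, fiber_iff]
    constructor
    · rintro ⟨k, hk, rfl⟩
      exact ⟨⟨k, hk⟩, rfl⟩
    · rintro ⟨k, rfl⟩
      exact ⟨k, k.2, rfl⟩
  have h1 : Nat.card {Q : Sylow p G // qmap K Q = qmap K P} = (MulAction.orbit K P).ncard := by
    rw [← hset]
    exact Nat.card_coe_set_eq _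
  rw [h1, ← MulAction.index_stabilizer]
  exact Subgroup.index_dvd_card _

end Cfsg.Agent.Lib_helper6_SylowFib
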