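import Mathlib
import Cfsg.Agent.Lib_helper6_SylowFib
import Cfsg.Agent.Lib_helper6_Index

set_option autoImplicit false
open Pointwise

namespace Cfsg.Agent.Lib_helper6_SylowFib2

open Cfsg.Agent.Lib_helper6_SylowFib

variable {G : Type*} [Group G]

/-- `[X : X ∩ Y] = [L : L ∩ Y]` when `L = X Y'` with `Y' ⊆ Y` -/
theorem relIndex_eq_of_mul (X Y L : Subgroup G) (hXL : X ≤ L)
    (h : ∀ l ∈ L, ∃ x ∈ X, ∃ y ∈ Y, l = x * y) : Y.relIndex X = Y.relIndex L := by
  unfold Subgroup.relIndex Subgroup.index
  let φ : X ⧸ Y.subgroupOf X → L ⧸ Y.subgroupOf L :=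
    Quotient.map' (fun x : X => (⟨x.1, hXL x.2⟩ : L)) (by
      intro a b hab
      rw [QuotientGroup.leftRel_apply] at hab ⊢
      rw [Subgroup.mem_subgroupOf] at hab ⊢
      exact hab)
  have hφ : ∀ x : X, φ (QuotientGroup.mk x) = QuotientGroup.mk (⟨x.1, hXL x.2⟩ : L) := fun x => rfl
  apply Nat.card_eq_of_bijective φ
  constructor
  · intro q1 q2
    induction q1 using QuotientGroup.induction_on with
    | H a =>
      induction q2 using QuotientGroup.induction_on with
      | H b =>
        intro hq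
        rw [hφ, hφ] at hq
        have h1 := QuotientGroup.eq.mp hq
        rw [Subgroup.mem_subgroupOf] at h1
        apply QuotientGroup.eq.mpr
        rw [Subgroup.mem_subgroupOf]
        exact h1
  · intro q
    induction q using QuotientGroup.induction_on with
    | H l =>
      obtain ⟨x, hx, y, hy, hl⟩ := h l l.2
      refine ⟨QuotientGroup.mk ⟨x, hx⟩, ?_⟩
      rw [hφ]
      apply QuotientGroup.eq.mpr
      rw [Subgroup.mem_subgroupOf]
      have : (((⟨x, hXL hx⟩ : L)⁻¹ * l : L) : G) = y := by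
        show x⁻¹ * (l : G) = y
        rw [hl]; group
      rw [this]; exact hy

/-- the fibre of the first fibration is the index of `N_K(P)` in `K` -/
theorem card_fiber_eq [Finite G] {p : ℕ} [Fact p.Prime] (K : Subgroup G) [K.Normal]
    (P : Sylow p G) :
    Nat.card {Q : Sylow p G // qmap K Q = qmap K P} =
      (Subgroup.normalizer ((P : Subgroup G) : Set G)).relIndex K := by
  classical
  have hset : {Q : Sylow p G | qmap K Q = qmap K P} = MulAction.orbit K P := by
    ext Q
    rw [Set.mem_ofPred_eq, fiber_iff]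
    constructor
    · rintro ⟨k, hk, rfl⟩
      exact ⟨⟨k, hk⟩, rfl⟩
    · rintro ⟨k, rfl⟩
      exact ⟨k, k.2, rfl⟩
  have h1 : Nat.card {Q : Sylow p G // qmap K Q = qmap K P} = (MulAction.orbit K P).ncard := by
    rw [← hset]
    exact Nat.card_coe_set_eq _
  rw [h1, ← MulAction.index_stabilizer]
  have h2 : MulAction.stabilizer K P =
      (Subgroup.normalizer ((P : Subgroup G) : Set G)).subgroupOf K := by
    ext k
    rw [MulAction.mem_stabilizer_iff, Subgroup.mem_subgroupOf]
    exact Sylow.smul_eq_iff_mem_normalizer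
  rw [h2]
  rfl

/-- the number of Sylow subgroups of a normal subgroup -/
theorem card_sylow_normal [Finite G] {p : ℕ} [Fact p.Prime] (K : Subgroup G) [K.Normal]
    (P : Sylow p G) :
    Nat.card (Sylow p K) =
      (Subgroup.normalizer (((P : Subgroup G) ⊓ K : Subgroup G) : Set G)).relIndex K := by
  have hnd : ¬ p ∣ ((P : Subgroup G).subgroupOf K).index := by
    intro h
    exact P.not_dvd_index
      (h.trans (Lib_helper6_Index.relIndex_dvd_index_of_normal_right (P : Subgroup G) K))
  let P₀ : Sylow p K := (P.2.comap_subtype (K := K)).toSylow hnd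
  rw [Sylow.card_eq_index_normalizer P₀]
  have h1 : (P₀ : Subgroup K) = ((P : Subgroup G) ⊓ K).subgroupOf K := by
    rw [Subgroup.inf_subgroupOf_right]; rfl
  unfold Subgroup.relIndex
  rw [Subgroup.subgroupOf_normalizer_eq inf_le_right, ← h1]
  rfl

/-- the number of Sylow subgroups of a quotient of `N ≥ P` by a normal `p`-subgroup inside `P` -/
theorem card_sylow_quot_pgroup [Finite G] {p : ℕ} [Fact p.Prime] (P : Sylow p G) (N : Subgroup G)
    (hPN : (P : Subgroup G) ≤ N) (R : Subgroup N) [R.Normal]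
    (hR : R ≤ (P : Subgroup G).subgroupOf N) :
    Nat.card (Sylow p (N ⧸ R)) = (Subgroup.normalizer ((P : Subgroup G) : Set G)).relIndex N := by
  have hA := card_sylow_eq_mul_fiber R (P.subtype hPN)
  have hone : Nat.card {Q : Sylow p N // qmap R Q = qmap R (P.subtype hPN)} = 1 := by
    rw [Nat.card_eq_one_iff_unique]
    refine ⟨⟨?_⟩, ⟨⟨P.subtype hPN, rfl⟩⟩⟩
    have key : ∀ Q : Sylow p N, qmap R Q = qmap R (P.subtype hPN) → Q = P.subtype hPN := by
      intro Q hQ
      rw [fiber_iff] at hQ
      obtain ⟨r, hr, rfl⟩ := hQ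
      apply Sylow.smul_eq_iff_mem_normalizer.mpr
      apply Subgroup.le_normalizer
      rw [Sylow.coe_subtype]
      exact hR hr
    rintro ⟨Q, hQ⟩ ⟨Q', hQ'⟩
    apply Subtype.ext
    show Q = Q'
    rw [key Q hQ, key Q' hQ']
  rw [hone, mul_one] at hA
  rw [← hA, Sylow.card_eq_index_normalizer (P.subtype hPN)]
  unfold Subgroup.relIndex
  rw [Subgroup.subgroupOf_normalizer_eq hPN]
  rfl

end Cfsg.Agent.Lib_helper6_SylowFib2
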