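import Cfsg.Statements.S4341
import Cfsg.Agent.Lib_helper6_SylowFib2

set_option autoImplicit false
open Cfsg

namespace Cfsg.Agent.S4341

/-- Let K be a normal subgroup of a finite group G, p a prime and P a Sylow p-subgroup of G; let N be the normalizer of P ∩ K inside the subgroup PK. Then the number of Sylow p-subgroups of G equals the product of the numbers of Sylow p-subgroups of G/K, of K, and of N/(P ∩ K). (The normality of P ∩ K in N, which always holds, is assumed as a hypothesis so that the quotient can be formed.) -/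
theorem result {G : Type*} [Group G] [Finite G]
    (p : ℕ) [Fact p.Prime] (K : Subgroup G) [K.Normal] (P : Sylow p G) (N : Subgroup G)
    (hN : N = ((P : Subgroup G) ⊔ K) ⊓ Subgroup.normalizer (((P : Subgroup G) ⊓ K : Subgroup G) : Set G))
    [hn : (((P : Subgroup G) ⊓ K).subgroupOf N).Normal] :
    Nat.card (Sylow p G) =
      Nat.card (Sylow p (G ⧸ K)) * Nat.card (Sylow p K) * Nat.card (Sylow p (N ⧸ ((P : Subgroup G) ⊓ K).subgroupOf N)) := by
  classical
  subst hN
  have hAB : Subgroup.normalizer ((P : Subgroup G) : Set G) ≤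
      Subgroup.normalizer (((P : Subgroup G) ⊓ K : Subgroup G) : Set G) := by
    intro x hx
    rw [Subgroup.mem_normalizer_iff] at hx ⊢
    intro h
    constructor
    · rintro ⟨h1, h2⟩
      exact ⟨(hx h).mp h1, ‹K.Normal›.conj_mem h h2 x⟩
    · rintro ⟨h1, h2⟩
      refine ⟨(hx h).mpr h1, ?_⟩
      have := ‹K.Normal›.conj_mem _ h2 x⁻¹
      simpa [mul_assoc] using this
  have hPA : (P : Subgroup G) ≤ Subgroup.normalizer ((P : Subgroup G) : Set G) :=
    Subgroup.le_normalizer
  have hPN : (P : Subgroup G) ≤ ((P : Subgroup G) ⊔ K) ⊓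
      Subgroup.normalizer (((P : Subgroup G) ⊓ K : Subgroup G) : Set G) :=
    le_inf le_sup_left (hPA.trans hAB)
  have hR : ((P : Subgroup G) ⊓ K).subgroupOf (((P : Subgroup G) ⊔ K) ⊓
      Subgroup.normalizer (((P : Subgroup G) ⊓ K : Subgroup G) : Set G)) ≤
      (P : Subgroup G).subgroupOf (((P : Subgroup G) ⊔ K) ⊓
      Subgroup.normalizer (((P : Subgroup G) ⊓ K : Subgroup G) : Set G)) := by
    intro x hx
    rw [Subgroup.mem_subgroupOf] at hx ⊢
    exact hx.1
  rw [Cfsg.Agent.Lib_helper6_SylowFib.card_sylow_eq_mul_fiber K P,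
    Cfsg.Agent.Lib_helper6_SylowFib2.card_fiber_eq K P,
    Cfsg.Agent.Lib_helper6_SylowFib2.card_sylow_normal K P,
    Cfsg.Agent.Lib_helper6_SylowFib2.card_sylow_quot_pgroup P _ hPN _ hR, mul_assoc]
  congr 1
  -- the index identity
  have e1 := Subgroup.relIndex_mul_relIndex
    (Subgroup.normalizer ((P : Subgroup G) : Set G) ⊓ K)
    (Subgroup.normalizer (((P : Subgroup G) ⊓ K : Subgroup G) : Set G) ⊓ K) K
    (inf_le_inf_right K hAB) inf_le_right
  rw [Subgroup.inf_relIndex_right, Subgroup.inf_relIndex_right] at e1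
  have e2 : (Subgroup.normalizer ((P : Subgroup G) : Set G) ⊓ K).relIndex
      (Subgroup.normalizer (((P : Subgroup G) ⊓ K : Subgroup G) : Set G) ⊓ K) =
      (Subgroup.normalizer ((P : Subgroup G) : Set G)).relIndex
      (Subgroup.normalizer (((P : Subgroup G) ⊓ K : Subgroup G) : Set G) ⊓ K) := by
    rw [← Subgroup.inf_relIndex_right (Subgroup.normalizer ((P : Subgroup G) : Set G) ⊓ K),
      ← Subgroup.inf_relIndex_right (Subgroup.normalizer ((P : Subgroup G) : Set G))]
    congr 1
    ext x
    simp only [Subgroup.mem_inf]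
    tauto
  have e3 : (Subgroup.normalizer ((P : Subgroup G) : Set G)).relIndex
      (Subgroup.normalizer (((P : Subgroup G) ⊓ K : Subgroup G) : Set G) ⊓ K) =
      (Subgroup.normalizer ((P : Subgroup G) : Set G)).relIndex (((P : Subgroup G) ⊔ K) ⊓
        Subgroup.normalizer (((P : Subgroup G) ⊓ K : Subgroup G) : Set G)) := by
    apply Cfsg.Agent.Lib_helper6_SylowFib2.relIndex_eq_of_mul
    · exact le_inf (inf_le_right.trans le_sup_right) inf_le_left
    · rintro l ⟨hl1, hl2⟩
      have hl1' : l ∈ ((K ⊔ (P : Subgroup G) : Subgroup G) : Set G) := by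
        rw [sup_comm]; exact hl1
      rw [Subgroup.normal_mul, Set.mem_mul] at hl1'
      obtain ⟨k, hk, y, hy, hky⟩ := hl1'
      refine ⟨k, ⟨?_, hk⟩, y, hPA hy, hky.symm⟩
      have : k = l * y⁻¹ := by rw [← hky]; group
      rw [this]
      exact Subgroup.mul_mem _ hl2 (Subgroup.inv_mem _ (hAB (hPA hy)))
  rw [← e1, e2, e3, mul_comm]

end Cfsg.Agent.S4341
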