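import Mathlib
import Cfsg.Agent.S4341
import Cfsg.Agent.Lib_helper1_Coprime
import Cfsg.Agent.Lib_helper1_SZConj

set_option autoImplicit false
universe u

namespace Cfsg.Agent.Lib_helper6_MHall

/-- the admissible factors in M. Hall's theorem -/
def Good (p : ℕ) (m : ℕ) : Prop :=
  (IsPrimePow m ∧ m % p = 1) ∨
    ∃ (S : Type u) (_ : Group S) (_ : Finite S), IsSimpleGroup S ∧ m = Nat.card (Sylow p S)

/-- a natural number which is a product of admissible factors -/
def Fac (p : ℕ) (n : ℕ) : Prop :=
  ∃ l : List ℕ, l.prod = n ∧ ∀ m ∈ l, Good.{u} p m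

theorem fac_one (p : ℕ) : Fac.{u} p 1 := ⟨[], rfl, by simp⟩

theorem fac_mul {p a b : ℕ} (ha : Fac.{u} p a) (hb : Fac.{u} p b) : Fac.{u} p (a * b) := by
  obtain ⟨l₁, h₁, g₁⟩ := ha
  obtain ⟨l₂, h₂, g₂⟩ := hb
  exact ⟨l₁ ++ l₂, by rw [List.prod_append, h₁, h₂],
    fun m hm => (List.mem_append.mp hm).elim (g₁ m) (g₂ m)⟩

/-- The number of Sylow `p`-subgroups of a group with a normal `p`-complement is a product of
prime powers congruent to `1` modulo `p`. -/
theorem fac_split {G : Type u} [Group G] [Finite G] (p : ℕ) [Fact p.Prime] (P : Sylow p G)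
    (K : Subgroup G) [K.Normal] (hsup : (P : Subgroup G) ⊔ K = ⊤)
    (hinf : (P : Subgroup G) ⊓ K = ⊥) : Fac.{u} p (Nat.card (Sylow p G)) := by
  classical
  have hp : p.Prime := Fact.out
  have hKn : K.Normal := inferInstance
  set n := Nat.card (Sylow p G) with hn
  have hn1 : n ≡ 1 [MOD p] := card_sylow_modEq_one p G
  have hn1' : n % p = 1 := by
    have h := hn1
    rw [Nat.ModEq, Nat.mod_eq_of_lt hp.one_lt] at h
    exact h
  have hn0 : n ≠ 0 := Nat.card_pos.ne'
  set NP : Subgroup G := Subgroup.normalizer ((P : Subgroup G) : Set G) with hNP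
  have hcardG : n * Nat.card NP = Nat.card G := by
    have h1 : n = NP.index := Sylow.card_eq_index_normalizer P
    rw [h1]; exact Subgroup.index_mul_card _
  have hcompl : Subgroup.IsComplement' (P : Subgroup G) K := by
    apply Subgroup.isComplement'_of_disjoint_and_mul_eq_univ (disjoint_iff.mpr hinf)
    rw [← Subgroup.mul_normal, hsup]; rfl
  have hKcard : Nat.card K = (P : Subgroup G).index := (hcompl.symm.index_eq_card).symm
  have hKcop : (Nat.card (P : Subgroup G)).Coprime (Nat.card K) := by
    rw [hKcard]; exact P.card_coprime_index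
  have hKidx : K.index = Nat.card (P : Subgroup G) := hcompl.index_eq_card
  obtain ⟨kP, hkP⟩ := IsPGroup.iff_card.mp P.2
  have hGPK : Nat.card G = Nat.card (P : Subgroup G) * Nat.card K := hcompl.card_mul_card.symm
  have hsolv : Group.IsSolvable (P : Subgroup G) := by
    have := P.2.isNilpotent
    infer_instance
  have key : ∀ q ∈ n.primeFactors, q ^ n.factorization q ≡ 1 [MOD p] := by
    intro q hq
    have hqp : q.Prime := Nat.prime_of_mem_primeFactors hq
    have hqn : q ∣ n := Nat.dvd_of_mem_primeFactors hq
    have hqf : Fact q.Prime := ⟨hqp⟩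
    have hqne : q ≠ p := by
      rintro rfl
      have h0 : n % q = 0 := Nat.mod_eq_zero_of_dvd hqn
      omega
    have hcopqp : Nat.Coprime q p := (Nat.coprime_primes hqp hp).mpr hqne
    obtain ⟨R₀⟩ : Nonempty (Sylow q NP) := inferInstance
    set R : Subgroup G := (R₀ : Subgroup NP).map NP.subtype with hR
    have hRcard : Nat.card R = q ^ (Nat.card NP).factorization q := by
      rw [hR, Subgroup.card_map_of_injective NP.subtype_injective]
      exact R₀.card_eq_multiplicity
    have hRq : IsPGroup q R := R₀.2.map _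
    have hRNP : R ≤ NP := Subgroup.map_subtype_le _
    have hRK : R ≤ K := by
      intro x hx
      rw [← QuotientGroup.eq_one_iff]
      obtain ⟨j, hj⟩ := hRq ⟨x, hx⟩
      have hxj : x ^ q ^ j = 1 := congrArg Subtype.val hj
      have h1 : (QuotientGroup.mk x : G ⧸ K) ^ q ^ j = 1 := by
        rw [← QuotientGroup.mk_pow, hxj]; rfl
      have h2 : (QuotientGroup.mk x : G ⧸ K) ^ p ^ kP = 1 := by
        rw [← hkP, ← hKidx, Subgroup.index_eq_card]; exact pow_card_eq_one'
      have h3 : orderOf (QuotientGroup.mk x : G ⧸ K) = 1 :=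
        Nat.eq_one_of_dvd_coprimes (Nat.Coprime.pow j kP hcopqp)
          (orderOf_dvd_of_pow_eq_one h1) (orderOf_dvd_of_pow_eq_one h2)
      exact orderOf_eq_one_iff.mp h3
    have hRP : ∀ x ∈ R, ∀ y ∈ (P : Subgroup G), x * y = y * x := by
      intro x hx y hy
      have hxN : x ∈ NP := hRNP hx
      have h1 : x * y * x⁻¹ ∈ (P : Subgroup G) := (Subgroup.mem_normalizer_iff.mp hxN y).mp hy
      have h2 : x * y * x⁻¹ * y⁻¹ ∈ (P : Subgroup G) ⊓ K := by
        refine ⟨Subgroup.mul_mem _ h1 (Subgroup.inv_mem _ hy), ?_⟩
        have h3 : x * y * x⁻¹ * y⁻¹ = x * (y * x⁻¹ * y⁻¹) := by group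
        rw [h3]
        exact K.mul_mem (hRK hx) (hKn.conj_mem _ (K.inv_mem (hRK hx)) y)
      rw [hinf, Subgroup.mem_bot] at h2
      calc x * y = (x * y * x⁻¹ * y⁻¹) * (y * x) := by group
        _ = y * x := by rw [h2, one_mul]
    have hPK : (P : Subgroup G) ≤ Subgroup.normalizer (K : Set G) := by
      intro y _
      rw [Subgroup.normalizer_eq_top]; trivial
    have hPR : (P : Subgroup G) ≤ Subgroup.normalizer (R : Set G) := by
      intro y hy
      rw [Subgroup.mem_normalizer_iff]
      intro x
      constructor
      · intro hx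
        have h1 : y * x * y⁻¹ = x := by rw [← hRP x hx y hy]; group
        rw [h1]; exact hx
      · intro hx
        have h1 := hRP _ hx y hy
        have h2 : y * x * y⁻¹ = x := by
          calc y * x * y⁻¹ = y⁻¹ * (y * x * y⁻¹ * y) := by rw [h1]; group
            _ = x := by group
        rw [h2] at hx; exact hx
    obtain ⟨S, hRS, hPS⟩ := Cfsg.Agent.Lib_helper1_Coprime.invariant_pgroup_le_sylow
      (P : Subgroup G) K hPK hKcop (Or.inl hsolv) q R hRK hRq hPR
    set S' : Subgroup G := (S : Subgroup K).map K.subtype with hS'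
    have hS'card : Nat.card S' = q ^ (Nat.card K).factorization q := by
      rw [hS', Subgroup.card_map_of_injective K.subtype_injective]
      exact S.card_eq_multiplicity
    have hS'q : IsPGroup q S' := S.2.map _
    -- fixed points of `P` on `S'` lie in `R`
    have hFR : ∀ s ∈ S', (∀ y ∈ (P : Subgroup G), y * s = s * y) → s ∈ R := by
      intro s hs hsP
      let F : Subgroup G := S' ⊓ Subgroup.centralizer ((P : Subgroup G) : Set G)
      have hFq : IsPGroup q (F.subgroupOf NP) := (hS'q.to_le inf_le_left).comap_subtype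
      have hle : (R₀ : Subgroup NP) ≤ F.subgroupOf NP := by
        intro r hr
        rw [Subgroup.mem_subgroupOf]
        have hrR : (r : G) ∈ R := ⟨r, hr, rfl⟩
        refine ⟨hRS hrR, ?_⟩
        show (r : G) ∈ Subgroup.centralizer ((P : Subgroup G) : Set G)
        rw [Subgroup.mem_centralizer_iff]
        intro y hy
        exact (hRP _ hrR y hy).symm
      have hFeq := R₀.is_maximal' hFq hle
      have hsN : s ∈ NP := by
        rw [hNP, Subgroup.mem_normalizer_iff]
        intro y
        constructor
        · intro hy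
          have h1 : s * y * s⁻¹ = y := by rw [← hsP y hy]; group
          rw [h1]; exact hy
        · intro hy
          have h1 := hsP _ hy
          have h2 : s * y * s⁻¹ = y := by
            calc s * y * s⁻¹ = s⁻¹ * (s * y * s⁻¹ * s) := by rw [h1]; group
              _ = y := by group
          rw [h2] at hy; exact hy
      have hsF : (⟨s, hsN⟩ : NP) ∈ F.subgroupOf NP := by
        rw [Subgroup.mem_subgroupOf]
        refine ⟨hs, ?_⟩
        show s ∈ Subgroup.centralizer ((P : Subgroup G) : Set G)
        rw [Subgroup.mem_centralizer_iff]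
        intro y hy
        exact hsP y hy
      rw [hFeq] at hsF
      exact ⟨⟨s, hsN⟩, hsF, rfl⟩
    -- the conjugation action of `P` on `S'`
    let act : MulAction (P : Subgroup G) S' :=
      { smul := fun y s => ⟨(y : G) * (s : G) * (y : G)⁻¹,
          (Subgroup.mem_normalizer_iff.mp (hPS y.2) s).mp s.2⟩
        one_smul := fun s => Subtype.ext (by
          show ((1 : (P : Subgroup G)) : G) * (s : G) * ((1 : (P : Subgroup G)) : G)⁻¹ = s
          simp)
        mul_smul := fun y z s => Subtype.ext (by
          show ((y * z : (P : Subgroup G)) : G) * (s : G) * ((y * z : (P : Subgroup G)) : G)⁻¹ =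
            (y : G) * ((z : G) * (s : G) * (z : G)⁻¹) * (y : G)⁻¹
          simp [mul_assoc]) }
    have hsmul : ∀ (y : (P : Subgroup G)) (s : S'), ((y • s : S') : G) = (y : G) * (s : G) * (y : G)⁻¹ :=
      fun _ _ => rfl
    have hfix := P.2.card_modEq_card_fixedPoints S'
    have hfixcard : Nat.card (MulAction.fixedPoints (P : Subgroup G) S') = Nat.card R := by
      apply Nat.card_congr
      refine
        { toFun := fun s => ⟨((s : S') : G), hFR _ (s : S').2 (fun y hy => by
            have h1 := (MulAction.mem_fixedPoints.mp s.2) ⟨y, hy⟩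
            have h2 := congrArg Subtype.val h1
            rw [hsmul] at h2
            calc y * ((s : S') : G) = (y * ((s : S') : G) * y⁻¹) * y := by group
              _ = ((s : S') : G) * y := by rw [h2])⟩
          invFun := fun r => ⟨⟨(r : G), hRS r.2⟩, by
            rw [MulAction.mem_fixedPoints]
            intro y
            apply Subtype.ext
            rw [hsmul]
            show (y : G) * (r : G) * (y : G)⁻¹ = (r : G)
            rw [← hRP (r : G) r.2 (y : G) y.2]; group⟩
          left_inv := fun s => rfl
          right_inv := fun r => rfl }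
    have h3 : q ^ (Nat.card K).factorization q ≡ q ^ (Nat.card NP).factorization q [MOD p] := by
      rw [← hS'card, ← hRcard, ← hfixcard]; exact hfix
    have hNPK : (Nat.card NP).factorization q + n.factorization q =
        (Nat.card K).factorization q := by
      have h4 : (Nat.card G).factorization q =
          n.factorization q + (Nat.card NP).factorization q := by
        rw [← hcardG, Nat.factorization_mul hn0 Nat.card_pos.ne']; rfl
      have h5 : (Nat.card G).factorization q = (Nat.card K).factorization q := by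
        have hnd : ¬ q ∣ p ^ kP := fun h =>
          hqne ((Nat.prime_dvd_prime_iff_eq hqp hp).mp (hqp.dvd_of_dvd_pow h))
        rw [hGPK, Nat.factorization_mul Nat.card_pos.ne' Nat.card_pos.ne', Finsupp.add_apply, hkP,
          Nat.factorization_eq_zero_of_not_dvd hnd, zero_add]
      omega
    have h6 : q ^ (Nat.card NP).factorization q * q ^ n.factorization q ≡
        q ^ (Nat.card NP).factorization q * 1 [MOD p] := by
      rw [← pow_add, hNPK, mul_one]; exact h3
    exact Nat.ModEq.cancel_left_of_coprime (Nat.Coprime.pow_right _ hcopqp.symm) h6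
  refine ⟨n.primeFactors.toList.map (fun q => q ^ n.factorization q), ?_, ?_⟩
  · rw [Finset.prod_map_toList, ← Nat.prod_factorization_eq_prod_primeFactors (fun q e => q ^ e)]
    exact Nat.prod_factorization_pow_eq_self hn0
  · intro m hm
    obtain ⟨q, hq, rfl⟩ := List.mem_map.mp hm
    rw [Finset.mem_toList] at hq
    left
    have hqp : q.Prime := Nat.prime_of_mem_primeFactors hq
    have hqn : q ∣ n := Nat.dvd_of_mem_primeFactors hq
    refine ⟨(isPrimePow_nat_iff _).mpr ⟨q, n.factorization q, hqp,
      hqp.factorization_pos_of_dvd hn0 hqn, rfl⟩, ?_⟩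
    have h := key q hq
    rw [Nat.ModEq, Nat.mod_eq_of_lt hp.one_lt] at h
    exact h

/-- M. Hall's theorem on the number of Sylow subgroups. -/
theorem fac_all (p : ℕ) [Fact p.Prime] : ∀ N : ℕ, ∀ (G : Type u) [Group G] [Finite G],
    Nat.card G ≤ N → Fac.{u} p (Nat.card (Sylow p G)) := by
  intro N
  induction N with
  | zero =>
    intro G _ _ h
    have := Nat.card_pos (α := G)
    omega
  | succ N ih =>
    intro G _ _ hcard
    by_cases hsimple : IsSimpleGroup G
    · exact ⟨[Nat.card (Sylow p G)], by simp, fun m hm => by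
        rw [List.mem_singleton] at hm
        exact Or.inr ⟨G, inferInstance, inferInstance, hsimple, hm⟩⟩
    by_cases htriv : Subsingleton G
    · have h1 : Nat.card (Sylow p G) = 1 := by
        have hsub : Subsingleton (Sylow p G) := by
          constructor
          intro P Q
          apply Sylow.ext
          exact Subsingleton.elim _ _
        rw [Nat.card_eq_one_iff_unique]
        exact ⟨hsub, inferInstance⟩
      rw [h1]; exact fac_one p
    have hnt : Nontrivial G := not_subsingleton_iff_nontrivial.mp htriv
    obtain ⟨K, hKn, hKbot, hKtop⟩ : ∃ K : Subgroup G, K.Normal ∧ K ≠ ⊥ ∧ K ≠ ⊤ := by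
      by_contra hcon
      push Not at hcon
      apply hsimple
      exact { toNontrivial := hnt
              eq_bot_or_eq_top_of_normal := fun H hH => by
                by_contra h
                push Not at h
                exact h.2 (hcon H hH h.1) }
    obtain ⟨P⟩ : Nonempty (Sylow p G) := inferInstance
    have hK2 : 2 ≤ Nat.card K := Cfsg.Agent.Lib_helper1_SZConj.two_le_card_of_ne_bot K hKbot
    have hKlt : Nat.card K < Nat.card G := Cfsg.Agent.Lib_helper1_SZConj.card_lt_of_ne_top K hKtop
    have hQlt : Nat.card (G ⧸ K) < Nat.card G := by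
      have h1 := Subgroup.card_eq_card_quotient_mul_card_subgroup K
      have h3 : 0 < Nat.card (G ⧸ K) := Nat.card_pos
      nlinarith
    have ihQ : Fac.{u} p (Nat.card (Sylow p (G ⧸ K))) := ih (G ⧸ K) (by omega)
    have ihK : Fac.{u} p (Nat.card (Sylow p K)) := ih K (by omega)
    by_cases hsplit : (P : Subgroup G) ⊔ K = ⊤ ∧ (P : Subgroup G) ⊓ K = ⊥
    · exact fac_split p P K hsplit.1 hsplit.2
    · set Nn : Subgroup G := ((P : Subgroup G) ⊔ K) ⊓
        Subgroup.normalizer (((P : Subgroup G) ⊓ K : Subgroup G) : Set G) with hNn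
      have hQle : (P : Subgroup G) ⊓ K ≤ Nn :=
        le_inf (inf_le_left.trans le_sup_left) Subgroup.le_normalizer
      have hnorm : (((P : Subgroup G) ⊓ K).subgroupOf Nn).Normal :=
        (Subgroup.normal_subgroupOf_iff_le_normalizer hQle).mpr inf_le_right
      have h := Cfsg.Agent.S4341.result p K P Nn hNn
      rw [h]
      refine fac_mul (fac_mul ihQ ihK) (ih _ ?_)
      have h1 := Subgroup.card_eq_card_quotient_mul_card_subgroup
        (((P : Subgroup G) ⊓ K).subgroupOf Nn)
      have h2 : Nat.card (((P : Subgroup G) ⊓ K).subgroupOf Nn) =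
          Nat.card ((P : Subgroup G) ⊓ K : Subgroup G) :=
        Nat.card_congr (Subgroup.subgroupOfEquivOfLe hQle).toEquiv
      have h3 : 0 < Nat.card (Nn ⧸ ((P : Subgroup G) ⊓ K).subgroupOf Nn) := Nat.card_pos
      have h4 : Nat.card Nn ≤ Nat.card G := Subgroup.card_le_card_group Nn
      have h5 : 0 < Nat.card ((P : Subgroup G) ⊓ K : Subgroup G) := Nat.card_pos
      rcases not_and_or.mp hsplit with h6 | h6
      · have h7 : Nat.card Nn < Nat.card G := by
          have h8 : Nat.card Nn ≤ Nat.card ((P : Subgroup G) ⊔ K : Subgroup G) :=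
            Subgroup.card_le_of_le inf_le_left
          have h9 := Cfsg.Agent.Lib_helper1_SZConj.card_lt_of_ne_top _ h6
          omega
        have h10 : Nat.card (Nn ⧸ ((P : Subgroup G) ⊓ K).subgroupOf Nn) ≤ Nat.card Nn := by
          rw [h1]; exact Nat.le_mul_of_pos_right _ (by rw [h2]; exact h5)
        omega
      · have h7 := Cfsg.Agent.Lib_helper1_SZConj.two_le_card_of_ne_bot _ h6
        rw [h2] at h1
        have h10 : Nat.card (Nn ⧸ ((P : Subgroup G) ⊓ K).subgroupOf Nn) < Nat.card Nn := by
          nlinarith
        omega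

end Cfsg.Agent.Lib_helper6_MHall
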