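import Mathlib
import Cfsg.Agent.Lib_helper6_Sylow

set_option autoImplicit false

namespace Cfsg.Agent.Lib_helper6_PCover

open Cfsg.Agent.Lib_helper6_Sylow

universe u

variable {G : Type*} [Group G]

/-- subgroup generated by the `p`-elements of `T` -/
def pgen (p : ℕ) (T : Subgroup G) : Subgroup G :=
  Subgroup.closure {g : G | g ∈ T ∧ ∃ k : ℕ, orderOf g = p ^ k}

theorem pgen_le (p : ℕ) (T : Subgroup G) : pgen p T ≤ T := by
  unfold pgen
  rw [Subgroup.closure_le]
  intro g hg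
  exact hg.1

theorem pgen_mono (p : ℕ) {T T' : Subgroup G} (h : T ≤ T') : pgen p T ≤ pgen p T' := by
  unfold pgen
  apply Subgroup.closure_mono
  intro g hg
  exact ⟨h hg.1, hg.2⟩

theorem mem_pgen (p : ℕ) {T : Subgroup G} {g : G} (hg : g ∈ T) (hp : ∃ k : ℕ, orderOf g = p ^ k) :
    g ∈ pgen p T :=
  Subgroup.subset_closure ⟨hg, hp⟩

theorem pgen_idem (p : ℕ) (T : Subgroup G) : pgen p (pgen p T) = pgen p T := by
  apply le_antisymm (pgen_le p _)
  intro y hy
  have h1 : {g : G | g ∈ T ∧ ∃ k : ℕ, orderOf g = p ^ k} ⊆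
      {g : G | g ∈ pgen p T ∧ ∃ k : ℕ, orderOf g = p ^ k} :=
    fun g hg => ⟨Subgroup.subset_closure hg, hg.2⟩
  exact Subgroup.closure_mono h1 hy

theorem pgen_map_conj (p : ℕ) (T : Subgroup G) (g : G) :
    pgen p (T.map (MulAut.conj g).toMonoidHom) = (pgen p T).map (MulAut.conj g).toMonoidHom := by
  unfold pgen
  rw [MonoidHom.map_closure]
  congr 1
  ext y
  simp only [Set.mem_setOf_eq, Set.mem_image, Subgroup.mem_map]
  constructor
  · rintro ⟨⟨z, hz, rfl⟩, k, hk⟩
    refine ⟨z, ⟨hz, k, ?_⟩, rfl⟩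
    rw [← hk]
    exact (MulEquiv.orderOf_eq (MulAut.conj g) z).symm
  · rintro ⟨z, ⟨hz, k, hk⟩, rfl⟩
    refine ⟨⟨z, hz, rfl⟩, k, ?_⟩
    rw [← hk]
    exact MulEquiv.orderOf_eq (MulAut.conj g) z

theorem closure_subtype_eq_top (p : ℕ) (T : Subgroup G) (hT : pgen p T = T) :
    Subgroup.closure {g : ↥T | ∃ k : ℕ, orderOf g = p ^ k} = ⊤ := by
  apply Subgroup.map_injective T.subtype_injective
  rw [MonoidHom.map_closure, ← MonoidHom.range_eq_map, Subgroup.range_subtype]
  conv_rhs => rw [← hT]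
  unfold pgen
  congr 1
  ext y
  simp only [Set.mem_image, Set.mem_setOf_eq]
  constructor
  · rintro ⟨z, ⟨k, hk⟩, rfl⟩
    refine ⟨z.2, k, ?_⟩
    rw [← hk]
    simp
  · rintro ⟨hy, k, hk⟩
    refine ⟨⟨y, hy⟩, ⟨k, ?_⟩, rfl⟩
    rw [← hk, Subgroup.orderOf_mk]

/-- a map of `p`-power order on a set of at most `p` points with a fixed point fixes all -/
theorem fix_of_card_le {α : Type*} [DecidableEq α] (f : α → α) (hf : Function.Injective f)
    (s : Finset α) (hs : ∀ a ∈ s, f a ∈ s) (p : ℕ) [Fact p.Prime] (k : ℕ)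
    (hk : ∀ a, f^[p ^ k] a = a) (hcard : s.card ≤ p) (a0 : α) (ha0 : a0 ∈ s) (hfix : f a0 = a0) :
    ∀ a ∈ s, f a = a := by
  intro a ha
  by_contra hne
  have hp : p.Prime := Fact.out
  have h1 : Function.minimalPeriod f a ∣ p ^ k :=
    Function.IsPeriodicPt.minimalPeriod_dvd (hk a)
  obtain ⟨j, hj, hjeq⟩ := (Nat.dvd_prime_pow hp).mp h1
  have hj0 : j ≠ 0 := by
    rintro rfl
    rw [pow_zero] at hjeq
    exact hne (Function.minimalPeriod_eq_one_iff_isFixedPt.mp hjeq)
  have hple : p ≤ Function.minimalPeriod f a := by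
    rw [hjeq]
    calc p = p ^ 1 := (pow_one p).symm
      _ ≤ p ^ j := Nat.pow_le_pow_right hp.pos (Nat.one_le_iff_ne_zero.mpr hj0)
  have hinj : Set.InjOn (fun i => f^[i] a) (Finset.range p : Set ℕ) := by
    intro i hi j' hj' hij
    apply Function.iterate_injOn_Iio_minimalPeriod (f := f) (x := a)
    · exact lt_of_lt_of_le (Finset.mem_range.mp hi) hple
    · exact lt_of_lt_of_le (Finset.mem_range.mp hj') hple
    · exact hij
  have hmem : ∀ i : ℕ, f^[i] a ∈ s := by
    intro i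
    induction i with
    | zero => exact ha
    | succ i ih =>
      rw [Function.iterate_succ_apply']
      exact hs _ ih
  have hsub : (Finset.range p).image (fun i => f^[i] a) ⊆ s.erase a0 := by
    intro b hb
    obtain ⟨i, _, rfl⟩ := Finset.mem_image.mp hb
    rw [Finset.mem_erase]
    constructor
    · intro hc
      have h2 : f^[i] a0 = a0 := Function.iterate_fixed hfix i
      have h3 : f^[i] a = f^[i] a0 := by rw [h2]; exact hc
      have h4 : a = a0 := (hf.iterate i) h3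
      apply hne
      rw [h4]
      exact hfix
    · exact hmem i
  have h5 := Finset.card_le_card hsub
  rw [Finset.card_image_of_injOn hinj, Finset.card_range, Finset.card_erase_of_mem ha0] at h5
  have hp2 := hp.two_le
  omega

/-- a `p`-subgroup covered by at most `p` subgroups lies in one of them -/
theorem exists_le_of_cover [Finite G] (p : ℕ) [Fact p.Prime] (P : Subgroup G) (hP : IsPGroup p P)
    (s : Finset (Subgroup G)) (hs : s.card ≤ p) (hcov : ∀ x ∈ P, ∃ M ∈ s, x ∈ M) :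
    ∃ M ∈ s, P ≤ M := by
  classical
  by_contra hcon
  push Not at hcon
  have hp : p.Prime := Fact.out
  obtain ⟨a, ha⟩ := IsPGroup.iff_card.mp hP
  -- each intersection is small
  have hsmall : ∀ M ∈ s, p * Nat.card (P ⊓ M : Subgroup G) ≤ Nat.card P := by
    intro M hM
    have h1 : Nat.card (P ⊓ M : Subgroup G) ∣ Nat.card P := Subgroup.card_dvd_of_le inf_le_left
    rw [ha] at h1
    obtain ⟨b, hb, hbeq⟩ := (Nat.dvd_prime_pow hp).mp h1
    have hba : b ≠ a := by
      rintro rfl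
      apply hcon M hM
      have h2 : P ⊓ M = P := by
        apply Subgroup.eq_of_le_of_card_ge inf_le_left
        rw [hbeq, ha]
      rw [← h2]
      exact inf_le_right
    have hlt : b + 1 ≤ a := by omega
    rw [hbeq, ha, ← pow_succ']
    exact Nat.pow_le_pow_right hp.pos hlt
  haveI : Fintype G := Fintype.ofFinite G
  let F : Subgroup G → Finset G := fun M => Finset.univ.filter (fun x => x ∈ M)
  have hF : ∀ M : Subgroup G, (F M).card = Nat.card M := by
    intro M
    rw [Nat.card_eq_fintype_card, Fintype.card_subtype]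
  have hone : ∀ M : Subgroup G, (1 : G) ∈ F M := by
    intro M
    simp [F]
  have hsub : (F P).erase 1 ⊆ s.biUnion (fun M => (F (P ⊓ M)).erase 1) := by
    intro x hx
    rw [Finset.mem_erase] at hx
    have hxP : x ∈ P := by
      have := hx.2
      simpa [F] using this
    obtain ⟨M, hM, hxM⟩ := hcov x hxP
    rw [Finset.mem_biUnion]
    refine ⟨M, hM, ?_⟩
    rw [Finset.mem_erase]
    refine ⟨hx.1, ?_⟩
    simp only [F, Finset.mem_filter, Finset.mem_univ, true_and]
    exact ⟨hxP, hxM⟩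
  have h1 := Finset.card_le_card hsub
  have h2 := Finset.card_biUnion_le (s := s) (t := fun M => (F (P ⊓ M)).erase 1)
  rw [Finset.card_erase_of_mem (hone P), hF] at h1
  have h3 : ∑ M ∈ s, ((F (P ⊓ M)).erase 1).card = ∑ M ∈ s, (Nat.card (P ⊓ M : Subgroup G) - 1) := by
    apply Finset.sum_congr rfl
    intro M _
    rw [Finset.card_erase_of_mem (hone _), hF]
  rw [h3] at h2
  -- s nonempty
  obtain ⟨M0, hM0, _⟩ := hcov 1 P.one_mem
  have hcP : p ≤ Nat.card P := by
    have h4 := hsmall M0 hM0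
    have h5 : 0 < Nat.card (P ⊓ M0 : Subgroup G) := Nat.card_pos
    calc p = p * 1 := (mul_one p).symm
      _ ≤ p * Nat.card (P ⊓ M0 : Subgroup G) := Nat.mul_le_mul_left p h5
      _ ≤ Nat.card P := h4
  have h6 : p * ∑ M ∈ s, (Nat.card (P ⊓ M : Subgroup G) - 1) ≤ s.card * (Nat.card P - p) := by
    rw [Finset.mul_sum]
    have h7 : ∀ M ∈ s, p * (Nat.card (P ⊓ M : Subgroup G) - 1) ≤ Nat.card P - p := by
      intro M hM
      rw [Nat.mul_sub_one]
      exact Nat.sub_le_sub_right (hsmall M hM) p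
    have h8 := Finset.sum_le_card_nsmul s _ _ h7
    simpa [smul_eq_mul] using h8
  have h9 : p * (Nat.card P - 1) ≤ p * (Nat.card P - p) := by
    calc p * (Nat.card P - 1) ≤ p * ∑ M ∈ s, (Nat.card (P ⊓ M : Subgroup G) - 1) :=
          Nat.mul_le_mul_left p (h1.trans h2)
      _ ≤ s.card * (Nat.card P - p) := h6
      _ ≤ p * (Nat.card P - p) := Nat.mul_le_mul_right _ hs
  have h10 := Nat.le_of_mul_le_mul_left h9 hp.pos
  have hp2 := hp.two_le
  omega

open Cfsg.Agent.Lib_helper6_Conj in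
theorem key (p : ℕ) [Fact p.Prime] (n : ℕ) : ∀ (G : Type u) [Group G] [Finite G], Nat.card G = n →
    Subgroup.closure {g : G | ∃ k : ℕ, orderOf g = p ^ k} = ⊤ →
    ∀ 𝒦 : Finset (Subgroup G), 𝒦.card ≤ p →
      (∀ g : G, (∃ k : ℕ, orderOf g = p ^ k) → ∃ K ∈ 𝒦, g ∈ K) → ⊤ ∈ 𝒦 := by
  induction n using Nat.strong_induction_on with
  | _ n ih =>
  intro G _ _ hn hgen 𝒦 hcard hcov
  classical
  by_contra htop
  have hp : p.Prime := Fact.out
  have stepA : ∀ T : Subgroup G, pgen p T = T → T ≠ ⊤ → ∃ K ∈ 𝒦, T ≤ K := by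
    intro T hT hTtop
    have hlt : Nat.card T < n := by
      rw [← hn]
      apply lt_of_le_of_ne (Subgroup.card_le_card_group T)
      intro hc
      exact hTtop (Subgroup.eq_top_of_card_eq T hc)
    have h1 := ih (Nat.card T) hlt ↥T rfl (closure_subtype_eq_top p T hT)
      (𝒦.image (fun K => K.subgroupOf T)) (Finset.card_image_le.trans hcard)
      (by
        intro g hg
        obtain ⟨k, hk⟩ := hg
        obtain ⟨K, hK, hgK⟩ := hcov (g : G) ⟨k, by rw [← hk, Subgroup.orderOf_coe]⟩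
        exact ⟨K.subgroupOf T, Finset.mem_image_of_mem _ hK, by
          rw [Subgroup.mem_subgroupOf]; exact hgK⟩)
    obtain ⟨K, hK, hKtop⟩ := Finset.mem_image.mp h1
    exact ⟨K, hK, Subgroup.subgroupOf_eq_top.mp hKtop⟩
  let Pr : Subgroup G → Prop := fun T => pgen p T = T ∧ T ≠ ⊤
  have hB1 : ∀ M, Maximal Pr M → M ∈ 𝒦.image (pgen p) := by
    intro M hM
    obtain ⟨K, hK, hMK⟩ := stepA M hM.1.1 hM.1.2
    have h1 : M ≤ pgen p K := by
      have h0 := pgen_mono p hMK
      rwa [hM.1.1] at h0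
    have h2 : Pr (pgen p K) := ⟨pgen_idem p K, fun hc => htop (by
      have h0 : K = ⊤ := top_le_iff.mp (hc ▸ pgen_le p K)
      rw [← h0]
      exact hK)⟩
    have h3 : pgen p K ≤ M := hM.2 h2 h1
    rw [Finset.mem_image]
    exact ⟨K, hK, le_antisymm h3 h1⟩
  let 𝓜 : Finset (Subgroup G) := (𝒦.image (pgen p)).filter (fun M => Maximal Pr M)
  have hmem𝓜 : ∀ M, M ∈ 𝓜 ↔ Maximal Pr M := by
    intro M
    simp only [𝓜, Finset.mem_filter]
    exact ⟨fun h => h.2, fun h => ⟨hB1 M h, h⟩⟩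
  have hcard𝓜 : 𝓜.card ≤ p :=
    (Finset.card_filter_le _ _).trans (Finset.card_image_le.trans hcard)
  have hB2 : ∀ T, Pr T → ∃ M ∈ 𝓜, T ≤ M := by
    intro T hT
    obtain ⟨M, hTM, hM⟩ := Finite.exists_le_maximal (p := Pr) hT
    exact ⟨M, (hmem𝓜 M).mpr hM, hTM⟩
  have hPrconj : ∀ (g : G) (T : Subgroup G), Pr T → Pr (T.map (MulAut.conj g).toMonoidHom) := by
    intro g T hT
    refine ⟨by rw [pgen_map_conj, hT.1], ?_⟩
    intro hc
    apply hT.2
    have h0 := conjMap_inv_conjMap T g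
    rw [hc] at h0
    rw [← h0, eq_top_iff]
    intro x _
    rw [mem_conjMap]
    trivial
  have hB3 : ∀ (g : G) (M : Subgroup G), M ∈ 𝓜 → M.map (MulAut.conj g).toMonoidHom ∈ 𝓜 := by
    intro g M hM
    rw [hmem𝓜] at hM ⊢
    refine ⟨hPrconj g M hM.1, ?_⟩
    intro T hT hle
    have h1 : M ≤ T.map (MulAut.conj g⁻¹).toMonoidHom := by
      have h0 := Subgroup.map_mono (f := (MulAut.conj g⁻¹).toMonoidHom) hle
      rwa [conjMap_inv_conjMap] at h0
    have h2 := hM.2 (hPrconj g⁻¹ T hT) h1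
    have h0 := Subgroup.map_mono (f := (MulAut.conj g).toMonoidHom) h2
    rwa [conjMap_conjMap_inv] at h0
  have hcov𝓜 : ∀ x : G, (∃ k : ℕ, orderOf x = p ^ k) → ∃ M ∈ 𝓜, x ∈ M := by
    intro x hx
    have h1 : Pr (Subgroup.zpowers x) := by
      constructor
      · apply le_antisymm (pgen_le p _)
        rw [Subgroup.zpowers_le]
        exact mem_pgen p (Subgroup.mem_zpowers x) hx
      · intro hc
        obtain ⟨K, hK, hxK⟩ := hcov x hx
        have h0 : K = ⊤ := by
          rw [eq_top_iff, ← hc, Subgroup.zpowers_le]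
          exact hxK
        exact htop (h0 ▸ hK)
    obtain ⟨M, hM, hle⟩ := hB2 _ h1
    exact ⟨M, hM, hle (Subgroup.mem_zpowers x)⟩
  have stepC : ∀ x : G, (∃ k : ℕ, orderOf x = p ^ k) →
      ∀ M ∈ 𝓜, M.map (MulAut.conj x).toMonoidHom = M := by
    intro x hx
    obtain ⟨M0, hM0, hxM0⟩ := hcov𝓜 x hx
    obtain ⟨k, hk⟩ := hx
    have hiter : ∀ (i : ℕ) (T : Subgroup G),
        (fun T : Subgroup G => T.map (MulAut.conj x).toMonoidHom)^[i] T =
          T.map (MulAut.conj (x ^ i)).toMonoidHom := by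
      intro i
      induction i with
      | zero =>
        intro T
        rw [Function.iterate_zero, id, pow_zero, conjMap_one]
      | succ i ih =>
        intro T
        rw [Function.iterate_succ_apply', ih, ← conjMap_mul, ← pow_succ']
    apply fix_of_card_le (fun T : Subgroup G => T.map (MulAut.conj x).toMonoidHom) _ 𝓜 (hB3 x) p k
      _ hcard𝓜 M0 hM0
    · exact conjMap_of_mem hxM0
    · intro T T' hTT'
      have h0 := congrArg (fun T : Subgroup G => T.map (MulAut.conj x⁻¹).toMonoidHom) hTT'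
      simp only [conjMap_inv_conjMap] at h0
      exact h0
    · intro T
      rw [hiter, ← hk, pow_orderOf_eq_one, conjMap_one]
  have stepD : ∀ g : G, ∀ M ∈ 𝓜, M.map (MulAut.conj g).toMonoidHom = M := by
    intro g
    have hg : g ∈ Subgroup.closure {g : G | ∃ k : ℕ, orderOf g = p ^ k} := by
      rw [hgen]
      trivial
    induction hg using Subgroup.closure_induction with
    | mem x hx => exact stepC x hx
    | one =>
      intro M _
      exact conjMap_one M
    | mul a b _ _ iha ihb =>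
      intro M hM
      rw [conjMap_mul, ihb M hM, iha M hM]
    | inv a _ iha =>
      intro M hM
      have h0 := congrArg (fun T : Subgroup G => T.map (MulAut.conj a⁻¹).toMonoidHom) (iha M hM)
      simp only [conjMap_inv_conjMap] at h0
      exact h0.symm
  obtain ⟨P⟩ : Nonempty (Sylow p G) := inferInstance
  obtain ⟨M1, hM1, hPM1⟩ := exists_le_of_cover p (P : Subgroup G) P.2 𝓜 hcard𝓜
    (fun x hx => hcov𝓜 x (pElem_of_mem_sylow P hx))
  have hall : Subgroup.closure {g : G | ∃ k : ℕ, orderOf g = p ^ k} ≤ M1 := by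
    rw [Subgroup.closure_le]
    intro x hx
    obtain ⟨Q, hxQ⟩ := pElem_mem_sylow hx
    obtain ⟨g, hg⟩ := sylow_conj' P Q
    have h1 : (Q : Subgroup G) ≤ M1 := by
      rw [hg, ← stepD g M1 hM1]
      exact Subgroup.map_mono hPM1
    exact h1 hxQ
  rw [hgen] at hall
  exact ((hmem𝓜 M1).mp hM1).1.2 (top_le_iff.mp hall)

theorem cover_card (p : ℕ) [Fact p.Prime] {G : Type u} [Group G] [Finite G]
    (hgen : Subgroup.closure {g : G | ∃ k : ℕ, orderOf g = p ^ k} = ⊤)
    {ι : Type*} [Fintype ι] (K : ι → Subgroup G) (hK : ∀ i, K i ≠ ⊤)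
    (hcov : ∀ g : G, (∃ k : ℕ, orderOf g = p ^ k) → ∃ i, g ∈ K i) :
    p + 1 ≤ Fintype.card ι := by
  classical
  by_contra hlt
  have hle : Fintype.card ι ≤ p := by omega
  have h1 := key p (Nat.card G) G rfl hgen (Finset.univ.image K)
    (Finset.card_image_le.trans (by rw [Finset.card_univ]; exact hle))
    (by
      intro g hg
      obtain ⟨i, hi⟩ := hcov g hg
      exact ⟨K i, Finset.mem_image_of_mem _ (Finset.mem_univ i), hi⟩)
  obtain ⟨i, _, hi⟩ := Finset.mem_image.mp h1
  exact hK i hi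

end Cfsg.Agent.Lib_helper6_PCover
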