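import Mathlib
import Cfsg.Agent.Lib_helper6_Sylow

set_option autoImplicit false
universe u

namespace Cfsg.Agent.Lib_helper6_PiClass

open scoped BigOperators

theorem orderOf_eq_of_mk_eq {G : Type*} [Group G] {g h : G}
    (e : ConjClasses.mk g = ConjClasses.mk h) : orderOf g = orderOf h := by
  obtain ⟨c, hc⟩ := isConj_iff.mp (ConjClasses.mk_eq_mk_iff_isConj.mp e)
  rw [← hc]
  exact ((MulAut.conj c).orderOf_eq g).symm

/-- decomposition of an element into a `p`-part and a `p'`-part -/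
theorem exists_p_decomp {G : Type*} [Group G] [Finite G] (p : ℕ) [Fact p.Prime] (g : G) :
    ∃ x u : G, g = x * u ∧ x * u = u * x ∧ (∃ a : ℕ, x ^ (p ^ a) = 1) ∧ ¬ p ∣ orderOf u ∧
      orderOf u ∣ orderOf g := by
  have hp : p.Prime := Fact.out
  obtain ⟨a, m, hm, hom⟩ := Nat.exists_eq_pow_mul_and_not_dvd (orderOf_pos g).ne' p hp.ne_one
  have hcop : IsCoprime (m : ℤ) ((p ^ a : ℕ) : ℤ) := by
    rw [Nat.isCoprime_iff_coprime]
    exact (Nat.Coprime.pow_left a ((Nat.Prime.coprime_iff_not_dvd hp).mpr hm)).symm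
  obtain ⟨s, t, hst⟩ := hcop
  have hu : ∀ z : ℤ, (g ^ z) ^ orderOf g = 1 := by
    intro z
    rw [← zpow_natCast, ← zpow_mul, zpow_mul', zpow_natCast, pow_orderOf_eq_one, one_zpow]
  refine ⟨g ^ (s * m), g ^ (t * ((p ^ a : ℕ) : ℤ)), ?_, ?_, ⟨a, ?_⟩, ?_, ?_⟩
  · rw [← zpow_add, hst, zpow_one]
  · rw [← zpow_add, ← zpow_add, add_comm]
  · rw [← zpow_natCast, ← zpow_mul, mul_assoc, ← Nat.cast_mul, mul_comm m, ← hom, zpow_mul',
      zpow_natCast, pow_orderOf_eq_one, one_zpow]
  · intro hpu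
    have h1 : (g ^ (t * ((p ^ a : ℕ) : ℤ))) ^ m = 1 := by
      rw [← zpow_natCast, ← zpow_mul, mul_assoc, ← Nat.cast_mul, ← hom, zpow_mul',
        zpow_natCast, pow_orderOf_eq_one, one_zpow]
    exact hm (dvd_trans hpu (orderOf_dvd_of_pow_eq_one h1))
  · exact orderOf_dvd_of_pow_eq_one (hu _)

/-- The number of conjugacy classes of `T`-elements is at most the `T`-part of the group
order. -/
theorem card_classes_le (T : Finset ℕ) (hT : ∀ q ∈ T, q.Prime) :
    ∀ (G : Type u) [Group G] [Finite G],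
      Nat.card {C : ConjClasses G // ∀ q : ℕ, q.Prime →
        (∃ g : G, ConjClasses.mk g = C ∧ q ∣ orderOf g) → q ∈ T} ≤
        ∏ q ∈ T, q ^ (Nat.card G).factorization q := by
  classical
  induction T using Finset.induction_on with
  | empty =>
    intro G _ _
    rw [Finset.prod_empty, Finite.card_le_one_iff_subsingleton]
    constructor
    rintro ⟨C, hC⟩ ⟨D, hD⟩
    apply Subtype.ext
    have key : ∀ (E : ConjClasses G), (∀ q : ℕ, q.Prime →
        (∃ g : G, ConjClasses.mk g = E ∧ q ∣ orderOf g) → q ∈ (∅ : Finset ℕ)) →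
        E = ConjClasses.mk 1 := by
      intro E hE
      obtain ⟨g, rfl⟩ := ConjClasses.exists_rep E
      have h1 : orderOf g = 1 := by
        by_contra hne
        obtain ⟨q, hq, hqd⟩ := Nat.exists_prime_and_dvd hne
        exact absurd (hE q hq ⟨g, rfl, hqd⟩) (Finset.notMem_empty q)
      rw [orderOf_eq_one_iff] at h1
      rw [h1]
    exact (key C hC).trans (key D hD).symm
  | insert p T' hpT' ih =>
    intro G _ _
    have hpp : p.Prime := hT p (Finset.mem_insert_self p T')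
    have : Fact p.Prime := ⟨hpp⟩
    have hT' : ∀ q ∈ T', q.Prime := fun q hq => hT q (Finset.mem_insert_of_mem hq)
    have ih' := ih hT'
    obtain ⟨P⟩ : Nonempty (Sylow p G) := inferInstance
    let β : P → Type u := fun x =>
      {D : ConjClasses (Subgroup.centralizer ({(x : G)} : Set G)) // ∀ q : ℕ, q.Prime →
        (∃ g, ConjClasses.mk g = D ∧ q ∣ orderOf g) → q ∈ T'}
    have hmem : ∀ (x : P) (D : β x), ∀ q : ℕ, q.Prime →
        (∃ g : G, ConjClasses.mk g = ConjClasses.mk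
          ((x : G) * (((ConjClasses.exists_rep D.1).choose :
            Subgroup.centralizer ({(x : G)} : Set G)) : G)) ∧ q ∣ orderOf g) →
        q ∈ insert p T' := by
      intro x D q hq hex
      obtain ⟨g, hg, hqd⟩ := hex
      set u := (ConjClasses.exists_rep D.1).choose with hu
      have hus : ConjClasses.mk u = D.1 := (ConjClasses.exists_rep D.1).choose_spec
      rw [orderOf_eq_of_mk_eq hg] at hqd
      have hcomm : Commute (x : G) (u : G) :=
        (Subgroup.mem_centralizer_iff.mp u.2) (x : G) (Set.mem_singleton _)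
      have h1 := dvd_trans hqd hcomm.orderOf_mul_dvd_mul_orderOf
      rcases (Nat.Prime.dvd_mul hq).mp h1 with h2 | h2
      · obtain ⟨k, hk⟩ := Lib_helper6_Sylow.pElem_of_mem_sylow P x.2
        rw [hk] at h2
        have h3 := (Nat.prime_dvd_prime_iff_eq hq hpp).mp (hq.dvd_of_dvd_pow h2)
        rw [h3]; exact Finset.mem_insert_self p T'
      · rw [Subgroup.orderOf_coe] at h2
        exact Finset.mem_insert_of_mem (D.2 q hq ⟨u, hus, h2⟩)
    let Ψ : (Σ x : P, β x) → {C : ConjClasses G // ∀ q : ℕ, q.Prime →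
        (∃ g : G, ConjClasses.mk g = C ∧ q ∣ orderOf g) → q ∈ insert p T'} :=
      fun z => ⟨ConjClasses.mk ((z.1 : G) * (((ConjClasses.exists_rep z.2.1).choose :
            Subgroup.centralizer ({(z.1 : G)} : Set G)) : G)), hmem z.1 z.2⟩
    have hsurj : Function.Surjective Ψ := by
      rintro ⟨C, hC⟩
      obtain ⟨g, rfl⟩ := ConjClasses.exists_rep C
      obtain ⟨x₀, u₀, hg, hcomm, ⟨a, hxa⟩, hpu, hug⟩ := exists_p_decomp p g
      obtain ⟨k, -, hk⟩ := (Nat.dvd_prime_pow hpp).mp (orderOf_dvd_of_pow_eq_one hxa)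
      obtain ⟨Q, hQ⟩ := Lib_helper6_Sylow.pElem_mem_sylow (p := p) ⟨k, hk⟩
      obtain ⟨c, hc⟩ := Lib_helper6_Sylow.sylow_conj P Q
      have hxP : c⁻¹ * x₀ * c ∈ (P : Subgroup G) := (hc x₀).mp hQ
      have huC : c⁻¹ * u₀ * c ∈ Subgroup.centralizer ({c⁻¹ * x₀ * c} : Set G) := by
        rw [Subgroup.mem_centralizer_iff]
        intro h hh
        rw [Set.mem_singleton_iff] at hh
        rw [hh]
        calc c⁻¹ * x₀ * c * (c⁻¹ * u₀ * c) = c⁻¹ * (x₀ * u₀) * c := by group
          _ = c⁻¹ * (u₀ * x₀) * c := by rw [hcomm]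
          _ = c⁻¹ * u₀ * c * (c⁻¹ * x₀ * c) := by group
      have hord : orderOf (⟨c⁻¹ * u₀ * c, huC⟩ :
          Subgroup.centralizer ({c⁻¹ * x₀ * c} : Set G)) = orderOf u₀ := by
        rw [← Subgroup.orderOf_coe]
        show orderOf (c⁻¹ * u₀ * c) = orderOf u₀
        have := (MulAut.conj c⁻¹).orderOf_eq u₀
        simpa using this
      have hD : ∀ q : ℕ, q.Prime → (∃ w, ConjClasses.mk w = ConjClasses.mk
          (⟨c⁻¹ * u₀ * c, huC⟩ : Subgroup.centralizer ({c⁻¹ * x₀ * c} : Set G)) ∧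
          q ∣ orderOf w) → q ∈ T' := by
        rintro q hq ⟨w, hw, hqw⟩
        rw [orderOf_eq_of_mk_eq hw, hord] at hqw
        have h1 := hC q hq ⟨g, rfl, dvd_trans hqw hug⟩
        rcases Finset.mem_insert.mp h1 with h2 | h2
        · exact absurd (h2 ▸ hqw) hpu
        · exact h2
      refine ⟨⟨⟨c⁻¹ * x₀ * c, hxP⟩, ⟨ConjClasses.mk ⟨c⁻¹ * u₀ * c, huC⟩, hD⟩⟩, ?_⟩
      apply Subtype.ext
      show ConjClasses.mk ((c⁻¹ * x₀ * c) * (((ConjClasses.exists_rep (ConjClasses.mk
        (⟨c⁻¹ * u₀ * c, huC⟩ : Subgroup.centralizer ({c⁻¹ * x₀ * c} : Set G)))).choose :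
          Subgroup.centralizer ({c⁻¹ * x₀ * c} : Set G)) : G)) = ConjClasses.mk g
      set rep := (ConjClasses.exists_rep (ConjClasses.mk
        (⟨c⁻¹ * u₀ * c, huC⟩ : Subgroup.centralizer ({c⁻¹ * x₀ * c} : Set G)))).choose with hrep
      have hreps : ConjClasses.mk rep = ConjClasses.mk
          (⟨c⁻¹ * u₀ * c, huC⟩ : Subgroup.centralizer ({c⁻¹ * x₀ * c} : Set G)) :=
        (ConjClasses.exists_rep _).choose_spec
      obtain ⟨c', hc'⟩ := isConj_iff.mp (ConjClasses.mk_eq_mk_iff_isConj.mp hreps)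
      have hc'G : (c' : G) * (rep : G) * (c' : G)⁻¹ = c⁻¹ * u₀ * c := by
        have := congrArg Subtype.val hc'
        simpa using this
      have hc'x : (c⁻¹ * x₀ * c) * (c' : G) = (c' : G) * (c⁻¹ * x₀ * c) :=
        (Subgroup.mem_centralizer_iff.mp c'.2) _ (Set.mem_singleton _)
      apply ConjClasses.mk_eq_mk_iff_isConj.mpr
      apply isConj_iff.mpr
      refine ⟨c * (c' : G), ?_⟩
      calc c * (c' : G) * ((c⁻¹ * x₀ * c) * (rep : G)) * (c * (c' : G))⁻¹
          = c * (((c' : G) * (c⁻¹ * x₀ * c)) * (rep : G) * (c' : G)⁻¹) * c⁻¹ := by group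
        _ = c * (((c⁻¹ * x₀ * c) * (c' : G)) * (rep : G) * (c' : G)⁻¹) * c⁻¹ := by rw [hc'x]
        _ = c * ((c⁻¹ * x₀ * c) * ((c' : G) * (rep : G) * (c' : G)⁻¹)) * c⁻¹ := by group
        _ = c * ((c⁻¹ * x₀ * c) * (c⁻¹ * u₀ * c)) * c⁻¹ := by rw [hc'G]
        _ = x₀ * u₀ := by group
        _ = g := hg.symm
    have hfinCC : ∀ (K : Type u) [Group K] [Finite K], Finite (ConjClasses K) := fun K _ _ =>
      Finite.of_surjective ConjClasses.mk ConjClasses.mk_surjective
    have : ∀ x : P, Finite (β x) := fun x => by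
      have := hfinCC (Subgroup.centralizer ({(x : G)} : Set G))
      exact Subtype.finite
    let _ : Fintype P := Fintype.ofFinite _
    have hG0 : Nat.card G ≠ 0 := Nat.card_pos.ne'
    calc Nat.card {C : ConjClasses G // ∀ q : ℕ, q.Prime →
          (∃ g : G, ConjClasses.mk g = C ∧ q ∣ orderOf g) → q ∈ insert p T'}
        ≤ Nat.card (Σ x : P, β x) := Nat.card_le_card_of_surjective Ψ hsurj
      _ = ∑ x : P, Nat.card (β x) := Nat.card_sigma
      _ ≤ ∑ _x : P, ∏ q ∈ T', q ^ (Nat.card G).factorization q := by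
        apply Finset.sum_le_sum
        intro x _
        refine (ih' (Subgroup.centralizer ({(x : G)} : Set G))).trans ?_
        apply Finset.prod_le_prod (fun _ _ => Nat.zero_le _)
        intro q hq
        apply Nat.pow_le_pow_right (hT' q hq).pos
        exact (Nat.factorization_le_iff_dvd Nat.card_pos.ne' hG0).mpr
          (Subgroup.card_subgroup_dvd_card _) q
      _ = Nat.card P * ∏ q ∈ T', q ^ (Nat.card G).factorization q := by
        rw [Finset.sum_const, Finset.card_univ, smul_eq_mul, ← Nat.card_eq_fintype_card]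
      _ = ∏ q ∈ insert p T', q ^ (Nat.card G).factorization q := by
        rw [Finset.prod_insert hpT', P.card_eq_multiplicity]

end Cfsg.Agent.Lib_helper6_PiClass
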