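import Mathlib
import Cfsg.Prelude.Def_HallClasses
import Cfsg.Agent.Lib_helper6_Conj

set_option autoImplicit false

namespace Cfsg.Agent.Lib_helper6_Pronormal

open scoped commutatorElement
open Cfsg.Agent.Lib_helper6_Conj

variable {G : Type*} [Group G]

theorem commutator_le_of_invariant (H U : Subgroup G)
    (hU : ∀ h ∈ H, U.map (MulAut.conj h).toMonoidHom = U) : ⁅H, U⁆ ≤ U := by
  rw [Subgroup.commutator_le]
  intro h hh u hu
  rw [commutatorElement_def]
  have h1 : h * u * h⁻¹ ∈ U := by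
    have h2 : h * u * h⁻¹ ∈ U.map (MulAut.conj h).toMonoidHom := ⟨u, hu, rfl⟩
    rw [hU h hh] at h2
    exact h2
  exact U.mul_mem h1 (U.inv_mem hu)

theorem pronormal_imp (H U : Subgroup G) (hpro : Cfsg.IsPronormal H)
    (hU : ∀ h ∈ H, U.map (MulAut.conj h).toMonoidHom = U) :
    U = (U ⊓ Subgroup.normalizer (H : Set G)) ⊔ ⁅H, U⁆ := by
  have hCU := commutator_le_of_invariant H U hU
  apply le_antisymm
  · intro u hu
    obtain ⟨x, hx, hxe⟩ := hpro u
    have hCnorm : H ≤ Subgroup.normalizer ((⁅H, U⁆ : Subgroup G) : Set G) := by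
      intro h hh
      rw [mem_normalizer_iff_conjMap, Subgroup.map_commutator, conjMap_of_mem hh, hU h hh]
    have hJ : H ⊔ H.map (MulAut.conj u).toMonoidHom ≤ ⁅H, U⁆ ⊔ H := by
      apply sup_le le_sup_right
      rintro _ ⟨h, hh, rfl⟩
      have h1 : (MulAut.conj u).toMonoidHom h = ⁅h, u⁆⁻¹ * h := by
        show u * h * u⁻¹ = _
        rw [commutatorElement_def]; group
      rw [h1]
      exact Subgroup.mul_mem_sup
        (Subgroup.inv_mem _ (Subgroup.commutator_mem_commutator hh hu)) hh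
    have hx' := hJ hx
    have hcoe := Subgroup.coe_mul_of_right_le_normalizer_left ⁅H, U⁆ H hCnorm
    have hx'' : x ∈ ((⁅H, U⁆ ⊔ H : Subgroup G) : Set G) := hx'
    rw [hcoe, Set.mem_mul] at hx''
    obtain ⟨c, hc, h, hh, rfl⟩ := hx''
    rw [conjMap_mul, conjMap_of_mem hh] at hxe
    have hn : c⁻¹ * u ∈ Subgroup.normalizer (H : Set G) := by
      rw [mem_normalizer_iff_conjMap, conjMap_mul, hxe, conjMap_inv_conjMap]
    have hcu : c⁻¹ * u ∈ U := U.mul_mem (U.inv_mem (hCU hc)) hu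
    have h2 : c * (c⁻¹ * u) ∈ ⁅H, U⁆ ⊔ (U ⊓ Subgroup.normalizer (H : Set G)) :=
      Subgroup.mul_mem_sup hc ⟨hcu, hn⟩
    rw [sup_comm, mul_inv_cancel_left] at h2
    exact h2
  · exact sup_le inf_le_left hCU

theorem pronormal_of (V : Subgroup G) [V.Normal] (hV : ∀ a ∈ V, ∀ b ∈ V, a * b = b * a)
    (H : Subgroup G) (hHV : H ⊔ V = ⊤)
    (hcond : ∀ U : Subgroup G, U ≤ V → (∀ h ∈ H, U.map (MulAut.conj h).toMonoidHom = U) →
      U = (U ⊓ Subgroup.normalizer (H : Set G)) ⊔ ⁅H, U⁆) : Cfsg.IsPronormal H := by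
  have hVn : V.Normal := inferInstance
  intro g
  have hg : g ∈ V ⊔ H := by rw [sup_comm, hHV]; trivial
  obtain ⟨v, hv, h, hh, rfl⟩ := Subgroup.mem_sup_of_normal_left.mp hg
  rw [conjMap_mul, conjMap_of_mem hh]
  set J := H ⊔ H.map (MulAut.conj v).toMonoidHom with hJ
  let S : Set G := {y | ∃ h ∈ H, y = h * v * h⁻¹}
  let U : Subgroup G := Subgroup.closure S
  have hUV : U ≤ V := by
    rw [Subgroup.closure_le]
    rintro _ ⟨h, hh, rfl⟩
    exact hVn.conj_mem v hv h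
  have hUinv : ∀ h ∈ H, U.map (MulAut.conj h).toMonoidHom = U := by
    intro h hh
    have key : ∀ k ∈ H, U.map (MulAut.conj k).toMonoidHom ≤ U := by
      intro k hk
      rw [Subgroup.map_le_iff_le_comap, Subgroup.closure_le]
      rintro _ ⟨h', hh', rfl⟩
      show (MulAut.conj k) (h' * v * h'⁻¹) ∈ U
      apply Subgroup.subset_closure
      refine ⟨k * h', H.mul_mem hk hh', ?_⟩
      rw [MulAut.conj_apply]; group
    apply le_antisymm (key h hh)
    have h1 := conjMap_le_conjMap (key h⁻¹ (H.inv_mem hh)) h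
    rw [conjMap_conjMap_inv] at h1
    exact h1
  have hvU : v ∈ U := Subgroup.subset_closure ⟨1, H.one_mem, by simp⟩
  have hUeq := hcond U hUV hUinv
  have hCV : ⁅H, U⁆ ≤ V := (commutator_le_of_invariant H U hUinv).trans hUV
  have hcV : ∀ h : G, ∀ y ∈ V, ⁅h, y⁆ ∈ V := by
    intro h y hy
    rw [commutatorElement_def]
    exact V.mul_mem (hVn.conj_mem y hy h) (V.inv_mem hy)
  have hCJ : ⁅H, U⁆ ≤ J := by
    rw [Subgroup.commutator_le]
    intro h hh u hu
    have hkey : u ∈ V ∧ ∀ h ∈ H, ⁅h, u⁆ ∈ J := by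
      refine Subgroup.closure_induction (p := fun u _ => u ∈ V ∧ ∀ h ∈ H, ⁅h, u⁆ ∈ J)
        ?_ ?_ ?_ ?_ hu
      · rintro _ ⟨h', hh', rfl⟩
        refine ⟨hVn.conj_mem v hv h', ?_⟩
        intro h hh
        have h1 : ⁅h, h' * v * h'⁻¹⁆ =
            (h * h') * ((MulAut.conj v).toMonoidHom (h'⁻¹ * h⁻¹ * h')) * h'⁻¹ := by
          show _ = (h * h') * (v * (h'⁻¹ * h⁻¹ * h') * v⁻¹) * h'⁻¹
          rw [commutatorElement_def]; group
        rw [h1]
        exact J.mul_mem (J.mul_mem (Subgroup.mem_sup_left (H.mul_mem hh hh'))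
          (Subgroup.mem_sup_right ⟨_, H.mul_mem (H.mul_mem (H.inv_mem hh') (H.inv_mem hh)) hh',
            rfl⟩)) (Subgroup.mem_sup_left (H.inv_mem hh'))
      · exact ⟨V.one_mem, fun h _ => by rw [commutatorElement_one_right]; exact J.one_mem⟩
      · rintro x y _ _ ⟨hxV, hx⟩ ⟨hyV, hy⟩
        refine ⟨V.mul_mem hxV hyV, fun h hh => ?_⟩
        have hyc : ⁅h, y⁆ ∈ V := hcV h y hyV
        have h1 : ⁅h, x * y⁆ = ⁅h, x⁆ * (x * ⁅h, y⁆ * x⁻¹) := by
          simp only [commutatorElement_def]; group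
        have h2 : x * ⁅h, y⁆ * x⁻¹ = ⁅h, y⁆ := by rw [hV x hxV _ hyc]; group
        rw [h1, h2]
        exact J.mul_mem (hx h hh) (hy h hh)
      · rintro x _ ⟨hxV, hx⟩
        refine ⟨V.inv_mem hxV, fun h hh => ?_⟩
        have hxc : ⁅h, x⁆ ∈ V := hcV h x hxV
        have h1 : ⁅h, x⁻¹⁆ = x⁻¹ * ⁅h, x⁆⁻¹ * x := by
          simp only [commutatorElement_def]; group
        have h2 : x⁻¹ * ⁅h, x⁆⁻¹ * x = ⁅h, x⁆⁻¹ := by
          rw [hV x⁻¹ (V.inv_mem hxV) _ (V.inv_mem hxc)]; group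
        rw [h1, h2]
        exact J.inv_mem (hx h hh)
    exact hkey.2 h hh
  have hnorm : (U ⊓ Subgroup.normalizer (H : Set G)) ≤
      Subgroup.normalizer ((⁅H, U⁆ : Subgroup G) : Set G) := by
    intro n hn
    rw [Subgroup.mem_normalizer_iff]
    intro c
    have hnV : n ∈ V := hUV hn.1
    constructor
    · intro hc
      have h1 : n * c * n⁻¹ = c := by rw [hV n hnV c (hCV hc)]; group
      rw [h1]; exact hc
    · intro hc
      have hc' : n * c * n⁻¹ ∈ V := hCV hc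
      have hcV' : c ∈ V := by
        have h1 : c = n⁻¹ * (n * c * n⁻¹) * n := by group
        rw [h1]; exact V.mul_mem (V.mul_mem (V.inv_mem hnV) hc') hnV
      have h1 : n * c * n⁻¹ = c := by rw [hV n hnV c hcV']; group
      rw [h1] at hc; exact hc
  have hcoe := Subgroup.coe_mul_of_left_le_normalizer_right
    (U ⊓ Subgroup.normalizer (H : Set G)) ⁅H, U⁆ hnorm
  have hv' : v ∈ (((U ⊓ Subgroup.normalizer (H : Set G)) ⊔ ⁅H, U⁆ : Subgroup G) : Set G) := by
    rw [← hUeq]; exact hvU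
  rw [hcoe, Set.mem_mul] at hv'
  obtain ⟨n, hn, c, hc, hncv⟩ := hv'
  refine ⟨c, hCJ hc, ?_⟩
  have hnc : n * c = c * n := hV n (hUV hn.1) c (hCV hc)
  rw [← hncv, hnc, conjMap_mul, mem_normalizer_iff_conjMap.mp hn.2]

end Cfsg.Agent.Lib_helper6_Pronormal
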