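import Mathlib

set_option autoImplicit false

namespace Cfsg.Agent.Lib_helper6_Quot

variable {G : Type*} [Group G]

/-- the order of the full preimage of a subgroup of a quotient -/
theorem card_comap_mk' [Finite G] (N : Subgroup G) [N.Normal] (K : Subgroup (G ⧸ N)) :
    Nat.card (K.comap (QuotientGroup.mk' N)) = Nat.card K * Nat.card N := by
  have e1 := (K.comap (QuotientGroup.mk' N)).card_mul_index
  have e2 := K.card_mul_index
  have e3 := N.card_mul_index
  have e4 : (K.comap (QuotientGroup.mk' N)).index = K.index :=
    Subgroup.index_comap_of_surjective K (QuotientGroup.mk'_surjective N)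
  have e5 : N.index = Nat.card (G ⧸ N) := rfl
  rw [e4] at e1
  rw [e5, ← e2] at e3
  have hpos : 0 < K.index := Nat.pos_of_ne_zero Subgroup.index_ne_zero_of_finite
  have : Nat.card (K.comap (QuotientGroup.mk' N)) * K.index = (Nat.card K * Nat.card N) * K.index := by
    rw [e1, ← e3]; ring
  exact Nat.eq_of_mul_eq_mul_right hpos this

end Cfsg.Agent.Lib_helper6_Quot
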