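import Mathlib

set_option autoImplicit false

namespace Cfsg.Agent.Lib_helper6_SmallPerm

open Equiv

/-- `S₄` is solvable -/
theorem perm_fin4_solvable : Group.IsSolvable (Equiv.Perm (Fin 4)) := by
  have h4 : Nat.card (Fin 4) = 4 := by simp
  haveI hA : Group.IsSolvable (alternatingGroup (Fin 4)) := by
    have hK : IsKleinFour (alternatingGroup.kleinFour (Fin 4)) :=
      alternatingGroup.kleinFour_isKleinFour h4
    haveI : Group.IsSolvable (alternatingGroup.kleinFour (Fin 4)) :=
      Group.isSolvable_of_comm (fun a b => mul_comm_of_exponent_two hK.exponent_two a b)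
    apply Group.isSolvable_of_ker_le_range (alternatingGroup.kleinFour (Fin 4)).subtype
      (Abelianization.of)
    rw [Abelianization.ker_of, ← alternatingGroup.kleinFour_eq_commutator h4,
      Subgroup.range_subtype]
  apply Group.isSolvable_of_ker_le_range (alternatingGroup (Fin 4)).subtype (Equiv.Perm.sign)
  rw [Subgroup.range_subtype]
  exact le_rfl

/-- symmetric groups of degree at most four are solvable -/
theorem perm_solvable_of_card_le_four {α : Type*} [Fintype α] [DecidableEq α]
    (h : Fintype.card α ≤ 4) : Group.IsSolvable (Equiv.Perm α) := by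
  classical
  haveI := perm_fin4_solvable
  obtain ⟨ι⟩ : Nonempty (α ↪ Fin 4) :=
    Function.Embedding.nonempty_of_card_le (by simpa using h)
  exact Group.isSolvable_of_isSolvable_injective (Equiv.Perm.viaEmbeddingHom_injective ι)

/-- a permutation group moving at most four points is solvable -/
theorem solvable_of_support {α : Type*} [DecidableEq α] (S : Finset α) (hS : S.card ≤ 4)
    (K : Subgroup (Equiv.Perm α)) (hK : ∀ σ ∈ K, ∀ x, x ∉ S → σ x = x) : Group.IsSolvable K := by
  classical
  haveI : Group.IsSolvable (Equiv.Perm {x // x ∈ S}) :=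
    perm_solvable_of_card_le_four (by simpa using hS)
  let φ : Equiv.Perm {x // x ∈ S} →* Equiv.Perm α := Equiv.Perm.ofSubtype
  haveI : Group.IsSolvable φ.range := Group.isSolvable_of_surjective φ.rangeRestrict_surjective
  have hle : K ≤ φ.range := by
    intro σ hσ
    have h1 : ∀ x, σ x ∈ S ↔ x ∈ S := by
      intro x
      constructor
      · intro hx
        by_contra hxS
        rw [hK σ hσ x hxS] at hx
        exact hxS hx
      · intro hx
        by_contra hxS
        have := hK σ hσ (σ x) hxS
        have h2 : σ x = x := σ.injective this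
        rw [h2] at hxS
        exact hxS hx
    have h2 : ∀ x, σ x ≠ x → x ∈ S := by
      intro x hx
      by_contra hxS
      exact hx (hK σ hσ x hxS)
    exact ⟨Equiv.Perm.subtypePerm σ h1, Equiv.Perm.ofSubtype_subtypePerm h1 h2⟩
  exact Group.isSolvable_of_isSolvable_injective (Subgroup.inclusion_injective hle)

/-- a group generated by a solvable subgroup and an element centralizing it is solvable -/
theorem solvable_of_le_sup_zpowers {G : Type*} [Group G] (K : Subgroup G) [Group.IsSolvable K] (c : G)
    (hc : ∀ k ∈ K, Commute k c) (L : Subgroup G) (hL : L ≤ K ⊔ Subgroup.zpowers c) :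
    Group.IsSolvable L := by
  have hcomm : ∀ (m : K) (n : Subgroup.zpowers c), Commute (K.subtype m) ((Subgroup.zpowers c).subtype n) := by
    rintro ⟨k, hk⟩ ⟨z, hz⟩
    obtain ⟨i, rfl⟩ := Subgroup.mem_zpowers_iff.mp hz
    exact (hc k hk).zpow_right i
  haveI : Group.IsSolvable (Subgroup.zpowers c) :=
    Group.isSolvable_of_comm (fun a b => by
      obtain ⟨a, ha⟩ := a
      obtain ⟨b, hb⟩ := b
      obtain ⟨i, rfl⟩ := Subgroup.mem_zpowers_iff.mp ha
      obtain ⟨j, rfl⟩ := Subgroup.mem_zpowers_iff.mp hb
      apply Subtype.ext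
      exact zpow_mul_comm c i j)
  let φ : K × Subgroup.zpowers c →* G := MonoidHom.noncommCoprod K.subtype (Subgroup.zpowers c).subtype hcomm
  haveI : Group.IsSolvable φ.range := Group.isSolvable_of_surjective φ.rangeRestrict_surjective
  have hle : L ≤ φ.range := by
    refine hL.trans ?_
    rw [MonoidHom.noncommCoprod_range, Subgroup.range_subtype, Subgroup.range_subtype]
  exact Group.isSolvable_of_isSolvable_injective (Subgroup.inclusion_injective hle)

/-- elements of a group generated by permutations fixing the complement of `S` fix it too -/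
theorem closure_fix {α : Type*} (S : Set α) (gens : Set (Equiv.Perm α))
    (h : ∀ g ∈ gens, ∀ x, x ∉ S → g x = x) :
    ∀ σ ∈ Subgroup.closure gens, ∀ x, x ∉ S → σ x = x := by
  intro σ hσ
  induction hσ using Subgroup.closure_induction with
  | mem g hg => exact h g hg
  | one => intro x _; rfl
  | mul a b _ _ iha ihb =>
    intro x hx
    rw [Equiv.Perm.mul_apply, ihb x hx, iha x hx]
  | inv a _ iha =>
    intro x hx
    rw [Equiv.Perm.inv_eq_iff_eq, iha x hx]

/-- non-commuting transpositions share a point -/
theorem swap_share {α : Type*} [DecidableEq α] {x y z w : α} (hxy : x ≠ y) (hzw : z ≠ w)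
    (h : ¬ Commute (swap x y) (swap z w)) : (x = z ∨ x = w) ∨ (y = z ∨ y = w) := by
  by_contra hne
  push Not at hne
  obtain ⟨⟨h1, h2⟩, ⟨h3, h4⟩⟩ := hne
  apply h
  apply Equiv.Perm.Disjoint.commute
  apply Equiv.Perm.disjoint_swap_swap
  simp [hxy, hzw, h1, h2, h3, h4]

theorem card_insert_insert_le {α : Type*} [DecidableEq α] {s : Finset α} {u v : α}
    (h : u ∈ s ∨ v ∈ s) : (insert u (insert v s)).card ≤ s.card + 1 := by
  rcases h with h | h
  · rw [Finset.insert_eq_of_mem (Finset.mem_insert_of_mem h)]
    exact Finset.card_insert_le v s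
  · rw [Finset.insert_eq_of_mem h]
    exact Finset.card_insert_le u s

end Cfsg.Agent.Lib_helper6_SmallPerm
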