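import Mathlib

set_option autoImplicit false
open Pointwise

namespace Cfsg.Agent.Lib_helper6_SylowCount

variable {G : Type*} [Group G]

/-- a Sylow `p`-subgroup lies in every normal subgroup of index prime to `p` -/
theorem sylow_le_of_normal_of_not_dvd_index [Finite G] {p : ℕ} [Fact p.Prime] (H : Subgroup G)
    [H.Normal] (hp : ¬ p ∣ H.index) (P : Sylow p G) : (P : Subgroup G) ≤ H := by
  intro x hx
  obtain ⟨k, hk⟩ := IsPGroup.iff_orderOf.mp P.2 ⟨x, hx⟩
  rw [Subgroup.orderOf_mk] at hk
  have h1 : orderOf (QuotientGroup.mk' H x) ∣ p ^ k := by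
    rw [← hk]; exact orderOf_map_dvd _ x
  have h2 : orderOf (QuotientGroup.mk' H x) ∣ H.index := by
    rw [Subgroup.index]; exact orderOf_dvd_natCard _
  have h3 : Nat.Coprime (p ^ k) H.index :=
    Nat.Coprime.pow_left k ((Nat.Prime.coprime_iff_not_dvd Fact.out).mpr hp)
  have h4 : orderOf (QuotientGroup.mk' H x) = 1 := Nat.eq_one_of_dvd_coprimes h3 h1 h2
  rw [orderOf_eq_one_iff] at h4
  exact (QuotientGroup.eq_one_iff x).mp h4

/-- a normal subgroup of index prime to `p` has the same number of Sylow `p`-subgroups -/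
theorem card_sylow_of_normal_of_not_dvd_index [Finite G] {p : ℕ} [Fact p.Prime] (H : Subgroup G)
    [H.Normal] (hp : ¬ p ∣ H.index) : Nat.card (Sylow p H) = Nat.card (Sylow p G) := by
  symm
  apply Nat.card_eq_of_bijective
    (fun P : Sylow p G => P.subtype (sylow_le_of_normal_of_not_dvd_index H hp P))
  constructor
  · intro P Q h
    exact Sylow.subtype_injective h
  · intro Q
    obtain ⟨Q', hQ'⟩ := Sylow.exists_comap_subtype_eq Q
    refine ⟨Q', ?_⟩
    apply Sylow.ext
    rw [Sylow.coe_subtype, ← hQ']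
    rfl

/-- passing to the quotient by a central subgroup does not change the number of Sylow
`p`-subgroups -/
theorem card_sylow_quotient_of_le_center [Finite G] {p : ℕ} [Fact p.Prime] (Z : Subgroup G)
    [Z.Normal] (hZ : Z ≤ Subgroup.center G) : Nat.card (Sylow p (G ⧸ Z)) = Nat.card (Sylow p G) := by
  symm
  apply Nat.card_eq_of_bijective
    (Sylow.mapSurjective (QuotientGroup.mk'_surjective Z) : Sylow p G → Sylow p (G ⧸ Z))
  refine ⟨?_, Sylow.mapSurjective_surjective _ p⟩
  intro P Q h
  have h' : (P : Subgroup G).map (QuotientGroup.mk' Z) = (Q : Subgroup G).map (QuotientGroup.mk' Z) := by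
    have := congrArg (fun R : Sylow p (G ⧸ Z) => (R : Subgroup (G ⧸ Z))) h
    simpa using this
  have hQN : (Q : Subgroup G) ≤ Subgroup.normalizer ((P : Subgroup G) : Set G) := by
    intro q hq
    have : QuotientGroup.mk' Z q ∈ (P : Subgroup G).map (QuotientGroup.mk' Z) := by
      rw [h']; exact ⟨q, hq, rfl⟩
    obtain ⟨x, hx, hxq⟩ := this
    have hz : x⁻¹ * q ∈ Z := by
      have := QuotientGroup.eq.mp hxq
      exact this
    have hzc := hZ hz
    rw [Subgroup.mem_center_iff] at hzc
    have hq' : q = x * (x⁻¹ * q) := by group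
    rw [Subgroup.mem_normalizer_iff]
    intro y
    have e : q * y * q⁻¹ = x * y * x⁻¹ := by
      have h1 := hzc y
      calc q * y * q⁻¹ = x * ((x⁻¹ * q) * y) * (x⁻¹ * q)⁻¹ * x⁻¹ := by group
        _ = x * (y * (x⁻¹ * q)) * (x⁻¹ * q)⁻¹ * x⁻¹ := by rw [h1]
        _ = x * y * x⁻¹ := by group
    rw [e]
    constructor
    · intro hy
      exact Subgroup.mul_mem _ (Subgroup.mul_mem _ hx hy) (Subgroup.inv_mem _ hx)
    · intro hy
      have := Subgroup.mul_mem _ (Subgroup.mul_mem _ (Subgroup.inv_mem _ hx) hy) hx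
      simpa [mul_assoc] using this
  have h1 := IsPGroup.inf_normalizer_sylow Q.2 P
  have hQN' : (Q : Subgroup G) ≤ Subgroup.normalizer (P : Set G) := hQN
  rw [inf_eq_left.mpr hQN'] at h1
  have hQP : (Q : Subgroup G) ≤ P := by
    rw [h1]; exact inf_le_right
  exact Sylow.ext (Q.3 P.2 hQP)

end Cfsg.Agent.Lib_helper6_SylowCount
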