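import Mathlib
import Cfsg.Agent.Lib_helper3_Burnside
import Cfsg.Agent.Lib_helper3_Burnside2
import Cfsg.Agent.Lib_helper1_Hall

set_option autoImplicit false

namespace Cfsg.Agent.Lib_helper7_AbComp

universe u

/-- working form: an abelian subgroup of odd order and `2`-power index -/
def Has (G : Type*) [Group G] : Prop :=
  ∃ C : Subgroup G, (∀ a ∈ C, ∀ b ∈ C, a * b = b * a) ∧ (Nat.card C).Coprime 2 ∧
    ∃ k : ℕ, C.index = 2 ^ k

theorem relIndex_dvd_index_of_normal' {G : Type*} [Group G] [Finite G] (C N : Subgroup G)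
    [N.Normal] : C.relIndex N ∣ C.index := by
  have h1 : (C ⊓ N).relIndex C * C.index = (C ⊓ N).index := Subgroup.relIndex_mul_index inf_le_left
  have h2 : (C ⊓ N).relIndex N * N.index = (C ⊓ N).index := Subgroup.relIndex_mul_index inf_le_right
  rw [Subgroup.inf_relIndex_left] at h1
  rw [Subgroup.inf_relIndex_right] at h2
  obtain ⟨w, hw⟩ := Subgroup.relIndex_dvd_index_of_normal N C
  have hpos : 0 < N.relIndex C := by
    apply Nat.pos_of_ne_zero
    show (N.subgroupOf C).index ≠ 0
    exact Subgroup.index_ne_zero_of_finite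
  refine ⟨w, ?_⟩
  have h3 : N.relIndex C * C.index = N.relIndex C * (C.relIndex N * w) := by
    rw [h1, ← h2, hw]; ring
  exact Nat.eq_of_mul_eq_mul_left hpos h3

theorem has_normal {G : Type*} [Group G] [Finite G] (N : Subgroup G) [N.Normal] (h : Has G) :
    Has ↥N := by
  obtain ⟨C, hab, hodd, k, hk⟩ := h
  refine ⟨C.subgroupOf N, ?_, ?_, ?_⟩
  · intro a ha b hb
    exact Subtype.ext (hab a ha b hb)
  · have h1 : Nat.card (C.subgroupOf N) ∣ Nat.card C :=
      Subgroup.card_dvd_of_injective ((N.subtype.comp (C.subgroupOf N).subtype).codRestrict C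
          (fun y => Subgroup.mem_subgroupOf.mp y.2))
        (by
          intro a b hab'
          have := congrArg Subtype.val hab'
          exact Subtype.ext (Subtype.ext this))
    exact Nat.Coprime.coprime_dvd_left h1 hodd
  · have h1 : (C.subgroupOf N).index ∣ 2 ^ k := by
      rw [← hk]; exact relIndex_dvd_index_of_normal' C N
    obtain ⟨j, -, hj⟩ := (Nat.dvd_prime_pow Nat.prime_two).mp h1
    exact ⟨j, hj⟩

theorem has_quotient {G : Type*} [Group G] [Finite G] (N : Subgroup G) [N.Normal] (h : Has G) :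
    Has (G ⧸ N) := by
  obtain ⟨C, hab, hodd, k, hk⟩ := h
  refine ⟨C.map (QuotientGroup.mk' N), ?_, ?_, ?_⟩
  · rintro _ ⟨a, ha, rfl⟩ _ ⟨b, hb, rfl⟩
    rw [← map_mul, ← map_mul, hab a ha b hb]
  · exact Nat.Coprime.coprime_dvd_left (Subgroup.card_map_dvd C _) hodd
  · have h1 : (C.map (QuotientGroup.mk' N)).index ∣ 2 ^ k := by
      rw [← hk]; exact Subgroup.index_map_dvd C (QuotientGroup.mk'_surjective N)
    obtain ⟨j, -, hj⟩ := (Nat.dvd_prime_pow Nat.prime_two).mp h1
    exact ⟨j, hj⟩

theorem solvable_aux : ∀ (n : ℕ) (G : Type u) [Group G] [Finite G], Nat.card G = n → Has G →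
    Group.IsSolvable G := by
  intro n
  induction n using Nat.strong_induction_on with
  | _ n ih =>
    intro G _ _ hn hG
    by_cases hs : IsSimpleGroup G
    · obtain ⟨C, hab, hodd, k, hk⟩ := hG
      by_cases hC : C = ⊥
      · rw [hC, Subgroup.index_bot] at hk
        exact Cfsg.Agent.Lib_helper3_Burnside2.solvable_of_card_prime_pow 2 k Nat.prime_two hk
      · obtain ⟨x, hx1⟩ := (Subgroup.ne_bot_iff_exists_ne_one.mp hC : ∃ a : ↥C, a ≠ 1)
        have hx1' : (x : G) ≠ 1 := fun h => hx1 (Subtype.ext h)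
        have hle : C ≤ Subgroup.centralizer ({(x : G)} : Set G) := by
          intro c hc
          rw [Subgroup.mem_centralizer_iff]
          intro z hz
          rw [Set.mem_singleton_iff] at hz
          subst hz
          exact hab _ x.2 c hc
        have h1 : (Subgroup.centralizer ({(x : G)} : Set G)).index ∣ 2 ^ k := by
          rw [← hk]; exact Subgroup.index_dvd_of_le hle
        obtain ⟨j, -, hj⟩ := (Nat.dvd_prime_pow Nat.prime_two).mp h1
        exact Cfsg.Agent.Lib_helper3_Burnside2.solvable_of_prime_card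
          (Cfsg.Agent.Lib_helper3_Burnside.prime_card_of_prime_power_class 2 j Nat.prime_two
            (x : G) hx1' hj)
    · by_cases hnt : Nontrivial G
      · have hex : ∃ N : Subgroup G, N.Normal ∧ N ≠ ⊥ ∧ N ≠ ⊤ := by
          by_contra hcon
          push Not at hcon
          exact hs { exists_pair_ne := hnt.exists_pair_ne
                     eq_bot_or_eq_top_of_normal := fun N hN => by
                       by_cases h1 : N = ⊥
                       · exact Or.inl h1
                       · exact Or.inr (hcon N hN h1) }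
        obtain ⟨N, hN, hNbot, hNtop⟩ := hex
        haveI := hN
        have hcN : Nat.card N < n := by
          rw [← hn]
          have h1 := Subgroup.card_mul_index N
          have h2 : N.index ≠ 1 := fun h => hNtop (Subgroup.index_eq_one.mp h)
          have h3 : 0 < N.index := Nat.pos_of_ne_zero Subgroup.index_ne_zero_of_finite
          have h4 : 0 < Nat.card N := Nat.card_pos
          have h5 : 2 ≤ N.index := by omega
          have h6 : Nat.card N * 2 ≤ Nat.card N * N.index := Nat.mul_le_mul_left _ h5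
          linarith
        have hcQ : Nat.card (G ⧸ N) < n := by
          rw [← hn, ← Subgroup.index_eq_card]
          have h1 := Subgroup.card_mul_index N
          have h2 : Nat.card N ≠ 1 := fun h => hNbot (Subgroup.card_eq_one.mp h)
          have h3 : 0 < N.index := Nat.pos_of_ne_zero Subgroup.index_ne_zero_of_finite
          have h4 : 0 < Nat.card N := Nat.card_pos
          have h5 : 2 ≤ Nat.card N := by omega
          have h6 : 2 * N.index ≤ Nat.card N * N.index := Nat.mul_le_mul_right _ h5
          linarith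
        haveI := ih _ hcN ↥N rfl (has_normal N hG)
        haveI := ih _ hcQ (G ⧸ N) rfl (has_quotient N hG)
        exact solvable_of_ker_le_range N.subtype (QuotientGroup.mk' N) (by simp)
      · rw [not_nontrivial_iff_subsingleton] at hnt
        infer_instance

/-- a `p'`-subgroup of `p`-power index complements every Sylow `p`-subgroup -/
theorem isComplement'_sylow {G : Type*} [Group G] [Finite G] (p : ℕ) [Fact p.Prime]
    (D : Subgroup G) (hD : (Nat.card D).Coprime p) (j : ℕ) (hj : D.index = p ^ j) (P : Sylow p G) :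
    Subgroup.IsComplement' (P : Subgroup G) D := by
  have hPcard : Nat.card P = p ^ j := by
    obtain ⟨i, hi⟩ := IsPGroup.iff_card.mp P.isPGroup'
    have h1 : Nat.card D * D.index = Nat.card G := Subgroup.card_mul_index D
    have h2 : Nat.card P * (P : Subgroup G).index = Nat.card G := Subgroup.card_mul_index _
    have h3 : ((P : Subgroup G).index).Coprime p :=
      ((Nat.Prime.coprime_iff_not_dvd Fact.out).mpr P.not_dvd_index).symm
    rw [hi] at h2 ⊢
    rw [hj] at h1
    apply Nat.dvd_antisymm
    · have h4 : p ^ i ∣ Nat.card D * p ^ j := by rw [h1, ← h2]; exact dvd_mul_right _ _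
      exact (Nat.Coprime.dvd_mul_left (Nat.Coprime.pow_left i hD.symm)).mp h4
    · have h4 : p ^ j ∣ p ^ i * (P : Subgroup G).index := by
        rw [h2, ← h1]; exact dvd_mul_left _ _
      exact (Nat.Coprime.dvd_mul_right (Nat.Coprime.pow_left _ h3.symm)).mp h4
  apply Subgroup.isComplement'_of_coprime
  · rw [hPcard, ← hj, mul_comm]; exact Subgroup.card_mul_index D
  · rw [hPcard]; exact Nat.Coprime.pow_left _ hD.symm

/-- **S3200** -/
theorem s3200 {H : Type u} [Group H] [Finite H]
    (S : Sylow 2 H) (C : Subgroup H) (hC : IsMulCommutative ↥C)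
    (hSC : Subgroup.IsComplement' (S : Subgroup H) C) :
    Group.IsSolvable H ∧
    (∀ L : Subgroup H, ∃ (P : Sylow 2 ↥L) (D : Subgroup ↥L), IsMulCommutative ↥D ∧
      Subgroup.IsComplement' (P : Subgroup ↥L) D) ∧
    (∀ (N : Subgroup H) [N.Normal], ∃ (P : Sylow 2 (H ⧸ N)) (D : Subgroup (H ⧸ N)),
      IsMulCommutative ↥D ∧ Subgroup.IsComplement' (P : Subgroup (H ⧸ N)) D) := by
  classical
  haveI : Fact (Nat.Prime 2) := ⟨Nat.prime_two⟩
  have hCab : ∀ a ∈ C, ∀ b ∈ C, a * b = b * a := by
    intro a ha b hb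
    have := hC.is_comm.comm (⟨a, ha⟩ : ↥C) ⟨b, hb⟩
    exact congrArg Subtype.val this
  have hCidx : C.index = Nat.card (S : Subgroup H) := hSC.index_eq_card
  have hCcard : Nat.card C = (S : Subgroup H).index := (hSC.symm.index_eq_card).symm
  have hCodd : (Nat.card C).Coprime 2 := by
    rw [hCcard]
    exact ((Nat.Prime.coprime_iff_not_dvd Nat.prime_two).mpr S.not_dvd_index).symm
  obtain ⟨k, hk⟩ := IsPGroup.iff_card.mp S.isPGroup'
  have hHas : Has H := ⟨C, hCab, hCodd, k, by rw [hCidx, hk]⟩
  have hsolv : Group.IsSolvable H := solvable_aux _ H rfl hHas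
  haveI := hsolv
  refine ⟨hsolv, ?_, ?_⟩
  · intro L
    obtain ⟨P⟩ : Nonempty (Sylow 2 ↥L) := inferInstance
    have hcop : ((P : Subgroup ↥L).index).Coprime (Nat.card (P : Subgroup ↥L)) := P.card_coprime_index.symm
    have hLcard : Nat.card ↥L = (P : Subgroup ↥L).index * Nat.card (P : Subgroup ↥L) :=
      (Subgroup.index_mul_card _).symm
    obtain ⟨D, hD⟩ := Cfsg.Agent.Lib_helper1_Hall.hall_exists _ _ hLcard hcop
    obtain ⟨i, hi⟩ := IsPGroup.iff_card.mp P.isPGroup'
    have hDodd : (Nat.card D).Coprime 2 := by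
      rw [hD]
      exact ((Nat.Prime.coprime_iff_not_dvd Nat.prime_two).mpr P.not_dvd_index).symm
    have hDidx : D.index = 2 ^ i := by
      have h1 := Subgroup.card_mul_index D
      rw [hD, hLcard, hi] at h1
      exact Nat.eq_of_mul_eq_mul_left (Nat.pos_of_ne_zero Subgroup.index_ne_zero_of_finite) h1
    refine ⟨P, D, ?_, isComplement'_sylow 2 D hDodd i hDidx P⟩
    -- D is abelian
    have hKcop : (Nat.card (D.map L.subtype)).Coprime (Nat.card (S : Subgroup H)) := by
      rw [Subgroup.card_map_of_injective L.subtype_injective, hk]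
      exact Nat.Coprime.pow_right _ hDodd
    have hHcard : Nat.card H = Nat.card C * Nat.card (S : Subgroup H) := by
      rw [← hCidx]; exact (Subgroup.card_mul_index C).symm
    have hmn : (Nat.card C).Coprime (Nat.card (S : Subgroup H)) := by
      rw [hk]; exact Nat.Coprime.pow_right _ hCodd
    obtain ⟨H₂, hH₂, hKH₂⟩ := Cfsg.Agent.Lib_helper1_Hall.hall_dominance _ _ hHcard hmn
      (D.map L.subtype) hKcop
    obtain ⟨g, hg⟩ := Cfsg.Agent.Lib_helper1_Hall.hall_conj _ _ hHcard hmn C H₂ rfl hH₂
    have hH₂ab : ∀ a ∈ H₂, ∀ b ∈ H₂, a * b = b * a := by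
      intro a ha b hb
      rw [← hg, Subgroup.mem_pointwise_smul_iff_inv_smul_mem, MulAut.smul_def,
        MulAut.conj_inv_apply] at ha hb
      have h1 := hCab _ ha _ hb
      calc a * b = g * ((g⁻¹ * a * g) * (g⁻¹ * b * g)) * g⁻¹ := by group
        _ = g * ((g⁻¹ * b * g) * (g⁻¹ * a * g)) * g⁻¹ := by rw [h1]
        _ = b * a := by group
    refine ⟨⟨fun a b => ?_⟩⟩
    have h1 := hH₂ab _ (hKH₂ ⟨a.1, a.2, rfl⟩) _ (hKH₂ ⟨b.1, b.2, rfl⟩)
    exact Subtype.ext (Subtype.ext h1)
  · intro N _
    obtain ⟨D, hab, hodd, j, hj⟩ := has_quotient N hHas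
    obtain ⟨P⟩ : Nonempty (Sylow 2 (H ⧸ N)) := inferInstance
    refine ⟨P, D, ?_, isComplement'_sylow 2 D hodd j hj P⟩
    exact ⟨⟨fun a b => Subtype.ext (hab _ a.2 _ b.2)⟩⟩

end Cfsg.Agent.Lib_helper7_AbComp
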