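import Mathlib
import Cfsg.Prelude.Def_Transfer

set_option autoImplicit false

namespace Cfsg.Agent.Lib_helper7_ClassP3

/-- an element whose class size is prime to `p` centralizes a conjugate of any Sylow `p`-subgroup -/
theorem exists_conj_mem_centralizer_sylow {G : Type*} [Group G] [Finite G] (p : ℕ) [Fact p.Prime]
    (P : Sylow p G) (g : G) (hg : ¬ p ∣ (Subgroup.centralizer ({g} : Set G)).index) :
    ∃ x : G, x⁻¹ * g * x ∈ Subgroup.centralizer ((P : Subgroup G) : Set G) := by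
  classical
  obtain ⟨R⟩ : Nonempty (Sylow p ↥(Subgroup.centralizer ({g} : Set G))) := inferInstance
  have hR'p : IsPGroup p ((R : Subgroup ↥(Subgroup.centralizer ({g} : Set G))).map
      (Subgroup.centralizer ({g} : Set G)).subtype) := R.isPGroup'.map _
  have hR'i : ¬ p ∣ ((R : Subgroup ↥(Subgroup.centralizer ({g} : Set G))).map
      (Subgroup.centralizer ({g} : Set G)).subtype).index := by
    rw [Subgroup.index_map_subtype]
    intro hd
    rcases (Nat.Prime.dvd_mul Fact.out).mp hd with h1 | h1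
    · exact R.not_dvd_index h1
    · exact hg h1
  obtain ⟨c, hc⟩ := MulAction.exists_smul_eq G P (hR'p.toSylow hR'i)
  have hyR : ∀ v ∈ (hR'p.toSylow hR'i : Sylow p G), v * g = g * v := by
    intro v hv
    rw [IsPGroup.mem_toSylow] at hv
    obtain ⟨v', -, rfl⟩ := hv
    exact (Subgroup.mem_centralizer_iff.mp v'.2 g rfl).symm
  have hmem : ∀ v : G, v ∈ (hR'p.toSylow hR'i : Sylow p G) ↔ c⁻¹ * v * c ∈ (P : Subgroup G) := by
    intro v
    rw [← hc]
    show v ∈ ((c • P : Sylow p G) : Subgroup G) ↔ _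
    rw [Sylow.coe_subgroup_smul,
      Subgroup.mem_pointwise_smul_iff_inv_smul_mem, MulAut.smul_def, MulAut.conj_inv_apply]
  refine ⟨c, ?_⟩
  rw [Subgroup.mem_centralizer_iff]
  intro v hv
  have hv' : c * v * c⁻¹ ∈ (hR'p.toSylow hR'i : Sylow p G) := by
    rw [hmem]
    have e2 : c⁻¹ * (c * v * c⁻¹) * c = v := by group
    rw [e2]; exact hv
  have h1 := hyR _ hv'
  calc v * (c⁻¹ * g * c) = c⁻¹ * (c * v * c⁻¹ * g) * c := by group
    _ = c⁻¹ * (g * (c * v * c⁻¹)) * c := by rw [h1]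
    _ = c⁻¹ * g * c * v := by group

/-- the union of the conjugates of `C` has at most `[G : N] * |C|` elements when `N` normalizes `C` -/
theorem card_conj_le {G : Type*} [Group G] [Finite G] (C N : Subgroup G)
    (hN : ∀ n ∈ N, ∀ c ∈ C, n * c * n⁻¹ ∈ C) :
    Set.ncard {g : G | ∃ x : G, x⁻¹ * g * x ∈ C} ≤ N.index * Nat.card C := by
  classical
  obtain ⟨f, hf⟩ : ∃ f : (G ⧸ N) × C → G, ∀ qc, f qc = qc.1.out * (qc.2 : G) * qc.1.out⁻¹ :=
    ⟨fun qc => qc.1.out * (qc.2 : G) * qc.1.out⁻¹, fun _ => rfl⟩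
  have hsub : {g : G | ∃ x : G, x⁻¹ * g * x ∈ C} ⊆ Set.range f := by
    rintro g ⟨x, hx⟩
    obtain ⟨n, hn⟩ := QuotientGroup.mk_out_eq_mul N x
    have hmem : (n : G)⁻¹ * (x⁻¹ * g * x) * ((n : G)⁻¹)⁻¹ ∈ C := hN _ (N.inv_mem n.2) _ hx
    refine ⟨((x : G ⧸ N), ⟨_, hmem⟩), ?_⟩
    rw [hf]
    show (x : G ⧸ N).out * ((n : G)⁻¹ * (x⁻¹ * g * x) * ((n : G)⁻¹)⁻¹) * (x : G ⧸ N).out⁻¹ = g
    rw [hn]; group
  calc Set.ncard {g : G | ∃ x : G, x⁻¹ * g * x ∈ C} ≤ Set.ncard (Set.range f) :=
        Set.ncard_le_ncard hsub (Set.toFinite _)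
    _ ≤ Nat.card ((G ⧸ N) × C) := by
        rw [← Set.image_univ]
        exact (Set.ncard_image_le (Set.toFinite _)).trans (by rw [Set.ncard_univ])
    _ = N.index * Nat.card C := by rw [Nat.card_prod, Subgroup.index_eq_card]

theorem two_mul_card_conj_le {G : Type*} [Group G] [Finite G] (H : Subgroup G)
    (hne : ¬ Subgroup.normalizer (H : Set G) ≤ Subgroup.centralizer (H : Set G)) :
    2 * Set.ncard {g : G | ∃ x : G, x⁻¹ * g * x ∈ Subgroup.centralizer (H : Set G)}
      ≤ Nat.card G := by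
  have hCN : Subgroup.centralizer (H : Set G) ≤ Subgroup.normalizer (H : Set G) :=
    Subgroup.centralizer_le_normalizer _
  have hnorm : ∀ n ∈ Subgroup.normalizer (H : Set G), ∀ c ∈ Subgroup.centralizer (H : Set G),
      n * c * n⁻¹ ∈ Subgroup.centralizer (H : Set G) := by
    intro n hn c hc
    rw [Subgroup.mem_centralizer_iff]
    intro v hv
    have hv' : n⁻¹ * v * n ∈ H := by
      have := (Subgroup.mem_normalizer_iff.mp (Subgroup.inv_mem _ hn) v).mp hv
      simpa using this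
    have h1 := Subgroup.mem_centralizer_iff.mp hc _ hv'
    calc v * (n * c * n⁻¹) = n * ((n⁻¹ * v * n) * c) * n⁻¹ := by group
      _ = n * (c * (n⁻¹ * v * n)) * n⁻¹ := by rw [h1]
      _ = n * c * n⁻¹ * v := by group
  have h1 := card_conj_le (Subgroup.centralizer (H : Set G)) (Subgroup.normalizer (H : Set G)) hnorm
  have hlt : Nat.card (Subgroup.centralizer (H : Set G)) * 2 ≤
      Nat.card (Subgroup.normalizer (H : Set G)) := by
    obtain ⟨k, hk⟩ := Subgroup.card_dvd_of_le hCN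
    have hk2 : 2 ≤ k := by
      by_contra hk'
      push Not at hk'
      interval_cases k
      · rw [mul_zero] at hk
        exact absurd hk Nat.card_pos.ne'
      · rw [mul_one] at hk
        exact hne (Subgroup.eq_of_le_of_card_ge hCN hk.le).ge
    rw [hk]; exact Nat.mul_le_mul_left _ hk2
  have hG : (Subgroup.normalizer (H : Set G)).index * Nat.card (Subgroup.normalizer (H : Set G))
      = Nat.card G := Subgroup.index_mul_card _
  calc 2 * Set.ncard {g : G | ∃ x : G, x⁻¹ * g * x ∈ Subgroup.centralizer (H : Set G)}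
      ≤ 2 * ((Subgroup.normalizer (H : Set G)).index * Nat.card (Subgroup.centralizer (H : Set G))) :=
        Nat.mul_le_mul_left _ h1
    _ = (Subgroup.normalizer (H : Set G)).index * (Nat.card (Subgroup.centralizer (H : Set G)) * 2) := by ring
    _ ≤ (Subgroup.normalizer (H : Set G)).index * Nat.card (Subgroup.normalizer (H : Set G)) :=
        Nat.mul_le_mul_left _ hlt
    _ = Nat.card G := hG

/-- **S4160** -/
theorem s4160 {G : Type*} [Group G] [Finite G] (p q : ℕ) (hp : p.Prime) (hq : q.Prime) (hpq : p ≠ q)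
    (h : ∀ x : G, ¬ p * q ∣ (Subgroup.centralizer ({x} : Set G)).index) :
    Cfsg.HasNormalPComplement p G ∨ Cfsg.HasNormalPComplement q G := by
  classical
  haveI : Fact p.Prime := ⟨hp⟩
  haveI : Fact q.Prime := ⟨hq⟩
  obtain ⟨P⟩ : Nonempty (Sylow p G) := inferInstance
  obtain ⟨Q⟩ : Nonempty (Sylow q G) := inferInstance
  by_cases h1 : Subgroup.normalizer ((P : Subgroup G) : Set G) ≤ Subgroup.centralizer ((P : Subgroup G) : Set G)
  · left
    exact ⟨P, (MonoidHom.transferSylow P h1).ker, inferInstance,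
      MonoidHom.ker_transferSylow_isComplement' P h1⟩
  by_cases h2 : Subgroup.normalizer ((Q : Subgroup G) : Set G) ≤ Subgroup.centralizer ((Q : Subgroup G) : Set G)
  · right
    exact ⟨Q, (MonoidHom.transferSylow Q h2).ker, inferInstance,
      MonoidHom.ker_transferSylow_isComplement' Q h2⟩
  exfalso
  have hb1 := two_mul_card_conj_le (P : Subgroup G) h1
  have hb2 := two_mul_card_conj_le (Q : Subgroup G) h2
  have hcov : {g : G | ∃ x : G, x⁻¹ * g * x ∈ Subgroup.centralizer ((P : Subgroup G) : Set G)} ∪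
      {g : G | ∃ x : G, x⁻¹ * g * x ∈ Subgroup.centralizer ((Q : Subgroup G) : Set G)} = Set.univ := by
    ext g
    simp only [Set.mem_union, Set.mem_univ, iff_true]
    by_cases hgp : p ∣ (Subgroup.centralizer ({g} : Set G)).index
    · right
      have hgq : ¬ q ∣ (Subgroup.centralizer ({g} : Set G)).index := fun hq' =>
        h g (Nat.Coprime.mul_dvd_of_dvd_of_dvd ((Nat.coprime_primes hp hq).mpr hpq) hgp hq')
      exact exists_conj_mem_centralizer_sylow q Q g hgq
    · left; exact exists_conj_mem_centralizer_sylow p P g hgp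
  have hone : 1 ≤ ({g : G | ∃ x : G, x⁻¹ * g * x ∈ Subgroup.centralizer ((P : Subgroup G) : Set G)} ∩
      {g : G | ∃ x : G, x⁻¹ * g * x ∈ Subgroup.centralizer ((Q : Subgroup G) : Set G)}).ncard := by
    rw [Nat.succ_le_iff, Set.ncard_pos (Set.toFinite _)]
    exact ⟨1, ⟨1, by simp⟩, ⟨1, by simp⟩⟩
  have hun := Set.ncard_union_add_ncard_inter
    {g : G | ∃ x : G, x⁻¹ * g * x ∈ Subgroup.centralizer ((P : Subgroup G) : Set G)}
    {g : G | ∃ x : G, x⁻¹ * g * x ∈ Subgroup.centralizer ((Q : Subgroup G) : Set G)}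
  rw [hcov, Set.ncard_univ] at hun
  omega

end Cfsg.Agent.Lib_helper7_ClassP3
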