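import Mathlib
import Cfsg.Agent.Lib_helper1_PGroup

set_option autoImplicit false

namespace Cfsg.Agent.Lib_helper7_TIFam

theorem mem_map_conj {S : Type*} [Group S] (R : Subgroup S) (t x : S) :
    x ∈ R.map (MulAut.conj t).toMonoidHom ↔ t⁻¹ * x * t ∈ R := by
  constructor
  · rintro ⟨a, ha, rfl⟩
    have : t⁻¹ * ((MulAut.conj t).toMonoidHom a) * t = a := by
      show t⁻¹ * (t * a * t⁻¹) * t = a
      group
    rw [this]; exact ha
  · intro h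
    refine ⟨t⁻¹ * x * t, h, ?_⟩
    show t * (t⁻¹ * x * t) * t⁻¹ = x
    group

theorem conj_mem_map {S : Type*} [Group S] (R : Subgroup S) (t : S) {a : S} (ha : a ∈ R) :
    t * a * t⁻¹ ∈ R.map (MulAut.conj t).toMonoidHom := ⟨a, ha, rfl⟩

theorem mem_normalizer_of_map_conj_eq {S : Type*} [Group S] (R : Subgroup S) {t : S}
    (h : R.map (MulAut.conj t).toMonoidHom = R) : t ∈ Subgroup.normalizer (R : Set S) := by
  rw [Subgroup.mem_normalizer_iff]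
  intro x
  have h1 : t * x * t⁻¹ ∈ R ↔ t * x * t⁻¹ ∈ R.map (MulAut.conj t).toMonoidHom := by rw [h]
  rw [h1, mem_map_conj]
  have : t⁻¹ * (t * x * t⁻¹) * t = x := by group
  rw [this]

/-- a proper subgroup of a `p`-group lies in a proper "normal" subgroup -/
theorem exists_proper_normal {S : Type*} [Group S] [Finite S] {p : ℕ} [Fact p.Prime]
    (hS : IsPGroup p S) (H R : Subgroup S) (hRH : R ≤ H) (hne : R ≠ H) :
    ∃ M : Subgroup S, R ≤ M ∧ M ≤ H ∧ M ≠ H ∧ ∀ h ∈ H, ∀ m ∈ M, h * m * h⁻¹ ∈ M := by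
  have hR' : R.subgroupOf H ≠ ⊤ := by
    intro h
    rw [Subgroup.subgroupOf_eq_top] at h
    exact hne (le_antisymm hRH h)
  obtain ⟨M', hM', hle⟩ := (eq_top_or_exists_le_coatom (R.subgroupOf H)).resolve_left hR'
  haveI : Group.IsNilpotent ↥H := (hS.to_subgroup H).isNilpotent
  have hn : M'.Normal := Subgroup.NormalizerCondition.normal_of_coatom M' normalizerCondition_of_isNilpotent hM'
  refine ⟨M'.map H.subtype, ?_, Subgroup.map_subtype_le M', ?_, ?_⟩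
  · intro r hr
    exact ⟨⟨r, hRH hr⟩, hle (Subgroup.mem_subgroupOf.mpr hr), rfl⟩
  · intro h
    apply hM'.1
    rw [eq_top_iff]
    intro x _
    have hx : (x : S) ∈ M'.map H.subtype := by rw [h]; exact x.2
    obtain ⟨m, hm, hmx⟩ := hx
    have : m = x := Subtype.ext hmx
    rw [← this]; exact hm
  · rintro h hh _ ⟨m, hm, rfl⟩
    exact ⟨⟨h, hh⟩ * m * ⟨h, hh⟩⁻¹, hn.conj_mem m hm ⟨h, hh⟩, rfl⟩

section Fam

variable {S : Type*} [Group S] [Finite S] (hS : IsPGroup 2 S)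
  (Δ : Set (Subgroup S)) (hinv : ∀ s : S, ∀ R ∈ Δ, R.map (MulAut.conj s).toMonoidHom ∈ Δ)
  (hord : ∀ R ∈ Δ, ∀ T ∈ Δ, Nat.card ↥R = Nat.card ↥T)
  (hti : ∀ R ∈ Δ, ∀ T ∈ Δ, R = T ∨ R ⊓ T = ⊥)

include hinv hti in
theorem ti_conj {R : Subgroup S} (hR : R ∈ Δ) {t : S}
    (ht : t ∉ Subgroup.normalizer (R : Set S)) {a : S} (ha : a ∈ R)
    (hta : t * a * t⁻¹ ∈ R) : a = 1 := by
  rcases hti _ (hinv t R hR) R hR with h | h
  · exact absurd (mem_normalizer_of_map_conj_eq R h) ht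
  · have h1 : t * a * t⁻¹ ∈ R.map (MulAut.conj t).toMonoidHom ⊓ R :=
      ⟨conj_mem_map R t ha, hta⟩
    rw [h, Subgroup.mem_bot] at h1
    calc a = t⁻¹ * (t * a * t⁻¹) * t := by group
      _ = 1 := by rw [h1]; group

include hinv hti hord in
theorem normalizes_symm {R T : Subgroup S} (hR : R ∈ Δ) (hT : T ∈ Δ)
    (hRT : R ≤ Subgroup.normalizer (T : Set S)) : T ≤ Subgroup.normalizer (R : Set S) := by
  intro t ht
  by_contra htn
  have hmem : ∀ r : ↥R, t * (r : S) * t⁻¹ * (r : S)⁻¹ ∈ T := by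
    intro r
    have h1 : (r : S) * t⁻¹ * (r : S)⁻¹ ∈ T :=
      (Subgroup.mem_normalizer_iff.mp (hRT r.2) t⁻¹).mp (inv_mem ht)
    have : t * (r : S) * t⁻¹ * (r : S)⁻¹ = t * ((r : S) * t⁻¹ * (r : S)⁻¹) := by group
    rw [this]
    exact mul_mem ht h1
  let g : ↥R → ↥T := fun r => ⟨t * (r : S) * t⁻¹ * (r : S)⁻¹, hmem r⟩
  have hinj : Function.Injective g := by
    intro r r' h
    have h1 : t * (r : S) * t⁻¹ * (r : S)⁻¹ = t * (r' : S) * t⁻¹ * (r' : S)⁻¹ :=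
      congrArg Subtype.val h
    have h2 : t * ((r' : S)⁻¹ * (r : S)) * t⁻¹ = (r' : S)⁻¹ * (r : S) := by
      calc t * ((r' : S)⁻¹ * (r : S)) * t⁻¹
          = (t * (r' : S) * t⁻¹)⁻¹ * (t * (r : S) * t⁻¹ * (r : S)⁻¹) * (r : S) := by group
        _ = (t * (r' : S) * t⁻¹)⁻¹ * (t * (r' : S) * t⁻¹ * (r' : S)⁻¹) * (r : S) := by rw [h1]
        _ = (r' : S)⁻¹ * (r : S) := by group
    have h3 : (r' : S)⁻¹ * (r : S) ∈ R := mul_mem (inv_mem r'.2) r.2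
    have h4 := ti_conj Δ hinv hti hR htn h3 (by rw [h2]; exact h3)
    apply Subtype.ext
    calc (r : S) = (r' : S) * ((r' : S)⁻¹ * (r : S)) := by group
      _ = r' := by rw [h4, mul_one]
  have hbij := hinj.bijective_of_nat_card_le (le_of_eq (hord T hT R hR))
  obtain ⟨r, hr⟩ := hbij.2 ⟨t, ht⟩
  have h1 : t * (r : S) * t⁻¹ * (r : S)⁻¹ = t := congrArg Subtype.val hr
  have h2 : t = 1 := by
    have h3 : (r : S) * t⁻¹ * (r : S)⁻¹ = 1 := by
      calc (r : S) * t⁻¹ * (r : S)⁻¹ = t⁻¹ * (t * (r : S) * t⁻¹ * (r : S)⁻¹) := by group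
        _ = 1 := by rw [h1]; group
    have h4 : t⁻¹ = 1 := by
      calc t⁻¹ = (r : S)⁻¹ * ((r : S) * t⁻¹ * (r : S)⁻¹) * (r : S) := by group
        _ = 1 := by rw [h3]; group
    exact inv_eq_one.mp h4
  exact htn (h2 ▸ Subgroup.one_mem _)

include hinv hti hord in
theorem comm_of_normalizes {R T : Subgroup S} (hR : R ∈ Δ) (hT : T ∈ Δ) (hne : R ≠ T)
    (hRT : R ≤ Subgroup.normalizer (T : Set S)) : ∀ r ∈ R, ∀ t ∈ T, r * t = t * r := by
  have hTR := normalizes_symm Δ hinv hord hti hR hT hRT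
  intro r hr t ht
  have h1 : r * t * r⁻¹ * t⁻¹ ∈ T :=
    mul_mem ((Subgroup.mem_normalizer_iff.mp (hRT hr) t).mp ht) (inv_mem ht)
  have h2 : r * t * r⁻¹ * t⁻¹ ∈ R := by
    have h3 : t * r⁻¹ * t⁻¹ ∈ R :=
      (Subgroup.mem_normalizer_iff.mp (hTR ht) r⁻¹).mp (inv_mem hr)
    have : r * t * r⁻¹ * t⁻¹ = r * (t * r⁻¹ * t⁻¹) := by group
    rw [this]
    exact mul_mem hr h3
  have h4 : r * t * r⁻¹ * t⁻¹ = 1 := by
    have hb := (hti R hR T hT).resolve_left hne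
    have : r * t * r⁻¹ * t⁻¹ ∈ R ⊓ T := ⟨h2, h1⟩
    rwa [hb, Subgroup.mem_bot] at this
  calc r * t = (r * t * r⁻¹ * t⁻¹) * t * r := by group
    _ = t * r := by rw [h4, one_mul]

include hS hinv hti hord in
theorem main (hΦ : ∀ R ∈ Δ, frattini ↥R ≠ ⊥) (n : ℕ) :
    ∀ R ∈ Δ, ∀ T ∈ Δ, R ≠ T → Nat.card ↥(R ⊔ T) ≤ n → ∀ r ∈ R, ∀ t ∈ T, r * t = t * r := by
  haveI : Fact (Nat.Prime 2) := ⟨Nat.prime_two⟩
  induction n using Nat.strong_induction_on with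
  | _ n ih =>
    intro R hR T hT hne hcard
    by_contra hcon
    have hRN : ¬ R ≤ Subgroup.normalizer (T : Set S) := fun h =>
      hcon (comm_of_normalizes Δ hinv hord hti hR hT hne h)
    have hTN : ¬ T ≤ Subgroup.normalizer (R : Set S) := fun h =>
      hcon (fun r hr t ht =>
        (comm_of_normalizes Δ hinv hord hti hT hR (Ne.symm hne) h t ht r hr).symm)
    obtain ⟨r₀, hr₀, hr₀N⟩ := SetLike.not_le_iff_exists.mp hRN
    obtain ⟨t₀, ht₀, ht₀N⟩ := SetLike.not_le_iff_exists.mp hTN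
    -- conjugates commute
    have key : ∀ (A B : Subgroup S), A ∈ Δ → B ∈ Δ → A ≤ R ⊔ T → B ≤ R ⊔ T → A ≠ R ⊔ T →
        ∀ t ∈ B, t ∉ Subgroup.normalizer (A : Set S) →
        ∀ a ∈ A, ∀ b ∈ A, a * (t * b * t⁻¹) = (t * b * t⁻¹) * a := by
      intro A B hA hB hAH hBH hAne t ht htN a ha b hb
      obtain ⟨M, hAM, hMH, hMne, hMn⟩ := exists_proper_normal hS (R ⊔ T) A hAH hAne
      have hA' : A.map (MulAut.conj t).toMonoidHom ∈ Δ := hinv t A hA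
      have hne' : A ≠ A.map (MulAut.conj t).toMonoidHom := fun h =>
        htN (mem_normalizer_of_map_conj_eq A h.symm)
      have hle : A ⊔ A.map (MulAut.conj t).toMonoidHom ≤ M := by
        apply sup_le hAM
        rintro _ ⟨x, hx, rfl⟩
        exact hMn t (hBH ht) x (hAM hx)
      have hlt : Nat.card ↥(A ⊔ A.map (MulAut.conj t).toMonoidHom) < n := by
        have h1 : Nat.card ↥(A ⊔ A.map (MulAut.conj t).toMonoidHom) ≤ Nat.card ↥M :=
          Subgroup.card_le_of_le hle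
        have h2 : Nat.card ↥M < Nat.card ↥(R ⊔ T) := by
          by_contra h
          push Not at h
          exact hMne (Subgroup.eq_of_le_of_card_ge hMH h)
        omega
      exact ih _ hlt A hA _ hA' hne' le_rfl a ha _ (conj_mem_map A t hb)
    have hRne : R ≠ R ⊔ T := by
      intro h
      have hTR : T ≤ R := by rw [h]; exact le_sup_right
      exact hne (Subgroup.eq_of_le_of_card_ge hTR (le_of_eq (hord R hR T hT))).symm
    have hTne : T ≠ R ⊔ T := by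
      intro h
      have hRT : R ≤ T := by rw [h]; exact le_sup_left
      exact hne (Subgroup.eq_of_le_of_card_ge hRT (le_of_eq (hord T hT R hR)))
    have F1 : ∀ t ∈ T, t ∉ Subgroup.normalizer (R : Set S) →
        ∀ a ∈ R, ∀ b ∈ R, a * (t * b * t⁻¹) = (t * b * t⁻¹) * a :=
      key R T hR hT le_sup_left le_sup_right hRne
    have F2 : ∀ r ∈ R, r ∉ Subgroup.normalizer (T : Set S) →
        ∀ a ∈ T, ∀ b ∈ T, a * (r * b * r⁻¹) = (r * b * r⁻¹) * a :=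
      key T R hT hR le_sup_right le_sup_left hTne
    -- an element s of T moving R with s * s normalizing R
    obtain ⟨s, hsT, hsN, hssN⟩ : ∃ s ∈ T, s ∉ Subgroup.normalizer (R : Set S) ∧
        s * s ∈ Subgroup.normalizer (R : Set S) := by
      classical
      have hex : ∃ k : ℕ, t₀ ^ 2 ^ k ∈ Subgroup.normalizer (R : Set S) := by
        obtain ⟨k, hk⟩ := hS t₀
        exact ⟨k, hk ▸ Subgroup.one_mem _⟩
      have hfind := Nat.find_spec hex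
      have hmin := fun m => Nat.find_min hex (m := m)
      have hk0 : Nat.find hex ≠ 0 := by
        intro h
        rw [h] at hfind
        simp only [pow_zero, pow_one] at hfind
        exact ht₀N hfind
      obtain ⟨j, hj⟩ := Nat.exists_eq_succ_of_ne_zero hk0
      refine ⟨t₀ ^ 2 ^ j, pow_mem ht₀ _, hmin j (by omega), ?_⟩
      rw [hj] at hfind
      have : t₀ ^ 2 ^ (j + 1) = t₀ ^ 2 ^ j * t₀ ^ 2 ^ j := by
        rw [pow_succ, pow_mul, pow_two]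
      rwa [Nat.succ_eq_add_one, this] at hfind
    -- [1]
    have step1 : ∀ r ∈ R, r ∉ Subgroup.normalizer (T : Set S) → r * r = 1 := by
      intro r hr hrN
      have hc1 : (s * r * s⁻¹ * r⁻¹) * (s * r * s⁻¹ * r⁻¹) =
          (s * (r * r) * s⁻¹) * (r * r)⁻¹ := by
        have h := F1 s hsT hsN r⁻¹ (inv_mem hr) r hr
        calc (s * r * s⁻¹ * r⁻¹) * (s * r * s⁻¹ * r⁻¹)
            = (s * r * s⁻¹) * (r⁻¹ * (s * r * s⁻¹)) * r⁻¹ := by group
          _ = (s * r * s⁻¹) * ((s * r * s⁻¹) * r⁻¹) * r⁻¹ := by rw [h]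
          _ = (s * (r * r) * s⁻¹) * (r * r)⁻¹ := by group
      have hc2 : (s * r * s⁻¹ * r⁻¹) * (s * r * s⁻¹ * r⁻¹) =
          (s * s) * (r * (s * s)⁻¹ * r⁻¹) := by
        have h := F2 r hr hrN s hsT s⁻¹ (inv_mem hsT)
        calc (s * r * s⁻¹ * r⁻¹) * (s * r * s⁻¹ * r⁻¹)
            = s * ((r * s⁻¹ * r⁻¹) * s) * (r * s⁻¹ * r⁻¹) := by group
          _ = s * (s * (r * s⁻¹ * r⁻¹)) * (r * s⁻¹ * r⁻¹) := by rw [h]
          _ = (s * s) * (r * (s * s)⁻¹ * r⁻¹) := by group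
      have h3 : s * (r * r) * s⁻¹ = ((s * s) * r * (s * s)⁻¹) * r := by
        calc s * (r * r) * s⁻¹ = ((s * (r * r) * s⁻¹) * (r * r)⁻¹) * (r * r) := by group
          _ = ((s * s) * (r * (s * s)⁻¹ * r⁻¹)) * (r * r) := by rw [← hc1, hc2]
          _ = ((s * s) * r * (s * s)⁻¹) * r := by group
      have h4 : s * (r * r) * s⁻¹ ∈ R := by
        rw [h3]
        exact mul_mem ((Subgroup.mem_normalizer_iff.mp hssN r).mp hr) hr
      exact ti_conj Δ hinv hti hR hsN (mul_mem hr hr) h4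
    have hr₀2 : r₀ * r₀ = 1 := step1 r₀ hr₀ hr₀N
    have hr₀inv : r₀⁻¹ = r₀ := inv_eq_of_mul_eq_one_left hr₀2
    -- r₀ inverts R ∩ N(T)
    have hinvY : ∀ y ∈ R, y ∈ Subgroup.normalizer (T : Set S) → r₀ * y * r₀⁻¹ = y⁻¹ := by
      intro y hy hyN
      have h1 : r₀ * y ∉ Subgroup.normalizer (T : Set S) := by
        intro h
        apply hr₀N
        have : r₀ = (r₀ * y) * y⁻¹ := by group
        rw [this]
        exact mul_mem h (inv_mem hyN)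
      have h2 := step1 (r₀ * y) (mul_mem hr₀ hy) h1
      rw [hr₀inv]
      calc r₀ * y * r₀ = ((r₀ * y) * (r₀ * y)) * y⁻¹ := by group
        _ = y⁻¹ := by rw [h2, one_mul]
    -- [2] squaring is injective on R ∩ N(T)
    have hdT : ∀ y ∈ R, y ∈ Subgroup.normalizer (T : Set S) →
        t₀ * y * t₀⁻¹ * y⁻¹ ∈ T := by
      intro y _ hyN
      have h1 : y * t₀⁻¹ * y⁻¹ ∈ T :=
        (Subgroup.mem_normalizer_iff.mp hyN t₀⁻¹).mp (inv_mem ht₀)
      have : t₀ * y * t₀⁻¹ * y⁻¹ = t₀ * (y * t₀⁻¹ * y⁻¹) := by group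
      rw [this]
      exact mul_mem ht₀ h1
    have hsqf : ∀ y ∈ R, y ∈ Subgroup.normalizer (T : Set S) →
        r₀ * (t₀ * y * t₀⁻¹ * y⁻¹) * r₀⁻¹ * (t₀ * y * t₀⁻¹ * y⁻¹)⁻¹ = y * y := by
      intro y hy hyN
      have h1 := F1 t₀ ht₀ ht₀N r₀ hr₀ y hy
      have h2 := F1 t₀ ht₀ ht₀N y hy y hy
      have h3 := hinvY y hy hyN
      have h4 : r₀ * y⁻¹ * r₀⁻¹ = y := by
        calc r₀ * y⁻¹ * r₀⁻¹ = (r₀ * y * r₀⁻¹)⁻¹ := by group
          _ = y := by rw [h3, inv_inv]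
      calc r₀ * (t₀ * y * t₀⁻¹ * y⁻¹) * r₀⁻¹ * (t₀ * y * t₀⁻¹ * y⁻¹)⁻¹
          = (r₀ * (t₀ * y * t₀⁻¹)) * y⁻¹ * r₀⁻¹ * (t₀ * y * t₀⁻¹ * y⁻¹)⁻¹ := by group
        _ = ((t₀ * y * t₀⁻¹) * r₀) * y⁻¹ * r₀⁻¹ * (t₀ * y * t₀⁻¹ * y⁻¹)⁻¹ := by rw [h1]
        _ = (t₀ * y * t₀⁻¹) * (r₀ * y⁻¹ * r₀⁻¹) * (t₀ * y * t₀⁻¹ * y⁻¹)⁻¹ := by group
        _ = (t₀ * y * t₀⁻¹) * y * (t₀ * y * t₀⁻¹ * y⁻¹)⁻¹ := by rw [h4]
        _ = ((t₀ * y * t₀⁻¹) * y) * y * (t₀ * y * t₀⁻¹)⁻¹ := by group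
        _ = (y * (t₀ * y * t₀⁻¹)) * y * (t₀ * y * t₀⁻¹)⁻¹ := by rw [h2]
        _ = y * ((t₀ * y * t₀⁻¹) * y) * (t₀ * y * t₀⁻¹)⁻¹ := by group
        _ = y * (y * (t₀ * y * t₀⁻¹)) * (t₀ * y * t₀⁻¹)⁻¹ := by rw [h2]
        _ = y * y := by group
    have hsqinj : ∀ y ∈ R, y ∈ Subgroup.normalizer (T : Set S) →
        ∀ y' ∈ R, y' ∈ Subgroup.normalizer (T : Set S) → y * y = y' * y' → y = y' := by
      intro y hy hyN y' hy' hyN' hyy
      obtain ⟨d, hd⟩ : ∃ d, d = t₀ * y * t₀⁻¹ * y⁻¹ := ⟨_, rfl⟩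
      obtain ⟨d', hd'⟩ : ∃ d', d' = t₀ * y' * t₀⁻¹ * y'⁻¹ := ⟨_, rfl⟩
      have e1 := hsqf y hy hyN
      have e2 := hsqf y' hy' hyN'
      rw [← hd] at e1
      rw [← hd'] at e2
      have hdT1 : d ∈ T := hd ▸ hdT y hy hyN
      have hdT2 : d' ∈ T := hd' ▸ hdT y' hy' hyN'
      have h5 : r₀ * (d'⁻¹ * d) * r₀⁻¹ = d'⁻¹ * d := by
        calc r₀ * (d'⁻¹ * d) * r₀⁻¹
            = (r₀ * d' * r₀⁻¹)⁻¹ * (r₀ * d * r₀⁻¹ * d⁻¹) * d := by group
          _ = (r₀ * d' * r₀⁻¹)⁻¹ * (r₀ * d' * r₀⁻¹ * d'⁻¹) * d := by rw [e1, e2, hyy]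
          _ = d'⁻¹ * d := by group
      have h6 : d'⁻¹ * d ∈ T := mul_mem (inv_mem hdT2) hdT1
      have h7 := ti_conj Δ hinv hti hT hr₀N h6 (by rw [h5]; exact h6)
      have h8 : d = d' := by
        calc d = d' * (d'⁻¹ * d) := by group
          _ = d' := by rw [h7, mul_one]
      rw [hd, hd'] at h8
      have h9 : t₀ * (y'⁻¹ * y) * t₀⁻¹ = y'⁻¹ * y := by
        calc t₀ * (y'⁻¹ * y) * t₀⁻¹
            = (t₀ * y' * t₀⁻¹)⁻¹ * (t₀ * y * t₀⁻¹ * y⁻¹) * y := by group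
          _ = (t₀ * y' * t₀⁻¹)⁻¹ * (t₀ * y' * t₀⁻¹ * y'⁻¹) * y := by rw [h8]
          _ = y'⁻¹ * y := by group
      have h10 : y'⁻¹ * y ∈ R := mul_mem (inv_mem hy') hy
      have h11 := ti_conj Δ hinv hti hR ht₀N h10 (by rw [h9]; exact h10)
      calc y = y' * (y'⁻¹ * y) := by group
        _ = y' := by rw [h11, mul_one]
    have hY1 : ∀ k : ℕ, ∀ y ∈ R, y ∈ Subgroup.normalizer (T : Set S) → y ^ 2 ^ k = 1 →
        y = 1 := by
      intro k
      induction k with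
      | zero =>
        intro y _ _ h
        simpa using h
      | succ k ihk =>
        intro y hy hyN h
        have h1 : (y * y) ^ 2 ^ k = 1 := by
          rw [← pow_two, ← pow_mul, ← pow_succ']
          exact h
        have h2 := ihk (y * y) (mul_mem hy hy) (mul_mem hyN hyN) h1
        exact hsqinj y hy hyN 1 R.one_mem (Subgroup.one_mem _) (by rw [h2, one_mul])
    -- [3]
    have hexp : ∀ x ∈ R, x * x = 1 := by
      intro x hx
      by_cases hxN : x ∈ Subgroup.normalizer (T : Set S)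
      · obtain ⟨k, hk⟩ := hS x
        rw [hY1 k x hx hxN hk, one_mul]
      · exact step1 x hx hxN
    have hsq' : ∀ x : ↥R, x * x = 1 := fun x => Subtype.ext (hexp x x.2)
    have hinv' : ∀ x : ↥R, x⁻¹ = x := fun x => inv_eq_of_mul_eq_one_left (hsq' x)
    have hcomm : ∀ a b : ↥R, a * b = b * a := by
      intro a b
      calc a * b = (a * b)⁻¹ := (hinv' _).symm
        _ = b⁻¹ * a⁻¹ := mul_inv_rev a b
        _ = b * a := by rw [hinv', hinv']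
    have hexp2 : ∀ y : ↥R, y ^ 2 = 1 := fun y => by rw [pow_two]; exact hsq' y
    exact hΦ R hR (Lib_helper1_PGroup.frattini_eq_bot_of_elementary (p := 2) hcomm hexp2)

end Fam

theorem s1782 {S : Type*} [Group S] [Finite S] (hS : IsPGroup 2 S)
    (Δ : Set (Subgroup S)) (hinv : ∀ s : S, ∀ R ∈ Δ, R.map (MulAut.conj s).toMonoidHom ∈ Δ)
    (hΦ : ∀ R ∈ Δ, frattini ↥R ≠ ⊥) (hord : ∀ R ∈ Δ, ∀ T ∈ Δ, Nat.card ↥R = Nat.card ↥T)
    (hti : ∀ R ∈ Δ, ∀ T ∈ Δ, R = T ∨ R ⊓ T = ⊥) :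
    ∀ R ∈ Δ, ∀ T ∈ Δ, R ≠ T → ⁅R, T⁆ = ⊥ := by
  intro R hR T hT hne
  rw [Subgroup.commutator_eq_bot_iff_le_centralizer]
  intro r hr
  rw [Subgroup.mem_centralizer_iff]
  intro t ht
  exact (main hS Δ hinv hord hti hΦ _ R hR T hT hne le_rfl r hr t ht).symm

end Cfsg.Agent.Lib_helper7_TIFam
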