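import Mathlib
import Cfsg.Prelude.Def_Transfer
import Cfsg.Agent.Lib_helper7_TIFam

set_option autoImplicit false

namespace Cfsg.Agent.Lib_helper7_TIAb

open Cfsg Cfsg.Agent.Lib_helper7_TIFam

/-- elements of `X ⊔ B` when `X` normalizes `B` -/
theorem exists_mul_of_mem_sup {G : Type*} [Group G] (X B : Subgroup G)
    (hXB : ∀ x ∈ X, ∀ b ∈ B, x * b * x⁻¹ ∈ B) :
    ∀ w ∈ X ⊔ B, ∃ x ∈ X, ∃ b ∈ B, w = x * b := by
  let Q : Subgroup G :=
    { carrier := {w | ∃ x ∈ X, ∃ b ∈ B, w = x * b}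
      one_mem' := ⟨1, X.one_mem, 1, B.one_mem, by group⟩
      mul_mem' := by
        rintro w₁ w₂ ⟨x₁, hx₁, b₁, hb₁, h₁⟩ ⟨x₂, hx₂, b₂, hb₂, h₂⟩
        refine ⟨x₁ * x₂, mul_mem hx₁ hx₂, (x₂⁻¹ * b₁ * x₂⁻¹⁻¹) * b₂,
          mul_mem (hXB _ (inv_mem hx₂) b₁ hb₁) hb₂, ?_⟩
        rw [h₁, h₂]; group
      inv_mem' := by
        rintro w ⟨x, hx, b, hb, h⟩
        refine ⟨x⁻¹, inv_mem hx, x * b⁻¹ * x⁻¹, hXB x hx _ (inv_mem hb), ?_⟩
        rw [h]; group }
  have hle : X ⊔ B ≤ Q := by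
    apply sup_le
    · intro x hx
      exact ⟨x, hx, 1, B.one_mem, by group⟩
    · intro b hb
      exact ⟨1, X.one_mem, b, hb, by group⟩
  intro w hw
  exact hle hw

theorem s1781 {G : Type*} [Group G] [Finite G] (A : Subgroup G)
    (hA2 : IsPGroup 2 ↥A) (hAa : IsMulCommutative ↥A)
    (hti : ∀ h : G, A.map (MulAut.conj h).toMonoidHom = A ∨
      A.map (MulAut.conj h).toMonoidHom ⊓ A = ⊥)
    (g : G) (hg : A.map (MulAut.conj g).toMonoidHom ≠ A) :
    Cfsg.IsElementaryAbelian 2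
      (A ⊓ Subgroup.normalizer ((A.map (MulAut.conj g).toMonoidHom : Subgroup G) : Set G)) ∨
      ⁅A, A.map (MulAut.conj g).toMonoidHom⁆ = ⊥ := by
  classical
  haveI : Fact (Nat.Prime 2) := ⟨Nat.prime_two⟩
  obtain ⟨B, hBdef⟩ : ∃ B, B = A.map (MulAut.conj g).toMonoidHom := ⟨_, rfl⟩
  rw [← hBdef] at hg ⊢
  obtain ⟨Δ, hΔ⟩ : ∃ Δ : Set (Subgroup G),
      Δ = Set.range (fun h : G => A.map (MulAut.conj h).toMonoidHom) := ⟨_, rfl⟩
  have hinv : ∀ s : G, ∀ R ∈ Δ, R.map (MulAut.conj s).toMonoidHom ∈ Δ := by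
    intro s R hR
    rw [hΔ] at hR ⊢
    obtain ⟨h, rfl⟩ := hR
    refine ⟨s * h, ?_⟩
    ext x
    simp only [mem_map_conj]
    have : (s * h)⁻¹ * x * (s * h) = h⁻¹ * (s⁻¹ * x * s) * h := by group
    rw [this]
  have hord : ∀ R ∈ Δ, ∀ T ∈ Δ, Nat.card ↥R = Nat.card ↥T := by
    intro R hR T hT
    rw [hΔ] at hR hT
    obtain ⟨h, rfl⟩ := hR
    obtain ⟨k, rfl⟩ := hT
    rw [Subgroup.card_map_of_injective (MulAut.conj h).injective,
      Subgroup.card_map_of_injective (MulAut.conj k).injective]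
  have hti' : ∀ R ∈ Δ, ∀ T ∈ Δ, R = T ∨ R ⊓ T = ⊥ := by
    intro R hR T hT
    rw [hΔ] at hR hT
    obtain ⟨h, rfl⟩ := hR
    obtain ⟨k, rfl⟩ := hT
    have key : ∀ x : G, (k⁻¹ * h)⁻¹ * (k⁻¹ * x * k) * (k⁻¹ * h) = h⁻¹ * x * h := by
      intro x; group
    rcases hti (k⁻¹ * h) with h1 | h1
    · left
      ext x
      rw [mem_map_conj, mem_map_conj]
      have h2 : k⁻¹ * x * k ∈ A ↔ k⁻¹ * x * k ∈ A.map (MulAut.conj (k⁻¹ * h)).toMonoidHom := by
        rw [h1]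
      rw [h2, mem_map_conj, key]
    · right
      rw [eq_bot_iff]
      intro x hx
      rw [Subgroup.mem_bot]
      have hx1 : h⁻¹ * x * h ∈ A := (mem_map_conj A h x).mp hx.1
      have hx2 : k⁻¹ * x * k ∈ A := (mem_map_conj A k x).mp hx.2
      have h3 : k⁻¹ * x * k ∈ A.map (MulAut.conj (k⁻¹ * h)).toMonoidHom ⊓ A := by
        refine ⟨?_, hx2⟩
        exact (mem_map_conj A (k⁻¹ * h) _).mpr (by rw [key]; exact hx1)
      rw [h1, Subgroup.mem_bot] at h3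
      calc x = k * (k⁻¹ * x * k) * k⁻¹ := by group
        _ = 1 := by rw [h3]; group
  have hAΔ : A ∈ Δ := by
    rw [hΔ]
    refine ⟨1, ?_⟩
    ext x
    rw [mem_map_conj]
    simp
  have hBΔ : B ∈ Δ := by rw [hΔ, hBdef]; exact ⟨g, rfl⟩
  have hAc : ∀ a ∈ A, ∀ b ∈ A, a * b = b * a := fun a ha b hb =>
    congrArg Subtype.val (hAa.is_comm.comm ⟨a, ha⟩ ⟨b, hb⟩)
  by_cases hBN : B ≤ Subgroup.normalizer (A : Set G)
  · right
    have hcomm := comm_of_normalizes Δ hinv hord hti' hBΔ hAΔ hg hBN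
    rw [Subgroup.commutator_eq_bot_iff_le_centralizer]
    intro a ha
    rw [Subgroup.mem_centralizer_iff]
    intro b hb
    exact hcomm b hb a ha
  · left
    refine ⟨⟨⟨fun a b => Subtype.ext (hAc a a.2.1 b b.2.1)⟩⟩, ?_⟩
    intro x hx
    rw [pow_two]
    obtain ⟨hxA, hxN⟩ := hx
    have hxN' : x ∈ Subgroup.normalizer (B : Set G) := hxN
    -- basic facts on B
    have hmemB : ∀ y, y ∈ B ↔ g⁻¹ * y * g ∈ A := fun y => by rw [hBdef]; exact mem_map_conj A g y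
    have hBc : ∀ a ∈ B, ∀ b ∈ B, a * b = b * a := by
      intro a ha b hb
      have h := hAc _ ((hmemB a).mp ha) _ ((hmemB b).mp hb)
      calc a * b = g * ((g⁻¹ * a * g) * (g⁻¹ * b * g)) * g⁻¹ := by group
        _ = g * ((g⁻¹ * b * g) * (g⁻¹ * a * g)) * g⁻¹ := by rw [h]
        _ = b * a := by group
    have hB2 : IsPGroup 2 ↥B := by rw [hBdef]; exact hA2.map _
    have hAB : A ⊓ B = ⊥ := by
      rcases hti g with h | h
      · exact absurd (hBdef.trans h) hg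
      · rw [hBdef, inf_comm]; exact h
    obtain ⟨b₀, hb₀B, hb₀N⟩ := SetLike.not_le_iff_exists.mp hBN
    -- the 2-group P = X B
    obtain ⟨Xs, hXs⟩ : ∃ Xs : Subgroup G, Xs = A ⊓ Subgroup.normalizer (B : Set G) := ⟨_, rfl⟩
    have hXsA : Xs ≤ A := hXs ▸ inf_le_left
    have hXsN : Xs ≤ Subgroup.normalizer (B : Set G) := hXs ▸ inf_le_right
    have hX2 : IsPGroup 2 ↥Xs := hA2.to_le hXsA
    have hP2 : IsPGroup 2 ↥(Xs ⊔ B) := IsPGroup.to_sup_of_normal_right' hX2 hB2 hXsN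
    haveI : Group.IsNilpotent ↥(Xs ⊔ B) := hP2.isNilpotent
    obtain ⟨W, hW⟩ : ∃ W : Subgroup ↥(Xs ⊔ B),
        W = (Subgroup.normalizer (A : Set G)).subgroupOf (Xs ⊔ B) := ⟨_, rfl⟩
    have hWmem : ∀ w : ↥(Xs ⊔ B), w ∈ W ↔ (w : G) ∈ Subgroup.normalizer (A : Set G) := by
      intro w; rw [hW, Subgroup.mem_subgroupOf]
    have hWtop : W ≠ ⊤ := by
      intro h
      have : (⟨b₀, Subgroup.mem_sup_right hb₀B⟩ : ↥(Xs ⊔ B)) ∈ W := by rw [h]; trivial
      exact hb₀N ((hWmem _).mp this)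
    have hnc := Group.normalizerCondition_of_isNilpotent W (lt_top_iff_ne_top.mpr hWtop)
    obtain ⟨w, hwN, hwW⟩ := SetLike.exists_of_lt hnc
    have hXB : ∀ x' ∈ Xs, ∀ b ∈ B, x' * b * x'⁻¹ ∈ B := fun x' hx' b hb =>
      (Subgroup.mem_normalizer_iff.mp (hXsN hx') b).mp hb
    obtain ⟨x₁, hx₁, b₁, hb₁, hwdec⟩ := exists_mul_of_mem_sup Xs B hXB (w : G) w.2
    have hAN : A ≤ Subgroup.normalizer (A : Set G) := Subgroup.le_normalizer
    have hb₁N : b₁ ∉ Subgroup.normalizer (A : Set G) := by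
      intro h
      apply hwW
      rw [hWmem, hwdec]
      exact mul_mem (hAN (hXsA hx₁)) h
    have hconjN : ∀ x' ∈ Xs, b₁ * x' * b₁⁻¹ ∈ Subgroup.normalizer (A : Set G) := by
      intro x' hx'
      have h1 : (⟨x', Subgroup.mem_sup_left hx'⟩ : ↥(Xs ⊔ B)) ∈ W := by
        rw [hWmem]; exact hAN (hXsA hx')
      have h2 := (Subgroup.mem_normalizer_iff.mp hwN _).mp h1
      rw [hWmem] at h2
      have h3 : (w : G) * x' * (w : G)⁻¹ ∈ Subgroup.normalizer (A : Set G) := h2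
      have h4 : b₁ * x' * b₁⁻¹ = x₁⁻¹ * ((w : G) * x' * (w : G)⁻¹) * x₁ := by
        rw [hwdec]; group
      rw [h4]
      exact mul_mem (mul_mem (inv_mem (hAN (hXsA hx₁))) h3) (hAN (hXsA hx₁))
    have hxXs : x ∈ Xs := by rw [hXs]; exact ⟨hxA, hxN'⟩
    -- c₁
    obtain ⟨c₁, hc₁⟩ : ∃ c₁, c₁ = b₁ * x * b₁⁻¹ * x⁻¹ := ⟨_, rfl⟩
    have hc₁N : c₁ ∈ Subgroup.normalizer (A : Set G) := by
      rw [hc₁]
      exact mul_mem (hconjN x hxXs) (inv_mem (hAN hxA))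
    have hc₁B : c₁ ∈ B := by
      have h1 : x * b₁⁻¹ * x⁻¹ ∈ B := hXB x hxXs _ (inv_mem hb₁)
      have : c₁ = b₁ * (x * b₁⁻¹ * x⁻¹) := by rw [hc₁]; group
      rw [this]
      exact mul_mem hb₁ h1
    have hpowf : ∀ m : ℕ, b₁ ^ m * x * (b₁ ^ m)⁻¹ * x⁻¹ = c₁ ^ m := by
      intro m
      induction m with
      | zero => simp
      | succ m ih =>
        have hcm : b₁ * c₁ ^ m = c₁ ^ m * b₁ := hBc b₁ hb₁ _ (pow_mem hc₁B m)
        calc b₁ ^ (m + 1) * x * (b₁ ^ (m + 1))⁻¹ * x⁻¹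
            = b₁ * ((b₁ ^ m * x * (b₁ ^ m)⁻¹ * x⁻¹) * x) * b₁⁻¹ * x⁻¹ := by
              rw [pow_succ']; group
          _ = b₁ * (c₁ ^ m * x) * b₁⁻¹ * x⁻¹ := by rw [ih]
          _ = (b₁ * c₁ ^ m) * (x * b₁⁻¹ * x⁻¹) := by group
          _ = (c₁ ^ m * b₁) * (x * b₁⁻¹ * x⁻¹) := by rw [hcm]
          _ = c₁ ^ m * (b₁ * x * b₁⁻¹ * x⁻¹) := by group
          _ = c₁ ^ (m + 1) := by rw [← hc₁, pow_succ]
    -- power trick
    have hex : ∃ k : ℕ, b₁ ^ 2 ^ k ∈ Subgroup.normalizer (A : Set G) := by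
      obtain ⟨k, hk⟩ := hB2 ⟨b₁, hb₁⟩
      have hk' : b₁ ^ 2 ^ k = 1 := by
        have := congrArg Subtype.val hk
        simpa using this
      exact ⟨k, hk' ▸ Subgroup.one_mem _⟩
    have hfind := Nat.find_spec hex
    have hmin := fun m => Nat.find_min hex (m := m)
    have hk0 : Nat.find hex ≠ 0 := by
      intro h
      rw [h] at hfind
      simp only [pow_zero, pow_one] at hfind
      exact hb₁N hfind
    obtain ⟨j, hj⟩ := Nat.exists_eq_succ_of_ne_zero hk0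
    obtain ⟨b, hbdef⟩ : ∃ b, b = b₁ ^ 2 ^ j := ⟨_, rfl⟩
    have hbB : b ∈ B := hbdef ▸ pow_mem hb₁ _
    have hbN : b ∉ Subgroup.normalizer (A : Set G) := hbdef ▸ hmin j (by omega)
    have hbbN : b * b ∈ Subgroup.normalizer (A : Set G) := by
      rw [hj] at hfind
      have : b₁ ^ 2 ^ (j + 1) = b * b := by
        rw [hbdef, pow_succ, pow_mul, pow_two]
      rwa [Nat.succ_eq_add_one, this] at hfind
    obtain ⟨c, hc⟩ : ∃ c, c = b * x * b⁻¹ * x⁻¹ := ⟨_, rfl⟩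
    have hcpow : c = c₁ ^ 2 ^ j := by rw [hc, hbdef]; exact hpowf _
    have hcN : c ∈ Subgroup.normalizer (A : Set G) := hcpow ▸ pow_mem hc₁N _
    have hcB : c ∈ B := hcpow ▸ pow_mem hc₁B _
    -- commuting facts
    have hcommXY : ∀ y ∈ B, y ∈ Subgroup.normalizer (A : Set G) → x * y = y * x := by
      intro y hyB hyN
      have h1 : x * y * x⁻¹ * y⁻¹ ∈ B := mul_mem (hXB x hxXs y hyB) (inv_mem hyB)
      have h2 : x * y * x⁻¹ * y⁻¹ ∈ A := by
        have h3 : y * x⁻¹ * y⁻¹ ∈ A :=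
          (Subgroup.mem_normalizer_iff.mp hyN x⁻¹).mp (inv_mem hxA)
        have : x * y * x⁻¹ * y⁻¹ = x * (y * x⁻¹ * y⁻¹) := by group
        rw [this]
        exact mul_mem hxA h3
      have h4 : x * y * x⁻¹ * y⁻¹ ∈ A ⊓ B := ⟨h2, h1⟩
      rw [hAB, Subgroup.mem_bot] at h4
      calc x * y = (x * y * x⁻¹ * y⁻¹) * y * x := by group
        _ = y * x := by rw [h4, one_mul]
    have hxc : x * c = c * x := hcommXY c hcB hcN
    have hxbb : x * (b * b) = (b * b) * x := hcommXY _ (mul_mem hbB hbB) hbbN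
    have hbc : b * c = c * b := hBc b hbB c hcB
    have hbx : b * x = c * x * b := by rw [hc]; group
    have hcc : c * c = 1 := by
      have h1 : (b * b) * x = (c * c) * x * (b * b) := by
        calc (b * b) * x = b * (b * x) := by group
          _ = b * (c * x * b) := by rw [hbx]
          _ = (b * c) * x * b := by group
          _ = (c * b) * x * b := by rw [hbc]
          _ = c * (b * x) * b := by group
          _ = c * (c * x * b) * b := by rw [hbx]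
          _ = (c * c) * x * (b * b) := by group
      rw [← hxbb] at h1
      have h2 : x * (b * b) = (c * c) * (x * (b * b)) := by
        rw [mul_assoc (c * c) x (b * b)] at h1; exact h1
      have h3 : (c * c) * (x * (b * b)) = 1 * (x * (b * b)) := by rw [one_mul]; exact h2.symm
      exact mul_right_cancel h3
    have hfix : b * (x * x) * b⁻¹ = x * x := by
      have h1 : b * x * b⁻¹ = c * x := by rw [hc]; group
      calc b * (x * x) * b⁻¹ = (b * x * b⁻¹) * (b * x * b⁻¹) := by group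
        _ = (c * x) * (c * x) := by rw [h1]
        _ = c * (x * c) * x := by group
        _ = c * (c * x) * x := by rw [hxc]
        _ = (c * c) * (x * x) := by group
        _ = x * x := by rw [hcc, one_mul]
    exact ti_conj Δ hinv hti' hAΔ hbN (mul_mem hxA hxA) (by rw [hfix]; exact mul_mem hxA hxA)

end Cfsg.Agent.Lib_helper7_TIAb
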