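import Mathlib
import Cfsg.Prelude.Def_Solvable
import Cfsg.Prelude.Def_Local
import Cfsg.Prelude.Def_CaseTheorems
import Cfsg.Agent.Lib_helper1_Frobenius
import Cfsg.Agent.Lib_helper1_Coprime
import Cfsg.Agent.Lib_helper2_Comp
import Cfsg.Agent.Lib_helper2_PComp
import Cfsg.Agent.Lib_helper5_Fitting
import Cfsg.Agent.Lib_helper7_PCore
import Cfsg.Agent.Lib_helper7_ClassP
import Cfsg.Agent.Lib_helper7_TIAb

set_option autoImplicit false

namespace Cfsg.Agent.Lib_helper7_CycSyl

open Cfsg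

universe u

/-- in a cyclic subgroup, the elements killed by `p` lie in any subgroup of order `p` -/
theorem mem_zpowers_of_pow_eq_one {G : Type*} [Group G] [Finite G] {p : ℕ} (hp : p.Prime)
    (P₁ : Subgroup G) (hc : IsCyclic ↥P₁) {y t : G} (hy : y ∈ P₁) (hyo : orderOf y = p)
    (ht : t ∈ P₁) (htp : t ^ p = 1) : t ∈ Subgroup.zpowers y := by
  classical
  haveI : Fintype ↥P₁ := Fintype.ofFinite _
  by_contra hcon
  have h1 := IsCyclic.card_pow_eq_one_le (α := ↥P₁) hp.pos
  let y' : ↥P₁ := ⟨y, hy⟩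
  let t' : ↥P₁ := ⟨t, ht⟩
  have hy'p : y' ^ p = 1 := Subtype.ext (by
    show y ^ p = 1
    rw [← hyo]; exact pow_orderOf_eq_one y)
  have hsub : insert t' ((Finset.range p).image (fun i : ℕ => y' ^ i)) ⊆
      Finset.univ.filter (fun a : ↥P₁ => a ^ p = 1) := by
    intro a ha
    rw [Finset.mem_insert] at ha
    rw [Finset.mem_filter]
    refine ⟨Finset.mem_univ _, ?_⟩
    rcases ha with ha | ha
    · rw [ha]; exact Subtype.ext htp
    · rw [Finset.mem_image] at ha
      obtain ⟨i, -, rfl⟩ := ha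
      rw [← pow_mul, mul_comm, pow_mul, hy'p, one_pow]
  have hcard : (insert t' ((Finset.range p).image (fun i : ℕ => y' ^ i))).card
      = p + 1 := by
    rw [Finset.card_insert_of_notMem, Finset.card_image_of_injOn, Finset.card_range]
    · intro i hi j hj hij
      rw [Finset.coe_range, Set.mem_Iio] at hi hj
      have h2 : y ^ i = y ^ j := congrArg Subtype.val hij
      exact pow_injOn_Iio_orderOf (by rw [Set.mem_Iio, hyo]; exact hi)
        (by rw [Set.mem_Iio, hyo]; exact hj) h2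
    · intro hmem
      rw [Finset.mem_image] at hmem
      obtain ⟨i, -, hi⟩ := hmem
      have h2 : y ^ i = t := congrArg Subtype.val hi
      exact hcon (h2 ▸ Subgroup.npow_mem_zpowers y i)
  have h3 := Finset.card_le_card hsub
  omega

/-- a nontrivial `p`-subgroup has an element of order `p` -/
theorem exists_orderOf_eq_prime {G : Type*} [Group G] [Finite G] {p : ℕ} [Fact p.Prime]
    (Q : Subgroup G) (hQ : IsPGroup p Q) (hne : Q ≠ ⊥) : ∃ y ∈ Q, orderOf y = p := by
  obtain ⟨n, hn⟩ := hQ.exists_card_eq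
  have hn0 : n ≠ 0 := by
    rintro rfl
    rw [pow_zero] at hn
    exact hne (Subgroup.card_eq_one.mp hn)
  have hdvd : p ∣ Nat.card Q := by rw [hn]; exact dvd_pow_self p hn0
  obtain ⟨x, hx⟩ := exists_prime_orderOf_dvd_card' p hdvd
  exact ⟨x, x.2, by rw [← hx, Subgroup.orderOf_coe]⟩

theorem comm_of_cyclic {G : Type*} [Group G] (P₁ : Subgroup G) (hc : IsCyclic ↥P₁) {a b : G}
    (ha : a ∈ P₁) (hb : b ∈ P₁) : a * b = b * a := by
  haveI := hc
  haveI : IsMulCommutative ↥P₁ := inferInstance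
  have := mul_comm' (⟨a, ha⟩ : ↥P₁) ⟨b, hb⟩
  exact congrArg Subtype.val this

theorem cyclic_of_le {G : Type*} [Group G] {Q P₁ : Subgroup G} (hc : IsCyclic ↥P₁) (hQ : Q ≤ P₁) :
    IsCyclic ↥Q := by
  haveI := hc
  haveI : IsCyclic ↥(Q.subgroupOf P₁) := inferInstance
  exact isCyclic_of_surjective (Subgroup.subgroupOfEquivOfLe hQ).toMonoidHom
    (Subgroup.subgroupOfEquivOfLe hQ).surjective

/-- two subgroups of a cyclic `p`-group meeting trivially: one of them is trivial -/
theorem cyclic_inf_eq_bot {G : Type*} [Group G] [Finite G] {p : ℕ} [Fact p.Prime]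
    (P₁ : Subgroup G) (hc : IsCyclic ↥P₁) (hP₁ : IsPGroup p P₁) (X Y : Subgroup G) (hX : X ≤ P₁)
    (hY : Y ≤ P₁) (hXY : X ⊓ Y = ⊥) : X = ⊥ ∨ Y = ⊥ := by
  by_contra hcon
  push_neg at hcon
  obtain ⟨x, hxX, hxo⟩ := exists_orderOf_eq_prime X (hP₁.to_le hX) hcon.1
  obtain ⟨y, hyY, hyo⟩ := exists_orderOf_eq_prime Y (hP₁.to_le hY) hcon.2
  have h1 : y ∈ Subgroup.zpowers x :=
    mem_zpowers_of_pow_eq_one (Fact.out : p.Prime) P₁ hc (hX hxX) hxo (hY hyY)
      (by rw [← hyo]; exact pow_orderOf_eq_one y)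
  have h2 : y ∈ X ⊓ Y := ⟨(Subgroup.zpowers_le.mpr hxX) h1, hyY⟩
  rw [hXY, Subgroup.mem_bot] at h2
  rw [h2, orderOf_one] at hyo
  exact (Fact.out : p.Prime).one_lt.ne hyo

/-- a `p'`-element normalizing a cyclic `p`-group centralizes it or acts fixed-point-freely -/
theorem cent_of_fix {G : Type u} [Group G] [Finite G] {p : ℕ} [Fact p.Prime]
    (Q : Subgroup G) (hc : IsCyclic ↥Q) (hQ : IsPGroup p Q) (g : G)
    (hg : g ∈ Subgroup.normalizer (Q : Set G)) (hgo : (orderOf g).Coprime p) :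
    g ∈ Subgroup.centralizer (Q : Set G) ∨ ∀ q ∈ Q, g * q = q * g → q = 1 := by
  haveI := hc
  haveI : IsMulCommutative ↥Q := inferInstance
  have hAV : Subgroup.zpowers g ≤ Subgroup.normalizer (Q : Set G) := Subgroup.zpowers_le.mpr hg
  have hcop : (Nat.card (Subgroup.zpowers g)).Coprime (Nat.card Q) := by
    obtain ⟨n, hn⟩ := hQ.exists_card_eq
    rw [Nat.card_zpowers, hn]
    exact Nat.Coprime.pow_right n hgo
  have h1 := Cfsg.Agent.Lib_helper1_Coprime.abelian_fixed_inf_commutator (Subgroup.zpowers g) Q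
    hAV hcop
  have h2 := Cfsg.Agent.Lib_helper1_Coprime.abelian_fixed_sup_commutator (Subgroup.zpowers g) Q
    hAV hcop
  have hle : ⁅Q, Subgroup.zpowers g⁆ ≤ Q := le_of_le_of_eq le_sup_right h2
  rcases cyclic_inf_eq_bot Q hc hQ _ _ inf_le_left hle h1 with h | h
  · right
    intro q hq hgq
    have : q ∈ Q ⊓ Subgroup.centralizer ((Subgroup.zpowers g : Subgroup G) : Set G) := by
      refine ⟨hq, Subgroup.mem_centralizer_iff.mpr ?_⟩
      intro z hz
      obtain ⟨i, rfl⟩ := Subgroup.mem_zpowers_iff.mp hz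
      exact ((Commute.zpow_left (show Commute g q from hgq) i)).eq
    rw [h, Subgroup.mem_bot] at this
    exact this
  · left
    rw [h, sup_bot_eq] at h2
    rw [Subgroup.mem_centralizer_iff]
    intro q hq
    have : q ∈ Q ⊓ Subgroup.centralizer ((Subgroup.zpowers g : Subgroup G) : Set G) := by
      rw [h2]; exact hq
    exact (Subgroup.mem_centralizer_iff.mp this.2 g (Subgroup.mem_zpowers g)).symm

/-- all Sylow `p`-subgroups are cyclic if one is -/
theorem sylow_cyclic {G : Type*} [Group G] [Finite G] {p : ℕ} [Fact p.Prime]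
    (P : Sylow p G) (hP : IsCyclic ↥(P : Subgroup G)) (R : Sylow p G) :
    IsCyclic ↥(R : Subgroup G) := by
  obtain ⟨g, rfl⟩ := MulAction.exists_smul_eq G P R
  haveI := hP
  exact isCyclic_of_surjective (Sylow.equivSMul P g).toMonoidHom (Sylow.equivSMul P g).surjective

/-- cyclic Sylow `p`-subgroup with a central element of order `p`: normal `p`-complement -/
theorem npc_of_central {H : Type u} [Group H] [Finite H] {p : ℕ} [Fact p.Prime]
    (P : Sylow p H) (hP : IsCyclic ↥(P : Subgroup H)) (y : H) (hy : y ∈ (P : Subgroup H))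
    (hyo : orderOf y = p) (hyc : ∀ h : H, h * y = y * h) :
    Cfsg.Agent.Lib_helper1_Frobenius.NPC p H := by
  apply Cfsg.Agent.Lib_helper1_Frobenius.frobenius
  apply Cfsg.Agent.Lib_helper1_Frobenius.frobHyp_of_le_sylow P
  intro Q hQ g hg hgo
  rcases cent_of_fix Q (cyclic_of_le hP hQ) (P.2.to_le hQ) g hg hgo with h | h
  · exact h
  · have hQb : Q = ⊥ := by
      by_contra hne
      obtain ⟨x, hxQ, hxo⟩ := exists_orderOf_eq_prime Q (P.2.to_le hQ) hne
      have h1 : y ∈ Subgroup.zpowers x :=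
        mem_zpowers_of_pow_eq_one (Fact.out : p.Prime) P hP (hQ hxQ) hxo hy
          (by rw [← hyo]; exact pow_orderOf_eq_one y)
      have h2 := h y ((Subgroup.zpowers_le.mpr hxQ) h1) (hyc g)
      rw [h2, orderOf_one] at hyo
      exact (Fact.out : p.Prime).one_lt.ne hyo
    rw [Subgroup.mem_centralizer_iff]
    intro q hq
    have : q = 1 := by rw [hQb] at hq; exact Subgroup.mem_bot.mp hq
    rw [this, one_mul, mul_one]

/-- Burnside: a cyclic Sylow `p`-subgroup `P` with `P L = H`, `L` normal, simple, of order divisible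
by `p` and not a `p`-group, lies in `L`. -/
theorem sylow_le_of_sup_eq_top {H : Type u} [Group H] [Finite H] {p : ℕ} [Fact p.Prime]
    (P : Sylow p H) (hP : IsCyclic ↥(P : Subgroup H)) (L : Subgroup H) (hLn : L.Normal)
    (hLs : IsSimpleGroup ↥L) (hpL : p ∣ Nat.card L) (hLp : ¬ IsPGroup p L)
    (hPL : (P : Subgroup H) ⊔ L = ⊤) : (P : Subgroup H) ≤ L := by
  have hp : p.Prime := Fact.out
  haveI := hLn
  haveI := hLs
  have hq : ∀ x : H, ∃ k : ℕ, x ^ (p ^ k) ∈ L := by
    intro x
    have hx : x ∈ (P : Subgroup H) ⊔ L := by rw [hPL]; exact Subgroup.mem_top x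
    obtain ⟨a, ha, l, hl, rfl⟩ := Cfsg.Agent.Lib_helper7_TIAb.exists_mul_of_mem_sup
      (P : Subgroup H) L (fun x _ b hb => hLn.conj_mem b hb x) x hx
    obtain ⟨k, hk⟩ := P.2 ⟨a, ha⟩
    refine ⟨k, ?_⟩
    have hak : a ^ (p ^ k) = 1 := congrArg Subtype.val hk
    rw [← QuotientGroup.eq_one_iff, QuotientGroup.mk_pow, QuotientGroup.mk_mul,
      (QuotientGroup.eq_one_iff l).mpr hl, mul_one, ← QuotientGroup.mk_pow, hak,
      QuotientGroup.mk_one]
  by_cases hNC : Subgroup.normalizer ((P : Subgroup H) : Set H) ≤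
      Subgroup.centralizer ((P : Subgroup H) : Set H)
  · exfalso
    have hc := MonoidHom.ker_transferSylow_isComplement' P hNC
    have hMn : (MonoidHom.transferSylow P hNC).ker.Normal := MonoidHom.normal_ker _
    obtain ⟨hcop, k, hk⟩ := Cfsg.Agent.Lib_helper1_Frobenius.npc_of_isComplement' P _ hMn hc
    have hML : ((MonoidHom.transferSylow P hNC).ker.subgroupOf L).Normal := inferInstance
    rcases hML.eq_bot_or_eq_top with h | h
    · rw [Subgroup.subgroupOf_eq_bot] at h
      apply hLp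
      intro x
      refine ⟨k, Subtype.ext ?_⟩
      have h1 : (x : H) ^ (p ^ k) ∈ (MonoidHom.transferSylow P hNC).ker := by
        rw [← hk]; exact Subgroup.pow_index_mem _ _
      have h2 : (x : H) ^ (p ^ k) ∈ L := L.pow_mem x.2 _
      exact Subgroup.disjoint_def.mp h h1 h2
    · rw [Subgroup.subgroupOf_eq_top] at h
      have h1 : p ∣ Nat.card (MonoidHom.transferSylow P hNC).ker :=
        dvd_trans hpL (Subgroup.card_dvd_of_le h)
      have h2 : p ∣ Nat.gcd (Nat.card (MonoidHom.transferSylow P hNC).ker) p :=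
        Nat.dvd_gcd h1 dvd_rfl
      rw [Nat.Coprime.gcd_eq_one hcop] at h2
      exact hp.one_lt.ne' (Nat.dvd_one.mp h2)
  · rw [SetLike.not_le_iff_exists] at hNC
    obtain ⟨n, hnN, hnC⟩ := hNC
    obtain ⟨y', u', hyu, -, hyo, j, huj⟩ := Cfsg.Agent.Lib_helper7_ClassP.exists_parts p
      (⟨n, hnN⟩ : ↥(Subgroup.normalizer ((P : Subgroup H) : Set H)))
    have hyN : (y' : H) ∈ Subgroup.normalizer ((P : Subgroup H) : Set H) := y'.2
    have huN : (u' : H) ∈ Subgroup.normalizer ((P : Subgroup H) : Set H) := u'.2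
    have hn : n = (y' : H) * (u' : H) := congrArg Subtype.val hyu
    have hyo' : (orderOf (y' : H)).Coprime p := by rw [Subgroup.orderOf_coe]; exact hyo
    have hu1 : (u' : H) ^ (p ^ j) = 1 := by
      have := congrArg Subtype.val huj
      simpa using this
    have huP : (u' : H) ∈ (P : Subgroup H) := by
      have hz : IsPGroup p (Subgroup.zpowers (u' : H)) := by
        obtain ⟨i, -, hi⟩ := (Nat.dvd_prime_pow hp).mp (orderOf_dvd_of_pow_eq_one hu1)
        exact IsPGroup.of_card (n := i) (by rw [Nat.card_zpowers, hi])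
      have hsup : IsPGroup p ↥(Subgroup.zpowers (u' : H) ⊔ (P : Subgroup H)) :=
        IsPGroup.to_sup_of_normal_right' hz P.2 (Subgroup.zpowers_le.mpr huN)
      have h1 := P.is_maximal' hsup le_sup_right
      exact (le_of_le_of_eq le_sup_left h1 : Subgroup.zpowers (u' : H) ≤ _) (Subgroup.mem_zpowers _)
    have hyC : (y' : H) ∉ Subgroup.centralizer ((P : Subgroup H) : Set H) := by
      intro hyC
      apply hnC
      rw [hn]
      refine Subgroup.mul_mem _ hyC ?_
      exact Subgroup.mem_centralizer_iff.mpr (fun q hq => comm_of_cyclic _ hP hq huP)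
    have hfix : ∀ q ∈ (P : Subgroup H), (y' : H) * q = q * (y' : H) → q = 1 := by
      rcases cent_of_fix (P : Subgroup H) hP P.2 (y' : H) hyN hyo' with h | h
      · exact absurd h hyC
      · exact h
    have hyL : (y' : H) ∈ L := by
      obtain ⟨k, hk⟩ := hq (y' : H)
      obtain ⟨m, hm⟩ := exists_pow_eq_self_of_coprime (x := (y' : H)) (n := p ^ k)
        (Nat.Coprime.pow_left k hyo'.symm)
      rw [← hm]
      exact L.pow_mem hk m
    have hconj : ∀ a ∈ (P : Subgroup H), (y' : H) * a * (y' : H)⁻¹ * a⁻¹ ∈ (P : Subgroup H) :=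
      fun a ha => Subgroup.mul_mem _ ((Subgroup.mem_normalizer_iff.mp hyN a).mp ha) (inv_mem ha)
    have hinj : Function.Injective (fun a : ↥(P : Subgroup H) =>
        (⟨(y' : H) * a * (y' : H)⁻¹ * (a : H)⁻¹, hconj a a.2⟩ : ↥(P : Subgroup H))) := by
      intro a b hab
      have h : (y' : H) * (a : H) * (y' : H)⁻¹ * (a : H)⁻¹ =
          (y' : H) * (b : H) * (y' : H)⁻¹ * (b : H)⁻¹ := congrArg Subtype.val hab
      have h1 : (a : H) * (y' : H)⁻¹ * (a : H)⁻¹ = (b : H) * (y' : H)⁻¹ * (b : H)⁻¹ := by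
        apply mul_left_cancel (a := (y' : H))
        simpa [mul_assoc] using h
      have h2 : (y' : H) = (b : H)⁻¹ * a * (y' : H) * (a : H)⁻¹ * b := by
        calc (y' : H) = (b : H)⁻¹ * ((b : H) * (y' : H)⁻¹ * (b : H)⁻¹)⁻¹ * b := by group
          _ = (b : H)⁻¹ * ((a : H) * (y' : H)⁻¹ * (a : H)⁻¹)⁻¹ * b := by rw [h1]
          _ = (b : H)⁻¹ * a * (y' : H) * (a : H)⁻¹ * b := by group
      have h3 : (y' : H) * ((b : H)⁻¹ * a) = (b : H)⁻¹ * a * (y' : H) := by
        calc (y' : H) * ((b : H)⁻¹ * a)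
            = ((b : H)⁻¹ * a * (y' : H) * (a : H)⁻¹ * b) * ((b : H)⁻¹ * a) := by rw [← h2]
          _ = (b : H)⁻¹ * a * (y' : H) := by group
      have h4 := hfix _ (Subgroup.mul_mem _ (inv_mem b.2) a.2) h3
      exact Subtype.ext (inv_mul_eq_one.mp h4).symm
    have hsurj := Finite.injective_iff_surjective.mp hinj
    intro a ha
    obtain ⟨b, hb⟩ := hsurj ⟨a, ha⟩
    have hb' : (y' : H) * (b : H) * (y' : H)⁻¹ * (b : H)⁻¹ = a := congrArg Subtype.val hb
    rw [← hb']
    have h5 : (y' : H) * (b : H) * (y' : H)⁻¹ * (b : H)⁻¹ =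
        (y' : H) * ((b : H) * (y' : H)⁻¹ * (b : H)⁻¹) := by group
    rw [h5]
    exact L.mul_mem hyL (hLn.conj_mem _ (inv_mem hyL) _)

/-- Case `O_p(K) ≠ 1`. -/
theorem caseA {K : Type u} [Group K] [Finite K] (p : ℕ) [Fact p.Prime]
    (hO : Cfsg.pPrimeCore p K = ⊥) (P : Sylow p K) (hP : IsCyclic ↥(P : Subgroup K))
    (hQ : Cfsg.pCore p K ≠ ⊥) :
    (P : Subgroup K).Normal ∧
      Subgroup.centralizer ((P : Subgroup K) : Set K) = (P : Subgroup K) ∧
      (∀ (_ : (P : Subgroup K).Normal), IsCyclic (K ⧸ (P : Subgroup K))) ∧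
      (P : Subgroup K).index ∣ p - 1 := by
  have hp : p.Prime := Fact.out
  have hQn : (Cfsg.pCore p K).Normal := Cfsg.Agent.Lib_helper7_PCore.pCore_normal p
  have hQP : Cfsg.pCore p K ≤ (P : Subgroup K) := Cfsg.Agent.Lib_helper7_PCore.pCore_le_sylow P
  obtain ⟨y, hyQ, hyo⟩ := exists_orderOf_eq_prime (Cfsg.pCore p K)
    (Cfsg.Agent.Lib_helper7_PCore.pCore_isPGroup p) hQ
  have hyP : y ∈ (P : Subgroup K) := hQP hyQ
  have hconj : ∀ k : K, k * y * k⁻¹ ∈ Subgroup.zpowers y := by
    intro k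
    apply mem_zpowers_of_pow_eq_one hp (P : Subgroup K) hP hyP hyo (hQP (hQn.conj_mem y hyQ k))
    rw [conj_pow, ← hyo, pow_orderOf_eq_one, mul_one, mul_inv_cancel]
  have hZn : (Subgroup.zpowers y).Normal := by
    refine ⟨fun z hz k => ?_⟩
    obtain ⟨i, rfl⟩ := Subgroup.mem_zpowers_iff.mp hz
    rw [← conj_zpow]
    exact Subgroup.zpow_mem _ (hconj k) i
  haveI := hZn
  have hCn : (Subgroup.centralizer ((Subgroup.zpowers y : Subgroup K) : Set K)).Normal :=
    Subgroup.normal_centralizer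
  have hPC : (P : Subgroup K) ≤
      Subgroup.centralizer ((Subgroup.zpowers y : Subgroup K) : Set K) := by
    intro a ha
    refine Subgroup.mem_centralizer_iff.mpr (fun z hz => ?_)
    exact comm_of_cyclic _ hP ((Subgroup.zpowers_le.mpr hyP) hz) ha
  have hCP : Subgroup.centralizer ((Subgroup.zpowers y : Subgroup K) : Set K) =
      (P : Subgroup K) := by
    have hyC : y ∈ Subgroup.centralizer ((Subgroup.zpowers y : Subgroup K) : Set K) := hPC hyP
    have hcyc : IsCyclic ↥((P.subtype hPC : Sylow p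
        ↥(Subgroup.centralizer ((Subgroup.zpowers y : Subgroup K) : Set K))) :
        Subgroup ↥(Subgroup.centralizer ((Subgroup.zpowers y : Subgroup K) : Set K))) := by
      rw [Sylow.coe_subtype]
      haveI := hP
      exact isCyclic_of_surjective (Subgroup.subgroupOfEquivOfLe hPC).symm.toMonoidHom
        (Subgroup.subgroupOfEquivOfLe hPC).symm.surjective
    obtain ⟨N, hNn, hNc, k, hNk⟩ := npc_of_central (P.subtype hPC) hcyc
      (⟨y, hyC⟩ : ↥(Subgroup.centralizer ((Subgroup.zpowers y : Subgroup K) : Set K)))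
      (by rw [Sylow.coe_subtype]; exact Subgroup.mem_subgroupOf.mpr hyP)
      (by rw [Subgroup.orderOf_mk]; exact hyo)
      (fun c => Subtype.ext
        ((Subgroup.mem_centralizer_iff.mp c.2 y (Subgroup.mem_zpowers y)).symm))
    haveI := hNn
    have hN'n : (N.map (Subgroup.centralizer
        ((Subgroup.zpowers y : Subgroup K) : Set K)).subtype).Normal := by
      refine ⟨fun x hx g => ?_⟩
      obtain ⟨n, hn, rfl⟩ := hx
      have hgc : g * (n : K) * g⁻¹ ∈
          Subgroup.centralizer ((Subgroup.zpowers y : Subgroup K) : Set K) :=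
        hCn.conj_mem _ n.2 g
      refine ⟨⟨g * (n : K) * g⁻¹, hgc⟩, ?_, rfl⟩
      apply Cfsg.Agent.Lib_helper1_Frobenius.mem_of_coprime_of_index N hNk
      rw [Subgroup.orderOf_mk]
      have h2 : n ^ Nat.card N = 1 := by
        have h := pow_card_eq_one' (G := ↥N) (x := ⟨n, hn⟩)
        exact congrArg Subtype.val h
      have h3 : (n : K) ^ Nat.card N = 1 := by
        rw [← Subgroup.coe_pow, h2]; rfl
      have h1 : (g * (n : K) * g⁻¹) ^ Nat.card N = 1 := by
        rw [conj_pow, h3, mul_one, mul_inv_cancel]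
      exact Nat.Coprime.coprime_dvd_left (orderOf_dvd_of_pow_eq_one h1) hNc
    have hN' := Cfsg.Agent.Lib_helper2_PComp.le_pPrimeCore' p _ hN'n
      (by rw [Subgroup.card_map_of_injective (Subgroup.subtype_injective _)]; exact hNc)
    rw [hO, le_bot_iff, Subgroup.map_eq_bot_iff_of_injective _ (Subgroup.subtype_injective _)]
      at hN'
    rw [hN', Subgroup.index_bot] at hNk
    exact P.is_maximal' (IsPGroup.of_card hNk) hPC
  have hPn : (P : Subgroup K).Normal := hCP ▸ hCn
  have hcent : Subgroup.centralizer ((P : Subgroup K) : Set K) = (P : Subgroup K) := by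
    apply le_antisymm
    · calc Subgroup.centralizer ((P : Subgroup K) : Set K)
          ≤ Subgroup.centralizer ((Subgroup.zpowers y : Subgroup K) : Set K) :=
            Subgroup.centralizer_le (fun z hz => (Subgroup.zpowers_le.mpr hyP) hz)
        _ = P := hCP
    · intro a ha
      exact Subgroup.mem_centralizer_iff.mpr (fun q hq => comm_of_cyclic _ hP hq ha)
  have hker : (MulAut.conjNormal (H := Subgroup.zpowers y)).ker = (P : Subgroup K) := by
    rw [← hCP]
    ext x
    rw [MonoidHom.mem_ker, Subgroup.mem_centralizer_iff]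
    constructor
    · intro hx z hz
      have h1 := congrArg (fun f : MulAut ↥(Subgroup.zpowers y) =>
        ((f ⟨z, hz⟩ : ↥(Subgroup.zpowers y)) : K)) hx
      simp only [MulAut.conjNormal_apply, MulAut.one_apply] at h1
      exact (mul_inv_eq_iff_eq_mul.mp h1).symm
    · intro hx
      ext z
      rw [MulAut.conjNormal_apply, MulAut.one_apply]
      exact mul_inv_eq_iff_eq_mul.mpr (hx z z.2).symm
  have hcardZ : Nat.card (Subgroup.zpowers y) = p := by rw [Nat.card_zpowers, hyo]
  haveI : Fact (Nat.card (Subgroup.zpowers y)).Prime := ⟨by rw [hcardZ]; exact hp⟩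
  haveI : IsCyclic (MulAut ↥(Subgroup.zpowers y)) :=
    isCyclic_of_surjective (IsCyclic.mulAutMulEquiv ↥(Subgroup.zpowers y)).symm.toMonoidHom
      (IsCyclic.mulAutMulEquiv ↥(Subgroup.zpowers y)).symm.surjective
  refine ⟨hPn, hcent, ?_, ?_⟩
  · intro hn
    haveI := hn
    have e1 : K ⧸ (P : Subgroup K) ≃* K ⧸ (MulAut.conjNormal (H := Subgroup.zpowers y)).ker :=
      QuotientGroup.quotientMulEquivOfEq hker.symm
    have e2 := QuotientGroup.quotientKerEquivRange (MulAut.conjNormal (H := Subgroup.zpowers y))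
    haveI : IsCyclic ↥(MulAut.conjNormal (H := Subgroup.zpowers y)).range := inferInstance
    exact isCyclic_of_surjective (e1.trans e2).symm.toMonoidHom (e1.trans e2).symm.surjective
  · rw [← hker, Subgroup.index_ker]
    have h1 := Subgroup.card_subgroup_dvd_card (MulAut.conjNormal (H := Subgroup.zpowers y)).range
    rw [IsCyclic.card_mulAut, hcardZ, Nat.totient_prime hp] at h1
    exact h1

/-- Case `O_p(K) = 1`. -/
theorem caseB {K : Type u} [Group K] [Finite K] (p : ℕ) [Fact p.Prime] (hpK : p ∣ Nat.card K)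
    (hO : Cfsg.pPrimeCore p K = ⊥) (P : Sylow p K) (hP : IsCyclic ↥(P : Subgroup K))
    (hQ : Cfsg.pCore p K = ⊥) :
    IsSimpleGroup ↥(Cfsg.generalizedFittingSubgroup K) ∧
      ¬ IsMulCommutative ↥(Cfsg.generalizedFittingSubgroup K) ∧
      ¬ p ∣ (Cfsg.generalizedFittingSubgroup K).index := by
  have hp : p.Prime := Fact.out
  have hF : Cfsg.fittingSubgroup K = ⊥ := by
    rw [Cfsg.Agent.Lib_helper5_Fitting.fitting_eq_iSup_pCore, eq_bot_iff]
    apply iSup_le
    intro q
    by_cases hqp : (q : ℕ) = p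
    · rw [hqp, hQ]
    · haveI : Fact (q : ℕ).Prime := ⟨q.2⟩
      rw [← hO]
      apply Cfsg.Agent.Lib_helper2_PComp.le_pPrimeCore' p _
        (Cfsg.Agent.Lib_helper7_PCore.pCore_normal (q : ℕ))
      obtain ⟨n, hn⟩ :=
        (Cfsg.Agent.Lib_helper7_PCore.pCore_isPGroup (G := K) (q : ℕ)).exists_card_eq
      rw [hn]
      exact Nat.Coprime.pow_left n ((Nat.coprime_primes q.2 hp).mpr hqp)
  have hgl : Cfsg.generalizedFittingSubgroup K = Cfsg.layer K := by
    show Cfsg.layer K ⊔ Cfsg.fittingSubgroup K = Cfsg.layer K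
    rw [hF, sup_bot_eq]
  have hlne : Cfsg.layer K ≠ ⊥ := by
    intro hl
    have h1 := Cfsg.Agent.Lib_helper2_Comp.centralizer_gfit_le (G := K)
    rw [hgl, hl] at h1
    have h2 : ∀ x : K, x = 1 := by
      intro x
      have h3 : x ∈ Subgroup.centralizer (((⊥ : Subgroup K)) : Set K) := by
        refine Subgroup.mem_centralizer_iff.mpr (fun z hz => ?_)
        have h4 : z = 1 := Subgroup.mem_bot.mp hz
        rw [h4, one_mul, mul_one]
      exact Subgroup.mem_bot.mp (h1 h3)
    have h3 : Nat.card K = 1 :=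
      Nat.card_eq_one_iff_unique.mpr ⟨⟨fun a b => by rw [h2 a, h2 b]⟩, ⟨1⟩⟩
    rw [h3] at hpK
    exact hp.one_lt.ne' (Nat.dvd_one.mp hpK)
  obtain ⟨L, hL⟩ : ∃ L : Subgroup K, Cfsg.IsComponent L := by
    by_contra hcon
    push_neg at hcon
    apply hlne
    show sSup {L : Subgroup K | Cfsg.IsComponent L} = ⊥
    rw [eq_bot_iff]
    exact sSup_le (fun L hL => absurd hL (hcon L))
  have hcen : ∀ L : Subgroup K, Cfsg.IsComponent L → Subgroup.center ↥L = ⊥ := by
    intro L hL
    have h1 := Cfsg.Agent.Lib_helper2_Comp.center_comp_le hL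
    rw [Cfsg.Agent.Lib_helper2_Comp.center_layer, hF, bot_inf_eq, le_bot_iff,
      Subgroup.map_eq_bot_iff_of_injective _ (Subgroup.subtype_injective _)] at h1
    exact h1
  have hpdvd : ∀ L : Subgroup K, Cfsg.IsComponent L → p ∣ Nat.card L := by
    intro L hL
    by_contra hnd
    have h1 := Cfsg.Agent.Lib_helper2_PComp.subnormal_pprime_le p L hL.1
      ((Nat.Prime.coprime_iff_not_dvd hp).mpr hnd).symm
    rw [hO, le_bot_iff] at h1
    exact Cfsg.Agent.Lib_helper2_Comp.qs_ne_bot hL.2 h1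
  have huniq : ∀ L₁ L₂ : Subgroup K, Cfsg.IsComponent L₁ → Cfsg.IsComponent L₂ → L₁ = L₂ := by
    intro L₁ L₂ h1 h2
    rcases Cfsg.Agent.Lib_helper2_Comp.comp_eq_or_comm h1 h2 with h | h
    · exact h
    · exfalso
      obtain ⟨a, hao⟩ := exists_prime_orderOf_dvd_card' p (hpdvd L₁ h1)
      obtain ⟨b, hbo⟩ := exists_prime_orderOf_dvd_card' p (hpdvd L₂ h2)
      have hao' : orderOf (a : K) = p := by rw [Subgroup.orderOf_coe]; exact hao
      have hbo' : orderOf (b : K) = p := by rw [Subgroup.orderOf_coe]; exact hbo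
      have hza : IsPGroup p (Subgroup.zpowers (a : K)) :=
        IsPGroup.of_card (n := 1) (by rw [Nat.card_zpowers, hao', pow_one])
      have hzb : IsPGroup p (Subgroup.zpowers (b : K)) :=
        IsPGroup.of_card (n := 1) (by rw [Nat.card_zpowers, hbo', pow_one])
      have hnorm : Subgroup.zpowers (a : K) ≤
          Subgroup.normalizer ((Subgroup.zpowers (b : K) : Subgroup K) : Set K) := by
        rw [Subgroup.zpowers_le]
        apply Subgroup.centralizer_le_normalizer
        refine Subgroup.mem_centralizer_iff.mpr (fun z hz => ?_)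
        exact (h (a : K) a.2 z ((Subgroup.zpowers_le.mpr b.2) hz)).symm
      have hsup := IsPGroup.to_sup_of_normal_right' hza hzb hnorm
      obtain ⟨R, hR⟩ := hsup.exists_le_sylow
      have hRc := sylow_cyclic P hP R
      have haR : (a : K) ∈ (R : Subgroup K) :=
        hR ((le_sup_left : Subgroup.zpowers (a : K) ≤ _) (Subgroup.mem_zpowers _))
      have hbR : (b : K) ∈ (R : Subgroup K) :=
        hR ((le_sup_right : Subgroup.zpowers (b : K) ≤ _) (Subgroup.mem_zpowers _))
      have hbz : (b : K) ∈ Subgroup.zpowers (a : K) :=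
        mem_zpowers_of_pow_eq_one hp (R : Subgroup K) hRc haR hao' hbR
          (by rw [← hbo']; exact pow_orderOf_eq_one _)
      have hbL₁ : (b : K) ∈ L₁ := (Subgroup.zpowers_le.mpr a.2) hbz
      have hbc : b ∈ Subgroup.center ↥L₂ := by
        rw [Subgroup.mem_center_iff]
        intro l
        exact Subtype.ext (h (b : K) hbL₁ l l.2).symm
      rw [hcen L₂ h2, Subgroup.mem_bot] at hbc
      rw [hbc, orderOf_one] at hbo
      exact hp.one_lt.ne hbo
  have hlayer : Cfsg.layer K = L := by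
    apply le_antisymm
    · show sSup {L : Subgroup K | Cfsg.IsComponent L} ≤ L
      apply sSup_le
      intro L' hL'
      rw [huniq L' L hL' hL]
    · exact Cfsg.Agent.Lib_helper2_Comp.comp_le_layer hL
  have hLn : L.Normal := by
    rw [← hlayer]; exact Cfsg.Agent.Lib_helper2_Comp.layer_normal
  rw [hgl, hlayer]
  have hLsimple : IsSimpleGroup ↥L := by
    haveI := hL.2.2
    have e : ↥L ⧸ Subgroup.center ↥L ≃* ↥L :=
      (QuotientGroup.quotientMulEquivOfEq (hcen L hL)).trans QuotientGroup.quotientBot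
    exact MulEquiv.isSimpleGroup e.symm
  have hLnp : ¬ IsPGroup p ↥L := by
    intro hpg
    apply Cfsg.Agent.Lib_helper2_Comp.qs_not_solvable hL.2
    haveI := hpg.isNilpotent
    exact inferInstance
  have hPL : (P : Subgroup K) ≤ L := by
    haveI := hLn
    have hle1 : (P : Subgroup K) ≤ (P : Subgroup K) ⊔ L := le_sup_left
    have hle2 : L ≤ (P : Subgroup K) ⊔ L := le_sup_right
    have hcyc : IsCyclic ↥((P.subtype hle1 : Sylow p ↥((P : Subgroup K) ⊔ L)) :
        Subgroup ↥((P : Subgroup K) ⊔ L)) := by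
      rw [Sylow.coe_subtype]
      haveI := hP
      exact isCyclic_of_surjective (Subgroup.subgroupOfEquivOfLe hle1).symm.toMonoidHom
        (Subgroup.subgroupOfEquivOfLe hle1).symm.surjective
    have e : ↥(L.subgroupOf ((P : Subgroup K) ⊔ L)) ≃* ↥L := Subgroup.subgroupOfEquivOfLe hle2
    have hs : IsSimpleGroup ↥(L.subgroupOf ((P : Subgroup K) ⊔ L)) := by
      haveI := hLsimple
      exact MulEquiv.isSimpleGroup e
    have hcard : Nat.card ↥(L.subgroupOf ((P : Subgroup K) ⊔ L)) = Nat.card L :=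
      Nat.card_congr e.toEquiv
    have hnp : ¬ IsPGroup p ↥(L.subgroupOf ((P : Subgroup K) ⊔ L)) := by
      intro h
      apply hLnp
      obtain ⟨n, hn⟩ := h.exists_card_eq
      exact IsPGroup.of_card (n := n) (by rw [← hcard, hn])
    have h1 := sylow_le_of_sup_eq_top (P.subtype hle1) hcyc
      (L.subgroupOf ((P : Subgroup K) ⊔ L)) inferInstance hs
      (by rw [hcard]; exact hpdvd L hL) hnp
      (by rw [Sylow.coe_subtype, ← Subgroup.subgroupOf_sup hle1 hle2, Subgroup.subgroupOf_self])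
    intro x hx
    have h2 : (⟨x, hle1 hx⟩ : ↥((P : Subgroup K) ⊔ L)) ∈
        ((P.subtype hle1 : Sylow p ↥((P : Subgroup K) ⊔ L)) :
          Subgroup ↥((P : Subgroup K) ⊔ L)) := by
      rw [Sylow.coe_subtype]; exact Subgroup.mem_subgroupOf.mpr hx
    exact Subgroup.mem_subgroupOf.mp (h1 h2)
  refine ⟨hLsimple, ?_, ?_⟩
  · intro hc
    apply Cfsg.Agent.Lib_helper2_Comp.qs_not_solvable hL.2
    haveI := hc
    exact Group.isSolvable_of_comm (fun a b => mul_comm' a b)
  · intro hdvd
    exact P.not_dvd_index (dvd_trans hdvd (Subgroup.index_dvd_of_le hPL))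

/-- **S4403** -/
theorem s4403 {K : Type u} [Group K] [Finite K] (p : ℕ) [Fact p.Prime] (hp : p ∣ Nat.card K)
    (hO : Cfsg.pPrimeCore p K = ⊥) (P : Sylow p K) (hP : IsCyclic ↥(P : Subgroup K)) :
    ((P : Subgroup K).Normal ∧
      Subgroup.centralizer ((P : Subgroup K) : Set K) = (P : Subgroup K) ∧
      (∀ (_ : (P : Subgroup K).Normal), IsCyclic (K ⧸ (P : Subgroup K))) ∧
      (P : Subgroup K).index ∣ p - 1) ∨
    (IsSimpleGroup ↥(Cfsg.generalizedFittingSubgroup K) ∧
      ¬ IsMulCommutative ↥(Cfsg.generalizedFittingSubgroup K) ∧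
      ¬ p ∣ (Cfsg.generalizedFittingSubgroup K).index) := by
  by_cases hQ : Cfsg.pCore p K = ⊥
  · exact Or.inr (caseB p hp hO P hP hQ)
  · exact Or.inl (caseA p hO P hP hQ)

end Cfsg.Agent.Lib_helper7_CycSyl
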