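import Mathlib
import Cfsg.Prelude.Def_PLocal
import Cfsg.Prelude.Def_DStar
import Cfsg.Agent.Lib_helper1_Basic
import Cfsg.Agent.Lib_helper1_Socle
import Cfsg.Agent.Lib_helper1_Offender
import Cfsg.Agent.Lib_helper1_Thompson
import Cfsg.Agent.Lib_helper7_Sylow

/-! The subgroup `D*(S)` of a finite `p`-group. -/

namespace Cfsg.Agent.Lib_helper7_DStar

open scoped commutatorElement

universe u
variable {S : Type u} [Group S]

/-- A subgroup generated by a set whose pairwise commutators lie in a subgroup `W` commuting with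
the generators has class at most two. -/
theorem class2_of_gens (k : Set S) (W : Subgroup S)
    (hk : ∀ y ∈ k, ∀ z ∈ k, ⁅y, z⁆ ∈ W) (hW : ∀ y ∈ k, ∀ w ∈ W, y * w = w * y) :
    ⁅⁅Subgroup.closure k, Subgroup.closure k⁆, Subgroup.closure k⁆ = ⊥ := by
  have hcent : ∀ g ∈ Subgroup.closure k, ∀ w ∈ W, g * w * g⁻¹ = w := by
    have h1 : Subgroup.closure k ≤ Subgroup.centralizer (W : Set S) := by
      rw [Subgroup.closure_le]
      intro y hy
      show y ∈ Subgroup.centralizer (W : Set S)
      rw [Subgroup.mem_centralizer_iff]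
      intro w hw
      exact (hW y hy w hw).symm
    intro g hg w hw
    have := (Subgroup.mem_centralizer_iff.mp (h1 hg)) w hw
    rw [← this, mul_inv_cancel_right]
  have hcomm : ⁅Subgroup.closure k, Subgroup.closure k⁆ ≤ W := by
    rw [Subgroup.commutator_le]
    intro g₁ hg₁ g₂ hg₂
    refine Subgroup.closure_induction₂ (p := fun x y _ _ => ⁅x, y⁆ ∈ W) ?_ ?_ ?_ ?_ ?_ ?_ ?_
      hg₁ hg₂
    · intro x y hx hy; exact hk x hx y hy
    · intro x _; rw [commutatorElement_one_left]; exact W.one_mem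
    · intro x _; rw [commutatorElement_one_right]; exact W.one_mem
    · intro x y z hx hy hz h1 h2
      rw [commutatorElement_mul_left_eq_conj_mul, hcent x hx _ h2]
      exact W.mul_mem h2 h1
    · intro y z x hy hz hx h1 h2
      have e : ⁅x, y * z⁆ = ⁅x, y⁆ * (y * ⁅x, z⁆ * y⁻¹) := by
        rw [commutatorElement_mul_right_eq_mul_conj]; group
      rw [e, hcent y hy _ h2]
      exact W.mul_mem h1 h2
    · intro x y hx hy h
      rw [commutatorElement_inv_left]
      have h' : ⁅y, x⁆ ∈ W := by rw [← commutatorElement_inv]; exact W.inv_mem h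
      have := hcent x⁻¹ (Subgroup.inv_mem _ hx) _ h'
      rw [inv_inv] at this
      rw [this]; exact h'
    · intro x y hx hy h
      rw [commutatorElement_inv_right]
      have h' : ⁅y, x⁆ ∈ W := by rw [← commutatorElement_inv]; exact W.inv_mem h
      have := hcent y⁻¹ (Subgroup.inv_mem _ hy) _ h'
      rw [inv_inv] at this
      rw [this]; exact h'
  have h2 : ⁅W, Subgroup.closure k⁆ = ⊥ := by
    rw [Subgroup.commutator_eq_bot_iff_le_centralizer]
    intro w hw
    rw [Subgroup.mem_centralizer_iff]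
    intro g hg
    have := hcent g hg w hw
    calc g * w = (g * w * g⁻¹) * g := by group
      _ = w * g := by rw [this]
  exact le_bot_iff.mp (h2 ▸ Subgroup.commutator_mono hcomm le_rfl)

theorem sup_zpowers_eq_closure (A : Subgroup S) (x : S) :
    A ⊔ Subgroup.zpowers x = Subgroup.closure ((A : Set S) ∪ {x}) := by
  rw [Subgroup.closure_union, Subgroup.closure_eq, Subgroup.zpowers_eq_closure]

theorem bot_comm : IsMulCommutative (⊥ : Subgroup S) :=
  ⟨⟨fun a b => by
    have ha := Subgroup.mem_bot.mp a.2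
    have hb := Subgroup.mem_bot.mp b.2
    apply Subtype.ext
    show (a : S) * b = b * a
    rw [ha, hb]⟩⟩

/-- Every member of the `D*`-family lies in every maximal normal abelian subgroup. -/
theorem family_le_of_max [Finite S] [Group.IsNilpotent S] (A : Subgroup S)
    (hA : A ∈ Cfsg.dStarFamily S)
    (M : Subgroup S) (hMn : M.Normal) (hMc : IsMulCommutative M)
    (hmax : ∀ B : Subgroup S, B.Normal → IsMulCommutative B → M ≤ B → B = M) : A ≤ M := by
  obtain ⟨hAc, hAf⟩ := hA
  haveI := hMn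
  haveI := hMc
  haveI := hAc
  have hCM : Subgroup.centralizer (M : Set S) = M :=
    Cfsg.Agent.Lib_helper1_Socle.centralizer_eq_of_maximal_abelian_normal M hmax
  have key : ∀ n : ℕ, M ⊓ Subgroup.upperCentralSeries S n ≤ Subgroup.centralizer (A : Set S) := by
    intro n
    induction n with
    | zero =>
      rw [Subgroup.upperCentralSeries_zero, inf_bot_eq]; exact bot_le
    | succ n ih =>
      intro x hx
      obtain ⟨hxM, hxZ⟩ := hx
      have hxZ' := Subgroup.mem_upperCentralSeries_succ_iff.mp hxZ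
      have hW : ∀ a ∈ A, ⁅x, a⁆ ∈ M ⊓ Subgroup.centralizer (A : Set S) := by
        intro a ha
        show x * a * x⁻¹ * a⁻¹ ∈ M ⊓ Subgroup.centralizer (A : Set S)
        have h1 : x * a * x⁻¹ * a⁻¹ ∈ Subgroup.upperCentralSeries S n := hxZ' a
        have h2 : x * a * x⁻¹ * a⁻¹ ∈ M := by
          have := M.mul_mem hxM (hMn.conj_mem x⁻¹ (M.inv_mem hxM) a)
          simpa [mul_assoc] using this
        exact Subgroup.mem_inf.mpr ⟨h2, ih (Subgroup.mem_inf.mpr ⟨h2, h1⟩)⟩
      have hcl := class2_of_gens ((A : Set S) ∪ {x}) (M ⊓ Subgroup.centralizer (A : Set S)) ?_ ?_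
      · rw [← sup_zpowers_eq_closure] at hcl
        rw [Subgroup.mem_centralizer_iff]
        intro a ha
        exact hAf x hcl a ha
      · rintro y (hy | hy) z (hz | hz)
        · rw [commutatorElement_eq_one_iff_mul_comm.mpr (setLike_mul_comm hy hz)]
          exact Subgroup.one_mem _
        · rw [Set.mem_singleton_iff.mp hz, ← commutatorElement_inv]
          exact Subgroup.inv_mem _ (hW y hy)
        · rw [Set.mem_singleton_iff.mp hy]
          exact hW z hz
        · rw [Set.mem_singleton_iff.mp hy, Set.mem_singleton_iff.mp hz, commutatorElement_self]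
          exact Subgroup.one_mem _
      · rintro y (hy | hy) w hw
        · exact (Subgroup.mem_centralizer_iff.mp hw.2) y hy
        · rw [Set.mem_singleton_iff.mp hy]
          exact setLike_mul_comm hxM hw.1
  obtain ⟨n, hn⟩ := Group.IsNilpotent.nilpotent S
  have hMA : M ≤ Subgroup.centralizer (A : Set S) := by
    have := key n
    rwa [hn, inf_top_eq] at this
  have h3 : A ≤ Subgroup.centralizer (M : Set S) := Subgroup.le_centralizer_iff.mp hMA
  rwa [hCM] at h3

theorem family_conj (A : Subgroup S) (hA : A ∈ Cfsg.dStarFamily S) (g : S) :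
    A.map (MulAut.conj g).toMonoidHom ∈ Cfsg.dStarFamily S := by
  obtain ⟨hAc, hAf⟩ := hA
  haveI := hAc
  refine ⟨?_, ?_⟩
  · refine ⟨⟨?_⟩⟩
    rintro ⟨_, a, ha, rfl⟩ ⟨_, b, hb, rfl⟩
    apply Subtype.ext
    show g * a * g⁻¹ * (g * b * g⁻¹) = g * b * g⁻¹ * (g * a * g⁻¹)
    have hab : a * b = b * a := setLike_mul_comm ha hb
    calc g * a * g⁻¹ * (g * b * g⁻¹) = g * (a * b) * g⁻¹ := by group
      _ = g * (b * a) * g⁻¹ := by rw [hab]
      _ = g * b * g⁻¹ * (g * a * g⁻¹) := by group
  · intro x hx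
    have e0 : (MulAut.conj g).toMonoidHom (g⁻¹ * x * g) = x := by
      show g * (g⁻¹ * x * g) * g⁻¹ = x
      group
    have e : A.map (MulAut.conj g).toMonoidHom ⊔ Subgroup.zpowers x =
        (A ⊔ Subgroup.zpowers (g⁻¹ * x * g)).map (MulAut.conj g).toMonoidHom := by
      rw [Subgroup.map_sup, MonoidHom.map_zpowers, e0]
    rw [e, ← Subgroup.map_commutator, ← Subgroup.map_commutator,
      (Subgroup.map_eq_bot_iff_of_injective _ (MulAut.conj g).injective)] at hx
    rintro _ ⟨a, ha, rfl⟩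
    show g * a * g⁻¹ * x = x * (g * a * g⁻¹)
    have h1 := hAf (g⁻¹ * x * g) hx a ha
    calc g * a * g⁻¹ * x = g * (a * (g⁻¹ * x * g)) * g⁻¹ := by group
      _ = g * ((g⁻¹ * x * g) * a) * g⁻¹ := by rw [h1]
      _ = x * (g * a * g⁻¹) := by group

theorem dStar_normal [Finite S] : (Cfsg.dStar S).Normal := by
  rw [← Subgroup.normalizer_eq_top_iff, eq_top_iff]
  intro g _
  apply Cfsg.Agent.Lib_helper7_Sylow.mem_normalizer_of_conj_le
  rw [Subgroup.map_le_iff_le_comap]
  show sSup (Cfsg.dStarFamily S) ≤ _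
  apply sSup_le
  intro A hA
  rw [← Subgroup.map_le_iff_le_comap]
  exact le_sSup (family_conj A hA g)

theorem dStar_le_of_max [Finite S] [Group.IsNilpotent S] (M : Subgroup S) (hMn : M.Normal)
    (hMc : IsMulCommutative M)
    (hmax : ∀ B : Subgroup S, B.Normal → IsMulCommutative B → M ≤ B → B = M) :
    Cfsg.dStar S ≤ M :=
  sSup_le (fun A hA => family_le_of_max A hA M hMn hMc hmax)

theorem exists_max_normal_abelian [Finite S] : ∃ M : Subgroup S, M.Normal ∧ IsMulCommutative M ∧
    ∀ B : Subgroup S, B.Normal → IsMulCommutative B → M ≤ B → B = M := by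
  obtain ⟨M, ⟨h1, h2⟩, h3⟩ := Cfsg.Agent.Lib_helper1_Basic.exists_maximal_subgroup
    (fun M : Subgroup S => M.Normal ∧ IsMulCommutative M) ⟨⊥, Subgroup.normal_bot, bot_comm⟩
  exact ⟨M, h1, h2, fun B hB1 hB2 hle => h3 B ⟨hB1, hB2⟩ hle⟩

/-- **S3061** -/
theorem dStar_mem [Finite S] [Group.IsNilpotent S] : Cfsg.dStar S ∈ Cfsg.dStarFamily S := by
  obtain ⟨M, hMn, hMc, hmax⟩ := exists_max_normal_abelian (S := S)
  haveI := hMc
  refine ⟨Cfsg.Agent.Lib_helper1_Socle.isMulCommutative_of_le (dStar_le_of_max M hMn hMc hmax), ?_⟩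
  intro x hx
  have h1 : Cfsg.dStar S ≤ Subgroup.centralizer ({x} : Set S) := by
    show sSup (Cfsg.dStarFamily S) ≤ _
    apply sSup_le
    intro A hA
    have h2 : ⁅⁅A ⊔ Subgroup.zpowers x, A ⊔ Subgroup.zpowers x⁆, A ⊔ Subgroup.zpowers x⁆ = ⊥ := by
      have hle : A ⊔ Subgroup.zpowers x ≤ Cfsg.dStar S ⊔ Subgroup.zpowers x :=
        sup_le_sup_right (le_sSup hA) _
      exact le_bot_iff.mp (hx ▸ Subgroup.commutator_mono (Subgroup.commutator_mono hle hle) hle)
    intro a ha
    rw [Subgroup.mem_centralizer_iff]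
    intro y hy
    rw [Set.mem_singleton_iff.mp hy]
    exact (hA.2 x h2 a ha).symm
  intro d hd
  exact ((Subgroup.mem_centralizer_iff.mp (h1 hd)) x rfl).symm

theorem dStar_le_center_thompson [Finite S] [Group.IsNilpotent S] :
    Cfsg.dStar S ≤ Cfsg.thompsonSubgroupA S ⊓
      Subgroup.centralizer (Cfsg.thompsonSubgroupA S : Set S) := by
  obtain ⟨D, hD⟩ : ∃ D : Subgroup S, D = Cfsg.dStar S := ⟨_, rfl⟩
  rw [← hD]
  have hDf : D ∈ Cfsg.dStarFamily S := hD ▸ dStar_mem
  have hDn : D.Normal := hD ▸ dStar_normal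
  obtain ⟨hDc, hDprop⟩ := hDf
  haveI := hDc
  haveI := hDn
  have key : ∀ B ∈ Cfsg.maxAbelianSubgroups S,
      D ≤ B ∧ D ≤ Subgroup.centralizer (B : Set S) := by
    rintro B ⟨hBc, hBmax⟩
    haveI := hBc
    have hBD : B ≤ Subgroup.normalizer (D : Set S) := by
      rw [Subgroup.normalizer_eq_top_iff.mpr hDn]; exact le_top
    have hBB : ⁅B, B⁆ ≤ Subgroup.centralizer (D : Set S) := by
      rw [Subgroup.commutator_self_eq_bot_iff.mpr hBc]
      exact bot_le
    have hmaxB : ∀ B' : Subgroup S, B' ≤ B →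
        Nat.card B' * Nat.card ↥(D ⊓ Subgroup.centralizer (B' : Set S)) ≤
          Nat.card B * Nat.card ↥(D ⊓ Subgroup.centralizer (B : Set S)) := by
      intro B' hB'
      haveI : IsMulCommutative B' := Cfsg.Agent.Lib_helper1_Socle.isMulCommutative_of_le hB'
      haveI : IsMulCommutative ↥(D ⊓ Subgroup.centralizer (B' : Set S)) :=
        Cfsg.Agent.Lib_helper1_Socle.isMulCommutative_of_le (inf_le_left : _ ≤ D)
      have hE : IsMulCommutative ↥(B' ⊔ (D ⊓ Subgroup.centralizer (B' : Set S))) :=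
        Cfsg.Agent.Lib_helper1_Socle.isMulCommutative_sup B' _ inf_le_right
      have h1 := Cfsg.Agent.Lib_helper1_Thompson.card_mul_card_le B'
        (D ⊓ Subgroup.centralizer (B' : Set S))
      have h2 : Nat.card ↥(B' ⊔ (D ⊓ Subgroup.centralizer (B' : Set S))) ≤ Nat.card B :=
        hBmax _ hE
      have h3 : B' ⊓ (D ⊓ Subgroup.centralizer (B' : Set S)) ≤
          D ⊓ Subgroup.centralizer (B : Set S) := by
        intro x hx
        refine Subgroup.mem_inf.mpr ⟨hx.2.1, Subgroup.mem_centralizer_iff.mpr ?_⟩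
        intro b hb
        exact setLike_mul_comm hb (hB' hx.1)
      exact h1.trans (Nat.mul_le_mul h2 (Subgroup.card_le_of_le h3))
    obtain ⟨-, hrep⟩ := Cfsg.Agent.Lib_helper1_Offender.replacement D B hBD hBB hmaxB D le_rfl
    have hBstar : B ⊓ Subgroup.centralizer ((⁅D, B⁆ : Subgroup S) : Set S) ≤
        Subgroup.centralizer (D : Set S) := by
      intro x hx
      have hcl := class2_of_gens ((D : Set S) ∪ {x}) ⁅D, B⁆ ?_ ?_
      · rw [← sup_zpowers_eq_closure] at hcl
        rw [Subgroup.mem_centralizer_iff]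
        intro d hd
        exact hDprop x hcl d hd
      · rintro y (hy | hy) z (hz | hz)
        · rw [commutatorElement_eq_one_iff_mul_comm.mpr (setLike_mul_comm hy hz)]
          exact Subgroup.one_mem _
        · rw [Set.mem_singleton_iff.mp hz]
          exact Subgroup.commutator_mem_commutator hy hx.1
        · rw [Set.mem_singleton_iff.mp hy, ← commutatorElement_inv]
          exact Subgroup.inv_mem _ (Subgroup.commutator_mem_commutator hz hx.1)
        · rw [Set.mem_singleton_iff.mp hy, Set.mem_singleton_iff.mp hz, commutatorElement_self]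
          exact Subgroup.one_mem _
      · rintro y (hy | hy) w hw
        · exact setLike_mul_comm hy (Subgroup.commutator_le_left D B hw)
        · rw [Set.mem_singleton_iff.mp hy]
          exact ((Subgroup.mem_centralizer_iff.mp hx.2) w hw).symm
    have hDeq : D = ⁅D, B⁆ ⊔ (D ⊓ Subgroup.centralizer (B : Set S)) := by
      rw [← hrep]
      exact (inf_eq_left.mpr (Subgroup.le_centralizer_iff.mp hBstar)).symm
    have hcomm : ⁅D, B⁆ ≤ ⁅⁅D, B⁆, (⊤ : Subgroup S)⁆ := by
      have h1 : ⁅D, B⁆ = ⁅⁅D, B⁆ ⊔ (D ⊓ Subgroup.centralizer (B : Set S)), B⁆ := by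
        rw [← hDeq]
      rw [Cfsg.Agent.Lib_helper1_Offender.sup_commutator_of_abelian D B _ _ hBD
        (Subgroup.commutator_le_left D B) inf_le_left] at h1
      have h2 : ⁅D ⊓ Subgroup.centralizer (B : Set S), B⁆ = ⊥ :=
        Subgroup.commutator_eq_bot_iff_le_centralizer.mpr inf_le_right
      rw [h2, sup_bot_eq] at h1
      exact h1.le.trans (Subgroup.commutator_mono le_rfl le_top)
    have hnil : Group.IsNilpotent ↥(⊤ : Subgroup S) :=
      Group.nilpotent_of_mulEquiv Subgroup.topEquiv.symm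
    have hDB0 : ⁅D, B⁆ = ⊥ := by
      by_contra hne
      exact Cfsg.Agent.Lib_helper1_Offender.not_le_commutator_of_nilpotent ⊤ ⁅D, B⁆ hnil le_top
        hne hcomm
    have hDcB : D ≤ Subgroup.centralizer (B : Set S) :=
      Subgroup.commutator_eq_bot_iff_le_centralizer.mp hDB0
    have hBDc : IsMulCommutative ↥(B ⊔ D) :=
      Cfsg.Agent.Lib_helper1_Socle.isMulCommutative_sup B D hDcB
    have hcard : Nat.card ↥(B ⊔ D) ≤ Nat.card B := hBmax _ hBDc
    have hEq : B = B ⊔ D := Subgroup.eq_of_le_of_card_ge le_sup_left hcard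
    exact ⟨(le_sup_right : D ≤ B ⊔ D).trans hEq.ge, hDcB⟩
  obtain ⟨B₀, hB₀c, hB₀max⟩ := Set.exists_max_image {B : Subgroup S | IsMulCommutative B}
    (fun B => Nat.card B) (Set.toFinite _) ⟨⊥, (bot_comm : IsMulCommutative (⊥ : Subgroup S))⟩
  have hB₀ : B₀ ∈ Cfsg.maxAbelianSubgroups S := ⟨hB₀c, fun B hB => hB₀max B hB⟩
  refine le_inf ?_ ?_
  · exact (key B₀ hB₀).1.trans (le_sSup hB₀)
  · rw [Subgroup.le_centralizer_iff]
    show sSup (Cfsg.maxAbelianSubgroups S) ≤ _
    apply sSup_le
    intro B hB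
    exact Subgroup.le_centralizer_iff.mp (key B hB).2

theorem s3062 [Finite S] {p : ℕ} [Fact p.Prime] (hS : IsPGroup p S) :
    Subgroup.center S ≤ Cfsg.dStar S ∧
    Cfsg.dStar S ≤ Cfsg.thompsonSubgroupA S ⊓
      Subgroup.centralizer (Cfsg.thompsonSubgroupA S : Set S) ∧
    ∀ A : Subgroup S, A.Normal → IsMulCommutative A →
      (∀ B : Subgroup S, B.Normal → IsMulCommutative B → A ≤ B → B = A) → Cfsg.dStar S ≤ A := by
  haveI : Group.IsNilpotent S := hS.isNilpotent
  refine ⟨?_, dStar_le_center_thompson, fun A hAn hAc hmax => dStar_le_of_max A hAn hAc hmax⟩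
  apply le_sSup
  refine ⟨inferInstance, ?_⟩
  intro x _ a ha
  exact ((Subgroup.mem_center_iff.mp ha) x).symm

theorem s3061 [Finite S] {p : ℕ} [Fact p.Prime] (hS : IsPGroup p S) :
    Cfsg.dStar S ∈ Cfsg.dStarFamily S := by
  haveI : Group.IsNilpotent S := hS.isNilpotent
  exact dStar_mem

end Cfsg.Agent.Lib_helper7_DStar
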