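import Cfsg.Agent.Lib_helper7_CoprimeGen
import Cfsg.Agent.Lib_helper7_CharP
import Cfsg.Agent.Lib_helper7_Comm
import Cfsg.Agent.Lib_helper7_Large
import Cfsg.Agent.Lib_helper1_Coprime

set_option autoImplicit false

namespace Cfsg.Agent.Lib_helper7_DualAB

universe u

variable {G : Type u} [Group G] [Finite G] {p : ℕ} [Fact p.Prime]

/-- Dual of the `A × B` lemma: a `p'`-group `Q` acting on a `p`-group `F` with
`[F, Q] ≤ [F, F]` centralizes `F`. -/
theorem centralizes_of_commutator_le_derived (F Q : Subgroup G) (hF : IsPGroup p F)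
    (hQ : (Nat.card Q).Coprime p) (hQF : Q ≤ Subgroup.normalizer (F : Set G))
    (h : ⁅F, Q⁆ ≤ ⁅F, F⁆) : Q ≤ Subgroup.centralizer (F : Set G) := by
  have hp : p.Prime := Fact.out
  have hcop : (Nat.card Q).Coprime (Nat.card F) := by
    obtain ⟨k, hk⟩ := hF.exists_card_eq
    rw [hk]
    exact Nat.Coprime.pow_right k hQ
  have hFsolv : Group.IsSolvable F := by
    haveI := hF.isNilpotent
    infer_instance
  have hD : ⁅⁅F, Q⁆, Q⁆ = ⁅F, Q⁆ :=
    Cfsg.Agent.Lib_helper1_Coprime.commutator_commutator_eq Q F hQF hcop (Or.inr hFsolv)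
  -- the relative lower central series
  obtain ⟨γ, hγ0, hγs⟩ : ∃ γ : ℕ → Subgroup G, γ 0 = F ∧ ∀ i, γ (i + 1) = ⁅γ i, F⁆ :=
    ⟨fun i => Nat.rec F (fun _ X => ⁅X, F⁆) i, rfl, fun i => rfl⟩
  have hFN : ∀ i, F ≤ Subgroup.normalizer ((γ i : Subgroup G) : Set G) := by
    intro i
    induction i with
    | zero => rw [hγ0]; exact Subgroup.le_normalizer
    | succ i ih =>
      rw [hγs]
      exact Cfsg.Agent.Lib_helper1_Coprime.normalizer_commutator_right F (γ i) ih
  have hγle : ∀ i, γ i ≤ F := by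
    intro i
    induction i with
    | zero => rw [hγ0]
    | succ i ih =>
      rw [hγs]
      exact (Cfsg.Agent.Lib_helper1_Coprime.commutator_le_of_normalizes F (γ i) (hFN i)).trans ih
  have hQN : ∀ i, Q ≤ Subgroup.normalizer ((γ i : Subgroup G) : Set G) := by
    intro i
    induction i with
    | zero => rw [hγ0]; exact hQF
    | succ i ih =>
      rw [hγs]
      intro q hq
      exact Cfsg.Agent.Lib_helper7_Comm.mem_normalizer_commutator (γ i) F q (ih hq) (hQF hq)
  have hDle : ∀ i, ⁅F, Q⁆ ≤ γ (i + 1) := by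
    intro i
    induction i with
    | zero => rw [hγs, hγ0]; exact h
    | succ i ih =>
      have h1 : ⁅⁅F, Q⁆, γ i⁆ ≤ γ (i + 2) := by
        rw [hγs (i + 1)]
        exact Subgroup.commutator_mono ih (hγle i)
      have h2 : ⁅⁅Q, γ i⁆, F⁆ ≤ γ (i + 2) := by
        rw [hγs (i + 1)]
        refine Subgroup.commutator_mono ?_ le_rfl
        rw [Subgroup.commutator_comm]
        exact (Subgroup.commutator_mono (hγle i) le_rfl).trans ih
      have h3 := Cfsg.Agent.Lib_helper7_Comm.three_subgroups_rel (γ (i + 2)) (γ i) F Q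
        ((hγle i).trans (hFN (i + 2))) (hFN (i + 2)) (hQN (i + 2)) h1 h2
      rw [← hγs i] at h3
      rw [← hD]
      exact (Subgroup.commutator_mono ih le_rfl).trans h3
  have hcard : ∀ i, γ i = ⊥ ∨ Nat.card (γ i) + i ≤ Nat.card F := by
    intro i
    induction i with
    | zero => right; rw [hγ0]; omega
    | succ i ih =>
      rcases ih with h0 | h1
      · left
        rw [hγs, h0]
        exact Subgroup.commutator_bot_left _
      · by_cases h0 : γ i = ⊥
        · left
          rw [hγs, h0]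
          exact Subgroup.commutator_bot_left _
        · right
          have hne := Cfsg.Agent.Lib_helper1_Coprime.commutator_ne_self_of_pgroups p F (γ i) hF
            (hF.to_le (hγle i)) (hFN i) h0
          have hle : γ (i + 1) ≤ γ i := by
            rw [hγs]
            exact Cfsg.Agent.Lib_helper1_Coprime.commutator_le_of_normalizes F (γ i) (hFN i)
          have hlt : Nat.card (γ (i + 1)) < Nat.card (γ i) := by
            by_contra hge
            push_neg at hge
            apply hne
            rw [← hγs]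
            exact Subgroup.eq_of_le_of_card_ge hle hge
          omega
  have hpos : 0 < Nat.card F := Nat.card_pos
  obtain ⟨m, hm⟩ : ∃ m, Nat.card F = m + 1 := ⟨Nat.card F - 1, by omega⟩
  have hbot : γ (m + 1) = ⊥ := by
    rcases hcard (m + 1) with h0 | h1
    · exact h0
    · exfalso
      have : 0 < Nat.card (γ (m + 1)) := Nat.card_pos
      omega
  have hDbot : ⁅F, Q⁆ = ⊥ := by
    rw [eq_bot_iff, ← hbot]
    exact hDle m
  rw [Subgroup.le_centralizer_iff]
  exact Subgroup.commutator_eq_bot_iff_le_centralizer.mp hDbot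

/-- S2909 -/
theorem commutator_le_centralizer (E : Subgroup G) [hEn : E.Normal] (hE : IsPGroup p ↥E)
    (U : Subgroup G) (hU : Cfsg.IsElementaryAbelian p U) (hnc : ¬ IsCyclic ↥U)
    (hcond : (∀ u ∈ U, u ≠ 1 → E ⊓ Subgroup.centralizer (U : Set G) =
        E ⊓ Subgroup.centralizer ({u} : Set G)) ∨
      (∀ u ∈ U, u ≠ 1 → ⁅E, U⁆ = ⁅E, Subgroup.zpowers u⁆))
    (R : Subgroup G) (hR : ¬ p ∣ Nat.card ↥R) (hRU : U ≤ Subgroup.normalizer (R : Set G)) :
    ⁅R, U⁆ ≤ Subgroup.centralizer (E : Set G) := by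
  have hp : p.Prime := Fact.out
  have hRc : (Nat.card R).Coprime p := ((Nat.Prime.coprime_iff_not_dvd hp).mpr hR).symm
  have hNE : ∀ X : Subgroup G, X ≤ Subgroup.normalizer (E : Set G) :=
    fun X => le_top.trans_eq (Subgroup.normalizer_eq_top_iff.mpr hEn).symm
  have hCn : (Subgroup.centralizer (E : Set G)).Normal :=
    Subgroup.normalizer_eq_top_iff.mp (eq_top_iff.mpr
      ((hNE ⊤).trans (Cfsg.Agent.Lib_helper7_Large.normalizer_le_normalizer_centralizer _)))
  have hUcomm : ∀ a ∈ U, ∀ b ∈ U, a * b = b * a := by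
    intro a ha b hb
    have := hU.1.is_comm.comm (⟨a, ha⟩ : U) ⟨b, hb⟩
    exact congrArg Subtype.val this
  -- key: for nontrivial `u`, `[C_R(u), U]` centralizes `E`
  have key : ∀ u ∈ U, u ≠ 1 →
      ⁅R ⊓ Subgroup.centralizer ({u} : Set G), U⁆ ≤ Subgroup.centralizer (E : Set G) := by
    intro u hu hu1
    have hUCu : U ≤ Subgroup.centralizer ({u} : Set G) := by
      intro a ha
      rw [Subgroup.mem_centralizer_iff]
      intro y hy
      rw [Set.mem_singleton_iff] at hy
      rw [hy]
      exact hUcomm u hu a ha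
    have hUN : U ≤ Subgroup.normalizer
        ((R ⊓ Subgroup.centralizer ({u} : Set G) : Subgroup G) : Set G) :=
      Cfsg.Agent.Lib_helper7_CharP.le_normalizer_inf _ _ _ hRU
        (hUCu.trans Subgroup.le_normalizer)
    have hBle : ⁅R ⊓ Subgroup.centralizer ({u} : Set G), U⁆ ≤
        R ⊓ Subgroup.centralizer ({u} : Set G) :=
      Cfsg.Agent.Lib_helper1_Coprime.commutator_le_of_normalizes U _ hUN
    have hBc : (Nat.card ↥(⁅R ⊓ Subgroup.centralizer ({u} : Set G), U⁆)).Coprime p :=
      Nat.Coprime.coprime_dvd_left (Subgroup.card_dvd_of_le (hBle.trans inf_le_left)) hRc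
    have hPp : IsPGroup p (Subgroup.zpowers u) := by
      have h1 : orderOf u ∣ p ^ 1 := by
        rw [pow_one]
        exact orderOf_dvd_of_pow_eq_one (hU.2 u hu)
      obtain ⟨j, -, hj⟩ := (Nat.dvd_prime_pow hp).mp h1
      exact IsPGroup.of_card (n := j) (by rw [Nat.card_zpowers, hj])
    have hPB : Subgroup.zpowers u ≤ Subgroup.centralizer
        ((⁅R ⊓ Subgroup.centralizer ({u} : Set G), U⁆ : Subgroup G) : Set G) := by
      rw [Subgroup.zpowers_le, Subgroup.mem_centralizer_iff]
      intro b hb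
      have hb' := (hBle hb).2
      exact (Subgroup.mem_centralizer_iff.mp hb' u rfl).symm
    have hRuP : R ⊓ Subgroup.centralizer ({u} : Set G) ≤
        Subgroup.centralizer ((Subgroup.zpowers u : Subgroup G) : Set G) := by
      intro r hr
      have h1 : Subgroup.zpowers u ≤ Subgroup.centralizer ({r} : Set G) := by
        rw [Subgroup.zpowers_le, Subgroup.mem_centralizer_iff]
        intro y hy
        rw [Set.mem_singleton_iff] at hy
        rw [hy]
        exact (Subgroup.mem_centralizer_iff.mp hr.2 u rfl).symm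
      rw [Subgroup.mem_centralizer_iff]
      intro y hy
      exact (Subgroup.mem_centralizer_iff.mp (h1 hy) r rfl).symm
    rcases hcond with hc1 | hc2
    · -- Case 1
      have hc := hc1 u hu hu1
      have h1 : ⁅⁅U, E ⊓ Subgroup.centralizer (U : Set G)⁆,
          R ⊓ Subgroup.centralizer ({u} : Set G)⁆ = ⊥ := by
        have : ⁅U, E ⊓ Subgroup.centralizer (U : Set G)⁆ = ⊥ := by
          rw [Subgroup.commutator_eq_bot_iff_le_centralizer, Subgroup.le_centralizer_iff]
          exact inf_le_right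
        rw [this]
        exact Subgroup.commutator_bot_left _
      have h2 : ⁅⁅E ⊓ Subgroup.centralizer (U : Set G),
          R ⊓ Subgroup.centralizer ({u} : Set G)⁆, U⁆ = ⊥ := by
        have hN : R ⊓ Subgroup.centralizer ({u} : Set G) ≤ Subgroup.normalizer
            ((E ⊓ Subgroup.centralizer (U : Set G) : Subgroup G) : Set G) := by
          rw [hc]
          exact Cfsg.Agent.Lib_helper7_CharP.le_normalizer_inf _ _ _ (hNE _)
            (inf_le_right.trans Subgroup.le_normalizer)
        have hle := Cfsg.Agent.Lib_helper1_Coprime.commutator_le_of_normalizes _ _ hN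
        rw [Subgroup.commutator_eq_bot_iff_le_centralizer]
        exact hle.trans inf_le_right
      have h3 := Subgroup.commutator_commutator_eq_bot_of_rotate h1 h2
      apply Cfsg.Agent.Lib_helper1_Coprime.thompson_pq_aux p (Subgroup.zpowers u) _ hPp hBc hPB
        (Nat.card E) E rfl hE (hNE _) (hNE _)
      have h4 : E ⊓ Subgroup.centralizer (U : Set G) ≤ Subgroup.centralizer
          ((⁅R ⊓ Subgroup.centralizer ({u} : Set G), U⁆ : Subgroup G) : Set G) := by
        rw [Subgroup.le_centralizer_iff]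
        exact Subgroup.commutator_eq_bot_iff_le_centralizer.mp h3
      refine le_trans ?_ h4
      rw [hc]
      refine le_inf inf_le_left ?_
      refine inf_le_right.trans ?_
      apply Subgroup.centralizer_le
      intro y hy
      rw [Set.mem_singleton_iff] at hy
      rw [hy]
      exact Subgroup.mem_zpowers u
    · -- Case 2
      have hc := hc2 u hu hu1
      have hRuN : R ⊓ Subgroup.centralizer ({u} : Set G) ≤
          Subgroup.normalizer ((⁅E, U⁆ : Subgroup G) : Set G) := by
        rw [hc]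
        intro r hr
        exact Cfsg.Agent.Lib_helper7_Comm.mem_normalizer_commutator E (Subgroup.zpowers u) r
          (hNE _ hr) (Subgroup.centralizer_le_normalizer _ (hRuP hr))
      have h1 : ⁅⁅U, E⁆, R ⊓ Subgroup.centralizer ({u} : Set G)⁆ ≤ ⁅E, U⁆ := by
        rw [Subgroup.commutator_comm U E]
        exact Cfsg.Agent.Lib_helper1_Coprime.commutator_le_of_normalizes _ _ hRuN
      have h2 : ⁅⁅E, R ⊓ Subgroup.centralizer ({u} : Set G)⁆, U⁆ ≤ ⁅E, U⁆ :=
        Subgroup.commutator_mono (Subgroup.commutator_le_left E _) le_rfl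
      have h3 := Cfsg.Agent.Lib_helper7_Comm.three_subgroups_rel ⁅E, U⁆
        (R ⊓ Subgroup.centralizer ({u} : Set G)) U E hRuN
        (Cfsg.Agent.Lib_helper1_Coprime.normalizer_commutator_right U E (hNE _))
        (Cfsg.Agent.Lib_helper1_Coprime.normalizer_commutator_left U E) h1 h2
      rw [hc] at h3
      -- the `p`-group `F = E ⊔ ⟨u⟩`
      have hFp : IsPGroup p ↥(E ⊔ Subgroup.zpowers u) := by
        rw [sup_comm]
        exact IsPGroup.to_sup_of_normal_right' hPp hE (hNE _)
      have hBF : ⁅R ⊓ Subgroup.centralizer ({u} : Set G), U⁆ ≤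
          Subgroup.normalizer ((E ⊔ Subgroup.zpowers u : Subgroup G) : Set G) := by
        intro b hb
        exact Cfsg.Agent.Lib_helper7_Comm.mem_normalizer_sup E (Subgroup.zpowers u) b
          (hNE _ hb) (Subgroup.centralizer_le_normalizer _ (hRuP (hBle hb)))
      have hcomm : ⁅E ⊔ Subgroup.zpowers u, ⁅R ⊓ Subgroup.centralizer ({u} : Set G), U⁆⁆ ≤
          ⁅E ⊔ Subgroup.zpowers u, E ⊔ Subgroup.zpowers u⁆ := by
        rw [Subgroup.commutator_le]
        intro f hf b hb
        have hf' : f ∈ ((E ⊔ Subgroup.zpowers u : Subgroup G) : Set G) := hf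
        rw [Subgroup.normal_mul] at hf'
        obtain ⟨e, he, x, hx, rfl⟩ := Set.mem_mul.mp hf'
        have hxb : x * b = b * x := by
          have := Subgroup.mem_centralizer_iff.mp (hRuP (hBle hb)) x hx
          exact this
        show e * x * b * (e * x)⁻¹ * b⁻¹ ∈ _
        have e1 : e * x * b * (e * x)⁻¹ * b⁻¹ = e * b * e⁻¹ * b⁻¹ := by
          calc e * x * b * (e * x)⁻¹ * b⁻¹ = e * (x * b) * x⁻¹ * e⁻¹ * b⁻¹ := by group
            _ = e * (b * x) * x⁻¹ * e⁻¹ * b⁻¹ := by rw [hxb]
            _ = e * b * e⁻¹ * b⁻¹ := by group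
        rw [e1]
        have h5 : e * b * e⁻¹ * b⁻¹ ∈ ⁅E, ⁅R ⊓ Subgroup.centralizer ({u} : Set G), U⁆⁆ :=
          Subgroup.commutator_mem_commutator he hb
        rw [Subgroup.commutator_comm] at h5
        exact Subgroup.commutator_mono le_sup_left le_sup_right (h3 h5)
      have h6 := centralizes_of_commutator_le_derived (E ⊔ Subgroup.zpowers u) _ hFp hBc hBF hcomm
      exact h6.trans (Subgroup.centralizer_le (fun y hy => Subgroup.mem_sup_left hy))
  -- coprime generation
  obtain ⟨x, hxU, hx1⟩ : ∃ x ∈ U, x ≠ 1 := by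
    by_contra hne
    push_neg at hne
    apply hnc
    haveI : Subsingleton ↥U := ⟨fun a b => Subtype.ext ((hne a a.2).trans (hne b b.2).symm)⟩
    infer_instance
  obtain ⟨y, hyU, hyx⟩ : ∃ y ∈ U, y ∉ Subgroup.zpowers x := by
    by_contra hne
    push_neg at hne
    apply hnc
    refine ⟨⟨⟨x, hxU⟩, fun a => ?_⟩⟩
    obtain ⟨i, hi⟩ := Subgroup.mem_zpowers_iff.mp (hne a a.2)
    exact Subgroup.mem_zpowers_iff.mpr ⟨i, Subtype.ext (by simpa using hi)⟩
  let K : Subgroup G :=
    { carrier := {r | ∀ a ∈ U, r * a * r⁻¹ * a⁻¹ ∈ Subgroup.centralizer (E : Set G)}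
      one_mem' := by
        intro a _
        simp
      mul_mem' := by
        intro r s hr hs a ha
        have e1 : r * s * a * (r * s)⁻¹ * a⁻¹ = r * (s * a * s⁻¹ * a⁻¹) * r⁻¹ * (r * a * r⁻¹ * a⁻¹) := by
          group
        rw [e1]
        exact Subgroup.mul_mem _ (hCn.conj_mem _ (hs a ha) r) (hr a ha)
      inv_mem' := by
        intro r hr a ha
        have e1 : r⁻¹ * a * r⁻¹⁻¹ * a⁻¹ = r⁻¹ * (r * a * r⁻¹ * a⁻¹)⁻¹ * r⁻¹⁻¹ := by group
        rw [e1]
        exact hCn.conj_mem _ (Subgroup.inv_mem _ (hr a ha)) r⁻¹ }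
  have hKu : ∀ u ∈ U, u ≠ 1 → R ⊓ Subgroup.centralizer ({u} : Set G) ≤ K := by
    intro u hu hu1 r hr a ha
    exact key u hu hu1 (Subgroup.commutator_mem_commutator hr ha)
  have hRK : R ≤ K := by
    apply Cfsg.Agent.Lib_helper7_CoprimeGen.le_of_centralizers_le (p := p) x y
      (hUcomm x hxU y hyU) (hU.2 x hxU) (hU.2 y hyU) R (hRU hxU) (hRU hyU) hRc K
      (hKu x hxU hx1)
    intro k
    apply hKu _ (U.mul_mem hyU (U.pow_mem hxU k))
    intro h
    apply hyx
    have : y = (x ^ k)⁻¹ := eq_inv_of_mul_eq_one_left h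
    rw [this]
    exact Subgroup.inv_mem _ (Subgroup.pow_mem _ (Subgroup.mem_zpowers x) k)
  rw [Subgroup.commutator_le]
  intro r hr a ha
  exact hRK hr a ha

end Cfsg.Agent.Lib_helper7_DualAB
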