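import Mathlib

/-! Fixed points covering a quotient: lifting from a Sylow subgroup by averaging. -/

namespace Cfsg.Agent.Lib_helper7_FixCover

theorem s1940 {L : Type*} [Group L] [Finite L] {M : Type*} [CommGroup M] [Finite M]
    [MulDistribMulAction L M]
    {p : ℕ} [Fact p.Prime] (N : Subgroup M)
    (hquot : IsPGroup p (M ⧸ N)) (htriv : ∀ (l : L) (m : M), (l • m) * m⁻¹ ∈ N) (T : Sylow p L)
    (hT : ∀ m : M, ∃ n ∈ N, ∃ c : M, (∀ t ∈ (T : Subgroup L), t • c = c) ∧ m = n * c) :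
    ∀ m : M, ∃ n ∈ N, ∃ c : M, (∀ l : L, l • c = c) ∧ m = n * c := by
  classical
  intro m
  obtain ⟨n, hn, c, hc, rfl⟩ := hT m
  letI : Fintype (L ⧸ (T : Subgroup L)) := Fintype.ofFinite _
  obtain ⟨c', hc'⟩ : ∃ c' : M, c' = ∏ q : L ⧸ (T : Subgroup L), (q.out • c) := ⟨_, rfl⟩
  have hfix : ∀ l : L, l • c' = c' := by
    intro l
    rw [hc', Finset.smul_prod']
    have h1 : ∀ q : L ⧸ (T : Subgroup L), l • (q.out • c) = ((l • q).out • c) := by
      intro q
      have h2 : l • q = ((l * q.out : L) : L ⧸ (T : Subgroup L)) := by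
        conv_lhs => rw [← QuotientGroup.out_eq' q]
        rfl
      obtain ⟨h, hh⟩ := QuotientGroup.mk_out_eq_mul (T : Subgroup L) (l * q.out)
      rw [h2, hh, mul_smul, mul_smul, hc (h : L) h.2]
    rw [Finset.prod_congr rfl (fun q _ => h1 q)]
    exact Equiv.prod_comp (MulAction.toPerm l) (fun q : L ⧸ (T : Subgroup L) => q.out • c)
  have hmk : (QuotientGroup.mk c' : M ⧸ N) = (QuotientGroup.mk c : M ⧸ N) ^ (T : Subgroup L).index := by
    rw [hc']
    have h0 : (QuotientGroup.mk (∏ q : L ⧸ (T : Subgroup L), (q.out • c)) : M ⧸ N) =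
        ∏ q : L ⧸ (T : Subgroup L), (QuotientGroup.mk (q.out • c) : M ⧸ N) :=
      map_prod (QuotientGroup.mk' N) _ _
    rw [h0]
    have h1 : ∀ q : L ⧸ (T : Subgroup L), (QuotientGroup.mk (q.out • c) : M ⧸ N) =
        QuotientGroup.mk c := by
      intro q
      rw [QuotientGroup.eq]
      have := N.inv_mem (htriv q.out c)
      rw [mul_inv_rev, inv_inv, mul_comm] at this
      exact this
    rw [Finset.prod_congr rfl (fun q _ => h1 q), Finset.prod_const, Finset.card_univ,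
      Subgroup.index, Nat.card_eq_fintype_card]
  obtain ⟨a, ha⟩ := IsPGroup.iff_card.mp hquot
  have hp : p.Prime := Fact.out
  have hcop : Nat.Coprime (T : Subgroup L).index (orderOf (QuotientGroup.mk c : M ⧸ N)) := by
    have h1 : Nat.Coprime (T : Subgroup L).index (p ^ a) :=
      (((Nat.Prime.coprime_iff_not_dvd hp).mpr T.not_dvd_index).symm).pow_right a
    exact Nat.Coprime.coprime_dvd_right (ha ▸ orderOf_dvd_natCard _) h1
  obtain ⟨j, hj⟩ := exists_pow_eq_self_of_coprime hcop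
  have hmk2 : (QuotientGroup.mk (c' ^ j) : M ⧸ N) = QuotientGroup.mk c := by
    rw [QuotientGroup.mk_pow, hmk, hj]
  have hmem : (c' ^ j)⁻¹ * c ∈ N := QuotientGroup.eq.mp hmk2
  refine ⟨n * ((c' ^ j)⁻¹ * c), N.mul_mem hn hmem, c' ^ j, fun l => ?_, ?_⟩
  · rw [smul_pow', hfix l]
  · rw [mul_assoc, mul_comm ((c' ^ j)⁻¹ * c) (c' ^ j), mul_inv_cancel_left]

end Cfsg.Agent.Lib_helper7_FixCover
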