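import Mathlib
import Cfsg.Agent.Lib_helper7_Sidki

set_option autoImplicit false

namespace Cfsg.Agent.Lib_helper7_FourSidki

variable {G : Type*} [Group G] [Finite G]

theorem s3195 (A : Subgroup G) (hA : IsKleinFour ↥A)
    (h : ∀ a ∈ A, a ≠ 1 → ∀ g : G, A ⊓ Subgroup.centralizer ({g * a * g⁻¹} : Set G) ≠ ⊥) :
    A ⊓ Cfsg.pCore 2 G ≠ ⊥ := by
  have hcard : Nat.card A = 4 := hA.card_four
  have hexp : Monoid.exponent ↥A = 2 := hA.exponent_two
  have hsq : ∀ a ∈ A, a ^ 2 = 1 := by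
    intro a ha
    have h1 : (⟨a, ha⟩ : ↥A) ^ 2 = 1 := by rw [← hexp]; exact Monoid.pow_exponent_eq_one _
    have := congrArg Subtype.val h1
    simpa using this
  have hcomm : ∀ a ∈ A, ∀ b ∈ A, a * b = b * a := by
    intro a ha b hb
    have h1 := mul_comm_of_exponent_two hexp (⟨a, ha⟩ : ↥A) ⟨b, hb⟩
    exact congrArg Subtype.val h1
  have hA1 : A ≠ ⊥ := by
    intro h0
    rw [h0, Subgroup.card_bot] at hcard
    omega
  have hEA : Cfsg.IsElementaryAbelian 2 A := by
    refine ⟨⟨⟨fun x y => ?_⟩⟩, hsq⟩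
    apply Subtype.ext
    exact hcomm x x.2 y y.2
  apply Cfsg.Agent.Lib_helper7_Sidki.sidki_four A hEA hA1 ?_ (le_of_eq hcard)
  intro x v hv hxo hinv
  by_cases hv1 : v = 1
  · -- then x = 1
    rw [hv1] at hinv
    have h1 : x = x⁻¹ := by simpa using hinv
    have h2 : x * x = 1 := by
      calc x * x = x * x⁻¹ := by rw [← h1]
        _ = 1 := mul_inv_cancel x
    have hx1 : x = 1 := Cfsg.Agent.Lib_helper7_Sidki.eq_one_of_odd_sq hxo h2
    obtain ⟨w, hw1⟩ := (Subgroup.ne_bot_iff_exists_ne_one).mp hA1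
    refine ⟨w, w.2, fun hh => hw1 (Subtype.ext hh), ?_⟩
    rw [hx1, mul_one, one_mul]
  · -- v x is conjugate to v
    obtain ⟨m, hm⟩ := hxo
    obtain ⟨u, hu⟩ : ∃ u : G, u = x ^ (m + 1) := ⟨_, rfl⟩
    have hu2 : u * u = x := by
      rw [hu, ← pow_add]
      have : m + 1 + (m + 1) = orderOf x + 1 := by omega
      rw [this, pow_succ, pow_orderOf_eq_one, one_mul]
    have hvinv : v⁻¹ = v := by
      have := hsq v hv
      rw [pow_two] at this
      exact inv_eq_of_mul_eq_one_left this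
    have hvu : v * u * v⁻¹ = u⁻¹ := by
      rw [hu, ← conj_pow, hinv, inv_pow]
    have hconj : u⁻¹ * v * u⁻¹⁻¹ = v * x := by
      have e1 : v * u = u⁻¹ * v := by
        calc v * u = (v * u * v⁻¹) * v := by group
          _ = u⁻¹ * v := by rw [hvu]
      calc u⁻¹ * v * u⁻¹⁻¹ = (u⁻¹ * v) * u := by group
        _ = (v * u) * u := by rw [e1]
        _ = v * (u * u) := by group
        _ = v * x := by rw [hu2]
    have h1 := h v hv hv1 u⁻¹
    rw [hconj] at h1
    obtain ⟨w, hw1⟩ := (Subgroup.ne_bot_iff_exists_ne_one).mp h1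
    have hw := Subgroup.mem_inf.mp w.2
    refine ⟨w, hw.1, fun hh => hw1 (Subtype.ext hh), ?_⟩
    have h2 : (v * x) * (w : G) = (w : G) * (v * x) :=
      Subgroup.mem_centralizer_iff.mp hw.2 (v * x) rfl
    have h3 : (w : G) * v = v * (w : G) := hcomm _ hw.1 v hv
    calc (w : G) * x = v⁻¹ * (v * (w : G)) * x := by group
      _ = v⁻¹ * ((w : G) * v) * x := by rw [h3]
      _ = v⁻¹ * ((w : G) * (v * x)) := by group
      _ = v⁻¹ * ((v * x) * (w : G)) := by rw [h2]
      _ = x * (w : G) := by group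

end Cfsg.Agent.Lib_helper7_FourSidki
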