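import Mathlib
import Cfsg.Prelude.Def_Local
import Cfsg.Prelude.Def_Solvable
import Cfsg.Agent.Lib_helper1_PSolvComp
import Cfsg.Agent.Lib_helper1_PGroup
import Cfsg.Agent.Lib_helper1_Coprime
import Cfsg.Agent.Lib_helper2_PComp
import Cfsg.Agent.Lib_helper5_PSolv
import Cfsg.Agent.Lib_helper7_PCore
import Cfsg.Agent.Lib_helper7_PPrimeP

set_option autoImplicit false

namespace Cfsg.Agent.Lib_helper7_HH125

open Cfsg

open scoped commutatorElement

universe u

/-- Frattini subgroups correspond under isomorphisms. -/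
theorem mem_frattini_equiv {A B : Type*} [Group A] [Group B] (e : A ≃* B) (x : A) :
    e x ∈ frattini B ↔ x ∈ frattini A := by
  constructor
  · intro h
    have h1 := frattini_le_comap_frattini_of_surjective (φ := e.symm.toMonoidHom)
      e.symm.surjective h
    rw [Subgroup.mem_comap] at h1
    simpa using h1
  · intro h
    exact frattini_le_comap_frattini_of_surjective (φ := e.toMonoidHom) e.surjective h

/-- Frattini preimages agree for two surjections with the same kernel. -/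
theorem mem_frattini_of_ker_eq {A B : Type*} [Group A] [Group B] (K : Subgroup A) [K.Normal]
    (φ : A →* B) (hφ : Function.Surjective φ) (hK : K = φ.ker) (x : A) :
    QuotientGroup.mk' K x ∈ frattini (A ⧸ K) ↔ φ x ∈ frattini B := by
  subst hK
  rw [← mem_frattini_equiv (QuotientGroup.quotientKerEquivOfSurjective φ hφ)]
  rfl

section quot

variable {Y : Type u} [Group Y] [Finite Y] {p : ℕ} [hp : Fact p.Prime]

/-- **Hall–Higman 1.2.5, core form.** If `C_Y(O_p(Y)) ≤ O_p(Y)`, an element acting trivially on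
`O_p(Y)/Φ(O_p(Y))` lies in `O_p(Y)`. -/
theorem mem_pCore_of_trivial_on_frattini_quotient
    (hcent : Subgroup.centralizer (Cfsg.pCore p Y : Set Y) ≤ Cfsg.pCore p Y) (a : Y)
    (ha : ∀ x ∈ Cfsg.pCore p Y, a * x * a⁻¹ * x⁻¹ ∈
      (frattini ↥(Cfsg.pCore p Y)).map (Cfsg.pCore p Y).subtype) :
    a ∈ Cfsg.pCore p Y := by
  obtain ⟨P, hP⟩ : ∃ P : Subgroup Y, P = Cfsg.pCore p Y := ⟨_, rfl⟩
  rw [← hP] at hcent ha ⊢
  have hPn : P.Normal := by rw [hP]; exact Cfsg.Agent.Lib_helper7_PCore.pCore_normal p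
  have hPp : IsPGroup p ↥P := by rw [hP]; exact Cfsg.Agent.Lib_helper7_PCore.pCore_isPGroup p
  obtain ⟨Φ, hΦ⟩ : ∃ Φ : Subgroup Y, Φ = (frattini ↥P).map P.subtype := ⟨_, rfl⟩
  rw [← hΦ] at ha
  have hΦP : Φ ≤ P := by rw [hΦ]; exact Subgroup.map_subtype_le _
  have hΦn : ∀ g : Y, ∀ f ∈ Φ, g * f * g⁻¹ ∈ Φ := by
    intro g f hf
    have h1 := Cfsg.Agent.Lib_helper1_Coprime.normalizer_le_normalizer_map_characteristic P
      (frattini ↥P)
    rw [Subgroup.normalizer_eq_top P, ← hΦ] at h1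
    exact (Subgroup.mem_normalizer_iff.mp (h1 (Subgroup.mem_top g)) f).mp hf
  -- the kernel of the action on P/Φ
  let C : Subgroup Y :=
    { carrier := {c | ∀ x ∈ P, c * x * c⁻¹ * x⁻¹ ∈ Φ}
      one_mem' := by
        intro x _
        show 1 * x * 1⁻¹ * x⁻¹ ∈ Φ
        have : (1 : Y) * x * 1⁻¹ * x⁻¹ = 1 := by group
        rw [this]; exact Φ.one_mem
      mul_mem' := by
        intro c d hc hd x hx
        show c * d * x * (c * d)⁻¹ * x⁻¹ ∈ Φ
        have e : c * d * x * (c * d)⁻¹ * x⁻¹ = c * (d * x * d⁻¹ * x⁻¹) * c⁻¹ * (c * x * c⁻¹ * x⁻¹) := by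
          group
        rw [e]
        exact Φ.mul_mem (hΦn c _ (hd x hx)) (hc x hx)
      inv_mem' := by
        intro c hc x hx
        show c⁻¹ * x * c⁻¹⁻¹ * x⁻¹ ∈ Φ
        have e : c⁻¹ * x * c⁻¹⁻¹ * x⁻¹ = c⁻¹ * (c * x * c⁻¹ * x⁻¹)⁻¹ * c⁻¹⁻¹ := by group
        rw [e]
        exact hΦn c⁻¹ _ (Φ.inv_mem (hc x hx)) }
  have hCmem : ∀ c : Y, c ∈ C ↔ ∀ x ∈ P, c * x * c⁻¹ * x⁻¹ ∈ Φ := fun c => Iff.rfl
  have hCn : C.Normal := by
    constructor
    intro c hc g
    rw [hCmem] at hc ⊢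
    intro x hx
    have hx' : g⁻¹ * x * g ∈ P := by
      have := hPn.conj_mem x hx g⁻¹
      simpa using this
    have e : g * c * g⁻¹ * x * (g * c * g⁻¹)⁻¹ * x⁻¹
        = g * (c * (g⁻¹ * x * g) * c⁻¹ * (g⁻¹ * x * g)⁻¹) * g⁻¹ := by group
    rw [e]
    exact hΦn g _ (hc _ hx')
  -- C is a p-group
  have hCp : IsPGroup p ↥C := by
    rintro ⟨c, hc⟩
    obtain ⟨k, m, hm, hkm⟩ := Nat.exists_eq_pow_mul_and_not_dvd (orderOf_pos c).ne' p
      hp.out.ne_one
    refine ⟨k, Subtype.ext ?_⟩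
    show c ^ p ^ k = 1
    obtain ⟨c', hc'⟩ : ∃ c' : Y, c' = c ^ p ^ k := ⟨_, rfl⟩
    rw [← hc']
    have hc'C : c' ∈ C := by rw [hc']; exact C.pow_mem hc _
    have hoc' : orderOf c' = m := by
      rw [hc', orderOf_pow, hkm, Nat.gcd_eq_right (Dvd.intro _ rfl),
        Nat.mul_div_cancel_left _ (pow_pos hp.out.pos k)]
    have hcopm : m.Coprime p := by
      rw [Nat.coprime_comm]
      exact (Nat.Prime.coprime_iff_not_dvd hp.out).mpr hm
    -- A = ⟨c'⟩ acts coprimely on P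
    obtain ⟨A, hA⟩ : ∃ A : Subgroup Y, A = Subgroup.zpowers c' := ⟨_, rfl⟩
    have hAC : A ≤ C := by rw [hA, Subgroup.zpowers_le]; exact hc'C
    have hAcard : Nat.card A = m := by rw [hA, Nat.card_zpowers, hoc']
    obtain ⟨j, hj⟩ := IsPGroup.iff_card.mp hPp
    have hcop : (Nat.card A).Coprime (Nat.card P) := by
      rw [hAcard, hj]
      exact Nat.Coprime.pow_right j hcopm
    have hAN : A ≤ Subgroup.normalizer (P : Set Y) := by
      rw [Subgroup.normalizer_eq_top P]; exact le_top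
    have hsolv : Group.IsSolvable A ∨ Group.IsSolvable P := by
      left
      rw [hA]
      infer_instance
    have hcomm : ⁅P, A⁆ ≤ Φ := by
      rw [Subgroup.commutator_le]
      intro x hx b hb
      have h1 := (hCmem b).mp (hAC hb) x hx
      have h2 : ⁅x, b⁆ = (b * x * b⁻¹ * x⁻¹)⁻¹ := by
        rw [commutatorElement_def]; group
      rw [h2]
      exact Φ.inv_mem h1
    -- P = Φ C_P(A), so C_P(A) = P
    have hD : (P ⊓ Subgroup.centralizer (A : Set Y)).subgroupOf P = ⊤ := by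
      apply frattini_nongenerating
      rw [eq_top_iff]
      intro x _
      obtain ⟨n, hn, d, hd, hx⟩ := Cfsg.Agent.Lib_helper1_Coprime.exists_commutator_mul_fixed A P
        hAN hcop hsolv (x : Y) x.2
      have hnΦ := hcomm hn
      rw [hΦ] at hnΦ
      obtain ⟨n', hn', hnn'⟩ := hnΦ
      have hdP : d ∈ P := (Subgroup.mem_inf.mp hd).1
      have hxe : x = n' * ⟨d, hdP⟩ := by
        apply Subtype.ext
        show (x : Y) = (n' : Y) * d
        rw [hx, ← hnn']; rfl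
      rw [hxe]
      apply Subgroup.mul_mem
      · exact (le_sup_right : frattini ↥P ≤ _) hn'
      · apply (le_sup_left : (P ⊓ Subgroup.centralizer (A : Set Y)).subgroupOf P ≤ _)
        rw [Subgroup.mem_subgroupOf]
        exact hd
    have hPle : P ≤ Subgroup.centralizer (A : Set Y) := by
      intro x hx
      have h1 : (⟨x, hx⟩ : ↥P) ∈ (P ⊓ Subgroup.centralizer (A : Set Y)).subgroupOf P := by
        rw [hD]; exact Subgroup.mem_top _
      rw [Subgroup.mem_subgroupOf] at h1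
      exact (Subgroup.mem_inf.mp h1).2
    have hc'cent : c' ∈ Subgroup.centralizer (P : Set Y) := by
      rw [Subgroup.mem_centralizer_iff]
      intro x hx
      have h1 := Subgroup.mem_centralizer_iff.mp (hPle hx) c'
        (by rw [hA]; exact Subgroup.mem_zpowers c')
      exact h1.symm
    have hc'P : c' ∈ P := hcent hc'cent
    obtain ⟨i, hi⟩ := (IsPGroup.iff_orderOf.mp hPp) ⟨c', hc'P⟩
    rw [Subgroup.orderOf_mk, hoc'] at hi
    have hm1 : m = 1 := by
      have h1 : m ∣ p ^ i := by rw [hi]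
      exact Nat.Coprime.eq_one_of_dvd (Nat.Coprime.pow_right i hcopm) h1
    rw [hm1] at hoc'
    exact orderOf_eq_one_iff.mp hoc'
  have hCP : C ≤ P := by
    rw [hP]
    exact Cfsg.Agent.Lib_helper7_PCore.le_pCore hCn hCp
  exact hCP ((hCmem a).mpr ha)

end quot

variable {G : Type u} [Group G] [Finite G] {p : ℕ} [hp : Fact p.Prime]

theorem s4218 (hG : Cfsg.IsPSolvable p G) (g : G) :
    (∀ x ∈ Cfsg.pPrimePCore p G, g * x * g⁻¹ * x⁻¹ ∈
      ((frattini (↥(Cfsg.pPrimePCore p G) ⧸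
        (Cfsg.pPrimeCore p G).subgroupOf (Cfsg.pPrimePCore p G))).comap
        (QuotientGroup.mk' ((Cfsg.pPrimeCore p G).subgroupOf (Cfsg.pPrimePCore p G)))).map
        (Cfsg.pPrimePCore p G).subtype) ↔ g ∈ Cfsg.pPrimePCore p G := by
  obtain ⟨N₀, hN₀⟩ : ∃ N₀ : Subgroup G, N₀ = Cfsg.pPrimeCore p G := ⟨_, rfl⟩
  -- the quotient
  have hmemP₁ : ∀ x : G, x ∈ Cfsg.pPrimePCore p G ↔
      QuotientGroup.mk' (Cfsg.pPrimeCore p G) x ∈ Cfsg.pCore p (G ⧸ Cfsg.pPrimeCore p G) :=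
    fun x => Iff.rfl
  have hcent : Subgroup.centralizer (Cfsg.pCore p (G ⧸ Cfsg.pPrimeCore p G) : Set _) ≤
      Cfsg.pCore p (G ⧸ Cfsg.pPrimeCore p G) :=
    Cfsg.Agent.Lib_helper1_PSolvComp.centralizer_pCore_le_of_pSolvable p
      (Cfsg.Agent.Lib_helper2_PComp.pPrimeCore_quotient_bot (X := G) p)
      (Cfsg.Agent.Lib_helper5_PSolv.isPSolvable_of_surjective
        (QuotientGroup.mk' (Cfsg.pPrimeCore p G)) (QuotientGroup.mk'_surjective _) hG)
  -- the map φ : P₁ → P̄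
  let φ : ↥(Cfsg.pPrimePCore p G) →* ↥(Cfsg.pCore p (G ⧸ Cfsg.pPrimeCore p G)) :=
    { toFun := fun x => ⟨QuotientGroup.mk' (Cfsg.pPrimeCore p G) (x : G), (hmemP₁ _).mp x.2⟩
      map_one' := Subtype.ext (by simp)
      map_mul' := fun x y => Subtype.ext (by simp) }
  have hφval : ∀ x : ↥(Cfsg.pPrimePCore p G),
      ((φ x : ↥(Cfsg.pCore p (G ⧸ Cfsg.pPrimeCore p G))) : G ⧸ Cfsg.pPrimeCore p G) =
        QuotientGroup.mk' (Cfsg.pPrimeCore p G) (x : G) := fun x => rfl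
  have hφs : Function.Surjective φ := by
    rintro ⟨y, hy⟩
    obtain ⟨x, rfl⟩ := QuotientGroup.mk'_surjective (Cfsg.pPrimeCore p G) y
    exact ⟨⟨x, (hmemP₁ x).mpr hy⟩, rfl⟩
  have hker : (Cfsg.pPrimeCore p G).subgroupOf (Cfsg.pPrimePCore p G) = φ.ker := by
    ext x
    rw [Subgroup.mem_subgroupOf, MonoidHom.mem_ker]
    constructor
    · intro hx
      apply Subtype.ext
      rw [hφval]
      exact (QuotientGroup.eq_one_iff _).mpr hx
    · intro hx
      have := congrArg Subtype.val hx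
      rw [hφval] at this
      exact (QuotientGroup.eq_one_iff _).mp this
  -- Claim R
  have hR : ∀ x : ↥(Cfsg.pPrimePCore p G),
      (x : G) ∈ ((frattini (↥(Cfsg.pPrimePCore p G) ⧸
        (Cfsg.pPrimeCore p G).subgroupOf (Cfsg.pPrimePCore p G))).comap
        (QuotientGroup.mk' ((Cfsg.pPrimeCore p G).subgroupOf (Cfsg.pPrimePCore p G)))).map
        (Cfsg.pPrimePCore p G).subtype ↔
      QuotientGroup.mk' (Cfsg.pPrimeCore p G) (x : G) ∈
        (frattini ↥(Cfsg.pCore p (G ⧸ Cfsg.pPrimeCore p G))).map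
          (Cfsg.pCore p (G ⧸ Cfsg.pPrimeCore p G)).subtype := by
    intro x
    have h1 := mem_frattini_of_ker_eq ((Cfsg.pPrimeCore p G).subgroupOf (Cfsg.pPrimePCore p G))
      φ hφs hker x
    constructor
    · rintro ⟨x', hx', hxx'⟩
      have hxe : x' = x := Subtype.ext hxx'
      rw [hxe] at hx'
      exact ⟨φ x, h1.mp hx', rfl⟩
    · rintro ⟨z, hz, hzx⟩
      have hze : z = φ x := Subtype.ext (by rw [hφval]; exact hzx)
      rw [hze] at hz
      exact ⟨x, Subgroup.mem_comap.mpr (h1.mpr hz), rfl⟩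
  have hPn : (Cfsg.pPrimePCore p G).Normal := Cfsg.Agent.Lib_helper7_PPrimeP.pPrimePCore_normal p
  constructor
  · intro h
    rw [hmemP₁]
    apply mem_pCore_of_trivial_on_frattini_quotient hcent
    intro y hy
    obtain ⟨x, rfl⟩ := QuotientGroup.mk'_surjective (Cfsg.pPrimeCore p G) y
    have hx : x ∈ Cfsg.pPrimePCore p G := (hmemP₁ x).mpr hy
    have h1 := h x hx
    have h2 : g * x * g⁻¹ * x⁻¹ ∈ Cfsg.pPrimePCore p G := Subgroup.map_subtype_le _ h1
    have h3 := (hR ⟨_, h2⟩).mp h1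
    simpa using h3
  · intro hg x hx
    have h2 : g * x * g⁻¹ * x⁻¹ ∈ Cfsg.pPrimePCore p G :=
      Subgroup.mul_mem _ (hPn.conj_mem x hx g) (Subgroup.inv_mem _ hx)
    apply (hR ⟨_, h2⟩).mpr
    have hPp : IsPGroup p ↥(Cfsg.pCore p (G ⧸ Cfsg.pPrimeCore p G)) :=
      Cfsg.Agent.Lib_helper7_PCore.pCore_isPGroup p
    have h3 : ⁅φ ⟨g, hg⟩, φ ⟨x, hx⟩⁆ ∈ frattini ↥(Cfsg.pCore p (G ⧸ Cfsg.pPrimeCore p G)) :=
      Cfsg.Agent.Lib_helper1_PGroup.commutator_le_frattini hPp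
        (Subgroup.commutator_mem_commutator (Subgroup.mem_top _) (Subgroup.mem_top _))
    refine ⟨_, h3, ?_⟩
    show ((⁅φ ⟨g, hg⟩, φ ⟨x, hx⟩⁆ : ↥(Cfsg.pCore p (G ⧸ Cfsg.pPrimeCore p G))) :
      G ⧸ Cfsg.pPrimeCore p G) = _
    rw [commutatorElement_def]
    simp [hφval]

end Cfsg.Agent.Lib_helper7_HH125
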