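import Mathlib
import Cfsg.Agent.Lib_helper7_Norm
import Cfsg.Agent.Lib_helper7_PCore
import Cfsg.Agent.Lib_helper2_PCons

set_option autoImplicit false

namespace Cfsg.Agent.Lib_helper7_InnerCoh

open scoped IsMulCommutative
open Cfsg.Agent.Lib_helper7_Norm

variable {G : Type*} [Group G]

/-- Averaging (Gaschütz): an automorphism `α` that is trivial on `T` and moves every element by an
element of the abelian normal subgroup `Z`, with `|Z|` coprime to `|G:T|`, is inner, induced by an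
element of `Z`. -/
theorem inner_of_cocycle [Finite G] (Z T : Subgroup G) [hZn : Z.Normal] [hZab : IsMulCommutative ↥Z]
    (hcop : (Nat.card ↥Z).Coprime T.index) (α : MulAut G)
    (hfixT : ∀ x ∈ T, α x = x) (hZ : ∀ g, α g * g⁻¹ ∈ Z) :
    ∃ u ∈ Z, ∀ x, α x = u * x * u⁻¹ := by
  classical
  have hnorm : ∀ g : G, g ∈ Subgroup.normalizer (Z : Set G) := fun g => by
    rw [Subgroup.normalizer_eq_top_iff.mpr hZn]; exact Subgroup.mem_top g
  obtain ⟨ζ, hζ⟩ : ∃ ζ : G → ↥Z, ∀ g, (ζ g : G) = α g * g⁻¹ :=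
    ⟨fun g => ⟨α g * g⁻¹, hZ g⟩, fun _ => rfl⟩
  have hcoc : ∀ g h : G, ζ (g * h) = ζ g * conjHom Z g (hnorm g) (ζ h) := by
    intro g h
    apply Subtype.ext
    rw [Subgroup.coe_mul, conjHom_coe, hζ, hζ, hζ, map_mul]
    group
  have hζT : ∀ t ∈ T, ζ t = 1 := by
    intro t ht
    apply Subtype.ext
    rw [hζ, hfixT t ht]; simp
  haveI : Fintype (G ⧸ T) := Fintype.ofFinite _
  obtain ⟨f, hfdef⟩ : ∃ f : G ⧸ T → ↥Z, ∀ q, f q = ζ q.out := ⟨_, fun _ => rfl⟩
  have hf : ∀ g : G, f (QuotientGroup.mk g) = ζ g := by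
    intro g
    obtain ⟨t, ht⟩ := QuotientGroup.mk_out_eq_mul T g
    rw [hfdef, ht, hcoc, hζT t t.2, map_one, mul_one]
  obtain ⟨w, hw⟩ : ∃ w : ↥Z, w = ∏ q : G ⧸ T, f q := ⟨_, rfl⟩
  have hkey : ∀ h : G, w = ζ h ^ (Fintype.card (G ⧸ T)) * conjHom Z h (hnorm h) w := by
    intro h
    have h2 : ∀ q : G ⧸ T, f (h • q) = ζ h * conjHom Z h (hnorm h) (f q) := by
      intro q
      have e : h • q = QuotientGroup.mk (h * q.out) := by
        conv_lhs => rw [← QuotientGroup.out_eq' q]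
        rfl
      rw [e, hf, hcoc, hfdef]
    calc w = ∏ q : G ⧸ T, f (h • q) := by
          rw [hw]
          exact (Fintype.prod_equiv (MulAction.toPerm h) _ _ (fun q => rfl)).symm
      _ = ∏ q : G ⧸ T, (ζ h * conjHom Z h (hnorm h) (f q)) :=
          Finset.prod_congr rfl (fun q _ => h2 q)
      _ = (∏ _q : G ⧸ T, ζ h) * ∏ q : G ⧸ T, conjHom Z h (hnorm h) (f q) :=
          Finset.prod_mul_distrib
      _ = _ := by rw [Finset.prod_const, Finset.card_univ, hw, map_prod]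
  have hcard : Fintype.card (G ⧸ T) = T.index := by
    rw [← Nat.card_eq_fintype_card]; rfl
  rw [hcard] at hkey
  obtain ⟨u, hu⟩ := (powCoprime hcop).surjective w
  have hu' : u ^ T.index = w := hu
  refine ⟨u, u.2, fun x => ?_⟩
  have h1 := hkey x
  rw [← hu', map_pow, ← mul_pow] at h1
  have h2 : u = ζ x * conjHom Z x (hnorm x) u := (powCoprime hcop).injective h1
  have h3 := congrArg Subtype.val h2
  rw [Subgroup.coe_mul, conjHom_coe, hζ] at h3
  calc α x = (α x * x⁻¹ * (x * (u : G) * x⁻¹)) * x * (u : G)⁻¹ := by group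
    _ = (u : G) * x * (u : G)⁻¹ := by rw [← h3]

end Cfsg.Agent.Lib_helper7_InnerCoh
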