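import Cfsg.Agent.Lib_helper7_CoprimeGen
import Cfsg.Agent.Lib_helper7_CharP
import Cfsg.Agent.Lib_helper7_OddCore
import Cfsg.Agent.Lib_helper7_Large

set_option autoImplicit false

namespace Cfsg.Agent.Lib_helper7_LargeKill

universe u

variable {G : Type u} [Group G] [Finite G] {p : ℕ} [Fact p.Prime]

theorem mem_centralizer_sup_zpowers (g t : G) (W : Subgroup G)
    (h1 : g ∈ Subgroup.centralizer (W : Set G)) (h2 : g ∈ Subgroup.centralizer ({t} : Set G)) :
    g ∈ Subgroup.centralizer ((W ⊔ Subgroup.zpowers t : Subgroup G) : Set G) := by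
  have hle : W ⊔ Subgroup.zpowers t ≤ Subgroup.centralizer ({g} : Set G) := by
    apply sup_le
    · intro w hw
      rw [Subgroup.mem_centralizer_iff]
      intro y hy
      rw [Set.mem_singleton_iff] at hy
      rw [hy]
      exact (Subgroup.mem_centralizer_iff.mp h1 w hw).symm
    · rw [Subgroup.zpowers_le, Subgroup.mem_centralizer_iff]
      intro y hy
      rw [Set.mem_singleton_iff] at hy
      rw [hy]
      exact (Subgroup.mem_centralizer_iff.mp h2 t rfl).symm
  rw [Subgroup.mem_centralizer_iff]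
  intro w hw
  exact (Subgroup.mem_centralizer_iff.mp (hle hw) g rfl).symm

/-- An element of a `p'`-subgroup `R` normalized by the large `p`-subgroup `Q` that commutes with a
nontrivial element of `Z(Q)` is trivial. -/
theorem cent_eq_one (Q : Subgroup G) (hQp : IsPGroup p Q) (hlarge : Cfsg.IsLarge Q)
    (R : Subgroup G) (hR : (Nat.card R).Coprime p)
    (hQR : Q ≤ Subgroup.normalizer (R : Set G)) (z : G) (hz1 : z ≠ 1)
    (hzQ : z ∈ Q) (hzC : z ∈ Subgroup.centralizer (Q : Set G)) (r : G) (hr : r ∈ R)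
    (hrz : r * z = z * r) : r = 1 := by
  have hN := hlarge.2 (Subgroup.zpowers z) (by rw [Subgroup.zpowers_le]; exact hzC) (by
    intro h
    apply hz1
    have : z ∈ (⊥ : Subgroup G) := h ▸ Subgroup.mem_zpowers z
    exact Subgroup.mem_bot.mp this)
  have hrC : r ∈ Subgroup.centralizer ((Subgroup.zpowers z : Subgroup G) : Set G) := by
    have : Subgroup.zpowers z ≤ Subgroup.centralizer ({r} : Set G) := by
      rw [Subgroup.zpowers_le, Subgroup.mem_centralizer_iff]
      intro y hy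
      rw [Set.mem_singleton_iff] at hy
      rw [hy]
      exact hrz
    rw [Subgroup.mem_centralizer_iff]
    intro y hy
    exact (Subgroup.mem_centralizer_iff.mp (this hy) r rfl).symm
  have hrN : r ∈ Subgroup.normalizer (Q : Set G) :=
    hN (Subgroup.centralizer_le_normalizer _ hrC)
  have hcomm : ∀ q ∈ Q, q * r = r * q := by
    intro q hq
    have hcQ : r * q * r⁻¹ * q⁻¹ ∈ Q :=
      Q.mul_mem ((Subgroup.mem_normalizer_iff.mp hrN q).mp hq) (Q.inv_mem hq)
    have hcR : r * q * r⁻¹ * q⁻¹ ∈ R := by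
      have h1 : q * r⁻¹ * q⁻¹ ∈ R :=
        (Subgroup.mem_normalizer_iff.mp (hQR hq) r⁻¹).mp (R.inv_mem hr)
      have : r * q * r⁻¹ * q⁻¹ = r * (q * r⁻¹ * q⁻¹) := by group
      rw [this]
      exact R.mul_mem hr h1
    have h1 := Cfsg.Agent.Lib_helper7_OddCore.eq_one_of_mem_pgroup_of_mem_coprime Q R hQp hR _ hcQ hcR
    calc q * r = (r * q * r⁻¹ * q⁻¹)⁻¹ * (r * q) := by group
      _ = r * q := by rw [h1, inv_one, one_mul]
  have hrCQ : r ∈ Subgroup.centralizer (Q : Set G) := by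
    rw [Subgroup.mem_centralizer_iff]
    exact hcomm
  exact Cfsg.Agent.Lib_helper7_OddCore.eq_one_of_mem_pgroup_of_mem_coprime Q R hQp hR r
    (hlarge.1 hrCQ) hr

theorem part1 (Q : Subgroup G) (hQp : IsPGroup p Q) (hlarge : Cfsg.IsLarge Q)
    (G₁ : Subgroup G) (hQG : Q ≤ G₁) (R : Subgroup G) (hR : (Nat.card R).Coprime p)
    (hGR : G₁ ≤ Subgroup.normalizer (R : Set G)) (W : Subgroup G) (x : G) (hxW : x ∈ W)
    (hx1 : x ≠ 1) (g : G) (hg : g ∈ G₁)
    (hgx : g * x * g⁻¹ ∈ Q ⊓ Subgroup.centralizer (Q : Set G)) :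
    R ⊓ Subgroup.centralizer (W : Set G) = ⊥ := by
  rw [eq_bot_iff]
  rintro r ⟨hrR, hrC⟩
  rw [Subgroup.mem_bot]
  have hcomm : x * r = r * x := Subgroup.mem_centralizer_iff.mp hrC x hxW
  have hr' : g * r * g⁻¹ ∈ R := (Subgroup.mem_normalizer_iff.mp (hGR hg) r).mp hrR
  have hz1 : g * x * g⁻¹ ≠ 1 := by
    intro h
    exact hx1 (conj_eq_one_iff.mp h)
  have hc : g * r * g⁻¹ * (g * x * g⁻¹) = g * x * g⁻¹ * (g * r * g⁻¹) := by
    calc g * r * g⁻¹ * (g * x * g⁻¹) = g * (r * x) * g⁻¹ := by group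
      _ = g * (x * r) * g⁻¹ := by rw [hcomm]
      _ = g * x * g⁻¹ * (g * r * g⁻¹) := by group
  have := cent_eq_one Q hQp hlarge R hR (hQG.trans hGR) _ hz1 hgx.1 hgx.2 _ hr' hc
  exact conj_eq_one_iff.mp this

theorem part2 (Q : Subgroup G) (hQp : IsPGroup p Q) (hlarge : Cfsg.IsLarge Q)
    (G₁ : Subgroup G) (hQG : Q ≤ G₁) (R : Subgroup G) (hR : (Nat.card R).Coprime p)
    (hGR : G₁ ≤ Subgroup.normalizer (R : Set G)) (U : Subgroup G) (hUG : U ≤ G₁)
    (hUea : Cfsg.IsElementaryAbelian p U) (hcard : p ^ 2 ≤ Nat.card U)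
    (hmax : ∀ U₀ : Subgroup G, U₀ ≤ U → IsCoatom (U₀.subgroupOf U) →
      ∃ x ∈ U₀, x ≠ 1 ∧ ∃ g ∈ G₁, g * x * g⁻¹ ∈ Q ⊓ Subgroup.centralizer (Q : Set G)) :
    R = ⊥ := by
  by_contra hR1
  have hstar : ∀ W : Subgroup G, W ≤ U → IsCoatom (W.subgroupOf U) →
      R ⊓ Subgroup.centralizer (W : Set G) = ⊥ := by
    intro W hWU hco
    obtain ⟨x, hxW, hx1, g, hg, hgx⟩ := hmax W hWU hco
    exact part1 Q hQp hlarge G₁ hQG R hR hGR W x hxW hx1 g hg hgx
  have hcommU : ∀ a ∈ U, ∀ b ∈ U, a * b = b * a := by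
    intro a ha b hb
    have := hUea.1.is_comm.comm (⟨a, ha⟩ : U) ⟨b, hb⟩
    exact congrArg Subtype.val this
  have hp : p.Prime := Fact.out
  have hUnt : (⊥ : Subgroup U) ≠ ⊤ := by
    intro h
    have h1 : Nat.card (⊥ : Subgroup U) = Nat.card U := by rw [h, Subgroup.card_top]
    rw [Subgroup.card_bot] at h1
    have : 2 ≤ p := hp.two_le
    nlinarith
  let Pr : Subgroup G → Prop := fun W => W ≤ U ∧ R ⊓ Subgroup.centralizer (W : Set G) ≠ ⊥
  have hbot : Pr ⊥ := by
    refine ⟨bot_le, ?_⟩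
    intro h
    apply hR1
    rw [eq_bot_iff, ← h]
    refine le_inf le_rfl ?_
    intro r _
    rw [Subgroup.mem_centralizer_iff]
    intro y hy
    have : y = 1 := hy
    rw [this, one_mul, mul_one]
  obtain ⟨U₁, -, hU₁max⟩ := Finite.exists_le_maximal (p := Pr) hbot
  have hU₁U : U₁ ≤ U := hU₁max.1.1
  have hU₁R : R ⊓ Subgroup.centralizer (U₁ : Set G) ≠ ⊥ := hU₁max.1.2
  -- a coatom above `U₁`, or `U₁ = U`
  have key : ∃ x ∈ U, ∃ y ∈ U, x ∉ U₁ ∧ ∀ k : ℕ, y * x ^ k ∉ U₁ := by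
    rcases eq_top_or_exists_le_coatom (U₁.subgroupOf U) with htop | ⟨M', hM', hle⟩
    · exfalso
      rcases eq_top_or_exists_le_coatom (⊥ : Subgroup U) with h | ⟨M', hM', -⟩
      · exact hUnt h
      · have hMeq : (M'.map U.subtype).subgroupOf U = M' :=
          Subgroup.comap_map_eq_self_of_injective U.subtype_injective M'
        have hMU : M'.map U.subtype ≤ U := Subgroup.map_subtype_le _
        have h1 := hstar (M'.map U.subtype) hMU (by rw [hMeq]; exact hM')
        apply hU₁R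
        rw [eq_bot_iff, ← h1]
        refine le_inf inf_le_left (inf_le_right.trans ?_)
        apply Subgroup.centralizer_le
        have hUU₁ : U ≤ U₁ := by
          intro u hu
          have : (⟨u, hu⟩ : U) ∈ U₁.subgroupOf U := by rw [htop]; trivial
          exact this
        exact hMU.trans hUU₁
    · have hMeq : (M'.map U.subtype).subgroupOf U = M' :=
        Subgroup.comap_map_eq_self_of_injective U.subtype_injective M'
      have hMU : M'.map U.subtype ≤ U := Subgroup.map_subtype_le _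
      have hne : U₁.subgroupOf U ≠ M' := by
        intro h
        apply hU₁R
        exact hstar U₁ hU₁U (by rw [h]; exact hM')
      have hlt : U₁.subgroupOf U < M' := lt_of_le_of_ne hle hne
      obtain ⟨x', hx'M, hx'U⟩ := SetLike.exists_of_lt hlt
      obtain ⟨y', -, hy'M⟩ := SetLike.exists_of_lt (lt_top_iff_ne_top.mpr hM'.1)
      refine ⟨x', x'.2, y', y'.2, ?_, ?_⟩
      · intro h
        exact hx'U h
      · intro k h
        have h1 : y' * x' ^ k ∈ U₁.subgroupOf U := h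
        have h2 : y' * x' ^ k ∈ M' := hle h1
        have h3 : x' ^ k ∈ M' := M'.pow_mem hx'M k
        have h4 : y' * x' ^ k * (x' ^ k)⁻¹ ∈ M' := M'.mul_mem h2 (M'.inv_mem h3)
        rw [mul_inv_cancel_right] at h4
        exact hy'M h4
  obtain ⟨x, hxU, y, hyU, hxU₁, hyU₁⟩ := key
  have hkill : ∀ t ∈ U, t ∉ U₁ →
      (R ⊓ Subgroup.centralizer (U₁ : Set G)) ⊓ Subgroup.centralizer ({t} : Set G) ≤ ⊥ := by
    intro t htU htU₁
    have hWU : U₁ ⊔ Subgroup.zpowers t ≤ U := sup_le hU₁U (by rw [Subgroup.zpowers_le]; exact htU)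
    have hW : R ⊓ Subgroup.centralizer ((U₁ ⊔ Subgroup.zpowers t : Subgroup G) : Set G) = ⊥ := by
      by_contra h
      have h1 : U₁ ⊔ Subgroup.zpowers t ≤ U₁ := hU₁max.2 ⟨hWU, h⟩ le_sup_left
      exact htU₁ (h1 (le_sup_right (a := U₁) (Subgroup.mem_zpowers t)))
    rw [← hW]
    rintro g ⟨⟨hgR, hgC⟩, hgt⟩
    exact ⟨hgR, mem_centralizer_sup_zpowers g t U₁ hgC hgt⟩
  have hUN : U ≤ Subgroup.normalizer
      ((R ⊓ Subgroup.centralizer (U₁ : Set G) : Subgroup G) : Set G) := by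
    apply Cfsg.Agent.Lib_helper7_CharP.le_normalizer_inf _ _ _ (hUG.trans hGR)
    refine le_trans ?_ (Cfsg.Agent.Lib_helper7_Large.normalizer_le_normalizer_centralizer U₁)
    refine le_trans ?_ (Subgroup.centralizer_le_normalizer _)
    intro u hu
    rw [Subgroup.mem_centralizer_iff]
    intro w hw
    exact hcommU w (hU₁U hw) u hu
  have hD := Cfsg.Agent.Lib_helper7_CoprimeGen.le_of_centralizers_le (p := p) x y
    (hcommU x hxU y hyU) (hUea.2 x hxU) (hUea.2 y hyU)
    (R ⊓ Subgroup.centralizer (U₁ : Set G)) (hUN hxU) (hUN hyU)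
    (Nat.Coprime.coprime_dvd_left (Subgroup.card_dvd_of_le inf_le_left) hR) ⊥
    (hkill x hxU hxU₁) (fun k => hkill _ (U.mul_mem hyU (U.pow_mem hxU k)) (hyU₁ k))
  exact hU₁R (eq_bot_iff.mpr hD)

end Cfsg.Agent.Lib_helper7_LargeKill
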