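import Mathlib

set_option autoImplicit false

universe u

namespace Cfsg.Agent.Lib_helper7_LeastSupp

/-- `B` is a least subnormal supplement of `D`, and is normal. -/
def IsLeastSupp {G : Type*} [Group G] (D B : Subgroup G) : Prop :=
  B.Normal ∧ B ⊔ D = ⊤ ∧ ∀ B' : Subgroup G, B'.IsSubnormal → B' ⊔ D = ⊤ → B ≤ B'

theorem leastSupp_unique {G : Type*} [Group G] (D B₁ B₂ : Subgroup G) (h₁ : IsLeastSupp D B₁)
    (h₂ : IsLeastSupp D B₂) : B₁ = B₂ :=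
  le_antisymm (h₁.2.2 B₂ h₂.1.isSubnormal h₂.2.1) (h₂.2.2 B₁ h₁.1.isSubnormal h₁.2.1)

theorem leastSupp_map {G H : Type*} [Group G] [Group H] (φ : G ≃* H) (D B : Subgroup G)
    (h : IsLeastSupp D B) : IsLeastSupp (D.map φ.toMonoidHom) (B.map φ.toMonoidHom) := by
  obtain ⟨hn, hs, hl⟩ := h
  refine ⟨hn.map φ.toMonoidHom φ.surjective, ?_, ?_⟩
  · rw [← Subgroup.map_sup, hs, ← MonoidHom.range_eq_map]
    exact MonoidHom.range_eq_top.mpr φ.surjective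
  · intro B' hB' hsup
    have h1 : (B'.map φ.symm.toMonoidHom).IsSubnormal :=
      Subgroup.IsSubnormal.map (f := φ.symm.toMonoidHom) φ.symm.surjective hB'
    have e : ∀ K : Subgroup G, (K.map φ.toMonoidHom).map φ.symm.toMonoidHom = K := by
      intro K
      ext x
      constructor
      · rintro ⟨_, ⟨y, hy, rfl⟩, rfl⟩
        simpa using hy
      · intro hx
        exact ⟨φ x, ⟨x, hx, rfl⟩, by simp⟩
    have h2 : B'.map φ.symm.toMonoidHom ⊔ D = ⊤ := by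
      have := congrArg (Subgroup.map φ.symm.toMonoidHom) hsup
      rw [Subgroup.map_sup, e D, ← MonoidHom.range_eq_map,
        MonoidHom.range_eq_top.mpr φ.symm.surjective] at this
      exact this
    have h3 := hl _ h1 h2
    intro x hx
    obtain ⟨b, hb, rfl⟩ := hx
    obtain ⟨y, hy, hyb⟩ := h3 hb
    have hyb' : φ.toMonoidHom b = y := by
      rw [← hyb]
      simp
    rw [hyb']
    exact hy

/-- If `A₁ D = A₂ D = G`, `D ≤ E`, `E` normal and `[A₁, A₂] ≤ E`, then `G' ≤ E`. -/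
theorem commutator_le_of_supp {G : Type*} [Group G] (D A₁ A₂ E : Subgroup G) [D.Normal] [E.Normal]
    (h₁ : A₁ ⊔ D = ⊤) (h₂ : A₂ ⊔ D = ⊤) (hDE : D ≤ E) (hA : ⁅A₁, A₂⁆ ≤ E) :
    ⁅(⊤ : Subgroup G), (⊤ : Subgroup G)⁆ ≤ E := by
  rw [Subgroup.commutator_le]
  intro x _ y _
  have hx : x ∈ A₁ ⊔ D := h₁ ▸ Subgroup.mem_top x
  have hy : y ∈ A₂ ⊔ D := h₂ ▸ Subgroup.mem_top y
  rw [Subgroup.mem_sup_of_normal_right] at hx hy
  obtain ⟨a₁, ha₁, d₁, hd₁, rfl⟩ := hx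
  obtain ⟨a₂, ha₂, d₂, hd₂, rfl⟩ := hy
  show a₁ * d₁ * (a₂ * d₂) * (a₁ * d₁)⁻¹ * (a₂ * d₂)⁻¹ ∈ E
  rw [← QuotientGroup.eq_one_iff (N := E)]
  have hd₁' : ((d₁ : G) : G ⧸ E) = 1 := (QuotientGroup.eq_one_iff d₁).mpr (hDE hd₁)
  have hd₂' : ((d₂ : G) : G ⧸ E) = 1 := (QuotientGroup.eq_one_iff d₂).mpr (hDE hd₂)
  have e3 : ((a₁ * d₁ * (a₂ * d₂) * (a₁ * d₁)⁻¹ * (a₂ * d₂)⁻¹ : G) : G ⧸ E)
      = ((a₁ * a₂ * a₁⁻¹ * a₂⁻¹ : G) : G ⧸ E) := by
    simp only [QuotientGroup.mk_mul, QuotientGroup.mk_inv, hd₁', hd₂', mul_one]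
  rw [e3, QuotientGroup.eq_one_iff]
  exact hA (Subgroup.commutator_mem_commutator ha₁ ha₂)

theorem supp_inf {G : Type*} [Group G] (D B₁ B₂ : Subgroup G) [D.Normal] [B₁.Normal] [B₂.Normal]
    (hperf : ⁅(⊤ : Subgroup G), (⊤ : Subgroup G)⁆ ⊔ D = ⊤)
    (h₁ : B₁ ⊔ D = ⊤) (h₂ : B₂ ⊔ D = ⊤) : (B₁ ⊓ B₂) ⊔ D = ⊤ := by
  have hc : ⁅B₁, B₂⁆ ≤ (B₁ ⊓ B₂) ⊔ D :=
    (le_inf (Subgroup.commutator_le_left B₁ B₂) (Subgroup.commutator_le_right B₁ B₂)).trans
      le_sup_left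
  have := commutator_le_of_supp D B₁ B₂ ((B₁ ⊓ B₂) ⊔ D) h₁ h₂ le_sup_right hc
  rw [eq_top_iff, ← hperf]
  exact sup_le this le_sup_right

theorem exists_least_normal_supp {G : Type*} [Group G] [Finite G] (D : Subgroup G) [D.Normal]
    (hperf : ⁅(⊤ : Subgroup G), (⊤ : Subgroup G)⁆ ⊔ D = ⊤) :
    ∃ B : Subgroup G, B.Normal ∧ B ⊔ D = ⊤ ∧
      ∀ B' : Subgroup G, B'.Normal → B' ⊔ D = ⊤ → B ≤ B' := by
  have key : ∀ S : Set (Subgroup G), (∀ B ∈ S, B.Normal ∧ B ⊔ D = ⊤) →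
      (sInf S).Normal ∧ sInf S ⊔ D = ⊤ := by
    intro S
    have hfin : S.Finite := Set.toFinite S
    refine Set.Finite.induction_on (motive := fun S _ => (∀ B ∈ S, B.Normal ∧ B ⊔ D = ⊤) →
      (sInf S).Normal ∧ sInf S ⊔ D = ⊤) S hfin ?_ ?_
    · intro _
      rw [sInf_empty]
      exact ⟨inferInstance, top_sup_eq _⟩
    · intro a s _ _ ih h
      rw [sInf_insert]
      obtain ⟨h1, h2⟩ := ih (fun B hB => h B (Set.mem_insert_of_mem _ hB))
      obtain ⟨h3, h4⟩ := h a (Set.mem_insert _ _)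
      haveI := h1
      haveI := h3
      exact ⟨inferInstance, supp_inf D a (sInf s) hperf h4 h2⟩
  obtain ⟨h1, h2⟩ := key {B | B.Normal ∧ B ⊔ D = ⊤} (fun B hB => hB)
  exact ⟨_, h1, h2, fun B' hn hs => sInf_le ⟨hn, hs⟩⟩

theorem exists_leastSupp_aux (n : ℕ) : ∀ (G : Type u) [Group G] [Finite G], Nat.card G = n →
    ∀ (D : Subgroup G) [D.Normal], ⁅(⊤ : Subgroup G), (⊤ : Subgroup G)⁆ ⊔ D = ⊤ →
    ∃ B : Subgroup G, IsLeastSupp D B := by
  induction n using Nat.strong_induction_on with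
  | _ n ih =>
  intro G _ _ hn D _ hperf
  obtain ⟨B₀, hB₀n, hB₀s, hB₀l⟩ := exists_least_normal_supp D hperf
  refine ⟨B₀, hB₀n, hB₀s, ?_⟩
  intro B' hB' hB's
  rcases hB'.lt_normal with htop | ⟨K, hKn, hB'K, hKlt⟩
  · rw [htop]; exact le_top
  haveI := hKn
  have hKs : K ⊔ D = ⊤ := by
    rw [eq_top_iff, ← hB's]
    exact sup_le_sup_right hB'K D
  -- perfectness inside `K`
  have hc : ⁅(⊤ : Subgroup G), (⊤ : Subgroup G)⁆ ≤ ⁅K, K⁆ ⊔ D :=
    commutator_le_of_supp D K K (⁅K, K⁆ ⊔ D) hKs hKs le_sup_right le_sup_left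
  have hall : ∀ A : Subgroup G, A ≤ K → A ⊔ D = ⊤ →
      ∀ k : ↥K, k ∈ A.subgroupOf K ⊔ D.subgroupOf K := by
    intro A hAK hAs k
    have hk : (k : G) ∈ A ⊔ D := hAs ▸ Subgroup.mem_top _
    rw [Subgroup.mem_sup_of_normal_right] at hk
    obtain ⟨a, ha, d, hd, hk⟩ := hk
    have hdK : d ∈ K := by
      have : d = a⁻¹ * k := by rw [← hk]; group
      rw [this]
      exact K.mul_mem (K.inv_mem (hAK ha)) k.2
    have e : k = ⟨a, hAK ha⟩ * ⟨d, hdK⟩ := Subtype.ext hk.symm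
    rw [e]
    exact Subgroup.mul_mem _ (Subgroup.mem_sup_left (Subgroup.mem_subgroupOf.mpr ha))
      (Subgroup.mem_sup_right (Subgroup.mem_subgroupOf.mpr hd))
  have hperfK : ⁅(⊤ : Subgroup ↥K), (⊤ : Subgroup ↥K)⁆ ⊔ D.subgroupOf K = ⊤ := by
    rw [eq_top_iff]
    intro k _
    have h1 : ⁅K, K⁆ ⊔ D = ⊤ := by
      rw [eq_top_iff, ← hperf]
      exact sup_le hc le_sup_right
    have h2 := hall ⁅K, K⁆ (Subgroup.commutator_le_left K K) h1 k
    have h3 : (⁅K, K⁆ : Subgroup G).subgroupOf K ≤ ⁅(⊤ : Subgroup ↥K), (⊤ : Subgroup ↥K)⁆ := by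
      intro x hx
      rw [Subgroup.mem_subgroupOf] at hx
      have h4 : (commutator ↥K).map K.subtype = ⁅K, K⁆ := Subgroup.map_subtype_commutator K
      rw [← h4] at hx
      obtain ⟨y, hy, hyx⟩ := hx
      have : y = x := Subtype.ext hyx
      rw [← this]
      exact hy
    exact (sup_le_sup_right h3 _) h2
  have hlt : Nat.card ↥K < n := by
    rw [← hn]
    by_contra hcon
    have h := Subgroup.eq_of_le_of_card_ge (le_top : K ≤ ⊤) (by rw [Subgroup.card_top]; omega)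
    exact hKlt.ne h
  obtain ⟨BK, hBKn, hBKs, hBKl⟩ := ih _ hlt ↥K rfl (D.subgroupOf K) hperfK
  have hB'Ks : B'.subgroupOf K ⊔ D.subgroupOf K = ⊤ := by
    rw [eq_top_iff]
    intro k _
    exact hall B' hB'K hB's k
  have hBKB' : BK ≤ B'.subgroupOf K := hBKl _ hB'.subgroupOf hB'Ks
  -- `BK.map K.subtype` is a normal supplement in `G`
  have h1 : (BK.map K.subtype) ⊔ D = ⊤ := by
    rw [eq_top_iff, ← hKs]
    apply sup_le _ le_sup_right
    intro k hk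
    have h2 : (⟨k, hk⟩ : ↥K) ∈ BK ⊔ D.subgroupOf K := hBKs ▸ Subgroup.mem_top _
    haveI := hBKn
    rw [Subgroup.mem_sup_of_normal_left] at h2
    obtain ⟨b, hb, d, hd, hbd⟩ := h2
    have e : k = (b : G) * (d : G) := by
      have := congrArg Subtype.val hbd
      exact this.symm
    rw [e]
    exact Subgroup.mul_mem _ (Subgroup.mem_sup_left ⟨b, hb, rfl⟩)
      (Subgroup.mem_sup_right (Subgroup.mem_subgroupOf.mp hd))
  have h2 : (BK.map K.subtype).Normal := by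
    constructor
    rintro _ ⟨b, hb, rfl⟩ g
    have hmap := leastSupp_map (MulAut.conjNormal g : ↥K ≃* ↥K) (D.subgroupOf K) BK
      ⟨hBKn, hBKs, hBKl⟩
    have hD : (D.subgroupOf K).map (MulAut.conjNormal g : ↥K ≃* ↥K).toMonoidHom = D.subgroupOf K := by
      ext x
      constructor
      · rintro ⟨y, hy, rfl⟩
        have hy' : (y : G) ∈ D := hy
        show ((MulAut.conjNormal g y : ↥K) : G) ∈ D
        rw [MulAut.conjNormal_apply]
        exact ‹D.Normal›.conj_mem _ hy' g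
      · intro hx
        have hx' : (x : G) ∈ D := hx
        refine ⟨(MulAut.conjNormal g : ↥K ≃* ↥K).symm x, ?_, by simp⟩
        show (((MulAut.conjNormal g : ↥K ≃* ↥K).symm x : ↥K) : G) ∈ D
        rw [MulAut.conjNormal_symm_apply]
        have := ‹D.Normal›.conj_mem _ hx' g⁻¹
        simpa using this
    rw [hD] at hmap
    have heq := leastSupp_unique _ _ _ hmap ⟨hBKn, hBKs, hBKl⟩
    have hmem : (MulAut.conjNormal g b : ↥K) ∈ BK := by
      rw [← heq]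
      exact ⟨b, hb, rfl⟩
    refine ⟨MulAut.conjNormal g b, hmem, ?_⟩
    show ((MulAut.conjNormal g b : ↥K) : G) = g * (b : G) * g⁻¹
    exact MulAut.conjNormal_apply g b
  have h3 := hB₀l _ h2 h1
  refine h3.trans ?_
  rintro _ ⟨b, hb, rfl⟩
  exact Subgroup.mem_subgroupOf.mp (hBKB' hb)

theorem exists_leastSupp {G : Type u} [Group G] [Finite G] (D : Subgroup G) [D.Normal]
    (hperf : ⁅(⊤ : Subgroup G), (⊤ : Subgroup G)⁆ ⊔ D = ⊤) : ∃ B : Subgroup G, IsLeastSupp D B :=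
  exists_leastSupp_aux _ G rfl D hperf

end Cfsg.Agent.Lib_helper7_LeastSupp
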