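import Mathlib
import Cfsg.Agent.Lib_helper1_Basic
import Cfsg.Agent.Lib_helper1_UniqInv
import Cfsg.Agent.Lib_helper7_OddCyclic
import Cfsg.Agent.Lib_helper7_SE2

set_option autoImplicit false

namespace Cfsg.Agent.Lib_helper7_MinNorm

open Cfsg.Agent.Lib_helper1_Basic Cfsg.Agent.Lib_helper7_SE2

universe u

theorem zpowers_ne_bot' {G : Type*} [Group G] (x : G) (hx : x ≠ 1) : Subgroup.zpowers x ≠ ⊥ := by
  intro h
  have := Subgroup.mem_zpowers x
  rw [h, Subgroup.mem_bot] at this
  exact hx this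

theorem s3025 {F : Type u} [Group F] [Finite F] (H : Subgroup F) (hH : H ≠ ⊥)
    (hmin : ∀ R : Subgroup F, R ≠ ⊥ → H ≤ Subgroup.normalizer (R : Set F) → H ≤ R) :
    ∃ N : Subgroup F, N.Normal ∧ N ≠ ⊥ ∧ (∀ M : Subgroup F, M.Normal → M ≠ ⊥ → N ≤ M) ∧
      IsSimpleGroup ↥N ∧
      (Subgroup.centralizer (N : Set F) = ⊥ ∨
       (H = N ∧ (Nat.card N).Prime ∧ IsCyclic ↥(Subgroup.centralizer (N : Set F)) ∧
          (∃ k : ℕ, 1 ≤ k ∧ Nat.card ↥(Subgroup.centralizer (N : Set F)) = Nat.card N ^ k) ∧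
          (∃ g : F, Subgroup.centralizer (N : Set F) ⊔ Subgroup.zpowers g = ⊤) ∧
          (Subgroup.centralizer (N : Set F)).index ∣ Nat.card N - 1) ∨
       (H = N ∧ Nat.card N = 2 ∧ Subgroup.centralizer (N : Set F) = ⊤ ∧
          ∃ k : ℕ, 1 ≤ k ∧ Nonempty (F ≃* QuaternionGroup (2 ^ k)))) := by
  obtain ⟨N, hNdef⟩ : ∃ N : Subgroup F, N = Subgroup.normalClosure (H : Set F) := ⟨_, rfl⟩
  have hNn : N.Normal := by rw [hNdef]; exact Subgroup.normalClosure_normal
  have hHN : H ≤ N := by rw [hNdef]; exact Subgroup.le_normalClosure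
  have hN1 : N ≠ ⊥ := fun h => hH (le_bot_iff.mp (h ▸ hHN))
  have hNleast : ∀ M : Subgroup F, M.Normal → M ≠ ⊥ → N ≤ M := by
    intro M hM hM1
    have h1 : H ≤ M := hmin M hM1 (by rw [Subgroup.normalizer_eq_top M]; exact le_top)
    rw [hNdef]
    exact Subgroup.normalClosure_le_normal h1
  -- a minimal normal subgroup of N
  obtain ⟨T, ⟨hTN, hT1, hTnorm⟩, hTmin⟩ := exists_minimal_subgroup
    (fun T : Subgroup F => T ≤ N ∧ T ≠ ⊥ ∧ N ≤ Subgroup.normalizer (T : Set F))
    ⟨N, le_rfl, hN1, Subgroup.le_normalizer⟩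
  have key : ∀ g : F, T ≤ T.map (MulAut.conj g).toMonoidHom := by
    intro g
    obtain ⟨Tg, hTg⟩ : ∃ Tg : Subgroup F, Tg = T.map (MulAut.conj g).toMonoidHom := ⟨_, rfl⟩
    rw [← hTg]
    have hTgN : Tg ≤ N := by
      rw [hTg]; rintro _ ⟨x, hx, rfl⟩; exact hNn.conj_mem x (hTN hx) g
    have hTgnorm : N ≤ Subgroup.normalizer (Tg : Set F) := by
      intro n hn
      apply mem_normalizer_of_conj_le
      intro m hm
      rw [hTg] at hm ⊢
      obtain ⟨x, hx, rfl⟩ := hm
      have hn' : g⁻¹ * n * g ∈ N := by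
        have := hNn.conj_mem n hn g⁻¹
        simpa using this
      have h1 := (Subgroup.mem_normalizer_iff.mp (hTnorm hn') x).mp hx
      refine ⟨_, h1, ?_⟩
      show g * (g⁻¹ * n * g * x * (g⁻¹ * n * g)⁻¹) * g⁻¹ = n * (g * x * g⁻¹) * n⁻¹
      group
    have hTg1 : Tg ≠ ⊥ := by
      intro h
      apply hT1
      rw [hTg] at h
      exact (Subgroup.map_eq_bot_iff_of_injective T (MulAut.conj g).injective).mp h
    have hHT : H ≤ T := hmin T hT1 (hHN.trans hTnorm)
    have hHTg : H ≤ Tg := hmin Tg hTg1 (hHN.trans hTgnorm)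
    have hI : T ⊓ Tg = T := by
      apply hTmin (T ⊓ Tg) ⟨inf_le_left.trans hTN, ?_, ?_⟩ inf_le_left
      · intro h
        apply hH
        rw [eq_bot_iff, ← h]
        exact le_inf hHT hHTg
      · intro n hn
        apply mem_normalizer_of_conj_le
        intro m hm
        exact Subgroup.mem_inf.mpr
          ⟨(Subgroup.mem_normalizer_iff.mp (hTnorm hn) m).mp (Subgroup.mem_inf.mp hm).1,
           (Subgroup.mem_normalizer_iff.mp (hTgnorm hn) m).mp (Subgroup.mem_inf.mp hm).2⟩
    rw [← hI]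
    exact inf_le_right
  have hTF : T.Normal := by
    constructor
    intro t ht g
    obtain ⟨y, hy, hyt⟩ := key g⁻¹ ht
    have h1 : g⁻¹ * y * g⁻¹⁻¹ = t := hyt
    have h2 : g * t * g⁻¹ = y := by rw [← h1]; group
    rw [h2]; exact hy
  have hTeq : T = N := le_antisymm hTN (hNleast T hTF hT1)
  have hNmin : ∀ K : Subgroup F, K ≤ N → K ≠ ⊥ → N ≤ Subgroup.normalizer (K : Set F) → K = N := by
    intro K hK hK1 hKn
    have := hTmin K ⟨hK, hK1, hKn⟩ (by rw [hTeq]; exact hK)
    rw [this, hTeq]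
  have hsimple : IsSimpleGroup ↥N := by
    haveI : Nontrivial ↥N := (Subgroup.nontrivial_iff_ne_bot N).mpr hN1
    refine { toNontrivial := inferInstance, eq_bot_or_eq_top_of_normal := fun K hK => ?_ }
    by_cases hK1 : K = ⊥
    · left; exact hK1
    · right
      have h1 : K.map N.subtype = N := by
        apply hNmin (K.map N.subtype) (Subgroup.map_subtype_le K)
        · intro h
          apply hK1
          exact (Subgroup.map_eq_bot_iff_of_injective K N.subtype_injective).mp h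
        · intro n hn
          apply mem_normalizer_of_conj_le
          rintro _ ⟨k, hk, rfl⟩
          exact ⟨⟨n, hn⟩ * k * ⟨n, hn⟩⁻¹, hK.conj_mem k hk ⟨n, hn⟩, rfl⟩
      rw [eq_top_iff]
      intro x _
      have h2 : (x : F) ∈ K.map N.subtype := by rw [h1]; exact x.2
      obtain ⟨k, hk, hkx⟩ := h2
      have h3 : k = x := Subtype.ext hkx
      rw [← h3]; exact hk
  refine ⟨N, hNn, hN1, hNleast, hsimple, ?_⟩
  obtain ⟨C, hC⟩ : ∃ C : Subgroup F, C = Subgroup.centralizer (N : Set F) := ⟨_, rfl⟩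
  rw [← hC]
  by_cases hC1 : C = ⊥
  · left; exact hC1
  right
  have hCn : C.Normal := by
    rw [hC]
    haveI := hNn
    infer_instance
  have hNC : N ≤ C := hNleast C hCn hC1
  have hCN : ∀ c ∈ C, ∀ n ∈ N, n * c = c * n := by
    intro c hc n hn
    rw [hC] at hc
    exact Subgroup.mem_centralizer_iff.mp hc n hn
  have hconj : ∀ c ∈ C, ∀ n ∈ N, n * c * n⁻¹ = c := by
    intro c hc n hn
    rw [hCN c hc n hn]; group
  -- H = N
  have hHeq : H = N := by
    apply hNmin H hHN hH
    intro n hn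
    apply mem_normalizer_of_conj_le
    intro h hh
    rw [hconj h (hNC (hHN hh)) n hn]; exact hh
  -- prime order
  have hcardN1 : Nat.card N ≠ 1 := fun h => hN1 (Subgroup.card_eq_one.mp h)
  obtain ⟨p, hp⟩ : ∃ p, p = (Nat.card N).minFac := ⟨_, rfl⟩
  have hpp : p.Prime := hp ▸ Nat.minFac_prime hcardN1
  haveI : Fact p.Prime := ⟨hpp⟩
  obtain ⟨z, hzN, hoz⟩ := exists_orderOf_eq (p := p) N (hp ▸ Nat.minFac_dvd _)
  have hz1 : z ≠ 1 := by
    intro h
    rw [h, orderOf_one] at hoz
    exact hpp.one_lt.ne hoz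
  have hzN' : Subgroup.zpowers z = N := by
    apply hNmin _ (by rw [Subgroup.zpowers_le]; exact hzN) (zpowers_ne_bot' z hz1)
    intro n hn
    apply mem_normalizer_of_conj_le
    intro m hm
    have hmN : m ∈ N := by
      obtain ⟨i, rfl⟩ := Subgroup.mem_zpowers_iff.mp hm
      exact N.zpow_mem hzN i
    rw [hconj m (hNC hmN) n hn]; exact hm
  have hcardN : Nat.card N = p := by rw [← hzN', Nat.card_zpowers, hoz]
  -- nontrivial subgroups of C contain N
  have hCsub : ∀ R : Subgroup F, R ≤ C → R ≠ ⊥ → N ≤ R := by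
    intro R hRC hR1
    rw [← hHeq]
    apply hmin R hR1
    rw [hHeq]
    intro n hn
    apply mem_normalizer_of_conj_le
    intro r hr
    rw [hconj r (hRC hr) n hn]; exact hr
  have hord : ∀ y ∈ C, y ^ p = 1 → y ∈ N := by
    intro y hy hyp
    by_cases hy1 : y = 1
    · rw [hy1]; exact N.one_mem
    have hoy : orderOf y = p := orderOf_eq_prime hyp hy1
    have h1 : N ≤ Subgroup.zpowers y :=
      hCsub _ (by rw [Subgroup.zpowers_le]; exact hy) (zpowers_ne_bot' y hy1)
    have h2 : N = Subgroup.zpowers y :=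
      Subgroup.eq_of_le_of_card_ge h1 (by rw [Nat.card_zpowers, hoy, hcardN])
    rw [h2]; exact Subgroup.mem_zpowers y
  have hCcard : ∃ k, 1 ≤ k ∧ Nat.card C = p ^ k := by
    have h1 : ∀ {d : ℕ}, d.Prime → d ∣ Nat.card C → d = p := by
      intro d hd hdC
      haveI : Fact d.Prime := ⟨hd⟩
      obtain ⟨y, hyC, hoy⟩ := exists_orderOf_eq (p := d) C hdC
      have hy1 : y ≠ 1 := by
        intro h
        rw [h, orderOf_one] at hoy
        exact hd.one_lt.ne hoy
      have h2 : N ≤ Subgroup.zpowers y :=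
        hCsub _ (by rw [Subgroup.zpowers_le]; exact hyC) (zpowers_ne_bot' y hy1)
      have h3 := Subgroup.card_dvd_of_le h2
      rw [hcardN, Nat.card_zpowers, hoy] at h3
      exact ((Nat.prime_dvd_prime_iff_eq hpp hd).mp h3).symm
    have h2 := Nat.eq_prime_pow_of_unique_prime_dvd (Nat.card_pos (α := ↥C)).ne' h1
    refine ⟨_, ?_, h2⟩
    by_contra hk
    have hk0 : (Nat.card C).primeFactorsList.length = 0 := by omega
    rw [hk0, pow_zero] at h2
    exact hC1 (Subgroup.card_eq_one.mp h2)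
  obtain ⟨k, hk1, hCk⟩ := hCcard
  have hCp : IsPGroup p ↥C := IsPGroup.of_card hCk
  have hCcase : IsCyclic ↥C ∨
      (p = 2 ∧ ∃ n, 1 ≤ n ∧ Nonempty (↥C ≃* QuaternionGroup (2 ^ n))) := by
    by_cases hp2 : p = 2
    · have hui : Cfsg.Agent.Lib_helper1_UniqInv.UI ↥C := by
        intro u v hu hv hu1 hv1
        have huN : (u : F) ∈ N := hord u u.2 (by
          rw [hp2]
          have := congrArg Subtype.val hu
          simpa using this)
        have hvN : (v : F) ∈ N := hord v v.2 (by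
          rw [hp2]
          have := congrArg Subtype.val hv
          simpa using this)
        have h2 := (Nat.card_eq_two_iff' (1 : ↥N)).mp (by rw [hcardN, hp2])
        obtain ⟨w, hw, hwu⟩ := h2
        have e1 : (⟨u, huN⟩ : ↥N) = w := hwu _ (fun h => hu1 (Subtype.ext (by
          have := congrArg Subtype.val h
          simpa using this)))
        have e2 : (⟨v, hvN⟩ : ↥N) = w := hwu _ (fun h => hv1 (Subtype.ext (by
          have := congrArg Subtype.val h
          simpa using this)))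
        apply Subtype.ext
        have := congrArg Subtype.val (e1.trans e2.symm)
        exact this
      have hCp2 : IsPGroup 2 ↥C := by rw [← hp2]; exact hCp
      rcases Cfsg.Agent.Lib_helper1_UniqInv.two_group_ui hCp2 hui with h | ⟨n, ⟨e⟩⟩
      · left; exact h
      · by_cases hn : n = 0
        · left
          subst hn
          have e' : ↥C ≃* QuaternionGroup 1 := e
          haveI := QuaternionGroup.quaternionGroup_one_isCyclic
          exact isCyclic_of_surjective e'.symm e'.symm.surjective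
        · right; exact ⟨hp2, n, Nat.pos_of_ne_zero hn, ⟨e⟩⟩
    · left
      apply Cfsg.Agent.Lib_helper7_OddCyclic.isCyclic_of_pRankLE_one p hp2 hCp
      intro A hAc hAp
      rw [pow_one]
      have h1 : (A.map C.subtype) ≤ N := by
        rintro _ ⟨a, ha, rfl⟩
        apply hord _ a.2
        have := congrArg Subtype.val (hAp a ha)
        simpa using this
      have h2 := Subgroup.card_le_of_le h1
      rw [Subgroup.card_map_of_injective C.subtype_injective, hcardN] at h2
      exact h2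
  -- the conjugation action on N
  haveI := hNn
  obtain ⟨ψ, hψ⟩ : ∃ ψ : F →* MulAut ↥N, ∀ (g : F) (h : ↥N), ((ψ g h : ↥N) : F) = g * h * g⁻¹ :=
    ⟨MulAut.conjNormal, fun g h => rfl⟩
  have hker : ψ.ker = C := by
    ext g
    rw [MonoidHom.mem_ker, hC, Subgroup.mem_centralizer_iff]
    constructor
    · intro hg h hh
      have h1 : ψ g ⟨h, hh⟩ = ⟨h, hh⟩ := by rw [hg]; rfl
      have h2 := congrArg Subtype.val h1
      rw [hψ] at h2
      have h3 : g * h * g⁻¹ = h := h2
      calc h * g = (g * h * g⁻¹) * g := by rw [h3]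
        _ = g * h := by group
    · intro hg
      apply MulEquiv.ext
      intro h
      apply Subtype.ext
      rw [hψ]
      show g * (h : F) * g⁻¹ = (h : F)
      rw [← hg h h.2]; group
  haveI hNcyc : IsCyclic ↥N := isCyclic_of_prime_card hcardN
  have hAutcard : Nat.card (MulAut ↥N) = p - 1 := by
    rw [IsCyclic.card_mulAut, hcardN, Nat.totient_prime hpp]
  haveI hAutcyc : IsCyclic (MulAut ↥N) := by
    haveI : IsCyclic (ZMod (Nat.card ↥N))ˣ := by
      rw [hcardN]; exact ZMod.isCyclic_units_prime hpp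
    exact isCyclic_of_surjective (IsCyclic.mulAutMulEquiv ↥N).symm
      (IsCyclic.mulAutMulEquiv ↥N).symm.surjective
  have hidx : C.index ∣ p - 1 := by
    rw [← hker, Subgroup.index_ker, ← hAutcard]
    exact Subgroup.card_subgroup_dvd_card _
  have hgen : ∃ g : F, C ⊔ Subgroup.zpowers g = ⊤ := by
    obtain ⟨γ, hγ⟩ := IsCyclic.exists_generator (α := ↥ψ.range)
    obtain ⟨g₀, hg₀⟩ := γ.2
    refine ⟨g₀, ?_⟩
    rw [eq_top_iff]
    intro f _
    have h1 := hγ ⟨ψ f, f, rfl⟩
    obtain ⟨i, hi⟩ := Subgroup.mem_zpowers_iff.mp h1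
    have h2 : ψ (g₀ ^ i) = ψ f := by
      rw [map_zpow, hg₀]
      have := congrArg Subtype.val hi
      simpa using this
    have h3 : f * (g₀ ^ i)⁻¹ ∈ C := by
      rw [← hker, MonoidHom.mem_ker, map_mul, map_inv, h2, mul_inv_cancel]
    have h4 : f = f * (g₀ ^ i)⁻¹ * g₀ ^ i := by group
    rw [h4]
    exact Subgroup.mul_mem _ (Subgroup.mem_sup_left h3)
      (Subgroup.mem_sup_right (Subgroup.zpow_mem _ (Subgroup.mem_zpowers g₀) i))
  rcases hCcase with hcyc | ⟨hp2, n, hn, ⟨e⟩⟩
  · left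
    exact ⟨hHeq, by rw [hcardN]; exact hpp, hcyc, ⟨k, hk1, by rw [hcardN]; exact hCk⟩, hgen,
      by rw [hcardN]; exact hidx⟩
  · right
    have hCtop : C = ⊤ := by
      rw [hp2] at hidx
      exact Subgroup.index_eq_one.mp (Nat.dvd_one.mp hidx)
    refine ⟨hHeq, by rw [hcardN, hp2], hCtop, n, hn, ⟨?_⟩⟩
    subst hCtop
    exact Subgroup.topEquiv.symm.trans e

end Cfsg.Agent.Lib_helper7_MinNorm
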