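import Mathlib
import Cfsg.Agent.Lib_helper7_Norm

set_option autoImplicit false

namespace Cfsg.Agent.Lib_helper7_NormHom

open scoped IsMulCommutative
open Cfsg.Agent.Lib_helper7_Norm

variable {G : Type*} [Group G]

/-- The norm map of the abelian subgroup `V` for `L` over `S`, as an endomorphism of `V`:
it sends `S`-fixed elements to `L`-fixed elements and is the `|L:S|`-th power on `L`-fixed
elements. -/
theorem exists_normHom [Finite G] (V L S : Subgroup G) [hVab : IsMulCommutative ↥V]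
    (hLV : L ≤ Subgroup.normalizer (V : Set G)) :
    ∃ τ : ↥V →* ↥V,
      (∀ z : ↥V, (z : G) ∈ Subgroup.centralizer (S : Set G) →
        ((τ z : ↥V) : G) ∈ Subgroup.centralizer (L : Set G)) ∧
      (∀ w : ↥V, (w : G) ∈ Subgroup.centralizer (L : Set G) → τ w = w ^ (S.relIndex L)) := by
  classical
  haveI : Fintype (↥L ⧸ S.subgroupOf L) := Fintype.ofFinite _
  obtain ⟨τ, hτ⟩ : ∃ τ : ↥V →* ↥V, ∀ v, τ v =
      ∏ q : ↥L ⧸ S.subgroupOf L, conjHom V ((q.out : ↥L) : G) (hLV q.out.2) v :=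
    ⟨{ toFun := fun v => ∏ q : ↥L ⧸ S.subgroupOf L, conjHom V ((q.out : ↥L) : G) (hLV q.out.2) v
       map_one' := by simp
       map_mul' := fun a b => by
        simp only [map_mul]
        exact Finset.prod_mul_distrib }, fun _ => rfl⟩
  refine ⟨τ, ?_, ?_⟩
  · intro z hzS
    have hcj_mul : ∀ (l s : ↥L), (s : G) ∈ S →
        conjHom V ((l * s : ↥L) : G) (hLV (l * s).2) z = conjHom V (l : G) (hLV l.2) z := by
      intro l s hs
      apply Subtype.ext
      rw [conjHom_coe, conjHom_coe]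
      have hc : (s : G) * (z : G) = (z : G) * (s : G) :=
        Subgroup.mem_centralizer_iff.mp hzS (s : G) hs
      show ((l : G) * (s : G)) * (z : G) * ((l : G) * (s : G))⁻¹ = (l : G) * (z : G) * (l : G)⁻¹
      calc ((l : G) * (s : G)) * (z : G) * ((l : G) * (s : G))⁻¹
          = (l : G) * ((s : G) * (z : G)) * (s : G)⁻¹ * (l : G)⁻¹ := by group
        _ = (l : G) * ((z : G) * (s : G)) * (s : G)⁻¹ * (l : G)⁻¹ := by rw [hc]
        _ = (l : G) * (z : G) * (l : G)⁻¹ := by group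
    obtain ⟨f, hfdef⟩ : ∃ f : ↥L ⧸ S.subgroupOf L → ↥V, ∀ q,
        f q = conjHom V ((q.out : ↥L) : G) (hLV q.out.2) z := ⟨_, fun _ => rfl⟩
    have hf : ∀ l : ↥L, f (QuotientGroup.mk l) = conjHom V (l : G) (hLV l.2) z := by
      intro l
      obtain ⟨s, hs⟩ := QuotientGroup.mk_out_eq_mul (S.subgroupOf L) l
      rw [hfdef]
      have key := hcj_mul l s (Subgroup.mem_subgroupOf.mp s.2)
      rw [← key]
      congr 1
      · rw [hs]
    have hτz : τ z = ∏ q : ↥L ⧸ S.subgroupOf L, f q := by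
      rw [hτ]
      exact Finset.prod_congr rfl (fun q _ => (hfdef q).symm)
    rw [Subgroup.mem_centralizer_iff]
    intro l₀ hl₀
    have h1 : conjHom V l₀ (hLV hl₀) (τ z) = τ z := by
      rw [hτz, map_prod]
      have h2 : ∀ q : ↥L ⧸ S.subgroupOf L,
          conjHom V l₀ (hLV hl₀) (f q) = f ((⟨l₀, hl₀⟩ : ↥L) • q) := by
        intro q
        have e : (⟨l₀, hl₀⟩ : ↥L) • q = QuotientGroup.mk ((⟨l₀, hl₀⟩ : ↥L) * q.out) := by
          conv_lhs => rw [← QuotientGroup.out_eq' q]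
          rfl
        rw [e, hf, hfdef]
        apply Subtype.ext
        rw [conjHom_coe, conjHom_coe, conjHom_coe]
        show l₀ * (((q.out : ↥L) : G) * (z : G) * ((q.out : ↥L) : G)⁻¹) * l₀⁻¹
          = (l₀ * ((q.out : ↥L) : G)) * (z : G) * (l₀ * ((q.out : ↥L) : G))⁻¹
        group
      simp_rw [h2]
      exact Fintype.prod_equiv (MulAction.toPerm (⟨l₀, hl₀⟩ : ↥L)) _ _ (fun q => rfl)
    have h3 : l₀ * ((τ z : ↥V) : G) * l₀⁻¹ = ((τ z : ↥V) : G) := congrArg Subtype.val h1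
    calc l₀ * ((τ z : ↥V) : G) = (l₀ * ((τ z : ↥V) : G) * l₀⁻¹) * l₀ := by group
      _ = ((τ z : ↥V) : G) * l₀ := by rw [h3]
  · intro w hw
    have hfix : ∀ q : ↥L ⧸ S.subgroupOf L,
        conjHom V ((q.out : ↥L) : G) (hLV q.out.2) w = w := by
      intro q
      apply Subtype.ext
      rw [conjHom_coe]
      have := Subgroup.mem_centralizer_iff.mp hw _ q.out.2
      rw [this, mul_inv_cancel_right]
    rw [hτ, Finset.prod_congr rfl (fun q _ => hfix q), Finset.prod_const, Finset.card_univ]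
    congr 1
    rw [← Nat.card_eq_fintype_card]; rfl

end Cfsg.Agent.Lib_helper7_NormHom
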