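import Mathlib

set_option autoImplicit false

namespace Cfsg.Agent.Lib_helper7_Offender

theorem card_ineq {V : Type*} [AddCommGroup V] [Finite V] (X Y W : AddSubgroup V) (hXY : X ≤ Y) :
    Nat.card ↥(Y ⊓ W) * Nat.card X ≤ Nat.card Y * Nat.card ↥(X ⊓ W) := by
  have h1 : Nat.card X * X.relIndex Y = Nat.card Y := by
    have := AddSubgroup.card_mul_index (X.addSubgroupOf Y)
    rwa [Nat.card_congr (AddSubgroup.addSubgroupOfEquivOfLe hXY).toEquiv] at this
  have hle : X ⊓ W ≤ Y ⊓ W := inf_le_inf_right _ hXY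
  have h2 : Nat.card ↥(X ⊓ W) * (X ⊓ W).relIndex (Y ⊓ W) = Nat.card ↥(Y ⊓ W) := by
    have := AddSubgroup.card_mul_index ((X ⊓ W).addSubgroupOf (Y ⊓ W))
    rwa [Nat.card_congr (AddSubgroup.addSubgroupOfEquivOfLe hle).toEquiv] at this
  have h3 : (X ⊓ W).relIndex (Y ⊓ W) = X.relIndex (Y ⊓ W) := by
    have e : X ⊓ (Y ⊓ W) = X ⊓ W := by rw [← inf_assoc, inf_eq_left.mpr hXY]
    rw [← AddSubgroup.inf_relIndex_right X (Y ⊓ W), e]
  have h4 : X.relIndex (Y ⊓ W) ≤ X.relIndex Y := by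
    apply AddSubgroup.relIndex_le_of_le_right inf_le_left
    intro h0
    rw [h0, mul_zero] at h1
    exact (Nat.card_pos (α := Y)).ne' h1.symm
  calc Nat.card ↥(Y ⊓ W) * Nat.card X
      = Nat.card ↥(X ⊓ W) * (X ⊓ W).relIndex (Y ⊓ W) * Nat.card X := by rw [h2]
    _ ≤ Nat.card ↥(X ⊓ W) * X.relIndex Y * Nat.card X := by
        rw [h3]
        exact Nat.mul_le_mul_right _ (Nat.mul_le_mul_left _ h4)
    _ = Nat.card Y * Nat.card ↥(X ⊓ W) := by rw [← h1]; ring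

theorem offender_restrict {G V : Type*} [Group G] [Finite G] [AddCommGroup V] [Finite V] (p : ℕ)
    [Fact p.Prime] [Module (ZMod p) V]
    (ρ : Representation (ZMod p) G V) (W : Submodule (ZMod p) V) (A B : Subgroup G)
    (hP : Nat.card ↥B * Nat.card {v : V // ∀ b ∈ B, ρ b v = v}
      ≤ Nat.card ↥A * Nat.card {v : V // ∀ a ∈ A, ρ a v = v})
    (hBA : B ≤ A) :
    Nat.card ↥B * Nat.card {w : W // ∀ b ∈ B, ρ b w = w}
      ≤ Nat.card ↥A * Nat.card {w : W // ∀ a ∈ A, ρ a w = w} := by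
  let F : Subgroup G → AddSubgroup V := fun C =>
    { carrier := {v | ∀ c ∈ C, ρ c v = v}
      zero_mem' := fun c _ => map_zero _
      add_mem' := fun {a b} ha hb c hc => by rw [map_add, ha c hc, hb c hc]
      neg_mem' := fun {a} ha c hc => by rw [map_neg, ha c hc] }
  have e1 : ∀ C : Subgroup G, Nat.card {v : V // ∀ c ∈ C, ρ c v = v} = Nat.card ↥(F C) :=
    fun C => rfl
  have e2 : ∀ C : Subgroup G, Nat.card {w : W // ∀ c ∈ C, ρ c w = w}
      = Nat.card ↥(F C ⊓ W.toAddSubgroup) := by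
    intro C
    apply Nat.card_congr
    exact { toFun := fun w => ⟨w.1.1, ⟨w.2, w.1.2⟩⟩
            invFun := fun x => ⟨⟨x.1, x.2.2⟩, x.2.1⟩
            left_inv := fun w => rfl
            right_inv := fun x => rfl }
  rw [e1, e1] at hP
  rw [e2, e2]
  have hXY : F A ≤ F B := fun v hv b hb => hv b (hBA hb)
  have h := card_ineq (F A) (F B) W.toAddSubgroup hXY
  have hx : 0 < Nat.card ↥(F A) := Nat.card_pos
  have h5 : Nat.card ↥B * Nat.card ↥(F B ⊓ W.toAddSubgroup) * Nat.card ↥(F A)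
      ≤ Nat.card ↥A * Nat.card ↥(F A ⊓ W.toAddSubgroup) * Nat.card ↥(F A) := by
    calc Nat.card ↥B * Nat.card ↥(F B ⊓ W.toAddSubgroup) * Nat.card ↥(F A)
        = Nat.card ↥B * (Nat.card ↥(F B ⊓ W.toAddSubgroup) * Nat.card ↥(F A)) := by ring
      _ ≤ Nat.card ↥B * (Nat.card ↥(F B) * Nat.card ↥(F A ⊓ W.toAddSubgroup)) :=
          Nat.mul_le_mul_left _ h
      _ = (Nat.card ↥B * Nat.card ↥(F B)) * Nat.card ↥(F A ⊓ W.toAddSubgroup) := by ring
      _ ≤ (Nat.card ↥A * Nat.card ↥(F A)) * Nat.card ↥(F A ⊓ W.toAddSubgroup) :=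
          Nat.mul_le_mul_right _ hP
      _ = Nat.card ↥A * Nat.card ↥(F A ⊓ W.toAddSubgroup) * Nat.card ↥(F A) := by ring
  exact Nat.le_of_mul_le_mul_right h5 hx

end Cfsg.Agent.Lib_helper7_Offender
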