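import Cfsg.Agent.Lib_helper7_OddOmega

set_option autoImplicit false

namespace Cfsg.Agent.Lib_helper7_OmegaGen

universe u

variable {G : Type u} [Group G] [Finite G]

/-- For `p` odd: an element of order prime to `p` normalizing the `p`-subgroup `Q` and commuting
with every element `x ∈ Q` with `x ^ p = 1` centralizes `Q`. -/
theorem centralizes_aux (p : ℕ) [Fact p.Prime] (e : ℕ) (he : p ∣ e)
    (hTe : p ∣ ∑ i ∈ Finset.range e, i) (g : G) (hgo : (orderOf g).Coprime p) :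
    ∀ (n : ℕ) (Q : Subgroup G), Nat.card Q ≤ n → IsPGroup p Q →
      g ∈ Subgroup.normalizer (Q : Set G) → (∀ x ∈ Q, x ^ e = 1 → g * x = x * g) →
      g ∈ Subgroup.centralizer (Q : Set G) := by
  have hp : p.Prime := Fact.out
  intro n
  induction n with
  | zero =>
    intro Q hcard
    have : 0 < Nat.card Q := Nat.card_pos
    omega
  | succ n ih =>
    intro Q hcard hQ hgN hΩ
    by_contra hgC
    have hBN : Subgroup.zpowers g ≤ Subgroup.normalizer (Q : Set G) := by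
      rw [Subgroup.zpowers_le]; exact hgN
    have hBsolv : Group.IsSolvable ↥(Subgroup.zpowers g) :=
      isSolvable_of_comm (fun a b => by
        obtain ⟨a, i, rfl⟩ := a
        obtain ⟨b, j, rfl⟩ := b
        exact Subtype.ext (zpow_mul_comm g i j))
    -- (1) proper `g`-invariant subgroups are centralized
    have h1 : ∀ R : Subgroup G, R ≤ Q → R ≠ Q → g ∈ Subgroup.normalizer (R : Set G) →
        Subgroup.zpowers g ≤ Subgroup.centralizer (R : Set G) := by
      intro R hRQ hne hgR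
      have hcardR : Nat.card R ≤ n := by
        by_contra h
        push_neg at h
        exact hne (Subgroup.eq_of_le_of_card_ge hRQ (by omega))
      have := ih R hcardR (hQ.to_le hRQ) hgR (fun x hx hxp => hΩ x (hRQ hx) hxp)
      rw [Subgroup.zpowers_le]
      exact this
    obtain ⟨k, hk⟩ := hQ.exists_card_eq
    have hcop : (Nat.card (Subgroup.zpowers g)).Coprime (Nat.card Q) := by
      rw [hk, Nat.card_zpowers]
      exact Nat.Coprime.pow_right k hgo
    -- (2) `Q = [Q, B]`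
    have h2 : ⁅Q, Subgroup.zpowers g⁆ = Q := by
      by_contra hne
      have hle : ⁅Q, Subgroup.zpowers g⁆ ≤ Q :=
        Cfsg.Agent.Lib_helper1_Coprime.commutator_le_of_normalizes (Subgroup.zpowers g) Q hBN
      have hgD : g ∈ Subgroup.normalizer ((⁅Q, Subgroup.zpowers g⁆ : Subgroup G) : Set G) :=
        Cfsg.Agent.Lib_helper1_Coprime.normalizer_commutator_right (Subgroup.zpowers g) Q hBN
          (Subgroup.mem_zpowers g)
      have hc := h1 ⁅Q, Subgroup.zpowers g⁆ hle hne hgD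
      have h3 : ⁅⁅Q, Subgroup.zpowers g⁆, Subgroup.zpowers g⁆ = ⊥ := by
        rw [Subgroup.commutator_eq_bot_iff_le_centralizer, Subgroup.le_centralizer_iff]
        exact hc
      have h4 := Cfsg.Agent.Lib_helper1_Coprime.commutator_commutator_eq (Subgroup.zpowers g) Q hBN
        hcop (Or.inl hBsolv)
      rw [h3] at h4
      apply hgC
      have h5 : Subgroup.zpowers g ≤ Subgroup.centralizer (Q : Set G) := by
        rw [Subgroup.le_centralizer_iff]
        exact Subgroup.commutator_eq_bot_iff_le_centralizer.mp h4.symm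
      exact h5 (Subgroup.mem_zpowers g)
    -- (3) the index-`p` subgroups of `Q` and their intersection
    obtain ⟨𝓜, h𝓜⟩ : ∃ 𝓜 : Set (Subgroup G), 𝓜 = {M | M ≤ Q ∧ Nat.card M * p = Nat.card Q} :=
      ⟨_, rfl⟩
    have hconj : ∀ h ∈ Subgroup.normalizer (Q : Set G), ∀ M ∈ 𝓜,
        M.map (MulAut.conj h).toMonoidHom ∈ 𝓜 := by
      intro h hh M hM
      rw [h𝓜] at hM ⊢
      obtain ⟨hMQ, hMc⟩ := hM
      refine ⟨?_, ?_⟩
      · rintro _ ⟨m, hm, rfl⟩
        exact (Subgroup.mem_normalizer_iff.mp hh m).mp (hMQ hm)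
      · rw [Subgroup.card_map_of_injective (MulAut.conj h).injective]
        exact hMc
    have hNnorm : ∀ h ∈ Subgroup.normalizer (Q : Set G),
        h ∈ Subgroup.normalizer ((Q ⊓ sInf 𝓜 : Subgroup G) : Set G) := by
      intro h hh
      apply Cfsg.Agent.Lib_helper7_Sylow.mem_normalizer_of_conj_le
      rintro _ ⟨x, ⟨hxQ, hxM⟩, rfl⟩
      refine Subgroup.mem_inf.mpr ⟨(Subgroup.mem_normalizer_iff.mp hh x).mp hxQ, ?_⟩
      have hxM' : x ∈ sInf 𝓜 := hxM
      rw [Subgroup.mem_sInf] at hxM' ⊢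
      intro M hM
      have hM' := hconj h⁻¹ (Subgroup.inv_mem _ hh) M hM
      obtain ⟨m, hm, hmx⟩ := hxM' _ hM'
      have hmx' : h⁻¹ * m * h⁻¹⁻¹ = x := hmx
      have eq1 : (MulAut.conj h).toMonoidHom x = m := by
        show h * x * h⁻¹ = m
        rw [← hmx']
        group
      rw [eq1]
      exact hm
    have hk0 : k ≠ 0 := by
      rintro rfl
      rw [pow_zero] at hk
      have hQbot : Q = ⊥ := Subgroup.card_eq_one.mp hk
      apply hgC
      rw [Subgroup.mem_centralizer_iff]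
      intro x hx
      rw [hQbot] at hx
      have : x = 1 := Subgroup.mem_bot.mp hx
      rw [this, one_mul, mul_one]
    obtain ⟨k', rfl⟩ := Nat.exists_eq_succ_of_ne_zero hk0
    obtain ⟨M₀', hM₀'⟩ := Sylow.exists_subgroup_card_pow_prime (G := ↥Q) p (n := k')
      (by rw [hk]; exact pow_dvd_pow p (Nat.le_succ k'))
    have hM₀card : Nat.card ↥(M₀'.map Q.subtype) = p ^ k' := by
      rw [Subgroup.card_map_of_injective Q.subtype_injective]; exact hM₀'
    have hM₀ : M₀'.map Q.subtype ∈ 𝓜 := by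
      rw [h𝓜]
      exact ⟨Subgroup.map_subtype_le _, by rw [hM₀card, hk, pow_succ]⟩
    have hNle : Q ⊓ sInf 𝓜 ≤ Q := inf_le_left
    have hNne : Q ⊓ sInf 𝓜 ≠ Q := by
      intro h
      have h3 : Q ≤ M₀'.map Q.subtype :=
        fun q hq => (inf_le_right.trans (sInf_le hM₀)) (h.ge hq)
      have h4 := Subgroup.card_le_of_le h3
      rw [hM₀card, hk] at h4
      have : p ^ k' < p ^ (k' + 1) := Nat.pow_lt_pow_right hp.one_lt (Nat.lt_succ_self k')
      exact absurd h4 (Nat.not_le.mpr this)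
    have hBN' : Subgroup.zpowers g ≤ Subgroup.centralizer ((Q ⊓ sInf 𝓜 : Subgroup G) : Set G) :=
      h1 _ hNle hNne (hNnorm g hgN)
    have hQN : Q ≤ Subgroup.normalizer ((Q ⊓ sInf 𝓜 : Subgroup G) : Set G) :=
      fun q hq => hNnorm q (Subgroup.le_normalizer hq)
    have hpowN : ∀ x ∈ Q, x ^ p ∈ Q ⊓ sInf 𝓜 := by
      intro x hx
      refine Subgroup.mem_inf.mpr ⟨Q.pow_mem hx p, ?_⟩
      rw [Subgroup.mem_sInf]
      intro M hM
      rw [h𝓜] at hM
      exact Cfsg.Agent.Lib_helper7_OddOmega.rel_pow_mem Q M hQ hM.1 hM.2 x hx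
    have hcommN : ∀ a ∈ Q, ∀ b ∈ Q, a * b * a⁻¹ * b⁻¹ ∈ Q ⊓ sInf 𝓜 := by
      intro a ha b hb
      refine Subgroup.mem_inf.mpr
        ⟨Q.mul_mem (Q.mul_mem (Q.mul_mem ha hb) (Q.inv_mem ha)) (Q.inv_mem hb), ?_⟩
      rw [Subgroup.mem_sInf]
      intro M hM
      rw [h𝓜] at hM
      exact Cfsg.Agent.Lib_helper7_OddOmega.rel_comm_mem Q M hQ hM.1 hM.2 a b ha hb
    -- (4) `N ≤ Z(Q)`
    have h4 : ⁅⁅Q, Subgroup.zpowers g⁆, Q ⊓ sInf 𝓜⁆ = ⊥ := by
      apply Subgroup.commutator_commutator_eq_bot_of_rotate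
      · have : ⁅Subgroup.zpowers g, Q ⊓ sInf 𝓜⁆ = ⊥ :=
          Subgroup.commutator_eq_bot_iff_le_centralizer.mpr hBN'
        rw [this]
        exact Subgroup.commutator_bot_left _
      · have hNQ' : ⁅Q ⊓ sInf 𝓜, Q⁆ ≤ Q ⊓ sInf 𝓜 :=
          Cfsg.Agent.Lib_helper1_Coprime.commutator_le_of_normalizes Q _ hQN
        rw [Subgroup.commutator_eq_bot_iff_le_centralizer]
        exact hNQ'.trans (Subgroup.le_centralizer_iff.mp hBN')
    rw [h2] at h4
    have hNcent : ∀ z ∈ Q ⊓ sInf 𝓜, ∀ q ∈ Q, q * z = z * q := by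
      have h5 : Q ≤ Subgroup.centralizer ((Q ⊓ sInf 𝓜 : Subgroup G) : Set G) :=
        Subgroup.commutator_eq_bot_iff_le_centralizer.mp h4
      intro z hz q hq
      exact (Subgroup.mem_centralizer_iff.mp (h5 hq) z hz).symm
    -- (5) the power map is multiplicative on `Q`
    have hpowNe : ∀ x ∈ Q, x ^ e ∈ Q ⊓ sInf 𝓜 := by
      intro x hx
      obtain ⟨m, rfl⟩ := he
      rw [pow_mul]
      exact Subgroup.pow_mem _ (hpowN x hx) m
    have hmul : ∀ a ∈ Q, ∀ b ∈ Q, (a * b) ^ e = a ^ e * b ^ e := by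
      intro a ha b hb
      have hc : b * a = (b * a * b⁻¹ * a⁻¹) * a * b := by group
      have hcN := hcommN b hb a ha
      have hca : Commute a (b * a * b⁻¹ * a⁻¹) := hNcent _ hcN a ha
      have hcb : Commute b (b * a * b⁻¹ * a⁻¹) := hNcent _ hcN b hb
      have e1 := Cfsg.Agent.Lib_helper7_OddOmega.pow_mul_comm' a b _ hc hcb p
      have e2 : b ^ p * a = a * b ^ p := (hNcent _ (hpowN b hb) a ha).symm
      have e3 : (b * a * b⁻¹ * a⁻¹) ^ p = 1 := by
        rw [e2, mul_assoc] at e1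
        exact mul_eq_right.mp e1.symm
      obtain ⟨t, ht⟩ := hTe
      rw [Cfsg.Agent.Lib_helper7_OddOmega.mul_pow' a b _ hc hca hcb e, ht, pow_mul, e3, one_pow, one_mul]
    -- (6) commutators have `p`-th power one
    have hK : ∀ x ∈ Q, ∀ b ∈ Subgroup.zpowers g, (x * b * x⁻¹ * b⁻¹) ^ e = 1 := by
      intro x hx b hb
      have hbN : b ∈ Subgroup.normalizer (Q : Set G) := hBN hb
      have hy : b * x⁻¹ * b⁻¹ ∈ Q := (Subgroup.mem_normalizer_iff.mp hbN x⁻¹).mp (Q.inv_mem hx)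
      have eq1 : x * b * x⁻¹ * b⁻¹ = x * (b * x⁻¹ * b⁻¹) := by group
      have hz : (x⁻¹) ^ e ∈ Q ⊓ sInf 𝓜 := hpowNe _ (Q.inv_mem hx)
      have e3 : b * (x⁻¹) ^ e = (x⁻¹) ^ e * b :=
        (Subgroup.mem_centralizer_iff.mp (hBN' hb) _ hz).symm
      rw [eq1, hmul x hx _ hy, conj_pow, e3, mul_assoc, mul_inv_cancel, mul_one, inv_pow,
        mul_inv_cancel]
    let K : Subgroup G :=
      { carrier := {x | x ∈ Q ∧ x ^ e = 1}
        mul_mem' := fun {a b} ha hb =>
          ⟨Q.mul_mem ha.1 hb.1, by rw [hmul a ha.1 b hb.1, ha.2, hb.2, one_mul]⟩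
        one_mem' := ⟨Q.one_mem, one_pow e⟩
        inv_mem' := fun {a} ha => ⟨Q.inv_mem ha.1, by rw [inv_pow, ha.2, inv_one]⟩ }
    have hQK : ⁅Q, Subgroup.zpowers g⁆ ≤ K := by
      rw [Subgroup.commutator_le]
      intro x hx b hb
      show x * b * x⁻¹ * b⁻¹ ∈ K
      refine ⟨?_, hK x hx b hb⟩
      have hy : b * x⁻¹ * b⁻¹ ∈ Q :=
        (Subgroup.mem_normalizer_iff.mp (hBN hb) x⁻¹).mp (Q.inv_mem hx)
      have eq1 : x * b * x⁻¹ * b⁻¹ = x * (b * x⁻¹ * b⁻¹) := by group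
      rw [eq1]
      exact Q.mul_mem hx hy
    rw [h2] at hQK
    apply hgC
    rw [Subgroup.mem_centralizer_iff]
    intro x hx
    exact (hΩ x hx (hQK hx).2).symm

theorem centralizes_of_omega (p : ℕ) [Fact p.Prime] (e : ℕ) (he : p ∣ e)
    (hTe : p ∣ ∑ i ∈ Finset.range e, i) (g : G)
    (hgo : (orderOf g).Coprime p) (Q : Subgroup G) (hQ : IsPGroup p Q)
    (hgN : g ∈ Subgroup.normalizer (Q : Set G)) (hΩ : ∀ x ∈ Q, x ^ e = 1 → g * x = x * g) :
    g ∈ Subgroup.centralizer (Q : Set G) :=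
  centralizes_aux p e he hTe g hgo (Nat.card Q) Q le_rfl hQ hgN hΩ

/-- the exponent to use: `p` for odd `p`, `4` for `p = 2` -/
theorem exists_exponent (p : ℕ) [Fact p.Prime] :
    ∃ e : ℕ, p ∣ e ∧ p ∣ ∑ i ∈ Finset.range e, i ∧ (e = p ∨ (p = 2 ∧ e = 4)) := by
  have hp : p.Prime := Fact.out
  by_cases hp2 : p = 2
  · subst hp2
    exact ⟨4, by norm_num, by decide, Or.inr ⟨rfl, rfl⟩⟩
  · obtain ⟨j, hj⟩ : ∃ j, p - 1 = 2 * j := by
      have hodd : Odd p := hp.odd_of_ne_two hp2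
      obtain ⟨j, hj⟩ := hodd
      exact ⟨j, by omega⟩
    have hsum : ∑ i ∈ Finset.range p, i = p * j := by
      have e1 := Finset.sum_range_id_mul_two p
      rw [hj] at e1
      have e2 : (∑ i ∈ Finset.range p, i) * 2 = (p * j) * 2 := by rw [e1]; ring
      exact Nat.eq_of_mul_eq_mul_right (by norm_num) e2
    exact ⟨p, dvd_rfl, ⟨j, hsum⟩, Or.inl rfl⟩

/-- An element of order prime to `p` normalizing the `p`-subgroup `Q` and commuting with every
`x ∈ Q` with `x ^ p = 1` (for `p = 2`: with `x ^ 4 = 1`) centralizes `Q`. -/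
theorem centralizes_of_small (p : ℕ) [Fact p.Prime] (g : G)
    (hgo : (orderOf g).Coprime p) (Q : Subgroup G) (hQ : IsPGroup p Q)
    (hgN : g ∈ Subgroup.normalizer (Q : Set G))
    (hΩ : ∀ x ∈ Q, (x ^ p = 1 ∨ (p = 2 ∧ x ^ 4 = 1)) → g * x = x * g) :
    g ∈ Subgroup.centralizer (Q : Set G) := by
  obtain ⟨e, he, hTe, hcase⟩ := exists_exponent p
  apply centralizes_of_omega p e he hTe g hgo Q hQ hgN
  intro x hx hxe
  rcases hcase with rfl | ⟨h2, rfl⟩
  · exact hΩ x hx (Or.inl hxe)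
  · exact hΩ x hx (Or.inr ⟨h2, hxe⟩)

end Cfsg.Agent.Lib_helper7_OmegaGen
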