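import Mathlib
import Cfsg.Prelude.Def_LocalEven
import Cfsg.Prelude.Def_LocalStructure
import Cfsg.Agent.Lib_helper7_PIrr
import Cfsg.Agent.Lib_helper7_PPrimeP
import Cfsg.Agent.Lib_helper7_PCore
import Cfsg.Agent.Lib_helper7_Sylow
import Cfsg.Agent.Lib_helper1_Subnormal
import Cfsg.Agent.Lib_helper1_Frobenius

set_option autoImplicit false

namespace Cfsg.Agent.Lib_helper7_PMinTwo

open Cfsg

universe u

theorem card_sup_dvd_of_normal {G : Type*} [Group G] [Finite G] (H K : Subgroup G) [K.Normal] :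
    Nat.card ↥(H ⊔ K) ∣ Nat.card H * Nat.card K := by
  have h := Subgroup.card_mul_index (K.subgroupOf (H ⊔ K))
  rw [Nat.card_congr (Subgroup.subgroupOfEquivOfLe (le_sup_right : K ≤ H ⊔ K)).toEquiv] at h
  have h2 : (K.subgroupOf (H ⊔ K)).index = K.relIndex H := Subgroup.relIndex_sup_right H K
  rw [h2] at h
  rw [← h, mul_comm (Nat.card H)]
  exact Nat.mul_dvd_mul_left _ (Subgroup.relIndex_dvd_card K H)

theorem card_sup_dvd {G : Type*} [Group G] [Finite G] (H K : Subgroup G)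
    (hHK : H ≤ Subgroup.normalizer (K : Set G)) :
    Nat.card ↥(H ⊔ K) ∣ Nat.card H * Nat.card K := by
  have hKN : K ≤ Subgroup.normalizer (K : Set G) := Subgroup.le_normalizer
  haveI : (K.subgroupOf (Subgroup.normalizer (K : Set G))).Normal :=
    (Subgroup.normal_subgroupOf_iff_le_normalizer hKN).mpr le_rfl
  have h := card_sup_dvd_of_normal (H.subgroupOf (Subgroup.normalizer (K : Set G)))
    (K.subgroupOf (Subgroup.normalizer (K : Set G)))
  rw [← Subgroup.subgroupOf_sup hHK hKN] at h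
  rw [Nat.card_congr (Subgroup.subgroupOfEquivOfLe (sup_le hHK hKN)).toEquiv,
    Nat.card_congr (Subgroup.subgroupOfEquivOfLe hHK).toEquiv,
    Nat.card_congr (Subgroup.subgroupOfEquivOfLe hKN).toEquiv] at h
  exact h

theorem arith_aux (cI r a cA cR j n : ℕ) (e1 : cA * a = n) (e2 : cR * r = n) (e3 : cI * r = cA)
    (e4 : cI * j = cR) (h1 : 0 < cI) (h2 : 0 < r) : a = j := by
  have h6 : (cI * r) * a = (cI * r) * j := by
    calc (cI * r) * a = cA * a := by rw [e3]
      _ = n := e1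
      _ = cR * r := e2.symm
      _ = (cI * j) * r := by rw [e4]
      _ = (cI * r) * j := by ring
  exact Nat.eq_of_mul_eq_mul_left (Nat.mul_pos h1 h2) h6

/-- the join of all subnormal subgroups inside `M` is normal -/
theorem sSup_subnormal_normal {P : Type u} [Group P] [Finite P] {p : ℕ} [Fact p.Prime]
    (S : Sylow p P) (M : Subgroup P) (hSM : (S : Subgroup P) ≤ M)
    (key : ∀ X : Subgroup P, (S : Subgroup P) ≤ X → X ≠ ⊤ → X ≤ M) :
    (sSup {N' : Subgroup P | N'.IsSubnormal ∧ N' ≤ M}).Normal := by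
  obtain ⟨N₀, hN₀⟩ : ∃ N₀ : Subgroup P, N₀ = sSup {N' : Subgroup P | N'.IsSubnormal ∧ N' ≤ M} :=
    ⟨_, rfl⟩
  rw [← hN₀]
  have hsub : N₀.IsSubnormal := by
    rw [hN₀]; exact Cfsg.Agent.Lib_helper1_Subnormal.sSup_isSubnormal _ (fun K hK => hK.1)
  have hN0M : N₀ ≤ M := by rw [hN₀]; exact sSup_le (fun K hK => hK.2)
  have hmem : ∀ K : Subgroup P, K.IsSubnormal → K ≤ M → K ≤ N₀ := by
    intro K h1 h2; rw [hN₀]; exact le_sSup ⟨h1, h2⟩
  have hinv : ∀ s ∈ M, ∀ n ∈ N₀, s * n * s⁻¹ ∈ N₀ := by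
    intro s hs n hn
    have h1 : (N₀.map (MulAut.conj s).toMonoidHom).IsSubnormal :=
      hsub.map (MulAut.conj s).surjective
    have h2 : N₀.map (MulAut.conj s).toMonoidHom ≤ M := by
      rintro _ ⟨m, hm, rfl⟩
      show s * m * s⁻¹ ∈ M
      exact M.mul_mem (M.mul_mem hs (hN0M hm)) (M.inv_mem hs)
    exact hmem _ h1 h2 ⟨n, hn, rfl⟩
  have hN0X : N₀ ≤ Subgroup.normalClosure (N₀ : Set P) := Subgroup.le_normalClosure
  have hXn : (Subgroup.normalClosure (N₀ : Set P)).Normal := Subgroup.normalClosure_normal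
  suffices h : N₀ = Subgroup.normalClosure (N₀ : Set P) by rw [h]; exact hXn
  by_contra hne
  have hXM : ¬ Subgroup.normalClosure (N₀ : Set P) ≤ M := fun hle =>
    hne (le_antisymm hN0X (hmem _ hXn.isSubnormal hle))
  have hXS : Subgroup.normalClosure (N₀ : Set P) ⊔ (S : Subgroup P) = ⊤ := by
    by_contra h
    exact hXM (le_sup_left.trans (key _ le_sup_right h))
  rcases (hsub.subgroupOf (K := Subgroup.normalClosure (N₀ : Set P))).lt_normal with
    h | ⟨K, hKn, hle, hKlt⟩
  · exact hne (le_antisymm hN0X (Subgroup.subgroupOf_eq_top.mp h))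
  · obtain ⟨Y, hY⟩ : ∃ Y : Subgroup P, Y = Subgroup.closure
        {g : P | ∃ x ∈ Subgroup.normalClosure (N₀ : Set P), ∃ n ∈ N₀, g = x * n * x⁻¹} :=
      ⟨_, rfl⟩
    have hgen : ∀ x ∈ Subgroup.normalClosure (N₀ : Set P), ∀ n ∈ N₀, x * n * x⁻¹ ∈ Y := by
      intro x hx n hn; rw [hY]; exact Subgroup.subset_closure ⟨x, hx, n, hn, rfl⟩
    have hfact1 : ∀ g : P, (g ∈ Subgroup.normalClosure (N₀ : Set P) ∨ g ∈ (S : Subgroup P)) →
        ∀ y ∈ Y, g * y * g⁻¹ ∈ Y := by
      intro g hg y hy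
      rw [hY] at hy
      induction hy using Subgroup.closure_induction with
      | mem t ht =>
        obtain ⟨x, hx, n, hn, rfl⟩ := ht
        rcases hg with hg | hg
        · have e : g * (x * n * x⁻¹) * g⁻¹ = (g * x) * n * (g * x)⁻¹ := by group
          rw [e]; exact hgen _ (Subgroup.mul_mem _ hg hx) n hn
        · have e : g * (x * n * x⁻¹) * g⁻¹ =
              (g * x * g⁻¹) * (g * n * g⁻¹) * (g * x * g⁻¹)⁻¹ := by group
          rw [e]; exact hgen _ (hXn.conj_mem x hx g) _ (hinv g (hSM hg) n hn)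
      | one =>
        have e : g * 1 * g⁻¹ = 1 := by group
        rw [e]; exact Y.one_mem
      | mul a b _ _ iha ihb =>
        have e : g * (a * b) * g⁻¹ = (g * a * g⁻¹) * (g * b * g⁻¹) := by group
        rw [e]; exact Y.mul_mem iha ihb
      | inv a _ iha =>
        have e : g * a⁻¹ * g⁻¹ = (g * a * g⁻¹)⁻¹ := by group
        rw [e]; exact Y.inv_mem iha
    have hfact2 : ∀ g : P, (g ∈ Subgroup.normalClosure (N₀ : Set P) ∨ g ∈ (S : Subgroup P)) →
        g ∈ Subgroup.normalizer (Y : Set P) := by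
      intro g hg
      rw [Subgroup.mem_normalizer_iff]
      intro h
      refine ⟨fun hh => hfact1 g hg h hh, fun hh => ?_⟩
      have hg' : g⁻¹ ∈ Subgroup.normalClosure (N₀ : Set P) ∨ g⁻¹ ∈ (S : Subgroup P) := by
        rcases hg with hg | hg
        · exact Or.inl (Subgroup.inv_mem _ hg)
        · exact Or.inr (Subgroup.inv_mem _ hg)
      have h1 := hfact1 g⁻¹ hg' _ hh
      have e : g⁻¹ * (g * h * g⁻¹) * g⁻¹⁻¹ = h := by group
      rw [e] at h1; exact h1
    have hYn : Y.Normal := by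
      rw [← Subgroup.normalizer_eq_top_iff, eq_top_iff, ← hXS]
      exact sup_le (fun g hg => hfact2 g (Or.inl hg)) (fun g hg => hfact2 g (Or.inr hg))
    have hXY : Subgroup.normalClosure (N₀ : Set P) ≤ Y := by
      haveI := hYn
      apply Subgroup.normalClosure_le_normal
      intro n hn
      have h1 := hgen 1 (Subgroup.one_mem _) n hn
      rw [one_mul, inv_one, mul_one] at h1
      exact h1
    have hYK : Y ≤ K.map (Subgroup.normalClosure (N₀ : Set P)).subtype := by
      rw [hY, Subgroup.closure_le]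
      rintro _ ⟨x, hx, n, hn, rfl⟩
      exact ⟨⟨x, hx⟩ * ⟨n, hN0X hn⟩ * ⟨x, hx⟩⁻¹,
        hKn.conj_mem _ (hle (Subgroup.mem_subgroupOf.mpr hn)) _, rfl⟩
    apply ne_of_lt hKlt
    rw [eq_top_iff]
    intro k _
    obtain ⟨k', hk', hkk⟩ := hYK (hXY k.2)
    have hk : k' = k := Subtype.ext hkk
    rw [← hk]; exact hk'

theorem good_subgroup {P : Type u} [Group P] [Finite P] {p : ℕ} [Fact p.Prime]
    (S : Sylow p P) (hT0n : ((S : Subgroup P) ⊓ Cfsg.pResidual p P).Normal) (q : ℕ)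
    (hq : q.Prime) (hqp : q ≠ p) :
    ∃ H : Subgroup P, (S : Subgroup P) ≤ H ∧ ¬ q ∣ H.index ∧
      ∀ ℓ : ℕ, ℓ.Prime → ℓ ∣ Nat.card H → ℓ = p ∨ ℓ = q := by
  have hp : p.Prime := Fact.out
  haveI : Fact q.Prime := ⟨hq⟩
  haveI hRn : (Cfsg.pResidual p P).Normal := Cfsg.Agent.Lib_helper7_Sylow.pResidual_normal p
  haveI := hT0n
  obtain ⟨Q₁⟩ : Nonempty (Sylow q P) := inferInstance
  have hQR : (Q₁ : Subgroup P) ≤ Cfsg.pResidual p P := by
    intro x hx
    apply Subgroup.subset_closure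
    show Nat.Coprime (orderOf x) p
    obtain ⟨k, hk⟩ := Q₁.2 ⟨x, hx⟩
    have hk' : x ^ (q ^ k) = 1 := congrArg Subtype.val hk
    exact Nat.Coprime.coprime_dvd_left (orderOf_dvd_of_pow_eq_one hk')
      (Nat.Coprime.pow_left k ((Nat.coprime_primes hq hp).mpr hqp))
  obtain ⟨D, hD⟩ : ∃ D : Subgroup P,
      D = (S : Subgroup P) ⊓ Cfsg.pResidual p P ⊔ (Q₁ : Subgroup P) := ⟨_, rfl⟩
  have hBA : Subgroup.normalizer ((Q₁ : Subgroup P) : Set P) ≤
      Subgroup.normalizer (D : Set P) := by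
    intro g hg
    rw [hD]
    apply Cfsg.Agent.Lib_helper1_Subnormal.normalizer_inf_le_normalizer_sup
    refine ⟨?_, hg⟩
    rw [Subgroup.normalizer_eq_top_iff.mpr hT0n]; exact Subgroup.mem_top g
  have hAR : Subgroup.normalizer (D : Set P) ⊔ Cfsg.pResidual p P = ⊤ := by
    rw [eq_top_iff, ← Sylow.normalizer_sup_eq_top' Q₁ hQR]
    exact sup_le_sup_right hBA _
  have hT0A : (S : Subgroup P) ⊓ Cfsg.pResidual p P ≤ Subgroup.normalizer (D : Set P) := by
    rw [hD]; exact le_sup_left.trans Subgroup.le_normalizer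
  have hAidx : ¬ p ∣ (Subgroup.normalizer (D : Set P)).index := by
    have e1 := Subgroup.card_mul_index (Subgroup.normalizer (D : Set P))
    have e2 := Subgroup.card_mul_index (Cfsg.pResidual p P)
    have e3 : Nat.card ↥(Cfsg.pResidual p P ⊓ Subgroup.normalizer (D : Set P) : Subgroup P) *
        (Cfsg.pResidual p P).index = Nat.card (Subgroup.normalizer (D : Set P)) := by
      have h := Subgroup.card_mul_index ((Cfsg.pResidual p P ⊓
        Subgroup.normalizer (D : Set P)).subgroupOf (Subgroup.normalizer (D : Set P)))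
      rw [Nat.card_congr (Subgroup.subgroupOfEquivOfLe (inf_le_right :
        Cfsg.pResidual p P ⊓ Subgroup.normalizer (D : Set P) ≤ _)).toEquiv] at h
      have h2 : ((Cfsg.pResidual p P ⊓ Subgroup.normalizer (D : Set P)).subgroupOf
          (Subgroup.normalizer (D : Set P))).index = (Cfsg.pResidual p P).index := by
        have h3 : (Cfsg.pResidual p P ⊓ Subgroup.normalizer (D : Set P)).relIndex
            (Subgroup.normalizer (D : Set P)) =
            (Cfsg.pResidual p P).relIndex (Subgroup.normalizer (D : Set P)) :=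
          Subgroup.inf_relIndex_right _ _
        have h4 : (Cfsg.pResidual p P).relIndex
            (Subgroup.normalizer (D : Set P) ⊔ Cfsg.pResidual p P) =
            (Cfsg.pResidual p P).relIndex (Subgroup.normalizer (D : Set P)) :=
          Subgroup.relIndex_sup_right _ _
        rw [hAR, Subgroup.relIndex_top_right] at h4
        exact h3.trans h4.symm
      rw [h2] at h; exact h
    have e4 : Nat.card ↥(Cfsg.pResidual p P ⊓ Subgroup.normalizer (D : Set P) : Subgroup P) *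
        (Cfsg.pResidual p P ⊓ Subgroup.normalizer (D : Set P)).relIndex (Cfsg.pResidual p P) =
        Nat.card (Cfsg.pResidual p P) := by
      have h := Subgroup.card_mul_index ((Cfsg.pResidual p P ⊓
        Subgroup.normalizer (D : Set P)).subgroupOf (Cfsg.pResidual p P))
      rw [Nat.card_congr (Subgroup.subgroupOfEquivOfLe (inf_le_left :
        Cfsg.pResidual p P ⊓ Subgroup.normalizer (D : Set P) ≤ _)).toEquiv] at h
      exact h
    have e5 := arith_aux _ _ _ _ _ _ _ e1 e2 e3 e4 Nat.card_pos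
      (Nat.pos_of_ne_zero Subgroup.index_ne_zero_of_finite)
    rw [e5]
    intro hdvd
    exact Cfsg.Agent.Lib_helper7_PPrimeP.sylow_inf_normal S (Cfsg.pResidual p P)
      (dvd_trans hdvd (Subgroup.relIndex_dvd_of_le_left _ (le_inf inf_le_right hT0A)))
  obtain ⟨S_A⟩ : Nonempty (Sylow p ↥(Subgroup.normalizer (D : Set P))) := inferInstance
  have hS2p : IsPGroup p ↥((S_A : Subgroup ↥(Subgroup.normalizer (D : Set P))).map
      (Subgroup.normalizer (D : Set P)).subtype) := S_A.2.map _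
  have hS2idx : ¬ p ∣ ((S_A : Subgroup ↥(Subgroup.normalizer (D : Set P))).map
      (Subgroup.normalizer (D : Set P)).subtype).index := by
    rw [Subgroup.index_map_subtype]
    intro h
    rcases (Nat.Prime.dvd_mul hp).mp h with h | h
    · exact S_A.not_dvd_index h
    · exact hAidx h
  obtain ⟨g, hg⟩ := MulAction.exists_smul_eq P (hS2p.toSylow hS2idx) S
  have hS2A : ((S_A : Subgroup ↥(Subgroup.normalizer (D : Set P))).map
      (Subgroup.normalizer (D : Set P)).subtype) ≤ Subgroup.normalizer (D : Set P) :=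
    Subgroup.map_subtype_le _
  have hQD : (Q₁ : Subgroup P) ≤ D := by rw [hD]; exact le_sup_right
  refine ⟨(((S_A : Subgroup ↥(Subgroup.normalizer (D : Set P))).map
      (Subgroup.normalizer (D : Set P)).subtype) ⊔ D).map (MulAut.conj g).toMonoidHom,
    ?_, ?_, ?_⟩
  · intro s hs
    rw [← hg] at hs
    have h1 := (Cfsg.Agent.Lib_helper1_Frobenius.mem_smul_sylow g s
      (hS2p.toSylow hS2idx)).mp hs
    rw [IsPGroup.toSylow_coe] at h1
    refine ⟨g⁻¹ * s * g, (le_sup_left : _ ≤ _ ⊔ D) h1, ?_⟩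
    show g * (g⁻¹ * s * g) * g⁻¹ = s
    group
  · rw [Subgroup.index_map_of_bijective (MulAut.conj g).bijective]
    intro hdvd
    exact Q₁.not_dvd_index (dvd_trans hdvd
      (Subgroup.index_dvd_of_le (hQD.trans le_sup_right)))
  · intro ℓ hℓ hdvd
    rw [Subgroup.card_map_of_injective (MulAut.conj g).injective] at hdvd
    have h1 := card_sup_dvd _ D hS2A
    have h2 : Nat.card D ∣ Nat.card (Q₁ : Subgroup P) *
        Nat.card ↥((S : Subgroup P) ⊓ Cfsg.pResidual p P) := by
      rw [hD, sup_comm]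
      exact card_sup_dvd_of_normal _ _
    obtain ⟨a, ha⟩ := hS2p.exists_card_eq
    obtain ⟨b, hb⟩ := (S.isPGroup'.to_le (inf_le_left :
      (S : Subgroup P) ⊓ Cfsg.pResidual p P ≤ _)).exists_card_eq
    obtain ⟨c, hc⟩ := Q₁.2.exists_card_eq
    rw [hc, hb] at h2
    rw [ha] at h1
    have h3 : ℓ ∣ p ^ a * (q ^ c * p ^ b) := dvd_trans hdvd (dvd_trans h1 (Nat.mul_dvd_mul_left _ h2))
    rcases (Nat.Prime.dvd_mul hℓ).mp h3 with h | h
    · exact Or.inl ((Nat.prime_dvd_prime_iff_eq hℓ hp).mp (hℓ.dvd_of_dvd_pow h))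
    · rcases (Nat.Prime.dvd_mul hℓ).mp h with h | h
      · exact Or.inr ((Nat.prime_dvd_prime_iff_eq hℓ hq).mp (hℓ.dvd_of_dvd_pow h))
      · exact Or.inl ((Nat.prime_dvd_prime_iff_eq hℓ hp).mp (hℓ.dvd_of_dvd_pow h))

theorem two_primes {P : Type u} [Group P] [Finite P] {p : ℕ} [Fact p.Prime]
    (S : Sylow p P) (M : Subgroup P) (hM : IsCoatom M) (hSM : (S : Subgroup P) ≤ M)
    (key : ∀ X : Subgroup P, (S : Subgroup P) ≤ X → X ≠ ⊤ → X ≤ M)
    (hcl : Cfsg.IsPClosed p ↥(Cfsg.pResidual p P)) : (Nat.card P).primeFactors.card ≤ 2 := by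
  have hp : p.Prime := Fact.out
  haveI hRn : (Cfsg.pResidual p P).Normal := Cfsg.Agent.Lib_helper7_Sylow.pResidual_normal p
  have hT0n : ((S : Subgroup P) ⊓ Cfsg.pResidual p P).Normal :=
    Cfsg.Agent.Lib_helper7_PIrr.inf_normal_of_isPClosed S _ hcl
  by_contra hcon
  have hne : ∀ q : ℕ, q.Prime → q ≠ p → ¬ q ∣ M.index := by
    intro q hq hqp hdvd
    obtain ⟨H, hSH, hHidx, hHpr⟩ := good_subgroup S hT0n q hq hqp
    by_cases hH : H = ⊤
    · apply hcon
      have hsub : (Nat.card P).primeFactors ⊆ {p, q} := by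
        intro ℓ hℓ
        rw [Nat.mem_primeFactors] at hℓ
        have h1 : ℓ ∣ Nat.card H := by
          rw [hH, Subgroup.card_top]; exact hℓ.2.1
        rcases hHpr ℓ hℓ.1 h1 with h | h <;> simp [h]
      exact (Finset.card_le_card hsub).trans Finset.card_le_two
    · exact hHidx (dvd_trans hdvd (Subgroup.index_dvd_of_le (key H hSH hH)))
  have hidx : M.index = 1 := by
    by_contra h1
    obtain ⟨q, hq, hqd⟩ := Nat.exists_prime_and_dvd h1
    by_cases hqp : q = p
    · rw [hqp] at hqd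
      exact S.not_dvd_index (dvd_trans hqd (Subgroup.index_dvd_of_le hSM))
    · exact hne q hq hqp hqd
  exact hM.1 (Subgroup.index_eq_one.mp hidx)

/-- **S2905** -/
theorem s2905 {P : Type u} [Group P] [Finite P] {p : ℕ} [Fact p.Prime]
    (hP : Cfsg.IsPMinimal p P) (S : Sylow p P) (M : Subgroup P) (hM : IsCoatom M)
    (hSM : (S : Subgroup P) ≤ M) [hF : M.normalCore.Normal] :
    (∀ N : Subgroup P, N.IsSubnormal → N ≤ M → N ⊓ (S : Subgroup P) ≤ Cfsg.pCore p P) ∧
    ((∀ T : Sylow p ↥(Cfsg.pResidual p P), (T : Subgroup ↥(Cfsg.pResidual p P)).Normal) →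
      (Nat.card P).primeFactors.card ≤ 2) ∧
    (∀ N : Subgroup P, N.Normal → Cfsg.pResidual p P ≤ N ∨ N ≤ M.normalCore) ∧
    (∀ N : Subgroup P, N.Normal → M.normalCore ≤ N → N ≤ Cfsg.pResidual p P ⊔ M.normalCore →
      N = M.normalCore ∨ N = Cfsg.pResidual p P ⊔ M.normalCore) ∧
    M.normalCore < Cfsg.pResidual p P ⊔ M.normalCore := by
  have hp : p.Prime := Fact.out
  obtain ⟨hSn, M', hM', huniq'⟩ := hP S
  have huniq : ∀ M'' : Subgroup P, IsCoatom M'' ∧ (S : Subgroup P) ≤ M'' → M'' = M := by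
    intro M'' h
    rw [huniq' M'' h, huniq' M ⟨hM, hSM⟩]
  have key := Cfsg.Agent.Lib_helper7_PIrr.le_of_minimalOver hM hSM huniq
  have hRS : (S : Subgroup P) ⊔ Cfsg.pResidual p P = ⊤ :=
    Cfsg.Agent.Lib_helper7_Sylow.pResidual_sup_sylow p S
  have hRM : ¬ Cfsg.pResidual p P ≤ M := by
    intro h
    exact hM.1 (top_le_iff.mp (hRS ▸ sup_le hSM h))
  have hN3 : ∀ N : Subgroup P, N.Normal → N ≤ M →
      (S : Subgroup P) ⊓ N ≤ Cfsg.pCore p P := by
    intro N hN hNM
    haveI := hN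
    have hnorm : Subgroup.normalizer (((S : Subgroup P) ⊓ N : Subgroup P) : Set P) = ⊤ := by
      by_contra hne
      have h1 := key _ (Cfsg.Agent.Lib_helper7_PIrr.sylow_le_normalizer_inf (p := p)
        (S : Subgroup P) N) hne
      have h2 : (⊤ : Subgroup P) ≤ M := by
        intro g _
        obtain ⟨a, ha, c, hc, rfl⟩ := Cfsg.Agent.Lib_helper7_PReduced2.frattini_inf S N g
        exact M.mul_mem (h1 ha) (hNM hc)
      exact hM.1 (top_le_iff.mp h2)
    exact Cfsg.Agent.Lib_helper7_PCore.le_pCore (Subgroup.normalizer_eq_top_iff.mp hnorm)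
      (S.isPGroup'.to_le inf_le_left)
  have hdich : ∀ N : Subgroup P, N.Normal → Cfsg.pResidual p P ≤ N ∨ N ≤ M.normalCore := by
    intro N hN
    haveI := hN
    by_cases hNS : N ⊔ (S : Subgroup P) = ⊤
    · left
      exact Cfsg.Agent.Lib_helper7_PIrr.pResidual_le_of_isPGroup N
        (Cfsg.Agent.Lib_helper7_PIrr.isPGroup_quotient_of_sup_eq_top N S S.isPGroup' hNS)
    · right
      exact Subgroup.normal_le_normalCore.mpr (le_sup_left.trans (key _ le_sup_right hNS))
  refine ⟨?_, ?_, hdich, ?_, ?_⟩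
  · intro N hNs hNM
    have hn := sSup_subnormal_normal S M hSM key
    have h1 : N ≤ sSup {N' : Subgroup P | N'.IsSubnormal ∧ N' ≤ M} := le_sSup ⟨hNs, hNM⟩
    have h2 : sSup {N' : Subgroup P | N'.IsSubnormal ∧ N' ≤ M} ≤ M :=
      sSup_le (fun K hK => hK.2)
    calc N ⊓ (S : Subgroup P)
        ≤ (S : Subgroup P) ⊓ sSup {N' : Subgroup P | N'.IsSubnormal ∧ N' ≤ M} := by
          rw [inf_comm]; exact inf_le_inf_left _ h1
      _ ≤ Cfsg.pCore p P := hN3 _ hn h2
  · intro hcl
    exact two_primes S M hM hSM key hcl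
  · intro N hN hFN hNle
    rcases hdich N hN with h | h
    · right; exact le_antisymm hNle (sup_le h hFN)
    · left; exact le_antisymm h hFN
  · apply lt_of_le_of_ne le_sup_right
    intro h
    apply hRM
    have h1 : Cfsg.pResidual p P ≤ M.normalCore := le_sup_left.trans h.symm.le
    exact h1.trans (Subgroup.normalCore_le M)

end Cfsg.Agent.Lib_helper7_PMinTwo
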