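import Mathlib
import Cfsg.Prelude.Def_Local
import Cfsg.Agent.Lib_helper5_PSolv
import Cfsg.Agent.Lib_helper1_Coprime
import Cfsg.Agent.Lib_helper7_Sylow
import Cfsg.Agent.Lib_helper7_Alperin

set_option autoImplicit false

universe u

namespace Cfsg.Agent.Lib_helper7_PSolvAut

open Cfsg.Agent.Lib_helper7_Sylow

theorem eq_one_of_coprime_orders {G : Type u} [Group G] [Finite G] (A B : Subgroup G)
    (h : (Nat.card A).Coprime (Nat.card B)) (x : G) (hA : x ∈ A) (hB : x ∈ B) : x = 1 := by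
  have h1 : orderOf x ∣ Nat.card A := Subgroup.orderOf_dvd_natCard A hA
  have h2 : orderOf x ∣ Nat.card B := Subgroup.orderOf_dvd_natCard B hB
  exact orderOf_eq_one_iff.mp (Nat.eq_one_of_dvd_coprimes h h1 h2)

/-- In a `p`-solvable group, a `p`-subgroup normalizing a `p'`-subgroup `Q` which normalizes a
Sylow `p`-subgroup centralizes `Q`. -/
theorem core {p : ℕ} [Fact p.Prime] (n : ℕ) : ∀ (G : Type u) [Group G] [Finite G],
    Nat.card G = n → Cfsg.IsPSolvable p G →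
    ∀ (P : Sylow p G) (Q : Subgroup G), (Nat.card Q).Coprime p →
      Q ≤ Subgroup.normalizer ((P : Subgroup G) : Set G) →
      ∀ Y : Subgroup G, IsPGroup p Y → Y ≤ Subgroup.normalizer (Q : Set G) →
        ∀ y ∈ Y, ∀ q ∈ Q, y * q = q * y := by
  induction n using Nat.strong_induction_on with
  | _ n IH =>
  intro G _ _ hcard hG P Q hQ hQP Y hY hYQ
  have hp : p.Prime := Fact.out
  rcases subsingleton_or_nontrivial G with hsub | hnt
  · intro y _ q _
    exact Subsingleton.elim _ _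
  obtain ⟨M, hMn, hM1, hMcase⟩ := Cfsg.Agent.Lib_helper5_PSolv.exists_normal_of_isPSolvable hG
  haveI := hMn
  have hlt : Nat.card (G ⧸ M) < n := by
    have h1 := Subgroup.card_eq_card_quotient_mul_card_subgroup M
    have h2 : 1 < Nat.card M := by
      rcases Nat.lt_or_ge 1 (Nat.card M) with h | h
      · exact h
      · exfalso
        have h3 : Nat.card M = 1 := le_antisymm h Nat.card_pos
        exact hM1 (Subgroup.card_eq_one.mp h3)
    have h4 : 0 < Nat.card (G ⧸ M) := Nat.card_pos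
    rw [← hcard, h1]
    nlinarith
  have hsurj : Function.Surjective (QuotientGroup.mk' M) := QuotientGroup.mk'_surjective M
  have hGbar := Cfsg.Agent.Lib_helper5_PSolv.isPSolvable_of_surjective (QuotientGroup.mk' M) hsurj hG
  have hQbar : (Nat.card ↥(Q.map (QuotientGroup.mk' M))).Coprime p :=
    Nat.Coprime.coprime_dvd_left (Subgroup.card_map_dvd Q _) hQ
  have hQPbar : Q.map (QuotientGroup.mk' M) ≤ Subgroup.normalizer
      (((Sylow.mapSurjective hsurj P : Sylow p (G ⧸ M)) : Subgroup (G ⧸ M)) : Set (G ⧸ M)) := by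
    rintro _ ⟨q, hq, rfl⟩
    apply mem_normalizer_of_conj_le
    rw [Sylow.coe_mapSurjective]
    rintro _ ⟨_, ⟨x, hx, rfl⟩, rfl⟩
    exact ⟨q * x * q⁻¹, (Subgroup.mem_normalizer_iff.mp (hQP hq) x).mp hx, by simp⟩
  have hYQbar : Y.map (QuotientGroup.mk' M) ≤
      Subgroup.normalizer ((Q.map (QuotientGroup.mk' M) : Subgroup (G ⧸ M)) : Set (G ⧸ M)) := by
    rintro _ ⟨y, hy, rfl⟩
    apply mem_normalizer_of_conj_le
    rintro _ ⟨_, ⟨x, hx, rfl⟩, rfl⟩
    exact ⟨y * x * y⁻¹, (Subgroup.mem_normalizer_iff.mp (hYQ hy) x).mp hx, by simp⟩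
  have hIH := IH _ hlt (G ⧸ M) rfl hGbar (Sylow.mapSurjective hsurj P) _ hQbar hQPbar
    _ (hY.map _) hYQbar
  -- commutators lie in `Q ⊓ M`
  have hc : ∀ y ∈ Y, ∀ q ∈ Q, y * q * y⁻¹ * q⁻¹ ∈ Q ⊓ M := by
    intro y hy q hq
    refine ⟨Q.mul_mem ((Subgroup.mem_normalizer_iff.mp (hYQ hy) q).mp hq) (Q.inv_mem hq), ?_⟩
    have h1 := hIH _ ⟨y, hy, rfl⟩ _ ⟨q, hq, rfl⟩
    have h2 : (QuotientGroup.mk' M) (y * q * y⁻¹ * q⁻¹) = 1 := by
      rw [map_mul, map_mul, map_mul, map_inv, map_inv, h1]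
      group
    exact (QuotientGroup.eq_one_iff _).mp h2
  have hfin : (∀ y ∈ Y, ∀ q ∈ Q, y * q * y⁻¹ * q⁻¹ = 1) → ∀ y ∈ Y, ∀ q ∈ Q, y * q = q * y := by
    intro h y hy q hq
    calc y * q = (y * q * y⁻¹ * q⁻¹) * (q * y) := by group
      _ = q * y := by rw [h y hy q hq, one_mul]
  rcases hMcase with ⟨b, hb⟩ | hMc
  · apply hfin
    intro y hy q hq
    have h1 := hc y hy q hq
    refine eq_one_of_coprime_orders Q M ?_ _ h1.1 h1.2
    rw [hb]
    exact Nat.Coprime.pow_right b hQ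
  · -- `M` is a `p'`-group
    obtain ⟨Q₁, hQ₁def⟩ : ∃ Q₁ : Subgroup G, Q₁ = Q ⊓ M := ⟨_, rfl⟩
    have hQ₁Q : Q₁ ≤ Q := by rw [hQ₁def]; exact inf_le_left
    have hQ₁M : Q₁ ≤ M := by rw [hQ₁def]; exact inf_le_right
    have hPM : (Nat.card (P : Subgroup G)).Coprime (Nat.card M) := by
      obtain ⟨k, hk⟩ := IsPGroup.iff_card.mp P.isPGroup'
      rw [hk]
      exact Nat.Coprime.pow_left k hMc.symm
    have hPC : ∀ x ∈ (P : Subgroup G), ∀ u ∈ Q₁, x * u = u * x := by
      intro x hx u hu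
      have h1 : u * x * u⁻¹ * x⁻¹ = 1 := by
        refine eq_one_of_coprime_orders (P : Subgroup G) M hPM _ ?_ ?_
        · exact Subgroup.mul_mem _ ((Subgroup.mem_normalizer_iff.mp (hQP (hQ₁Q hu)) x).mp hx)
            (Subgroup.inv_mem _ hx)
        · have e : u * x * u⁻¹ * x⁻¹ = u * (x * u⁻¹ * x⁻¹) := by group
          rw [e]
          exact M.mul_mem (hQ₁M hu) (hMn.conj_mem _ (M.inv_mem (hQ₁M hu)) x)
      calc x * u = (u * x * u⁻¹ * x⁻¹)⁻¹ * (u * x) := by group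
        _ = u * x := by rw [h1]; group
    have hYN₁ : Y ≤ Subgroup.normalizer (Q₁ : Set G) := by
      intro y hy
      apply mem_normalizer_of_conj_le
      rw [hQ₁def]
      rintro _ ⟨u, hu, rfl⟩
      exact ⟨(Subgroup.mem_normalizer_iff.mp (hYQ hy) u).mp hu.1, hMn.conj_mem u hu.2 y⟩
    have hPN₁ : (P : Subgroup G) ≤ Subgroup.normalizer (Q₁ : Set G) := by
      intro x hx
      apply mem_normalizer_of_conj_le
      rintro _ ⟨u, hu, rfl⟩
      have : x * u * x⁻¹ = u := by rw [hPC x hx u hu]; group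
      show x * u * x⁻¹ ∈ Q₁
      rw [this]; exact hu
    obtain ⟨n', hn', hconj⟩ := Cfsg.Agent.Lib_helper7_Alperin.exists_conj_of_relIndex
      (P : Subgroup G) (Subgroup.normalizer (Q₁ : Set G)) Y P.isPGroup'
      (Cfsg.Agent.Lib_helper7_Alperin.not_dvd_relIndex_of_sylow P _ hPN₁) hYN₁ hY
    have hYC : ∀ y ∈ Y, ∀ u ∈ Q₁, y * u = u * y := by
      intro y hy u hu
      have hu' : n' * u * n'⁻¹ ∈ Q₁ := (Subgroup.mem_normalizer_iff.mp hn' u).mp hu
      have h1 := hPC _ (hconj y hy) _ hu'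
      have h2 : n' * (y * u) * n'⁻¹ = n' * (u * y) * n'⁻¹ := by
        calc n' * (y * u) * n'⁻¹ = (n' * y * n'⁻¹) * (n' * u * n'⁻¹) := by group
          _ = (n' * u * n'⁻¹) * (n' * y * n'⁻¹) := h1
          _ = n' * (u * y) * n'⁻¹ := by group
      exact mul_left_cancel (mul_right_cancel h2)
    have hcopYQ : (Nat.card Y).Coprime (Nat.card Q) := by
      obtain ⟨k, hk⟩ := IsPGroup.iff_card.mp hY
      rw [hk]
      exact Nat.Coprime.pow_left k hQ.symm
    haveI : Group.IsNilpotent ↥Y := hY.isNilpotent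
    have h3 := Cfsg.Agent.Lib_helper1_Coprime.commutator_commutator_eq Y Q hYQ hcopYQ
      (Or.inl inferInstance)
    have h4 : ⁅Q, Y⁆ ≤ Q₁ := by
      rw [Subgroup.commutator_le]
      intro q hq y hy
      have h5 := hc y hy q hq
      rw [← hQ₁def] at h5
      have e : q * y * q⁻¹ * y⁻¹ = (y * q * y⁻¹ * q⁻¹)⁻¹ := by group
      show q * y * q⁻¹ * y⁻¹ ∈ Q₁
      rw [e]
      exact Q₁.inv_mem h5
    have h6 : ⁅⁅Q, Y⁆, Y⁆ = ⊥ := by
      rw [eq_bot_iff]
      refine (Subgroup.commutator_mono h4 le_rfl).trans ?_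
      rw [Subgroup.commutator_le]
      intro u hu y hy
      show u * y * u⁻¹ * y⁻¹ ∈ (⊥ : Subgroup G)
      rw [Subgroup.mem_bot, ← hYC y hy u hu]
      group
    rw [h6] at h3
    have h7 : Q ≤ Subgroup.centralizer (Y : Set G) :=
      Subgroup.commutator_eq_bot_iff_le_centralizer.mp h3.symm
    intro y hy q hq
    exact (Subgroup.mem_centralizer_iff.mp (h7 hq)) y hy

theorem no_sylow_normalized {G : Type u} [Group G] [Finite G] {p : ℕ} [Fact p.Prime]
    (hG : Cfsg.IsPSolvable p G) (Q : Subgroup G) (hQ : ¬ p ∣ Nat.card Q)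
    (hA : p ∣ (Subgroup.centralizer (Q : Set G)).relIndex (Subgroup.normalizer (Q : Set G)))
    (P : Sylow p G) : ¬ Q ≤ Subgroup.normalizer ((P : Subgroup G) : Set G) := by
  intro hQP
  have hp : p.Prime := Fact.out
  have hQc : (Nat.card Q).Coprime p := ((Nat.Prime.coprime_iff_not_dvd hp).mpr hQ).symm
  obtain ⟨Y₀⟩ : Nonempty (Sylow p ↥(Subgroup.normalizer (Q : Set G))) := inferInstance
  have hY := core (Nat.card G) G rfl hG P Q hQc hQP
    ((Y₀ : Subgroup ↥(Subgroup.normalizer (Q : Set G))).map (Subgroup.subtype _))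
    (Y₀.isPGroup'.map _) (Subgroup.map_subtype_le _)
  have hle : (Y₀ : Subgroup ↥(Subgroup.normalizer (Q : Set G))) ≤
      (Subgroup.centralizer (Q : Set G)).subgroupOf (Subgroup.normalizer (Q : Set G)) := by
    intro y hy
    rw [Subgroup.mem_subgroupOf, Subgroup.mem_centralizer_iff]
    intro q hq
    exact (hY (y : G) ⟨y, hy, rfl⟩ q hq).symm
  have h1 := Subgroup.index_dvd_of_le hle
  exact Y₀.not_dvd_index (hA.trans h1)

end Cfsg.Agent.Lib_helper7_PSolvAut
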