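import Mathlib
import Cfsg.Prelude.Def_Transfer
import Cfsg.Agent.Lib_helper1_Basic
import Cfsg.Agent.Lib_helper1_Coprime
import Cfsg.Agent.Lib_helper2_Comp
import Cfsg.Agent.Lib_helper2_PCons
import Cfsg.Agent.Lib_helper7_CoprimeGen

set_option autoImplicit false

namespace Cfsg.Agent.Lib_helper7_QSq

open Cfsg.Agent.Lib_helper1_Basic

open scoped commutatorElement

universe u

variable {S : Type u} [Group S] [Finite S] {p q : ℕ} [hp : Fact p.Prime] [hq : Fact q.Prime]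

theorem s1900 (hpq : p ≠ q)
    (P : Sylow p S) [hPn : (P : Subgroup S).Normal] (Q : Subgroup S)
    (hQ : Cfsg.IsElementaryAbelian q Q) (hQc : Nat.card Q = q ^ 2)
    (hS : (P : Subgroup S) ⊔ Q = ⊤)
    (X₁ X₂ : Subgroup S) (h₁ : X₁ ≤ Q) (h₂ : X₂ ≤ Q) (h₁₂ : X₁ ≠ X₂) (hc₁ : Nat.card X₁ = q)
    (hc₂ : Nat.card X₂ = q)
    (hf₁ : (P : Subgroup S) ⊓ Subgroup.centralizer (X₁ : Set S) ≠ ⊥)
    (hf₂ : (P : Subgroup S) ⊓ Subgroup.centralizer (X₂ : Set S) ≠ ⊥)
    (honly : ∀ X : Subgroup S, X ≤ Q → Nat.card X = q →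
      (P : Subgroup S) ⊓ Subgroup.centralizer (X : Set S) ≠ ⊥ → X = X₁ ∨ X = X₂) :
    ⁅(P : Subgroup S) ⊓ Subgroup.centralizer (X₁ : Set S),
        (P : Subgroup S) ⊓ Subgroup.centralizer (X₂ : Set S)⁆ = ⊥ ∧
      ((P : Subgroup S) ⊓ Subgroup.centralizer (X₁ : Set S)) ⊓
        ((P : Subgroup S) ⊓ Subgroup.centralizer (X₂ : Set S)) = ⊥ ∧
      ((P : Subgroup S) ⊓ Subgroup.centralizer (X₁ : Set S)) ⊔
        ((P : Subgroup S) ⊓ Subgroup.centralizer (X₂ : Set S)) = P := by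
  have hqp : q.Prime := hq.out
  have hQab : ∀ x ∈ Q, ∀ y ∈ Q, x * y = y * x := by
    intro x hx y hy
    have := hQ.1.is_comm.comm ⟨x, hx⟩ ⟨y, hy⟩
    exact congrArg Subtype.val this
  have hQexp : ∀ x ∈ Q, x ^ q = 1 := hQ.2
  -- generators
  have hgen : ∀ X : Subgroup S, X ≤ Q → Nat.card X = q →
      ∃ a ∈ X, a ≠ 1 ∧ Subgroup.zpowers a = X := by
    intro X hXQ hXc
    have hX1 : X ≠ ⊥ := by
      intro h
      rw [h, Subgroup.card_bot] at hXc
      exact hqp.one_lt.ne hXc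
    obtain ⟨a, ha1⟩ := (Subgroup.ne_bot_iff_exists_ne_one).mp hX1
    have ha1' : (a : S) ≠ 1 := fun h => ha1 (Subtype.ext h)
    refine ⟨a, a.2, ha1', ?_⟩
    have hoa : orderOf (a : S) = q := orderOf_eq_prime (hQexp _ (hXQ a.2)) ha1'
    exact Subgroup.eq_of_le_of_card_ge (by rw [Subgroup.zpowers_le]; exact a.2)
      (by rw [Nat.card_zpowers, hoa, hXc])
  obtain ⟨a, haX, ha1, hza⟩ := hgen X₁ h₁ hc₁
  obtain ⟨b, hbX, hb1, hzb⟩ := hgen X₂ h₂ hc₂
  have haQ : a ∈ Q := h₁ haX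
  have hbQ : b ∈ Q := h₂ hbX
  have hab : a * b = b * a := hQab a haQ b hbQ
  have hbX₁ : b ∉ X₁ := by
    intro h
    apply h₁₂
    have : X₂ ≤ X₁ := by rw [← hzb, Subgroup.zpowers_le]; exact h
    exact (Subgroup.eq_of_le_of_card_ge this (by rw [hc₁, hc₂])).symm
  have haX₂ : a ∉ X₂ := by
    intro h
    apply h₁₂
    have : X₁ ≤ X₂ := by rw [← hza, Subgroup.zpowers_le]; exact h
    exact Subgroup.eq_of_le_of_card_ge this (by rw [hc₁, hc₂])
  -- coprimality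
  obtain ⟨n, hn⟩ := IsPGroup.iff_card.mp P.isPGroup'
  have hcopq : ∀ D : Subgroup S, D ≤ (P : Subgroup S) → (Nat.card D).Coprime q := by
    intro D hD
    have h1 : Nat.card D ∣ p ^ n := hn ▸ Subgroup.card_dvd_of_le hD
    have h2 : (p ^ n).Coprime q :=
      Nat.Coprime.pow_left n ((Nat.coprime_primes hp.out hqp).mpr hpq)
    exact Nat.Coprime.coprime_dvd_left h1 h2
  -- names
  obtain ⟨C₁, hC₁⟩ : ∃ C₁ : Subgroup S, C₁ = (P : Subgroup S) ⊓ Subgroup.centralizer (X₁ : Set S) :=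
    ⟨_, rfl⟩
  obtain ⟨C₂, hC₂⟩ : ∃ C₂ : Subgroup S, C₂ = (P : Subgroup S) ⊓ Subgroup.centralizer (X₂ : Set S) :=
    ⟨_, rfl⟩
  rw [← hC₁, ← hC₂]
  have hC₁P : C₁ ≤ (P : Subgroup S) := by rw [hC₁]; exact inf_le_left
  have hC₂P : C₂ ≤ (P : Subgroup S) := by rw [hC₂]; exact inf_le_left
  have hC₁X : C₁ ≤ Subgroup.centralizer (X₁ : Set S) := by rw [hC₁]; exact inf_le_right
  have hC₂X : C₂ ≤ Subgroup.centralizer (X₂ : Set S) := by rw [hC₂]; exact inf_le_right
  -- Q-invariance of centralizers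
  have hQinv : ∀ X : Subgroup S, X ≤ Q →
      Q ≤ Subgroup.normalizer (((P : Subgroup S) ⊓ Subgroup.centralizer (X : Set S) : Subgroup S) : Set S) := by
    intro X hXQ y hy
    apply mem_normalizer_of_conj_le
    intro m hm
    refine Subgroup.mem_inf.mpr ⟨hPn.conj_mem m (Subgroup.mem_inf.mp hm).1 y, ?_⟩
    rw [Subgroup.mem_centralizer_iff]
    intro x hx
    have h1 := Subgroup.mem_centralizer_iff.mp (Subgroup.mem_inf.mp hm).2 x hx
    have h2 := hQab x (hXQ hx) y hy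
    have h3 : x * y⁻¹ = y⁻¹ * x := by
      calc x * y⁻¹ = y⁻¹ * (y * x) * y⁻¹ := by group
        _ = y⁻¹ * (x * y) * y⁻¹ := by rw [h2]
        _ = y⁻¹ * x := by group
    calc x * (y * m * y⁻¹) = (x * y) * m * y⁻¹ := by group
      _ = y * (x * m) * y⁻¹ := by rw [h2]; group
      _ = y * (m * x) * y⁻¹ := by rw [h1]
      _ = y * m * (x * y⁻¹) := by group
      _ = y * m * (y⁻¹ * x) := by rw [h3]
      _ = y * m * y⁻¹ * x := by group
  have hQC₁ : Q ≤ Subgroup.normalizer (C₁ : Set S) := by rw [hC₁]; exact hQinv X₁ h₁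
  have hQC₂ : Q ≤ Subgroup.normalizer (C₂ : Set S) := by rw [hC₂]; exact hQinv X₂ h₂
  -- the third subgroups
  have hw : ∀ k : ℕ, Subgroup.zpowers (b * a ^ k) ≤ Q ∧ Nat.card (Subgroup.zpowers (b * a ^ k)) = q ∧
      Subgroup.zpowers (b * a ^ k) ≠ X₁ := by
    intro k
    have hwQ : b * a ^ k ∈ Q := Q.mul_mem hbQ (Q.pow_mem haQ k)
    have hw1 : b * a ^ k ≠ 1 := by
      intro h
      apply hbX₁
      have : b = (a ^ k)⁻¹ := eq_inv_of_mul_eq_one_left h
      rw [this]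
      exact X₁.inv_mem (X₁.pow_mem haX k)
    refine ⟨by rw [Subgroup.zpowers_le]; exact hwQ, ?_, ?_⟩
    · rw [Nat.card_zpowers]
      exact orderOf_eq_prime (hQexp _ hwQ) hw1
    · intro h
      apply hbX₁
      have h1 : b * a ^ k ∈ X₁ := by rw [← h]; exact Subgroup.mem_zpowers _
      have h2 : b = b * a ^ k * (a ^ k)⁻¹ := by group
      rw [h2]
      exact X₁.mul_mem h1 (X₁.inv_mem (X₁.pow_mem haX k))
  -- C₁ ∩ C₂ = 1
  have hI : C₁ ⊓ C₂ = ⊥ := by
    rw [Subgroup.eq_bot_iff_forall]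
    intro z hz
    by_contra hz1
    have hz₁ := Subgroup.mem_inf.mp hz
    obtain ⟨hwQ, hwc, hwne⟩ := hw 1
    rw [pow_one] at hwQ hwc hwne
    have hza' : z ∈ Subgroup.centralizer ({a} : Set S) := by
      rw [← Cfsg.Agent.Lib_helper2_PCons.centralizer_zpowers_eq, hza]; exact hC₁X hz₁.1
    have hzb' : z ∈ Subgroup.centralizer ({b} : Set S) := by
      rw [← Cfsg.Agent.Lib_helper2_PCons.centralizer_zpowers_eq, hzb]; exact hC₂X hz₁.2
    have hzw : z ∈ Subgroup.centralizer ((Subgroup.zpowers (b * a) : Subgroup S) : Set S) := by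
      rw [Cfsg.Agent.Lib_helper2_PCons.centralizer_zpowers_eq, Subgroup.mem_centralizer_iff]
      intro x hx
      rw [Set.mem_singleton_iff] at hx
      have e1 : a * z = z * a := Subgroup.mem_centralizer_iff.mp hza' a rfl
      have e2 : b * z = z * b := Subgroup.mem_centralizer_iff.mp hzb' b rfl
      rw [hx]
      calc b * a * z = b * (a * z) := by group
        _ = b * (z * a) := by rw [e1]
        _ = (b * z) * a := by group
        _ = z * b * a := by rw [e2]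
        _ = z * (b * a) := by group
    have hne : (P : Subgroup S) ⊓ Subgroup.centralizer ((Subgroup.zpowers (b * a) : Subgroup S) : Set S) ≠ ⊥ := by
      intro h
      have : z ∈ (P : Subgroup S) ⊓ Subgroup.centralizer ((Subgroup.zpowers (b * a) : Subgroup S) : Set S) :=
        Subgroup.mem_inf.mpr ⟨hC₁P hz₁.1, hzw⟩
      rw [h, Subgroup.mem_bot] at this
      exact hz1 this
    rcases honly _ hwQ hwc hne with h | h
    · exact hwne h
    · apply haX₂
      have h1 : b * a ∈ X₂ := by rw [← h]; exact Subgroup.mem_zpowers _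
      have h2 : a = b⁻¹ * (b * a) := by group
      rw [h2]
      exact X₂.mul_mem (X₂.inv_mem hbX) h1
  have hI' : ∀ z : S, z ∈ C₁ → z ∈ C₂ → z = 1 := by
    intro z h1 h2
    have : z ∈ C₁ ⊓ C₂ := Subgroup.mem_inf.mpr ⟨h1, h2⟩
    rw [hI, Subgroup.mem_bot] at this
    exact this
  -- solvability of the acting groups
  have hsolX : ∀ X : Subgroup S, X ≤ Q → Group.IsSolvable X := by
    intro X hXQ
    apply isSolvable_of_comm
    intro x y
    apply Subtype.ext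
    exact hQab x (hXQ x.2) y (hXQ y.2)
  -- Step 1: B
  obtain ⟨B, hB⟩ : ∃ B : Subgroup S, B = C₂ ⊓ Subgroup.normalizer (C₁ : Set S) := ⟨_, rfl⟩
  have hBC₂ : B ≤ C₂ := by rw [hB]; exact inf_le_left
  have hBN : B ≤ Subgroup.normalizer (C₁ : Set S) := by rw [hB]; exact inf_le_right
  have hQB : Q ≤ Subgroup.normalizer (B : Set S) := by
    intro y hy
    apply mem_normalizer_of_conj_le
    intro m hm
    rw [hB] at hm ⊢
    have hm' := Subgroup.mem_inf.mp hm
    refine Subgroup.mem_inf.mpr ⟨(Subgroup.mem_normalizer_iff.mp (hQC₂ hy) m).mp hm'.1, ?_⟩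
    exact Subgroup.mul_mem _ (Subgroup.mul_mem _ (hQC₁ hy) hm'.2) (Subgroup.inv_mem _ (hQC₁ hy))
  have hBcomm : B ≤ ⁅B, X₁⁆ := by
    intro u hu
    haveI := hsolX X₁ h₁
    obtain ⟨m, hm, c, hc, huc⟩ := Cfsg.Agent.Lib_helper1_Coprime.exists_commutator_mul_fixed X₁ B
      (h₁.trans hQB) (by rw [hc₁]; exact (hcopq B (hBC₂.trans hC₂P)).symm) (Or.inl inferInstance) u hu
    have hc' := Subgroup.mem_inf.mp hc
    have hc1 : c = 1 := hI' c (by rw [hC₁]; exact Subgroup.mem_inf.mpr ⟨hC₂P (hBC₂ hc'.1), hc'.2⟩)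
      (hBC₂ hc'.1)
    rw [huc, hc1, mul_one]; exact hm
  have hX₁C₁ : X₁ ≤ Subgroup.centralizer (C₁ : Set S) := Subgroup.le_centralizer_iff.mp hC₁X
  have hBcent : B ≤ Subgroup.centralizer (C₁ : Set S) := by
    have h1 : ⁅⁅X₁, C₁⁆, B⁆ = ⊥ := by
      rw [Subgroup.commutator_eq_bot_iff_le_centralizer.mpr hX₁C₁, Subgroup.commutator_bot_left]
    have h2 : ⁅⁅C₁, B⁆, X₁⁆ = ⊥ := by
      rw [eq_bot_iff]
      calc ⁅⁅C₁, B⁆, X₁⁆ ≤ ⁅C₁, X₁⁆ :=
            Subgroup.commutator_mono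
              (Cfsg.Agent.Lib_helper1_Coprime.commutator_le_of_normalizes B C₁ hBN) le_rfl
        _ = ⊥ := Subgroup.commutator_eq_bot_iff_le_centralizer.mpr hC₁X
    have h3 : ⁅⁅B, X₁⁆, C₁⁆ = ⊥ := Subgroup.commutator_commutator_eq_bot_of_rotate h1 h2
    have h4 : ⁅B, C₁⁆ = ⊥ := by
      rw [eq_bot_iff, ← h3]
      exact Subgroup.commutator_mono hBcomm le_rfl
    exact Subgroup.commutator_eq_bot_iff_le_centralizer.mp h4
  -- R
  obtain ⟨R, hR⟩ : ∃ R : Subgroup S, R = C₁ ⊔ B := ⟨_, rfl⟩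
  have hC₁R : C₁ ≤ R := by rw [hR]; exact le_sup_left
  have hBR : B ≤ R := by rw [hR]; exact le_sup_right
  have hRP : R ≤ (P : Subgroup S) := by rw [hR]; exact sup_le hC₁P (hBC₂.trans hC₂P)
  have hC₁NB : C₁ ≤ Subgroup.normalizer (B : Set S) := by
    intro c hc
    apply mem_normalizer_of_conj_le
    intro m hm
    have h1 := Subgroup.mem_centralizer_iff.mp (hBcent hm) c hc
    have h2 : c * m * c⁻¹ = m := by rw [h1]; group
    rw [h2]; exact hm
  have hRdec : ∀ r ∈ R, ∃ c ∈ C₁, ∃ u ∈ B, c * u = r := by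
    intro r hr
    rw [hR] at hr
    exact Cfsg.Agent.Lib_helper2_Comp.mem_sup_of_le_normalizer hC₁NB hr
  have hQR : Q ≤ Subgroup.normalizer (R : Set S) := by
    intro y hy
    apply mem_normalizer_of_conj_le
    have h1 : C₁ ⊔ B ≤ R.comap (MulAut.conj y).toMonoidHom := by
      apply sup_le
      · intro m hm
        rw [Subgroup.mem_comap]
        exact hC₁R ((Subgroup.mem_normalizer_iff.mp (hQC₁ hy) m).mp hm)
      · intro m hm
        rw [Subgroup.mem_comap]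
        exact hBR ((Subgroup.mem_normalizer_iff.mp (hQB hy) m).mp hm)
    intro m hm
    rw [hR] at hm
    exact h1 hm
  -- Step 3
  have hC₁comm : C₁ ≤ ⁅C₁, X₂⁆ := by
    intro u hu
    haveI := hsolX X₂ h₂
    obtain ⟨m, hm, c, hc, huc⟩ := Cfsg.Agent.Lib_helper1_Coprime.exists_commutator_mul_fixed X₂ C₁
      (h₂.trans hQC₁) (by rw [hc₂]; exact (hcopq C₁ hC₁P).symm) (Or.inl inferInstance) u hu
    have hc' := Subgroup.mem_inf.mp hc
    have hc1 : c = 1 := hI' c hc'.1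
      (by rw [hC₂]; exact Subgroup.mem_inf.mpr ⟨hC₁P hc'.1, hc'.2⟩)
    rw [huc, hc1, mul_one]; exact hm
  have hRX : ∀ r ∈ R, ∀ x ∈ X₂, ⁅r, x⁆ ∈ C₁ := by
    intro r hr x hx
    obtain ⟨c, hc, u, hu, rfl⟩ := hRdec r hr
    have h1 : x * u = u * x := Subgroup.mem_centralizer_iff.mp (hC₂X (hBC₂ hu)) x hx
    have h2 : ⁅c * u, x⁆ = c * (x * c⁻¹ * x⁻¹) := by
      rw [commutatorElement_def]
      calc c * u * x * (c * u)⁻¹ * x⁻¹ = c * (u * x) * u⁻¹ * c⁻¹ * x⁻¹ := by group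
        _ = c * (x * u) * u⁻¹ * c⁻¹ * x⁻¹ := by rw [h1]
        _ = c * (x * c⁻¹ * x⁻¹) := by group
    rw [h2]
    exact C₁.mul_mem hc ((Subgroup.mem_normalizer_iff.mp (hQC₁ (h₂ hx)) c⁻¹).mp (C₁.inv_mem hc))
  have hNB : ∀ c : S, c ∈ (P : Subgroup S) → c ∈ Subgroup.normalizer (R : Set S) →
      c ∈ Subgroup.centralizer (X₂ : Set S) → c ∈ B := by
    intro c hcP hcN hcX
    rw [hB]
    refine Subgroup.mem_inf.mpr ⟨by rw [hC₂]; exact Subgroup.mem_inf.mpr ⟨hcP, hcX⟩, ?_⟩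
    apply mem_normalizer_of_conj_le
    have h1 : ⁅C₁, X₂⁆ ≤ C₁.comap (MulAut.conj c).toMonoidHom := by
      rw [Subgroup.commutator_le]
      intro u hu x hx
      rw [Subgroup.mem_comap]
      show c * ⁅u, x⁆ * c⁻¹ ∈ C₁
      have h2 : x * c = c * x := Subgroup.mem_centralizer_iff.mp hcX x hx
      have h3 : c * x * c⁻¹ = x := by rw [← h2]; group
      have h4 : c * ⁅u, x⁆ * c⁻¹ = ⁅c * u * c⁻¹, x⁆ := by
        rw [commutatorElement_def, commutatorElement_def]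
        calc c * (u * x * u⁻¹ * x⁻¹) * c⁻¹
            = c * u * c⁻¹ * (c * x * c⁻¹) * (c * u * c⁻¹)⁻¹ * (c * x * c⁻¹)⁻¹ := by group
          _ = c * u * c⁻¹ * x * (c * u * c⁻¹)⁻¹ * x⁻¹ := by rw [h3]
      rw [h4]
      exact hRX _ ((Subgroup.mem_normalizer_iff.mp hcN u).mp (hC₁R hu)) x hx
    intro m hm
    exact h1 (hC₁comm hm)
  -- Step 2: N_P(R) ≤ R
  have hNR : (P : Subgroup S) ⊓ Subgroup.normalizer (R : Set S) ≤ R := by
    have hQD : Q ≤ Subgroup.normalizer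
        (((P : Subgroup S) ⊓ Subgroup.normalizer (R : Set S) : Subgroup S) : Set S) := by
      intro y hy
      apply mem_normalizer_of_conj_le
      intro m hm
      have hm' := Subgroup.mem_inf.mp hm
      refine Subgroup.mem_inf.mpr ⟨hPn.conj_mem m hm'.1 y, ?_⟩
      exact Subgroup.mul_mem _ (Subgroup.mul_mem _ (hQR hy) hm'.2) (Subgroup.inv_mem _ (hQR hy))
    apply Cfsg.Agent.Lib_helper7_CoprimeGen.le_of_centralizers_le (p := q) a b hab
      (hQexp a haQ) (hQexp b hbQ) _ (hQD haQ) (hQD hbQ) (hcopq _ inf_le_left) R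
    · intro g hg
      have hg' := Subgroup.mem_inf.mp hg
      apply hC₁R
      rw [hC₁]
      refine Subgroup.mem_inf.mpr ⟨(Subgroup.mem_inf.mp hg'.1).1, ?_⟩
      rw [← hza, Cfsg.Agent.Lib_helper2_PCons.centralizer_zpowers_eq]
      exact hg'.2
    · intro k g hg
      have hg' := Subgroup.mem_inf.mp hg
      have hgP := (Subgroup.mem_inf.mp hg'.1).1
      have hgN := (Subgroup.mem_inf.mp hg'.1).2
      by_cases hg1 : g = 1
      · rw [hg1]; exact R.one_mem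
      obtain ⟨hwQ, hwc, hwne⟩ := hw k
      have hgw : g ∈ Subgroup.centralizer ((Subgroup.zpowers (b * a ^ k) : Subgroup S) : Set S) := by
        rw [Cfsg.Agent.Lib_helper2_PCons.centralizer_zpowers_eq]; exact hg'.2
      have hne : (P : Subgroup S) ⊓
          Subgroup.centralizer ((Subgroup.zpowers (b * a ^ k) : Subgroup S) : Set S) ≠ ⊥ := by
        intro h
        have : g ∈ (P : Subgroup S) ⊓
            Subgroup.centralizer ((Subgroup.zpowers (b * a ^ k) : Subgroup S) : Set S) :=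
          Subgroup.mem_inf.mpr ⟨hgP, hgw⟩
        rw [h, Subgroup.mem_bot] at this
        exact hg1 this
      rcases honly _ hwQ hwc hne with h | h
      · exact absurd h hwne
      · rw [h] at hgw
        exact hBR (hNB g hgP hgN hgw)
  -- Step 4: R = P
  have hRP' : R = (P : Subgroup S) := by
    by_contra hne
    haveI : Group.IsNilpotent ↥(P : Subgroup S) := P.isPGroup'.isNilpotent
    have hnc := Group.normalizerCondition_of_isNilpotent (G := ↥(P : Subgroup S))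
    have hlt : R.subgroupOf (P : Subgroup S) < ⊤ := by
      rw [lt_top_iff_ne_top]
      intro h
      exact hne (le_antisymm hRP (Subgroup.subgroupOf_eq_top.mp h))
    obtain ⟨x, hxN, hxR⟩ := SetLike.exists_of_lt (hnc _ hlt)
    apply hxR
    rw [Subgroup.mem_subgroupOf]
    apply hNR
    refine Subgroup.mem_inf.mpr ⟨x.2, ?_⟩
    apply mem_normalizer_of_conj_le
    intro m hm
    have h1 : (⟨m, hRP hm⟩ : ↥(P : Subgroup S)) ∈ R.subgroupOf (P : Subgroup S) := by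
      rw [Subgroup.mem_subgroupOf]; exact hm
    have h2 := (Subgroup.mem_normalizer_iff.mp hxN ⟨m, hRP hm⟩).mp h1
    rw [Subgroup.mem_subgroupOf] at h2
    exact h2
  -- Step 5
  have hC₂B : C₂ ≤ B := by
    intro c hc
    obtain ⟨c₁, hc₁', u, hu, hcu⟩ := hRdec c (by rw [hRP']; exact hC₂P hc)
    have h1 : c₁ = c * u⁻¹ := by rw [← hcu]; group
    have h2 : c₁ = 1 := hI' c₁ hc₁' (by rw [h1]; exact C₂.mul_mem hc (C₂.inv_mem (hBC₂ hu)))
    rw [← hcu, h2, one_mul]; exact hu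
  refine ⟨?_, hI, ?_⟩
  · rw [Subgroup.commutator_eq_bot_iff_le_centralizer]
    exact Subgroup.le_centralizer_iff.mp (hC₂B.trans hBcent)
  · apply le_antisymm (sup_le hC₁P hC₂P)
    rw [← hRP', hR]
    exact sup_le_sup le_rfl hBC₂

end Cfsg.Agent.Lib_helper7_QSq
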