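import Mathlib
import Cfsg.Agent.Lib_helper1_Thompson
import Cfsg.Agent.Lib_helper7_Sylow

/-! An extension of an elementary abelian group of order `p²` by `SL₂(p)` splits (`p` odd). -/

namespace Cfsg.Agent.Lib_helper7_SL2Split

section matrices

variable {F : Type*} [Field F]

/-- The central involution `-1` of `SL₂(F)`. -/
def zmat : Matrix.SpecialLinearGroup (Fin 2) F := ⟨!![-1, 0; 0, -1], by simp [Matrix.det_fin_two]⟩

def umat : Matrix.SpecialLinearGroup (Fin 2) F := ⟨!![1, 1; 0, 1], by simp [Matrix.det_fin_two]⟩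

def vmat : Matrix.SpecialLinearGroup (Fin 2) F := ⟨!![1, 0; 1, 1], by simp [Matrix.det_fin_two]⟩

theorem zmat_comm (M : Matrix.SpecialLinearGroup (Fin 2) F) : M * zmat = zmat * M := by
  apply Subtype.ext
  show M.1 * (zmat : Matrix.SpecialLinearGroup (Fin 2) F).1 = (zmat : Matrix.SpecialLinearGroup (Fin 2) F).1 * M.1
  ext i j
  fin_cases i <;> fin_cases j <;> simp [zmat, Matrix.mul_apply, Fin.sum_univ_two]

theorem zmat_sq : (zmat : Matrix.SpecialLinearGroup (Fin 2) F) ^ 2 = 1 := by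
  rw [pow_two]
  apply Subtype.ext
  show (zmat : Matrix.SpecialLinearGroup (Fin 2) F).1 * (zmat : Matrix.SpecialLinearGroup (Fin 2) F).1 = 1
  ext i j
  fin_cases i <;> fin_cases j <;> simp [zmat, Matrix.mul_apply, Fin.sum_univ_two]

theorem zmat_ne_one (h2 : (-1 : F) ≠ 1) : (zmat : Matrix.SpecialLinearGroup (Fin 2) F) ≠ 1 := by
  intro h
  have h1 := congrArg (fun M : Matrix.SpecialLinearGroup (Fin 2) F => M.1 0 0) h
  simp [zmat] at h1
  exact h2 h1

theorem umat_vmat : (umat : Matrix.SpecialLinearGroup (Fin 2) F) * vmat ≠ vmat * umat := by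
  intro h
  have h1 := congrArg (fun M : Matrix.SpecialLinearGroup (Fin 2) F => M.1 0 0) h
  have h2 : ((umat : Matrix.SpecialLinearGroup (Fin 2) F) * vmat).1 0 0 = 1 + 1 := by
    show ((umat : Matrix.SpecialLinearGroup (Fin 2) F).1 * (vmat : Matrix.SpecialLinearGroup (Fin 2) F).1) 0 0 = 1 + 1
    simp [umat, vmat, Matrix.mul_apply, Fin.sum_univ_two]
  have h3 : ((vmat : Matrix.SpecialLinearGroup (Fin 2) F) * umat).1 0 0 = 1 := by
    show ((vmat : Matrix.SpecialLinearGroup (Fin 2) F).1 * (umat : Matrix.SpecialLinearGroup (Fin 2) F).1) 0 0 = 1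
    simp [umat, vmat, Matrix.mul_apply, Fin.sum_univ_two]
  have h4 : (1 : F) + 1 = 1 := h2.symm.trans (h1.trans h3)
  have h5 : (1 : F) = 0 := by linear_combination h4
  exact one_ne_zero h5

theorem neg_one_ne_one [Fintype F] {p : ℕ} [Fact p.Prime] (hp : p ≠ 2) (hF : Fintype.card F = p) :
    (-1 : F) ≠ 1 := by
  intro h
  have h2 : (2 : ℕ) • (1 : F) = 0 := by
    rw [two_nsmul]
    linear_combination -h
  have h3 : addOrderOf (1 : F) ∣ 2 := addOrderOf_dvd_iff_nsmul_eq_zero.mpr h2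
  have h4 : addOrderOf (1 : F) ∣ p := by
    rw [← hF, ← Nat.card_eq_fintype_card]
    exact addOrderOf_dvd_natCard _
  have hpp : p.Prime := Fact.out
  rcases (Nat.dvd_prime hpp).mp h4 with h5 | h5
  · rw [AddMonoid.addOrderOf_eq_one_iff] at h5
    exact one_ne_zero h5
  · rw [h5] at h3
    exact hp ((Nat.prime_dvd_prime_iff_eq hpp Nat.prime_two).mp h3)

end matrices

variable {N : Type*} [Group N]

/-- Commutators centralize a cyclic normal subgroup. -/
theorem comm_mem_centralizer_of_cyclic (B : Subgroup N) [B.Normal] [IsCyclic B] (n m : N) :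
    n * m * n⁻¹ * m⁻¹ ∈ Subgroup.centralizer (B : Set N) := by
  obtain ⟨⟨b, hbB⟩, hb⟩ := IsCyclic.exists_generator (α := B)
  have hgen : ∀ x ∈ B, ∃ k : ℤ, b ^ k = x := by
    intro x hx
    obtain ⟨k, hk⟩ := Subgroup.mem_zpowers_iff.mp (hb ⟨x, hx⟩)
    exact ⟨k, by have := congrArg Subtype.val hk; simpa using this⟩
  have key : ∀ n m : N, (n * m) * b * (n * m)⁻¹ = (m * n) * b * (m * n)⁻¹ := by
    intro n m
    obtain ⟨i, hi⟩ := hgen (n * b * n⁻¹) (Subgroup.Normal.conj_mem inferInstance b hbB n)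
    obtain ⟨j, hj⟩ := hgen (m * b * m⁻¹) (Subgroup.Normal.conj_mem inferInstance b hbB m)
    have e1 : (n * m) * b * (n * m)⁻¹ = n * (m * b * m⁻¹) * n⁻¹ := by group
    have e2 : (m * n) * b * (m * n)⁻¹ = m * (n * b * n⁻¹) * m⁻¹ := by group
    have c1 : n * b ^ j * n⁻¹ = (n * b * n⁻¹) ^ j := (conj_zpow).symm
    have c2 : m * b ^ i * m⁻¹ = (m * b * m⁻¹) ^ i := (conj_zpow).symm
    rw [e1, e2, ← hj, ← hi, c1, c2, ← hi, ← hj, ← zpow_mul, ← zpow_mul, mul_comm]
  -- `x = (m⁻¹ * n⁻¹)⁻¹⁻¹ ...`: use key with inverses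
  have h1 := key n⁻¹ m⁻¹
  have hx : (n * m * n⁻¹ * m⁻¹) * b = b * (n * m * n⁻¹ * m⁻¹) := by
    have e3 : n * m * n⁻¹ * m⁻¹ = (m⁻¹ * n⁻¹)⁻¹ * (n⁻¹ * m⁻¹) := by group
    have h2 : (m⁻¹ * n⁻¹)⁻¹ * ((n⁻¹ * m⁻¹) * b * (n⁻¹ * m⁻¹)⁻¹) * (m⁻¹ * n⁻¹) = b := by
      rw [h1]; group
    calc (n * m * n⁻¹ * m⁻¹) * b
        = ((m⁻¹ * n⁻¹)⁻¹ * ((n⁻¹ * m⁻¹) * b * (n⁻¹ * m⁻¹)⁻¹) * (m⁻¹ * n⁻¹)) *
            (n * m * n⁻¹ * m⁻¹) := by group
      _ = b * (n * m * n⁻¹ * m⁻¹) := by rw [h2]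
  rw [Subgroup.mem_centralizer_iff]
  intro x hx'
  obtain ⟨k, rfl⟩ := hgen x hx'
  exact ((Commute.zpow_right (show Commute (n * m * n⁻¹ * m⁻¹) b from hx) k).eq).symm

theorem split_of_central_involution [Finite N] {p : ℕ} [Fact p.Prime] (hp : p ≠ 2)
    (A : Subgroup N) [hAn : A.Normal] (hAcomm : IsMulCommutative A) (hAcard : Nat.card A = p ^ 2)
    (hAself : Subgroup.centralizer (A : Set N) = A)
    (z : N ⧸ A) (hz2 : z ^ 2 = 1) (hz1 : z ≠ 1) (hzc : ∀ q : N ⧸ A, q * z = z * q)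
    (hnc : ∃ a b : N ⧸ A, a * b ≠ b * a) :
    ∃ U : Subgroup N, A ⊓ U = ⊥ ∧ A ⊔ U = ⊤ := by
  have hpp : p.Prime := Fact.out
  have hodd : Odd (p ^ 2) := (hpp.eq_two_or_odd'.resolve_left hp).pow
  obtain ⟨k, hk⟩ := hodd
  have hApow : ∀ a ∈ A, a ^ (p ^ 2) = 1 := by
    intro a ha
    have h1 : (⟨a, ha⟩ : A) ^ Nat.card A = 1 := pow_card_eq_one'
    rw [hAcard] at h1
    exact congrArg Subtype.val h1
  have hAc : ∀ a ∈ A, ∀ b ∈ A, a * b = b * a := fun a ha b hb => setLike_mul_comm ha hb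
  -- the involution `t`
  obtain ⟨t₀, ht₀⟩ := QuotientGroup.mk_surjective z
  have ht₀A : t₀ ^ 2 ∈ A := by
    rw [← QuotientGroup.eq_one_iff, QuotientGroup.mk_pow, ht₀, hz2]
  obtain ⟨t, htdef⟩ : ∃ t : N, t = t₀ ^ (p ^ 2) := ⟨_, rfl⟩
  have htz : (QuotientGroup.mk t : N ⧸ A) = z := by
    rw [htdef, QuotientGroup.mk_pow, ht₀, hk, pow_succ, pow_mul, hz2, one_pow, one_mul]
  have ht2 : t * t = 1 := by
    calc t * t = (t₀ ^ (p ^ 2)) ^ 2 := by rw [htdef]; exact (pow_two _).symm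
      _ = (t₀ ^ 2) ^ (p ^ 2) := by rw [← pow_mul, ← pow_mul, mul_comm]
      _ = 1 := hApow _ ht₀A
  have htinv : t⁻¹ = t := inv_eq_of_mul_eq_one_right ht2
  have htA : t ∉ A := by
    intro h
    apply hz1
    rw [← htz]
    exact (QuotientGroup.eq_one_iff t).mpr h
  have hconj : ∀ n : N, n * t * n⁻¹ * t⁻¹ ∈ A := by
    intro n
    rw [← QuotientGroup.eq_one_iff]
    have : ((n * t * n⁻¹ * t⁻¹ : N) : N ⧸ A) =
        (n : N ⧸ A) * (t : N ⧸ A) * (n : N ⧸ A)⁻¹ * (t : N ⧸ A)⁻¹ := rfl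
    rw [this, htz, hzc (n : N ⧸ A), mul_inv_cancel_right, mul_inv_cancel]
  have htAconj : ∀ a ∈ A, t * a * t⁻¹ ∈ A := fun a ha => hAn.conj_mem a ha t
  -- fixed part
  have hfixmem : ∀ a ∈ A, t * (a * (t * a * t⁻¹)) * t⁻¹ = a * (t * a * t⁻¹) := by
    intro a ha
    have e : t * (a * (t * a * t⁻¹)) * t⁻¹ = (t * a * t⁻¹) * ((t * t) * a * (t * t)⁻¹) := by group
    rw [e, ht2, one_mul, inv_one, mul_one]
    exact hAc _ (htAconj a ha) _ ha
  by_cases hplus : A ⊓ Subgroup.centralizer ({t} : Set N) = ⊥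
  · -- `t` inverts `A`
    have hinvA : ∀ a ∈ A, t * a * t⁻¹ = a⁻¹ := by
      intro a ha
      have h1 : a * (t * a * t⁻¹) ∈ A ⊓ Subgroup.centralizer ({t} : Set N) := by
        refine Subgroup.mem_inf.mpr ⟨A.mul_mem ha (htAconj a ha), ?_⟩
        rw [Subgroup.mem_centralizer_iff]
        intro y hy
        rw [Set.mem_singleton_iff] at hy
        rw [hy]
        have h2 := hfixmem a ha
        calc t * (a * (t * a * t⁻¹)) = (t * (a * (t * a * t⁻¹)) * t⁻¹) * t := by group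
          _ = a * (t * a * t⁻¹) * t := by rw [h2]
      rw [hplus, Subgroup.mem_bot] at h1
      exact (eq_inv_of_mul_eq_one_right h1)
    refine ⟨Subgroup.centralizer ({t} : Set N), hplus, ?_⟩
    rw [eq_top_iff]
    intro n _
    obtain ⟨c, hc⟩ : ∃ c : N, c = n * t * n⁻¹ * t⁻¹ := ⟨_, rfl⟩
    have hcA : c ∈ A := hc ▸ hconj n
    obtain ⟨b, hb⟩ : ∃ b : N, b = c ^ (k + 1) := ⟨_, rfl⟩
    have hbA : b ∈ A := hb ▸ A.pow_mem hcA _
    have hbb : b * b = c := by
      rw [hb, ← pow_add]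
      have : k + 1 + (k + 1) = p ^ 2 + 1 := by omega
      rw [this, pow_succ, hApow c hcA, one_mul]
    have hu : b⁻¹ * n ∈ Subgroup.centralizer ({t} : Set N) := by
      rw [Subgroup.mem_centralizer_iff]
      intro y hy
      rw [Set.mem_singleton_iff] at hy
      rw [hy]
      -- t * (b⁻¹ * n) = (b⁻¹ * n) * t
      have h1 : n * t = c * t * n := by rw [hc]; group
      have h2 : t * b⁻¹ = b * t := by
        have := hinvA b⁻¹ (A.inv_mem hbA)
        rw [inv_inv] at this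
        calc t * b⁻¹ = (t * b⁻¹ * t⁻¹) * t := by group
          _ = b * t := by rw [this]
      calc t * (b⁻¹ * n) = (t * b⁻¹) * n := by group
        _ = b * t * n := by rw [h2]
        _ = b⁻¹ * (b * b) * t * n := by group
        _ = b⁻¹ * (c * t * n) := by rw [hbb]; group
        _ = b⁻¹ * n * t := by rw [← h1]; group
    have : n = b * (b⁻¹ * n) := by group
    rw [this]
    exact Subgroup.mul_mem_sup hbA hu
  · exfalso
    -- the inverted part
    let Am : Subgroup N :=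
      { carrier := {a | a ∈ A ∧ t * a * t⁻¹ = a⁻¹}
        one_mem' := ⟨A.one_mem, by simp⟩
        mul_mem' := by
          rintro a b ⟨ha, ha'⟩ ⟨hb, hb'⟩
          refine ⟨A.mul_mem ha hb, ?_⟩
          have e : t * (a * b) * t⁻¹ = (t * a * t⁻¹) * (t * b * t⁻¹) := by group
          rw [e, ha', hb', mul_inv_rev]
          exact hAc _ (A.inv_mem ha) _ (A.inv_mem hb)
        inv_mem' := by
          rintro a ⟨ha, ha'⟩
          refine ⟨A.inv_mem ha, ?_⟩
          have e : t * a⁻¹ * t⁻¹ = (t * a * t⁻¹)⁻¹ := by group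
          rw [e, ha'] }
    have hAm_mem : ∀ a, a ∈ Am ↔ (a ∈ A ∧ t * a * t⁻¹ = a⁻¹) := fun a => Iff.rfl
    have hAmA : Am ≤ A := fun a ha => ((hAm_mem a).mp ha).1
    obtain ⟨Ap, hApdef⟩ : ∃ Ap : Subgroup N, Ap = A ⊓ Subgroup.centralizer ({t} : Set N) :=
      ⟨_, rfl⟩
    rw [← hApdef] at hplus
    have hAp_mem : ∀ a, a ∈ Ap ↔ (a ∈ A ∧ t * a * t⁻¹ = a) := by
      intro a
      rw [hApdef, Subgroup.mem_inf, Subgroup.mem_centralizer_iff]
      constructor
      · rintro ⟨ha, h⟩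
        refine ⟨ha, ?_⟩
        rw [h t rfl, mul_inv_cancel_right]
      · rintro ⟨ha, h⟩
        refine ⟨ha, ?_⟩
        intro y hy
        rw [Set.mem_singleton_iff] at hy
        rw [hy]
        calc t * a = (t * a * t⁻¹) * t := by group
          _ = a * t := by rw [h]
    have hApA : Ap ≤ A := fun a ha => ((hAp_mem a).mp ha).1
    -- `Am ≠ ⊥`
    have hAm_ne : Am ≠ ⊥ := by
      intro hbot
      apply htA
      rw [← hAself, Subgroup.mem_centralizer_iff]
      intro a ha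
      have h1 : a * (t * a * t⁻¹)⁻¹ ∈ Am := by
        rw [hAm_mem]
        refine ⟨A.mul_mem ha (A.inv_mem (htAconj a ha)), ?_⟩
        have e : t * (a * (t * a * t⁻¹)⁻¹) * t⁻¹ = (t * a * t⁻¹) * ((t * t) * a * (t * t)⁻¹)⁻¹ := by
          group
        rw [e, ht2, one_mul, inv_one, mul_one, mul_inv_rev, inv_inv]
      rw [hbot, Subgroup.mem_bot] at h1
      have h2 : a = t * a * t⁻¹ := by
        have := eq_of_mul_inv_eq_one h1
        exact this
      calc a * t = (t * a * t⁻¹) * t := by rw [← h2]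
        _ = t * a := by group
    have hinf : Ap ⊓ Am = ⊥ := by
      rw [eq_bot_iff]
      intro a ha
      obtain ⟨h1, h2⟩ := ha
      have h3 := ((hAp_mem a).mp h1)
      have h4 := ((hAm_mem a).mp h2)
      have h5 : a = a⁻¹ := h3.2.symm.trans h4.2
      have h6 : a ^ 2 = 1 := by
        rw [pow_two]
        nth_rewrite 2 [h5]
        exact mul_inv_cancel a
      have h7 : a ^ (p ^ 2) = 1 := hApow a h3.1
      rw [Subgroup.mem_bot]
      rw [hk, pow_succ, pow_mul, h6, one_pow, one_mul] at h7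
      exact h7
    -- cardinalities
    have hcardle := Cfsg.Agent.Lib_helper1_Thompson.card_mul_card_le Ap Am
    rw [hinf, Subgroup.card_bot, mul_one] at hcardle
    have hsupA : Ap ⊔ Am ≤ A := sup_le hApA hAmA
    have hsupcard : Nat.card ↥(Ap ⊔ Am) ≤ p ^ 2 := hAcard ▸ Subgroup.card_le_of_le hsupA
    have hdvd1 : Nat.card Ap ∣ p ^ 2 := hAcard ▸ Subgroup.card_dvd_of_le hApA
    have hdvd2 : Nat.card Am ∣ p ^ 2 := hAcard ▸ Subgroup.card_dvd_of_le hAmA
    have hne1 : Nat.card Ap ≠ 1 := fun h => hplus (Subgroup.card_eq_one.mp h)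
    have hne2 : Nat.card Am ≠ 1 := fun h => hAm_ne (Subgroup.card_eq_one.mp h)
    have hcase : ∀ d : ℕ, d ∣ p ^ 2 → d ≠ 1 → d = p ∨ d = p ^ 2 := by
      intro d hd hd1
      obtain ⟨i, hi, rfl⟩ := (Nat.dvd_prime_pow hpp).mp hd
      interval_cases i
      · exact absurd (pow_zero p) hd1
      · left; exact pow_one p
      · right; rfl
    have hp2 : 2 ≤ p := hpp.two_le
    have hc1 : Nat.card Ap = p := by
      rcases hcase _ hdvd1 hne1 with h | h
      · exact h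
      · exfalso
        rcases hcase _ hdvd2 hne2 with h' | h'
        · rw [h, h'] at hcardle
          nlinarith [pow_pos hpp.pos 2]
        · rw [h, h'] at hcardle
          nlinarith [pow_pos hpp.pos 2]
    have hc2 : Nat.card Am = p := by
      rcases hcase _ hdvd2 hne2 with h | h
      · exact h
      · exfalso
        rw [hc1, h] at hcardle
        nlinarith [pow_pos hpp.pos 2]
    have hsupeq : Ap ⊔ Am = A := by
      apply Subgroup.eq_of_le_of_card_ge hsupA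
      rw [hAcard]
      rw [hc1, hc2] at hcardle
      calc p ^ 2 = p * p := pow_two p
        _ ≤ _ := hcardle
    haveI : IsCyclic Ap := isCyclic_of_prime_card hc1
    haveI : IsCyclic Am := isCyclic_of_prime_card hc2
    -- normality of the two parts
    have hnormP : Ap.Normal := by
      refine ⟨fun a ha n => ?_⟩
      obtain ⟨haA, hat⟩ := (hAp_mem a).mp ha
      rw [hAp_mem]
      refine ⟨hAn.conj_mem a haA n, ?_⟩
      obtain ⟨c, hc⟩ : ∃ c : N, c = n⁻¹ * t * n⁻¹⁻¹ * t⁻¹ := ⟨_, rfl⟩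
      have hcA : c ∈ A := hc ▸ hconj n⁻¹
      have e : t * (n * a * n⁻¹) * t⁻¹ = n * (c * (t * a * t⁻¹) * c⁻¹) * n⁻¹ := by
        rw [hc]; group
      rw [e, hat, hAc c hcA a haA, mul_inv_cancel_right]
    have hnormM : Am.Normal := by
      refine ⟨fun a ha n => ?_⟩
      obtain ⟨haA, hat⟩ := (hAm_mem a).mp ha
      rw [hAm_mem]
      refine ⟨hAn.conj_mem a haA n, ?_⟩
      obtain ⟨c, hc⟩ : ∃ c : N, c = n⁻¹ * t * n⁻¹⁻¹ * t⁻¹ := ⟨_, rfl⟩
      have hcA : c ∈ A := hc ▸ hconj n⁻¹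
      have e : t * (n * a * n⁻¹) * t⁻¹ = n * (c * (t * a * t⁻¹) * c⁻¹) * n⁻¹ := by
        rw [hc]; group
      rw [e, hat, hAc c hcA a⁻¹ (A.inv_mem haA), mul_inv_cancel_right]
      group
    -- the quotient is abelian
    obtain ⟨q₁, q₂, hq⟩ := hnc
    obtain ⟨n, rfl⟩ := QuotientGroup.mk_surjective q₁
    obtain ⟨m, rfl⟩ := QuotientGroup.mk_surjective q₂
    apply hq
    have h1 : n * m * n⁻¹ * m⁻¹ ∈ Subgroup.centralizer (Ap : Set N) :=
      comm_mem_centralizer_of_cyclic Ap n m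
    have h2 : n * m * n⁻¹ * m⁻¹ ∈ Subgroup.centralizer (Am : Set N) :=
      comm_mem_centralizer_of_cyclic Am n m
    have h3 : n * m * n⁻¹ * m⁻¹ ∈ A := by
      rw [← hAself, ← hsupeq]
      have hle : Ap ⊔ Am ≤ Subgroup.centralizer ({n * m * n⁻¹ * m⁻¹} : Set N) := by
        refine sup_le ?_ ?_
        · intro a ha
          rw [Subgroup.mem_centralizer_iff]
          intro y hy
          rw [Set.mem_singleton_iff] at hy
          rw [hy]
          exact ((Subgroup.mem_centralizer_iff.mp h1) a ha).symm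
        · intro a ha
          rw [Subgroup.mem_centralizer_iff]
          intro y hy
          rw [Set.mem_singleton_iff] at hy
          rw [hy]
          exact ((Subgroup.mem_centralizer_iff.mp h2) a ha).symm
      rw [Subgroup.mem_centralizer_iff]
      intro a ha
      exact ((Subgroup.mem_centralizer_iff.mp (hle ha)) _ rfl).symm
    have h4 : ((n * m * n⁻¹ * m⁻¹ : N) : N ⧸ A) = 1 := (QuotientGroup.eq_one_iff _).mpr h3
    have h5 : ((n * m * n⁻¹ * m⁻¹ : N) : N ⧸ A) =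
        (n : N ⧸ A) * (m : N ⧸ A) * (n : N ⧸ A)⁻¹ * (m : N ⧸ A)⁻¹ := rfl
    rw [h5] at h4
    calc (n : N ⧸ A) * (m : N ⧸ A)
        = ((n : N ⧸ A) * (m : N ⧸ A) * (n : N ⧸ A)⁻¹ * (m : N ⧸ A)⁻¹) *
            ((m : N ⧸ A) * (n : N ⧸ A)) := by group
      _ = (m : N ⧸ A) * (n : N ⧸ A) := by rw [h4, one_mul]

theorem s3075 [Finite N] {p : ℕ} [Fact p.Prime] (hp : p ≠ 2)
    (A : Subgroup N) [A.Normal] (hAcomm : IsMulCommutative A) (hAcard : Nat.card A = p ^ 2)
    (hAself : Subgroup.centralizer (A : Set N) = A)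
    {F : Type*} [Field F] [Fintype F] (hF : Fintype.card F = p)
    (e : N ⧸ A ≃* Matrix.SpecialLinearGroup (Fin 2) F) :
    ∃ U : Subgroup N, A ⊓ U = ⊥ ∧ A ⊔ U = ⊤ := by
  refine split_of_central_involution hp A hAcomm hAcard hAself (e.symm zmat) ?_ ?_ ?_ ?_
  · rw [← map_pow, zmat_sq, map_one]
  · intro h
    apply zmat_ne_one (neg_one_ne_one hp hF)
    have := congrArg e h
    rwa [MulEquiv.apply_symm_apply, map_one] at this
  · intro q
    apply e.injective
    rw [map_mul, map_mul, MulEquiv.apply_symm_apply]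
    exact zmat_comm (e q)
  · refine ⟨e.symm umat, e.symm vmat, ?_⟩
    intro h
    apply umat_vmat (F := F)
    have := congrArg e h
    rwa [map_mul, map_mul, MulEquiv.apply_symm_apply, MulEquiv.apply_symm_apply] at this

end Cfsg.Agent.Lib_helper7_SL2Split
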