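import Mathlib
import Cfsg.Agent.Lib_helper1_Basic
import Cfsg.Agent.Lib_helper1_Subnormal
import Cfsg.Agent.Lib_helper1_MinNormalAux
import Cfsg.Agent.Lib_helper7_Sylow
import Cfsg.Agent.Lib_helper7_SylSubn
import Cfsg.Agent.Lib_helper7_Alperin

/-! Sylow subgroups of the join of two subnormal subgroups. -/

namespace Cfsg.Agent.Lib_helper7_SubJoin

universe u

/-- A `p`-subgroup of index prime to `p` meets a subnormal subgroup in such a subgroup. -/
theorem inf_subnormal {G : Type*} [Group G] [Finite G] {p : ℕ} [Fact p.Prime] (S K : Subgroup G)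
    (hS : IsPGroup p S) (hidx : ¬ p ∣ S.index) (hK : K.IsSubnormal) :
    ¬ p ∣ (K ⊓ S).relIndex K := by
  have h := Cfsg.Agent.Lib_helper7_SylSubn.sylow_inf_subnormal (hS.toSylow hidx) K hK
  rw [IsPGroup.toSylow_coe, inf_comm] at h
  exact h

theorem central_comm {G : Type*} [Group G] (t t' m m' : G) (c1 : ∀ g, g * m = m * g)
    (c2 : ∀ g, g * m' = m' * g) :
    (t * m) * (t' * m') * (t * m)⁻¹ * (t' * m')⁻¹ = t * t' * t⁻¹ * t'⁻¹ := by
  have k1 : ∀ (m : G), (∀ g, g * m = m * g) → ∀ x, m * x * m⁻¹ = x := fun m hm x => by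
    rw [← hm x, mul_inv_cancel_right]
  calc (t * m) * (t' * m') * (t * m)⁻¹ * (t' * m')⁻¹
      = t * (m * (t' * m') * m⁻¹) * t⁻¹ * m'⁻¹ * t'⁻¹ := by group
    _ = t * (t' * m') * t⁻¹ * m'⁻¹ * t'⁻¹ := by rw [k1 m c1]
    _ = t * t' * (m' * t⁻¹ * m'⁻¹) * t'⁻¹ := by group
    _ = t * t' * t⁻¹ * t'⁻¹ := by rw [k1 m' c2]

theorem main_aux (p : ℕ) [Fact p.Prime] (n : ℕ) : ∀ (G : Type u) [Group G] [Finite G],
    Nat.card G = n →
    ∀ (S H K : Subgroup G), IsPGroup p S → ¬ p ∣ S.index → H.IsSubnormal → K.IsSubnormal →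
      (H ⊔ K) ⊓ S ≤ (H ⊓ S) ⊔ (K ⊓ S) := by
  induction n using Nat.strong_induction_on with
  | _ n ih =>
  intro G _ _ hn S H K hS hidx hH hK
  have hp : p.Prime := Fact.out
  -- Step 1: the case of a proper join
  have hprop : ∀ A B : Subgroup G, A.IsSubnormal → B.IsSubnormal → A ⊔ B ≠ ⊤ →
      (A ⊔ B) ⊓ S ≤ (A ⊓ S) ⊔ (B ⊓ S) := by
    intro A B hA hB hne
    have hJs : (A ⊔ B).IsSubnormal :=
      Cfsg.Agent.Lib_helper1_Subnormal.sup_isSubnormal A B hA hB
    obtain ⟨J, hJ⟩ : ∃ J : Subgroup G, J = A ⊔ B := ⟨_, rfl⟩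
    rw [← hJ] at hJs hne ⊢
    have hcard : Nat.card J < n := by
      rw [← hn]
      exact lt_of_le_of_ne (Subgroup.card_le_card_group J)
        (fun h => hne ((Subgroup.card_eq_iff_eq_top J).mp h))
    have hAJ : A ≤ J := hJ ▸ le_sup_left
    have hBJ : B ≤ J := hJ ▸ le_sup_right
    have hidxJ : ¬ p ∣ (S.subgroupOf J).index := by
      have h := inf_subnormal S J hS hidx hJs
      rw [inf_comm, Subgroup.inf_relIndex_right] at h
      exact h
    have key := ih (Nat.card J) hcard J rfl (S.subgroupOf J) (A.subgroupOf J) (B.subgroupOf J)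
      hS.comap_subtype hidxJ hA.subgroupOf hB.subgroupOf
    intro x hx
    have hxJ : x ∈ J := hx.1
    have h1 : (⟨x, hxJ⟩ : J) ∈ (A.subgroupOf J ⊔ B.subgroupOf J) ⊓ S.subgroupOf J := by
      refine Subgroup.mem_inf.mpr ⟨?_, Subgroup.mem_subgroupOf.mpr hx.2⟩
      rw [← Subgroup.subgroupOf_sup hAJ hBJ, Subgroup.mem_subgroupOf, ← hJ]
      exact hxJ
    have h2 := key h1
    have h3 : x ∈ ((A.subgroupOf J ⊓ S.subgroupOf J) ⊔
        (B.subgroupOf J ⊓ S.subgroupOf J)).map J.subtype := ⟨⟨x, hxJ⟩, h2, rfl⟩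
    rw [Subgroup.map_sup] at h3
    refine (show Subgroup.map J.subtype (A.subgroupOf J ⊓ S.subgroupOf J) ⊔
        Subgroup.map J.subtype (B.subgroupOf J ⊓ S.subgroupOf J) ≤ A ⊓ S ⊔ B ⊓ S from
      sup_le_sup ?_ ?_) h3
    · rintro _ ⟨y, hy, rfl⟩
      exact ⟨Subgroup.mem_subgroupOf.mp hy.1, Subgroup.mem_subgroupOf.mp hy.2⟩
    · rintro _ ⟨y, hy, rfl⟩
      exact ⟨Subgroup.mem_subgroupOf.mp hy.1, Subgroup.mem_subgroupOf.mp hy.2⟩
  by_cases hHK : H ⊔ K = ⊤
  swap
  · exact hprop H K hH hK hHK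
  by_cases hHt : H = ⊤
  · subst hHt; intro x hx; exact Subgroup.mem_sup_left ⟨Subgroup.mem_top x, hx.2⟩
  by_cases hKt : K = ⊤
  · subst hKt; intro x hx; exact Subgroup.mem_sup_right ⟨Subgroup.mem_top x, hx.2⟩
  rw [hHK, top_inf_eq]
  obtain ⟨T, hT⟩ : ∃ T : Subgroup G, T = (H ⊓ S) ⊔ (K ⊓ S) := ⟨_, rfl⟩
  rw [← hT]
  have hTS : T ≤ S := hT ▸ sup_le inf_le_right inf_le_right
  have hHST : H ⊓ S ≤ T := hT ▸ le_sup_left
  have hKST : K ⊓ S ≤ T := hT ▸ le_sup_right
  -- Step 2: quotients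
  have hF1a : ∀ N : Subgroup G, N.Normal → N ≠ ⊥ → S ≤ T ⊔ N := by
    intro N hN hNbot
    haveI := hN
    have hcard : Nat.card (G ⧸ N) < n := by
      rw [← hn, Subgroup.card_eq_card_quotient_mul_card_subgroup N]
      have h1 : 1 < Nat.card N := (Subgroup.one_lt_card_iff_ne_bot N).mpr hNbot
      have h2 : 0 < Nat.card (G ⧸ N) := Nat.card_pos
      nlinarith
    obtain ⟨f, hfdef⟩ : ∃ f : G →* G ⧸ N, f = QuotientGroup.mk' N := ⟨_, rfl⟩
    have hf : Function.Surjective f := hfdef ▸ QuotientGroup.mk'_surjective N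
    have hker : f.ker = N := hfdef ▸ QuotientGroup.ker_mk' N
    have key := ih _ hcard (G ⧸ N) rfl (S.map f) (H.map f) (K.map f) (hS.map f)
      (fun h => hidx (h.trans (Subgroup.index_map_dvd S hf))) (hH.map hf) (hK.map hf)
    have htop : H.map f ⊔ K.map f = ⊤ := by
      rw [← Subgroup.map_sup, hHK]; exact Subgroup.map_top_of_surjective f hf
    rw [htop, top_inf_eq] at key
    have hmap : ∀ A : Subgroup G, A.IsSubnormal → A.map f ⊓ S.map f ≤ (A ⊓ S).map f := by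
      intro A hA
      have h1 : ¬ p ∣ (A ⊓ S).relIndex A := inf_subnormal S A hS hidx hA
      have h2 : ¬ p ∣ ((A ⊓ S).map f).relIndex (A.map f) := by
        rw [← Subgroup.relIndex_comap]
        intro h
        exact h1 (h.trans (Subgroup.relIndex_dvd_of_le_left A (Subgroup.le_comap_map f (A ⊓ S))))
      have h3 := Cfsg.Agent.Lib_helper7_Alperin.eq_of_relIndex ((A ⊓ S).map f)
        (A.map f ⊓ S.map f) (A.map f)
        (le_inf (Subgroup.map_mono inf_le_left) (Subgroup.map_mono inf_le_right)) inf_le_left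
        ((hS.map f).to_le inf_le_right) h2
      rw [← h3]
    have h5 : S.map f ≤ T.map f := by
      refine key.trans ?_
      rw [hT, Subgroup.map_sup]
      exact sup_le_sup (hmap H hH) (hmap K hK)
    intro x hx
    have h6 : f x ∈ T.map f := h5 (Subgroup.mem_map_of_mem f hx)
    have h7 : x ∈ (T.map f).comap f := h6
    rw [Subgroup.comap_map_eq, hker] at h7
    exact h7
  have hF1b : ∀ N : Subgroup G, N.Normal → N ≠ ⊥ → N ⊓ S ≤ T → S ≤ T := by
    intro N hN hNbot hNS x hx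
    haveI := hN
    obtain ⟨t, ht, m, hm, rfl⟩ := Subgroup.mem_sup_of_normal_right.mp (hF1a N hN hNbot hx)
    have hmS : m ∈ S := by
      have := S.mul_mem (S.inv_mem (hTS ht)) hx
      simpa using this
    exact T.mul_mem ht (hNS ⟨hm, hmS⟩)
  -- Step 3: minimal normal subgroups are central
  have hF2 : ∀ N : Subgroup G, N.Normal → N ≠ ⊥ →
      (∀ K' : Subgroup G, K'.Normal → K' ≤ N → K' = ⊥ ∨ K' = N) → ¬ S ≤ T →
      N ≤ Subgroup.center G := by
    intro N hN hNbot hmin hcontra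
    haveI := hN
    have hNH : N ≤ Subgroup.normalizer (H : Set G) :=
      Cfsg.Agent.Lib_helper1_MinNormalAux.minNormal_le_normalizer G H N hH hN hmin
    have hNK : N ≤ Subgroup.normalizer (K : Set G) :=
      Cfsg.Agent.Lib_helper1_MinNormalAux.minNormal_le_normalizer G K N hK hN hmin
    have hNt : N ≠ ⊤ := by
      intro hNt
      obtain ⟨M, hMn, hHM, hMt⟩ := hH.exists_normal_and_le_and_lt_top_of_ne hHt
      obtain ⟨M', hM'n, hKM', hM't⟩ := hK.exists_normal_and_le_and_lt_top_of_ne hKt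
      have hM : M = ⊥ := by
        rcases hmin M hMn (hNt ▸ le_top) with h | h
        · exact h
        · exact absurd (h.trans hNt) hMt.ne
      have hM' : M' = ⊥ := by
        rcases hmin M' hM'n (hNt ▸ le_top) with h | h
        · exact h
        · exact absurd (h.trans hNt) hM't.ne
      have h1 : H ⊔ K ≤ ⊥ := sup_le (hM ▸ hHM) (hM' ▸ hKM')
      rw [hHK] at h1
      exact hNbot (hNt.trans (le_bot_iff.mp h1))
    -- conjugation by elements of `A` preserves `(A ⊓ N) ⊔ (B ⊓ N)`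
    have hconj : ∀ (A B : Subgroup G), N ≤ Subgroup.normalizer (A : Set G) → ∀ a ∈ A,
        a ∈ Subgroup.normalizer (((A ⊓ N) ⊔ (B ⊓ N) : Subgroup G) : Set G) := by
      intro A B hNA a ha
      apply Cfsg.Agent.Lib_helper7_Sylow.mem_normalizer_of_conj_le
      rw [Subgroup.map_sup]
      refine sup_le ?_ ?_
      · rintro _ ⟨x, hx, rfl⟩
        refine Subgroup.mem_sup_left ⟨?_, ?_⟩
        · show a * x * a⁻¹ ∈ A
          exact A.mul_mem (A.mul_mem ha hx.1) (A.inv_mem ha)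
        · show a * x * a⁻¹ ∈ N
          exact hN.conj_mem x hx.2 a
      · rintro _ ⟨x, hx, rfl⟩
        show a * x * a⁻¹ ∈ (A ⊓ N) ⊔ (B ⊓ N)
        have e : a * x * a⁻¹ = (a * (x * a⁻¹ * x⁻¹)) * x := by group
        rw [e]
        refine Subgroup.mul_mem _ (Subgroup.mem_sup_left ⟨?_, ?_⟩) (Subgroup.mem_sup_right hx)
        · exact A.mul_mem ha ((Subgroup.mem_normalizer_iff.mp (hNA hx.2) a⁻¹).mp (A.inv_mem ha))
        · have h1 : a * x * a⁻¹ ∈ N := hN.conj_mem x hx.2 a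
          have h2 := N.mul_mem h1 (N.inv_mem hx.2)
          have e2 : a * (x * a⁻¹ * x⁻¹) = a * x * a⁻¹ * x⁻¹ := by group
          rw [e2]; exact h2
    have hcomm : ∀ A : Subgroup G, N ≤ Subgroup.normalizer (A : Set G) → A ⊓ N = ⊥ →
        ∀ z ∈ N, ∀ a ∈ A, z * a = a * z := by
      intro A hNA hbot z hz a ha
      have h1 : z * a * z⁻¹ * a⁻¹ ∈ A ⊓ N := by
        refine ⟨A.mul_mem ((Subgroup.mem_normalizer_iff.mp (hNA hz) a).mp ha) (A.inv_mem ha), ?_⟩
        have := N.mul_mem hz (hN.conj_mem z⁻¹ (N.inv_mem hz) a)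
        simpa [mul_assoc] using this
      rw [hbot, Subgroup.mem_bot] at h1
      calc z * a = (z * a * z⁻¹ * a⁻¹) * (a * z) := by group
        _ = a * z := by rw [h1, one_mul]
    obtain ⟨N₁, hN₁⟩ : ∃ N₁ : Subgroup G, N₁ = (H ⊓ N) ⊔ (K ⊓ N) := ⟨_, rfl⟩
    have hN₁N : N₁ ≤ N := hN₁ ▸ sup_le inf_le_right inf_le_right
    have hN₁n : N₁.Normal := by
      rw [← Subgroup.normalizer_eq_top_iff, eq_top_iff, ← hHK]
      refine sup_le ?_ ?_
      · intro a ha
        rw [hN₁]; exact hconj H K hNH a ha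
      · intro a ha
        rw [hN₁, sup_comm]; exact hconj K H hNK a ha
    rcases hmin N₁ hN₁n hN₁N with h0 | h1
    · rw [hN₁, sup_eq_bot_iff] at h0
      intro z hz
      have hcz : H ⊔ K ≤ Subgroup.centralizer ({z} : Set G) := by
        refine sup_le ?_ ?_
        · intro a ha
          rw [Subgroup.mem_centralizer_iff]
          intro y hy
          rw [Set.mem_singleton_iff] at hy
          subst hy
          exact hcomm H hNH h0.1 y hz a ha
        · intro a ha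
          rw [Subgroup.mem_centralizer_iff]
          intro y hy
          rw [Set.mem_singleton_iff] at hy
          subst hy
          exact hcomm K hNK h0.2 y hz a ha
      rw [hHK] at hcz
      rw [Subgroup.mem_center_iff]
      intro g
      exact ((Subgroup.mem_centralizer_iff.mp (hcz (Subgroup.mem_top g))) z rfl).symm
    · exfalso
      apply hcontra
      apply hF1b N hN hNbot
      have h2 := hprop (H ⊓ N) (K ⊓ N) (hH.inf hN.isSubnormal) (hK.inf hN.isSubnormal)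
        (by rw [← hN₁, h1]; exact hNt)
      rw [← hN₁, h1] at h2
      exact h2.trans ((sup_le_sup (inf_le_inf_right S inf_le_left)
        (inf_le_inf_right S inf_le_left)).trans hT.ge)
  -- Step 4: transfer
  by_contra hcontra
  have htop : (⊤ : Subgroup G) ≠ ⊥ := by
    intro h
    apply hcontra
    intro x hx
    have hx' : x ∈ (⊥ : Subgroup G) := h ▸ Subgroup.mem_top x
    rw [Subgroup.mem_bot] at hx'
    rw [hx']; exact T.one_mem
  obtain ⟨N, ⟨hNn, hNbot, -⟩, hNmin'⟩ := Cfsg.Agent.Lib_helper1_Basic.exists_minimal_subgroup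
    (fun X : Subgroup G => X.Normal ∧ X ≠ ⊥ ∧ X ≤ ⊤) ⟨⊤, inferInstance, htop, le_rfl⟩
  have hNmin : ∀ K' : Subgroup G, K'.Normal → K' ≤ N → K' = ⊥ ∨ K' = N := by
    intro K' hK' hle
    by_cases h0 : K' = ⊥
    · exact Or.inl h0
    · exact Or.inr (hNmin' K' ⟨hK', h0, le_top⟩ hle)
  have hNc : N ≤ Subgroup.center G := hF2 N hNn hNbot hNmin hcontra
  have hNS : ¬ N ⊓ S ≤ T := fun h => hcontra (hF1b N hNn hNbot h)
  have hSTN := hF1a N hNn hNbot
  have hcomm : ∀ a ∈ S, ∀ b ∈ S, a * b * a⁻¹ * b⁻¹ ∈ T := by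
    intro a ha b hb
    haveI := hNn
    obtain ⟨t, ht, m, hm, rfl⟩ := Subgroup.mem_sup_of_normal_right.mp (hSTN ha)
    obtain ⟨t', ht', m', hm', rfl⟩ := Subgroup.mem_sup_of_normal_right.mp (hSTN hb)
    rw [central_comm t t' m m' (Subgroup.mem_center_iff.mp (hNc hm))
      (Subgroup.mem_center_iff.mp (hNc hm'))]
    exact T.mul_mem (T.mul_mem (T.mul_mem ht ht') (T.inv_mem ht)) (T.inv_mem ht')
  have hcommS : commutator S ≤ T.subgroupOf S := by
    rw [commutator_def, Subgroup.commutator_le]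
    intro a _ b _
    rw [Subgroup.mem_subgroupOf]
    show (a : G) * (b : G) * (a : G)⁻¹ * (b : G)⁻¹ ∈ T
    exact hcomm a a.2 b b.2
  obtain ⟨τ, hτdef⟩ : ∃ τ : G →* Abelianization S,
      τ = MonoidHom.transfer (Abelianization.of : S →* Abelianization S) := ⟨_, rfl⟩
  have hτ : ∀ z ∈ N, z ∈ S → z ∉ T → τ z ≠ 1 := by
    intro z hzN hzS hzT h1
    have hzc : ∀ g, g * z = z * g := Subgroup.mem_center_iff.mp (hNc hzN)
    have key : ∀ (k : ℕ) (g₀ : G), g₀⁻¹ * z ^ k * g₀ ∈ S → g₀⁻¹ * z ^ k * g₀ = z ^ k := by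
      intro k g₀ _
      have hc : Commute g₀ (z ^ k) := Commute.pow_right (hzc g₀) k
      rw [mul_assoc, ← hc.eq, inv_mul_cancel_left]
    have h2 := MonoidHom.transfer_eq_pow (Abelianization.of : S →* Abelianization S) z key
    obtain ⟨w, hw1, hw2⟩ : ∃ w : S, τ z = Abelianization.of w ∧ (w : G) = z ^ S.index :=
      ⟨_, hτdef ▸ h2, rfl⟩
    rw [hw1] at h1
    have h3 : w ∈ commutator S := by
      rw [← Abelianization.ker_of]; exact MonoidHom.mem_ker.mpr h1
    have h4 : z ^ S.index ∈ T := by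
      rw [← hw2]; exact Subgroup.mem_subgroupOf.mp (hcommS h3)
    obtain ⟨k, hk⟩ := (IsPGroup.iff_orderOf.mp hS) ⟨z, hzS⟩
    rw [Subgroup.orderOf_mk] at hk
    have hcop : Nat.Coprime S.index (orderOf z) := by
      rw [hk]
      exact (((Nat.Prime.coprime_iff_not_dvd hp).mpr hidx).symm).pow_right k
    obtain ⟨m, hm⟩ := exists_pow_eq_self_of_coprime hcop
    apply hzT
    rw [← hm]
    exact T.pow_mem h4 m
  obtain ⟨z₀, hz₀, hz₀T⟩ := SetLike.not_le_iff_exists.mp hNS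
  by_cases hker : τ.ker = ⊥
  · have hinj : Function.Injective τ := (MonoidHom.ker_eq_bot_iff τ).mp hker
    have hab : ∀ a b : G, a * b = b * a := by
      intro a b
      apply hinj
      rw [map_mul, map_mul, mul_comm]
    have hHn : H.Normal := ⟨fun x hx g => by rw [hab g x, mul_inv_cancel_right]; exact hx⟩
    by_cases hHb : H = ⊥
    · apply hKt
      rw [← hHK, hHb, bot_sup_eq]
    · exact hcontra (hF1b H hHn hHb hHST)
  · obtain ⟨N', ⟨hN'n, hN'bot, hN'ker⟩, hN'min'⟩ :=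
      Cfsg.Agent.Lib_helper1_Basic.exists_minimal_subgroup
        (fun X : Subgroup G => X.Normal ∧ X ≠ ⊥ ∧ X ≤ τ.ker) ⟨τ.ker, inferInstance, hker, le_rfl⟩
    have hN'min : ∀ K' : Subgroup G, K'.Normal → K' ≤ N' → K' = ⊥ ∨ K' = N' := by
      intro K' hK' hle
      by_cases h0 : K' = ⊥
      · exact Or.inl h0
      · exact Or.inr (hN'min' K' ⟨hK', h0, hle.trans hN'ker⟩ hle)
    have hN'c : N' ≤ Subgroup.center G := hF2 N' hN'n hN'bot hN'min hcontra
    have hN'S : ¬ N' ⊓ S ≤ T := fun h => hcontra (hF1b N' hN'n hN'bot h)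
    obtain ⟨z', hz', hz'T⟩ := SetLike.not_le_iff_exists.mp hN'S
    haveI := hNn
    obtain ⟨t, ht, m, hm, hz'eq⟩ := Subgroup.mem_sup_of_normal_right.mp (hSTN hz'.2)
    have htc : t ∈ Subgroup.center G := by
      have := (Subgroup.center G).mul_mem (hN'c hz'.1) ((Subgroup.center G).inv_mem (hNc hm))
      rwa [← hz'eq, mul_inv_cancel_right] at this
    have ht1 : t ≠ 1 := by
      intro h
      rw [h, one_mul] at hz'eq
      have h1 : τ m ≠ 1 := hτ m hm (hz'eq ▸ hz'.2) (hz'eq ▸ hz'T)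
      exact h1 (MonoidHom.mem_ker.mp (hN'ker (hz'eq ▸ hz'.1)))
    have hXn : (Subgroup.zpowers t).Normal := by
      refine ⟨fun x hx g => ?_⟩
      have hxc : x ∈ Subgroup.center G := (Subgroup.zpowers_le.mpr htc) hx
      rw [Subgroup.mem_center_iff.mp hxc g, mul_inv_cancel_right]
      exact hx
    exact hcontra (hF1b (Subgroup.zpowers t) hXn (Subgroup.zpowers_ne_bot.mpr ht1)
      (inf_le_left.trans (Subgroup.zpowers_le.mpr ht)))

theorem s3028 {G : Type u} [Group G] [Finite G] {p : ℕ} [Fact p.Prime] (S : Sylow p G)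
    (A₁ A₂ : Subgroup G) (h₁ : A₁.IsSubnormal) (h₂ : A₂.IsSubnormal) :
    (A₁ ⊔ A₂) ⊓ (S : Subgroup G) = (A₁ ⊓ (S : Subgroup G)) ⊔ (A₂ ⊓ (S : Subgroup G)) :=
  le_antisymm (main_aux p _ G rfl S A₁ A₂ S.isPGroup' S.not_dvd_index h₁ h₂)
    (sup_le (inf_le_inf_right _ le_sup_left) (inf_le_inf_right _ le_sup_right))

end Cfsg.Agent.Lib_helper7_SubJoin
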