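import Cfsg.Agent.Lib_helper7_AlperinP
import Cfsg.Prelude.Def_SylowChains

set_option autoImplicit false

namespace Cfsg.Agent.Lib_helper7_SylCtl

open Cfsg Cfsg.Agent.Lib_helper7_Sylow Cfsg.Agent.Lib_helper7_Alperin
  Cfsg.Agent.Lib_helper7_WellPlaced

variable {G : Type*} [Group G] [Finite G] {p : ℕ} [Fact p.Prime]

theorem sylowMembers_iff (𝓕 : Set (Subgroup G)) (S : Subgroup G) (hS : IsPGroup p S)
    (X : Subgroup G) :
    X ∈ Cfsg.sylowMembers p 𝓕 S ↔ X ∈ 𝓕 ∧ ¬ p ∣ (S ⊓ X).relIndex X := by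
  constructor
  · rintro ⟨hX, P, hP⟩
    refine ⟨hX, ?_⟩
    have h1 : (S ⊓ X).subgroupOf X = P := by
      rw [← hP]
      exact Subgroup.comap_map_eq_self_of_injective X.subtype_injective _
    unfold Subgroup.relIndex
    rw [h1]
    exact P.not_dvd_index
  · rintro ⟨hX, hidx⟩
    refine ⟨hX, IsPGroup.toSylow (P := (S ⊓ X).subgroupOf X)
      (hS.to_le inf_le_left).comap_subtype hidx, ?_⟩
    exact Subgroup.map_subgroupOf_eq_of_le inf_le_right

/-- conjugating members -/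
theorem sylowMembers_conj (𝓕 : Set (Subgroup G)) (h𝓕 : Cfsg.IsNormalSet 𝓕) (S : Sylow p G)
    (m : G) (X : Subgroup G)
    (hX : X ∈ Cfsg.sylowMembers p 𝓕 ((m • S : Sylow p G) : Subgroup G)) :
    Cfsg.subgroupConjRight m X ∈ Cfsg.sylowMembers p 𝓕 (S : Subgroup G) := by
  rw [sylowMembers_iff _ _ (m • S).isPGroup'] at hX
  rw [sylowMembers_iff _ _ S.isPGroup']
  refine ⟨h𝓕 X hX.1 m, ?_⟩
  have h1 : (S : Subgroup G) ⊓ Cfsg.subgroupConjRight m X =
      (((m • S : Sylow p G) : Subgroup G) ⊓ X).map (MulAut.conj m⁻¹).toMonoidHom := by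
    rw [Subgroup.map_inf _ _ _ (MulAut.conj m⁻¹).injective, ← Cfsg.Agent.Lib_helper7_AlperinP.coe_inv_smul, inv_smul_smul]
    rfl
  rw [h1]
  unfold Cfsg.subgroupConjRight
  rw [relIndex_conj]
  exact hX.2

/-- one edge of the Sylow graph, through the controlling family -/
theorem good_step (𝓕 : Set (Subgroup G)) (h𝓕 : Cfsg.IsNormalSet 𝓕)
    (hc : Cfsg.ControlsSylowIntersections p 𝓕) (S : Sylow p G) (M : Subgroup G)
    (hM : ∀ X ∈ Cfsg.sylowMembers p 𝓕 (S : Subgroup G), X ≤ M) (S' T' : Sylow p G)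
    (hne : S' ≠ T') (hinf : (S' : Subgroup G) ⊓ (T' : Subgroup G) ≠ ⊥)
    (hS' : ∃ m ∈ M, S' = m • S) : ∃ m ∈ M, T' = m • S := by
  obtain ⟨n, c, X, x, h0, hlast, hstep⟩ := hc S' T' hne hinf
  have key : ∀ i : Fin (n + 1), ∃ m ∈ M, c i = m • S := by
    intro i
    induction i using Fin.induction with
    | zero => rw [h0]; exact hS'
    | succ i ih =>
      obtain ⟨m, hm, hcm⟩ := ih
      obtain ⟨hX1, -, hx, hconj, -⟩ := hstep i
      rw [hcm] at hX1
      have hY := sylowMembers_conj 𝓕 h𝓕 S m (X i) hX1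
      have hxM : x i ∈ M := by
        have h1 : m⁻¹ * x i * m ∈ M :=
          hM _ hY ⟨x i, hx, by show m⁻¹ * x i * m⁻¹⁻¹ = _; rw [inv_inv]⟩
        have : m * (m⁻¹ * x i * m) * m⁻¹ ∈ M := M.mul_mem (M.mul_mem hm h1) (M.inv_mem hm)
        have e : m * (m⁻¹ * x i * m) * m⁻¹ = x i := by group
        rwa [e] at this
      refine ⟨x i * m, M.mul_mem hxM hm, ?_⟩
      have h2 : (x i)⁻¹ • c i.succ = c i.castSucc := by
        apply Sylow.ext
        rw [Cfsg.Agent.Lib_helper7_AlperinP.coe_inv_smul]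
        exact hconj
      rw [mul_smul, ← hcm, ← h2, smul_inv_smul]
  rw [← hlast]; exact key (Fin.last n)

/-- generation by the members meeting `S` in a Sylow subgroup and `N(S)` -/
theorem generation (𝓕 : Set (Subgroup G)) (h𝓕 : Cfsg.IsNormalSet 𝓕)
    (hc : Cfsg.ControlsSylowIntersections p 𝓕) (hconn : Cfsg.IsSylowChainConnected p G)
    (S : Sylow p G) :
    (⨆ X ∈ Cfsg.sylowMembers p 𝓕 (S : Subgroup G), X) ⊔
      Subgroup.normalizer ((S : Subgroup G) : Set G) = ⊤ := by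
  set M := (⨆ X ∈ Cfsg.sylowMembers p 𝓕 (S : Subgroup G), X) ⊔
    Subgroup.normalizer ((S : Subgroup G) : Set G) with hM
  rw [eq_top_iff]
  intro g _
  have hMX : ∀ X ∈ Cfsg.sylowMembers p 𝓕 (S : Subgroup G), X ≤ M := fun X hX =>
    (le_iSup₂ (f := fun X _ => X) X hX).trans le_sup_left
  obtain ⟨n, c, h0, hlast, -, hstep⟩ := hconn S (g • S)
  have key : ∀ i : Fin (n + 1), ∃ m ∈ M, c i = m • S := by
    intro i
    induction i using Fin.induction with
    | zero => exact ⟨1, M.one_mem, by rw [h0, one_smul]⟩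
    | succ i ih => exact good_step 𝓕 h𝓕 hc S M hMX _ _ (hstep i).1 (hstep i).2 ih
  obtain ⟨m, hm, hcm⟩ := key (Fin.last n)
  rw [hlast] at hcm
  have h1 : (m⁻¹ * g) • S = S := by rw [mul_smul, hcm, inv_smul_smul]
  have h2 : m⁻¹ * g ∈ Subgroup.normalizer ((S : Subgroup G) : Set G) :=
    Sylow.smul_eq_iff_mem_normalizer.mp h1
  have h3 : Subgroup.normalizer ((S : Subgroup G) : Set G) ≤ M := le_sup_right
  have : m * (m⁻¹ * g) ∈ M := M.mul_mem hm (h3 h2)
  rwa [mul_inv_cancel_left] at this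

end Cfsg.Agent.Lib_helper7_SylCtl
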