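import Cfsg.Agent.Lib_helper7_SylGraph
import Cfsg.Agent.Lib_helper7_RankOne
import Cfsg.Agent.Lib_helper7_CoprimeGen
import Cfsg.Agent.Lib_helper7_OddCyclic
import Cfsg.Agent.Lib_helper7_PPrimeP
import Cfsg.Agent.Lib_helper1_UniqInv
import Cfsg.Agent.Lib_helper2_PComp
import Cfsg.Agent.Lib_helper5_PSolv
import Cfsg.Prelude.Def_Local
import Cfsg.Prelude.Def_Solvable
import Cfsg.Prelude.Def_SylowChains

set_option autoImplicit false

open scoped Pointwise

namespace Cfsg.Agent.Lib_helper7_SylSolv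

open Cfsg Cfsg.Agent.Lib_helper7_SylGraph Cfsg.Agent.Lib_helper7_RankOne
  Cfsg.Agent.Lib_helper7_SE2

universe u

/-- a noncyclic, non-quaternion `p`-group has a "rank two" pair of elements -/
theorem exists_pair {P : Type u} [Group P] [Finite P] (p : ℕ) [hp : Fact p.Prime]
    (hP : IsPGroup p P)
    (hnot : ¬ (IsCyclic P ∨ (p = 2 ∧ ∃ n : ℕ, Nonempty (P ≃* QuaternionGroup (2 ^ n))))) :
    ∃ x y : P, x * y = y * x ∧ x ^ p = 1 ∧ y ^ p = 1 ∧ x ≠ 1 ∧ ∀ k : ℕ, y * x ^ k ≠ 1 := by
  push Not at hnot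
  obtain ⟨hnc, hnq⟩ := hnot
  by_cases hp2 : p = 2
  · subst hp2
    have hui : ¬ Cfsg.Agent.Lib_helper1_UniqInv.UI P := by
      intro hui
      rcases Cfsg.Agent.Lib_helper1_UniqInv.two_group_ui hP hui with h | ⟨n, hn⟩
      · exact hnc h
      · obtain ⟨n', hn'⟩ : ∃ n' : ℕ, Nonempty (P ≃* QuaternionGroup (2 ^ n')) := ⟨n, hn⟩
        exact (hnq rfl n').false hn'.some
    unfold Cfsg.Agent.Lib_helper1_UniqInv.UI at hui
    push Not at hui
    obtain ⟨u, v, hu2, hv2, hu1, hv1, huv⟩ := hui
    haveI : Nontrivial P := ⟨⟨u, 1, hu1⟩⟩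
    haveI := hP.center_nontrivial
    have hc1 : (Subgroup.center P) ≠ ⊥ := by
      intro h
      have := (Subgroup.nontrivial_iff_ne_bot (Subgroup.center P)).mp inferInstance
      exact this h
    have hcp : IsPGroup 2 (Subgroup.center P) := hP.to_subgroup _
    obtain ⟨z, hzc, hoz⟩ := exists_orderOf_eq (Subgroup.center P)
      (Cfsg.Agent.Lib_helper7_SE.dvd_card_of_ne_bot hcp hc1)
    have hz2 : z ^ 2 = 1 := by rw [← hoz]; exact pow_orderOf_eq_one z
    have hz1 : z ≠ 1 := by
      intro h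
      rw [h, orderOf_one] at hoz
      omega
    have hzcomm : ∀ g : P, g * z = z * g := fun g => Subgroup.mem_center_iff.mp hzc g
    obtain ⟨w, hw2, hw1, hwz⟩ : ∃ w : P, w ^ 2 = 1 ∧ w ≠ 1 ∧ w ≠ z := by
      by_cases h : u = z
      · exact ⟨v, hv2, hv1, fun h' => huv (h.trans h'.symm)⟩
      · exact ⟨u, hu2, hu1, h⟩
    refine ⟨z, w, (hzcomm w).symm, hz2, hw2, hz1, ?_⟩
    intro k hk
    rw [pow_eq_pow_mod k hz2] at hk
    rcases Nat.mod_two_eq_zero_or_one k with h | h
    · rw [h, pow_zero, mul_one] at hk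
      exact hw1 hk
    · rw [h, pow_one] at hk
      apply hwz
      have h1 : w = z⁻¹ := eq_inv_of_mul_eq_one_left hk
      have h2 : z⁻¹ = z := by
        rw [inv_eq_iff_mul_eq_one, ← pow_two]; exact hz2
      rw [h1, h2]
  · have hrk : ¬ Cfsg.PRankLE p 1 P := fun h =>
      hnc (Cfsg.Agent.Lib_helper7_OddCyclic.isCyclic_of_pRankLE_one p hp2 hP h)
    unfold Cfsg.PRankLE at hrk
    push Not at hrk
    obtain ⟨A, hAc, hAp, hAcard⟩ := hrk
    rw [pow_one] at hAcard
    have hA1 : A ≠ ⊥ := by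
      intro h
      rw [h, Subgroup.card_bot] at hAcard
      have := hp.out.one_lt
      omega
    obtain ⟨x, hx1⟩ := (Subgroup.ne_bot_iff_exists_ne_one).mp hA1
    have hx1' : (x : P) ≠ 1 := fun h => hx1 (Subtype.ext h)
    have hxp : (x : P) ^ p = 1 := hAp x x.2
    have hox : orderOf (x : P) = p := orderOf_eq_prime hxp hx1'
    have hne : Subgroup.zpowers (x : P) ≠ A := by
      intro h
      rw [← h, Nat.card_zpowers, hox] at hAcard
      omega
    have hle : Subgroup.zpowers (x : P) ≤ A := by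
      rw [Subgroup.zpowers_le]; exact x.2
    obtain ⟨y, hyA, hyx⟩ : ∃ y ∈ A, y ∉ Subgroup.zpowers (x : P) := by
      by_contra hcon
      push Not at hcon
      exact hne (le_antisymm hle hcon)
    refine ⟨x, y, ?_, hxp, hAp y hyA, hx1', ?_⟩
    · have := hAc.is_comm.comm ⟨(x : P), x.2⟩ ⟨y, hyA⟩
      exact congrArg Subtype.val this
    · intro k hk
      apply hyx
      have h1 : y = ((x : P) ^ k)⁻¹ := eq_inv_of_mul_eq_one_left hk
      rw [h1]
      exact Subgroup.inv_mem _ (Subgroup.pow_mem _ (Subgroup.mem_zpowers _) k)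

variable {G : Type u} [Group G] [Finite G]

theorem s3057 (p : ℕ) [hp : Fact p.Prime] (hdiv : p ∣ Nat.card G) (hsol : Cfsg.IsPSolvable p G)
    (P : Sylow p G) :
    ¬ Cfsg.IsSylowChainConnected p G ↔
      Cfsg.pCore p G = ⊥ ∧
        (IsCyclic ↥P ∨ (p = 2 ∧ ∃ n : ℕ, Nonempty (↥P ≃* QuaternionGroup (2 ^ n)))) := by
  have hP1 : (P : Subgroup G) ≠ ⊥ := P.ne_bot_of_dvd_card hdiv
  constructor
  · intro hnc
    have hO : Cfsg.pCore p G = ⊥ := by
      by_contra hne
      obtain ⟨x, hx1⟩ := (Subgroup.ne_bot_iff_exists_ne_one).mp hne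
      have hx1' : (x : G) ≠ 1 := fun h => hx1 (Subtype.ext h)
      apply hnc
      rw [connected_iff]
      intro S T
      exact conn_of_mem (x : G) hx1' (Cfsg.Agent.Lib_helper7_PCore.pCore_le_sylow S x.2)
        (Cfsg.Agent.Lib_helper7_PCore.pCore_le_sylow T x.2)
    refine ⟨hO, ?_⟩
    by_contra hnot
    obtain ⟨x, y, hxy, hx, hy, hx1, hyk⟩ := exists_pair (P := ↥(P : Subgroup G)) p P.isPGroup' hnot
    apply hnc
    -- the component stabilizer
    have hPM : (P : Subgroup G) ≤ compStab P := le_compStab_of_conn P P (conn_refl _)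
    have hcent : ∀ a : G, a ∈ (P : Subgroup G) → a ≠ 1 →
        Subgroup.centralizer {a} ≤ compStab P := by
      intro a haP ha1 g hg
      rw [mem_compStab]
      apply conn_of_mem a ha1 haP
      rw [mem_smul_iff]
      have h1 : g * a = a * g := by
        have := Subgroup.mem_centralizer_iff.mp hg a (Set.mem_singleton a)
        exact this.symm
      have h2 : g⁻¹ * a * g = a := by
        rw [mul_assoc, ← h1, inv_mul_cancel_left]
      rw [h2]; exact haP
    have hnorm : ∀ X : Subgroup G, X ≤ (P : Subgroup G) → X ≠ ⊥ →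
        Subgroup.normalizer (X : Set G) ≤ compStab P := by
      intro X hXP hX1 g hg
      obtain ⟨a, ha1⟩ := (Subgroup.ne_bot_iff_exists_ne_one).mp hX1
      have ha1' : (a : G) ≠ 1 := fun h => ha1 (Subtype.ext h)
      rw [mem_compStab]
      apply conn_of_mem (a : G) ha1' (hXP a.2)
      rw [mem_smul_iff]
      exact hXP ((Subgroup.mem_normalizer_iff''.mp hg (a : G)).mp a.2)
    -- O_{p'}(G) ≤ M
    have hKM : Cfsg.pPrimeCore p G ≤ compStab P := by
      have hKn : (Cfsg.pPrimeCore p G).Normal := Cfsg.Agent.Lib_helper7_PPrime.pPrimeCore_normal' p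
      have hnt : Subgroup.normalizer ((Cfsg.pPrimeCore p G : Subgroup G) : Set G) = ⊤ :=
        Subgroup.normalizer_eq_top _
      have hxy' : (x : G) * (y : G) = (y : G) * (x : G) := congrArg Subtype.val hxy
      have hx' : (x : G) ^ p = 1 := by
        have := congrArg Subtype.val hx
        simpa using this
      have hy' : (y : G) ^ p = 1 := by
        have := congrArg Subtype.val hy
        simpa using this
      apply Cfsg.Agent.Lib_helper7_CoprimeGen.le_of_centralizers_le (x : G) (y : G) hxy' hx' hy'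
        (Cfsg.pPrimeCore p G) (by rw [hnt]; exact Subgroup.mem_top _)
        (by rw [hnt]; exact Subgroup.mem_top _)
        (Cfsg.Agent.Lib_helper7_PPrime.card_pPrimeCore_coprime p) (compStab P)
      · exact inf_le_right.trans (hcent (x : G) x.2 (fun h => hx1 (Subtype.ext h)))
      · intro k
        refine inf_le_right.trans (hcent ((y : G) * (x : G) ^ k)
          (Subgroup.mul_mem _ y.2 (Subgroup.pow_mem _ x.2 k)) ?_)
        intro h
        apply hyk k
        apply Subtype.ext
        simpa using h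
    -- P ∩ O_{p',p}(G) ≠ 1
    have hX1 : (P : Subgroup G) ⊓ Cfsg.pPrimePCore p G ≠ ⊥ := by
      intro hbot
      have h1 := Cfsg.Agent.Lib_helper7_PPrimeP.sylow_inf_normal P (Cfsg.pPrimePCore p G)
      rw [hbot, Subgroup.relIndex_bot_left] at h1
      obtain ⟨k, hk⟩ := Cfsg.Agent.Lib_helper7_PPrimeP.relIndex_pPrimeCore (G := G) p
      have hKL := Cfsg.Agent.Lib_helper7_PPrimeP.pPrimeCore_le_pPrimePCore (G := G) p
      have h2 := Subgroup.relIndex_mul_relIndex ⊥ (Cfsg.pPrimeCore p G) (Cfsg.pPrimePCore p G)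
        bot_le hKL
      rw [Subgroup.relIndex_bot_left, Subgroup.relIndex_bot_left, hk] at h2
      have hk0 : k = 0 := by
        by_contra hk0
        apply h1
        rw [← h2]
        exact Dvd.dvd.mul_left (dvd_pow_self p hk0) _
      rw [hk0, pow_zero] at hk
      have hLK : Cfsg.pPrimePCore p G ≤ Cfsg.pPrimeCore p G := Subgroup.relIndex_eq_one.mp hk
      -- so O_p(G/K) = 1
      have hOq : Cfsg.pCore p (G ⧸ Cfsg.pPrimeCore p G) = ⊥ := by
        rw [Subgroup.eq_bot_iff_forall]
        intro q hq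
        obtain ⟨g, rfl⟩ := QuotientGroup.mk'_surjective (Cfsg.pPrimeCore p G) q
        have hg : g ∈ Cfsg.pPrimePCore p G := hq
        exact (QuotientGroup.eq_one_iff g).mpr (hLK hg)
      have hOq' := Cfsg.Agent.Lib_helper2_PComp.pPrimeCore_quotient_bot (X := G) p
      have hsolq : Cfsg.IsPSolvable p (G ⧸ Cfsg.pPrimeCore p G) :=
        Cfsg.Agent.Lib_helper5_PSolv.isPSolvable_of_surjective
          (QuotientGroup.mk' (Cfsg.pPrimeCore p G)) (QuotientGroup.mk'_surjective _) hsol
      haveI : Nontrivial (G ⧸ Cfsg.pPrimeCore p G) := by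
        by_contra hnn
        rw [not_nontrivial_iff_subsingleton] at hnn
        have htop := QuotientGroup.subgroup_eq_top_of_subsingleton (Cfsg.pPrimeCore p G) hnn
        have hc := Cfsg.Agent.Lib_helper7_PPrime.card_pPrimeCore_coprime (G := G) p
        rw [htop, Subgroup.card_top] at hc
        have := Nat.Coprime.eq_one_of_dvd hc.symm hdiv
        exact hp.out.one_lt.ne' this
      obtain ⟨N, hNn, hN1, hN | hN⟩ :=
        Cfsg.Agent.Lib_helper5_PSolv.exists_normal_of_isPSolvable hsolq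
      · obtain ⟨b, hb⟩ := hN
        have hNp : IsPGroup p N := IsPGroup.of_card hb
        have := Cfsg.Agent.Lib_helper7_PCore.le_pCore hNn hNp
        rw [hOq] at this
        exact hN1 (le_bot_iff.mp this)
      · have := Cfsg.Agent.Lib_helper2_PComp.le_pPrimeCore' p N hNn hN
        rw [hOq'] at this
        exact hN1 (le_bot_iff.mp this)
    have hMtop : ∀ g : G, g ∈ compStab P := by
      intro g
      obtain ⟨d, hd, hdg⟩ := Cfsg.Agent.Lib_helper7_PPrimeP.exists_mul_mem_normalizer P g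
      have h1 := hnorm _ inf_le_left hX1 hdg
      have h2 := (compStab P).mul_mem ((compStab P).inv_mem (hKM hd)) h1
      rwa [inv_mul_cancel_left] at h2
    rw [connected_iff]
    intro S T
    obtain ⟨g, rfl⟩ := MulAction.exists_smul_eq G P S
    obtain ⟨h, rfl⟩ := MulAction.exists_smul_eq G P T
    exact conn_trans (conn_symm ((mem_compStab P g).mp (hMtop g))) ((mem_compStab P h).mp (hMtop h))
  · rintro ⟨hO, hcyc⟩
    have hU : UniqueOrderP p ↥(P : Subgroup G) := by
      rcases hcyc with h | ⟨h2, n, ⟨e⟩⟩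
      · haveI := h
        exact cyclic_unique hp.out.pos
      · subst h2
        exact unique_of_equiv e (quaternion_unique (2 ^ n))
    have hspe := spe_normalizer_omega hO P hP1 hU
    rw [spe_iff_eform] at hspe
    exact not_connected_iff.mpr ⟨_, hspe.1, hspe.2.1, hspe.2.2⟩

end Cfsg.Agent.Lib_helper7_SylSolv
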