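import Mathlib
import Cfsg.Prelude.Def_Local
import Cfsg.Agent.Lib_helper7_NormHom
import Cfsg.Agent.Lib_helper7_PPrimeP
import Cfsg.Agent.Lib_helper7_CharP

set_option autoImplicit false

namespace Cfsg.Agent.Lib_helper7_WeakZ

open Cfsg
open Cfsg.Agent.Lib_helper7_Sylow Cfsg.Agent.Lib_helper7_Alperin Cfsg.Agent.Lib_helper7_PPrime
  Cfsg.Agent.Lib_helper7_PPrimeP Cfsg.Agent.Lib_helper7_NormHom

variable {G : Type*} [Group G] [Finite G] {p : ℕ} [Fact p.Prime]

theorem pPrimePCore_normal : (pPrimePCore p G).Normal := by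
  unfold pPrimePCore
  haveI := Cfsg.Agent.Lib_helper7_PCore.pCore_normal (G := G ⧸ pPrimeCore p G) p
  exact Subgroup.Normal.comap inferInstance _

theorem pPrimeCore_le_pPrimePCore : pPrimeCore p G ≤ pPrimePCore p G := by
  intro u hu
  show QuotientGroup.mk' (pPrimeCore p G) u ∈ pCore p (G ⧸ pPrimeCore p G)
  have : QuotientGroup.mk' (pPrimeCore p G) u = 1 := (QuotientGroup.eq_one_iff u).mpr hu
  rw [this]
  exact Subgroup.one_mem _

/-- Elements of `O_{p',p}(G)` lie in `(S ∩ O_{p',p}(G)) O_{p'}(G)`. -/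
theorem exists_mul_of_mem_pPrimePCore (S : Sylow p G) (m : G) (hm : m ∈ pPrimePCore p G) :
    ∃ s ∈ (S : Subgroup G) ⊓ pPrimePCore p G, ∃ u ∈ pPrimeCore p G, m = s * u := by
  have h1 : QuotientGroup.mk' (pPrimeCore p G) m ∈ pCore p (G ⧸ pPrimeCore p G) := hm
  have h2 := Cfsg.Agent.Lib_helper7_PCore.pCore_le_sylow
    (S.mapSurjective (QuotientGroup.mk'_surjective (pPrimeCore p G))) h1
  have h3 : QuotientGroup.mk' (pPrimeCore p G) m ∈
      (S : Subgroup G).map (QuotientGroup.mk' (pPrimeCore p G)) := by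
    rw [← Sylow.coe_mapSurjective]; exact h2
  obtain ⟨s, hs, hsm⟩ := h3
  have h4 : s⁻¹ * m ∈ pPrimeCore p G := by
    rw [← QuotientGroup.eq]; exact hsm
  refine ⟨s, ⟨hs, ?_⟩, s⁻¹ * m, h4, by group⟩
  have : s = m * (s⁻¹ * m)⁻¹ := by group
  rw [this]
  exact Subgroup.mul_mem _ hm (Subgroup.inv_mem _ (pPrimeCore_le_pPrimePCore h4))

theorem weakly_closed_split (S : Sylow p G)
    (hZ : ((S : Subgroup G) ⊓ Subgroup.centralizer ((S : Subgroup G) : Set G)) ≤ pPrimePCore p G) :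
    ∃ W K : Subgroup G, (∀ x : G, x ∈ W ↔ (x ∈ (S : Subgroup G) ∧
        ∀ g : G, g * x * g⁻¹ ∈ (S : Subgroup G) → g * x * g⁻¹ = x)) ∧
      K ≤ ((S : Subgroup G) ⊓ Subgroup.centralizer ((S : Subgroup G) : Set G)) ∧ W ⊓ K = ⊥ ∧
      W ⊔ K = ((S : Subgroup G) ⊓ Subgroup.centralizer ((S : Subgroup G) : Set G)) := by
  classical
  haveI hMn : (pPrimePCore p G).Normal := pPrimePCore_normal
  haveI hNn : (pPrimeCore p G).Normal := inferInstance
  obtain ⟨P, hP⟩ : ∃ P : Subgroup G, P = (S : Subgroup G) ⊓ pPrimePCore p G := ⟨_, rfl⟩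
  obtain ⟨L, hL⟩ : ∃ L : Subgroup G, L = Subgroup.normalizer (P : Set G) := ⟨_, rfl⟩
  obtain ⟨A, hA⟩ : ∃ A : Subgroup G, A = P ⊓ Subgroup.centralizer (P : Set G) := ⟨_, rfl⟩
  obtain ⟨Z, hZdef⟩ : ∃ Z : Subgroup G,
      Z = (S : Subgroup G) ⊓ Subgroup.centralizer ((S : Subgroup G) : Set G) := ⟨_, rfl⟩
  rw [← hZdef] at hZ ⊢
  have hZS : ∀ x, x ∈ Z → x ∈ (S : Subgroup G) := fun x hx => by rw [hZdef] at hx; exact hx.1
  have hZC : ∀ x, x ∈ Z → x ∈ Subgroup.centralizer ((S : Subgroup G) : Set G) :=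
    fun x hx => by rw [hZdef] at hx; exact hx.2
  have hPS : P ≤ (S : Subgroup G) := by rw [hP]; exact inf_le_left
  have hPM : P ≤ pPrimePCore p G := by rw [hP]; exact inf_le_right
  have hmemP : ∀ x, x ∈ (S : Subgroup G) → x ∈ pPrimePCore p G → x ∈ P :=
    fun x h1 h2 => by rw [hP]; exact ⟨h1, h2⟩
  have hPp : IsPGroup p ↥P := S.isPGroup'.to_le hPS
  have hLn : ∀ l, l ∈ L → l ∈ Subgroup.normalizer (P : Set G) := fun l hl => by rw [← hL]; exact hl
  have hSL : (S : Subgroup G) ≤ L := by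
    intro s hs
    rw [hL]
    apply mem_normalizer_of_conj_le
    rintro _ ⟨x, hx, rfl⟩
    apply hmemP
    · exact (S : Subgroup G).mul_mem ((S : Subgroup G).mul_mem hs (hPS hx)) ((S : Subgroup G).inv_mem hs)
    · exact hMn.conj_mem x (hPM hx) s
  have hPsyl : ¬ p ∣ P.relIndex (pPrimePCore p G) := by rw [hP]; exact sylow_inf_normal S _
  have hfrat : ∀ g : G, ∃ l ∈ L, ∃ u ∈ pPrimeCore p G, g = l * u := by
    intro g
    have hD : P.map (MulAut.conj g).toMonoidHom ≤ pPrimePCore p G := by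
      rintro _ ⟨x, hx, rfl⟩
      exact hMn.conj_mem x (hPM hx) g
    obtain ⟨m, hmM, hm⟩ := exists_conj_of_relIndex P (pPrimePCore p G)
      (P.map (MulAut.conj g).toMonoidHom) hPp hPsyl hD (hPp.map _)
    have hmg : m * g ∈ L := by
      rw [hL]
      apply mem_normalizer_of_conj_le
      rintro _ ⟨x, hx, rfl⟩
      have := hm (g * x * g⁻¹) ⟨x, hx, rfl⟩
      show m * g * x * (m * g)⁻¹ ∈ P
      have e : m * g * x * (m * g)⁻¹ = m * (g * x * g⁻¹) * m⁻¹ := by group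
      rw [e]; exact this
    obtain ⟨s, hs, u, hu, hmsu⟩ := exists_mul_of_mem_pPrimePCore S m⁻¹ (inv_mem hmM)
    refine ⟨s * (m * g), L.mul_mem (hSL hs.1) hmg, (m * g)⁻¹ * u * (m * g), ?_, ?_⟩
    · have := hNn.conj_mem u hu (m * g)⁻¹
      simpa using this
    · calc g = m⁻¹ * (m * g) := by group
        _ = s * u * (m * g) := by rw [hmsu]
        _ = s * (m * g) * ((m * g)⁻¹ * u * (m * g)) := by group
  have hA' : ∀ x ∈ Z, ∀ g : G, g * x * g⁻¹ ∈ (S : Subgroup G) →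
      ∃ l ∈ L, g * x * g⁻¹ = l * x * l⁻¹ := by
    intro x hx g hg
    have hxP : x ∈ P := hmemP x (hZS x hx) (hZ hx)
    have hgP : g * x * g⁻¹ ∈ P := hmemP _ hg (hMn.conj_mem x (hZ hx) g)
    obtain ⟨l, hl, u, hu, rfl⟩ := hfrat g
    have h1 : u * x * u⁻¹ ∈ P := by
      have hl' : l⁻¹ ∈ Subgroup.normalizer (P : Set G) := hLn _ (L.inv_mem hl)
      have := (Subgroup.mem_normalizer_iff.mp hl' _).mp hgP
      have e : l⁻¹ * (l * u * x * (l * u)⁻¹) * l⁻¹⁻¹ = u * x * u⁻¹ := by group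
      rwa [e] at this
    have h2 : u * x * u⁻¹ * x⁻¹ = 1 := by
      apply eq_one_of_mem_of_mem (card_pPrimeCore_coprime (G := G) p) hPp
      · have := hNn.conj_mem u⁻¹ (inv_mem hu) x
        have e : u * x * u⁻¹ * x⁻¹ = u * (x * u⁻¹ * x⁻¹) := by group
        rw [e]; exact mul_mem hu this
      · exact P.mul_mem h1 (P.inv_mem hxP)
    refine ⟨l, hl, ?_⟩
    have h3 : u * x * u⁻¹ = x := by
      calc u * x * u⁻¹ = (u * x * u⁻¹ * x⁻¹) * x := by group
        _ = x := by rw [h2, one_mul]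
    calc l * u * x * (l * u)⁻¹ = l * (u * x * u⁻¹) * l⁻¹ := by group
      _ = l * x * l⁻¹ := by rw [h3]
  have hW : ∀ x : G, x ∈ Z ⊓ Subgroup.centralizer (L : Set G) ↔ (x ∈ (S : Subgroup G) ∧
      ∀ g : G, g * x * g⁻¹ ∈ (S : Subgroup G) → g * x * g⁻¹ = x) := by
    intro x
    constructor
    · rintro ⟨hxZ, hxL⟩
      refine ⟨hZS x hxZ, fun g hg => ?_⟩
      obtain ⟨l, hl, e⟩ := hA' x hxZ g hg
      rw [e]
      have := Subgroup.mem_centralizer_iff.mp hxL l hl
      rw [this, mul_inv_cancel_right]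
    · rintro ⟨hxS, hx⟩
      have hxZ : x ∈ Z := by
        rw [hZdef]
        refine ⟨hxS, Subgroup.mem_centralizer_iff.mpr ?_⟩
        intro s hs
        have := hx s ((S : Subgroup G).mul_mem ((S : Subgroup G).mul_mem hs hxS)
          ((S : Subgroup G).inv_mem hs))
        calc s * x = (s * x * s⁻¹) * s := by group
          _ = x * s := by rw [this]
      refine ⟨hxZ, Subgroup.mem_centralizer_iff.mpr ?_⟩
      intro l hl
      have hxP : x ∈ P := hmemP x hxS (hZ hxZ)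
      have hlx : l * x * l⁻¹ ∈ P := (Subgroup.mem_normalizer_iff.mp (hLn l hl) x).mp hxP
      have := hx l (hPS hlx)
      calc l * x = (l * x * l⁻¹) * l := by group
        _ = x * l := by rw [this]
  have hAP : ∀ a, a ∈ A → a ∈ P ⊓ Subgroup.centralizer (P : Set G) := fun a ha => by
    rw [← hA]; exact ha
  haveI hAab : IsMulCommutative ↥A := by
    refine ⟨⟨fun a b => Subtype.ext ?_⟩⟩
    have ha := hAP _ a.2
    have hb := hAP _ b.2
    have := Subgroup.mem_centralizer_iff.mp ha.2 (b : G) hb.1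
    exact this.symm
  have hLA : L ≤ Subgroup.normalizer (A : Set G) := by
    rw [hA, hL]
    exact Cfsg.Agent.Lib_helper7_CharP.le_normalizer_inf P (Subgroup.centralizer (P : Set G))
      (Subgroup.normalizer (P : Set G)) le_rfl
      (Cfsg.Agent.Lib_helper7_Large.normalizer_le_normalizer_centralizer P)
  obtain ⟨τ, hτ1, hτ2⟩ := exists_normHom A L (S : Subgroup G) hLA
  have hZA : Z ≤ A := by
    intro z hz
    rw [hA]
    refine ⟨hmemP z (hZS z hz) (hZ hz), ?_⟩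
    exact Subgroup.centralizer_le (SetLike.coe_subset_coe.mpr hPS) (hZC z hz)
  have hmcop : ((S : Subgroup G).relIndex L).Coprime p := by
    rw [Nat.coprime_comm, Nat.Prime.coprime_iff_not_dvd Fact.out]
    intro h
    exact S.not_dvd_index (h.trans (Subgroup.relIndex_dvd_index_of_le hSL))
  refine ⟨Z ⊓ Subgroup.centralizer (L : Set G), (τ.ker.map A.subtype) ⊓ Z, hW, inf_le_right,
    ?_, ?_⟩
  · rw [eq_bot_iff]
    rintro x ⟨⟨hxZ, hxL⟩, ⟨⟨a, ha, rfl⟩, -⟩⟩
    have h1 : τ a = a ^ ((S : Subgroup G).relIndex L) := hτ2 a hxL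
    have h2 : a ^ ((S : Subgroup G).relIndex L) = 1 := by rw [← h1]; exact ha
    have h3 : (a : G) ^ ((S : Subgroup G).relIndex L) = 1 := by
      have := congrArg Subtype.val h2
      simpa using this
    have haS : (a : G) ∈ (S : Subgroup G) := hZS _ hxZ
    obtain ⟨k, hk⟩ := S.isPGroup' ⟨(a : G), haS⟩
    have h4 : (a : G) ^ p ^ k = 1 := by
      have := congrArg Subtype.val hk
      simpa using this
    have h5 : orderOf (a : G) ∣ ((S : Subgroup G).relIndex L) := orderOf_dvd_of_pow_eq_one h3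
    have h6 : orderOf (a : G) ∣ p ^ k := orderOf_dvd_of_pow_eq_one h4
    have h7 : orderOf (a : G) = 1 :=
      Nat.eq_one_of_dvd_coprimes (Nat.Coprime.pow_right k hmcop) h5 h6
    exact Subgroup.mem_bot.mpr (orderOf_eq_one_iff.mp h7)
  · apply le_antisymm
    · exact sup_le inf_le_left inf_le_right
    · intro z hz
      have htL := hτ1 ⟨z, hZA hz⟩ (hZC z hz)
      have htW : ((τ ⟨z, hZA hz⟩ : ↥A) : G) ∈ Z ⊓ Subgroup.centralizer (L : Set G) := by
        refine ⟨?_, htL⟩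
        rw [hZdef]
        refine ⟨hPS (hAP _ (τ ⟨z, hZA hz⟩).2).1, ?_⟩
        exact Subgroup.centralizer_le (SetLike.coe_subset_coe.mpr hSL) htL
      have hWp : IsPGroup p ↥(Z ⊓ Subgroup.centralizer (L : Set G)) :=
        S.isPGroup'.to_le (fun x hx => hZS x hx.1)
      have hcopW : (Nat.card ↥(Z ⊓ Subgroup.centralizer (L : Set G))).Coprime
          ((S : Subgroup G).relIndex L) := by
        obtain ⟨k, hk⟩ := IsPGroup.iff_card.mp hWp
        rw [hk]
        exact Nat.Coprime.pow_left k hmcop.symm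
      obtain ⟨w, hw⟩ := (powCoprime hcopW).surjective ⟨_, htW⟩
      have hw' : (w : G) ^ ((S : Subgroup G).relIndex L) = ((τ ⟨z, hZA hz⟩ : ↥A) : G) := by
        have := congrArg Subtype.val hw
        simpa using this
      have hwZ : (w : G) ∈ Z := w.2.1
      have hwA : (w : G) ∈ A := hZA hwZ
      have hτw : τ ⟨(w : G), hwA⟩ = ⟨(w : G), hwA⟩ ^ ((S : Subgroup G).relIndex L) :=
        hτ2 ⟨(w : G), hwA⟩ w.2.2
      have hker : (⟨(w : G), hwA⟩ : ↥A)⁻¹ * ⟨z, hZA hz⟩ ∈ τ.ker := by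
        rw [MonoidHom.mem_ker, map_mul, map_inv, hτw]
        apply Subtype.ext
        simp only [Subgroup.coe_mul, Subgroup.coe_inv, Subgroup.coe_pow, Subgroup.coe_one]
        rw [hw']
        group
      have hK : (w : G)⁻¹ * z ∈ (τ.ker.map A.subtype) ⊓ Z :=
        ⟨⟨_, hker, rfl⟩, Z.mul_mem (Z.inv_mem hwZ) hz⟩
      have e : z = (w : G) * ((w : G)⁻¹ * z) := by group
      rw [e]
      exact Subgroup.mul_mem_sup w.2 hK

end Cfsg.Agent.Lib_helper7_WeakZ
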