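import Mathlib
import Cfsg.Agent.Lib_helper7_Extremal

set_option autoImplicit false

namespace Cfsg.Agent.Lib_helper7_Z2D8

open Cfsg.Agent.Lib_helper7_Extremal

theorem d4_center : ∀ y : DihedralGroup 4, (∀ w : DihedralGroup 4, w * y = y * w) →
    y = 1 ∨ y = DihedralGroup.r 2 := by
  decide

theorem z2_sq : ∀ x : Multiplicative (ZMod 2), x ^ 2 = 1 := by
  decide

theorem z2_inv : ∀ a b : Multiplicative (ZMod 2), a ^ 2 = 1 → b ^ 2 = 1 → a ≠ 1 → b ≠ 1 → a = b := by
  decide

theorem s2911 {G : Type*} [Group G] [Finite G] (S : Sylow 2 G)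
    (hS : Nonempty (↥(S : Subgroup G) ≃* Multiplicative (ZMod 2) × DihedralGroup 4)) :
    ∃ H : Subgroup G, H.index = 2 := by
  obtain ⟨e⟩ := hS
  obtain ⟨ϕ, hϕ⟩ : ∃ ϕ : ↥(S : Subgroup G) →* Multiplicative (ZMod 2), ∀ s, ϕ s = (e s).1 :=
    ⟨(MonoidHom.fst _ _).comp e.toMonoidHom, fun s => rfl⟩
  obtain ⟨z, hz⟩ : ∃ z : ↥(S : Subgroup G), e z = (Multiplicative.ofAdd 1, 1) :=
    ⟨e.symm _, e.apply_symm_apply _⟩
  have hzϕ : ϕ z ≠ 1 := by
    rw [hϕ, hz]; decide
  have hz1 : z ≠ 1 := fun h => hzϕ (by rw [h, map_one])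
  have hz2 : z ^ 2 = 1 := by
    apply e.injective
    rw [map_pow, hz, map_one e]
    decide
  have hzc : ∀ s : ↥(S : Subgroup G), s * z = z * s := by
    intro s
    apply e.injective
    rw [map_mul, map_mul, hz]
    refine Prod.ext ?_ ?_
    · exact mul_comm _ _
    · show (e s).2 * 1 = 1 * (e s).2
      rw [mul_one, one_mul]
  have hz1' : (z : G) ≠ 1 := fun h => hz1 (Subtype.ext h)
  have hz2' : (z : G) ^ 2 = 1 := by
    have := congrArg Subtype.val hz2
    simpa using this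
  have hoz : orderOf (z : G) = 2 := orderOf_eq_prime hz2' hz1'
  have hno : ∀ h : G,
      ((S : Subgroup G) ⊓ Subgroup.centralizer {(z : G)}).map (MulAut.conj h).toMonoidHom ≤ S →
      ∀ hm : h * (z : G) * h⁻¹ ∈ (S : Subgroup G), ϕ ⟨h * (z : G) * h⁻¹, hm⟩ ≠ 1 := by
    intro h hle hm hϕ1
    have hSC : (S : Subgroup G) ≤ (S : Subgroup G) ⊓ Subgroup.centralizer {(z : G)} := by
      intro s hs
      refine Subgroup.mem_inf.mpr ⟨hs, ?_⟩
      rw [mem_cent_single]
      exact (congrArg Subtype.val (hzc ⟨s, hs⟩)).symm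
    have hSh : (S : Subgroup G).map (MulAut.conj h).toMonoidHom ≤ (S : Subgroup G) :=
      (Subgroup.map_mono hSC).trans hle
    have hSeq : (S : Subgroup G).map (MulAut.conj h).toMonoidHom = (S : Subgroup G) :=
      Subgroup.eq_of_le_of_card_ge hSh
        (by rw [Subgroup.card_map_of_injective (MulAut.conj h).injective])
    have hSh' : ∀ s ∈ (S : Subgroup G), h⁻¹ * s * h ∈ (S : Subgroup G) := by
      intro s hs
      rw [← hSeq] at hs
      obtain ⟨t, ht, rfl⟩ := hs
      have : h⁻¹ * ((MulAut.conj h).toMonoidHom t) * h = t := by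
        show h⁻¹ * (h * t * h⁻¹) * h = t
        group
      rw [this]; exact ht
    -- u = h z h⁻¹ is central in S
    have huc : ∀ s : ↥(S : Subgroup G), s * ⟨h * (z : G) * h⁻¹, hm⟩ = ⟨h * (z : G) * h⁻¹, hm⟩ * s := by
      intro s
      apply Subtype.ext
      show (s : G) * (h * (z : G) * h⁻¹) = h * (z : G) * h⁻¹ * (s : G)
      have h1 := congrArg Subtype.val (hzc ⟨h⁻¹ * (s : G) * h, hSh' s s.2⟩)
      have h2 : h⁻¹ * (s : G) * h * (z : G) = (z : G) * (h⁻¹ * (s : G) * h) := h1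
      calc (s : G) * (h * (z : G) * h⁻¹) = h * (h⁻¹ * (s : G) * h * (z : G)) * h⁻¹ := by group
        _ = h * ((z : G) * (h⁻¹ * (s : G) * h)) * h⁻¹ := by rw [h2]
        _ = h * (z : G) * h⁻¹ * (s : G) := by group
    obtain ⟨u, hu⟩ : ∃ u : ↥(S : Subgroup G), u = ⟨h * (z : G) * h⁻¹, hm⟩ := ⟨_, rfl⟩
    rw [← hu] at huc hϕ1
    have hu1 : (e u).1 = 1 := by rw [← hϕ]; exact hϕ1
    have hyc : ∀ w : DihedralGroup 4, w * (e u).2 = (e u).2 * w := by
      intro w
      have h1 := congrArg e (huc (e.symm (1, w)))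
      rw [map_mul, map_mul, e.apply_symm_apply] at h1
      have h2 := congrArg Prod.snd h1
      exact h2
    have hcase := d4_center (e u).2 hyc
    rcases hcase with hy | hy
    · have : e u = 1 := Prod.ext hu1 hy
      have hu1' : u = 1 := e.injective (by rw [this, map_one])
      rw [hu1'] at hu
      have h3 := congrArg Subtype.val hu
      have h4 : h * (z : G) * h⁻¹ = 1 := h3.symm
      apply hz1'
      have h5 : (z : G) = h⁻¹ * (h * (z : G) * h⁻¹) * h := by group
      rw [h5, h4]; group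
    · obtain ⟨a, ha⟩ : ∃ a : ↥(S : Subgroup G), e a = (1, DihedralGroup.r 1) :=
        ⟨e.symm _, e.apply_symm_apply _⟩
      have hua : u = a ^ 2 := by
        apply e.injective
        rw [map_pow, ha]
        refine Prod.ext ?_ ?_
        · rw [hu1]; rfl
        · rw [hy]; decide
      have h3 : h * (z : G) * h⁻¹ = (a : G) ^ 2 := by
        have := congrArg Subtype.val hu
        rw [hua] at this
        exact this.symm
      have h4 : z = (⟨h⁻¹ * (a : G) * h, hSh' a a.2⟩ : ↥(S : Subgroup G)) ^ 2 := by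
        apply Subtype.ext
        show (z : G) = (h⁻¹ * (a : G) * h) ^ 2
        have h5 : (z : G) = h⁻¹ * (h * (z : G) * h⁻¹) * h := by group
        rw [h5, h3, pow_two, pow_two]; group
      apply hzϕ
      rw [h4, map_pow]
      exact z2_sq _
  have ht := transfer_ne_one S ϕ z2_inv (z : G) hoz z.2 hzϕ hno
  refine ⟨(MonoidHom.transfer ϕ).ker, ?_⟩
  rw [Subgroup.index_ker]
  have hcard : Nat.card (Multiplicative (ZMod 2)) = 2 := by
    rw [Nat.card_congr Multiplicative.toAdd, Nat.card_zmod]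
  have hd := Subgroup.card_subgroup_dvd_card (MonoidHom.transfer ϕ).range
  rw [hcard] at hd
  rcases (Nat.dvd_prime Nat.prime_two).mp hd with h1 | h2
  · exfalso
    apply ht
    have hbot : (MonoidHom.transfer ϕ).range = ⊥ := Subgroup.card_eq_one.mp h1
    have hm : MonoidHom.transfer ϕ (z : G) ∈ (MonoidHom.transfer ϕ).range := ⟨_, rfl⟩
    rw [hbot, Subgroup.mem_bot] at hm
    exact hm
  · exact h2

end Cfsg.Agent.Lib_helper7_Z2D8
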