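import Mathlib

set_option autoImplicit false

namespace Cfsg.Agent.Lib_helper7_Zsig

open Polynomial

/-- a prime dividing the value of the cyclotomic polynomial gives a root mod `r` -/
theorem isRoot_of_dvd {n r a : ℕ} [Fact r.Prime]
    (h : (r : ℤ) ∣ (cyclotomic n ℤ).eval (a : ℤ)) :
    IsRoot (cyclotomic n (ZMod r)) (Nat.castRingHom (ZMod r) a) := by
  have h1 : ((a : ℤ) : ZMod r) = ↑(Int.castRingHom (ZMod r) a) := by simp
  rw [IsRoot.def, ← map_cyclotomic_int n (ZMod r), eval_map, Nat.coe_castRingHom,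
    ← Int.cast_natCast, h1, eval₂_hom, Int.coe_castRingHom, ZMod.intCast_zmod_eq_zero_iff_dvd]
  exact h

theorem cast_pow_eq_one_of_dvd {r a k : ℕ} (ha : 0 < a) (h : r ∣ a ^ k - 1) :
    (a : ZMod r) ^ k = 1 := by
  have hak : 1 ≤ a ^ k := Nat.one_le_pow _ _ ha
  have h1 := (ZMod.natCast_eq_zero_iff (a ^ k - 1) r).mpr h
  rw [Nat.cast_sub hak, Nat.cast_pow, Nat.cast_one, sub_eq_zero] at h1
  exact h1

theorem dvd_of_cast_pow_eq_one {r a k : ℕ} (ha : 0 < a) (h : (a : ZMod r) ^ k = 1) :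
    r ∣ a ^ k - 1 := by
  have hak : 1 ≤ a ^ k := Nat.one_le_pow _ _ ha
  apply (ZMod.natCast_eq_zero_iff (a ^ k - 1) r).mp
  rw [Nat.cast_sub hak, Nat.cast_pow, Nat.cast_one, sub_eq_zero]
  exact h

/-- Lemma A: a prime divisor of `Φ_n(a)` not dividing `n` is primitive -/
theorem prim_of_not_dvd {n r a : ℕ} (ha : 0 < a) (hr : r.Prime)
    (h : (r : ℤ) ∣ (cyclotomic n ℤ).eval (a : ℤ)) (hrn : ¬ r ∣ n) :
    ∀ k, 0 < k → k < n → ¬ r ∣ a ^ k - 1 := by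
  haveI : Fact r.Prime := ⟨hr⟩
  have hroot := isRoot_of_dvd h
  haveI : NeZero (n : ZMod r) := NeZero.of_not_dvd (ZMod r) hrn
  have hprim : IsPrimitiveRoot (a : ZMod r) n := by
    have := isRoot_cyclotomic_iff.mp hroot
    simpa using this
  intro k hk hkn hdvd
  have h1 : (a : ZMod r) ^ k = 1 := cast_pow_eq_one_of_dvd ha hdvd
  have h2 := hprim.dvd_of_pow_eq_one k h1
  exact absurd (Nat.le_of_dvd hk h2) (not_le.mpr hkn)

theorem dvd_pow_sub_one {n r a : ℕ} (ha : 0 < a)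
    (h : (r : ℤ) ∣ (cyclotomic n ℤ).eval (a : ℤ)) : r ∣ a ^ n - 1 := by
  have h1 : (cyclotomic n ℤ).eval (a : ℤ) ∣ (X ^ n - 1 : ℤ[X]).eval (a : ℤ) :=
    eval_dvd (cyclotomic.dvd_X_pow_sub_one n ℤ)
  have h2 : (r : ℤ) ∣ (a : ℤ) ^ n - 1 := by
    have := h.trans h1
    simpa using this
  have hak : 1 ≤ a ^ n := Nat.one_le_pow _ _ ha
  rw [← Int.natCast_dvd_natCast, Nat.cast_sub hak]
  simpa using h2

/-- Lemma B: the structure of `n` when `r ∣ Φ_n(a)` and `r ∣ n` -/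
theorem structure_of_dvd {n r a : ℕ} (hn : 0 < n) (hr : r.Prime)
    (h : (r : ℤ) ∣ (cyclotomic n ℤ).eval (a : ℤ)) (hrn : r ∣ n) :
    ∃ k m : ℕ, 0 < k ∧ n = r ^ k * m ∧ ¬ r ∣ m ∧ m ∣ r - 1 ∧ 0 < m ∧
      (a : ZMod r) ^ m = 1 := by
  haveI : Fact r.Prime := ⟨hr⟩
  have hroot := isRoot_of_dvd h
  have hn0 : n ≠ 0 := hn.ne'
  obtain ⟨k, hk⟩ : ∃ k, k = n.factorization r := ⟨_, rfl⟩
  obtain ⟨m, hm⟩ : ∃ m, m = n / r ^ k := ⟨_, rfl⟩
  have hnkm : n = r ^ k * m := by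
    rw [hm, hk]; exact (Nat.ordProj_mul_ordCompl_eq_self n r).symm
  have hrm : ¬ r ∣ m := by
    rw [hm, hk]; exact Nat.not_dvd_ordCompl hr hn0
  have hk0 : 0 < k := by
    rw [hk]; exact hr.factorization_pos_of_dvd hn0 hrn
  have hm0 : 0 < m := by
    rcases Nat.eq_zero_or_pos m with h0 | h0
    · rw [h0, mul_zero] at hnkm; exact absurd hnkm hn0
    · exact h0
  haveI : NeZero (m : ZMod r) := NeZero.of_not_dvd (ZMod r) hrm
  rw [hnkm] at hroot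
  have hprim : IsPrimitiveRoot (a : ZMod r) m := by
    have := isRoot_cyclotomic_prime_pow_mul_iff_of_charP.mp hroot
    simpa using this
  have ha0 : (a : ZMod r) ≠ 0 := hprim.ne_zero hm0.ne'
  have h1 : (a : ZMod r) ^ (r - 1) = 1 := ZMod.pow_card_sub_one_eq_one ha0
  exact ⟨k, m, hk0, hnkm, hrm, hprim.dvd_of_pow_eq_one _ h1, hm0, hprim.pow_eq_one⟩

/-- B2: uniqueness of the prime -/
theorem prime_unique {n r r' a : ℕ} (hn : 0 < n) (hr : r.Prime) (hr' : r'.Prime)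
    (h : (r : ℤ) ∣ (cyclotomic n ℤ).eval (a : ℤ)) (hrn : r ∣ n)
    (h' : (r' : ℤ) ∣ (cyclotomic n ℤ).eval (a : ℤ)) (hrn' : r' ∣ n) : r = r' := by
  have key : ∀ {s s' : ℕ}, s.Prime → s'.Prime → (s : ℤ) ∣ (cyclotomic n ℤ).eval (a : ℤ) →
      s ∣ n → s' ∣ n → s ≠ s' → s' < s := by
    intro s s' hs hs' hsd hsn hsn' hne
    obtain ⟨k, m, -, hnkm, -, hm1, -, -⟩ := structure_of_dvd hn hs hsd hsn
    rw [hnkm] at hsn'
    rcases (Nat.Prime.dvd_mul hs').mp hsn' with h1 | h1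
    · have h2 := hs'.dvd_of_dvd_pow h1
      exact absurd ((Nat.prime_dvd_prime_iff_eq hs' hs).mp h2).symm hne
    · have h3 : s' ∣ s - 1 := h1.trans hm1
      have h4 : 0 < s - 1 := by have := hs.two_le; omega
      have h5 := Nat.le_of_dvd h4 h3
      omega
  by_contra hne
  have h1 := key hr hr' h hrn hrn' hne
  have h2 := key hr' hr h' hrn' hrn (Ne.symm hne)
  omega

/-- B1 (odd case): `r^2` does not divide `Φ_n(a)` -/
theorem sq_not_dvd_odd {n r a : ℕ} (ha : 2 ≤ a) (hn : 0 < n) (hr : r.Prime) (hodd : Odd r)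
    (h : (r : ℤ) ∣ (cyclotomic n ℤ).eval (a : ℤ)) (hrn : r ∣ n) :
    ¬ ((r : ℤ) ^ 2 ∣ (cyclotomic n ℤ).eval (a : ℤ)) := by
  haveI : Fact r.Prime := ⟨hr⟩
  intro hsq
  obtain ⟨k, m, hk0, hnkm, hrm, hm1, hm0, hpow⟩ := structure_of_dvd hn hr h hrn
  obtain ⟨n', hn'⟩ : ∃ n', n' = r ^ (k - 1) * m := ⟨_, rfl⟩
  have hnn' : n = n' * r := by
    rw [hnkm, hn']
    obtain ⟨j, rfl⟩ : ∃ j, k = j + 1 := ⟨k - 1, by omega⟩
    rw [Nat.add_sub_cancel, pow_succ]; ring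
  have hn'0 : 0 < n' := by
    rw [hn']; exact Nat.mul_pos (pow_pos hr.pos _) hm0
  obtain ⟨b, hb⟩ : ∃ b, b = a ^ n' := ⟨_, rfl⟩
  have hb2 : 2 ≤ b := by
    rw [hb]
    calc 2 ≤ a := ha
      _ = a ^ 1 := (pow_one a).symm
      _ ≤ a ^ n' := Nat.pow_le_pow_right (by omega) hn'0
  have hrb : r ∣ b - 1 := by
    have h1 : (a : ZMod r) ^ n' = 1 := by
      rw [hn', mul_comm, pow_mul, hpow, one_pow]
    have h2 := dvd_of_cast_pow_eq_one (by omega : 0 < a) h1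
    rwa [← hb] at h2
  have hrb' : ¬ r ∣ b := by
    intro hdb
    have h1 : r ∣ 1 := by
      have h2 : b = (b - 1) + 1 := by omega
      rw [h2] at hdb
      exact (Nat.dvd_add_right hrb).mp hdb
    exact hr.one_lt.ne' (Nat.dvd_one.mp h1)
  have hmem : n' ∈ n.properDivisors := by
    rw [Nat.mem_properDivisors]
    refine ⟨⟨r, hnn'⟩, ?_⟩
    rw [hnn']
    have := hr.two_le
    nlinarith
  have hdvd := X_pow_sub_one_mul_cyclotomic_dvd_X_pow_sub_one_of_dvd ℤ hmem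
  have hdvd2 : ((a : ℤ) ^ n' - 1) * (cyclotomic n ℤ).eval (a : ℤ) ∣ (a : ℤ) ^ n - 1 := by
    have h1 := eval_dvd (x := (a : ℤ)) hdvd
    simpa using h1
  have hlte := padicValNat.pow_sub_pow hodd (by omega : 1 < b) (by simpa using hrb) hrb'
    (n := r) hr.ne_zero
  rw [one_pow, padicValNat_self] at hlte
  have hv : r ^ padicValNat r (b - 1) ∣ b - 1 := pow_padicValNat_dvd
  obtain ⟨v, hvdef⟩ : ∃ v, v = padicValNat r (b - 1) := ⟨_, rfl⟩
  rw [← hvdef] at hlte hv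
  have hcastb : ((b - 1 : ℕ) : ℤ) = (a : ℤ) ^ n' - 1 := by
    rw [Nat.cast_sub (by omega), hb]; push_cast; rfl
  have hbig : (r : ℤ) ^ (v + 2) ∣ (a : ℤ) ^ n - 1 := by
    refine Dvd.dvd.trans ?_ hdvd2
    rw [pow_add]
    apply mul_dvd_mul _ hsq
    have h1 : ((r ^ v : ℕ) : ℤ) ∣ ((b - 1 : ℕ) : ℤ) := Int.natCast_dvd_natCast.mpr hv
    rw [hcastb] at h1
    simpa using h1
  have hcastbr : ((b ^ r - 1 : ℕ) : ℤ) = (a : ℤ) ^ n - 1 := by
    rw [Nat.cast_sub (Nat.one_le_pow _ _ (by omega)), hb]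
    push_cast
    rw [← pow_mul, ← hnn']
  have hbig' : r ^ (v + 2) ∣ b ^ r - 1 := by
    rw [← Int.natCast_dvd_natCast, hcastbr]
    push_cast
    exact hbig
  have hne : b ^ r - 1 ≠ 0 := by
    have h1 : 2 ≤ b ^ r := by
      calc 2 ≤ b := hb2
        _ = b ^ 1 := (pow_one b).symm
        _ ≤ b ^ r := Nat.pow_le_pow_right (by omega) hr.pos
    omega
  have h9 := (padicValNat_dvd_iff_le hne).mp hbig'
  omega

/-- B1 (case `r = 2`) -/
theorem sq_not_dvd_two {n a : ℕ} (ha : 2 ≤ a) (hn : 3 ≤ n)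
    (h : ((2 : ℕ) : ℤ) ∣ (cyclotomic n ℤ).eval (a : ℤ)) (hrn : 2 ∣ n) :
    ¬ (((2 : ℕ) : ℤ) ^ 2 ∣ (cyclotomic n ℤ).eval (a : ℤ)) := by
  intro hsq
  obtain ⟨k, m, hk0, hnkm, hrm, hm1, hm0, hpow⟩ :=
    structure_of_dvd (by omega) Nat.prime_two h hrn
  have hm : m = 1 := Nat.dvd_one.mp (by simpa using hm1)
  subst hm
  rw [mul_one] at hnkm
  have hk2 : 2 ≤ k := by
    by_contra hlt
    have h1 : k = 1 := by omega
    rw [h1] at hnkm; omega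
  have haodd : Odd a := by
    have h1 := dvd_of_cast_pow_eq_one (by omega : 0 < a) hpow
    rw [pow_one] at h1
    obtain ⟨c, hc⟩ := h1
    exact ⟨c, by omega⟩
  obtain ⟨j, rfl⟩ : ∃ j, k = j + 2 := ⟨k - 2, by omega⟩
  obtain ⟨c, hc⟩ : ∃ c, c = a ^ (2 ^ j) := ⟨_, rfl⟩
  have hcodd : Odd c := by rw [hc]; exact haodd.pow
  obtain ⟨b, hb⟩ : ∃ b, b = a ^ (2 ^ (j + 1)) := ⟨_, rfl⟩
  have hbc : b = c ^ 2 := by rw [hb, hc, ← pow_mul, pow_succ]
  have hb4 : b % 4 = 1 := by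
    rw [hbc]
    obtain ⟨d, rfl⟩ := hcodd
    have e : (2 * d + 1) ^ 2 = 4 * (d * d + d) + 1 := by ring
    rw [e]; omega
  have hb2 : 2 ≤ b := by
    rw [hb]
    calc 2 ≤ a := ha
      _ = a ^ 1 := (pow_one a).symm
      _ ≤ a ^ (2 ^ (j + 1)) := Nat.pow_le_pow_right (by omega) (Nat.one_le_two_pow)
  have hmem : 2 ^ (j + 1) ∈ n.properDivisors := by
    rw [Nat.mem_properDivisors, hnkm]
    refine ⟨⟨2, by rw [pow_succ 2 (j + 1)]⟩, ?_⟩
    rw [pow_succ 2 (j + 1)]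
    have := Nat.one_le_two_pow (n := j + 1)
    omega
  have hdvd := X_pow_sub_one_mul_cyclotomic_dvd_X_pow_sub_one_of_dvd ℤ hmem
  have hdvd2 : ((b : ℤ) - 1) * (cyclotomic n ℤ).eval (a : ℤ) ∣ ((b : ℤ) - 1) * ((b : ℤ) + 1) := by
    have h1 := eval_dvd (x := (a : ℤ)) hdvd
    have e1 : (b : ℤ) = (a : ℤ) ^ (2 ^ (j + 1)) := by rw [hb]; push_cast; rfl
    have e2 : ((b : ℤ) - 1) * ((b : ℤ) + 1) = (a : ℤ) ^ n - 1 := by
      rw [e1, hnkm, pow_succ 2 (j + 1), pow_mul]; ring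
    rw [e2, e1]
    simpa using h1
  have hb1 : (b : ℤ) - 1 ≠ 0 := by
    have : (2 : ℤ) ≤ (b : ℤ) := by exact_mod_cast hb2
    omega
  have h3 : (cyclotomic n ℤ).eval (a : ℤ) ∣ (b : ℤ) + 1 := Int.dvd_of_mul_dvd_mul_left hb1 hdvd2
  have h4 : ((2 : ℕ) : ℤ) ^ 2 ∣ (b : ℤ) + 1 := hsq.trans h3
  have h5 : (4 : ℤ) ∣ ((b + 1 : ℕ) : ℤ) := by
    push_cast
    have e : (((2 : ℕ) : ℤ)) ^ 2 = 4 := by norm_num
    rw [e] at h4
    exact h4
  have h6 : 4 ∣ b + 1 := by exact_mod_cast h5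
  omega

theorem cyclotomic_pow_mul (r m : ℕ) (hr : r.Prime) (j : ℕ) :
    cyclotomic (r ^ (j + 1) * m) ℤ = expand ℤ (r ^ j) (cyclotomic (r * m) ℤ) := by
  induction j with
  | zero => simp
  | succ j ih =>
    have hdiv : r ∣ r ^ (j + 1) * m := Dvd.dvd.mul_right (dvd_pow_self r (by omega)) m
    have h1 := cyclotomic_expand_eq_cyclotomic hr hdiv ℤ
    have e : r ^ (j + 1 + 1) * m = r ^ (j + 1) * m * r := by ring
    rw [e, ← h1, ih, expand_expand, ← pow_succ']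

theorem eval_identity (r m k a : ℕ) (hr : r.Prime) (hk : 0 < k) (hrm : ¬ r ∣ m) :
    (cyclotomic (r ^ k * m) ℤ).eval (a : ℤ) *
        (cyclotomic m ℤ).eval ((a : ℤ) ^ (r ^ (k - 1))) =
      (cyclotomic m ℤ).eval (((a : ℤ) ^ (r ^ (k - 1))) ^ r) := by
  obtain ⟨j, rfl⟩ : ∃ j, k = j + 1 := ⟨k - 1, by omega⟩
  rw [cyclotomic_pow_mul r m hr j, expand_eval, Nat.add_sub_cancel]
  have h2 := cyclotomic_expand_eq_cyclotomic_mul hr hrm ℤ
  have h3 := congrArg (eval ((a : ℤ) ^ r ^ j)) h2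
  rw [expand_eval, eval_mul, mul_comm m r] at h3
  exact h3.symm

theorem bern (c j : ℕ) : (j + 2) * (c + 1) + 1 < (c + 2) ^ (j + 2) := by
  induction j with
  | zero =>
    have e : (c + 2) ^ (0 + 2) = (c + 2) * (c + 2) := by ring
    rw [e]; nlinarith
  | succ j ih =>
    have e : (c + 2) ^ (j + 1 + 2) = (c + 2) * (c + 2) ^ (j + 2) := by ring
    rw [e]
    obtain ⟨X, hX⟩ : ∃ X, X = (j + 2) * (c + 1) := ⟨_, rfl⟩
    rw [← hX] at ih
    have hXc : c + 1 ≤ X := by rw [hX]; exact Nat.le_mul_of_pos_left _ (by omega)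
    have e3 : (j + 1 + 2) * (c + 1) = X + (c + 1) := by rw [hX]; ring
    rw [e3]
    have h1 : (c + 2) * (X + 1) < (c + 2) * (c + 2) ^ (j + 2) :=
      (Nat.mul_lt_mul_left (by omega : 0 < c + 2)).mpr ih
    have h2 : 2 * (X + 1) ≤ (c + 2) * (X + 1) := Nat.mul_le_mul_right _ (by omega)
    omega

theorem ineq_b3 (b : ℕ) (hb : 3 ≤ b) (j : ℕ) : (j + 3) * (b + 1) + 1 ≤ b ^ (j + 3) := by
  induction j with
  | zero =>
    have h1 : 9 ≤ b ^ 2 := by nlinarith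
    have e : b ^ (0 + 3) = b * b ^ 2 := by ring
    rw [e]
    have h2 : 9 * b ≤ b * b ^ 2 := by rw [mul_comm 9 b]; exact Nat.mul_le_mul_left b h1
    omega
  | succ j ih =>
    have e : b ^ (j + 1 + 3) = b * b ^ (j + 3) := by ring
    rw [e]
    obtain ⟨X, hX⟩ : ∃ X, X = (j + 3) * (b + 1) := ⟨_, rfl⟩
    rw [← hX] at ih
    have hXc : b + 1 ≤ X := by rw [hX]; exact Nat.le_mul_of_pos_left _ (by omega)
    have e3 : (j + 1 + 3) * (b + 1) = X + (b + 1) := by rw [hX]; ring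
    rw [e3]
    have h1 : b * (X + 1) ≤ b * b ^ (j + 3) := Nat.mul_le_mul_left b ih
    have h2 : 3 * (X + 1) ≤ b * (X + 1) := Nat.mul_le_mul_right _ hb
    omega

theorem ineq_two (j : ℕ) : 3 * (j + 4) + 1 ≤ 2 ^ (j + 4) := by
  induction j with
  | zero => norm_num
  | succ j ih =>
    have e : 2 ^ (j + 1 + 4) = 2 * 2 ^ (j + 4) := by ring
    rw [e]; omega

theorem size_contra (a n r k m : ℕ) (ha : 2 ≤ a) (hr : r.Prime) (hk : 0 < k)
    (hnkm : n = r ^ k * m) (hrm : ¬ r ∣ m) (hm1 : m ∣ r - 1) (hm0 : 0 < m)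
    (hΦ : (cyclotomic n ℤ).eval (a : ℤ) = (r : ℤ)) : a = 2 ∧ n = 6 := by
  obtain ⟨b, hb⟩ : ∃ b : ℕ, b = a ^ (r ^ (k - 1)) := ⟨_, rfl⟩
  have hb2 : 2 ≤ b := by
    rw [hb]
    calc 2 ≤ a := ha
      _ = a ^ 1 := (pow_one a).symm
      _ ≤ a ^ (r ^ (k - 1)) := Nat.pow_le_pow_right (by omega) (Nat.one_le_pow _ _ hr.pos)
  have hid := eval_identity r m k a hr hk hrm
  rw [← hnkm, hΦ] at hid
  have hbz : ((a : ℤ) ^ (r ^ (k - 1))) = (b : ℤ) := by rw [hb]; push_cast; rfl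
  rw [hbz] at hid
  have hr2 := hr.two_le
  rcases Nat.lt_or_ge m 2 with hm | hm
  · have hm' : m = 1 := by omega
    subst hm'
    exfalso
    simp only [cyclotomic_one, eval_sub, eval_X, eval_one] at hid
    obtain ⟨c, rfl⟩ : ∃ c, b = c + 2 := ⟨b - 2, by omega⟩
    obtain ⟨j, rfl⟩ : ∃ j, r = j + 2 := ⟨r - 2, by omega⟩
    have h1 := bern c j
    have h3 : (((j + 2) * (c + 1) + 1 : ℕ) : ℤ) = (((c + 2) ^ (j + 2) : ℕ) : ℤ) := by
      push_cast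
      push_cast at hid
      linarith
    have h4 : (j + 2) * (c + 1) + 1 = (c + 2) ^ (j + 2) := by exact_mod_cast h3
    omega
  · have hr3 : 3 ≤ r := by
      have := Nat.le_of_dvd (by omega) hm1
      omega
    have hb1 : (1 : ℝ) < (b : ℝ) := by exact_mod_cast hb2
    have hbr : (1 : ℝ) < (b : ℝ) ^ r := one_lt_pow₀ hb1 (by omega)
    have hlow := sub_one_pow_totient_lt_cyclotomic_eval hm hbr
    have hup := cyclotomic_eval_le_add_one_pow_totient hb1 m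
    have e1 : (cyclotomic m ℝ).eval (b : ℝ) = (((cyclotomic m ℤ).eval (b : ℤ) : ℤ) : ℝ) := by
      have h := cyclotomic.eval_apply (b : ℤ) m (Int.castRingHom ℝ)
      simpa using h
    have e2 : (cyclotomic m ℝ).eval ((b : ℝ) ^ r) =
        (((cyclotomic m ℤ).eval ((b : ℤ) ^ r) : ℤ) : ℝ) := by
      have h := cyclotomic.eval_apply ((b : ℤ) ^ r) m (Int.castRingHom ℝ)
      simpa using h
    have hidR : (r : ℝ) * (cyclotomic m ℝ).eval (b : ℝ) = (cyclotomic m ℝ).eval ((b : ℝ) ^ r) := by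
      rw [e1, e2, ← hid]; push_cast; ring
    obtain ⟨t, ht⟩ : ∃ t, t = Nat.totient m := ⟨_, rfl⟩
    rw [← ht] at hlow hup
    have ht0 : t ≠ 0 := by rw [ht]; exact (Nat.totient_pos.mpr hm0).ne'
    have hrR : (1 : ℝ) ≤ (r : ℝ) := by exact_mod_cast hr.one_le
    have hclaim : (b : ℝ) ^ r - 1 < r * ((b : ℝ) + 1) := by
      by_contra hge
      push_neg at hge
      have hnn : (0 : ℝ) ≤ (r : ℝ) * ((b : ℝ) + 1) := by positivity
      have h1 : ((r : ℝ) * ((b : ℝ) + 1)) ^ t ≤ ((b : ℝ) ^ r - 1) ^ t := pow_le_pow_left₀ hnn hge t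
      have h2 : (r : ℝ) * ((b : ℝ) + 1) ^ t ≤ ((r : ℝ) * ((b : ℝ) + 1)) ^ t := by
        rw [mul_pow]
        apply mul_le_mul_of_nonneg_right (le_self_pow₀ hrR ht0)
        positivity
      have h3 : (r : ℝ) * (cyclotomic m ℝ).eval (b : ℝ) ≤ (r : ℝ) * ((b : ℝ) + 1) ^ t :=
        mul_le_mul_of_nonneg_left hup (by positivity)
      rw [hidR] at h3
      linarith
    have hN : b ^ r < r * (b + 1) + 1 := by
      have h1 : (b : ℝ) ^ r < (r : ℝ) * ((b : ℝ) + 1) + 1 := by linarith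
      exact_mod_cast h1
    obtain ⟨j, rfl⟩ : ∃ j, r = j + 3 := ⟨r - 3, by omega⟩
    rcases Nat.lt_or_ge b 3 with hb3 | hb3
    · have hb' : b = 2 := by omega
      rw [hb'] at hN
      have hj : j = 0 := by
        by_contra hj
        obtain ⟨i, rfl⟩ : ∃ i, j = i + 1 := ⟨j - 1, by omega⟩
        have h1 := ineq_two i
        have e : i + 1 + 3 = i + 4 := by ring
        rw [e] at hN
        omega
      subst hj
      -- r = 3, b = 2
      have hk1 : k = 1 := by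
        by_contra hk1
        have h1 : 3 ≤ (0 + 3) ^ (k - 1) := by
          calc 3 = (0 + 3) ^ 1 := by norm_num
            _ ≤ (0 + 3) ^ (k - 1) := Nat.pow_le_pow_right (by norm_num) (by omega)
        have h2 : a ^ 3 ≤ a ^ ((0 + 3) ^ (k - 1)) := Nat.pow_le_pow_right (by omega) h1
        have h3 : 2 ^ 3 ≤ a ^ 3 := Nat.pow_le_pow_left ha 3
        rw [← hb] at h2
        omega
      subst hk1
      have ha2 : a = 2 := by
        rw [hb'] at hb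
        simpa using hb.symm
      have hm2 : m = 2 := by
        have h1 : m ∣ 2 := by simpa using hm1
        have h2 := Nat.le_of_dvd (by norm_num) h1
        omega
      refine ⟨ha2, ?_⟩
      rw [hnkm, hm2]
      norm_num
    · exfalso
      have h1 := ineq_b3 b hb3 j
      omega

theorem zsig_ge3 (a n : ℕ) (ha : 2 ≤ a) (hn : 3 ≤ n) (h6 : ¬ (a = 2 ∧ n = 6)) :
    ∃ r : ℕ, r.Prime ∧ r ∣ a ^ n - 1 ∧ ∀ k : ℕ, 0 < k → k < n → ¬ r ∣ a ^ k - 1 := by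
  by_contra hcon
  push_neg at hcon
  have ha0 : 0 < a := by omega
  have hn0 : 0 < n := by omega
  obtain ⟨Φ, hΦ⟩ : ∃ Φ : ℤ, Φ = (cyclotomic n ℤ).eval (a : ℤ) := ⟨_, rfl⟩
  have hΦpos : 0 < Φ := by
    rw [hΦ]; exact cyclotomic_pos' n (by exact_mod_cast ha)
  have hN1 : 1 < Φ.natAbs := by
    have h1 := sub_one_lt_natAbs_cyclotomic_eval (n := n) (q := a) (by omega) (by omega)
    rw [← hΦ] at h1; omega
  have hΦN : (Φ.natAbs : ℤ) = Φ := Int.natAbs_of_nonneg hΦpos.le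
  have hcast : ∀ s : ℕ, s ∣ Φ.natAbs → (s : ℤ) ∣ (cyclotomic n ℤ).eval (a : ℤ) := by
    intro s hs
    rw [← hΦ, ← hΦN]; exact Int.natCast_dvd_natCast.mpr hs
  have hdiv : ∀ s : ℕ, s.Prime → s ∣ Φ.natAbs → s ∣ n := by
    intro s hs hsN
    have hsΦ := hcast s hsN
    by_contra hsn
    obtain ⟨k, hk0, hkn, hk⟩ := hcon s hs (dvd_pow_sub_one ha0 hsΦ)
    exact prim_of_not_dvd ha0 hs hsΦ hsn k hk0 hkn hk
  obtain ⟨r, hr, hrN⟩ := Nat.exists_prime_and_dvd (by omega : Φ.natAbs ≠ 1)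
  have hrΦ := hcast r hrN
  have hrn := hdiv r hr hrN
  have hpow := Nat.eq_prime_pow_of_unique_prime_dvd (n := Φ.natAbs) (p := r) (by omega) (by
    intro d hd hdN
    exact prime_unique hn0 hd hr (hcast d hdN) (hdiv d hd hdN) hrΦ hrn)
  obtain ⟨e, he⟩ : ∃ e, e = Φ.natAbs.primeFactorsList.length := ⟨_, rfl⟩
  rw [← he] at hpow
  have hsq : ¬ ((r : ℤ) ^ 2 ∣ (cyclotomic n ℤ).eval (a : ℤ)) := by
    rcases hr.eq_two_or_odd' with h2 | hodd
    · subst h2; exact sq_not_dvd_two ha hn hrΦ hrn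
    · exact sq_not_dvd_odd ha hn0 hr hodd hrΦ hrn
  have he1 : e = 1 := by
    rcases Nat.lt_or_ge e 2 with h | h
    · interval_cases e
      · rw [pow_zero] at hpow; omega
      · rfl
    · exfalso; apply hsq
      rw [← hΦ, ← hΦN, hpow]
      push_cast
      exact pow_dvd_pow _ h
  rw [he1, pow_one] at hpow
  have hΦr : (cyclotomic n ℤ).eval (a : ℤ) = (r : ℤ) := by rw [← hΦ, ← hΦN, hpow]
  obtain ⟨k, m, hk0, hnkm, hrm, hm1, hm0, -⟩ := structure_of_dvd hn0 hr hrΦ hrn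
  exact h6 (size_contra a n r k m ha hr hk0 hnkm hrm hm1 hm0 hΦr)

theorem zsig_two (a : ℕ) (ha : 2 ≤ a) (h2 : ¬ ∃ m : ℕ, a + 1 = 2 ^ m) :
    ∃ r : ℕ, r.Prime ∧ r ∣ a ^ 2 - 1 ∧ ∀ k : ℕ, 0 < k → k < 2 → ¬ r ∣ a ^ k - 1 := by
  have hex : ∃ r : ℕ, r.Prime ∧ r ∣ a + 1 ∧ r ≠ 2 := by
    by_contra hcon
    push_neg at hcon
    apply h2
    exact ⟨_, Nat.eq_prime_pow_of_unique_prime_dvd (by omega) (fun {d} hd hdvd => hcon d hd hdvd)⟩
  obtain ⟨r, hr, hra, hr2⟩ := hex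
  refine ⟨r, hr, ?_, ?_⟩
  · obtain ⟨c, rfl⟩ : ∃ c, a = c + 1 := ⟨a - 1, by omega⟩
    have e : (c + 1) ^ 2 = c * (c + 1 + 1) + 1 := by ring
    rw [e, Nat.add_sub_cancel]
    exact Dvd.dvd.mul_left hra _
  · intro k hk0 hk2 hdvd
    have hk1 : k = 1 := by omega
    subst hk1
    rw [pow_one] at hdvd
    have h3 : r ∣ 2 := by
      have e : a + 1 = (a - 1) + 2 := by omega
      rw [e] at hra
      exact (Nat.dvd_add_right hdvd).mp hra
    exact hr2 ((Nat.prime_dvd_prime_iff_eq hr Nat.prime_two).mp h3)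

theorem zsigmondy (a n : ℕ) (ha : 1 < a) (hn : 1 < n) (h6 : ¬ (a = 2 ∧ n = 6))
    (h2 : ¬ (n = 2 ∧ ∃ m : ℕ, a + 1 = 2 ^ m)) :
    ∃ r : ℕ, r.Prime ∧ r ∣ a ^ n - 1 ∧ ∀ k : ℕ, 0 < k → k < n → ¬ r ∣ a ^ k - 1 := by
  rcases Nat.lt_or_ge n 3 with h | h
  · have hn2 : n = 2 := by omega
    subst hn2
    exact zsig_two a ha (fun hm => h2 ⟨rfl, hm⟩)
  · exact zsig_ge3 a n ha h h6

end Cfsg.Agent.Lib_helper7_Zsig
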