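import Mathlib
import Cfsg.Agent.Lib_helper4_AltBasis

set_option autoImplicit false

/-! Alternating matrices have even rank. -/

namespace Cfsg.Agent.Lib_helper8_AltRank

theorem even_rank {F : Type*} [Field F] {n : Type*} [Fintype n] [DecidableEq n] (M : Matrix n n F)
    (hM : ∀ v : n → F, v ⬝ᵥ (M.mulVec v) = 0) : Even M.rank := by
  classical
  let B : LinearMap.BilinForm F (n → F) := Matrix.toBilin' M
  have hB : ∀ v w, B v w = v ⬝ᵥ (M.mulVec w) := fun v w => Matrix.toBilin'_apply' M v w
  have hA : B.IsAlt := fun v => by rw [hB]; exact hM v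
  obtain ⟨m, k, b, h1, h2, h3, h4⟩ := Cfsg.Agent.Lib_helper4_AltBasis.exists_basis B hA
  have hsk : ∀ x y, B x y = -B y x := fun x y => (hA.neg_eq y x).symm
  have h5 : ∀ u j, B u (b (Sum.inr j)) = 0 := fun u j => by rw [hsk, h4, neg_zero]
  have h6 : ∀ i j, B (b (Sum.inl (Sum.inr i))) (b (Sum.inl (Sum.inl j))) =
      if j = i then -1 else 0 := by
    intro i j
    rw [hsk, h1]
    split_ifs <;> simp
  have e : ∀ u v, B u v = ∑ x, b.repr v x * B u (b x) := by
    intro u v
    conv_lhs => rw [← b.sum_repr v]
    rw [map_sum]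
    simp only [map_smul, smul_eq_mul]
  have hker : LinearMap.ker M.mulVecLin =
      Submodule.span F (Set.range (fun j => b (Sum.inr j))) := by
    apply le_antisymm
    · intro v hv
      have hv0 : M.mulVec v = 0 := hv
      have hv' : ∀ u, B u v = 0 := fun u => by rw [hB, hv0, dotProduct_zero]
      have c1 : ∀ i, b.repr v (Sum.inl (Sum.inr i)) = 0 := by
        intro i
        have := hv' (b (Sum.inl (Sum.inl i)))
        rw [e, Fintype.sum_sum_type, Fintype.sum_sum_type] at this
        simpa [h1, h2, h5] using this
      have c2 : ∀ i, b.repr v (Sum.inl (Sum.inl i)) = 0 := by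
        intro i
        have := hv' (b (Sum.inl (Sum.inr i)))
        rw [e, Fintype.sum_sum_type, Fintype.sum_sum_type] at this
        simpa [h6, h3, h5] using this
      rw [← b.sum_repr v, Fintype.sum_sum_type, Fintype.sum_sum_type]
      refine Submodule.add_mem _ (Submodule.add_mem _ ?_ ?_) ?_
      · refine Submodule.sum_mem _ fun i _ => ?_
        rw [c2, zero_smul]
        exact Submodule.zero_mem _
      · refine Submodule.sum_mem _ fun i _ => ?_
        rw [c1, zero_smul]
        exact Submodule.zero_mem _
      · refine Submodule.sum_mem _ fun j _ => ?_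
        exact Submodule.smul_mem _ _ (Submodule.subset_span ⟨j, rfl⟩)
    · rw [Submodule.span_le]
      rintro _ ⟨j, rfl⟩
      show M.mulVec (b (Sum.inr j)) = 0
      apply dotProduct_eq_zero
      intro u
      rw [dotProduct_comm, ← hB, h5]
  have hli : LinearIndependent F (fun j : Fin k => b (Sum.inr j)) :=
    b.linearIndependent.comp _ Sum.inr_injective
  have h := LinearMap.finrank_range_add_finrank_ker M.mulVecLin
  rw [hker, finrank_span_eq_card hli, Module.finrank_eq_card_basis b] at h
  simp only [Fintype.card_sum, Fintype.card_fin] at h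
  have hr : M.rank = m + m := by
    have : M.rank = Module.finrank F (LinearMap.range M.mulVecLin) := rfl
    omega
  rw [hr]
  exact ⟨m, rfl⟩

end Cfsg.Agent.Lib_helper8_AltRank
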