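import Mathlib
import Cfsg.Agent.Lib_helper8_IndB
import Cfsg.Agent.Lib_helper3_CharMore

set_option autoImplicit false

/-! Induced class functions from the Borel subgroup of `GL_2` over a finite field. -/

namespace Cfsg.Agent.Lib_helper8_IndBGL

open Cfsg Cfsg.Agent.Lib_helper3_CharBasic Cfsg.Agent.Lib_helper3_CharInd
open Cfsg.Agent.Lib_helper8_IndB
open scoped ComplexConjugate
open Matrix

universe u

variable {F : Type u} [Field F]

local notation "G2" => Matrix.GeneralLinearGroup (Fin 2) F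
local notation "M2" => Matrix (Fin 2) (Fin 2) F
local notation "BG" => (Cfsg.upperTriangularGL 2 F)

theorem mulG (g h : G2) (i j : Fin 2) :
    ((g * h : G2) : M2) i j = (g : M2) i 0 * (h : M2) 0 j + (g : M2) i 1 * (h : M2) 1 j := by
  rw [Units.val_mul, Matrix.mul_apply, Fin.sum_univ_two]

theorem mem_BG_iff (g : G2) : g ∈ BG ↔ (g : M2) 1 0 = 0 := by
  constructor
  · intro h
    have h' : (g : M2).BlockTriangular id := h
    exact h' (show id (0 : Fin 2) < id 1 by decide)
  · intro h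
    show (g : M2).BlockTriangular id
    intro i j hij
    fin_cases i <;> fin_cases j
    · exact absurd hij (by decide)
    · exact absurd hij (by decide)
    · exact h
    · exact absurd hij (by decide)

theorem detG (g : G2) : (g : M2) 0 0 * (g : M2) 1 1 - (g : M2) 0 1 * (g : M2) 1 0 ≠ 0 := by
  have h := (Matrix.GeneralLinearGroup.det g).ne_zero
  rw [Matrix.GeneralLinearGroup.val_det_apply, Matrix.det_fin_two] at h
  exact h

theorem BG_entry (b : BG) : ((b : G2) : M2) 1 0 = 0 := (mem_BG_iff _).mp b.2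

theorem BG_00_ne (b : BG) : ((b : G2) : M2) 0 0 ≠ 0 := by
  intro h
  have h1 := detG (b : G2)
  rw [h, BG_entry b] at h1
  simp at h1

theorem BG_11_ne (b : BG) : ((b : G2) : M2) 1 1 ≠ 0 := by
  intro h
  have h1 := detG (b : G2)
  rw [h, BG_entry b] at h1
  simp at h1

/-- The transversal element in `GL_2`. -/
def nG (t : F) : G2 := SpecialLinearGroup.toGL (nSL t)

theorem nG_entries (t : F) : (nG t : M2) 0 0 = t ∧ (nG t : M2) 0 1 = -1 ∧
    (nG t : M2) 1 0 = 1 ∧ (nG t : M2) 1 1 = 0 := ⟨rfl, rfl, rfl, rfl⟩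

theorem nG_inv_entries (t : F) : (((nG t)⁻¹ : G2) : M2) 0 0 = 0 ∧
    (((nG t)⁻¹ : G2) : M2) 0 1 = 1 ∧ (((nG t)⁻¹ : G2) : M2) 1 0 = -1 ∧
    (((nG t)⁻¹ : G2) : M2) 1 1 = t := by
  have h : ((nG t)⁻¹ : G2) = SpecialLinearGroup.toGL ((nSL t)⁻¹) := (map_inv _ _).symm
  rw [h]
  exact nSL_inv_entries t

theorem cjG_entries (g : G2) (t : F) :
    (((nG t)⁻¹ * g * nG t : G2) : M2) 0 0 = (g : M2) 1 0 * t + (g : M2) 1 1 ∧
    (((nG t)⁻¹ * g * nG t : G2) : M2) 1 0 =
      (g : M2) 1 0 * t ^ 2 + ((g : M2) 1 1 - (g : M2) 0 0) * t - (g : M2) 0 1 ∧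
    (((nG t)⁻¹ * g * nG t : G2) : M2) 1 1 = (g : M2) 0 0 - (g : M2) 1 0 * t := by
  obtain ⟨n00, n01, n10, n11⟩ := nG_entries t
  obtain ⟨i00, i01, i10, i11⟩ := nG_inv_entries t
  refine ⟨?_, ?_, ?_⟩
  · rw [mulG, mulG, mulG, n00, n10, i00, i01]
    ring
  · rw [mulG, mulG, mulG, n00, n10, i10, i11]
    ring
  · rw [mulG, mulG, mulG, n01, n11, i10, i11]
    ring

/-- The transversal of the Borel subgroup of `GL_2`. -/
def rG : Option F → G2
  | none => 1
  | some t => nG t

theorem rG_bij : Function.Bijective (fun p : Option F × BG => rG p.1 * (p.2 : G2)) := by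
  have e10 : ∀ (t : F) (c : BG), ((nG t * (c : G2) : G2) : M2) 1 0 = ((c : G2) : M2) 0 0 := by
    intro t c
    obtain ⟨n00, n01, n10, n11⟩ := nG_entries t
    rw [mulG, n10, n11]
    ring
  have e00 : ∀ (t : F) (c : BG), ((nG t * (c : G2) : G2) : M2) 0 0 = t * ((c : G2) : M2) 0 0 := by
    intro t c
    obtain ⟨n00, n01, n10, n11⟩ := nG_entries t
    rw [mulG, BG_entry c, n00]
    ring
  constructor
  · rintro ⟨o, b⟩ ⟨o', b'⟩ h
    have h' : rG o * (b : G2) = rG o' * (b' : G2) := h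
    cases o with
    | none =>
      cases o' with
      | none =>
        have h2 : (b : G2) = b' := by simpa [rG] using h'
        rw [Subtype.ext h2]
      | some t' =>
        exfalso
        have h1 := congrArg (fun z : G2 => (z : M2) 1 0) h'
        simp only [rG, one_mul] at h1
        rw [e10 t' b', BG_entry b] at h1
        exact BG_00_ne b' h1.symm
    | some t =>
      cases o' with
      | none =>
        exfalso
        have h1 := congrArg (fun z : G2 => (z : M2) 1 0) h'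
        simp only [rG, one_mul] at h1
        rw [e10 t b, BG_entry b'] at h1
        exact BG_00_ne b h1
      | some t' =>
        have h1 := congrArg (fun z : G2 => (z : M2) 1 0) h'
        have h0 := congrArg (fun z : G2 => (z : M2) 0 0) h'
        simp only [rG] at h1 h0
        rw [e10 t b, e10 t' b'] at h1
        rw [e00 t b, e00 t' b', h1] at h0
        have ht : t = t' := mul_right_cancel₀ (BG_00_ne b') h0
        subst ht
        have h2 : (b : G2) = b' := mul_left_cancel h'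
        rw [Subtype.ext h2]
  · intro x
    by_cases hx : (x : M2) 1 0 = 0
    · exact ⟨(none, ⟨x, (mem_BG_iff x).mpr hx⟩), one_mul x⟩
    · have hb : (nG ((x : M2) 0 0 / (x : M2) 1 0))⁻¹ * x ∈ BG := by
        rw [mem_BG_iff, mulG]
        obtain ⟨-, -, h2, h3⟩ := nG_inv_entries ((x : M2) 0 0 / (x : M2) 1 0)
        rw [h2, h3]
        field_simp
        ring
      refine ⟨(some ((x : M2) 0 0 / (x : M2) 1 0), ⟨_, hb⟩), ?_⟩
      show nG ((x : M2) 0 0 / (x : M2) 1 0) * ((nG ((x : M2) 0 0 / (x : M2) 1 0))⁻¹ * x) = x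
      group

theorem theta_classG (ψ : F → F → ℂ) :
    IsClassFunction BG (fun b : BG => ψ (((b : G2) : M2) 0 0) (((b : G2) : M2) 1 1)) := by
  intro g h
  show ψ ((((h * g * h⁻¹ : BG) : G2) : M2) 0 0) ((((h * g * h⁻¹ : BG) : G2) : M2) 1 1) =
    ψ (((g : G2) : M2) 0 0) (((g : G2) : M2) 1 1)
  have hy : ((h * g * h⁻¹ : BG) : G2) * (h : G2) = (h : G2) * (g : G2) := by
    have h1 : (h * g * h⁻¹) * h = h * g := by group
    exact congrArg Subtype.val h1
  have e00 : ((((h * g * h⁻¹ : BG) : G2) * (h : G2) : G2) : M2) 0 0 =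
      (((h : G2) * (g : G2) : G2) : M2) 0 0 := by rw [hy]
  have e11 : ((((h * g * h⁻¹ : BG) : G2) * (h : G2) : G2) : M2) 1 1 =
      (((h : G2) * (g : G2) : G2) : M2) 1 1 := by rw [hy]
  rw [mulG, mulG, BG_entry h, BG_entry g] at e00
  rw [mulG, mulG, BG_entry (h * g * h⁻¹), BG_entry h] at e11
  have h00 : (((h * g * h⁻¹ : BG) : G2) : M2) 0 0 = ((g : G2) : M2) 0 0 :=
    mul_right_cancel₀ (BG_00_ne h) (by linear_combination e00)
  have h11 : (((h * g * h⁻¹ : BG) : G2) : M2) 1 1 = ((g : G2) : M2) 1 1 :=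
    mul_right_cancel₀ (BG_11_ne h) (by linear_combination e11)
  rw [h00, h11]

theorem ext_thetaG [DecidableEq F] (ψ : F → F → ℂ) (y : G2) :
    extendByZero BG (fun b : BG => ψ (((b : G2) : M2) 0 0) (((b : G2) : M2) 1 1)) y =
      if (y : M2) 1 0 = 0 then ψ ((y : M2) 0 0) ((y : M2) 1 1) else 0 := by
  split_ifs with h
  · rw [extendByZero_mem BG _ ((mem_BG_iff y).mpr h)]
  · rw [extendByZero_not_mem BG _ (fun hy => h ((mem_BG_iff y).mp hy))]

variable [Fintype F] [DecidableEq F]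

theorem ind_GL2_psi [Fintype (Matrix.GeneralLinearGroup (Fin 2) F)] (ψ : F → F → ℂ) (g : G2) :
    indFun BG (fun b : BG => ψ (((b : G2) : M2) 0 0) (((b : G2) : M2) 1 1)) g =
      (if (g : M2) 1 0 = 0 then ψ ((g : M2) 0 0) ((g : M2) 1 1) else 0) +
      ∑ t : F, (if (g : M2) 1 0 * t ^ 2 + ((g : M2) 1 1 - (g : M2) 0 0) * t - (g : M2) 0 1 = 0
        then ψ ((g : M2) 1 0 * t + (g : M2) 1 1) ((g : M2) 0 0 - (g : M2) 1 0 * t) else 0) := by
  rw [ind_transversal BG rG rG_bij _ (theta_classG ψ) g, Fintype.sum_option]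
  have h0 : (rG (none : Option F))⁻¹ * g * rG none = g := by simp [rG]
  rw [h0, ext_thetaG]
  congr 1
  apply Finset.sum_congr rfl
  intro t _
  have h1 : (rG (some t))⁻¹ * g * rG (some t) = (nG t)⁻¹ * g * nG t := rfl
  rw [h1, ext_thetaG]
  obtain ⟨e0, e1, e2⟩ := cjG_entries g t
  rw [e0, e1, e2]

/-- Parametrisation of the Borel subgroup of `GL_2`. -/
noncomputable def eBG : Fˣ × Fˣ × F ≃ BG where
  toFun p := ⟨Matrix.GeneralLinearGroup.mkOfDetNeZero !![(p.1 : F), p.2.2; 0, (p.2.1 : F)]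
      (by simp [Matrix.det_fin_two_of]),
    (mem_BG_iff _).mpr rfl⟩
  invFun b := (Units.mk0 (((b : G2) : M2) 0 0) (BG_00_ne b),
    Units.mk0 (((b : G2) : M2) 1 1) (BG_11_ne b), ((b : G2) : M2) 0 1)
  left_inv p := by
    apply Prod.ext
    · apply Units.ext
      rfl
    · apply Prod.ext
      · apply Units.ext
        rfl
      · rfl
  right_inv b := by
    apply Subtype.ext
    apply Units.ext
    ext i j
    fin_cases i <;> fin_cases j
    · rfl
    · rfl
    · exact (BG_entry b).symm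
    · rfl

theorem card_BG : (Nat.card BG : ℂ) =
    ((Fintype.card F : ℂ) - 1) * (((Fintype.card F : ℂ) - 1) * Fintype.card F) := by
  rw [Nat.card_congr (eBG (F := F)).symm, Nat.card_prod, Nat.card_prod, Nat.card_eq_fintype_card,
    Nat.card_eq_fintype_card, Fintype.card_units]
  push_cast [Nat.cast_sub (Fintype.card_pos (α := F))]
  ring

omit [Fintype F] [DecidableEq F] in
/-- The linear character `b ↦ α(b₀₀) β(b₁₁)` of the Borel subgroup is a character. -/
theorem theta_charG (α β : MulChar F ℂ) :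
    IsCharacter BG (fun b : BG => α (((b : G2) : M2) 0 0) * β (((b : G2) : M2) 1 1)) := by
  let d0 : BG →* Fˣ :=
    { toFun := fun b => Units.mk0 (((b : G2) : M2) 0 0) (BG_00_ne b)
      map_one' := by
        apply Units.ext
        show ((1 : G2) : M2) 0 0 = 1
        simp
      map_mul' := by
        intro b c
        apply Units.ext
        show (((b * c : BG) : G2) : M2) 0 0 = ((b : G2) : M2) 0 0 * ((c : G2) : M2) 0 0
        have e : ((b * c : BG) : G2) = (b : G2) * (c : G2) := rfl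
        rw [e, mulG, BG_entry c]
        ring }
  let d1 : BG →* Fˣ :=
    { toFun := fun b => Units.mk0 (((b : G2) : M2) 1 1) (BG_11_ne b)
      map_one' := by
        apply Units.ext
        show ((1 : G2) : M2) 1 1 = 1
        simp
      map_mul' := by
        intro b c
        apply Units.ext
        show (((b * c : BG) : G2) : M2) 1 1 = ((b : G2) : M2) 1 1 * ((c : G2) : M2) 1 1
        have e : ((b * c : BG) : G2) = (b : G2) * (c : G2) := rfl
        rw [e, mulG, BG_entry b]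
        ring }
  have h := isCharacter_of_monoidHom (((MulChar.toUnitHom α).comp d0) * ((MulChar.toUnitHom β).comp d1))
  have e : (fun b : BG => α (((b : G2) : M2) 0 0) * β (((b : G2) : M2) 1 1)) =
      fun g : BG => (((((MulChar.toUnitHom α).comp d0) * ((MulChar.toUnitHom β).comp d1)) g : ℂˣ) : ℂ) := by
    funext b
    show α (((b : G2) : M2) 0 0) * β (((b : G2) : M2) 1 1) =
      ((MulChar.toUnitHom α (d0 b) * MulChar.toUnitHom β (d1 b) : ℂˣ) : ℂ)
    rw [Units.val_mul, MulChar.coe_toUnitHom, MulChar.coe_toUnitHom]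
    rfl
  rw [e]
  exact h

open Classical in
/-- Inner product of two principal series functions of `GL_2`. -/
theorem inner_RG [Fintype (Matrix.GeneralLinearGroup (Fin 2) F)] (α β α' β' : MulChar F ℂ) :
    classInner (indFun BG (fun b : BG => α (((b : G2) : M2) 0 0) * β (((b : G2) : M2) 1 1)))
      (indFun BG (fun b : BG => α' (((b : G2) : M2) 0 0) * β' (((b : G2) : M2) 1 1))) =
      (if α = α' ∧ β = β' then 1 else 0) + (if α = β' ∧ β = α' then 1 else 0) := by
  haveI : Fintype BG := Fintype.ofFinite _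
  rw [frobenius_reciprocity BG _ _ (isClassFunction_indFun BG _), classInner_def]
  have hval : ∀ b : BG, indFun BG (fun b : BG => α' (((b : G2) : M2) 0 0) * β' (((b : G2) : M2) 1 1))
      (b : G2) = α' (((b : G2) : M2) 0 0) * β' (((b : G2) : M2) 1 1) + ∑ t : F,
        (if ((b : G2) : M2) 0 1 = (((b : G2) : M2) 1 1 - ((b : G2) : M2) 0 0) * t
          then α' (((b : G2) : M2) 1 1) * β' (((b : G2) : M2) 0 0) else 0) := by
    intro b
    rw [ind_GL2_psi (fun u v => α' u * β' v) (b : G2), if_pos (BG_entry b)]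
    congr 1
    apply Finset.sum_congr rfl
    intro t _
    rw [BG_entry b]
    by_cases h : ((b : G2) : M2) 0 1 = (((b : G2) : M2) 1 1 - ((b : G2) : M2) 0 0) * t
    · rw [if_pos h, if_pos (by rw [h]; ring)]
      simp
    · rw [if_neg h, if_neg (fun h' => h (by linear_combination -h'))]
  have hterm : ∀ p : Fˣ × Fˣ × F,
      α ((((eBG p : BG) : G2) : M2) 0 0) * β ((((eBG p : BG) : G2) : M2) 1 1) *
        conj (indFun BG (fun b : BG => α' (((b : G2) : M2) 0 0) * β' (((b : G2) : M2) 1 1))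
        ((eBG p : BG) : G2)) =
      (α * α'⁻¹) (p.1 : F) * (β * β'⁻¹) (p.2.1 : F) + ∑ t : F,
        (if p.2.2 = ((p.2.1 : F) - (p.1 : F)) * t
          then (α * β'⁻¹) (p.1 : F) * (β * α'⁻¹) (p.2.1 : F) else 0) := by
    intro p
    rw [hval]
    have e00 : (((eBG p : BG) : G2) : M2) 0 0 = (p.1 : F) := rfl
    have e01 : (((eBG p : BG) : G2) : M2) 0 1 = p.2.2 := rfl
    have e11 : (((eBG p : BG) : G2) : M2) 1 1 = (p.2.1 : F) := rfl
    rw [e00, e01, e11, map_add, mul_add, map_sum, Finset.mul_sum]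
    congr 1
    · rw [MulChar.mul_apply, MulChar.mul_apply, map_mul, (conj_unit α' p.1).1,
        (conj_unit β' p.2.1).1]
      ring
    · apply Finset.sum_congr rfl
      intro t _
      by_cases h : p.2.2 = ((p.2.1 : F) - (p.1 : F)) * t
      · rw [if_pos h, if_pos h, MulChar.mul_apply, MulChar.mul_apply, map_mul,
          (conj_unit α' p.2.1).1, (conj_unit β' p.1).1]
        ring
      · rw [if_neg h, if_neg h, map_zero, mul_zero]
  have hsum : ∑ b : BG, α (((b : G2) : M2) 0 0) * β (((b : G2) : M2) 1 1) *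
      conj (indFun BG (fun b : BG => α' (((b : G2) : M2) 0 0) * β' (((b : G2) : M2) 1 1))
      (b : G2)) = ∑ p : Fˣ × Fˣ × F, ((α * α'⁻¹) (p.1 : F) * (β * β'⁻¹) (p.2.1 : F) + ∑ t : F,
        (if p.2.2 = ((p.2.1 : F) - (p.1 : F)) * t
          then (α * β'⁻¹) (p.1 : F) * (β * α'⁻¹) (p.2.1 : F) else 0)) := by
    rw [← Equiv.sum_comp (eBG (F := F))]
    exact Finset.sum_congr rfl (fun p _ => hterm p)
  rw [hsum, Finset.sum_add_distrib, Fintype.sum_prod_type, Fintype.sum_prod_type]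
  simp only [Fintype.sum_prod_type]
  have s1 : ∀ χ₁ χ₂ : MulChar F ℂ, ∑ a : Fˣ, ∑ d : Fˣ, ∑ _c : F, χ₁ (a : F) * χ₂ (d : F) =
      (Fintype.card F : ℂ) * ((∑ a : Fˣ, χ₁ (a : F)) * (∑ d : Fˣ, χ₂ (d : F))) := by
    intro χ₁ χ₂
    rw [Finset.sum_mul_sum, Finset.mul_sum]
    apply Finset.sum_congr rfl
    intro a _
    rw [Finset.mul_sum]
    apply Finset.sum_congr rfl
    intro d _
    rw [Finset.sum_const, Finset.card_univ, nsmul_eq_mul]
  have s2 : ∀ χ₁ χ₂ : MulChar F ℂ, ∑ a : Fˣ, ∑ d : Fˣ, ∑ c : F, ∑ t : F,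
      (if c = ((d : F) - (a : F)) * t then χ₁ (a : F) * χ₂ (d : F) else 0) =
      (Fintype.card F : ℂ) * ((∑ a : Fˣ, χ₁ (a : F)) * (∑ d : Fˣ, χ₂ (d : F))) := by
    intro χ₁ χ₂
    rw [Finset.sum_mul_sum, Finset.mul_sum]
    apply Finset.sum_congr rfl
    intro a _
    rw [Finset.mul_sum]
    apply Finset.sum_congr rfl
    intro d _
    rw [Finset.sum_comm]
    have h3 : ∀ t : F, ∑ c : F,
        (if c = ((d : F) - (a : F)) * t then χ₁ (a : F) * χ₂ (d : F) else 0) =
        χ₁ (a : F) * χ₂ (d : F) := by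
      intro t
      rw [Finset.sum_ite_eq']
      simp
    rw [Finset.sum_congr rfl (fun t _ => h3 t), Finset.sum_const, Finset.card_univ, nsmul_eq_mul]
  rw [s1, s2, sum_units, sum_units, sum_units, sum_units, card_BG]
  obtain ⟨hq1, hq0⟩ := card_ne (F := F)
  have e1 : (α * α'⁻¹ = 1) ↔ α = α' := mul_inv_eq_one
  have e2 : (β * β'⁻¹ = 1) ↔ β = β' := mul_inv_eq_one
  have e3 : (α * β'⁻¹ = 1) ↔ α = β' := mul_inv_eq_one
  have e4 : (β * α'⁻¹ = 1) ↔ β = α' := mul_inv_eq_one
  simp only [e1, e2, e3, e4]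
  have hne : ((Fintype.card F : ℂ) - 1) * (((Fintype.card F : ℂ) - 1) * Fintype.card F) ≠ 0 :=
    mul_ne_zero hq1 (mul_ne_zero hq1 hq0)
  rw [inv_mul_eq_iff_eq_mul₀ hne]
  split_ifs <;> first | ring1 | (exfalso; tauto)

end Cfsg.Agent.Lib_helper8_IndBGL
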