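import Mathlib

set_option autoImplicit false

/-! Semisimple endomorphisms with the same characteristic polynomial are conjugate.

Everything is phrased for `F[X]`-modules that are finite-dimensional over `F`. -/

namespace Cfsg.Agent.Lib_helper8_SSConj
open Polynomial Module

variable {F : Type*} [Field F]

section chi

variable (F)

/-- multiplication by `X`, as an `F`-linear map -/
noncomputable def Tx (M : Type*) [AddCommGroup M] [Module F[X] M] [Module F M]
    [IsScalarTower F F[X] M] : M →ₗ[F] M :=
  (LinearMap.lsmul F[X] M X).restrictScalars F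

/-- the characteristic polynomial of multiplication by `X` -/
noncomputable def chi (M : Type*) [AddCommGroup M] [Module F[X] M] [Module F M]
    [IsScalarTower F F[X] M] [Module.Finite F M] : F[X] :=
  LinearMap.charpoly (Tx F M)

variable {F}

theorem Tx_apply {M : Type*} [AddCommGroup M] [Module F[X] M] [Module F M]
    [IsScalarTower F F[X] M] (m : M) : Tx F M m = (X : F[X]) • m := rfl

theorem chi_congr {M M' : Type*} [AddCommGroup M] [Module F[X] M] [Module F M]
    [IsScalarTower F F[X] M] [Module.Finite F M] [AddCommGroup M'] [Module F[X] M'] [Module F M']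
    [IsScalarTower F F[X] M'] [Module.Finite F M'] (e : M ≃ₗ[F[X]] M') : chi F M = chi F M' := by
  unfold chi
  rw [← LinearEquiv.charpoly_conj (e.restrictScalars F) (Tx F M)]
  congr 1
  ext m
  show e ((X : F[X]) • e.symm m) = (X : F[X]) • m
  rw [map_smul, LinearEquiv.apply_symm_apply]

theorem chi_prod {M M' : Type*} [AddCommGroup M] [Module F[X] M] [Module F M]
    [IsScalarTower F F[X] M] [Module.Finite F M] [AddCommGroup M'] [Module F[X] M'] [Module F M']
    [IsScalarTower F F[X] M'] [Module.Finite F M'] : chi F (M × M') = chi F M * chi F M' := by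
  unfold chi
  rw [← LinearMap.charpoly_prodMap]
  congr 1

theorem chi_monic (M : Type*) [AddCommGroup M] [Module F[X] M] [Module F M]
    [IsScalarTower F F[X] M] [Module.Finite F M] : (chi F M).Monic :=
  LinearMap.charpoly_monic _

theorem chi_natDegree (M : Type*) [AddCommGroup M] [Module F[X] M] [Module F M]
    [IsScalarTower F F[X] M] [Module.Finite F M] : (chi F M).natDegree = Module.finrank F M :=
  LinearMap.charpoly_natDegree _

end chi

/-- the `F`-dimension of a submodule is finite -/
theorem finite_sub {M : Type*} [AddCommGroup M] [Module F[X] M] [Module F M]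
    [IsScalarTower F F[X] M] [Module.Finite F M] (W : Submodule F[X] M) : Module.Finite F W :=
  Module.Finite.of_injective (W.subtype.restrictScalars F) W.injective_subtype

/-- A simple module killed by the irreducible `P` is `F[X] ⧸ (P)`. -/
theorem equiv_of_kills {S : Type*} [AddCommGroup S] [Module F[X] S] [IsSimpleModule F[X] S]
    (P : F[X]) (hP : Irreducible P) (hk : ∀ s : S, P • s = 0) :
    Nonempty (S ≃ₗ[F[X]] F[X] ⧸ Ideal.span {P}) := by
  obtain ⟨J, hJ, ⟨Ψ⟩⟩ := isSimpleModule_iff_quot_maximal.mp (inferInstance : IsSimpleModule F[X] S)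
  have hPJ : P ∈ J := by
    have h1 := hk (Ψ.symm (Submodule.Quotient.mk 1))
    rw [← map_smul, LinearEquiv.map_eq_zero_iff, ← Submodule.Quotient.mk_smul,
      Submodule.Quotient.mk_eq_zero, smul_eq_mul, mul_one] at h1
    exact h1
  have hmax : (Ideal.span {P} : Ideal F[X]).IsMaximal :=
    PrincipalIdealRing.isMaximal_of_irreducible hP
  have heq : Ideal.span {P} = J :=
    hmax.eq_of_le hJ.ne_top ((Ideal.span_singleton_le_iff_mem J).mpr hPJ)
  subst heq
  exact ⟨Ψ⟩

theorem iso_of_kills {S S' : Type*} [AddCommGroup S] [Module F[X] S] [IsSimpleModule F[X] S]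
    [AddCommGroup S'] [Module F[X] S'] [IsSimpleModule F[X] S']
    (P : F[X]) (hP : Irreducible P) (hk : ∀ s : S, P • s = 0) (hk' : ∀ s : S', P • s = 0) :
    Nonempty (S ≃ₗ[F[X]] S') := by
  obtain ⟨e⟩ := equiv_of_kills P hP hk
  obtain ⟨e'⟩ := equiv_of_kills P hP hk'
  exact ⟨e.trans e'.symm⟩

/-- For a simple module, an irreducible divisor of the characteristic polynomial kills it. -/
theorem kills_of_dvd_chi {S : Type*} [AddCommGroup S] [Module F[X] S] [Module F S]
    [IsScalarTower F F[X] S] [Module.Finite F S] [IsSimpleModule F[X] S]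
    (P : F[X]) (hP : Irreducible P) (hd : P ∣ chi F S) : ∀ s : S, P • s = 0 := by
  classical
  obtain ⟨J, hJ, ⟨Ψ⟩⟩ := isSimpleModule_iff_quot_maximal.mp (inferInstance : IsSimpleModule F[X] S)
  have hJ0 : ⊥ < J := Ideal.bot_lt_of_maximal J (Polynomial.not_isField F)
  obtain ⟨Q, rfl⟩ : ∃ Q : F[X], J = Ideal.span {Q} :=
    ⟨_, (Ideal.span_singleton_generator J).symm⟩
  have hQ0 : Q ≠ 0 := by
    rintro rfl
    rw [Ideal.span_singleton_zero] at hJ0
    exact lt_irrefl _ hJ0
  have hQirr : Irreducible Q :=
    ((Ideal.span_singleton_prime hQ0).mp hJ.isPrime).irreducible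
  haveI : Module.Finite F (F[X] ⧸ Ideal.span {Q}) := Module.Finite.equiv (Ψ.restrictScalars F)
  have h1 : chi F S = chi F (F[X] ⧸ Ideal.span {Q}) := chi_congr Ψ
  have h2 : chi F (F[X] ⧸ Ideal.span {Q}) = Q * C Q.leadingCoeff⁻¹ := by
    haveI : Module.Finite F (AdjoinRoot Q) := (AdjoinRoot.powerBasis hQ0).finite
    let ι : (F[X] ⧸ Ideal.span {Q}) ≃ₗ[F] AdjoinRoot Q :=
      { toFun := fun q => q
        invFun := fun q => q
        map_add' := fun _ _ => rfl
        map_smul' := fun c q => by
          obtain ⟨v, rfl⟩ := Ideal.Quotient.mk_surjective q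
          rfl
        left_inv := fun _ => rfl
        right_inv := fun _ => rfl }
    have h3 : ι.conj (Tx F (F[X] ⧸ Ideal.span {Q})) =
        Algebra.lmul F (AdjoinRoot Q) (AdjoinRoot.root Q) := by
      ext q
      obtain ⟨v, rfl⟩ := Ideal.Quotient.mk_surjective q
      rfl
    have h4 : LinearMap.charpoly (Algebra.lmul F (AdjoinRoot Q) (AdjoinRoot.root Q)) =
        minpoly F (AdjoinRoot.root Q) := by
      rw [← LinearMap.charpoly_toMatrix _ (AdjoinRoot.powerBasis hQ0).basis,
        ← Algebra.leftMulMatrix_apply]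
      exact _root_.charpoly_leftMulMatrix (AdjoinRoot.powerBasis hQ0)
    unfold chi
    rw [← LinearEquiv.charpoly_conj ι, h3, h4, AdjoinRoot.minpoly_root hQ0]
  rw [h1, h2] at hd
  have hu : IsUnit (C Q.leadingCoeff⁻¹ : F[X]) :=
    isUnit_C.mpr (isUnit_iff_ne_zero.mpr (inv_ne_zero (leadingCoeff_ne_zero.mpr hQ0)))
  have hPQ : P ∣ Q := (hu.dvd_mul_right).mp hd
  have hQP : Q ∣ P := hP.dvd_symm hQirr hPQ
  intro s
  obtain ⟨q, rfl⟩ := Ψ.symm.surjective s
  obtain ⟨v, rfl⟩ := Ideal.Quotient.mk_surjective q
  rw [← map_smul, LinearEquiv.map_eq_zero_iff]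
  show Submodule.Quotient.mk (P • v) = 0
  rw [Submodule.Quotient.mk_eq_zero, smul_eq_mul]
  exact Ideal.mul_mem_right _ _ (Ideal.mem_span_singleton.mpr hQP)

/-- A semisimple module whose characteristic polynomial is divisible by the irreducible `P`
has a simple submodule killed by `P`. -/
theorem exists_simple_of_dvd (P : F[X]) (hP : Irreducible P) :
    ∀ (d : ℕ) (M : Type*) [AddCommGroup M] [Module F[X] M] [Module F M]
      [IsScalarTower F F[X] M] [Module.Finite F M] [IsSemisimpleModule F[X] M],
      Module.finrank F M = d → P ∣ chi F M →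
      ∃ W : Submodule F[X] M, IsSimpleModule F[X] W ∧ ∀ w ∈ W, P • w = 0 := by
  intro d
  induction d using Nat.strong_induction_on with
  | _ d ih =>
    intro M _ _ _ _ _ _ hd hdvd
    by_cases hnt : Nontrivial M
    · obtain ⟨S, hS⟩ := IsSemisimpleModule.exists_simple_submodule F[X] M
      obtain ⟨S₁, hc⟩ := exists_isCompl S
      haveI := finite_sub S
      haveI := finite_sub S₁
      let e : (S × S₁) ≃ₗ[F[X]] M := Submodule.prodEquivOfIsCompl S S₁ hc
      have h1 : chi F M = chi F S * chi F S₁ := by rw [← chi_prod, chi_congr e]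
      rw [h1] at hdvd
      rcases hP.prime.dvd_or_dvd hdvd with h | h
      · refine ⟨S, hS, ?_⟩
        intro w hw
        have := kills_of_dvd_chi P hP h ⟨w, hw⟩
        exact congrArg Subtype.val this
      · have hfr : Module.finrank F S + Module.finrank F S₁ = Module.finrank F M := by
          rw [← Module.finrank_prod]
          exact LinearEquiv.finrank_eq (e.restrictScalars F)
        have hSpos : 0 < Module.finrank F S := by
          haveI : Nontrivial S := IsSimpleModule.nontrivial F[X] S
          exact Module.finrank_pos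
        obtain ⟨W, hW, hk⟩ := ih (Module.finrank F S₁) (by omega) S₁ rfl h
        refine ⟨W.map S₁.subtype, ?_, ?_⟩
        · haveI := hW
          exact IsSimpleModule.congr (N := ↥W)
            (Submodule.equivMapOfInjective S₁.subtype S₁.injective_subtype W).symm
        · rintro _ ⟨w, hw, rfl⟩
          have := hk w hw
          show P • (w : M) = 0
          rw [← Submodule.coe_smul, this, Submodule.coe_zero]
    · exfalso
      rw [not_nontrivial_iff_subsingleton] at hnt
      have h0 : (chi F M).natDegree = 0 := by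
        rw [chi_natDegree, Module.finrank_zero_of_subsingleton]
      have h1 : chi F M = 1 := (chi_monic M).natDegree_eq_zero.mp h0
      rw [h1] at hdvd
      exact hP.not_isUnit (isUnit_of_dvd_one hdvd)

/-- Semisimple modules with the same characteristic polynomial are isomorphic. -/
theorem iso_of_chi_eq :
    ∀ (d : ℕ) (M : Type*) (M' : Type*) [AddCommGroup M] [Module F[X] M] [Module F M]
      [IsScalarTower F F[X] M] [Module.Finite F M] [IsSemisimpleModule F[X] M]
      [AddCommGroup M'] [Module F[X] M'] [Module F M']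
      [IsScalarTower F F[X] M'] [Module.Finite F M'] [IsSemisimpleModule F[X] M'],
      Module.finrank F M = d → chi F M = chi F M' → Nonempty (M ≃ₗ[F[X]] M') := by
  intro d
  induction d using Nat.strong_induction_on with
  | _ d ih =>
    intro M M' _ _ _ _ _ _ _ _ _ _ _ _ hd hchi
    by_cases hnt : Nontrivial M
    · obtain ⟨W, hW⟩ := IsSemisimpleModule.exists_simple_submodule F[X] M
      obtain ⟨W₁, hc⟩ := exists_isCompl W
      haveI := finite_sub W
      haveI := finite_sub W₁
      let e : (W × W₁) ≃ₗ[F[X]] M := Submodule.prodEquivOfIsCompl W W₁ hc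
      have h1 : chi F M = chi F W * chi F W₁ := by rw [← chi_prod, chi_congr e]
      have hWpos : 0 < Module.finrank F W := by
        haveI : Nontrivial W := IsSimpleModule.nontrivial F[X] W
        exact Module.finrank_pos
      have hnu : ¬ IsUnit (chi F W) := by
        apply Polynomial.not_isUnit_of_natDegree_pos
        rw [chi_natDegree]; exact hWpos
      obtain ⟨P, hP, hPd⟩ := WfDvdMonoid.exists_irreducible_factor hnu (chi_monic W).ne_zero
      have hkW := kills_of_dvd_chi P hP hPd
      have hPM' : P ∣ chi F M' := by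
        rw [← hchi, h1]; exact Dvd.dvd.mul_right hPd _
      obtain ⟨W', hW', hkW'⟩ := exists_simple_of_dvd P hP _ M' rfl hPM'
      obtain ⟨ε⟩ := iso_of_kills (S := W) (S' := W') P hP hkW
        (fun s => Subtype.ext (hkW' s.1 s.2))
      obtain ⟨W'₁, hc'⟩ := exists_isCompl W'
      haveI := finite_sub W'
      haveI := finite_sub W'₁
      let e' : (W' × W'₁) ≃ₗ[F[X]] M' := Submodule.prodEquivOfIsCompl W' W'₁ hc'
      have h1' : chi F M' = chi F W' * chi F W'₁ := by rw [← chi_prod, chi_congr e']
      have h2 : chi F W₁ = chi F W'₁ := by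
        have h3 : chi F W * chi F W₁ = chi F W * chi F W'₁ := by
          rw [← h1, hchi, h1', chi_congr ε]
        exact mul_left_cancel₀ (chi_monic W).ne_zero h3
      have hfr : Module.finrank F W + Module.finrank F W₁ = Module.finrank F M := by
        rw [← Module.finrank_prod]
        exact LinearEquiv.finrank_eq (e.restrictScalars F)
      obtain ⟨ε₁⟩ := ih (Module.finrank F W₁) (by omega) W₁ W'₁ rfl h2
      exact ⟨e.symm.trans ((ε.prodCongr ε₁).trans e')⟩
    · rw [not_nontrivial_iff_subsingleton] at hnt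
      have h0 : (chi F M').natDegree = 0 := by
        rw [← hchi, chi_natDegree, Module.finrank_zero_of_subsingleton]
      rw [chi_natDegree] at h0
      haveI : Subsingleton M' := Module.finrank_zero_iff.mp h0
      exact ⟨LinearEquiv.ofSubsingleton M M'⟩

/-- `chi` of the module of an endomorphism is its characteristic polynomial. -/
theorem chi_aeval {V : Type*} [AddCommGroup V] [Module F V] [FiniteDimensional F V]
    (φ : Module.End F V) [Module.Finite F (AEval' φ)] :
    chi F (AEval' φ) = LinearMap.charpoly φ := by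
  unfold chi
  rw [← LinearEquiv.charpoly_conj (AEval'.of φ) φ]
  congr 1
  ext m
  obtain ⟨v, rfl⟩ := (AEval'.of φ).surjective m
  show (X : F[X]) • AEval'.of φ v = AEval'.of φ (φ ((AEval'.of φ).symm (AEval'.of φ v)))
  rw [LinearEquiv.symm_apply_apply, AEval'.X_smul_of]

/-- Semisimple endomorphisms with the same characteristic polynomial are conjugate. -/
theorem exists_equiv_of_charpoly_eq {V : Type*} [AddCommGroup V] [Module F V]
    [FiniteDimensional F V] (φ ψ : Module.End F V) (hφ : φ.IsSemisimple) (hψ : ψ.IsSemisimple)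
    (h : LinearMap.charpoly φ = LinearMap.charpoly ψ) :
    ∃ e : V ≃ₗ[F] V, ∀ v, e (φ v) = ψ (e v) := by
  haveI : IsSemisimpleModule F[X] (AEval' φ) := hφ
  haveI : IsSemisimpleModule F[X] (AEval' ψ) := hψ
  haveI : Module.Finite F (AEval' φ) := Module.Finite.equiv (AEval'.of φ)
  haveI : Module.Finite F (AEval' ψ) := Module.Finite.equiv (AEval'.of ψ)
  obtain ⟨Θ⟩ := iso_of_chi_eq _ (AEval' φ) (AEval' ψ) rfl (by rw [chi_aeval, chi_aeval, h])
  refine ⟨(AEval'.of φ).trans ((Θ.restrictScalars F).trans (AEval'.of ψ).symm), ?_⟩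
  intro v
  show (AEval'.of ψ).symm (Θ (AEval'.of φ (φ v))) = ψ ((AEval'.of ψ).symm (Θ (AEval'.of φ v)))
  rw [← AEval'.X_smul_of, map_smul, AEval'.of_symm_X_smul]

/-- Matrix form: semisimple matrices with the same characteristic polynomial are conjugate. -/
theorem exists_conj_of_charpoly_eq {n : ℕ} (A B : Matrix (Fin n) (Fin n) F)
    (hA : Module.End.IsSemisimple (Matrix.toLin' A)) (hB : Module.End.IsSemisimple (Matrix.toLin' B))
    (h : A.charpoly = B.charpoly) :
    ∃ P : GL (Fin n) F, (P : Matrix (Fin n) (Fin n) F) * A = B * P := by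
  obtain ⟨e, he⟩ := exists_equiv_of_charpoly_eq (Matrix.toLin' A) (Matrix.toLin' B) hA hB
    (by rw [Matrix.charpoly_toLin', Matrix.charpoly_toLin', h])
  have h1 : LinearMap.toMatrix' (e : (Fin n → F) →ₗ[F] (Fin n → F)) *
      LinearMap.toMatrix' (e.symm : (Fin n → F) →ₗ[F] (Fin n → F)) = 1 := by
    rw [← LinearMap.toMatrix'_comp, LinearEquiv.comp_symm, LinearMap.toMatrix'_id]
  have h2 : LinearMap.toMatrix' (e.symm : (Fin n → F) →ₗ[F] (Fin n → F)) *
      LinearMap.toMatrix' (e : (Fin n → F) →ₗ[F] (Fin n → F)) = 1 := by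
    rw [← LinearMap.toMatrix'_comp, LinearEquiv.symm_comp, LinearMap.toMatrix'_id]
  refine ⟨⟨LinearMap.toMatrix' (e : (Fin n → F) →ₗ[F] (Fin n → F)),
    LinearMap.toMatrix' (e.symm : (Fin n → F) →ₗ[F] (Fin n → F)), h1, h2⟩, ?_⟩
  show LinearMap.toMatrix' (e : (Fin n → F) →ₗ[F] (Fin n → F)) * A = B * LinearMap.toMatrix' _
  have h3 : (e : (Fin n → F) →ₗ[F] (Fin n → F)) ∘ₗ Matrix.toLin' A =
      Matrix.toLin' B ∘ₗ (e : (Fin n → F) →ₗ[F] (Fin n → F)) := by
    apply LinearMap.ext
    intro v
    exact he v
  have h4 := congrArg LinearMap.toMatrix' h3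
  rw [LinearMap.toMatrix'_comp, LinearMap.toMatrix'_comp, LinearMap.toMatrix'_toLin',
    LinearMap.toMatrix'_toLin'] at h4
  exact h4

end Cfsg.Agent.Lib_helper8_SSConj
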