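import Mathlib
import Cfsg.Agent.Lib_helper8_SSConj

set_option autoImplicit false

/-! Counting semisimple classes: existence of a semisimple matrix with a given characteristic
polynomial, semisimple ⇒ order prime to the characteristic, and counting monic polynomials. -/

namespace Cfsg.Agent.Lib_helper8_SSCount
open Polynomial Module Cfsg.Agent.Lib_helper8_SSConj

universe u

variable {F : Type u} [Field F]

theorem finite_quot (Q : F[X]) (hQ0 : Q ≠ 0) : Module.Finite F (F[X] ⧸ Ideal.span {Q}) := by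
  haveI : Module.Finite F (AdjoinRoot Q) := (AdjoinRoot.powerBasis hQ0).finite
  let ι : (F[X] ⧸ Ideal.span {Q}) ≃ₗ[F] AdjoinRoot Q :=
    { toFun := fun q => q
      invFun := fun q => q
      map_add' := fun _ _ => rfl
      map_smul' := fun c q => by
        obtain ⟨v, rfl⟩ := Ideal.Quotient.mk_surjective q
        rfl
      left_inv := fun _ => rfl
      right_inv := fun _ => rfl }
  exact Module.Finite.equiv ι.symm

theorem chi_quot (Q : F[X]) (hQ0 : Q ≠ 0) [Module.Finite F (F[X] ⧸ Ideal.span {Q})] :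
    chi F (F[X] ⧸ Ideal.span {Q}) = Q * C Q.leadingCoeff⁻¹ := by
  classical
  haveI : Module.Finite F (AdjoinRoot Q) := (AdjoinRoot.powerBasis hQ0).finite
  let ι : (F[X] ⧸ Ideal.span {Q}) ≃ₗ[F] AdjoinRoot Q :=
    { toFun := fun q => q
      invFun := fun q => q
      map_add' := fun _ _ => rfl
      map_smul' := fun c q => by
        obtain ⟨v, rfl⟩ := Ideal.Quotient.mk_surjective q
        rfl
      left_inv := fun _ => rfl
      right_inv := fun _ => rfl }
  have h3 : ι.conj (Tx F (F[X] ⧸ Ideal.span {Q})) =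
      Algebra.lmul F (AdjoinRoot Q) (AdjoinRoot.root Q) := by
    ext q
    obtain ⟨v, rfl⟩ := Ideal.Quotient.mk_surjective q
    rfl
  have h4 : LinearMap.charpoly (Algebra.lmul F (AdjoinRoot Q) (AdjoinRoot.root Q)) =
      minpoly F (AdjoinRoot.root Q) := by
    rw [← LinearMap.charpoly_toMatrix _ (AdjoinRoot.powerBasis hQ0).basis,
      ← Algebra.leftMulMatrix_apply]
    exact _root_.charpoly_leftMulMatrix (AdjoinRoot.powerBasis hQ0)
  unfold chi
  rw [← LinearEquiv.charpoly_conj ι, h3, h4, AdjoinRoot.minpoly_root hQ0]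

theorem semisimple_prod {M N : Type*} [AddCommGroup M] [Module F[X] M] [AddCommGroup N]
    [Module F[X] N] [IsSemisimpleModule F[X] M] [IsSemisimpleModule F[X] N] :
    IsSemisimpleModule F[X] (M × N) := by
  have h1 : IsSemisimpleModule F[X] (LinearMap.range (LinearMap.inl F[X] M N)) := .range _
  have h2 : IsSemisimpleModule F[X] (LinearMap.range (LinearMap.inr F[X] M N)) := .range _
  have h3 := IsSemisimpleModule.sup h1 h2
  rw [LinearMap.sup_range_inl_inr] at h3
  exact IsSemisimpleModule.congr (Submodule.topEquiv (R := F[X]) (M := M × N)).symm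

/-- Every monic polynomial is the characteristic polynomial of a semisimple module. -/
theorem exists_ss_module : ∀ (d : ℕ) (f : F[X]), f.Monic → f.natDegree = d →
    ∃ (M : Type u) (_ : AddCommGroup M) (_ : Module F[X] M) (_ : Module F M)
      (_ : IsScalarTower F F[X] M) (_ : Module.Finite F M),
      IsSemisimpleModule F[X] M ∧ chi F M = f := by
  intro d
  induction d using Nat.strong_induction_on with
  | _ d ih =>
    intro f hf hd
    by_cases hu : IsUnit f
    · have hf1 : f = 1 := hf.eq_one_of_isUnit hu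
      subst hf1
      refine ⟨PUnit.{u + 1}, inferInstance, inferInstance, inferInstance, inferInstance,
        inferInstance, ?_, ?_⟩
      · haveI : Subsingleton (Submodule F[X] PUnit.{u + 1}) :=
          (Submodule.subsingleton_iff F[X]).mpr inferInstance
        exact IsSemisimpleModule.of_sSup_simples_eq_top (Subsingleton.elim _ _)
      · apply (chi_monic PUnit.{u + 1}).natDegree_eq_zero.mp
        rw [chi_natDegree, Module.finrank_zero_of_subsingleton]
    · obtain ⟨P, hP, hPd⟩ := WfDvdMonoid.exists_irreducible_factor hu hf.ne_zero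
      set P' : F[X] := P * C P.leadingCoeff⁻¹ with hP'
      have hP0 : P ≠ 0 := hP.ne_zero
      have hmon : P'.Monic := monic_mul_leadingCoeff_inv hP0
      have hcu : IsUnit (C P.leadingCoeff⁻¹ : F[X]) :=
        isUnit_C.mpr (isUnit_iff_ne_zero.mpr (inv_ne_zero (leadingCoeff_ne_zero.mpr hP0)))
      have hassoc : Associated P P' := ⟨hcu.unit, rfl⟩
      have hP'irr : Irreducible P' := hassoc.irreducible hP
      have hP'd : P' ∣ f := hassoc.symm.dvd.trans hPd
      obtain ⟨f₁, rfl⟩ := hP'd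
      have hf₁ : f₁.Monic := hmon.of_mul_monic_left hf
      have hdeg : (P' * f₁).natDegree = P'.natDegree + f₁.natDegree := hmon.natDegree_mul hf₁
      have hPpos : 0 < P'.natDegree := hP'irr.natDegree_pos
      obtain ⟨M₁, i1, i2, i3, i4, i5, hss, hchi⟩ := ih f₁.natDegree (by omega) f₁ hf₁ rfl
      haveI := finite_quot P' hmon.ne_zero
      haveI : (Ideal.span {P'} : Ideal F[X]).IsMaximal :=
        PrincipalIdealRing.isMaximal_of_irreducible hP'irr
      haveI : IsSimpleModule F[X] (F[X] ⧸ Ideal.span {P'}) :=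
        isSimpleModule_iff_quot_maximal.mpr ⟨_, inferInstance, ⟨LinearEquiv.refl _ _⟩⟩
      refine ⟨(F[X] ⧸ Ideal.span {P'}) × M₁, inferInstance, inferInstance, inferInstance,
        inferInstance, inferInstance, semisimple_prod, ?_⟩
      rw [chi_prod, hchi, chi_quot P' hmon.ne_zero, hmon.leadingCoeff, inv_one, map_one, mul_one]

/-- Every monic polynomial of degree `n` is the characteristic polynomial of a semisimple
`n × n` matrix. -/
theorem exists_ss_matrix {n : ℕ} (f : F[X]) (hf : f.Monic) (hn : f.natDegree = n) :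
    ∃ A : Matrix (Fin n) (Fin n) F, Module.End.IsSemisimple (Matrix.toLin' A) ∧ A.charpoly = f := by
  obtain ⟨M, i1, i2, i3, i4, i5, hss, hchi⟩ := exists_ss_module n f hf hn
  have hfr : Module.finrank F M = n := by rw [← chi_natDegree, hchi, hn]
  let e : M ≃ₗ[F] (Fin n → F) := (Module.finBasisOfFinrankEq F M hfr).equivFun
  let φ : Module.End F (Fin n → F) := e.conj (Tx F M)
  have hφ : ∀ v, φ v = e ((X : F[X]) • e.symm v) := fun v => rfl
  refine ⟨LinearMap.toMatrix' φ, ?_, ?_⟩
  · rw [Matrix.toLin'_toMatrix']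
    let Θ : AEval' φ ≃ₗ[F[X]] M := LinearEquiv.ofAEval φ e.symm (fun v => by
      show e.symm (φ v) = (X : F[X]) • e.symm v
      rw [hφ, LinearEquiv.symm_apply_apply])
    exact IsSemisimpleModule.congr Θ
  · rw [← Matrix.charpoly_toLin', Matrix.toLin'_toMatrix', ← hchi]
    exact LinearEquiv.charpoly_conj e (Tx F M)

/-- A semisimple matrix of finite order over a field of characteristic `p` has order prime
to `p`. -/
theorem coprime_of_ss {p : ℕ} [Fact p.Prime] [CharP F p] {n : ℕ} [NeZero n]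
    (A : Matrix (Fin n) (Fin n) F) (hss : Module.End.IsSemisimple (Matrix.toLin' A))
    (o : ℕ) (ho : 0 < o) (hA : A ^ o = 1) (hmin : ∀ k, 0 < k → k < o → A ^ k ≠ 1) :
    o.Coprime p := by
  have hp : p.Prime := Fact.out
  rw [Nat.coprime_comm, hp.coprime_iff_not_dvd]
  rintro ⟨k, rfl⟩
  have hk : 0 < k := Nat.pos_of_mul_pos_right ho |>.trans_le le_rfl |> fun _ => by
    rcases Nat.eq_zero_or_pos k with h | h
    · rw [h, mul_zero] at ho; exact absurd ho (lt_irrefl _)
    · exact h
  have hkp : k < p * k := by nlinarith [hp.two_le]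
  apply hmin k hk hkp
  -- `A ^ k - 1` is nilpotent and semisimple
  haveI : Nonempty (Fin n) := ⟨⟨0, Nat.pos_of_ne_zero (NeZero.ne n)⟩⟩
  have hnil : (A ^ k - 1) ^ p = 0 := by
    rw [sub_pow_char_of_commute p (Commute.one_right _), one_pow, ← pow_mul, mul_comm, hA, sub_self]
  have h1 : Matrix.toLin' (A ^ k - 1) = aeval (Matrix.toLin' A) (X ^ k - 1 : F[X]) := by
    have h2 : ∀ B : Matrix (Fin n) (Fin n) F, Matrix.toLin' B = Matrix.toLinAlgEquiv' B :=
      fun B => rfl
    have e1 : aeval (Matrix.toLin' A) (X ^ k - 1 : F[X]) = (Matrix.toLin' A) ^ k - 1 := by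
      rw [map_sub, map_pow, aeval_X, map_one]
    rw [e1, h2, h2, map_sub, map_pow, map_one]
  have h3 : Matrix.toLin' (A ^ k - 1) = 0 := by
    apply Module.End.eq_zero_of_isNilpotent_isSemisimple
    · refine ⟨p, ?_⟩
      have h2 : ∀ B : Matrix (Fin n) (Fin n) F, Matrix.toLin' B = Matrix.toLinAlgEquiv' B :=
        fun B => rfl
      rw [h2, ← map_pow, hnil, map_zero]
    · rw [h1]; exact hss.aeval _
  have h4 : A ^ k - 1 = 0 := by
    have := congrArg LinearMap.toMatrix' h3
    rwa [LinearMap.toMatrix'_toLin', map_zero] at this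
  exact sub_eq_zero.mp h4

/-- Counting conjugacy classes through a complete invariant. -/
theorem card_classes {G : Type*} [Group G] {α : Type*} (S : G → Prop) (Q : α → Prop) (χ : G → α)
    (h1 : ∀ g, S g → Q (χ g))
    (h2 : ∀ g h, S g → S h → χ g = χ h → IsConj g h)
    (h3 : ∀ a, Q a → ∃ g, S g ∧ χ g = a)
    (h4 : ∀ g h, IsConj g h → χ g = χ h) :
    Nat.card {c : ConjClasses G // ∃ g, ConjClasses.mk g = c ∧ S g} = Nat.card {a : α // Q a} := by
  classical
  let Ψ : {c : ConjClasses G // ∃ g, ConjClasses.mk g = c ∧ S g} → {a : α // Q a} :=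
    fun c => ⟨χ c.2.choose, h1 _ c.2.choose_spec.2⟩
  apply Nat.card_congr (Equiv.ofBijective Ψ ⟨?_, ?_⟩)
  · rintro ⟨c₁, hc₁⟩ ⟨c₂, hc₂⟩ h
    have h' : χ hc₁.choose = χ hc₂.choose := congrArg Subtype.val h
    have := h2 _ _ hc₁.choose_spec.2 hc₂.choose_spec.2 h'
    apply Subtype.ext
    show c₁ = c₂
    rw [← hc₁.choose_spec.1, ← hc₂.choose_spec.1]
    exact ConjClasses.mk_eq_mk_iff_isConj.mpr this
  · rintro ⟨a, ha⟩
    obtain ⟨g, hg, rfl⟩ := h3 a ha
    have hc : ∃ g', ConjClasses.mk g' = ConjClasses.mk g ∧ S g' := ⟨g, rfl, hg⟩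
    refine ⟨⟨ConjClasses.mk g, hc⟩, ?_⟩
    apply Subtype.ext
    show χ hc.choose = χ g
    exact h4 _ _ (ConjClasses.mk_eq_mk_iff_isConj.mp hc.choose_spec.1)

theorem degree_sub_X_pow {n : ℕ} (f : F[X]) (hf : f.Monic) (hn : f.natDegree = n) :
    (f - X ^ n).degree < (n : WithBot ℕ) := by
  have h1 : f.degree = n := by rw [degree_eq_natDegree hf.ne_zero, hn]
  have h2 := degree_sub_lt (p := f) (q := X ^ n) (by rw [h1, degree_X_pow]) hf.ne_zero
    (by rw [hf.leadingCoeff, (monic_X_pow n).leadingCoeff])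
  rwa [h1] at h2

/-- monic polynomials of degree `n` correspond to their lower coefficients -/
noncomputable def monicEquiv (n : ℕ) : {f : F[X] // f.Monic ∧ f.natDegree = n} ≃ (Fin n → F) where
  toFun f := degreeLTEquiv F n ⟨f.1 - X ^ n, mem_degreeLT.mpr (degree_sub_X_pow f.1 f.2.1 f.2.2)⟩
  invFun c := ⟨X ^ n + ((degreeLTEquiv F n).symm c : F[X]),
    monic_X_pow_add (mem_degreeLT.mp ((degreeLTEquiv F n).symm c).2), by
      rw [natDegree_add_eq_left_of_degree_lt, natDegree_X_pow]
      rw [degree_X_pow]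
      exact mem_degreeLT.mp ((degreeLTEquiv F n).symm c).2⟩
  left_inv f := by
    apply Subtype.ext
    show X ^ n + ((degreeLTEquiv F n).symm (degreeLTEquiv F n ⟨f.1 - X ^ n, _⟩) : F[X]) = f.1
    rw [LinearEquiv.symm_apply_apply]
    show X ^ n + (f.1 - X ^ n) = f.1
    ring
  right_inv c := by
    show degreeLTEquiv F n ⟨X ^ n + ((degreeLTEquiv F n).symm c : F[X]) - X ^ n, _⟩ = c
    have : (⟨X ^ n + ((degreeLTEquiv F n).symm c : F[X]) - X ^ n,
        mem_degreeLT.mpr (degree_sub_X_pow _
          (monic_X_pow_add (mem_degreeLT.mp ((degreeLTEquiv F n).symm c).2)) (by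
            rw [natDegree_add_eq_left_of_degree_lt, natDegree_X_pow]
            rw [degree_X_pow]
            exact mem_degreeLT.mp ((degreeLTEquiv F n).symm c).2))⟩ : degreeLT F n) =
        (degreeLTEquiv F n).symm c := Subtype.ext (by simp)
    rw [this, LinearEquiv.apply_symm_apply]

theorem monicEquiv_zero {n : ℕ} (hn : 1 ≤ n) (f : {f : F[X] // f.Monic ∧ f.natDegree = n}) :
    monicEquiv n f ⟨0, hn⟩ = f.1.coeff 0 := by
  show (f.1 - X ^ n).coeff 0 = f.1.coeff 0
  rw [coeff_sub, coeff_X_pow, if_neg (by omega), sub_zero]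

theorem card_pi_pred [Fintype F] {n : ℕ} (i₀ : Fin n) (P : F → Prop) :
    Nat.card {c : Fin n → F // P (c i₀)} =
      Nat.card {x : F // P x} * Fintype.card F ^ (n - 1) := by
  classical
  have e1 : {c : Fin n → F // P (c i₀)} ≃ {pr : F × ({j : Fin n // j ≠ i₀} → F) // P pr.1} :=
    (Equiv.piSplitAt i₀ (fun _ => F)).subtypeEquiv (fun c => Iff.rfl)
  have e2 := e1.trans (Equiv.prodSubtypeFstEquivSubtypeProd (p := P))
  rw [Nat.card_congr e2, Nat.card_prod, Nat.card_fun, Nat.card_eq_fintype_card (α := F),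
    Nat.card_eq_fintype_card (α := {j : Fin n // j ≠ i₀})]
  congr 2
  simp [Fintype.card_subtype_compl]

/-- the number of monic polynomials of degree `n ≥ 1` whose constant term satisfies `P` -/
theorem card_monic_coeff [Fintype F] {n : ℕ} (hn : 1 ≤ n) (P : F → Prop) :
    Nat.card {f : F[X] // (f.Monic ∧ f.natDegree = n) ∧ P (f.coeff 0)} =
      Nat.card {x : F // P x} * Fintype.card F ^ (n - 1) := by
  rw [← card_pi_pred ⟨0, hn⟩ P]
  have e1 : {f : F[X] // (f.Monic ∧ f.natDegree = n) ∧ P (f.coeff 0)} ≃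
      {f' : {f : F[X] // f.Monic ∧ f.natDegree = n} // P (f'.1.coeff 0)} :=
    (Equiv.subtypeSubtypeEquivSubtypeInter (fun f : F[X] => f.Monic ∧ f.natDegree = n)
      (fun f => P (f.coeff 0))).symm
  have e2 : {f' : {f : F[X] // f.Monic ∧ f.natDegree = n} // P (f'.1.coeff 0)} ≃
      {c : Fin n → F // P (c ⟨0, hn⟩)} :=
    (monicEquiv n).subtypeEquiv (fun f => by rw [monicEquiv_zero hn])
  exact Nat.card_congr (e1.trans e2)

end Cfsg.Agent.Lib_helper8_SSCount
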