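import Cfsg.Statements.S2330
import Mathlib
import Cfsg.Agent.Lib_helper8_GL2
import Cfsg.Agent.Lib_helper8_SSCount
import Cfsg.Agent.Lib_helper8_IndBGL

set_option autoImplicit false
open Cfsg

namespace Cfsg.Agent.S2330

section Aux
open Matrix Cfsg.Agent.Lib_helper8_GL2 Cfsg.Agent.Lib_helper8_SSCount

variable {F : Type*} [Field F]

local notation "G2" => Matrix.GeneralLinearGroup (Fin 2) F
local notation "M2" => Matrix (Fin 2) (Fin 2) F

theorem scal_00_ne (g : G2) (h : ¬ NonScalar (g : M2)) : (g : M2) 0 0 ≠ 0 := by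
  unfold Lib_helper8_GL2.NonScalar at h
  push Not at h
  have hd := Cfsg.Agent.Lib_helper8_IndBGL.detG g
  intro h0
  apply hd
  rw [h.1, h0]
  ring

open Classical in
/-- The complete conjugacy invariant of `GL_2`. -/
noncomputable def inv (g : G2) : Option F × Fˣ :=
  if h : NonScalar (g : M2) then (some (g : M2).trace, Matrix.GeneralLinearGroup.det g)
  else (none, Units.mk0 ((g : M2) 0 0) (scal_00_ne g h))

theorem inv_isConj (g h : G2) (hc : IsConj g h) : inv g = inv h := by
  obtain ⟨c, hc⟩ := isConj_iff.mp hc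
  by_cases hg : NonScalar (g : M2)
  · have hh : NonScalar (h : M2) := by
      rw [nonScalar_iff] at hg ⊢
      rintro ⟨a, ha⟩
      apply hg
      refine ⟨a, ?_⟩
      have e : g = c⁻¹ * h * c := by rw [← hc]; group
      rw [e]
      simp only [Units.val_mul]
      rw [ha, Matrix.mul_smul, Matrix.mul_one, Matrix.smul_mul, ← Units.val_mul, inv_mul_cancel,
        Units.val_one]
    unfold inv
    rw [dif_pos hg, dif_pos hh]
    have ht : (h : M2).trace = (g : M2).trace := by
      rw [← hc]
      simp only [Units.val_mul]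
      rw [Matrix.trace_mul_comm, ← Matrix.mul_assoc, ← Units.val_mul, inv_mul_cancel,
        Units.val_one, Matrix.one_mul]
    have hd : Matrix.GeneralLinearGroup.det h = Matrix.GeneralLinearGroup.det g := by
      rw [← hc, map_mul, map_mul, map_inv]
      rw [mul_comm, ← mul_assoc, inv_mul_cancel, one_mul]
    rw [ht, hd]
  · have hgs : ∃ a : F, (g : M2) = a • 1 := by
      by_contra hcon
      exact hg ((nonScalar_iff _).mpr hcon)
    obtain ⟨a, ha⟩ := hgs
    have e : h = g := by
      rw [← hc]
      apply Units.ext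
      simp only [Units.val_mul]
      rw [ha, Matrix.mul_smul, Matrix.mul_one, Matrix.smul_mul, ← Units.val_mul, mul_inv_cancel,
        Units.val_one]
    rw [e]

theorem inv_inj (g h : G2) (e : inv g = inv h) : IsConj g h := by
  by_cases hg : NonScalar (g : M2)
  · by_cases hh : NonScalar (h : M2)
    · unfold inv at e
      rw [dif_pos hg, dif_pos hh] at e
      have ht : (g : M2).trace = (h : M2).trace := Option.some.inj (congrArg Prod.fst e)
      have hd : (g : M2).det = (h : M2).det := by
        have := congrArg (fun p : Option F × Fˣ => ((p.2 : Fˣ) : F)) e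
        simpa [Matrix.GeneralLinearGroup.val_det_apply] using this
      obtain ⟨R, hR, hRg⟩ := exists_semiconj _ _ hg hh ht hd
      rw [isConj_iff]
      refine ⟨Matrix.GeneralLinearGroup.mkOfDetNeZero R hR, ?_⟩
      rw [mul_inv_eq_iff_eq_mul]
      apply Units.ext
      simp only [Units.val_mul]
      exact hRg
    · unfold inv at e
      rw [dif_pos hg, dif_neg hh] at e
      exact absurd (congrArg Prod.fst e) (by simp)
  · by_cases hh : NonScalar (h : M2)
    · unfold inv at e
      rw [dif_neg hg, dif_pos hh] at e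
      exact absurd (congrArg Prod.fst e) (by simp)
    · unfold inv at e
      rw [dif_neg hg, dif_neg hh] at e
      have h00 : (g : M2) 0 0 = (h : M2) 0 0 := by
        have := congrArg (fun p : Option F × Fˣ => ((p.2 : Fˣ) : F)) e
        simpa using this
      have : g = h := by
        unfold Lib_helper8_GL2.NonScalar at hg hh
        push Not at hg hh
        apply Units.ext
        ext i j
        fin_cases i <;> fin_cases j
        · exact h00
        · show (g : M2) 0 1 = (h : M2) 0 1
          rw [hg.2.1, hh.2.1]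
        · show (g : M2) 1 0 = (h : M2) 1 0
          rw [hg.1, hh.1]
        · show (g : M2) 1 1 = (h : M2) 1 1
          rw [← hg.2.2, ← hh.2.2]; exact h00
      rw [this]

theorem inv_surj (a : Option F × Fˣ) : ∃ g : G2, inv g = a := by
  obtain ⟨o, d⟩ := a
  cases o with
  | none =>
    have hA : (!![(d : F), 0; 0, (d : F)] : M2).det ≠ 0 := by simp [Matrix.det_fin_two_of]
    refine ⟨Matrix.GeneralLinearGroup.mkOfDetNeZero !![(d : F), 0; 0, (d : F)] hA, ?_⟩
    have hg : ((Matrix.GeneralLinearGroup.mkOfDetNeZero !![(d : F), 0; 0, (d : F)] hA : G2) : M2) =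
      !![(d : F), 0; 0, (d : F)] := rfl
    have hns : ¬ NonScalar ((Matrix.GeneralLinearGroup.mkOfDetNeZero !![(d : F), 0; 0, (d : F)] hA : G2) : M2) := by
      rw [hg]
      unfold Lib_helper8_GL2.NonScalar
      simp
    unfold inv
    rw [dif_neg hns]
    refine Prod.ext rfl (Units.ext ?_)
    show ((Matrix.GeneralLinearGroup.mkOfDetNeZero !![(d : F), 0; 0, (d : F)] hA : G2) : M2) 0 0 = (d : F)
    rw [hg]
    rfl
  | some t =>
    have hA : (!![0, -(d : F); 1, t] : M2).det ≠ 0 := by simp [Matrix.det_fin_two_of]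
    refine ⟨Matrix.GeneralLinearGroup.mkOfDetNeZero !![0, -(d : F); 1, t] hA, ?_⟩
    have hg : ((Matrix.GeneralLinearGroup.mkOfDetNeZero !![0, -(d : F); 1, t] hA : G2) : M2) =
      !![0, -(d : F); 1, t] := rfl
    have hns : NonScalar ((Matrix.GeneralLinearGroup.mkOfDetNeZero !![0, -(d : F); 1, t] hA : G2) : M2) := by
      rw [hg]
      unfold Lib_helper8_GL2.NonScalar
      simp
    unfold inv
    rw [dif_pos hns]
    refine Prod.ext ?_ (Units.ext ?_)
    · show some ((Matrix.GeneralLinearGroup.mkOfDetNeZero !![0, -(d : F); 1, t] hA : G2) : M2).trace = some t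
      rw [hg, Matrix.trace_fin_two_of, zero_add]
    · show ((Matrix.GeneralLinearGroup.det (Matrix.GeneralLinearGroup.mkOfDetNeZero !![0, -(d : F); 1, t] hA) : Fˣ) : F) = (d : F)
      rw [Matrix.GeneralLinearGroup.val_det_apply, hg, Matrix.det_fin_two_of]
      ring

theorem main [Fintype F] : Nat.card (ConjClasses G2) = Fintype.card F ^ 2 - 1 := by
  classical
  have key := card_classes (G := G2) (fun _ => True) (fun _ : Option F × Fˣ => True) inv
    (fun _ _ => trivial) (fun g h _ _ e => inv_inj g h e) (fun a _ => by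
      obtain ⟨g, hg⟩ := inv_surj a; exact ⟨g, trivial, hg⟩) inv_isConj
  have e1 : Nat.card {c : ConjClasses G2 // ∃ g : G2, ConjClasses.mk g = c ∧ True} =
      Nat.card (ConjClasses G2) := by
    apply Nat.card_congr
    apply Equiv.subtypeUnivEquiv
    intro c
    obtain ⟨g, hg⟩ := ConjClasses.mk_surjective c
    exact ⟨g, hg, trivial⟩
  have e2 : Nat.card {a : Option F × Fˣ // True} = Nat.card (Option F × Fˣ) :=
    Nat.card_congr (Equiv.subtypeUnivEquiv (fun _ => trivial))
  rw [← e1, key, e2, Nat.card_prod, Nat.card_eq_fintype_card, Nat.card_eq_fintype_card,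
    Fintype.card_option, Fintype.card_units]
  have hq : 1 ≤ Fintype.card F := Fintype.card_pos
  obtain ⟨k, hk⟩ : ∃ k, Fintype.card F = k + 1 := ⟨Fintype.card F - 1, by omega⟩
  rw [hk, Nat.add_sub_cancel]
  have : (k + 1) ^ 2 = (k + 1 + 1) * k + 1 := by ring
  rw [this, Nat.add_sub_cancel]

end Aux

/-- Over a finite field with q elements, the general linear group GL₂ has exactly q² − 1 conjugacy classes. -/
theorem result {F : Type*} [Field F] [Fintype F] :
    Nat.card (ConjClasses (Matrix.GeneralLinearGroup (Fin 2) F)) = Fintype.card F ^ 2 - 1 := by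
  exact main

end Cfsg.Agent.S2330
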