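import Mathlib
import Cfsg.Agent.Lib_helper8_IndBGL
import Cfsg.Agent.Lib_helper3_CharMore
import Cfsg.Agent.Lib_helper3_CharDiag
import Cfsg.Agent.Lib_helper3_CharCount
import Cfsg.Agent.S2330

set_option autoImplicit false

/-! The irreducible characters of `GL_2` over a finite field: principal series, linear characters,
twisted Steinberg characters and cuspidal characters. -/

namespace Cfsg.Agent.Lib_helper8_GL2Irr

open Cfsg Cfsg.Agent.Lib_helper3_CharBasic Cfsg.Agent.Lib_helper3_CharInd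
open Cfsg.Agent.Lib_helper3_CharMore
open Cfsg.Agent.Lib_helper8_IndB Cfsg.Agent.Lib_helper8_IndBGL
open scoped ComplexConjugate
open Matrix

universe u

variable {F : Type u} [Field F] [Fintype F] [DecidableEq F]

local notation "G2" => Matrix.GeneralLinearGroup (Fin 2) F
local notation "M2" => Matrix (Fin 2) (Fin 2) F
local notation "BG" => (Cfsg.upperTriangularGL 2 F)

theorem card_mulChar : Nat.card (MulChar F ℂ) = Fintype.card F - 1 := by
  rw [MulChar.card_eq_card_units_of_hasEnoughRootsOfUnity F ℂ, Nat.card_eq_fintype_card,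
    Fintype.card_units]

omit [DecidableEq F] in
theorem mulChar_mul_conj (α : MulChar F ℂ) {x : F} (hx : x ≠ 0) : α x * conj (α x) = 1 := by
  have h := (conj_unit α (Units.mk0 x hx)).1
  rw [Units.val_mk0] at h
  rw [h, ← MulChar.mul_apply, mul_inv_cancel, MulChar.one_apply (isUnit_iff_ne_zero.mpr hx)]

omit [DecidableEq F] in
theorem sum_mulChar_eq_zero [Fintype (MulChar F ℂ)] {a : F} (ha : a ≠ 1) :
    ∑ χ : MulChar F ℂ, χ a = 0 := by
  obtain ⟨χ, hχ⟩ := MulChar.exists_apply_ne_one_of_hasEnoughRootsOfUnity F ℂ ha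
  refine eq_zero_of_mul_eq_self_left hχ ?_
  simp only [Finset.mul_sum, ← MulChar.mul_apply]
  exact Fintype.sum_bijective _ (Group.mulLeft_bijective χ) _ _ fun χ' ↦ rfl

theorem sum_mulChar_conj [Fintype (MulChar F ℂ)] (a x : Fˣ) :
    ∑ χ : MulChar F ℂ, conj (χ (a : F)) * χ (x : F) =
      if x = a then ((Fintype.card F : ℂ) - 1) else 0 := by
  have h : ∀ χ : MulChar F ℂ, conj (χ (a : F)) * χ (x : F) = χ (((a⁻¹ * x : Fˣ)) : F) := by
    intro χ
    rw [(conj_unit χ a).1, MulChar.inv_apply', Units.val_mul, map_mul, Units.val_inv_eq_inv_val]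
  simp only [h]
  split_ifs with hx
  · subst hx
    rw [inv_mul_cancel]
    simp only [Units.val_one, map_one, Finset.sum_const, Finset.card_univ, nsmul_eq_mul, mul_one]
    rw [← Nat.card_eq_fintype_card, card_mulChar]
    push_cast [Nat.cast_sub (Fintype.card_pos (α := F))]
    ring
  · apply sum_mulChar_eq_zero
    intro h1
    apply hx
    have h2 : a⁻¹ * x = 1 := Units.ext (by simpa using h1)
    exact (inv_mul_eq_one.mp h2).symm

variable [Fintype (Matrix.GeneralLinearGroup (Fin 2) F)]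

/-- The principal series function. -/
noncomputable def psR (α β : MulChar F ℂ) : G2 → ℂ :=
  indFun BG (fun b : BG => α (((b : G2) : M2) 0 0) * β (((b : G2) : M2) 1 1))

omit [Fintype F] [DecidableEq F] [Fintype (Matrix.GeneralLinearGroup (Fin 2) F)] in
/-- The linear character `α ∘ det`. -/
noncomputable def linL (α : MulChar F ℂ) : G2 → ℂ := fun g => α ((g : M2).det)

/-- The twisted Steinberg function. -/
noncomputable def stC (α : MulChar F ℂ) : G2 → ℂ := psR α α - linL α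

theorem psR_char (α β : MulChar F ℂ) : IsCharacter G2 (psR α β) :=
  isCharacter_indFun _ (theta_charG α β)

theorem psR_irr {α β : MulChar F ℂ} (h : α ≠ β) : IsIrrCharacter G2 (psR α β) := by
  classical
  apply isIrrCharacter_of_inner_self_eq_one (psR_char α β)
  have := inner_RG α β α β
  rw [if_pos ⟨rfl, rfl⟩, if_neg (fun hh => h hh.1), add_zero] at this
  exact this

omit [Fintype F] [DecidableEq F] [Fintype (Matrix.GeneralLinearGroup (Fin 2) F)] in
theorem linL_irr (α : MulChar F ℂ) : IsIrrCharacter G2 (linL α) := by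
  have h := isIrrCharacter_of_monoidHom
    ((MulChar.toUnitHom α).comp (Matrix.GeneralLinearGroup.det : G2 →* Fˣ))
  have e : linL α = fun g : G2 => ((((MulChar.toUnitHom α).comp
      (Matrix.GeneralLinearGroup.det : G2 →* Fˣ)) g : ℂˣ) : ℂ) := by
    funext g
    show α ((g : M2).det) = ((MulChar.toUnitHom α (Matrix.GeneralLinearGroup.det g) : ℂˣ) : ℂ)
    rw [MulChar.coe_toUnitHom, Matrix.GeneralLinearGroup.val_det_apply]
  rw [e]
  exact h

theorem inner_psR_linL (α : MulChar F ℂ) : classInner (psR α α) (linL α) = 1 := by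
  haveI : Fintype BG := Fintype.ofFinite _
  unfold psR
  rw [frobenius_reciprocity BG _ _ (isClassFunction_of_irr (linL_irr α)), classInner_def]
  have h : ∀ b : BG, (fun b : BG => α (((b : G2) : M2) 0 0) * α (((b : G2) : M2) 1 1)) b *
      conj ((fun h : BG => linL α (h : G2)) b) = 1 := by
    intro b
    show α (((b : G2) : M2) 0 0) * α (((b : G2) : M2) 1 1) * conj (α (((b : G2) : M2).det)) = 1
    rw [Matrix.det_fin_two, BG_entry b, mul_zero, sub_zero, map_mul, map_mul]
    have h1 := mulChar_mul_conj α (BG_00_ne b)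
    have h2 := mulChar_mul_conj α (BG_11_ne b)
    linear_combination (α (((b : G2) : M2) 1 1) * conj (α (((b : G2) : M2) 1 1))) * h1 + h2
  simp only [h, Finset.sum_const, Finset.card_univ, nsmul_eq_mul, mul_one]
  rw [← Nat.card_eq_fintype_card]
  exact inv_mul_cancel₀ (card_subgroup_ne_zero BG)

theorem stC_irr (α : MulChar F ℂ) : IsIrrCharacter G2 (stC α) := by
  classical
  have hRL := inner_psR_linL α
  have hLR : classInner (linL α) (psR α α) = 1 := by
    rw [← classInner_conj_symm, hRL, map_one]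
  have hLL := irr_inner_self (linL_irr α)
  have hRR : classInner (psR α α) (psR α α) = 2 := by
    have := inner_RG α α α α
    rw [if_pos ⟨rfl, rfl⟩] at this
    rw [show (2 : ℂ) = 1 + 1 by norm_num]
    exact this
  apply isIrrCharacter_of_inner_self_eq_one
  · apply isCharacter_of_inner_nat
    · show IsClassFunction G2 (psR α α - linL α)
      exact isClassFunction_sub (isClassFunction_indFun BG _)
        (isClassFunction_of_irr (linL_irr α))
    · intro χ hχ
      obtain ⟨n, hn⟩ := classInner_nat (psR_char α α) (isCharacter_of_irr hχ)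
      unfold stC
      rw [classInner_sub_left, hn]
      by_cases h : linL α = χ
      · subst h
        rw [hRL] at hn
        rw [hLL, ← hn]
        exact ⟨0, by simp⟩
      · rw [irr_inner_ne (linL_irr α) hχ h, sub_zero]
        exact ⟨n, rfl⟩
  · unfold stC
    rw [classInner_sub_left, classInner_sub_right, classInner_sub_right, hRR, hRL, hLR, hLL]
    norm_num

theorem trichotomy {χ : G2 → ℂ} (hχ : IsIrrCharacter G2 χ) (α β : MulChar F ℂ)
    (h : classInner (psR α β) χ ≠ 0) :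
    (α ≠ β ∧ χ = psR α β) ∨ (α = β ∧ (χ = linL α ∨ χ = stC α)) := by
  by_cases hab : α = β
  · right
    subst hab
    refine ⟨rfl, ?_⟩
    by_contra hcon
    push Not at hcon
    apply h
    have e : psR α α = linL α + stC α := by unfold stC; abel
    rw [e, classInner_add_left, irr_inner_ne (linL_irr α) hχ (fun hh => hcon.1 hh.symm),
      irr_inner_ne (stC_irr α) hχ (fun hh => hcon.2 hh.symm), add_zero]
  · left
    refine ⟨hab, ?_⟩
    by_contra hcon
    exact h (irr_inner_ne (psR_irr hab) hχ (fun hh => hcon hh.symm))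

omit [Fintype F] [DecidableEq F] [Fintype (Matrix.GeneralLinearGroup (Fin 2) F)] in
/-- The standard unipotent element. -/
noncomputable def uG : G2 := ((eBG (1, 1, 1) : BG) : G2)

omit [Fintype F] [DecidableEq F] [Fintype (Matrix.GeneralLinearGroup (Fin 2) F)] in
theorem uG_entries : ((uG : G2) : M2) 0 0 = 1 ∧ ((uG : G2) : M2) 0 1 = 1 ∧
    ((uG : G2) : M2) 1 0 = 0 ∧ ((uG : G2) : M2) 1 1 = 1 := ⟨rfl, rfl, rfl, rfl⟩

theorem psR_one (α β : MulChar F ℂ) : psR α β 1 = (Fintype.card F : ℂ) + 1 := by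
  unfold psR
  rw [ind_GL2_psi (fun u v => α u * β v) 1]
  have e00 : ((1 : G2) : M2) 0 0 = 1 := by simp
  have e01 : ((1 : G2) : M2) 0 1 = 0 := by simp
  have e10 : ((1 : G2) : M2) 1 0 = 0 := by simp
  have e11 : ((1 : G2) : M2) 1 1 = 1 := by simp
  rw [e00, e01, e10, e11]
  have h : ∀ t : F, (0 : F) * t ^ 2 + (1 - 1) * t - 0 = 0 := fun t => by ring
  simp only [zero_mul, zero_add, sub_zero, map_one, mul_one]
  simp
  ring

theorem psR_uG (α β : MulChar F ℂ) : psR α β uG = 1 := by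
  unfold psR
  rw [ind_GL2_psi (fun u v => α u * β v) uG]
  obtain ⟨e00, e01, e10, e11⟩ := uG_entries (F := F)
  rw [e00, e01, e10, e11]
  have h : ∀ t : F, ¬ ((0 : F) * t ^ 2 + (1 - 1) * t - 1 = 0) := by
    intro t ht
    have : (1 : F) = 0 := by linear_combination -ht
    exact one_ne_zero this
  simp only [h, if_false, if_true, Finset.sum_const_zero, map_one, mul_one, add_zero]

theorem psR_ell (α β : MulChar F ℂ) (g : G2) (h10 : (g : M2) 1 0 ≠ 0)
    (hno : ∀ t : F, (g : M2) 1 0 * t ^ 2 + ((g : M2) 1 1 - (g : M2) 0 0) * t - (g : M2) 0 1 ≠ 0) :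
    psR α β g = 0 := by
  unfold psR
  rw [ind_GL2_psi (fun u v => α u * β v) g, if_neg h10, zero_add]
  apply Finset.sum_eq_zero
  intro t _
  rw [if_neg (hno t)]

theorem psR_split (α β : MulChar F ℂ) (g : G2) (h01 : (g : M2) 0 1 = 0) (h10 : (g : M2) 1 0 = 0)
    (hne : (g : M2) 0 0 ≠ (g : M2) 1 1) :
    psR α β g = α ((g : M2) 0 0) * β ((g : M2) 1 1) + α ((g : M2) 1 1) * β ((g : M2) 0 0) := by
  unfold psR
  rw [ind_GL2_psi (fun u v => α u * β v) g, if_pos h10, h10, h01]
  congr 1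
  rw [Finset.sum_eq_single 0]
  · rw [if_pos (by ring)]
    simp
  · intro t _ ht
    rw [if_neg]
    intro h
    have h2 : ((g : M2) 1 1 - (g : M2) 0 0) * t = 0 := by linear_combination h
    rcases mul_eq_zero.mp h2 with h3 | h3
    · exact hne (sub_eq_zero.mp h3).symm
    · exact ht h3
  · intro h
    exact absurd (Finset.mem_univ _) h

omit [Fintype F] [DecidableEq F] [Fintype (Matrix.GeneralLinearGroup (Fin 2) F)] in
theorem ell_cond (g : G2)
    (hno : ∀ (c : F) (v : Fin 2 → F), v ≠ 0 → (g : M2).mulVec v ≠ c • v) :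
    (g : M2) 1 0 ≠ 0 ∧
      ∀ t : F, (g : M2) 1 0 * t ^ 2 + ((g : M2) 1 1 - (g : M2) 0 0) * t - (g : M2) 0 1 ≠ 0 := by
  constructor
  · intro h0
    apply hno ((g : M2) 0 0) ![1, 0] (by
      intro h; have := congrFun h 0; simp at this)
    funext i
    fin_cases i
    · simp [Matrix.mulVec, dotProduct, Fin.sum_univ_two]
    · simp [Matrix.mulVec, dotProduct, Fin.sum_univ_two, h0]
  · intro t ht
    apply hno ((g : M2) 1 0 * t + (g : M2) 1 1) ![t, 1] (by
      intro h; have := congrFun h 1; simp at this)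
    funext i
    fin_cases i
    · simp [Matrix.mulVec, dotProduct, Fin.sum_univ_two]
      linear_combination -ht
    · simp [Matrix.mulVec, dotProduct, Fin.sum_univ_two]

omit [Fintype F] [DecidableEq F] [Fintype (Matrix.GeneralLinearGroup (Fin 2) F)] in
theorem linL_one (α : MulChar F ℂ) : linL α (1 : G2) = 1 := by
  show α (((1 : G2) : M2).det) = 1
  simp

omit [Fintype F] [DecidableEq F] [Fintype (Matrix.GeneralLinearGroup (Fin 2) F)] in
theorem linL_uG (α : MulChar F ℂ) : linL α (uG : G2) = 1 := by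
  show α (((uG : G2) : M2).det) = 1
  obtain ⟨e00, e01, e10, e11⟩ := uG_entries (F := F)
  rw [Matrix.det_fin_two, e00, e01, e10, e11]
  simp

omit [Fintype F] [DecidableEq F] [Fintype (Matrix.GeneralLinearGroup (Fin 2) F)] in
theorem eBG_val (p : Fˣ × Fˣ × F) :
    (((eBG p : BG) : G2) : M2) = !![(p.1 : F), p.2.2; 0, (p.2.1 : F)] := rfl

omit [Fintype F] [DecidableEq F] [Fintype (Matrix.GeneralLinearGroup (Fin 2) F)] in
theorem uG_val : ((uG : G2) : M2) = !![1, 1; 0, 1] := rfl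

omit [Fintype F] [DecidableEq F] [Fintype (Matrix.GeneralLinearGroup (Fin 2) F)] in
theorem unip_conj (t : F) (ht : t ≠ 0) : IsConj (uG : G2) ((eBG (1, 1, t) : BG) : G2) := by
  rw [isConj_iff]
  refine ⟨((eBG (Units.mk0 t ht, 1, 0) : BG) : G2), ?_⟩
  rw [mul_inv_eq_iff_eq_mul]
  apply Units.ext
  rw [Units.val_mul, Units.val_mul, eBG_val, eBG_val, uG_val, Matrix.mul_fin_two,
    Matrix.mul_fin_two]
  ext i j
  fin_cases i <;> fin_cases j <;> simp

omit [Fintype F] [DecidableEq F] [Fintype (Matrix.GeneralLinearGroup (Fin 2) F)] in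
theorem split_conj (a b : Fˣ) (hab : a ≠ b) (t : F) :
    IsConj ((eBG (a, b, 0) : BG) : G2) ((eBG (a, b, t) : BG) : G2) := by
  rw [isConj_iff]
  refine ⟨((eBG (1, 1, t / ((b : F) - (a : F))) : BG) : G2), ?_⟩
  rw [mul_inv_eq_iff_eq_mul]
  apply Units.ext
  rw [Units.val_mul, Units.val_mul, eBG_val, eBG_val, eBG_val, Matrix.mul_fin_two,
    Matrix.mul_fin_two]
  have hne : (b : F) - (a : F) ≠ 0 := sub_ne_zero.mpr (fun h => hab (Units.ext h).symm)
  ext i j
  fin_cases i <;> fin_cases j <;> simp <;> field_simp <;> ring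

theorem int_of_rat_integral (c : ℂ) (r : ℚ) (hc : c = (r : ℂ)) (hi : IsIntegral ℤ c) :
    ∃ z : ℤ, c = z := by
  rw [hc] at hi
  have h1 : IsIntegral ℤ r := by
    have h2 : IsIntegral ℤ (algebraMap ℚ ℂ r) := by simpa using hi
    exact (isIntegral_algebraMap_iff (algebraMap ℚ ℂ).injective).mp h2
  obtain ⟨z, hz⟩ := IsIntegrallyClosed.isIntegral_iff.mp h1
  refine ⟨z, ?_⟩
  rw [hc, ← hz]
  simp

theorem card_G : (Nat.card G2 : ℂ) =
    (Fintype.card F : ℂ) * ((Fintype.card F : ℂ) - 1) ^ 2 * ((Fintype.card F : ℂ) + 1) := by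
  have h := Nat.card_congr (Equiv.ofBijective _ (rG_bij (F := F)))
  rw [Nat.card_prod] at h
  rw [← h]
  push_cast
  rw [card_BG, Nat.card_eq_fintype_card, Fintype.card_option]
  push_cast
  ring

variable [Fintype (MulChar F ℂ)]

theorem key_sum (χ : G2 → ℂ) (hχ : IsClassFunction G2 χ) (a b : Fˣ) :
    ∑ α : MulChar F ℂ, ∑ β : MulChar F ℂ,
      conj (α (a : F)) * conj (β (b : F)) * classInner (psR α β) χ =
      (Fintype.card F : ℂ)⁻¹ * ∑ t : F, conj (χ ((eBG (a, b, t) : BG) : G2)) := by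
  haveI : Fintype BG := Fintype.ofFinite _
  have h1 : ∀ α β : MulChar F ℂ, classInner (psR α β) χ =
      (Nat.card BG : ℂ)⁻¹ * ∑ p : Fˣ × Fˣ × F,
        α (p.1 : F) * β (p.2.1 : F) * conj (χ ((eBG p : BG) : G2)) := by
    intro α β
    unfold psR
    rw [frobenius_reciprocity BG _ _ hχ, classInner_def]
    congr 1
    exact (Equiv.sum_comp (eBG (F := F)) (fun b : BG =>
      α (((b : G2) : M2) 0 0) * β (((b : G2) : M2) 1 1) * conj (χ (b : G2)))).symm
  have h2 : ∀ α β : MulChar F ℂ,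
      conj (α (a : F)) * conj (β (b : F)) * classInner (psR α β) χ =
      (Nat.card BG : ℂ)⁻¹ * ∑ p : Fˣ × Fˣ × F, (conj (α (a : F)) * α (p.1 : F)) *
        (conj (β (b : F)) * β (p.2.1 : F)) * conj (χ ((eBG p : BG) : G2)) := by
    intro α β
    rw [h1, show ∀ x y z w : ℂ, x * y * (z * w) = z * (x * y * w) from fun x y z w => by ring,
      Finset.mul_sum]
    congr 1
    apply Finset.sum_congr rfl
    intro p _
    ring
  simp only [h2, ← Finset.mul_sum]
  have h3 : ∑ α : MulChar F ℂ, ∑ β : MulChar F ℂ, ∑ p : Fˣ × Fˣ × F,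
      (conj (α (a : F)) * α (p.1 : F)) * (conj (β (b : F)) * β (p.2.1 : F)) *
        conj (χ ((eBG p : BG) : G2)) =
      ∑ p : Fˣ × Fˣ × F, (∑ α : MulChar F ℂ, conj (α (a : F)) * α (p.1 : F)) *
        (∑ β : MulChar F ℂ, conj (β (b : F)) * β (p.2.1 : F)) *
        conj (χ ((eBG p : BG) : G2)) := by
    calc _ = ∑ α : MulChar F ℂ, ∑ p : Fˣ × Fˣ × F, ∑ β : MulChar F ℂ,
          (conj (α (a : F)) * α (p.1 : F)) * (conj (β (b : F)) * β (p.2.1 : F)) *
            conj (χ ((eBG p : BG) : G2)) := Finset.sum_congr rfl (fun α _ => Finset.sum_comm)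
      _ = ∑ p : Fˣ × Fˣ × F, ∑ α : MulChar F ℂ, ∑ β : MulChar F ℂ,
          (conj (α (a : F)) * α (p.1 : F)) * (conj (β (b : F)) * β (p.2.1 : F)) *
            conj (χ ((eBG p : BG) : G2)) := Finset.sum_comm
      _ = _ := by
        apply Finset.sum_congr rfl
        intro p _
        rw [Finset.sum_mul_sum, Finset.sum_mul]
        apply Finset.sum_congr rfl
        intro α _
        rw [Finset.sum_mul]
  rw [h3]
  simp only [sum_mulChar_conj]
  rw [Fintype.sum_prod_type, Finset.sum_eq_single a]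
  · rw [Fintype.sum_prod_type, Finset.sum_eq_single b]
    · simp only [eq_self_iff_true, if_true]
      rw [← Finset.mul_sum, card_BG]
      obtain ⟨hq1, hq0⟩ := card_ne (F := F)
      field_simp
    · intro y _ hy
      simp [hy]
    · intro h; exact absurd (Finset.mem_univ _) h
  · intro x _ hx
    simp [hx]
  · intro h; exact absurd (Finset.mem_univ _) h

omit [Fintype (Matrix.GeneralLinearGroup (Fin 2) F)] [Fintype (MulChar F ℂ)] in
theorem sum_unip (χ : G2 → ℂ) (hχ : IsClassFunction G2 χ) :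
    ∑ t : F, conj (χ ((eBG (1, 1, t) : BG) : G2)) =
      conj (χ 1) + ((Fintype.card F : ℂ) - 1) * conj (χ uG) := by
  rw [← Finset.add_sum_erase Finset.univ _ (Finset.mem_univ (0 : F))]
  have h0 : ((eBG ((1 : Fˣ), (1 : Fˣ), (0 : F)) : BG) : G2) = 1 := by
    apply Units.ext
    rw [eBG_val]
    ext i j
    fin_cases i <;> fin_cases j <;> simp
  rw [h0]
  congr 1
  have h1 : ∀ t ∈ Finset.univ.erase (0 : F),
      conj (χ ((eBG (1, 1, t) : BG) : G2)) = conj (χ uG) := by
    intro t ht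
    rw [(isClassFunction_iff_isConj.mp hχ) _ _ (unip_conj t (Finset.ne_of_mem_erase ht))]
  rw [Finset.sum_congr rfl h1, Finset.sum_const, Finset.card_erase_of_mem (Finset.mem_univ _),
    Finset.card_univ, nsmul_eq_mul]
  push_cast [Nat.cast_sub (Fintype.card_pos (α := F))]
  ring

theorem m_struct {χ : G2 → ℂ} (hχ : IsIrrCharacter G2 χ) :
    ∃ (m₀ : ℕ) (m₁ : ℤ),
      (∑ α : MulChar F ℂ, ∑ β : MulChar F ℂ, classInner (psR α β) χ) = m₀ ∧
      χ 1 = (m₀ : ℂ) + ((Fintype.card F : ℂ) - 1) * m₁ ∧ χ uG = (m₀ : ℂ) - m₁ := by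
  have hc := isCharacter_of_irr hχ
  have hcf := isClassFunction_of_irr hχ
  choose f hf using fun α β : MulChar F ℂ => classInner_nat (psR_char α β) hc
  obtain ⟨d, hd⟩ := isCharacter_apply_one hc
  have hks := key_sum χ hcf 1 1
  simp only [Units.val_one, map_one, one_mul] at hks
  rw [sum_unip χ hcf, hd] at hks
  have hm : (∑ α : MulChar F ℂ, ∑ β : MulChar F ℂ, classInner (psR α β) χ) =
      ((∑ α : MulChar F ℂ, ∑ β : MulChar F ℂ, f α β : ℕ) : ℂ) := by
    push_cast
    exact Finset.sum_congr rfl (fun α _ => Finset.sum_congr rfl (fun β _ => hf α β))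
  rw [hm] at hks
  set m₀ : ℕ := ∑ α : MulChar F ℂ, ∑ β : MulChar F ℂ, f α β with hm₀
  obtain ⟨hq1, hq0⟩ := card_ne (F := F)
  have hcu : conj (χ uG) =
      ((Fintype.card F : ℂ) * m₀ - d) / ((Fintype.card F : ℂ) - 1) := by
    rw [eq_div_iff hq1]
    have h5 : (Fintype.card F : ℂ) * m₀ =
        conj (d : ℂ) + ((Fintype.card F : ℂ) - 1) * conj (χ uG) := by
      rw [hks]; field_simp
    rw [Complex.conj_natCast] at h5
    linear_combination -h5
  have hu : χ uG = ((Fintype.card F : ℂ) * m₀ - d) / ((Fintype.card F : ℂ) - 1) := by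
    rw [← Complex.conj_conj (χ uG), hcu]
    simp [map_div₀]
  have hr : χ uG = ((((Fintype.card F : ℚ) * m₀ - d) / ((Fintype.card F : ℚ) - 1) : ℚ) : ℂ) := by
    rw [hu]
    push_cast
    rfl
  obtain ⟨z, hz⟩ := int_of_rat_integral _ _ hr
    (Cfsg.Agent.Lib_helper3_CharDiag.isCharacter_isIntegral hc uG)
  have h2 : (z : ℂ) * ((Fintype.card F : ℂ) - 1) = (Fintype.card F : ℂ) * m₀ - d := by
    rw [← hz, hu]; field_simp
  refine ⟨m₀, (m₀ : ℤ) - z, hm, ?_, ?_⟩
  · rw [hd]
    push_cast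
    linear_combination h2
  · rw [hz]; push_cast; ring

/-- The multiplicity of the trivial character of the unipotent subgroup. -/
noncomputable def m0 (χ : G2 → ℂ) : ℂ :=
  ∑ α : MulChar F ℂ, ∑ β : MulChar F ℂ, classInner (psR α β) χ

omit [DecidableEq F] [Fintype (Matrix.GeneralLinearGroup (Fin 2) F)] [Fintype (MulChar F ℂ)] in
/-- The multiplicity of a non-trivial character of the unipotent subgroup. -/
noncomputable def m1 (χ : G2 → ℂ) : ℂ := (χ 1 - χ uG) / (Fintype.card F : ℂ)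

theorem irr_vals {χ : G2 → ℂ} (hχ : IsIrrCharacter G2 χ) : ∃ (m₀ : ℕ) (m₁ : ℤ),
    m0 χ = m₀ ∧ m1 χ = m₁ ∧
    χ 1 = (m₀ : ℂ) + ((Fintype.card F : ℂ) - 1) * m₁ ∧ χ uG = (m₀ : ℂ) - m₁ := by
  obtain ⟨m₀, m₁, h, h1, hu⟩ := m_struct hχ
  refine ⟨m₀, m₁, h, ?_, h1, hu⟩
  unfold m1
  rw [h1, hu]
  obtain ⟨hq1, hq0⟩ := card_ne (F := F)
  field_simp
  ring

omit [Fintype F] [DecidableEq F] [Fintype (Matrix.GeneralLinearGroup (Fin 2) F)]
  [Fintype (MulChar F ℂ)] in
theorem parseval {G : Type u} [Group G] [Fintype G] [Fintype (IrrCharacter G)] (f : G → ℂ)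
    (hf : IsClassFunction G f) :
    classInner f f =
      ∑ χ : IrrCharacter G, classInner f (χ : G → ℂ) * conj (classInner f (χ : G → ℂ)) := by
  have h := classFunction_eq_sum f hf
  calc classInner f f
      = classInner (∑ χ : IrrCharacter G, classInner f (χ : G → ℂ) • (χ : G → ℂ)) f := by
        rw [← h]
    _ = _ := by
      rw [classInner_sum_left]
      apply Finset.sum_congr rfl
      intro χ _
      rw [classInner_smul_left, classInner_conj_symm]

variable [Fintype (IrrCharacter (Matrix.GeneralLinearGroup (Fin 2) F))]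

theorem sumA : ∑ χ : IrrCharacter G2, m0 (χ : G2 → ℂ) ^ 2 =
    2 * ((Fintype.card F : ℂ) - 1) ^ 2 := by
  classical
  set Ψ : G2 → ℂ := ∑ α : MulChar F ℂ, ∑ β : MulChar F ℂ, psR α β with hΨ
  have hcf : IsClassFunction G2 Ψ := isClassFunction_sum _ _
    (fun α _ => isClassFunction_sum _ _ (fun β _ => isClassFunction_indFun BG _))
  have h1 : ∀ χ : G2 → ℂ, classInner Ψ χ = m0 χ := by
    intro χ
    rw [hΨ, classInner_sum_left]
    unfold m0
    apply Finset.sum_congr rfl
    intro α _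
    rw [classInner_sum_left]
  have h2 : ∀ χ : IrrCharacter G2, conj (m0 (χ : G2 → ℂ)) = m0 (χ : G2 → ℂ) := by
    intro χ
    obtain ⟨m₀, m₁, h, -, -, -⟩ := irr_vals χ.2
    rw [h, Complex.conj_natCast]
  have h3 := parseval Ψ hcf
  simp only [h1, h2] at h3
  have h4 : m0 Ψ = 2 * ((Fintype.card F : ℂ) - 1) ^ 2 := by
    unfold m0
    have h5 : ∀ α β : MulChar F ℂ, classInner (psR α β) Ψ = 2 := by
      intro α β
      rw [hΨ, classInner_sum_right]
      simp only [classInner_sum_right]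
      have h6 : ∀ α' β' : MulChar F ℂ, classInner (psR α β) (psR α' β') =
          (if α = α' ∧ β = β' then 1 else 0) + (if α = β' ∧ β = α' then 1 else 0) :=
        fun α' β' => inner_RG α β α' β'
      simp only [h6, Finset.sum_add_distrib]
      have s1 : ∑ α' : MulChar F ℂ, ∑ β' : MulChar F ℂ,
          (if α = α' ∧ β = β' then (1 : ℂ) else 0) = 1 := by
        rw [Finset.sum_eq_single α]
        · rw [Finset.sum_eq_single β]
          · rw [if_pos ⟨rfl, rfl⟩]
          · intro b _ hb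
            rw [if_neg (fun h => hb h.2.symm)]
          · intro h; exact absurd (Finset.mem_univ _) h
        · intro a _ ha
          apply Finset.sum_eq_zero
          intro b _
          rw [if_neg (fun h => ha h.1.symm)]
        · intro h; exact absurd (Finset.mem_univ _) h
      have s2 : ∑ α' : MulChar F ℂ, ∑ β' : MulChar F ℂ,
          (if α = β' ∧ β = α' then (1 : ℂ) else 0) = 1 := by
        rw [Finset.sum_eq_single β]
        · rw [Finset.sum_eq_single α]
          · rw [if_pos ⟨rfl, rfl⟩]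
          · intro b _ hb
            rw [if_neg (fun h => hb h.1.symm)]
          · intro h; exact absurd (Finset.mem_univ _) h
        · intro a _ ha
          apply Finset.sum_eq_zero
          intro b _
          rw [if_neg (fun h => ha h.2.symm)]
        · intro h; exact absurd (Finset.mem_univ _) h
      rw [s1, s2]
      norm_num
    simp only [h5, Finset.sum_const, Finset.card_univ, nsmul_eq_mul]
    rw [← Nat.card_eq_fintype_card, card_mulChar]
    push_cast [Nat.cast_sub (Fintype.card_pos (α := F))]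
    ring
  rw [← h4, h3]
  apply Finset.sum_congr rfl
  intro χ _
  ring

omit [Fintype F] [DecidableEq F] [Fintype (Matrix.GeneralLinearGroup (Fin 2) F)]
  [Fintype (MulChar F ℂ)] [Fintype (IrrCharacter (Matrix.GeneralLinearGroup (Fin 2) F))] in
theorem uG_not_conj : ¬ IsConj (uG : G2) 1 := by
  intro h
  have h1 := isConj_one_left.mp h
  have h2 : ((uG : G2) : M2) 0 1 = ((1 : G2) : M2) 0 1 := by rw [h1]
  rw [uG_entries.2.1] at h2
  simp at h2

theorem sumBC : ∑ χ : IrrCharacter G2, m0 (χ : G2 → ℂ) * m1 (χ : G2 → ℂ) =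
      ((Fintype.card F : ℂ) - 1) ^ 2 ∧
    ∑ χ : IrrCharacter G2, m1 (χ : G2 → ℂ) ^ 2 =
      (Fintype.card F : ℂ) * ((Fintype.card F : ℂ) - 1) := by
  classical
  obtain ⟨hq1, hq0⟩ := card_ne (F := F)
  have hA := sumA (F := F)
  have e1 := sum_sq_degree (G := G2)
  rw [card_G] at e1
  have e3 := second_orthogonality (G := G2) uG 1
  rw [if_neg uG_not_conj] at e3
  have t1 : ∀ χ : IrrCharacter G2, (χ : G2 → ℂ) 1 ^ 2 = m0 (χ : G2 → ℂ) ^ 2 +
      2 * ((Fintype.card F : ℂ) - 1) * (m0 (χ : G2 → ℂ) * m1 (χ : G2 → ℂ)) +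
      ((Fintype.card F : ℂ) - 1) ^ 2 * m1 (χ : G2 → ℂ) ^ 2 := by
    intro χ
    obtain ⟨m₀, m₁, h0, h1, hd, hu⟩ := irr_vals χ.2
    rw [h0, h1, hd]
    ring
  have t3 : ∀ χ : IrrCharacter G2, (χ : G2 → ℂ) 1 * conj ((χ : G2 → ℂ) uG) =
      m0 (χ : G2 → ℂ) ^ 2 +
      ((Fintype.card F : ℂ) - 2) * (m0 (χ : G2 → ℂ) * m1 (χ : G2 → ℂ)) -
      ((Fintype.card F : ℂ) - 1) * m1 (χ : G2 → ℂ) ^ 2 := by
    intro χ
    obtain ⟨m₀, m₁, h0, h1, hd, hu⟩ := irr_vals χ.2
    rw [h0, h1, hd, hu]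
    simp only [map_sub, map_natCast, map_intCast]
    ring
  simp only [t1] at e1
  simp only [t3] at e3
  rw [Finset.sum_add_distrib, Finset.sum_add_distrib, ← Finset.mul_sum, ← Finset.mul_sum,
    hA] at e1
  rw [Finset.sum_sub_distrib, Finset.sum_add_distrib, ← Finset.mul_sum, ← Finset.mul_sum,
    hA] at e3
  have hBv : ∑ χ : IrrCharacter G2, m0 (χ : G2 → ℂ) * m1 (χ : G2 → ℂ) =
      ((Fintype.card F : ℂ) - 1) ^ 2 := by
    have h7 : (Fintype.card F : ℂ) * ((Fintype.card F : ℂ) - 1) *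
        ∑ χ : IrrCharacter G2, m0 (χ : G2 → ℂ) * m1 (χ : G2 → ℂ) =
        (Fintype.card F : ℂ) * ((Fintype.card F : ℂ) - 1) * ((Fintype.card F : ℂ) - 1) ^ 2 := by
      linear_combination e1 + ((Fintype.card F : ℂ) - 1) * e3
    exact mul_left_cancel₀ (mul_ne_zero hq0 hq1) h7
  have hCv : ∑ χ : IrrCharacter G2, m1 (χ : G2 → ℂ) ^ 2 =
      (Fintype.card F : ℂ) * ((Fintype.card F : ℂ) - 1) := by
    have h7 : ((Fintype.card F : ℂ) - 1) * ∑ χ : IrrCharacter G2, m1 (χ : G2 → ℂ) ^ 2 =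
        ((Fintype.card F : ℂ) - 1) * ((Fintype.card F : ℂ) * ((Fintype.card F : ℂ) - 1)) := by
      linear_combination -e3 + ((Fintype.card F : ℂ) - 2) * hBv
    exact mul_left_cancel₀ hq1 h7
  exact ⟨hBv, hCv⟩

omit [Fintype (MulChar F ℂ)] in
theorem card_irr : Fintype.card (IrrCharacter G2) = Fintype.card F ^ 2 - 1 := by
  rw [← Nat.card_eq_fintype_card, Cfsg.Agent.Lib_helper3_CharCount.card_irr_eq_card_conjClasses]
  exact Cfsg.Agent.S2330.result

omit [Fintype (MulChar F ℂ)] [Fintype (IrrCharacter (Matrix.GeneralLinearGroup (Fin 2) F))] in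
theorem stC_one (α : MulChar F ℂ) : stC α 1 = (Fintype.card F : ℂ) := by
  show psR α α 1 - linL α 1 = _
  rw [psR_one, linL_one]
  ring

omit [Fintype (MulChar F ℂ)] [Fintype (IrrCharacter (Matrix.GeneralLinearGroup (Fin 2) F))] in
theorem stC_uG (α : MulChar F ℂ) : stC α uG = 0 := by
  show psR α α uG - linL α uG = _
  rw [psR_uG, linL_uG]
  ring

omit [Fintype (IrrCharacter (Matrix.GeneralLinearGroup (Fin 2) F))] in
theorem lin_of_m1_zero {χ : G2 → ℂ} (hχ : IsIrrCharacter G2 χ) (h : m1 χ = 0) :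
    ∃ α : MulChar F ℂ, χ = linL α := by
  obtain ⟨hq1, hq0⟩ := card_ne (F := F)
  have h1 : χ 1 = χ uG := by
    unfold m1 at h
    rw [div_eq_zero_iff] at h
    rcases h with h | h
    · exact sub_eq_zero.mp h
    · exact absurd h hq0
  have hne : m0 χ ≠ 0 := by
    obtain ⟨m₀, m₁, h0, hm1, hd, hu⟩ := irr_vals hχ
    rw [h0]
    intro hz
    apply irr_apply_one_ne_zero hχ
    rw [h] at hm1
    rw [hd, hz, ← hm1]
    ring
  have hex : ∃ α β : MulChar F ℂ, classInner (psR α β) χ ≠ 0 := by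
    by_contra hcon
    push Not at hcon
    apply hne
    unfold m0
    exact Finset.sum_eq_zero (fun α _ => Finset.sum_eq_zero (fun β _ => hcon α β))
  obtain ⟨α, β, hαβ⟩ := hex
  rcases trichotomy hχ α β hαβ with ⟨hne', rfl⟩ | ⟨rfl, rfl | rfl⟩
  · exfalso
    rw [psR_one, psR_uG] at h1
    apply hq0
    linear_combination h1
  · exact ⟨α, rfl⟩
  · exfalso
    rw [stC_one, stC_uG] at h1
    exact hq0 h1

theorem m1_cases {χ : G2 → ℂ} (hχ : IsIrrCharacter G2 χ) :
    m1 χ = 0 ∨ m1 χ = 1 ∨ m1 χ = -1 := by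
  classical
  choose x y hx hy hd hu using fun χ : IrrCharacter G2 => irr_vals χ.2
  have hC : ∑ χ : IrrCharacter G2, (y χ) ^ 2 =
      (Fintype.card F : ℤ) * ((Fintype.card F : ℤ) - 1) := by
    have h := (sumBC (F := F)).2
    have h' : ((∑ χ : IrrCharacter G2, (y χ) ^ 2 : ℤ) : ℂ) =
        (((Fintype.card F : ℤ) * ((Fintype.card F : ℤ) - 1) : ℤ) : ℂ) := by
      push_cast
      rw [← h]
      exact Finset.sum_congr rfl (fun χ _ => by rw [hy χ])
    exact_mod_cast h'
  set S₀ := Finset.univ.filter (fun χ : IrrCharacter G2 => y χ = 0) with hS₀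
  set S₁ := Finset.univ.filter (fun χ : IrrCharacter G2 => ¬ y χ = 0) with hS₁
  have hcard : S₀.card + S₁.card = Fintype.card F ^ 2 - 1 := by
    rw [hS₀, hS₁, Finset.card_filter_add_card_filter_not, Finset.card_univ, card_irr]
  have h0 : S₀.card ≤ Fintype.card F - 1 := by
    have hsub : S₀ ⊆ Finset.univ.image
        (fun α : MulChar F ℂ => (⟨linL α, linL_irr α⟩ : IrrCharacter G2)) := by
      intro χ hχ'
      rw [hS₀, Finset.mem_filter] at hχ'
      have hm : m1 (χ : G2 → ℂ) = 0 := by rw [hy χ, hχ'.2]; simp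
      obtain ⟨α, hα⟩ := lin_of_m1_zero χ.2 hm
      rw [Finset.mem_image]
      exact ⟨α, Finset.mem_univ _, Subtype.ext hα.symm⟩
    calc S₀.card ≤ (Finset.univ.image
          (fun α : MulChar F ℂ => (⟨linL α, linL_irr α⟩ : IrrCharacter G2))).card :=
          Finset.card_le_card hsub
      _ ≤ (Finset.univ : Finset (MulChar F ℂ)).card := Finset.card_image_le
      _ = Fintype.card F - 1 := by
          rw [Finset.card_univ, ← Nat.card_eq_fintype_card, card_mulChar]
  have hsum1 : ∑ χ ∈ S₁, (y χ) ^ 2 = ∑ χ : IrrCharacter G2, (y χ) ^ 2 := by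
    rw [hS₁, Finset.sum_filter]
    apply Finset.sum_congr rfl
    intro χ _
    by_cases h : y χ = 0
    · rw [if_neg (not_not.mpr h), h]
      ring
    · rw [if_pos h]
  have h1le : ∀ χ ∈ S₁, (1 : ℤ) ≤ (y χ) ^ 2 := by
    intro χ hχ'
    rw [hS₁, Finset.mem_filter] at hχ'
    have : 0 < (y χ) ^ 2 :=
      lt_of_le_of_ne (sq_nonneg _) (fun h => hχ'.2 ((pow_eq_zero_iff two_ne_zero).mp h.symm))
    linarith
  have h1 : (S₁.card : ℤ) ≤ (Fintype.card F : ℤ) * ((Fintype.card F : ℤ) - 1) := by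
    rw [← hC, ← hsum1, Finset.card_eq_sum_ones]
    push_cast
    exact Finset.sum_le_sum h1le
  have hq : 2 ≤ Fintype.card F := Fintype.one_lt_card
  have hS1 : (S₁.card : ℤ) = (Fintype.card F : ℤ) * ((Fintype.card F : ℤ) - 1) := by
    have e1 : (S₀.card : ℤ) + S₁.card = (Fintype.card F : ℤ) ^ 2 - 1 := by
      have h5 : ((S₀.card + S₁.card : ℕ) : ℤ) = ((Fintype.card F ^ 2 - 1 : ℕ) : ℤ) := by
        rw [hcard]
      rw [Nat.cast_sub (Nat.one_le_pow _ _ (by omega))] at h5
      push_cast at h5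
      exact h5
    have e2 : (S₀.card : ℤ) ≤ (Fintype.card F : ℤ) - 1 := by
      have h5 : ((S₀.card : ℕ) : ℤ) ≤ ((Fintype.card F - 1 : ℕ) : ℤ) := by exact_mod_cast h0
      rw [Nat.cast_sub (by omega)] at h5
      exact_mod_cast h5
    have e3 : (Fintype.card F : ℤ) * ((Fintype.card F : ℤ) - 1) =
        (Fintype.card F : ℤ) ^ 2 - (Fintype.card F : ℤ) := by ring
    linarith
  have hzero : ∀ χ ∈ S₁, (y χ) ^ 2 - 1 = 0 := by
    have hs : ∑ χ ∈ S₁, ((y χ) ^ 2 - 1) = 0 := by
      rw [Finset.sum_sub_distrib, hsum1, hC, Finset.sum_const, ← hS1]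
      simp
    exact (Finset.sum_eq_zero_iff_of_nonneg
      (fun χ hχ' => by linarith [h1le χ hχ'])).mp hs
  have hχy := hy ⟨χ, hχ⟩
  by_cases hz : y ⟨χ, hχ⟩ = 0
  · left
    rw [hχy, hz]
    simp
  · have hmem : (⟨χ, hχ⟩ : IrrCharacter G2) ∈ S₁ := by
      rw [hS₁, Finset.mem_filter]
      exact ⟨Finset.mem_univ _, hz⟩
    have h2 := hzero _ hmem
    have h3 : (y ⟨χ, hχ⟩ - 1) * (y ⟨χ, hχ⟩ + 1) = 0 := by linear_combination h2
    rcases mul_eq_zero.mp h3 with h4 | h4
    · right; left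
      rw [hχy, sub_eq_zero.mp h4]
      simp
    · right; right
      rw [hχy, eq_neg_of_add_eq_zero_left h4]
      simp

/-- Classification of the irreducible characters of `GL_2` over a finite field. -/
theorem classify {χ : G2 → ℂ} (hχ : IsIrrCharacter G2 χ) :
    (∃ α : MulChar F ℂ, χ = linL α) ∨ (∃ α : MulChar F ℂ, χ = stC α) ∨
    (∃ α β : MulChar F ℂ, α ≠ β ∧ χ = psR α β) ∨
    ((∀ α β : MulChar F ℂ, classInner (psR α β) χ = 0) ∧
      χ 1 = (Fintype.card F : ℂ) - 1 ∧ χ uG = -1) := by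
  by_cases hex : ∃ α β : MulChar F ℂ, classInner (psR α β) χ ≠ 0
  · obtain ⟨α, β, hαβ⟩ := hex
    rcases trichotomy hχ α β hαβ with ⟨hne, h⟩ | ⟨-, h | h⟩
    · exact Or.inr (Or.inr (Or.inl ⟨α, β, hne, h⟩))
    · exact Or.inl ⟨α, h⟩
    · exact Or.inr (Or.inl ⟨α, h⟩)
  · push Not at hex
    right; right; right
    obtain ⟨m₀, m₁, h0, hm1, hd, hu⟩ := irr_vals hχ
    have hm0 : (m₀ : ℂ) = 0 := by
      rw [← h0]
      unfold m0
      exact Finset.sum_eq_zero (fun α _ => Finset.sum_eq_zero (fun β _ => hex α β))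
    rw [hm0, zero_add] at hd
    rw [hm0, zero_sub] at hu
    have hq : 2 ≤ Fintype.card F := Fintype.one_lt_card
    rcases m1_cases hχ with h | h | h
    · exfalso
      apply irr_apply_one_ne_zero hχ
      rw [hd, ← hm1, h, mul_zero]
    · rw [hm1] at h
      refine ⟨hex, ?_, ?_⟩
      · rw [hd, h, mul_one]
      · rw [hu, h]
    · exfalso
      rw [hm1] at h
      obtain ⟨d, hd'⟩ := isCharacter_apply_one (isCharacter_of_irr hχ)
      rw [hd', h] at hd
      have h5 : ((d + Fintype.card F : ℕ) : ℂ) = ((1 : ℕ) : ℂ) := by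
        push_cast
        linear_combination hd
      have h6 := Nat.cast_injective h5
      omega

/-- The invariants of an irreducible character by type. -/
theorem type_vals {χ : G2 → ℂ} (hχ : IsIrrCharacter G2 χ) :
    (χ 1 = 1 ∧ m0 χ = 1 ∧ m1 χ = 0) ∨
    (χ 1 = (Fintype.card F : ℂ) ∧ m0 χ = 1 ∧ m1 χ = 1) ∨
    (χ 1 = (Fintype.card F : ℂ) + 1 ∧ m0 χ = 2 ∧ m1 χ = 1) ∨
    (χ 1 = (Fintype.card F : ℂ) - 1 ∧ m0 χ = 0 ∧ m1 χ = 1) := by
  obtain ⟨hq1, hq0⟩ := card_ne (F := F)
  have hm0 : m0 χ = χ uG + m1 χ := by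
    obtain ⟨m₀, m₁, h0, hm1, hd, hu⟩ := irr_vals hχ
    rw [h0, hm1, hu]
    ring
  have hm1 : m1 χ = (χ 1 - χ uG) / (Fintype.card F : ℂ) := rfl
  rcases classify hχ with ⟨α, rfl⟩ | ⟨α, rfl⟩ | ⟨α, β, hne, rfl⟩ | ⟨-, h1, hu⟩
  · left
    have e : m1 (linL α : G2 → ℂ) = 0 := by rw [hm1, linL_one, linL_uG, sub_self, zero_div]
    refine ⟨linL_one α, ?_, e⟩
    rw [hm0, e, linL_uG]
    ring
  · right; left
    have e : m1 (stC α : G2 → ℂ) = 1 := by rw [hm1, stC_one, stC_uG, sub_zero, div_self hq0]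
    refine ⟨stC_one α, ?_, e⟩
    rw [hm0, e, stC_uG]
    ring
  · right; right; left
    have e : m1 (psR α β : G2 → ℂ) = 1 := by
      rw [hm1, psR_one, psR_uG, add_sub_cancel_right, div_self hq0]
    refine ⟨psR_one α β, ?_, e⟩
    rw [hm0, e, psR_uG]
    norm_num
  · right; right; right
    have e : m1 χ = 1 := by
      rw [hm1, h1, hu, sub_neg_eq_add, sub_add_cancel, div_self hq0]
    refine ⟨h1, ?_, e⟩
    rw [hm0, e, hu]
    ring

/-- Degree and value at the standard unipotent element, by type. -/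
theorem type_vals' {χ : G2 → ℂ} (hχ : IsIrrCharacter G2 χ) :
    (χ 1 = 1 ∧ χ uG = 1) ∨ (χ 1 = (Fintype.card F : ℂ) ∧ χ uG = 0) ∨
    (χ 1 = (Fintype.card F : ℂ) + 1 ∧ χ uG = 1) ∨
    (χ 1 = (Fintype.card F : ℂ) - 1 ∧ χ uG = -1) := by
  rcases classify hχ with ⟨α, rfl⟩ | ⟨α, rfl⟩ | ⟨α, β, hne, rfl⟩ | ⟨-, h1, hu⟩
  · exact Or.inl ⟨linL_one α, linL_uG α⟩
  · exact Or.inr (Or.inl ⟨stC_one α, stC_uG α⟩)
  · exact Or.inr (Or.inr (Or.inl ⟨psR_one α β, psR_uG α β⟩))
  · exact Or.inr (Or.inr (Or.inr ⟨h1, hu⟩))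

omit [DecidableEq F] [Fintype (Matrix.GeneralLinearGroup (Fin 2) F)] [Fintype (MulChar F ℂ)]
  [Fintype (IrrCharacter (Matrix.GeneralLinearGroup (Fin 2) F))] in
theorem deg_distinct (hq : 3 ≤ Fintype.card F) :
    (1 : ℂ) ≠ (Fintype.card F : ℂ) ∧ (1 : ℂ) ≠ (Fintype.card F : ℂ) + 1 ∧
    (1 : ℂ) ≠ (Fintype.card F : ℂ) - 1 ∧ (Fintype.card F : ℂ) ≠ (Fintype.card F : ℂ) + 1 ∧
    (Fintype.card F : ℂ) ≠ (Fintype.card F : ℂ) - 1 ∧
    (Fintype.card F : ℂ) + 1 ≠ (Fintype.card F : ℂ) - 1 := by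
  refine ⟨?_, ?_, ?_, ?_, ?_, ?_⟩
  · intro h
    have h1 : ((Fintype.card F : ℕ) : ℂ) = ((1 : ℕ) : ℂ) := by push_cast; exact h.symm
    have := Nat.cast_injective h1
    omega
  · intro h
    have h1 : ((Fintype.card F : ℕ) : ℂ) = ((0 : ℕ) : ℂ) := by push_cast; linear_combination -h
    have := Nat.cast_injective h1
    omega
  · intro h
    have h1 : ((Fintype.card F : ℕ) : ℂ) = ((2 : ℕ) : ℂ) := by push_cast; linear_combination -h
    have := Nat.cast_injective h1
    omega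
  · intro h
    have h1 : (0 : ℂ) = 1 := by linear_combination h
    norm_num at h1
  · intro h
    have h1 : (0 : ℂ) = 1 := by linear_combination -h
    norm_num at h1
  · intro h
    have h1 : (0 : ℂ) = 2 := by linear_combination -h
    norm_num at h1

omit [Fintype (IrrCharacter (Matrix.GeneralLinearGroup (Fin 2) F))] in
/-- A class function orthogonal to the principal series vanishes at split regular elements. -/
theorem cusp_split {χ : G2 → ℂ} (hcf : IsClassFunction G2 χ)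
    (h0 : ∀ α β : MulChar F ℂ, classInner (psR α β) χ = 0) (a b : Fˣ) (hab : a ≠ b) :
    χ ((eBG (a, b, 0) : BG) : G2) = 0 := by
  have hks := key_sum χ hcf a b
  simp only [h0, mul_zero, Finset.sum_const_zero] at hks
  have h1 : ∀ t : F, conj (χ ((eBG (a, b, t) : BG) : G2)) =
      conj (χ ((eBG (a, b, 0) : BG) : G2)) := by
    intro t
    rw [(isClassFunction_iff_isConj.mp hcf) _ _ (split_conj a b hab t)]
  simp only [h1, Finset.sum_const, Finset.card_univ, nsmul_eq_mul] at hks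
  obtain ⟨hq1, hq0⟩ := card_ne (F := F)
  have h2 : conj (χ ((eBG (a, b, 0) : BG) : G2)) = 0 := by
    rcases mul_eq_zero.mp hks.symm with h | h
    · exact absurd (inv_eq_zero.mp h) hq0
    · rcases mul_eq_zero.mp h with h | h
      · exact absurd h hq0
      · exact h
  exact (map_eq_zero (starRingEnd ℂ)).mp h2

omit [Fintype F] [DecidableEq F] [Fintype (Matrix.GeneralLinearGroup (Fin 2) F)]
  [Fintype (MulChar F ℂ)] [Fintype (IrrCharacter (Matrix.GeneralLinearGroup (Fin 2) F))] in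
theorem split_form (g : G2) (h01 : (g : M2) 0 1 = 0) (h10 : (g : M2) 1 0 = 0) :
    ∃ a b : Fˣ, (a : F) = (g : M2) 0 0 ∧ (b : F) = (g : M2) 1 1 ∧
      g = ((eBG (a, b, 0) : BG) : G2) := by
  have hd := detG g
  rw [h01, zero_mul, sub_zero] at hd
  have h00 : (g : M2) 0 0 ≠ 0 := left_ne_zero_of_mul hd
  have h11 : (g : M2) 1 1 ≠ 0 := right_ne_zero_of_mul hd
  refine ⟨Units.mk0 _ h00, Units.mk0 _ h11, rfl, rfl, ?_⟩
  apply Units.ext
  rw [eBG_val]
  ext i j
  fin_cases i <;> fin_cases j <;> simp [h01, h10]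

omit [DecidableEq F] [Fintype (Matrix.GeneralLinearGroup (Fin 2) F)] [Fintype (MulChar F ℂ)]
  [Fintype (IrrCharacter (Matrix.GeneralLinearGroup (Fin 2) F))] in
theorem mulChar_norm (α : MulChar F ℂ) {x : F} (hx : x ≠ 0) : ‖α x‖ = 1 := by
  have h := mulChar_mul_conj α hx
  have h2 : ‖α x‖ * ‖α x‖ = 1 := by
    have h3 := congrArg norm h
    rw [norm_mul, RCLike.norm_conj, norm_one] at h3
    exact h3
  rcases mul_self_eq_one_iff.mp h2 with h4 | h4
  · exact h4
  · have := norm_nonneg (α x)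
    linarith

end Cfsg.Agent.Lib_helper8_GL2Irr
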