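import Mathlib

set_option autoImplicit false

/-! A non-trivial word is not a law of `PSL_2` over large finite fields: a ping-pong argument in
`SL_2(F[X])` followed by evaluation. -/

namespace Cfsg.Agent.Lib_helper8_PSL2Law

open Polynomial Matrix
open scoped Pointwise

universe u

section Act

variable {R : Type u} [CommRing R]

/-- The action of a matrix on a pair. -/
def act (A : Matrix (Fin 2) (Fin 2) R) (p : R × R) : R × R :=
  (A 0 0 * p.1 + A 0 1 * p.2, A 1 0 * p.1 + A 1 1 * p.2)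

theorem act_one (p : R × R) : act (1 : Matrix (Fin 2) (Fin 2) R) p = p := by
  simp [act]

theorem act_mul (A B : Matrix (Fin 2) (Fin 2) R) (p : R × R) :
    act (A * B) p = act A (act B p) := by
  simp only [act, Matrix.mul_apply, Fin.sum_univ_two]
  apply Prod.ext <;> dsimp only <;> ring

theorem act_ne_zero (g : Matrix.SpecialLinearGroup (Fin 2) R) (p : R × R) (hp : p ≠ 0) :
    act (g : Matrix (Fin 2) (Fin 2) R) p ≠ 0 := by
  intro h
  apply hp
  have hdet := g.det_coe
  rw [Matrix.det_fin_two] at hdet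
  have h1 : (g : Matrix (Fin 2) (Fin 2) R) 0 0 * p.1 + (g : Matrix (Fin 2) (Fin 2) R) 0 1 * p.2
      = 0 := congrArg Prod.fst h
  have h2 : (g : Matrix (Fin 2) (Fin 2) R) 1 0 * p.1 + (g : Matrix (Fin 2) (Fin 2) R) 1 1 * p.2
      = 0 := congrArg Prod.snd h
  apply Prod.ext
  · show p.1 = 0
    linear_combination (g : Matrix (Fin 2) (Fin 2) R) 1 1 * h1 -
      (g : Matrix (Fin 2) (Fin 2) R) 0 1 * h2 - p.1 * hdet
  · show p.2 = 0
    linear_combination (g : Matrix (Fin 2) (Fin 2) R) 0 0 * h2 -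
      (g : Matrix (Fin 2) (Fin 2) R) 1 0 * h1 - p.2 * hdet

/-- Nonzero pairs. -/
structure NZ (R : Type u) [CommRing R] where
  /-- the pair -/
  val : R × R
  /-- it is not zero -/
  ne : val ≠ 0

theorem NZ.ext' {p q : NZ R} (h : p.val = q.val) : p = q := by
  cases p
  cases q
  cases h
  rfl

instance : MulAction (Matrix.SpecialLinearGroup (Fin 2) R) (NZ R) where
  smul g p := ⟨act (g : Matrix (Fin 2) (Fin 2) R) p.val, act_ne_zero g p.val p.ne⟩
  one_smul p := NZ.ext' (act_one p.val)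
  mul_smul g h p := NZ.ext' (by
    show act ((g * h : Matrix.SpecialLinearGroup (Fin 2) R) : Matrix (Fin 2) (Fin 2) R) p.val =
      act (g : Matrix (Fin 2) (Fin 2) R) (act (h : Matrix (Fin 2) (Fin 2) R) p.val)
    rw [Matrix.SpecialLinearGroup.coe_mul, act_mul])

theorem smul_val (g : Matrix.SpecialLinearGroup (Fin 2) R) (p : NZ R) :
    (g • p).val = act (g : Matrix (Fin 2) (Fin 2) R) p.val := rfl

end Act

section Poly

variable {F : Type u} [Field F]

local notation "SLP" => Matrix.SpecialLinearGroup (Fin 2) (Polynomial F)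
local notation "MP" => Matrix (Fin 2) (Fin 2) (Polynomial F)

/-- A hyperbolic element. -/
noncomputable def g0 : SLP := ⟨!![X, 1; -1, 0], by rw [Matrix.det_fin_two_of]; ring⟩

/-- Its inverse. -/
noncomputable def gi0 : SLP := ⟨!![0, -1; 1, X], by rw [Matrix.det_fin_two_of]; ring⟩

/-- The conjugating elements. -/
noncomputable def cc (n : ℕ) : SLP :=
  ⟨!![X ^ (n + 1) + 1, X ^ (n + 1); 1, 1], by rw [Matrix.det_fin_two_of]; ring⟩

/-- Their inverses. -/
noncomputable def ci (n : ℕ) : SLP :=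
  ⟨!![1, -X ^ (n + 1); -1, X ^ (n + 1) + 1], by rw [Matrix.det_fin_two_of]; ring⟩

theorem sl_ext {A B : SLP} (h : ∀ i j, (A : MP) i j = (B : MP) i j) : A = B :=
  Subtype.ext (Matrix.ext h)

theorem cc_val (n : ℕ) : ((cc n : SLP) : MP) = !![X ^ (n + 1) + 1, X ^ (n + 1); 1, 1] := rfl

theorem ci_val (n : ℕ) : ((ci n : SLP) : MP) = !![1, -X ^ (n + 1); -1, X ^ (n + 1) + 1] := rfl

theorem g0_val : ((g0 : SLP) : MP) = !![X, 1; -1, 0] := rfl

theorem gi0_val : ((gi0 : SLP) : MP) = !![0, -1; 1, X] := rfl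

theorem cc_ci (n : ℕ) : (cc n : SLP) * ci n = 1 := by
  apply Subtype.ext
  rw [Matrix.SpecialLinearGroup.coe_mul, cc_val, ci_val, Matrix.SpecialLinearGroup.coe_one,
    Matrix.mul_fin_two, Matrix.one_fin_two]
  ext i j
  fin_cases i <;> fin_cases j <;> simp <;> try ring

theorem ci_cc (n : ℕ) : (ci n : SLP) * cc n = 1 := by
  apply Subtype.ext
  rw [Matrix.SpecialLinearGroup.coe_mul, cc_val, ci_val, Matrix.SpecialLinearGroup.coe_one,
    Matrix.mul_fin_two, Matrix.one_fin_two]
  ext i j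
  fin_cases i <;> fin_cases j <;> simp <;> try ring

theorem g0_gi0 : (g0 : SLP) * gi0 = 1 := by
  apply Subtype.ext
  rw [Matrix.SpecialLinearGroup.coe_mul, g0_val, gi0_val, Matrix.SpecialLinearGroup.coe_one,
    Matrix.mul_fin_two, Matrix.one_fin_two]
  ext i j
  fin_cases i <;> fin_cases j <;> simp <;> try ring

theorem gi0_g0 : (gi0 : SLP) * g0 = 1 := by
  apply Subtype.ext
  rw [Matrix.SpecialLinearGroup.coe_mul, g0_val, gi0_val, Matrix.SpecialLinearGroup.coe_one,
    Matrix.mul_fin_two, Matrix.one_fin_two]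
  ext i j
  fin_cases i <;> fin_cases j <;> simp <;> try ring

/-- The generators of a free subgroup. -/
noncomputable def af (n : ℕ) : SLP := cc n * g0 * ci n

theorem af_inv (n : ℕ) : (af n : SLP)⁻¹ = cc n * gi0 * ci n := by
  apply inv_eq_of_mul_eq_one_right
  unfold af
  calc cc n * g0 * ci n * (cc n * gi0 * ci n)
      = cc n * g0 * (ci n * cc n) * gi0 * ci n := by group
    _ = 1 := by rw [ci_cc, mul_one, mul_assoc (cc n), g0_gi0, mul_one, cc_ci]

theorem g0_act (p : F[X] × F[X]) : act (g0 : SLP).1 p = (X * p.1 + p.2, -p.1) := by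
  show act ((g0 : SLP) : MP) p = _
  rw [g0_val]
  simp [act]

theorem gi0_act (p : F[X] × F[X]) : act (gi0 : SLP).1 p = (-p.2, p.1 + X * p.2) := by
  show act ((gi0 : SLP) : MP) p = _
  rw [gi0_val]
  simp [act]

theorem cross_act (i j : ℕ) (p : F[X] × F[X]) :
    act ((ci i * cc j : SLP) : MP) p =
      ((X ^ (j + 1) - X ^ (i + 1) + 1) * p.1 + (X ^ (j + 1) - X ^ (i + 1)) * p.2,
        -(X ^ (j + 1) - X ^ (i + 1)) * p.1 + (1 - (X ^ (j + 1) - X ^ (i + 1))) * p.2) := by
  rw [Matrix.SpecialLinearGroup.coe_mul, act_mul, ci_val, cc_val]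
  simp only [act]
  apply Prod.ext <;> simp <;> ring

theorem deg_left {A B u v : F[X]} (hA : A ≠ 0) (hAB : A.degree = B.degree)
    (h : v.degree < u.degree) : (A * u + B * v).degree = A.degree + u.degree := by
  rw [degree_add_eq_left_of_degree_lt, degree_mul]
  rw [degree_mul, degree_mul, ← hAB]
  exact WithBot.add_lt_add_left (degree_ne_bot.mpr hA) h

theorem deg_right {A B u v : F[X]} (hB : B ≠ 0) (hAB : A.degree = B.degree)
    (h : u.degree < v.degree) : (A * u + B * v).degree = B.degree + v.degree := by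
  rw [degree_add_eq_right_of_degree_lt, degree_mul]
  rw [degree_mul, degree_mul, hAB]
  exact WithBot.add_lt_add_left (degree_ne_bot.mpr hB) h

/-- The attracting set of `g0`. -/
def XG : Set (NZ F[X]) := {p | p.val.2.degree < p.val.1.degree}

/-- The repelling set of `g0`. -/
def YG : Set (NZ F[X]) := {p | p.val.1.degree < p.val.2.degree}

theorem lt_X_mul {u : F[X]} (hu : u ≠ 0) : u.degree < (X * u).degree := by
  rw [degree_mul, degree_X, degree_eq_natDegree hu]
  exact_mod_cast (by omega : u.natDegree < 1 + u.natDegree)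

theorem g0_pp (p : NZ F[X]) (hp : p ∉ YG) : (g0 : SLP) • p ∈ XG := by
  have hle : p.val.2.degree ≤ p.val.1.degree := not_lt.mp hp
  have hu : p.val.1 ≠ 0 := by
    intro h0
    rw [h0, degree_zero, le_bot_iff, degree_eq_bot] at hle
    exact p.ne (Prod.ext h0 hle)
  show (act (g0 : SLP).1 p.val).2.degree < (act (g0 : SLP).1 p.val).1.degree
  rw [g0_act]
  show (-p.val.1).degree < (X * p.val.1 + p.val.2).degree
  have h1 := lt_X_mul hu
  rw [degree_neg, degree_add_eq_left_of_degree_lt (lt_of_le_of_lt hle h1)]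
  exact h1

theorem gi0_pp (p : NZ F[X]) (hp : p ∉ XG) : (gi0 : SLP) • p ∈ YG := by
  have hle : p.val.1.degree ≤ p.val.2.degree := not_lt.mp hp
  have hv : p.val.2 ≠ 0 := by
    intro h0
    rw [h0, degree_zero, le_bot_iff, degree_eq_bot] at hle
    exact p.ne (Prod.ext hle h0)
  show (act (gi0 : SLP).1 p.val).1.degree < (act (gi0 : SLP).1 p.val).2.degree
  rw [gi0_act]
  show (-p.val.2).degree < (p.val.1 + X * p.val.2).degree
  have h1 := lt_X_mul hv
  rw [degree_neg, degree_add_eq_right_of_degree_lt (lt_of_le_of_lt hle h1)]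
  exact h1

theorem cross_deg (i j : ℕ) (hij : i ≠ j) (q : NZ F[X]) (hq : q ∈ XG ∨ q ∈ YG) :
    ((ci i * cc j : SLP) • q).val.1.degree = ((ci i * cc j : SLP) • q).val.2.degree := by
  obtain ⟨D, hD⟩ : ∃ D : F[X], D = X ^ (j + 1) - X ^ (i + 1) := ⟨_, rfl⟩
  obtain ⟨m, hm1, hm⟩ : ∃ m : ℕ, 1 ≤ m ∧ D.degree = (m : WithBot ℕ) := by
    rcases lt_or_gt_of_ne hij with h | h
    · refine ⟨j + 1, by omega, ?_⟩
      rw [hD, degree_sub_eq_left_of_degree_lt, degree_X_pow]
      rw [degree_X_pow, degree_X_pow]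
      exact_mod_cast (by omega : i + 1 < j + 1)
    · refine ⟨i + 1, by omega, ?_⟩
      rw [hD, degree_sub_eq_right_of_degree_lt, degree_X_pow]
      rw [degree_X_pow, degree_X_pow]
      exact_mod_cast (by omega : j + 1 < i + 1)
  have hD0 : D ≠ 0 := by
    intro h0
    rw [h0, degree_zero] at hm
    exact absurd hm.symm (WithBot.natCast_ne_bot m)
  have h1lt : (1 : F[X]).degree < D.degree := by
    rw [degree_one, hm]
    exact_mod_cast (by omega : 0 < m)
  have hD1 : (D + 1).degree = D.degree := degree_add_eq_left_of_degree_lt h1lt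
  have hD2 : (1 - D).degree = D.degree := degree_sub_eq_right_of_degree_lt h1lt
  have hD3 : (-D).degree = D.degree := degree_neg D
  have hD10 : D + 1 ≠ 0 := by
    intro h0
    rw [h0, degree_zero] at hD1
    exact hD0 (degree_eq_bot.mp hD1.symm)
  have hD20 : 1 - D ≠ 0 := by
    intro h0
    rw [h0, degree_zero] at hD2
    exact hD0 (degree_eq_bot.mp hD2.symm)
  have hD30 : -D ≠ 0 := neg_ne_zero.mpr hD0
  rw [smul_val, cross_act, ← hD]
  rcases hq with h | h
  · have h' : q.val.2.degree < q.val.1.degree := h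
    show ((D + 1) * q.val.1 + D * q.val.2).degree = (-D * q.val.1 + (1 - D) * q.val.2).degree
    rw [deg_left hD10 hD1 h', deg_left hD30 (hD3.trans hD2.symm) h', hD1, hD3]
  · have h' : q.val.1.degree < q.val.2.degree := h
    show ((D + 1) * q.val.1 + D * q.val.2).degree = (-D * q.val.1 + (1 - D) * q.val.2).degree
    rw [deg_right hD0 hD1 h', deg_right hD20 (hD3.trans hD2.symm) h', hD2]

/-- The ping-pong sets. -/
def Xs (n : ℕ) : Set (NZ F[X]) := {p | (ci n : SLP) • p ∈ XG}

/-- The ping-pong sets. -/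
def Ys (n : ℕ) : Set (NZ F[X]) := {p | (ci n : SLP) • p ∈ YG}

theorem cross_eq (i j : ℕ) (p : NZ F[X]) :
    (ci i : SLP) • p = (ci i * cc j : SLP) • ((ci j : SLP) • p) := by
  rw [← mul_smul, mul_assoc, cc_ci, mul_one]

theorem not_both (q : NZ F[X]) (h : q.val.1.degree = q.val.2.degree) : q ∉ XG ∧ q ∉ YG := by
  constructor
  · intro hq
    have h' : q.val.2.degree < q.val.1.degree := hq
    rw [h] at h'
    exact lt_irrefl _ h'
  · intro hq
    have h' : q.val.1.degree < q.val.2.degree := hq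
    rw [h] at h'
    exact lt_irrefl _ h'

theorem mem_Xs (n : ℕ) (p : NZ F[X]) : p ∈ Xs n ↔ (ci n : SLP) • p ∈ XG := by
  unfold Xs
  rw [Set.mem_setOf_eq]

theorem mem_Ys (n : ℕ) (p : NZ F[X]) : p ∈ Ys n ↔ (ci n : SLP) • p ∈ YG := by
  unfold Ys
  rw [Set.mem_setOf_eq]

theorem af_conj (n : ℕ) (q : NZ F[X]) :
    (ci n : SLP) • ((af n : SLP) • q) = (g0 : SLP) • ((ci n : SLP) • q) := by
  rw [← mul_smul, ← mul_smul]
  unfold af
  rw [← mul_assoc, ← mul_assoc, ci_cc, one_mul]

theorem af_inv_conj (n : ℕ) (q : NZ F[X]) :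
    (ci n : SLP) • ((af n : SLP)⁻¹ • q) = (gi0 : SLP) • ((ci n : SLP) • q) := by
  rw [← mul_smul, ← mul_smul, af_inv, ← mul_assoc, ← mul_assoc, ci_cc, one_mul]

theorem af_mem (n : ℕ) (q : NZ F[X]) (hq : q ∉ Ys n) : (af n : SLP) • q ∈ Xs n := by
  rw [mem_Xs, af_conj]
  exact g0_pp _ (fun h => hq ((mem_Ys n q).mpr h))

theorem af_inv_mem (n : ℕ) (q : NZ F[X]) (hq : q ∉ Xs n) : (af n : SLP)⁻¹ • q ∈ Ys n := by
  rw [mem_Ys, af_inv_conj]
  exact gi0_pp _ (fun h => hq ((mem_Xs n q).mpr h))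

theorem xs_nonempty (n : ℕ) : (Xs n : Set (NZ F[X])).Nonempty := by
  refine ⟨(cc n : SLP) • ⟨(1, 0), by simp⟩, ?_⟩
  rw [mem_Xs, ← mul_smul, ci_cc, one_smul]
  show (0 : F[X]).degree < (1 : F[X]).degree
  rw [degree_zero, degree_one]
  exact WithBot.bot_lt_coe 0

theorem xs_disj (i j : ℕ) (hne : i ≠ j) (p : NZ F[X]) (hp1 : p ∈ Xs i) (hp2 : p ∈ Xs j) :
    False := by
  rw [mem_Xs] at hp1 hp2
  rw [cross_eq i j p] at hp1
  exact (not_both _ (cross_deg i j hne _ (Or.inl hp2))).1 hp1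

theorem ys_disj (i j : ℕ) (hne : i ≠ j) (p : NZ F[X]) (hp1 : p ∈ Ys i) (hp2 : p ∈ Ys j) :
    False := by
  rw [mem_Ys] at hp1 hp2
  rw [cross_eq i j p] at hp1
  exact (not_both _ (cross_deg i j hne _ (Or.inr hp2))).2 hp1

theorem xy_disj (i j : ℕ) (p : NZ F[X]) (hp1 : p ∈ Xs i) (hp2 : p ∈ Ys j) : False := by
  rw [mem_Xs] at hp1
  rw [mem_Ys] at hp2
  by_cases hne : i = j
  · rw [hne] at hp1
    have h1' : ((ci j : SLP) • p).val.2.degree < ((ci j : SLP) • p).val.1.degree := hp1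
    have h2' : ((ci j : SLP) • p).val.1.degree < ((ci j : SLP) • p).val.2.degree := hp2
    exact lt_irrefl _ (lt_trans h1' h2')
  · rw [cross_eq i j p] at hp1
    exact (not_both _ (cross_deg i j hne _ (Or.inr hp2))).1 hp1

theorem lift_inj :
    Function.Injective (FreeGroup.lift (fun i : ULift.{u} ℕ => (af i.down : SLP))) := by
  apply FreeGroup.injective_lift_of_ping_pong (fun i : ULift.{u} ℕ => (af i.down : SLP))
    (fun i => (Xs i.down : Set (NZ F[X]))) (fun i => (Ys i.down : Set (NZ F[X])))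
  · intro i
    exact xs_nonempty i.down
  · intro i j hij
    have hne : i.down ≠ j.down := fun h => hij (ULift.down_injective h)
    exact Set.disjoint_left.mpr (fun p hp1 hp2 => xs_disj i.down j.down hne p hp1 hp2)
  · intro i j hij
    have hne : i.down ≠ j.down := fun h => hij (ULift.down_injective h)
    exact Set.disjoint_left.mpr (fun p hp1 hp2 => ys_disj i.down j.down hne p hp1 hp2)
  · intro i j
    exact Set.disjoint_left.mpr (fun p hp1 hp2 => xy_disj i.down j.down p hp1 hp2)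
  · intro i p hp
    obtain ⟨q, hq, rfl⟩ := Set.mem_smul_set.mp hp
    exact af_mem i.down q hq
  · intro i p hp
    obtain ⟨q, hq, rfl⟩ := Set.mem_smul_set.mp hp
    exact af_inv_mem i.down q hq

theorem lift_ne_one (w : FreeGroup ℕ) (hw : w ≠ 1) : FreeGroup.lift (fun n => (af n : SLP)) w ≠ 1 := by
  have hinj : Function.Injective (ULift.up : ℕ → ULift.{u} ℕ) := ULift.up_injective
  have key : FreeGroup.lift (fun n => (af n : SLP)) =
      (FreeGroup.lift (fun i : ULift.{u} ℕ => (af i.down : SLP))).comp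
        (FreeGroup.map (ULift.up : ℕ → ULift.{u} ℕ)) := by
    apply FreeGroup.ext_hom
    intro n
    simp
  rw [key]
  intro h
  have h1 : FreeGroup.map (ULift.up : ℕ → ULift.{u} ℕ) w = 1 := by
    apply lift_inj (F := F)
    rw [map_one]
    exact h
  apply hw
  apply FreeGroup.map_injective hinj
  rw [h1, map_one]

theorem lift_sq_ne_one (w : FreeGroup ℕ) (hw : w ≠ 1) :
    FreeGroup.lift (fun n => (af n : SLP)) w * FreeGroup.lift (fun n => (af n : SLP)) w ≠ 1 := by
  rw [← map_mul]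
  apply lift_ne_one
  intro h
  apply hw
  have h2 : w ^ 2 = 1 ^ 2 := by rw [pow_two, h, one_pow]
  exact IsMulTorsionFree.pow_left_injective two_ne_zero h2

theorem nonscalar_of (W : SLP) (h1 : W ≠ 1) (h2 : W * W ≠ 1) :
    (W : MP) 0 1 ≠ 0 ∨ (W : MP) 1 0 ≠ 0 ∨ (W : MP) 0 0 - (W : MP) 1 1 ≠ 0 := by
  by_contra hcon
  push_neg at hcon
  obtain ⟨h01, h10, h00⟩ := hcon
  have hdet := W.det_coe
  rw [Matrix.det_fin_two, h01, h10] at hdet
  have h11 : (W : MP) 1 1 = (W : MP) 0 0 := (sub_eq_zero.mp h00).symm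
  rw [h11] at hdet
  have hsq : ((W : MP) 0 0 - 1) * ((W : MP) 0 0 + 1) = 0 := by linear_combination hdet
  have hW : (W : MP) = !![(W : MP) 0 0, 0; 0, (W : MP) 0 0] := by
    have h := Matrix.eta_fin_two (W : MP)
    rw [h01, h10, h11] at h
    exact h
  rcases mul_eq_zero.mp hsq with h | h
  · apply h1
    apply Subtype.ext
    rw [hW, sub_eq_zero.mp h, Matrix.SpecialLinearGroup.coe_one, Matrix.one_fin_two]
  · apply h2
    apply Subtype.ext
    rw [Matrix.SpecialLinearGroup.coe_mul, hW, eq_neg_of_add_eq_zero_left h,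
      Matrix.SpecialLinearGroup.coe_one, Matrix.mul_fin_two, Matrix.one_fin_two]
    ext i j
    fin_cases i <;> fin_cases j <;> simp

/-- Entrywise degree bound. -/
def EB (A : MP) (d : ℕ) : Prop := ∀ i j, (A i j).natDegree ≤ d

theorem eb_mul {A B : MP} {d e : ℕ} (hA : EB A d) (hB : EB B e) : EB (A * B) (d + e) := by
  intro i j
  rw [Matrix.mul_apply]
  apply natDegree_sum_le_of_forall_le
  intro k _
  exact natDegree_mul_le.trans (add_le_add (hA i k) (hB k j))

theorem eb_one : EB (1 : MP) 0 := by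
  intro i j
  rw [Matrix.one_apply]
  split_ifs <;> simp

theorem eb_mono {A : MP} {d e : ℕ} (h : EB A d) (hde : d ≤ e) : EB A e :=
  fun i j => (h i j).trans hde

theorem eb_of (a b c d : F[X]) (e : ℕ) (ha : a.natDegree ≤ e) (hb : b.natDegree ≤ e)
    (hc : c.natDegree ≤ e) (hd : d.natDegree ≤ e) : EB !![a, b; c, d] e := by
  intro i j
  fin_cases i <;> fin_cases j
  · exact ha
  · exact hb
  · exact hc
  · exact hd

theorem deg_pow_add (n : ℕ) : (X ^ (n + 1) + 1 : F[X]).natDegree ≤ n + 1 :=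
  natDegree_add_le_of_degree_le (natDegree_X_pow_le _) (by simp)

theorem eb_cc (n : ℕ) : EB ((cc n : SLP) : MP) (n + 1) := by
  rw [cc_val]
  exact eb_of _ _ _ _ _ (deg_pow_add n) (natDegree_X_pow_le _) (by simp) (by simp)

theorem eb_ci (n : ℕ) : EB ((ci n : SLP) : MP) (n + 1) := by
  rw [ci_val]
  refine eb_of _ _ _ _ _ (by simp) ?_ (by simp) (deg_pow_add n)
  rw [natDegree_neg]
  exact natDegree_X_pow_le _

theorem eb_g0 : EB ((g0 : SLP) : MP) 1 := by
  rw [g0_val]
  exact eb_of _ _ _ _ _ natDegree_X_le (by simp) (by simp) (by simp)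

theorem eb_gi0 : EB ((gi0 : SLP) : MP) 1 := by
  rw [gi0_val]
  exact eb_of _ _ _ _ _ (by simp) (by simp) (by simp) natDegree_X_le

theorem eb_af (n : ℕ) : EB ((af n : SLP) : MP) (2 * n + 3) := by
  unfold af
  rw [Matrix.SpecialLinearGroup.coe_mul, Matrix.SpecialLinearGroup.coe_mul]
  exact eb_mono (eb_mul (eb_mul (eb_cc n) eb_g0) (eb_ci n)) (by omega)

theorem eb_af_inv (n : ℕ) : EB (((af n : SLP)⁻¹ : SLP) : MP) (2 * n + 3) := by
  rw [af_inv, Matrix.SpecialLinearGroup.coe_mul, Matrix.SpecialLinearGroup.coe_mul]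
  exact eb_mono (eb_mul (eb_mul (eb_cc n) eb_gi0) (eb_ci n)) (by omega)

/-- The degree bound attached to a word. -/
def bdw (L : List (ℕ × Bool)) : ℕ := (L.map (fun p => 2 * p.1 + 3)).sum

theorem eb_prod (L : List (ℕ × Bool)) :
    EB (((L.map (fun x : ℕ × Bool => bif x.2 then (af x.1 : SLP) else (af x.1 : SLP)⁻¹)).prod
      : SLP) : MP) (bdw L) := by
  induction L with
  | nil =>
    rw [List.map_nil, List.prod_nil, Matrix.SpecialLinearGroup.coe_one]
    exact eb_one
  | cons x L ih =>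
    rw [List.map_cons, List.prod_cons, Matrix.SpecialLinearGroup.coe_mul]
    have hx : EB ((bif x.2 then (af x.1 : SLP) else (af x.1 : SLP)⁻¹ : SLP) : MP)
        (2 * x.1 + 3) := by
      obtain ⟨n, b⟩ := x
      cases b
      · exact eb_af_inv n
      · exact eb_af n
    have h := eb_mul hx ih
    have e : bdw (x :: L) = 2 * x.1 + 3 + bdw L := by
      unfold bdw
      rw [List.map_cons, List.sum_cons]
    rw [e]
    exact h

theorem eb_lift (w : FreeGroup ℕ) :
    EB ((FreeGroup.lift (fun n => (af n : SLP)) w : SLP) : MP) (bdw w.toWord) := by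
  have h := eb_prod (F := F) w.toWord
  have e : FreeGroup.lift (fun n => (af n : SLP)) w =
      (w.toWord.map (fun x : ℕ × Bool => bif x.2 then (af x.1 : SLP)
        else (af x.1 : SLP)⁻¹)).prod := by
    rw [← FreeGroup.lift_mk, FreeGroup.mk_toWord]
  rw [e]
  exact h

/-- Evaluation at a point. -/
noncomputable def evt (t : F) : SLP →* Matrix.SpecialLinearGroup (Fin 2) F :=
  Matrix.SpecialLinearGroup.map (Polynomial.evalRingHom t)

theorem evt_apply (t : F) (W : SLP) (i j : Fin 2) :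
    ((evt t W : Matrix.SpecialLinearGroup (Fin 2) F) : Matrix (Fin 2) (Fin 2) F) i j =
      ((W : MP) i j).eval t := by
  unfold evt
  rw [Matrix.SpecialLinearGroup.map_apply_coe]
  rfl

theorem not_center (t : F) (W : SLP)
    (h : ((W : MP) 0 1).eval t ≠ 0 ∨ ((W : MP) 1 0).eval t ≠ 0 ∨
      ((W : MP) 0 0 - (W : MP) 1 1).eval t ≠ 0) :
    evt t W ∉ Subgroup.center (Matrix.SpecialLinearGroup (Fin 2) F) := by
  intro hc
  obtain ⟨r, -, hr⟩ := Matrix.SpecialLinearGroup.mem_center_iff.mp hc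
  have e : ∀ i j, (Matrix.scalar (Fin 2) r) i j = ((W : MP) i j).eval t := by
    intro i j
    rw [hr, evt_apply]
  have s01 : (Matrix.scalar (Fin 2) r) 0 1 = 0 := by
    rw [Matrix.scalar_apply, Matrix.diagonal_apply_ne _ (by decide)]
  have s10 : (Matrix.scalar (Fin 2) r) 1 0 = 0 := by
    rw [Matrix.scalar_apply, Matrix.diagonal_apply_ne _ (by decide)]
  have s00 : (Matrix.scalar (Fin 2) r) 0 0 = r := by
    rw [Matrix.scalar_apply, Matrix.diagonal_apply_eq]
  have s11 : (Matrix.scalar (Fin 2) r) 1 1 = r := by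
    rw [Matrix.scalar_apply, Matrix.diagonal_apply_eq]
  rcases h with h | h | h
  · apply h
    rw [← e 0 1, s01]
  · apply h
    rw [← e 1 0, s10]
  · apply h
    rw [eval_sub, ← e 0 0, ← e 1 1, s00, s11, sub_self]

theorem exists_poly (w : FreeGroup ℕ) (hw : w ≠ 1) :
    ∃ P : F[X], P ≠ 0 ∧ P.natDegree ≤ bdw w.toWord ∧
      ∀ t : F, P.eval t ≠ 0 → evt t (FreeGroup.lift (fun n => (af n : SLP)) w) ∉
        Subgroup.center (Matrix.SpecialLinearGroup (Fin 2) F) := by
  obtain ⟨W, hW⟩ : ∃ W : SLP, W = FreeGroup.lift (fun n => (af n : SLP)) w := ⟨_, rfl⟩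
  have hb : EB (W : MP) (bdw w.toWord) := by
    rw [hW]
    exact eb_lift w
  have h1 : W ≠ 1 := by
    rw [hW]
    exact lift_ne_one w hw
  have h2 : W * W ≠ 1 := by
    rw [hW]
    exact lift_sq_ne_one w hw
  rw [← hW]
  rcases nonscalar_of W h1 h2 with h | h | h
  · exact ⟨(W : MP) 0 1, h, hb 0 1, fun t ht => not_center t W (Or.inl ht)⟩
  · exact ⟨(W : MP) 1 0, h, hb 1 0, fun t ht => not_center t W (Or.inr (Or.inl ht))⟩
  · exact ⟨(W : MP) 0 0 - (W : MP) 1 1, h,
      (natDegree_sub_le _ _).trans (max_le (hb 0 0) (hb 1 1)),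
      fun t ht => not_center t W (Or.inr (Or.inr ht))⟩

end Poly

/-- A non-trivial word is not a law of `PSL_2` over a large finite field. -/
theorem law_final (w : FreeGroup ℕ) (hw : w ≠ 1) (F : Type u) [Field F] [Fintype F]
    (hN : bdw w.toWord + 1 ≤ Fintype.card F) :
    ∃ f : ℕ → Matrix.ProjectiveSpecialLinearGroup (Fin 2) F, FreeGroup.lift f w ≠ 1 := by
  obtain ⟨P, hP0, hPd, hP⟩ := exists_poly (F := F) w hw
  obtain ⟨t, ht⟩ := P.exists_eval_ne_zero_of_natDegree_lt_card hP0 (by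
    rw [Cardinal.mk_fintype]
    exact_mod_cast (by omega : P.natDegree < Fintype.card F))
  refine ⟨fun n => QuotientGroup.mk' (Subgroup.center (Matrix.SpecialLinearGroup (Fin 2) F))
    (evt t (af n)), ?_⟩
  have key : FreeGroup.lift (fun n => QuotientGroup.mk'
      (Subgroup.center (Matrix.SpecialLinearGroup (Fin 2) F)) (evt t (af n))) =
      ((QuotientGroup.mk' (Subgroup.center (Matrix.SpecialLinearGroup (Fin 2) F))).comp
        (evt t)).comp (FreeGroup.lift (fun n => af n)) := by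
    apply FreeGroup.ext_hom
    intro n
    simp
  intro h
  have h' := h
  rw [key] at h'
  exact hP t ht ((QuotientGroup.eq_one_iff _).mp h')

end Cfsg.Agent.Lib_helper8_PSL2Law
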