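import Mathlib
import Cfsg.Agent.Lib_helper8_GL2Irr
import Cfsg.Agent.Lib_helper3_Clifford
import Cfsg.Agent.Lib_helper3_CliffCorr

set_option autoImplicit false

/-! Irreducible characters of `SL_2` as restrictions of irreducible characters of `GL_2`. -/

namespace Cfsg.Agent.Lib_helper8_SL2Res

open Cfsg Cfsg.Agent.Lib_helper3_CharBasic Cfsg.Agent.Lib_helper3_CharInd
open Cfsg.Agent.Lib_helper3_CharMore Cfsg.Agent.Lib_helper3_CharNormal
open Cfsg.Agent.Lib_helper3_Clifford Cfsg.Agent.Lib_helper3_CliffCorr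
open Cfsg.Agent.Lib_helper8_IndB Cfsg.Agent.Lib_helper8_IndBGL Cfsg.Agent.Lib_helper8_GL2Irr
open scoped ComplexConjugate
open Matrix

universe u

/-- Above every irreducible character of a normal subgroup lies an irreducible character of the
group whose degree is a multiple of its degree; if the degrees agree, it is an extension. -/
theorem exists_over {G : Type u} [Group G] [Fintype G] (N : Subgroup G) [hN : N.Normal]
    {χ : N → ℂ} (hχ : IsIrrCharacter N χ) :
    ∃ θ : G → ℂ, IsIrrCharacter G θ ∧ ∃ k : ℕ, θ 1 = (k : ℂ) * χ 1 ∧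
      (k = 1 → ∀ n : N, θ (n : G) = χ n) := by
  classical
  haveI : Fintype N := Fintype.ofFinite _
  have hind : IsCharacter G (indFun N χ) := isCharacter_indFun N (isCharacter_of_irr hχ)
  have hχ1 : χ 1 ≠ 0 := irr_apply_one_ne_zero hχ
  have hne : indFun N χ ≠ 0 := by
    intro h
    have h1 := congrFun h 1
    rw [indFun_apply_one] at h1
    rcases mul_eq_zero.mp h1 with h2 | h2
    · have h3 := Subgroup.index_ne_zero_of_finite (H := N)
      exact h3 (by exact_mod_cast h2)
    · exact hχ1 h2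
  obtain ⟨θ, hθ, hθne⟩ := classInner_irr_of_ne_zero hind hne
  have hcf := isClassFunction_of_irr hθ
  have hconst : classInner (fun n : N => θ n) χ ≠ 0 := by
    rw [frobenius_reciprocity N χ θ hcf] at hθne
    intro h
    apply hθne
    rw [← classInner_conj_symm, h, map_zero]
  have hcl := clifford N hθ hχ hconst
  obtain ⟨c, hc⟩ := classInner_nat (isCharacter_restrict N (isCharacter_of_irr hθ))
    (isCharacter_of_irr hχ)
  rw [hc] at hcl
  have hfin : {ψ : N → ℂ | ∃ g : G, ψ = conjFun N g χ}.Finite := by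
    haveI := irr_finite (G := N)
    apply Set.Finite.subset (Set.finite_range (Subtype.val : IrrCharacter N → (N → ℂ)))
    rintro ψ ⟨g, rfl⟩
    exact ⟨⟨conjFun N g χ, isIrrCharacter_conjFun N g hχ⟩, rfl⟩
  rw [finsum_mem_eq_finite_toFinset_sum _ hfin] at hcl
  have hval : ∀ n : N, θ (n : G) = (c : ℂ) * ∑ ψ ∈ hfin.toFinset, ψ n := by
    intro n
    have h5 := congrFun hcl n
    simpa [Finset.sum_apply] using h5
  have hdeg : ∀ ψ ∈ hfin.toFinset, ψ 1 = χ 1 := by
    intro ψ hψ
    rw [Set.Finite.mem_toFinset] at hψ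
    obtain ⟨g, rfl⟩ := hψ
    rw [conjFun_apply]
    congr 1
    apply Subtype.ext
    simp
  have hmem : χ ∈ hfin.toFinset := by
    rw [Set.Finite.mem_toFinset]
    exact ⟨1, (conjFun_one N χ).symm⟩
  have h1 : θ 1 = ((c * hfin.toFinset.card : ℕ) : ℂ) * χ 1 := by
    have h5 := hval 1
    rw [Finset.sum_congr rfl hdeg, Finset.sum_const, nsmul_eq_mul] at h5
    rw [show ((1 : N) : G) = 1 from rfl] at h5
    rw [h5]
    push_cast
    ring
  refine ⟨θ, hθ, c * hfin.toFinset.card, h1, ?_⟩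
  intro hk n
  have hc1 : c = 1 := Nat.eq_one_of_mul_eq_one_right hk
  have ht1 : hfin.toFinset.card = 1 := Nat.eq_one_of_mul_eq_one_left hk
  obtain ⟨ψ, hψ⟩ := Finset.card_eq_one.mp ht1
  rw [hψ, Finset.mem_singleton] at hmem
  rw [hval n, hc1, hψ, Finset.sum_singleton, ← hmem]
  simp

theorem k_eq_one (k d e : ℕ) (hk0 : k ≠ 0) (h : k * d = e) (he : e < 2 * d) : k = 1 := by
  rcases Nat.lt_or_ge k 2 with hk2 | hk2
  · omega
  · have : 2 * d ≤ k * d := Nat.mul_le_mul_right d hk2
    omega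

variable {F : Type u} [Field F]

local notation "G2" => Matrix.GeneralLinearGroup (Fin 2) F
local notation "S2" => Matrix.SpecialLinearGroup (Fin 2) F
local notation "M2" => Matrix (Fin 2) (Fin 2) F
local notation "BG" => (Cfsg.upperTriangularGL 2 F)

/-- The kernel of the determinant. -/
def Ndet (F : Type u) [Field F] : Subgroup (Matrix.GeneralLinearGroup (Fin 2) F) :=
  (Matrix.GeneralLinearGroup.det :
    Matrix.GeneralLinearGroup (Fin 2) F →* Fˣ).ker

instance Ndet_normal : (Ndet F).Normal := MonoidHom.normal_ker _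

/-- `SL_2` as the kernel of the determinant. -/
noncomputable def eSN : S2 ≃* (Ndet F) where
  toFun s := ⟨Matrix.SpecialLinearGroup.toGL s, by
    show Matrix.SpecialLinearGroup.toGL s ∈ (Matrix.GeneralLinearGroup.det : G2 →* Fˣ).ker
    rw [MonoidHom.mem_ker]
    apply Units.ext
    rw [Matrix.GeneralLinearGroup.val_det_apply]
    exact s.det_coe⟩
  invFun n := ⟨((n : G2) : M2), by
    have h := n.2
    change (n : G2) ∈ (Matrix.GeneralLinearGroup.det : G2 →* Fˣ).ker at h
    rw [MonoidHom.mem_ker] at h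
    have h2 := congrArg Units.val h
    rw [Matrix.GeneralLinearGroup.val_det_apply] at h2
    exact h2⟩
  left_inv s := Subtype.ext rfl
  right_inv n := Subtype.ext (Units.ext rfl)
  map_mul' a b := Subtype.ext (map_mul _ a b)

variable [Fintype F] [DecidableEq F] [Fintype (Matrix.GeneralLinearGroup (Fin 2) F)]

omit [DecidableEq F] in
theorem sl_over {χ : S2 → ℂ} (hχ : IsIrrCharacter S2 χ) :
    ∃ θ : G2 → ℂ, IsIrrCharacter G2 θ ∧ ∃ k : ℕ, θ 1 = (k : ℂ) * χ 1 ∧
      (k = 1 → ∀ s : S2, θ (Matrix.SpecialLinearGroup.toGL s) = χ s) := by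
  have hχ' : IsIrrCharacter (Ndet F) (χ ∘ (eSN (F := F)).symm) :=
    isIrrCharacter_comp_mulEquiv' (eSN (F := F)).symm hχ
  obtain ⟨θ, hθ, k, h1, h2⟩ := exists_over (Ndet F) hχ'
  refine ⟨θ, hθ, k, ?_, ?_⟩
  · rw [h1]
    congr 1
  · intro hk s
    have h5 := h2 hk (eSN s)
    rw [Function.comp_apply, MulEquiv.symm_apply_apply] at h5
    exact h5

variable [Fintype (MulChar F ℂ)] [Fintype (IrrCharacter (Matrix.GeneralLinearGroup (Fin 2) F))]

/-- An irreducible character of `SL_2` of large enough degree is the restriction of an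
irreducible character of `GL_2`. -/
theorem sl_over_eq {χ : S2 → ℂ} (hχ : IsIrrCharacter S2 χ) (d : ℕ) (hd : χ 1 = d)
    (hlt : Fintype.card F + 1 < 2 * d) :
    ∃ θ : G2 → ℂ, IsIrrCharacter G2 θ ∧
      ∀ s : S2, θ (Matrix.SpecialLinearGroup.toGL s) = χ s := by
  obtain ⟨θ, hθ, k, h1, h2⟩ := sl_over hχ
  have hk0 : k ≠ 0 := by
    rintro rfl
    apply irr_apply_one_ne_zero hθ
    rw [h1]
    simp
  have hq : 2 ≤ Fintype.card F := Fintype.one_lt_card
  have he : ∃ e : ℕ, θ 1 = (e : ℂ) ∧ e ≤ Fintype.card F + 1 := by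
    rcases type_vals' hθ with ⟨h3, -⟩ | ⟨h3, -⟩ | ⟨h3, -⟩ | ⟨h3, -⟩
    · exact ⟨1, by rw [h3]; simp, by omega⟩
    · exact ⟨Fintype.card F, h3, by omega⟩
    · exact ⟨Fintype.card F + 1, by rw [h3]; push_cast; ring, le_refl _⟩
    · exact ⟨Fintype.card F - 1, by rw [h3, Nat.cast_sub (by omega)]; simp, by omega⟩
  obtain ⟨e, he1, he2⟩ := he
  rw [he1, hd] at h1
  have h5 : ((k * d : ℕ) : ℂ) = (e : ℂ) := by
    push_cast
    exact h1.symm
  have hk1 := k_eq_one k d e hk0 (Nat.cast_injective h5) (by omega)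
  exact ⟨θ, hθ, h2 hk1⟩

omit [Fintype (MulChar F ℂ)] [Fintype (IrrCharacter (Matrix.GeneralLinearGroup (Fin 2) F))] in
theorem psR_par (α β : MulChar F ℂ) (g : G2) (h10 : (g : M2) 1 0 = 0)
    (heq : (g : M2) 0 0 = (g : M2) 1 1) (h01 : (g : M2) 0 1 ≠ 0) :
    psR α β g = α ((g : M2) 0 0) * β ((g : M2) 1 1) := by
  unfold psR
  rw [ind_GL2_psi (fun u v => α u * β v) g, if_pos h10]
  have h : ∑ t : F, (if (g : M2) 1 0 * t ^ 2 + ((g : M2) 1 1 - (g : M2) 0 0) * t -
      (g : M2) 0 1 = 0 then (fun u v => α u * β v) ((g : M2) 1 0 * t + (g : M2) 1 1)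
        ((g : M2) 0 0 - (g : M2) 1 0 * t) else 0) = 0 := by
    apply Finset.sum_eq_zero
    intro t _
    rw [if_neg]
    intro h2
    apply h01
    rw [h10, heq] at h2
    linear_combination -h2
  rw [h, add_zero]

end Cfsg.Agent.Lib_helper8_SL2Res
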