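import Mathlib
import Cfsg.Agent.Lib_helper8_SL2Res

set_option autoImplicit false

/-! Clifford decomposition of the restriction to `SL_2` of an irreducible character of `GL_2`. -/

namespace Cfsg.Agent.Lib_helper8_SL2Cliff

open Cfsg Cfsg.Agent.Lib_helper3_CharBasic Cfsg.Agent.Lib_helper3_CharInd
open Cfsg.Agent.Lib_helper3_CharMore Cfsg.Agent.Lib_helper3_CharNormal
open Cfsg.Agent.Lib_helper3_Clifford Cfsg.Agent.Lib_helper3_CliffCorr
open Cfsg.Agent.Lib_helper8_IndB Cfsg.Agent.Lib_helper8_IndBGL Cfsg.Agent.Lib_helper8_GL2Irr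
open Cfsg.Agent.Lib_helper8_SL2Res
open scoped ComplexConjugate
open Matrix

universe u

theorem exists_const {G : Type u} [Group G] [Fintype G] (N : Subgroup G) [hN : N.Normal]
    [Fintype N] {χ : N → ℂ} (hχ : IsIrrCharacter N χ) :
    ∃ θ : G → ℂ, IsIrrCharacter G θ ∧ classInner (fun n : N => θ n) χ ≠ 0 := by
  classical
  have hind : IsCharacter G (indFun N χ) := isCharacter_indFun N (isCharacter_of_irr hχ)
  have hχ1 : χ 1 ≠ 0 := irr_apply_one_ne_zero hχ
  have hne : indFun N χ ≠ 0 := by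
    intro h
    have h1 := congrFun h 1
    rw [indFun_apply_one] at h1
    rcases mul_eq_zero.mp h1 with h2 | h2
    · have h3 := Subgroup.index_ne_zero_of_finite (H := N)
      exact h3 (by exact_mod_cast h2)
    · exact hχ1 h2
  obtain ⟨θ, hθ, hθne⟩ := classInner_irr_of_ne_zero hind hne
  have hcf := isClassFunction_of_irr hθ
  refine ⟨θ, hθ, ?_⟩
  rw [frobenius_reciprocity N χ θ hcf] at hθne
  intro h
  apply hθne
  rw [← classInner_conj_symm, h, map_zero]

/-- Clifford's theorem with explicit data. -/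
theorem clifford_data {G : Type u} [Group G] [Fintype G] (N : Subgroup G) [hN : N.Normal]
    [Fintype N] {θ : G → ℂ} (hθ : IsIrrCharacter G θ) {χ : N → ℂ} (hχ : IsIrrCharacter N χ)
    (hconst : classInner (fun n : N => θ n) χ ≠ 0) :
    ∃ (c : ℕ) (T : Finset (N → ℂ)), c ≠ 0 ∧ χ ∈ T ∧
      (∀ ψ ∈ T, ∃ g : G, ψ = conjFun N g χ) ∧
      (∀ n : N, θ (n : G) = (c : ℂ) * ∑ ψ ∈ T, ψ n) ∧
      classInner (fun n : N => θ n) (fun n : N => θ n) = ((c ^ 2 * T.card : ℕ) : ℂ) := by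
  classical
  have hcl := clifford N hθ hχ hconst
  obtain ⟨c, hc⟩ := classInner_nat (isCharacter_restrict N (isCharacter_of_irr hθ))
    (isCharacter_of_irr hχ)
  have hc0 : c ≠ 0 := by
    rintro rfl
    apply hconst
    rw [hc]
    simp
  rw [hc] at hcl
  have hfin : {ψ : N → ℂ | ∃ g : G, ψ = conjFun N g χ}.Finite := by
    haveI := irr_finite (G := N)
    apply Set.Finite.subset (Set.finite_range (Subtype.val : IrrCharacter N → (N → ℂ)))
    rintro ψ ⟨g, rfl⟩
    exact ⟨⟨conjFun N g χ, isIrrCharacter_conjFun N g hχ⟩, rfl⟩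
  rw [finsum_mem_eq_finite_toFinset_sum _ hfin] at hcl
  have hT : ∀ ψ ∈ hfin.toFinset, ∃ g : G, ψ = conjFun N g χ := by
    intro ψ hψ
    rw [Set.Finite.mem_toFinset] at hψ
    exact hψ
  have hirr : ∀ ψ ∈ hfin.toFinset, IsIrrCharacter N ψ := by
    intro ψ hψ
    obtain ⟨g, rfl⟩ := hT ψ hψ
    exact isIrrCharacter_conjFun N g hχ
  refine ⟨c, hfin.toFinset, hc0, ?_, hT, ?_, ?_⟩
  · rw [Set.Finite.mem_toFinset]
    exact ⟨1, (conjFun_one N χ).symm⟩
  · intro n
    have h5 := congrFun hcl n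
    simpa [Finset.sum_apply] using h5
  · rw [hcl, classInner_smul_left, classInner_smul_right, classInner_sum_left]
    have h6 : ∀ ψ ∈ hfin.toFinset, classInner ψ (∑ ψ' ∈ hfin.toFinset, ψ') = 1 := by
      intro ψ hψ
      rw [classInner_sum_right, Finset.sum_eq_single ψ]
      · exact irr_inner_self (hirr ψ hψ)
      · intro ψ' hψ' hne
        exact irr_inner_ne (hirr ψ hψ) (hirr ψ' hψ') (fun h => hne h.symm)
      · intro h
        exact absurd hψ h
    rw [Finset.sum_congr rfl h6, Finset.sum_const, nsmul_eq_mul, map_natCast]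
    push_cast
    ring

variable {F : Type u} [Field F]

local notation "G2" => Matrix.GeneralLinearGroup (Fin 2) F
local notation "S2" => Matrix.SpecialLinearGroup (Fin 2) F
local notation "M2" => Matrix (Fin 2) (Fin 2) F
local notation "BG" => (Cfsg.upperTriangularGL 2 F)

variable [Fintype F] [DecidableEq F] [Fintype (Matrix.GeneralLinearGroup (Fin 2) F)]
  [Fintype (Matrix.SpecialLinearGroup (Fin 2) F)]

omit [DecidableEq F] in
theorem sl_exists_const {χ : S2 → ℂ} (hχ : IsIrrCharacter S2 χ) :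
    ∃ θ : G2 → ℂ, IsIrrCharacter G2 θ ∧
      classInner (fun s : S2 => θ (Matrix.SpecialLinearGroup.toGL s)) χ ≠ 0 := by
  classical
  haveI : Fintype (Ndet F) := Fintype.ofFinite _
  have hχ' : IsIrrCharacter (Ndet F) (χ ∘ (eSN (F := F)).symm) :=
    isIrrCharacter_comp_mulEquiv' (eSN (F := F)).symm hχ
  obtain ⟨θ, hθ, hne⟩ := exists_const (Ndet F) hχ'
  refine ⟨θ, hθ, ?_⟩
  have h1 := classInner_comp_mulEquiv (eSN (F := F)) (fun n : Ndet F => θ n)
    (χ ∘ (eSN (F := F)).symm)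
  have h2 : (χ ∘ (eSN (F := F)).symm) ∘ (eSN (F := F)) = χ := by
    funext s
    simp
  rw [h2] at h1
  rw [← h1] at hne
  exact hne

omit [DecidableEq F] in
/-- Clifford data for the restriction of an irreducible character of `GL_2` to `SL_2`. -/
theorem sl_clifford_of {θ : G2 → ℂ} (hθ : IsIrrCharacter G2 θ) {χ : S2 → ℂ}
    (hχ : IsIrrCharacter S2 χ)
    (h : classInner (fun s : S2 => θ (Matrix.SpecialLinearGroup.toGL s)) χ ≠ 0) :
    ∃ (c : ℕ) (T : Finset (S2 → ℂ)), c ≠ 0 ∧ χ ∈ T ∧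
      (∀ ψ ∈ T, IsIrrCharacter S2 ψ ∧ ∃ y : G2, ∀ g h : S2,
        Matrix.SpecialLinearGroup.toGL h = y * Matrix.SpecialLinearGroup.toGL g * y⁻¹ →
          ψ g = χ h) ∧
      (∀ s : S2, θ (Matrix.SpecialLinearGroup.toGL s) = (c : ℂ) * ∑ ψ ∈ T, ψ s) ∧
      classInner (fun s : S2 => θ (Matrix.SpecialLinearGroup.toGL s))
        (fun s : S2 => θ (Matrix.SpecialLinearGroup.toGL s)) = ((c ^ 2 * T.card : ℕ) : ℂ) := by
  classical
  haveI : Fintype (Ndet F) := Fintype.ofFinite _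
  have hχ' : IsIrrCharacter (Ndet F) (χ ∘ (eSN (F := F)).symm) :=
    isIrrCharacter_comp_mulEquiv' (eSN (F := F)).symm hχ
  have h2 : (χ ∘ (eSN (F := F)).symm) ∘ (eSN (F := F)) = χ := by
    funext s
    simp
  have hconst : classInner (fun n : Ndet F => θ n) (χ ∘ (eSN (F := F)).symm) ≠ 0 := by
    have h1 := classInner_comp_mulEquiv (eSN (F := F)) (fun n : Ndet F => θ n)
      (χ ∘ (eSN (F := F)).symm)
    rw [h2] at h1
    rw [← h1]
    exact h
  obtain ⟨c, T, hc0, hmem, hconj, hval, hnorm⟩ := clifford_data (Ndet F) hθ hχ' hconst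
  have hinj : Function.Injective (fun ψ : Ndet F → ℂ => ψ ∘ (eSN (F := F))) := by
    intro ψ ψ' hh
    funext n
    have h5 := congrFun hh ((eSN (F := F)).symm n)
    simpa using h5
  refine ⟨c, T.image (fun ψ : Ndet F → ℂ => ψ ∘ (eSN (F := F))), hc0, ?_, ?_, ?_, ?_⟩
  · rw [Finset.mem_image]
    exact ⟨χ ∘ (eSN (F := F)).symm, hmem, h2⟩
  · intro ψ hψ
    rw [Finset.mem_image] at hψ
    obtain ⟨ψ', hψ', rfl⟩ := hψ
    obtain ⟨y, rfl⟩ := hconj ψ' hψ'
    refine ⟨isIrrCharacter_comp_mulEquiv' (eSN (F := F))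
      (isIrrCharacter_conjFun (Ndet F) y hχ'), y, ?_⟩
    intro g h' hgh
    show conjFun (Ndet F) y (χ ∘ (eSN (F := F)).symm) (eSN g) = χ h'
    rw [conjFun_apply]
    have h6 : (⟨y * ((eSN (F := F) g : Ndet F) : G2) * y⁻¹,
        (Ndet_normal (F := F)).conj_mem _ (eSN (F := F) g).2 y⟩ : Ndet F) = eSN h' :=
      Subtype.ext hgh.symm
    rw [h6]
    simp
  · intro s
    rw [Finset.sum_image (fun a _ b _ hab => hinj hab)]
    exact hval (eSN s)
  · rw [Finset.card_image_of_injective _ hinj, ← hnorm]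
    exact classInner_comp_mulEquiv (eSN (F := F)) (fun n : Ndet F => θ n) (fun n : Ndet F => θ n)

omit [Fintype F] [DecidableEq F] [Fintype (Matrix.GeneralLinearGroup (Fin 2) F)]
  [Fintype (Matrix.SpecialLinearGroup (Fin 2) F)] in
theorem k_cases (k h e : ℕ) (hk : k ≠ 0) (h1 : k * h = e) (he : e ≤ 2 * h + 2) (hh : 2 ≤ h) :
    k = 1 ∨ k = 2 ∨ (k = 3 ∧ h = 2) := by
  rcases Nat.lt_or_ge k 3 with h3 | h3
  · have : k = 1 ∨ k = 2 := by omega
    tauto
  · have e1 : 3 * h ≤ k * h := Nat.mul_le_mul_right h h3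
    have hh2 : h = 2 := by omega
    right; right
    refine ⟨?_, hh2⟩
    rcases Nat.lt_or_ge k 4 with h4 | h4
    · omega
    · have e2 : 4 * h ≤ k * h := Nat.mul_le_mul_right h h4
      omega

/-- The restriction of a principal series character of `GL_2` to `SL_2`. -/
theorem psR_toGL (α β : MulChar F ℂ) (s : S2) :
    psR α β (Matrix.SpecialLinearGroup.toGL s) =
      indFun ((Cfsg.upperTriangularGL 2 F).comap Matrix.SpecialLinearGroup.toGL)
        (fun b => (α * β⁻¹) (((b : S2) : M2) 0 0)) s := by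
  unfold psR
  rw [ind_GL2_psi (fun u v => α u * β v) (Matrix.SpecialLinearGroup.toGL s),
    ind_SL2_psi (fun u => (α * β⁻¹) u) s]
  have hg : ((Matrix.SpecialLinearGroup.toGL s : G2) : M2) = (s : M2) := rfl
  rw [hg]
  have hdet : (s : M2) 0 0 * (s : M2) 1 1 - (s : M2) 0 1 * (s : M2) 1 0 = 1 := by
    have h5 := s.det_coe
    rw [Matrix.det_fin_two] at h5
    exact h5
  have key : ∀ x y : F, x * y = 1 → α x * β y = (α * β⁻¹) x := by
    intro x y hxy
    rw [MulChar.mul_apply, MulChar.inv_apply', eq_inv_of_mul_eq_one_right hxy]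
  congr 1
  · by_cases h10 : (s : M2) 1 0 = 0
    · rw [if_pos h10, if_pos h10]
      exact key _ _ (by linear_combination hdet + (s : M2) 0 1 * h10)
    · rw [if_neg h10, if_neg h10]
  · apply Finset.sum_congr rfl
    intro t _
    by_cases hc : (s : M2) 1 0 * t ^ 2 + ((s : M2) 1 1 - (s : M2) 0 0) * t - (s : M2) 0 1 = 0
    · rw [if_pos hc, if_pos hc]
      exact key _ _ (by linear_combination hdet - (s : M2) 1 0 * hc)
    · rw [if_neg hc, if_neg hc]

omit [Fintype F] [DecidableEq F] [Fintype (Matrix.GeneralLinearGroup (Fin 2) F)]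
  [Fintype (Matrix.SpecialLinearGroup (Fin 2) F)] in
/-- The upper unitriangular elements of `SL_2`. -/
def uS (t : F) : S2 := ⟨!![1, t; 0, 1], by simp [Matrix.det_fin_two_of]⟩

omit [Fintype F] [DecidableEq F] [Fintype (Matrix.GeneralLinearGroup (Fin 2) F)]
  [Fintype (Matrix.SpecialLinearGroup (Fin 2) F)] in
theorem uS_val (t : F) :
    ((Matrix.SpecialLinearGroup.toGL (uS t) : G2) : M2) = !![1, t; 0, 1] := rfl

omit [Fintype F] [DecidableEq F] [Fintype (Matrix.GeneralLinearGroup (Fin 2) F)]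
  [Fintype (Matrix.SpecialLinearGroup (Fin 2) F)] in
theorem uS_toGL (t : F) :
    Matrix.SpecialLinearGroup.toGL (uS t) = ((eBG (1, 1, t) : BG) : G2) := Units.ext rfl

omit [Fintype (Matrix.GeneralLinearGroup (Fin 2) F)] in
theorem usum_eq (χ : S2 → ℂ) :
    (∑ g : S2, if (g : M2) 1 0 = 0 ∧ (g : M2) 0 0 = 1 ∧ (g : M2) 1 1 = 1 then χ g else 0) =
      ∑ t : F, χ (uS t) := by
  rw [← Finset.sum_filter]
  symm
  apply Finset.sum_bij (fun t _ => uS t)
  · intro t _
    rw [Finset.mem_filter]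
    exact ⟨Finset.mem_univ _, rfl, rfl, rfl⟩
  · intro t₁ _ t₂ _ h
    have h5 := congrArg (fun g : S2 => (g : M2) 0 1) h
    exact h5
  · intro g hg
    rw [Finset.mem_filter] at hg
    obtain ⟨-, h10, h00, h11⟩ := hg
    refine ⟨(g : M2) 0 1, Finset.mem_univ _, ?_⟩
    apply Subtype.ext
    ext i j
    fin_cases i <;> fin_cases j
    · exact h00.symm
    · rfl
    · exact h10.symm
    · exact h11.symm
  · intro t _
    rfl

omit [Fintype (Matrix.GeneralLinearGroup (Fin 2) F)]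
  [Fintype (Matrix.SpecialLinearGroup (Fin 2) F)] in
theorem usum_theta (θ : G2 → ℂ) (hcf : IsClassFunction G2 θ) :
    ∑ t : F, θ (Matrix.SpecialLinearGroup.toGL (uS t)) =
      θ 1 + ((Fintype.card F : ℂ) - 1) * θ uG := by
  have h := sum_unip (fun g => conj (θ g)) (by
    intro g h
    show conj (θ (h * g * h⁻¹)) = conj (θ g)
    rw [hcf g h])
  simp only [Complex.conj_conj] at h
  simp only [uS_toGL]
  exact h

omit [Fintype F] [DecidableEq F] [Fintype (Matrix.GeneralLinearGroup (Fin 2) F)]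
  [Fintype (Matrix.SpecialLinearGroup (Fin 2) F)] in
theorem uS_conj_diag (δ : Fˣ) (t : F) :
    (((eBG (δ, 1, 0) : BG) : G2))⁻¹ * Matrix.SpecialLinearGroup.toGL (uS (t * (δ : F))) *
      ((eBG (δ, 1, 0) : BG) : G2) = Matrix.SpecialLinearGroup.toGL (uS t) := by
  rw [mul_assoc, inv_mul_eq_iff_eq_mul]
  apply Units.ext
  rw [Units.val_mul, Units.val_mul, eBG_val, uS_val, uS_val, Matrix.mul_fin_two,
    Matrix.mul_fin_two]
  ext i j
  fin_cases i <;> fin_cases j <;> simp <;> ring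

omit [DecidableEq F] [Fintype (Matrix.GeneralLinearGroup (Fin 2) F)]
  [Fintype (Matrix.SpecialLinearGroup (Fin 2) F)] in
/-- The sum over the unipotent subgroup is the same for `GL_2`-conjugate class functions. -/
theorem usum_conj {χ ψ : S2 → ℂ} (hχ : IsClassFunction S2 χ) (y : G2)
    (hy : ∀ g h : S2,
      Matrix.SpecialLinearGroup.toGL h = y * Matrix.SpecialLinearGroup.toGL g * y⁻¹ →
        ψ g = χ h) :
    ∑ t : F, ψ (uS t) = ∑ t : F, χ (uS t) := by
  obtain ⟨δ, hδ⟩ : ∃ δ : Fˣ, δ = Matrix.GeneralLinearGroup.det y := ⟨_, rfl⟩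
  have hdet_d : Matrix.GeneralLinearGroup.det (((eBG (δ, 1, 0) : BG) : G2)) = δ := by
    apply Units.ext
    rw [Matrix.GeneralLinearGroup.val_det_apply, eBG_val, Matrix.det_fin_two_of]
    simp
  have hn : y * (((eBG (δ, 1, 0) : BG) : G2))⁻¹ ∈ Ndet F := by
    show y * (((eBG (δ, 1, 0) : BG) : G2))⁻¹ ∈ (Matrix.GeneralLinearGroup.det : G2 →* Fˣ).ker
    rw [MonoidHom.mem_ker, map_mul, map_inv, hdet_d, hδ, mul_inv_cancel]
  obtain ⟨nS, hnS⟩ : ∃ nS : S2, Matrix.SpecialLinearGroup.toGL nS =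
      y * (((eBG (δ, 1, 0) : BG) : G2))⁻¹ :=
    ⟨(eSN (F := F)).symm ⟨_, hn⟩,
      congrArg Subtype.val ((eSN (F := F)).apply_symm_apply ⟨_, hn⟩)⟩
  have key : ∀ t : F, ψ (uS t) = χ (uS (t * (δ : F))) := by
    intro t
    have h1 : Matrix.SpecialLinearGroup.toGL (nS * uS (t * (δ : F)) * nS⁻¹) =
        y * Matrix.SpecialLinearGroup.toGL (uS t) * y⁻¹ := by
      rw [map_mul, map_mul, map_inv, hnS, ← uS_conj_diag δ t]
      group
    rw [hy (uS t) _ h1, hχ]
  rw [Finset.sum_congr rfl (fun t _ => key t)]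
  have h5 := Equiv.sum_comp (Equiv.mulRight₀ (δ : F) δ.ne_zero) (fun t => χ (uS t))
  simpa using h5

end Cfsg.Agent.Lib_helper8_SL2Cliff
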