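import Mathlib
import Cfsg.Agent.Lib_helper8_IndB
import Cfsg.Agent.Lib_helper8_GL2

set_option autoImplicit false

/-! Conjugacy of the elements of `SL_2` with trace `±2` in odd characteristic. -/

namespace Cfsg.Agent.Lib_helper8_SL2Conj

open Cfsg Cfsg.Agent.Lib_helper8_IndB Cfsg.Agent.Lib_helper4_SL2Quat
open Matrix

universe u

variable {F : Type u} [Field F]

local notation "S2" => Matrix.SpecialLinearGroup (Fin 2) F
local notation "M2" => Matrix (Fin 2) (Fin 2) F
local notation "BS" => (Subgroup.comap Matrix.SpecialLinearGroup.toGL (Cfsg.upperTriangularGL 2 F))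

/-- The binary quadratic form `x ↦ det (x | g x)`. -/
def Qf (g : S2) (x y : F) : F :=
  (g : M2) 1 0 * x ^ 2 + ((g : M2) 1 1 - (g : M2) 0 0) * x * y - (g : M2) 0 1 * y ^ 2

theorem det_entries (R : S2) : (R : M2) 0 0 * (R : M2) 1 1 - (R : M2) 0 1 * (R : M2) 1 0 = 1 := by
  have h := R.det_coe
  rw [Matrix.det_fin_two] at h
  exact h

theorem Qf_conj (R g g' : S2) (h : g' * R = R * g) (x y : F) :
    Qf g' ((R : M2) 0 0 * x + (R : M2) 0 1 * y) ((R : M2) 1 0 * x + (R : M2) 1 1 * y) =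
      Qf g x y := by
  have e00 := congrArg (fun m : S2 => (m : M2) 0 0) h
  have e01 := congrArg (fun m : S2 => (m : M2) 0 1) h
  have e10 := congrArg (fun m : S2 => (m : M2) 1 0) h
  have e11 := congrArg (fun m : S2 => (m : M2) 1 1) h
  simp only [mul_entries] at e00 e01 e10 e11
  have hdet := det_entries R
  unfold Qf
  linear_combination ((R : M2) 0 0 * x + (R : M2) 0 1 * y) * (x * e10 + y * e11) -
    ((R : M2) 1 0 * x + (R : M2) 1 1 * y) * (x * e00 + y * e01) +
    ((g : M2) 1 0 * x ^ 2 + ((g : M2) 1 1 - (g : M2) 0 0) * x * y - (g : M2) 0 1 * y ^ 2) * hdet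

/-- The form `Qf g` represents a non-zero square. -/
def kap (g : S2) : Prop := ∃ x y : F, Qf g x y ≠ 0 ∧ IsSquare (Qf g x y)

theorem kap_of_conj (R g g' : S2) (h : R * g * R⁻¹ = g') (hk : kap g) : kap g' := by
  obtain ⟨x, y, h0, hs⟩ := hk
  have h' : g' * R = R * g := by rw [← h]; group
  refine ⟨(R : M2) 0 0 * x + (R : M2) 0 1 * y, (R : M2) 1 0 * x + (R : M2) 1 1 * y, ?_, ?_⟩
  · rw [Qf_conj R g g' h' x y]
    exact h0
  · rw [Qf_conj R g g' h' x y]
    exact hs

theorem kap_conj {g h : S2} (hc : IsConj g h) : kap g ↔ kap h := by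
  obtain ⟨c, hc⟩ := isConj_iff.mp hc
  exact ⟨kap_of_conj c g h hc, kap_of_conj c⁻¹ h g (by rw [← hc]; group)⟩

/-- The upper triangular element `[[e, b], [0, e⁻¹]]`. -/
def eu (e : Fˣ) (b : F) : S2 := ((eBS (e, b) : BS) : S2)

theorem eu_val (e : Fˣ) (b : F) :
    ((eu e b : S2) : M2) = !![(e : F), b; 0, ((e⁻¹ : Fˣ) : F)] := rfl

theorem eu_entries (e : Fˣ) (b : F) : ((eu e b : S2) : M2) 0 0 = e ∧ ((eu e b : S2) : M2) 0 1 = b ∧
    ((eu e b : S2) : M2) 1 0 = 0 ∧ ((eu e b : S2) : M2) 1 1 = ((e⁻¹ : Fˣ) : F) := ⟨rfl, rfl, rfl, rfl⟩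

theorem unit_sq {e : Fˣ} (he : e⁻¹ = e) : (e : F) * (e : F) = 1 := by
  have h : e * e = 1 := by
    nth_rewrite 1 [← he]
    exact inv_mul_cancel e
  have h2 := congrArg (fun u : Fˣ => (u : F)) h
  simpa using h2

theorem kap_eu (e : Fˣ) (he : e⁻¹ = e) (b : F) (hb : b ≠ 0) : kap (eu e b) ↔ IsSquare (-b) := by
  obtain ⟨e00, e01, e10, e11⟩ := eu_entries e b
  have hQ : ∀ x y : F, Qf (eu e b) x y = -b * y ^ 2 := by
    intro x y
    unfold Qf
    rw [e00, e01, e10, e11, he]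
    ring
  constructor
  · rintro ⟨x, y, h0, s, hs⟩
    rw [hQ] at h0 hs
    have hy : y ≠ 0 := by
      rintro rfl
      apply h0
      ring
    refine ⟨s / y, ?_⟩
    field_simp
    linear_combination hs
  · rintro ⟨s, hs⟩
    refine ⟨0, 1, ?_, s, ?_⟩
    · rw [hQ]
      simpa using hb
    · rw [hQ, ← hs]
      ring

theorem eu_conj_sq (d e : Fˣ) (b : F) :
    eu d 0 * eu e b * (eu d 0)⁻¹ = eu e ((d : F) ^ 2 * b) := by
  rw [mul_inv_eq_iff_eq_mul]
  obtain ⟨d00, d01, d10, d11⟩ := eu_entries d (0 : F)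
  obtain ⟨e00, e01, e10, e11⟩ := eu_entries e b
  obtain ⟨f00, f01, f10, f11⟩ := eu_entries e ((d : F) ^ 2 * b)
  have hd : (d : F) * ((d⁻¹ : Fˣ) : F) = 1 := by simp
  apply ext2
  · rw [mul_entries, mul_entries, d00, d01, d10, e00, e10, f00, f01]
    ring
  · rw [mul_entries, mul_entries, d00, d01, d11, e01, e11, f00, f01]
    linear_combination (-(d : F) * b) * hd
  · rw [mul_entries, mul_entries, d10, d11, d00, e00, e10, f10, f11]
    ring
  · rw [mul_entries, mul_entries, d10, d11, d01, e01, e11, f10, f11]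
    ring

/-- Normal form of the non-scalar elements of trace `2e`, `e = ±1`. -/
theorem unip_normal (g : S2) (hns : Cfsg.Agent.Lib_helper8_GL2.NonScalar (g : M2)) (e : Fˣ)
    (he : e⁻¹ = e) (ht : (g : M2).trace = 2 * (e : F)) :
    ∃ (R : S2) (b : F), b ≠ 0 ∧ R * g * R⁻¹ = eu e b := by
  have hee := unit_sq he
  have hdet := det_entries g
  rw [Matrix.trace_fin_two] at ht
  by_cases hc : (g : M2) 1 0 = 0
  · have h00 : (g : M2) 0 0 = e := by
      have h1 : ((g : M2) 0 0 - e) ^ 2 = 0 := by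
        linear_combination (g : M2) 0 0 * ht - hdet + hee - (g : M2) 0 1 * hc
      exact sub_eq_zero.mp (pow_eq_zero_iff (two_ne_zero) |>.mp h1)
    have h11 : (g : M2) 1 1 = e := by linear_combination ht - h00
    have h01 : (g : M2) 0 1 ≠ 0 := by
      rcases hns with h | h | h
      · exact absurd hc h
      · exact h
      · exact absurd (h00.trans h11.symm) h
    refine ⟨1, (g : M2) 0 1, h01, ?_⟩
    rw [one_mul, inv_one, mul_one]
    obtain ⟨f00, f01, f10, f11⟩ := eu_entries e ((g : M2) 0 1)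
    apply ext2
    · rw [f00, h00]
    · rw [f01]
    · rw [f10, hc]
    · rw [f11, he, h11]
  · obtain ⟨R, hR⟩ : ∃ R : S2, (R : M2) = !![0, ((g : M2) 1 0)⁻¹; -(g : M2) 1 0,
        (e : F) - (g : M2) 1 1] :=
      ⟨⟨_, by rw [Matrix.det_fin_two_of]; field_simp; ring⟩, rfl⟩
    have r00 : (R : M2) 0 0 = 0 := by rw [hR]; rfl
    have r01 : (R : M2) 0 1 = ((g : M2) 1 0)⁻¹ := by rw [hR]; rfl
    have r10 : (R : M2) 1 0 = -(g : M2) 1 0 := by rw [hR]; rfl
    have r11 : (R : M2) 1 1 = (e : F) - (g : M2) 1 1 := by rw [hR]; rfl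
    refine ⟨R, -((g : M2) 1 0)⁻¹, by simpa using hc, ?_⟩
    rw [mul_inv_eq_iff_eq_mul]
    obtain ⟨f00, f01, f10, f11⟩ := eu_entries e (-((g : M2) 1 0)⁻¹)
    have hcc : ((g : M2) 1 0)⁻¹ * (g : M2) 1 0 = 1 := inv_mul_cancel₀ hc
    apply ext2
    · rw [mul_entries, mul_entries, r00, r01, r10, f00, f01]
      ring
    · rw [mul_entries, mul_entries, r00, r01, r11, f00, f01]
      ring
    · rw [mul_entries, mul_entries, r10, r11, r00, f10, f11, he]
      linear_combination (-(g : M2) 1 0) * ht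
    · rw [mul_entries, mul_entries, r10, r11, r01, f10, f11, he]
      linear_combination hdet - hee - (g : M2) 1 1 * ht

section Fin

variable [Fintype F] [DecidableEq F]

theorem isSquare_mul_of_not {a b : F} (ha : ¬ IsSquare a) (hb : ¬ IsSquare b) :
    IsSquare (a * b) := by
  have ha0 : a ≠ 0 := fun h => ha (h ▸ IsSquare.zero)
  have hb0 : b ≠ 0 := fun h => hb (h ▸ IsSquare.zero)
  rw [← quadraticChar_one_iff_isSquare (mul_ne_zero ha0 hb0), map_mul,
    quadraticChar_neg_one_iff_not_isSquare.mpr ha, quadraticChar_neg_one_iff_not_isSquare.mpr hb]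
  norm_num

theorem unip_conj_iff (h2 : (2 : F) ≠ 0) (e : Fˣ) (he : e⁻¹ = e) (b b' : F) (hb : b ≠ 0)
    (hb' : b' ≠ 0) : IsConj (eu e b) (eu e b') ↔ IsSquare (b * b') := by
  constructor
  · intro hc
    have h1 := kap_conj hc
    rw [kap_eu e he b hb, kap_eu e he b' hb'] at h1
    by_cases hs : IsSquare (-b)
    · have h3 := hs.mul (h1.mp hs)
      rw [neg_mul_neg] at h3
      exact h3
    · have h3 := isSquare_mul_of_not hs (fun h => hs (h1.mpr h))
      rw [neg_mul_neg] at h3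
      exact h3
  · rintro ⟨s, hs⟩
    have hs0 : s ≠ 0 := by
      rintro rfl
      rw [mul_zero] at hs
      exact mul_ne_zero hb hb' hs
    rw [isConj_iff]
    refine ⟨eu (Units.mk0 (s / b) (div_ne_zero hs0 hb)) 0, ?_⟩
    rw [eu_conj_sq]
    congr 1
    rw [Units.val_mk0]
    field_simp
    linear_combination -hs

end Fin

end Cfsg.Agent.Lib_helper8_SL2Conj

namespace Cfsg.Agent.Lib_helper8_SL2Conj

open Cfsg Cfsg.Agent.Lib_helper8_IndB Cfsg.Agent.Lib_helper4_SL2Quat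
open Matrix

universe u

variable {F : Type u} [Field F] [Fintype F] [DecidableEq F]

local notation "S2" => Matrix.SpecialLinearGroup (Fin 2) F
local notation "M2" => Matrix (Fin 2) (Fin 2) F

theorem eu_kap_of_sq (e : Fˣ) (he : e⁻¹ = e) (b b' : F) (hb : b ≠ 0) (hb' : b' ≠ 0)
    (h : kap (eu e b) ↔ kap (eu e b')) : IsSquare (b * b') := by
  rw [kap_eu e he b hb, kap_eu e he b' hb'] at h
  by_cases hs : IsSquare (-b)
  · have h3 := hs.mul (h.mp hs)
    rw [neg_mul_neg] at h3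
    exact h3
  · have h3 := isSquare_mul_of_not hs (fun h' => hs (h.mpr h'))
    rw [neg_mul_neg] at h3
    exact h3

omit [Fintype F] [DecidableEq F] in
theorem eu_conj_of_sq (e : Fˣ) (b b' : F) (hb : b ≠ 0) (hb' : b' ≠ 0)
    (h : IsSquare (b * b')) : IsConj (eu e b) (eu e b') := by
  obtain ⟨s, hs⟩ := h
  have hs0 : s ≠ 0 := by
    rintro rfl
    rw [mul_zero] at hs
    exact mul_ne_zero hb hb' hs
  rw [isConj_iff]
  refine ⟨eu (Units.mk0 (s / b) (div_ne_zero hs0 hb)) 0, ?_⟩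
  rw [eu_conj_sq]
  congr 1
  rw [Units.val_mk0]
  field_simp
  linear_combination -hs

end Cfsg.Agent.Lib_helper8_SL2Conj
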