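import Mathlib
import Cfsg.Agent.Lib_helper8_SL2Cliff
import Cfsg.Agent.Lib_helper3_Faithful

set_option autoImplicit false

/-! The norm of the restriction to `SL_2` of an irreducible character of `GL_2`, and the
resulting refinement of Clifford's theorem. -/

namespace Cfsg.Agent.Lib_helper8_SL2Norm

open Cfsg Cfsg.Agent.Lib_helper3_CharBasic Cfsg.Agent.Lib_helper3_CharInd
open Cfsg.Agent.Lib_helper3_CharMore
open Cfsg.Agent.Lib_helper8_IndB Cfsg.Agent.Lib_helper8_IndBGL Cfsg.Agent.Lib_helper8_GL2Irr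
open Cfsg.Agent.Lib_helper8_SL2Res Cfsg.Agent.Lib_helper8_SL2Cliff
open scoped ComplexConjugate
open Matrix

universe u

/-- A central element acts on an irreducible character through a scalar of norm one. -/
theorem central_char {G : Type u} [Group G] [Finite G] {χ : G → ℂ} (hχ : IsIrrCharacter G χ)
    {z : G} (hz : z ∈ Subgroup.center G) :
    ∃ ω : ℂ, ‖ω‖ = 1 ∧ ∀ g : G, χ (z * g) = ω * χ g := by
  obtain ⟨n, ρ, hirr, rfl⟩ := hχ
  haveI := hirr
  have h1 := Cfsg.Agent.Lib_helper3_Faithful.rep_center_eq ρ hz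
  obtain ⟨ω, hω⟩ : ∃ ω : ℂ, ω = LinearMap.trace ℂ (Fin n → ℂ) (ρ z) /
      (Module.finrank ℂ (Fin n → ℂ) : ℂ) := ⟨_, rfl⟩
  rw [← hω] at h1
  have hnt : Nontrivial (Fin n → ℂ) :=
    Cfsg.Agent.Lib_helper3_CharIntegral.nontrivial_of_irreducible ρ
  refine ⟨ω, ?_, ?_⟩
  · have hpow : ω ^ orderOf z = 1 := by
      have h2 : (ρ z) ^ orderOf z = 1 := by rw [← map_pow, pow_orderOf_eq_one, map_one]
      rw [h1, smul_pow, one_pow] at h2
      obtain ⟨v, hv⟩ := exists_ne (0 : Fin n → ℂ)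
      have h4 := congrArg (fun f : (Fin n → ℂ) →ₗ[ℂ] (Fin n → ℂ) => f v) h2
      have h4' : ω ^ orderOf z • v = v := by simpa using h4
      have h5 : (ω ^ orderOf z - 1) • v = 0 := by rw [sub_smul, one_smul, h4', sub_self]
      rcases smul_eq_zero.mp h5 with h | h
      · exact sub_eq_zero.mp h
      · exact absurd h hv
    exact Complex.norm_eq_one_of_pow_eq_one hpow (orderOf_pos z).ne'
  · intro g
    show LinearMap.trace ℂ _ (ρ (z * g)) = ω * LinearMap.trace ℂ _ (ρ g)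
    rw [map_mul, h1, smul_mul_assoc, one_mul, map_smul, smul_eq_mul]

theorem sum_comp_le {α β : Type*} [Fintype α] [Fintype β] [DecidableEq β] (φ : α → β)
    (f : β → ℝ) (hf : ∀ b, 0 ≤ f b) (m : ℕ)
    (hm : ∀ b, (Finset.univ.filter (fun a => φ a = b)).card ≤ m) :
    ∑ a, f (φ a) ≤ m * ∑ b, f b := by
  rw [← Finset.sum_fiberwise (Finset.univ : Finset α) φ (fun a => f (φ a)), Finset.mul_sum]
  apply Finset.sum_le_sum
  intro b _
  have h1 : ∑ a ∈ Finset.univ.filter (fun a => φ a = b), f (φ a) =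
      ((Finset.univ.filter (fun a => φ a = b)).card : ℝ) * f b := by
    rw [Finset.sum_congr rfl (fun a ha => by rw [(Finset.mem_filter.mp ha).2] : ∀ a ∈
      Finset.univ.filter (fun a => φ a = b), f (φ a) = f b), Finset.sum_const, nsmul_eq_mul]
  rw [h1]
  exact mul_le_mul_of_nonneg_right (by exact_mod_cast hm b) (hf b)

variable {F : Type u} [Field F]

local notation "G2" => Matrix.GeneralLinearGroup (Fin 2) F
local notation "S2" => Matrix.SpecialLinearGroup (Fin 2) F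
local notation "M2" => Matrix (Fin 2) (Fin 2) F
local notation "BG" => (Cfsg.upperTriangularGL 2 F)

theorem sq_card_le_two [Fintype F] [DecidableEq F] (d : Fˣ) :
    (Finset.univ.filter (fun a : Fˣ => a ^ 2 = d)).card ≤ 2 := by
  by_cases h : ∃ a₀ : Fˣ, a₀ ^ 2 = d
  · obtain ⟨a₀, rfl⟩ := h
    have hsub : Finset.univ.filter (fun a : Fˣ => a ^ 2 = a₀ ^ 2) ⊆ {a₀, -a₀} := by
      intro a ha
      rw [Finset.mem_filter] at ha
      have h1 : ((a : F) - a₀) * ((a : F) + a₀) = 0 := by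
        have h2 := congrArg (fun u : Fˣ => (u : F)) ha.2
        simp only [Units.val_pow_eq_pow_val] at h2
        linear_combination h2
      rw [Finset.mem_insert, Finset.mem_singleton]
      rcases mul_eq_zero.mp h1 with h3 | h3
      · left
        exact Units.ext (sub_eq_zero.mp h3)
      · right
        apply Units.ext
        rw [Units.val_neg]
        linear_combination h3
    exact (Finset.card_le_card hsub).trans Finset.card_le_two
  · have : Finset.univ.filter (fun a : Fˣ => a ^ 2 = d) = ∅ := by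
      rw [Finset.filter_eq_empty_iff]
      intro a _ ha
      exact h ⟨a, ha⟩
    rw [this]
    simp

theorem sq_card_le_one [Fintype F] [DecidableEq F] (h2 : (2 : F) = 0) (d : Fˣ) :
    (Finset.univ.filter (fun a : Fˣ => a ^ 2 = d)).card ≤ 1 := by
  rw [Finset.card_le_one]
  intro a ha b hb
  rw [Finset.mem_filter] at ha hb
  have h3 := congrArg (fun u : Fˣ => (u : F)) (ha.2.trans hb.2.symm)
  simp only [Units.val_pow_eq_pow_val] at h3
  have h1 : ((a : F) - b) ^ 2 = 0 := by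
    linear_combination h3 - (a : F) * b * h2 + (b : F) ^ 2 * h2
  exact Units.ext (sub_eq_zero.mp (pow_eq_zero_iff (two_ne_zero) |>.mp h1))

/-- The scalar matrices of `GL_2`. -/
noncomputable def zG (a : Fˣ) : G2 := ((eBG (a, a, 0) : BG) : G2)

theorem zG_val (a : Fˣ) : ((zG a : G2) : M2) = !![(a : F), 0; 0, (a : F)] := rfl

theorem zG_center (a : Fˣ) : zG a ∈ Subgroup.center G2 := by
  rw [Subgroup.mem_center_iff]
  intro g
  apply Units.ext
  rw [Units.val_mul, Units.val_mul, zG_val]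
  ext i j
  fin_cases i <;> fin_cases j <;> simp [Matrix.mul_apply, Fin.sum_univ_two] <;> ring

theorem zG_det (a : Fˣ) : Matrix.GeneralLinearGroup.det (zG a) = a ^ 2 := by
  apply Units.ext
  rw [Matrix.GeneralLinearGroup.val_det_apply, zG_val, Matrix.det_fin_two_of]
  simp
  ring

theorem toGL_det (s : S2) : Matrix.GeneralLinearGroup.det (Matrix.SpecialLinearGroup.toGL s) = 1 := by
  apply Units.ext
  rw [Matrix.GeneralLinearGroup.val_det_apply]
  exact s.det_coe

theorem toGL_inj : Function.Injective (Matrix.SpecialLinearGroup.toGL : S2 →* G2) := by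
  intro s t h
  apply Subtype.ext
  exact congrArg (fun g : G2 => (g : M2)) h

variable [Fintype F] [DecidableEq F] [Fintype (Matrix.GeneralLinearGroup (Fin 2) F)]
  [Fintype (Matrix.SpecialLinearGroup (Fin 2) F)]

omit [DecidableEq F] [Fintype (Matrix.GeneralLinearGroup (Fin 2) F)] in
theorem card_S : (Nat.card S2 : ℂ) =
    (Fintype.card F : ℂ) * ((Fintype.card F : ℂ) - 1) * ((Fintype.card F : ℂ) + 1) := by
  classical
  have h := Nat.card_congr (Equiv.ofBijective _ (rS_bij (F := F)))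
  rw [Nat.card_prod] at h
  rw [← h]
  push_cast
  rw [card_BS, Nat.card_eq_fintype_card, Fintype.card_option]
  push_cast
  ring

omit [DecidableEq F] in
theorem card_G_S : (Nat.card G2 : ℝ) = ((Fintype.card F : ℝ) - 1) * (Nat.card S2 : ℝ) := by
  classical
  have h1 := card_G (F := F)
  have h2 := card_S (F := F)
  have h3 : ((Nat.card G2 : ℝ) : ℂ) = ((((Fintype.card F : ℝ) - 1) * (Nat.card S2 : ℝ) : ℝ) : ℂ) := by
    push_cast
    rw [h1, h2]
    ring
  exact_mod_cast h3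

theorem fiber_le (m : ℕ) (hm : ∀ d : Fˣ, (Finset.univ.filter (fun a : Fˣ => a ^ 2 = d)).card ≤ m)
    (b : G2) :
    (Finset.univ.filter (fun p : Fˣ × S2 =>
      zG p.1 * Matrix.SpecialLinearGroup.toGL p.2 = b)).card ≤ m := by
  refine le_trans (Finset.card_le_card_of_injOn (fun p : Fˣ × S2 => p.1)
    (t := Finset.univ.filter (fun a : Fˣ => a ^ 2 = Matrix.GeneralLinearGroup.det b)) ?_ ?_)
    (hm _)
  · intro p hp
    have hp' := (Finset.mem_filter.mp (Finset.mem_coe.mp hp)).2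
    apply Finset.mem_coe.mpr
    rw [Finset.mem_filter]
    refine ⟨Finset.mem_univ _, ?_⟩
    rw [← hp', map_mul, zG_det, toGL_det, mul_one]
  · intro p hp p' hp' hpp
    have h1 := (Finset.mem_filter.mp (Finset.mem_coe.mp hp)).2
    have h2 := (Finset.mem_filter.mp (Finset.mem_coe.mp hp')).2
    have hpp' : p.1 = p'.1 := hpp
    rw [← h2, hpp'] at h1
    have h3 := toGL_inj (mul_left_cancel h1)
    exact Prod.ext hpp' h3

/-- The squared norm of the restriction of an irreducible character of `GL_2` to `SL_2`. -/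
theorem norm_res_le {θ : G2 → ℂ} (hθ : IsIrrCharacter G2 θ) (m : ℕ)
    (hm : ∀ d : Fˣ, (Finset.univ.filter (fun a : Fˣ => a ^ 2 = d)).card ≤ m) :
    ∑ s : S2, ‖θ (Matrix.SpecialLinearGroup.toGL s)‖ ^ 2 ≤ m * (Nat.card S2 : ℝ) := by
  classical
  have h1 := sum_comp_le (fun p : Fˣ × S2 => zG p.1 * Matrix.SpecialLinearGroup.toGL p.2)
    (fun g => ‖θ g‖ ^ 2) (fun g => sq_nonneg _) m (fiber_le m hm)
  have h2 : ∀ p : Fˣ × S2, ‖θ (zG p.1 * Matrix.SpecialLinearGroup.toGL p.2)‖ ^ 2 =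
      ‖θ (Matrix.SpecialLinearGroup.toGL p.2)‖ ^ 2 := by
    intro p
    obtain ⟨ω, hω, hω2⟩ := central_char hθ (zG_center p.1)
    rw [hω2, norm_mul, hω, one_mul]
  rw [Finset.sum_congr rfl (fun p _ => h2 p), Fintype.sum_prod_type] at h1
  simp only [Finset.sum_const, Finset.card_univ, nsmul_eq_mul, Fintype.card_units] at h1
  have h3 : ∑ g : G2, ‖θ g‖ ^ 2 = (Nat.card G2 : ℝ) := by
    have h4 := irr_inner_self hθ
    rw [classInner_def] at h4
    have h5 : ∑ g : G2, θ g * conj (θ g) = (Nat.card G2 : ℂ) := by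
      have hne : (Nat.card G2 : ℂ) ≠ 0 := card_ne_zero
      field_simp at h4
      exact h4
    have h6 : ((∑ g : G2, ‖θ g‖ ^ 2 : ℝ) : ℂ) = ((Nat.card G2 : ℝ) : ℂ) := by
      push_cast
      rw [← h5]
      apply Finset.sum_congr rfl
      intro g _
      rw [Complex.mul_conj']
    exact_mod_cast h6
  rw [h3, card_G_S] at h1
  have hq : (1 : ℝ) < (Fintype.card F : ℝ) := by exact_mod_cast Fintype.one_lt_card
  have hpos : (0 : ℝ) < (Fintype.card F : ℝ) - 1 := by linarith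
  have hcast : (((Fintype.card F - 1 : ℕ)) : ℝ) = (Fintype.card F : ℝ) - 1 := by
    rw [Nat.cast_sub Fintype.card_pos]
    simp
  rw [hcast] at h1
  have h7 : ((Fintype.card F : ℝ) - 1) * ∑ s : S2, ‖θ (Matrix.SpecialLinearGroup.toGL s)‖ ^ 2 ≤
      ((Fintype.card F : ℝ) - 1) * (m * (Nat.card S2 : ℝ)) := by
    calc ((Fintype.card F : ℝ) - 1) * ∑ s : S2, ‖θ (Matrix.SpecialLinearGroup.toGL s)‖ ^ 2
        ≤ m * (((Fintype.card F : ℝ) - 1) * (Nat.card S2 : ℝ)) := h1
      _ = ((Fintype.card F : ℝ) - 1) * (m * (Nat.card S2 : ℝ)) := by ring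
  exact le_of_mul_le_mul_left h7 hpos

/-- Clifford data with the bound `c ^ 2 * |T| ≤ m`. -/
theorem cliff_bound {θ : G2 → ℂ} (hθ : IsIrrCharacter G2 θ) (m c k : ℕ)
    (hm : ∀ d : Fˣ, (Finset.univ.filter (fun a : Fˣ => a ^ 2 = d)).card ≤ m)
    (hn : classInner (fun s : S2 => θ (Matrix.SpecialLinearGroup.toGL s))
      (fun s : S2 => θ (Matrix.SpecialLinearGroup.toGL s)) = ((c ^ 2 * k : ℕ) : ℂ)) :
    c ^ 2 * k ≤ m := by
  have h1 := norm_res_le hθ m hm
  rw [classInner_def] at hn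
  have hne : (Nat.card S2 : ℂ) ≠ 0 := card_ne_zero
  have h2 : ∑ s : S2, θ (Matrix.SpecialLinearGroup.toGL s) *
      conj (θ (Matrix.SpecialLinearGroup.toGL s)) = ((c ^ 2 * k : ℕ) : ℂ) * (Nat.card S2 : ℂ) := by
    field_simp at hn
    rw [hn]
    ring
  have h3 : ((∑ s : S2, ‖θ (Matrix.SpecialLinearGroup.toGL s)‖ ^ 2 : ℝ) : ℂ) =
      ((((c ^ 2 * k : ℕ) : ℝ) * (Nat.card S2 : ℝ) : ℝ) : ℂ) := by
    push_cast
    push_cast at h2
    rw [← h2]
    apply Finset.sum_congr rfl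
    intro g _
    rw [Complex.mul_conj']
  have h4 : ∑ s : S2, ‖θ (Matrix.SpecialLinearGroup.toGL s)‖ ^ 2 =
      ((c ^ 2 * k : ℕ) : ℝ) * (Nat.card S2 : ℝ) := by exact_mod_cast h3
  rw [h4] at h1
  have hpos : (0 : ℝ) < (Nat.card S2 : ℝ) := by exact_mod_cast Nat.card_pos
  have h5 := le_of_mul_le_mul_right h1 hpos
  exact_mod_cast h5

omit [DecidableEq F] in
/-- Refined Clifford theorem for `SL_2 ≤ GL_2`. -/
theorem sl_cliff_odd {θ : G2 → ℂ} (hθ : IsIrrCharacter G2 θ) {χ : S2 → ℂ}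
    (hχ : IsIrrCharacter S2 χ)
    (h : classInner (fun s : S2 => θ (Matrix.SpecialLinearGroup.toGL s)) χ ≠ 0) :
    (∀ s : S2, θ (Matrix.SpecialLinearGroup.toGL s) = χ s) ∨
    ∃ (χ' : S2 → ℂ) (y : G2), IsIrrCharacter S2 χ' ∧ χ' ≠ χ ∧
      (∀ g h : S2, Matrix.SpecialLinearGroup.toGL h = y * Matrix.SpecialLinearGroup.toGL g * y⁻¹ →
        χ' g = χ h) ∧
      ∀ s : S2, θ (Matrix.SpecialLinearGroup.toGL s) = χ s + χ' s := by
  classical
  obtain ⟨c, T, hc0, hmem, hT, hval, hn⟩ := sl_clifford_of hθ hχ h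
  have hb := cliff_bound hθ 2 c T.card sq_card_le_two hn
  have hT0 : T.card ≠ 0 := Finset.card_ne_zero_of_mem hmem
  have hc1 : c = 1 := by
    rcases Nat.lt_or_ge c 2 with h | h
    · omega
    · have h4 : 4 ≤ c ^ 2 := by nlinarith
      nlinarith [Nat.pos_of_ne_zero hT0]
  subst hc1
  have hT2 : T.card = 1 ∨ T.card = 2 := by
    rw [one_pow, one_mul] at hb
    omega
  rcases hT2 with hT1 | hT2
  · left
    obtain ⟨a, rfl⟩ := Finset.card_eq_one.mp hT1
    rw [Finset.mem_singleton] at hmem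
    subst hmem
    intro s
    rw [hval s]
    simp
  · right
    obtain ⟨a, b, hab, rfl⟩ := Finset.card_eq_two.mp hT2
    have hex : ∃ χ₂ : S2 → ℂ, χ₂ ≠ χ ∧ χ₂ ∈ ({a, b} : Finset (S2 → ℂ)) ∧
        ∀ s, ∑ ψ ∈ ({a, b} : Finset (S2 → ℂ)), ψ s = χ s + χ₂ s := by
      rw [Finset.mem_insert, Finset.mem_singleton] at hmem
      rcases hmem with rfl | rfl
      · exact ⟨b, hab.symm, by simp, fun s => by rw [Finset.sum_pair hab]⟩
      · exact ⟨a, hab, by simp, fun s => by rw [Finset.sum_pair hab, add_comm]⟩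
    obtain ⟨χ₂, hne12, hχ₂mem, hsum⟩ := hex
    obtain ⟨hχ₂, y, hy⟩ := hT χ₂ hχ₂mem
    refine ⟨χ₂, y, hχ₂, hne12, hy, ?_⟩
    intro s
    rw [hval s, hsum s]
    simp

omit [DecidableEq F] in
/-- In characteristic two, restriction from `GL_2` to `SL_2` preserves irreducibility. -/
theorem sl_cliff_even (h2 : (2 : F) = 0) {θ : G2 → ℂ} (hθ : IsIrrCharacter G2 θ) {χ : S2 → ℂ}
    (hχ : IsIrrCharacter S2 χ)
    (h : classInner (fun s : S2 => θ (Matrix.SpecialLinearGroup.toGL s)) χ ≠ 0) :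
    ∀ s : S2, θ (Matrix.SpecialLinearGroup.toGL s) = χ s := by
  classical
  obtain ⟨c, T, hc0, hmem, hT, hval, hn⟩ := sl_clifford_of hθ hχ h
  have hb := cliff_bound hθ 1 c T.card (sq_card_le_one h2) hn
  have hT0 : T.card ≠ 0 := Finset.card_ne_zero_of_mem hmem
  have hc1 : c = 1 := by
    rcases Nat.lt_or_ge c 2 with h | h
    · omega
    · have h4 : 4 ≤ c ^ 2 := by nlinarith
      nlinarith [Nat.pos_of_ne_zero hT0]
  subst hc1
  have hT1 : T.card = 1 := by
    rw [one_pow, one_mul] at hb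
    omega
  obtain ⟨a, rfl⟩ := Finset.card_eq_one.mp hT1
  rw [Finset.mem_singleton] at hmem
  subst hmem
  intro s
  rw [hval s]
  simp

omit [DecidableEq F] in
/-- In characteristic two, every irreducible character of `GL_2` restricts irreducibly. -/
theorem res_irr_even (h2 : (2 : F) = 0) {θ : G2 → ℂ} (hθ : IsIrrCharacter G2 θ) :
    IsIrrCharacter S2 (fun s : S2 => θ (Matrix.SpecialLinearGroup.toGL s)) := by
  classical
  have hchar : IsCharacter S2 (fun s : S2 => θ (Matrix.SpecialLinearGroup.toGL s)) :=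
    isCharacter_comp (Matrix.SpecialLinearGroup.toGL : S2 →* G2) (isCharacter_of_irr hθ)
  have hne : (fun s : S2 => θ (Matrix.SpecialLinearGroup.toGL s)) ≠ 0 := by
    intro h
    have h1 := congrFun h 1
    simp only [map_one, Pi.zero_apply] at h1
    exact irr_apply_one_ne_zero hθ h1
  obtain ⟨χ, hχ, hχne⟩ := classInner_irr_of_ne_zero hchar hne
  have h5 := sl_cliff_even h2 hθ hχ hχne
  have h6 : (fun s : S2 => θ (Matrix.SpecialLinearGroup.toGL s)) = χ := funext h5
  rw [h6]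
  exact hχ

end Cfsg.Agent.Lib_helper8_SL2Norm
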