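import Mathlib
import Cfsg.Agent.Lib_helper8_SL2Norm

set_option autoImplicit false

/-! Restrictions to `SL_2` of the irreducible characters of `GL_2`, by type. -/

namespace Cfsg.Agent.Lib_helper8_SL2Types

open Cfsg Cfsg.Agent.Lib_helper3_CharBasic Cfsg.Agent.Lib_helper3_CharInd
open Cfsg.Agent.Lib_helper3_CharMore
open Cfsg.Agent.Lib_helper8_IndB Cfsg.Agent.Lib_helper8_IndBGL Cfsg.Agent.Lib_helper8_GL2Irr
open Cfsg.Agent.Lib_helper8_SL2Res Cfsg.Agent.Lib_helper8_SL2Cliff
open Cfsg.Agent.Lib_helper8_SL2Norm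
open scoped ComplexConjugate
open Matrix

universe u

theorem two_to_one {A B : Type*} [DecidableEq A] [DecidableEq B] (D : Finset A) (φ : A → B)
    (ι : A → A) (hι : ∀ a ∈ D, ι a ≠ a)
    (hφ : ∀ a ∈ D, ∀ a', (a' ∈ D ∧ φ a' = φ a) ↔ (a' = a ∨ a' = ι a)) :
    D.card = 2 * (D.image φ).card := by
  rw [Finset.card_eq_sum_card_fiberwise (f := φ) (t := D.image φ)
    (fun a ha => Finset.mem_image_of_mem φ ha)]
  rw [Finset.sum_congr rfl (g := fun _ => 2), Finset.sum_const, smul_eq_mul, mul_comm]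
  intro b hb
  obtain ⟨a, ha, rfl⟩ := Finset.mem_image.mp hb
  have h1 : D.filter (fun a' => φ a' = φ a) = {a, ι a} := by
    ext a'
    rw [Finset.mem_filter, Finset.mem_insert, Finset.mem_singleton]
    exact hφ a ha a'
  rw [h1, Finset.card_pair (hι a ha).symm]

variable {F : Type u} [Field F]

local notation "G2" => Matrix.GeneralLinearGroup (Fin 2) F
local notation "S2" => Matrix.SpecialLinearGroup (Fin 2) F
local notation "M2" => Matrix (Fin 2) (Fin 2) F
local notation "BG" => (Cfsg.upperTriangularGL 2 F)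

theorem linL_res (α : MulChar F ℂ) (s : S2) : linL α (Matrix.SpecialLinearGroup.toGL s) = 1 := by
  show α ((s : M2).det) = 1
  rw [s.det_coe, map_one]

variable [Fintype F] [DecidableEq F] [Fintype (Matrix.GeneralLinearGroup (Fin 2) F)]
  [Fintype (Matrix.SpecialLinearGroup (Fin 2) F)]

theorem psR_res (α β : MulChar F ℂ) (s : S2) :
    psR α β (Matrix.SpecialLinearGroup.toGL s) =
      psR (α * β⁻¹) 1 (Matrix.SpecialLinearGroup.toGL s) := by
  rw [psR_toGL α β s, psR_toGL (α * β⁻¹) 1 s, inv_one, mul_one]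

theorem stC_res (α : MulChar F ℂ) (s : S2) :
    stC α (Matrix.SpecialLinearGroup.toGL s) = stC 1 (Matrix.SpecialLinearGroup.toGL s) := by
  show psR α α (Matrix.SpecialLinearGroup.toGL s) - linL α (Matrix.SpecialLinearGroup.toGL s) =
    psR 1 1 (Matrix.SpecialLinearGroup.toGL s) - linL 1 (Matrix.SpecialLinearGroup.toGL s)
  rw [linL_res, linL_res, psR_res α α s, psR_res 1 1 s, mul_inv_cancel, mul_inv_cancel]

theorem res_inner (γ γ' : MulChar F ℂ) :
    classInner (fun s : S2 => psR γ 1 (Matrix.SpecialLinearGroup.toGL s))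
      (fun s : S2 => psR γ' 1 (Matrix.SpecialLinearGroup.toGL s)) =
      (if γ = γ' then 1 else 0) + (if γ = γ'⁻¹ then 1 else 0) := by
  classical
  have h1 : ∀ δ : MulChar F ℂ, (fun s : S2 => psR δ 1 (Matrix.SpecialLinearGroup.toGL s)) =
      indFun ((Cfsg.upperTriangularGL 2 F).comap Matrix.SpecialLinearGroup.toGL)
        (fun b => δ (((b : S2) : M2) 0 0)) := by
    intro δ
    funext s
    rw [psR_toGL δ 1 s, inv_one, mul_one]
  rw [h1 γ, h1 γ']
  convert inner_RS γ γ'

/-- Two irreducible restrictions of principal series coincide exactly for inverse parameters. -/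
theorem res_eq_iff {γ γ' : MulChar F ℂ}
    (hγ : IsIrrCharacter S2 (fun s : S2 => psR γ 1 (Matrix.SpecialLinearGroup.toGL s)))
    (hγ' : IsIrrCharacter S2 (fun s : S2 => psR γ' 1 (Matrix.SpecialLinearGroup.toGL s))) :
    ((fun s : S2 => psR γ' 1 (Matrix.SpecialLinearGroup.toGL s)) =
      (fun s : S2 => psR γ 1 (Matrix.SpecialLinearGroup.toGL s))) ↔ (γ' = γ ∨ γ' = γ⁻¹) := by
  classical
  have h1 := res_inner γ' γ
  rw [irr_orthonormal hγ' hγ] at h1
  constructor
  · intro h
    rw [if_pos h] at h1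
    by_contra hcon
    push Not at hcon
    rw [if_neg hcon.1, if_neg hcon.2] at h1
    norm_num at h1
  · intro h
    by_contra hcon
    rw [if_neg hcon] at h1
    rcases h with h | h
    · rw [if_pos h] at h1
      split_ifs at h1 <;> norm_num at h1
    · rw [if_pos h] at h1
      split_ifs at h1 <;> norm_num at h1

end Cfsg.Agent.Lib_helper8_SL2Types
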