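import Mathlib
import Cfsg.Agent.Lib_helper8_SL2Types

set_option autoImplicit false

/-! The irreducible characters of `SL_2` over a finite field of odd order, by type. -/

namespace Cfsg.Agent.Lib_helper8_SL2Odd

open Cfsg Cfsg.Agent.Lib_helper3_CharBasic Cfsg.Agent.Lib_helper3_CharInd
open Cfsg.Agent.Lib_helper3_CharMore
open Cfsg.Agent.Lib_helper8_IndB Cfsg.Agent.Lib_helper8_IndBGL Cfsg.Agent.Lib_helper8_GL2Irr
open Cfsg.Agent.Lib_helper8_SL2Res Cfsg.Agent.Lib_helper8_SL2Cliff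
open Cfsg.Agent.Lib_helper8_SL2Norm Cfsg.Agent.Lib_helper8_SL2Types
open scoped ComplexConjugate
open Matrix

universe u

variable {F : Type u} [Field F]

local notation "G2" => Matrix.GeneralLinearGroup (Fin 2) F
local notation "S2" => Matrix.SpecialLinearGroup (Fin 2) F
local notation "M2" => Matrix (Fin 2) (Fin 2) F
local notation "BG" => (Cfsg.upperTriangularGL 2 F)

variable [Fintype F] [DecidableEq F] [Fintype (Matrix.GeneralLinearGroup (Fin 2) F)]
  [Fintype (Matrix.SpecialLinearGroup (Fin 2) F)]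

/-- `θ` is a cuspidal irreducible character of `GL_2`. -/
def IsCusp (θ : G2 → ℂ) : Prop :=
  IsIrrCharacter G2 θ ∧ (∀ α β : MulChar F ℂ, classInner (psR α β) θ = 0) ∧
    θ 1 = (Fintype.card F : ℂ) - 1 ∧ θ uG = -1

/-- `χ'` is the conjugate of `χ` under `y`. -/
def ConjRel (χ χ' : S2 → ℂ) (y : G2) : Prop :=
  ∀ g h : S2, Matrix.SpecialLinearGroup.toGL h = y * Matrix.SpecialLinearGroup.toGL g * y⁻¹ →
    χ' g = χ h

omit [DecidableEq F] in
theorem res_cases {θ : G2 → ℂ} (hθ : IsIrrCharacter G2 θ) :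
    IsIrrCharacter S2 (fun s : S2 => θ (Matrix.SpecialLinearGroup.toGL s)) ∨
    ∃ (χ χ' : S2 → ℂ) (y : G2), IsIrrCharacter S2 χ ∧ IsIrrCharacter S2 χ' ∧ χ' ≠ χ ∧
      ConjRel χ χ' y ∧ ∀ s : S2, θ (Matrix.SpecialLinearGroup.toGL s) = χ s + χ' s := by
  classical
  have hchar : IsCharacter S2 (fun s : S2 => θ (Matrix.SpecialLinearGroup.toGL s)) :=
    isCharacter_comp (Matrix.SpecialLinearGroup.toGL : S2 →* G2) (isCharacter_of_irr hθ)
  have hne : (fun s : S2 => θ (Matrix.SpecialLinearGroup.toGL s)) ≠ 0 := by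
    intro h
    have h1 := congrFun h 1
    simp only [map_one, Pi.zero_apply] at h1
    exact irr_apply_one_ne_zero hθ h1
  obtain ⟨χ, hχ, hχne⟩ := classInner_irr_of_ne_zero hchar hne
  rcases sl_cliff_odd hθ hχ hχne with h5 | ⟨χ', y, hχ', hne', hy, hsum⟩
  · left
    have h6 : (fun s : S2 => θ (Matrix.SpecialLinearGroup.toGL s)) = χ := funext h5
    rw [h6]
    exact hχ
  · right
    exact ⟨χ, χ', y, hχ, hχ', hne', hy, hsum⟩

omit [Fintype F] [DecidableEq F] [Fintype (Matrix.GeneralLinearGroup (Fin 2) F)]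
  [Fintype (Matrix.SpecialLinearGroup (Fin 2) F)] in
theorem conjRel_one {χ χ' : S2 → ℂ} {y : G2} (h : ConjRel χ χ' y) : χ' 1 = χ 1 :=
  h 1 1 (by simp)

omit [Fintype F] [DecidableEq F] [Fintype (Matrix.GeneralLinearGroup (Fin 2) F)] in
theorem inner_sum_self {χ χ' : S2 → ℂ} (hχ : IsIrrCharacter S2 χ) (hχ' : IsIrrCharacter S2 χ')
    (hne : χ' ≠ χ) : classInner (χ + χ') (χ + χ') = 2 := by
  rw [classInner_add_left, classInner_add_right, classInner_add_right, irr_inner_self hχ,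
    irr_inner_self hχ', irr_inner_ne hχ hχ' (Ne.symm hne), irr_inner_ne hχ' hχ hne]
  norm_num

theorem res_irr_of_sq_ne {γ : MulChar F ℂ} (h : γ ^ 2 ≠ 1) :
    IsIrrCharacter S2 (fun s : S2 => psR γ 1 (Matrix.SpecialLinearGroup.toGL s)) := by
  classical
  apply isIrrCharacter_of_inner_self_eq_one
    (isCharacter_comp (Matrix.SpecialLinearGroup.toGL : S2 →* G2) (psR_char γ 1))
  show classInner (fun s : S2 => psR γ 1 (Matrix.SpecialLinearGroup.toGL s))
    (fun s : S2 => psR γ 1 (Matrix.SpecialLinearGroup.toGL s)) = 1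
  rw [res_inner γ γ, if_pos rfl, if_neg, add_zero]
  intro h1
  apply h
  rw [sq]
  nth_rewrite 1 [h1]
  exact inv_mul_cancel γ

omit [Fintype F] [DecidableEq F] [Fintype (Matrix.GeneralLinearGroup (Fin 2) F)]
  [Fintype (Matrix.SpecialLinearGroup (Fin 2) F)] in
theorem nat_half {n q : ℕ} {c : ℂ} (hc : c = (n : ℂ)) (h : (q : ℂ) = c + c) : q = 2 * n := by
  rw [hc] at h
  have h1 : ((q : ℕ) : ℂ) = ((2 * n : ℕ) : ℂ) := by
    push_cast
    rw [h]
    ring
  exact Nat.cast_injective h1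

variable [Fintype (MulChar F ℂ)] [Fintype (IrrCharacter (Matrix.GeneralLinearGroup (Fin 2) F))]

/-- The Steinberg character of `SL_2` in odd characteristic. -/
theorem st_irr_odd (hodd : Odd (Fintype.card F)) :
    IsIrrCharacter S2 (fun s : S2 => stC 1 (Matrix.SpecialLinearGroup.toGL s)) := by
  rcases res_cases (stC_irr (1 : MulChar F ℂ)) with h | ⟨χ, χ', y, hχ, hχ', hne, hy, hsum⟩
  · exact h
  · exfalso
    obtain ⟨n, -, hn⟩ := irr_apply_one_pos hχ
    have h1 := hsum 1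
    rw [map_one, stC_one, conjRel_one hy] at h1
    have h2 := nat_half hn h1
    obtain ⟨m, hm⟩ := hodd
    omega

/-- Classification of the irreducible characters of `SL_2` in odd characteristic. -/
theorem cls_odd (hodd : Odd (Fintype.card F)) {χ : S2 → ℂ} (hχ : IsIrrCharacter S2 χ) :
    (χ = fun _ => 1) ∨
    (χ = fun s => stC 1 (Matrix.SpecialLinearGroup.toGL s)) ∨
    (∃ γ : MulChar F ℂ, γ ^ 2 ≠ 1 ∧
      χ = fun s => psR γ 1 (Matrix.SpecialLinearGroup.toGL s)) ∨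
    (∃ θ : G2 → ℂ, IsCusp θ ∧ ∀ s : S2, θ (Matrix.SpecialLinearGroup.toGL s) = χ s) ∨
    (∃ (n : ℕ) (γ : MulChar F ℂ) (χ' : S2 → ℂ) (y : G2), Fintype.card F + 1 = 2 * n ∧
      χ 1 = (n : ℂ) ∧ γ ≠ 1 ∧ γ ^ 2 = 1 ∧ IsIrrCharacter S2 χ' ∧ χ' ≠ χ ∧ ConjRel χ χ' y ∧
      ∀ s : S2, psR γ 1 (Matrix.SpecialLinearGroup.toGL s) = χ s + χ' s) ∨
    (∃ (n : ℕ) (θ : G2 → ℂ) (χ' : S2 → ℂ) (y : G2), Fintype.card F - 1 = 2 * n ∧
      χ 1 = (n : ℂ) ∧ IsCusp θ ∧ IsIrrCharacter S2 χ' ∧ χ' ≠ χ ∧ ConjRel χ χ' y ∧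
      ∀ s : S2, θ (Matrix.SpecialLinearGroup.toGL s) = χ s + χ' s) := by
  classical
  obtain ⟨m, hm⟩ := hodd
  obtain ⟨θ, hθ, hne⟩ := sl_exists_const hχ
  rcases sl_cliff_odd hθ hχ hne with hres | ⟨χ', y, hχ', hne', hy, hsum⟩
  · have hχeq : χ = fun s => θ (Matrix.SpecialLinearGroup.toGL s) :=
      funext (fun s => (hres s).symm)
    rcases classify hθ with ⟨α, rfl⟩ | ⟨α, rfl⟩ | ⟨α, β, hab, rfl⟩ | ⟨h0, h1, hu⟩
    · left
      rw [hχeq]
      funext s
      exact linL_res α s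
    · right; left
      rw [hχeq]
      funext s
      exact stC_res α s
    · right; right; left
      have hχeq' : χ = fun s => psR (α * β⁻¹) 1 (Matrix.SpecialLinearGroup.toGL s) := by
        rw [hχeq]
        funext s
        exact psR_res α β s
      refine ⟨α * β⁻¹, ?_, hχeq'⟩
      intro hsq
      have h5 := res_inner (α * β⁻¹) (α * β⁻¹)
      rw [← hχeq', irr_inner_self hχ, if_pos rfl, if_pos] at h5
      · norm_num at h5
      · rw [eq_inv_iff_mul_eq_one, ← sq]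
        exact hsq
    · right; right; right; left
      exact ⟨θ, ⟨hθ, h0, h1, hu⟩, hres⟩
  · obtain ⟨n, -, hn⟩ := irr_apply_one_pos hχ
    have h1 := hsum 1
    rw [map_one, conjRel_one hy] at h1
    rcases classify hθ with ⟨α, rfl⟩ | ⟨α, rfl⟩ | ⟨α, β, hab, rfl⟩ | ⟨h0, h1', hu⟩
    · exfalso
      rw [linL_one] at h1
      have h2 := nat_half (q := 1) hn (by simpa using h1)
      omega
    · exfalso
      rw [stC_one] at h1
      have h2 := nat_half hn h1
      omega
    · right; right; right; right; left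
      rw [psR_one] at h1
      have h2 := nat_half (q := Fintype.card F + 1) hn (by push_cast; exact h1)
      have hsum' : ∀ s : S2, psR (α * β⁻¹) 1 (Matrix.SpecialLinearGroup.toGL s) = χ s + χ' s := by
        intro s
        rw [← psR_res α β s]
        exact hsum s
      refine ⟨n, α * β⁻¹, χ', y, h2, hn, fun h => hab (mul_inv_eq_one.mp h), ?_, hχ', hne', hy,
        hsum'⟩
      have h5 := res_inner (α * β⁻¹) (α * β⁻¹)
      have h6 : (fun s : S2 => psR (α * β⁻¹) 1 (Matrix.SpecialLinearGroup.toGL s)) = χ + χ' :=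
        funext hsum'
      rw [h6, inner_sum_self hχ hχ' hne', if_pos rfl] at h5
      by_contra hsq
      rw [if_neg] at h5
      · norm_num at h5
      · intro h7
        apply hsq
        rw [sq]
        nth_rewrite 1 [h7]
        exact inv_mul_cancel _
    · right; right; right; right; right
      rw [h1'] at h1
      have hq1 : ((Fintype.card F - 1 : ℕ) : ℂ) = (Fintype.card F : ℂ) - 1 := by
        rw [Nat.cast_sub Fintype.card_pos]
        simp
      have h2 := nat_half (q := Fintype.card F - 1) hn (by rw [hq1]; exact h1)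
      exact ⟨n, θ, χ', y, h2, hn, ⟨hθ, h0, h1', hu⟩, hχ', hne', hy, hsum⟩

omit [Fintype (Matrix.GeneralLinearGroup (Fin 2) F)]
  [Fintype (Matrix.SpecialLinearGroup (Fin 2) F)] [Fintype (MulChar F ℂ)]
  [Fintype (IrrCharacter (Matrix.GeneralLinearGroup (Fin 2) F))] in
theorem two_ne_of_odd (hodd : Odd (Fintype.card F)) : (2 : F) ≠ 0 := by
  have hchar : ringChar F ≠ 2 := by
    intro h
    have h1 := FiniteField.even_card_iff_char_two.mp h
    obtain ⟨m, hm⟩ := hodd
    omega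
  exact Ring.two_ne_zero hchar

omit [Fintype (Matrix.GeneralLinearGroup (Fin 2) F)]
  [Fintype (Matrix.SpecialLinearGroup (Fin 2) F)] [Fintype (MulChar F ℂ)]
  [Fintype (IrrCharacter (Matrix.GeneralLinearGroup (Fin 2) F))] in
theorem card_sq_one_units (h2 : (2 : F) ≠ 0) :
    (Finset.univ.filter (fun u : Fˣ => u ^ 2 = 1)).card = 2 := by
  have h : Finset.univ.filter (fun u : Fˣ => u ^ 2 = 1) = {1, -1} := by
    ext u
    rw [Finset.mem_filter, Finset.mem_insert, Finset.mem_singleton]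
    constructor
    · rintro ⟨-, h⟩
      have h3 := congrArg (fun u : Fˣ => (u : F)) h
      simp only [Units.val_pow_eq_pow_val, Units.val_one] at h3
      have h5 : ((u : F) - 1) * ((u : F) + 1) = 0 := by linear_combination h3
      rcases mul_eq_zero.mp h5 with h6 | h6
      · left
        exact Units.ext (sub_eq_zero.mp h6)
      · right
        apply Units.ext
        rw [Units.val_neg, Units.val_one]
        linear_combination h6
    · rintro (rfl | rfl)
      · exact ⟨Finset.mem_univ _, by simp⟩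
      · exact ⟨Finset.mem_univ _, by simp⟩
  rw [h, Finset.card_pair]
  intro h5
  have h6 := congrArg (fun u : Fˣ => (u : F)) h5
  simp only [Units.val_neg, Units.val_one] at h6
  apply h2
  linear_combination h6

omit [Fintype (Matrix.GeneralLinearGroup (Fin 2) F)]
  [Fintype (Matrix.SpecialLinearGroup (Fin 2) F)]
  [Fintype (IrrCharacter (Matrix.GeneralLinearGroup (Fin 2) F))] in
theorem card_quad_chars (h2 : (2 : F) ≠ 0) :
    (Finset.univ.filter (fun γ : MulChar F ℂ => γ ^ 2 = 1)).card = 2 := by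
  classical
  obtain ⟨e⟩ := MulChar.mulEquiv_units F ℂ
  refine Eq.trans ?_ (card_sq_one_units h2)
  apply Finset.card_bij (fun γ _ => e γ)
  · intro γ hγ
    rw [Finset.mem_filter] at hγ ⊢
    exact ⟨Finset.mem_univ _, by rw [← map_pow, hγ.2, map_one]⟩
  · intro γ _ γ' _ h
    exact e.injective h
  · intro u hu
    rw [Finset.mem_filter] at hu
    refine ⟨e.symm u, ?_, by simp⟩
    rw [Finset.mem_filter]
    exact ⟨Finset.mem_univ _, by rw [← map_pow, hu.2, map_one]⟩

omit [Fintype (Matrix.GeneralLinearGroup (Fin 2) F)]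
  [Fintype (Matrix.SpecialLinearGroup (Fin 2) F)]
  [Fintype (IrrCharacter (Matrix.GeneralLinearGroup (Fin 2) F))] in
/-- The quadratic character. -/
theorem exists_quad (h2 : (2 : F) ≠ 0) :
    ∃ γ₀ : MulChar F ℂ, γ₀ ≠ 1 ∧ γ₀ ^ 2 = 1 ∧ ∀ γ : MulChar F ℂ, γ ≠ 1 → γ ^ 2 = 1 → γ = γ₀ := by
  classical
  obtain ⟨x, y, hxy, hset⟩ := Finset.card_eq_two.mp (card_quad_chars (F := F) h2)
  have hmem : ∀ γ : MulChar F ℂ, γ ^ 2 = 1 ↔ (γ = x ∨ γ = y) := by
    intro γ
    have : γ ∈ Finset.univ.filter (fun γ : MulChar F ℂ => γ ^ 2 = 1) ↔ γ ∈ ({x, y} : Finset _) := by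
      rw [hset]
    rw [Finset.mem_filter, Finset.mem_insert, Finset.mem_singleton] at this
    simpa using this
  have h1 := (hmem 1).mp (one_pow 2)
  rcases h1 with h1 | h1
  · refine ⟨y, fun h => hxy (h1.symm.trans h.symm), (hmem y).mpr (Or.inr rfl), ?_⟩
    intro γ hγ hγ2
    rcases (hmem γ).mp hγ2 with h | h
    · exact absurd (h.trans h1.symm) hγ
    · exact h
  · refine ⟨x, fun h => hxy (h.trans h1), (hmem x).mpr (Or.inl rfl), ?_⟩
    intro γ hγ hγ2
    rcases (hmem γ).mp hγ2 with h | h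
    · exact h
    · exact absurd (h.trans h1.symm) hγ

omit [Fintype F] [DecidableEq F] [Fintype (Matrix.GeneralLinearGroup (Fin 2) F)]
  [Fintype (MulChar F ℂ)] [Fintype (IrrCharacter (Matrix.GeneralLinearGroup (Fin 2) F))] in
theorem eq_of_sum_eq {a b c d : S2 → ℂ} (ha : IsIrrCharacter S2 a) (hb : IsIrrCharacter S2 b)
    (hc : IsIrrCharacter S2 c) (hd : IsIrrCharacter S2 d) (hab : b ≠ a)
    (h : a + b = c + d) : a = c ∨ a = d := by
  by_contra hcon
  push Not at hcon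
  have h1 : classInner (a + b) a = 1 := by
    rw [classInner_add_left, irr_inner_self ha, irr_inner_ne hb ha hab, add_zero]
  rw [h, classInner_add_left, irr_inner_ne hc ha (Ne.symm hcon.1),
    irr_inner_ne hd ha (Ne.symm hcon.2)] at h1
  norm_num at h1

omit [Fintype (IrrCharacter (Matrix.GeneralLinearGroup (Fin 2) F))] in
/-- The two characters of degree `(q + 1) / 2`. -/
theorem half_plus (h2 : (2 : F) ≠ 0) :
    ∃ (γ₀ : MulChar F ℂ) (χ₁ χ₂ : S2 → ℂ) (y : G2), γ₀ ≠ 1 ∧ γ₀ ^ 2 = 1 ∧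
      (∀ γ : MulChar F ℂ, γ ≠ 1 → γ ^ 2 = 1 → γ = γ₀) ∧
      IsIrrCharacter S2 χ₁ ∧ IsIrrCharacter S2 χ₂ ∧ χ₂ ≠ χ₁ ∧ ConjRel χ₁ χ₂ y ∧
      ∀ s : S2, psR γ₀ 1 (Matrix.SpecialLinearGroup.toGL s) = χ₁ s + χ₂ s := by
  classical
  obtain ⟨γ₀, hγ1, hγ2, huniq⟩ := exists_quad (F := F) h2
  have hinv : γ₀ = γ₀⁻¹ := by
    rw [eq_inv_iff_mul_eq_one, ← sq]
    exact hγ2
  rcases res_cases (psR_irr hγ1) with h | ⟨χ, χ', y, hχ, hχ', hne, hy, hsum⟩
  · exfalso
    have h5 := res_inner γ₀ γ₀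
    rw [irr_inner_self h, if_pos rfl, if_pos hinv] at h5
    norm_num at h5
  · exact ⟨γ₀, χ, χ', y, hγ1, hγ2, huniq, hχ, hχ', hne, hy, hsum⟩

end Cfsg.Agent.Lib_helper8_SL2Odd
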