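import Mathlib

/-! Normal form of endomorphisms with square zero: adapted bases, and conjugacy (by a map of
determinant one when every scalar is a square) of two such endomorphisms of the same non-zero rank. -/

namespace Cfsg.Agent.Lib_helper8_SqZero
open Module

variable {F : Type*} [Field F] {V : Type*} [AddCommGroup V] [Module F V] [FiniteDimensional F V]

/-- An adapted basis `u_i, f u_i, z_k` for an endomorphism `f` with `f ∘ f = 0`. -/
theorem exists_adapted_basis (f : V →ₗ[F] V) (hf : f ∘ₗ f = 0) (ℓ d : ℕ) (hℓ1 : 1 ≤ ℓ)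
    (hℓ : finrank F (LinearMap.range f) = ℓ) (hd : finrank F V = ℓ + (ℓ + d)) :
    ∃ b : Basis (Fin ℓ ⊕ (Fin ℓ ⊕ Fin d)) F V,
      (∀ i, f (b (Sum.inl i)) = b (Sum.inr (Sum.inl i))) ∧
      (∀ i, f (b (Sum.inr (Sum.inl i))) = 0) ∧ (∀ k, f (b (Sum.inr (Sum.inr k))) = 0) := by
  have hRK : LinearMap.range f ≤ LinearMap.ker f := by
    rintro x ⟨y, rfl⟩
    rw [LinearMap.mem_ker]
    have := LinearMap.congr_fun hf y
    simpa using this
  have hK : finrank F (LinearMap.ker f) = ℓ + d := by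
    have := LinearMap.finrank_range_add_finrank_ker f
    omega
  obtain ⟨Z₀, hZ₀⟩ := Submodule.exists_isCompl (LinearMap.range f)
  obtain ⟨Z, hZdef⟩ : ∃ Z : Submodule F V, Z = Z₀ ⊓ LinearMap.ker f := ⟨_, rfl⟩
  have hZK : Z ≤ LinearMap.ker f := by rw [hZdef]; exact inf_le_right
  have hdisj : Disjoint (LinearMap.range f) Z := by
    rw [hZdef]; exact hZ₀.disjoint.mono_right inf_le_left
  have hsup : LinearMap.range f ⊔ Z = LinearMap.ker f := by
    rw [hZdef, ← sup_inf_assoc_of_le Z₀ hRK, hZ₀.sup_eq_top, top_inf_eq]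
  have hZfr : finrank F Z = d := by
    have h1 := Submodule.finrank_sup_add_finrank_inf_eq (LinearMap.range f) Z
    rw [hsup, hdisj.eq_bot, finrank_bot, hK, hℓ] at h1
    omega
  let bR : Basis (Fin ℓ) F (LinearMap.range f) := Module.finBasisOfFinrankEq F _ hℓ
  let bZ : Basis (Fin d) F Z := Module.finBasisOfFinrankEq F _ hZfr
  have hex : ∀ i, ∃ y, f y = (bR i : V) := fun i => (bR i).2
  choose u hu using hex
  have hr_li : LinearIndependent F (fun i => (bR i : V)) :=
    bR.linearIndependent.map' (LinearMap.range f).subtype (Submodule.ker_subtype _)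
  have hz_li : LinearIndependent F (fun k => (bZ k : V)) :=
    bZ.linearIndependent.map' Z.subtype (Submodule.ker_subtype _)
  have hu_li : LinearIndependent F u := by
    apply LinearIndependent.of_comp f
    have : f ∘ u = fun i => (bR i : V) := by
      ext i
      exact hu i
    rw [this]
    exact hr_li
  have hrR : Submodule.span F (Set.range (fun i => (bR i : V))) ≤ LinearMap.range f := by
    rw [Submodule.span_le]
    rintro _ ⟨i, rfl⟩
    exact (bR i).2
  have hzZ : Submodule.span F (Set.range (fun k => (bZ k : V))) ≤ Z := by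
    rw [Submodule.span_le]
    rintro _ ⟨k, rfl⟩
    exact (bZ k).2
  have h_rz : LinearIndependent F (Sum.elim (fun i => (bR i : V)) (fun k => (bZ k : V))) :=
    hr_li.sum_type hz_li (hdisj.mono hrR hzZ)
  have hrzK : Submodule.span F (Set.range (Sum.elim (fun i => (bR i : V)) (fun k => (bZ k : V))))
      ≤ LinearMap.ker f := by
    rw [Submodule.span_le]
    rintro _ ⟨s, rfl⟩
    rcases s with i | k
    · exact hRK (bR i).2
    · exact hZK (bZ k).2
  have h_all : LinearIndependent F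
      (Sum.elim u (Sum.elim (fun i => (bR i : V)) (fun k => (bZ k : V)))) := by
    apply hu_li.sum_type h_rz
    rw [Submodule.disjoint_def]
    intro x hx1 hx2
    have hxK : f x = 0 := LinearMap.mem_ker.mp (hrzK hx2)
    obtain ⟨c, rfl⟩ := (Submodule.mem_span_range_iff_exists_fun F).mp hx1
    have h0 : ∑ i, c i • (bR i : V) = 0 := by
      rw [← hxK, map_sum]
      apply Finset.sum_congr rfl
      intro i _
      rw [map_smul, hu i]
    have hc := Fintype.linearIndependent_iff.mp hr_li c h0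
    simp [hc]
  have hcard : Fintype.card (Fin ℓ ⊕ (Fin ℓ ⊕ Fin d)) = finrank F V := by
    rw [Fintype.card_sum, Fintype.card_sum, Fintype.card_fin, Fintype.card_fin, hd]
  haveI : Nonempty (Fin ℓ ⊕ (Fin ℓ ⊕ Fin d)) := ⟨Sum.inl ⟨0, hℓ1⟩⟩
  refine ⟨basisOfLinearIndependentOfCardEqFinrank h_all hcard, ?_, ?_, ?_⟩
  · intro i
    simp only [coe_basisOfLinearIndependentOfCardEqFinrank, Sum.elim_inl, Sum.elim_inr]
    exact hu i
  · intro i
    simp only [coe_basisOfLinearIndependentOfCardEqFinrank, Sum.elim_inl, Sum.elim_inr]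
    exact LinearMap.mem_ker.mp (hRK (bR i).2)
  · intro k
    simp only [coe_basisOfLinearIndependentOfCardEqFinrank, Sum.elim_inr]
    exact LinearMap.mem_ker.mp (hZK (bZ k).2)

/-- The determinant of the map scaling the vectors of a basis. -/
lemma det_scaling {ι : Type*} [Fintype ι] [DecidableEq ι] (b : Basis ι F V) (w : ι → Fˣ) :
    LinearMap.det ((b.equiv (b.unitsSMul w) (Equiv.refl ι) : V ≃ₗ[F] V) : V →ₗ[F] V)
      = ∏ s, (w s : F) := by
  rw [← LinearMap.det_toMatrix b]
  have : LinearMap.toMatrix b b ((b.equiv (b.unitsSMul w) (Equiv.refl ι) : V ≃ₗ[F] V) : V →ₗ[F] V)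
      = Matrix.diagonal (fun s => (w s : F)) := by
    ext i j
    rw [LinearMap.toMatrix_apply]
    simp only [LinearEquiv.coe_coe, Basis.equiv_apply, Equiv.refl_apply, Basis.unitsSMul_apply]
    rw [Units.smul_def, map_smul, Basis.repr_self, Finsupp.smul_apply, Finsupp.single_apply,
      Matrix.diagonal_apply]
    by_cases hij : i = j
    · subst hij; simp
    · rw [if_neg (Ne.symm hij), if_neg hij]; simp
  rw [this, Matrix.det_diagonal]

/-- Two square-zero endomorphisms of the same non-zero rank are conjugate under a map of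
determinant one, when every scalar is a square. -/
theorem exists_equiv_of_sq_zero (f f' : V →ₗ[F] V) (hf : f ∘ₗ f = 0) (hf' : f' ∘ₗ f' = 0)
    (hr : finrank F (LinearMap.range f) = finrank F (LinearMap.range f'))
    (hpos : finrank F (LinearMap.range f) ≠ 0) (hsq : ∀ x : F, IsSquare x) :
    ∃ T : V ≃ₗ[F] V, LinearMap.det (T : V →ₗ[F] V) = 1 ∧ ∀ v, T (f v) = f' (T v) := by
  classical
  obtain ⟨ℓ, hℓ⟩ : ∃ ℓ, finrank F (LinearMap.range f) = ℓ := ⟨_, rfl⟩
  have hℓ1 : 1 ≤ ℓ := by omega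
  have hRK : LinearMap.range f ≤ LinearMap.ker f := by
    rintro x ⟨y, rfl⟩
    rw [LinearMap.mem_ker]
    have := LinearMap.congr_fun hf y
    simpa using this
  have h2 : ℓ + ℓ ≤ finrank F V := by
    have h1 := LinearMap.finrank_range_add_finrank_ker f
    have h3 := Submodule.finrank_mono hRK
    omega
  obtain ⟨d, hd⟩ : ∃ d, finrank F V = ℓ + (ℓ + d) := ⟨finrank F V - (ℓ + ℓ), by omega⟩
  obtain ⟨b, hb1, hb2, hb3⟩ := exists_adapted_basis f hf ℓ d hℓ1 hℓ hd
  obtain ⟨b', hb1', hb2', hb3'⟩ := exists_adapted_basis f' hf' ℓ d hℓ1 (hr ▸ hℓ) hd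
  let T₀ : V ≃ₗ[F] V := b.equiv b' (Equiv.refl _)
  have hδ : LinearMap.det (T₀ : V →ₗ[F] V) ≠ 0 := (LinearEquiv.isUnit_det' T₀).ne_zero
  obtain ⟨c, hc⟩ := hsq (LinearMap.det (T₀ : V →ₗ[F] V))⁻¹
  have hc0 : c ≠ 0 := by
    rintro rfl
    rw [mul_zero] at hc
    exact (inv_ne_zero hδ) hc
  let i₀ : Fin ℓ := ⟨0, hℓ1⟩
  let w : Fin ℓ ⊕ (Fin ℓ ⊕ Fin d) → Fˣ := fun s =>
    Sum.elim (fun i => if i = i₀ then Units.mk0 c hc0 else 1)
      (Sum.elim (fun i => if i = i₀ then Units.mk0 c hc0 else 1) (fun _ => 1)) s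
  let E : V ≃ₗ[F] V := b.equiv (b.unitsSMul w) (Equiv.refl _)
  have hE : ∀ s, E (b s) = w s • b s := by
    intro s
    simp only [E, Basis.equiv_apply, Equiv.refl_apply, Basis.unitsSMul_apply]
  have hT₀ : ∀ s, T₀ (b s) = b' s := by
    intro s
    simp only [T₀, Basis.equiv_apply, Equiv.refl_apply]
  have hdetE : LinearMap.det (E : V →ₗ[F] V) = c * c := by
    rw [det_scaling, Fintype.prod_sum_type, Fintype.prod_sum_type]
    simp only [w, Sum.elim_inl, Sum.elim_inr]
    have e1 : ∏ i : Fin ℓ, ((if i = i₀ then Units.mk0 c hc0 else 1 : Fˣ) : F) = c := by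
      rw [Finset.prod_eq_single i₀]
      · simp
      · intro i _ hi
        simp [hi]
      · intro h
        exact absurd (Finset.mem_univ _) h
    rw [e1]
    simp
  refine ⟨E.trans T₀, ?_, ?_⟩
  · have : ((E.trans T₀ : V ≃ₗ[F] V) : V →ₗ[F] V) = (T₀ : V →ₗ[F] V) ∘ₗ (E : V →ₗ[F] V) := rfl
    rw [this, LinearMap.det_comp, hdetE, ← hc, mul_inv_cancel₀ hδ]
  · intro v
    have hlin : ((E.trans T₀ : V ≃ₗ[F] V) : V →ₗ[F] V) ∘ₗ f
        = f' ∘ₗ ((E.trans T₀ : V ≃ₗ[F] V) : V →ₗ[F] V) := by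
      apply b.ext
      intro s
      simp only [LinearMap.comp_apply, LinearEquiv.coe_coe, LinearEquiv.trans_apply]
      rcases s with i | i | k
      · rw [hb1 i, hE, hE, Units.smul_def, Units.smul_def, map_smul, map_smul, hT₀, hT₀, map_smul,
          hb1' i]
        rfl
      · rw [hb2 i, map_zero, map_zero, hE, Units.smul_def, map_smul, hT₀, map_smul, hb2' i,
          smul_zero]
      · rw [hb3 k, map_zero, map_zero, hE, Units.smul_def, map_smul, hT₀, map_smul, hb3' k,
          smul_zero]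
    exact LinearMap.congr_fun hlin v

/-- Matrix version. -/
theorem exists_conj_of_sq_zero {n : Type*} [Fintype n] [DecidableEq n] (N N' : Matrix n n F)
    (h : N * N = 0) (h' : N' * N' = 0) (hr : N.rank = N'.rank) (hpos : N.rank ≠ 0)
    (hsq : ∀ x : F, IsSquare x) : ∃ P : Matrix n n F, P.det = 1 ∧ P * N = N' * P := by
  have hf : N.mulVecLin ∘ₗ N.mulVecLin = 0 := by
    rw [← Matrix.mulVecLin_mul, h]
    ext v
    simp
  have hf' : N'.mulVecLin ∘ₗ N'.mulVecLin = 0 := by
    rw [← Matrix.mulVecLin_mul, h']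
    ext v
    simp
  obtain ⟨T, hT1, hT2⟩ := exists_equiv_of_sq_zero N.mulVecLin N'.mulVecLin hf hf' hr hpos hsq
  refine ⟨LinearMap.toMatrix' (T : (n → F) →ₗ[F] (n → F)), ?_, ?_⟩
  · rw [LinearMap.det_toMatrix', hT1]
  · apply Matrix.toLin'.injective
    rw [Matrix.toLin'_mul, Matrix.toLin'_mul, Matrix.toLin'_toMatrix']
    apply LinearMap.ext
    intro v
    simp only [LinearMap.comp_apply, LinearEquiv.coe_coe, Matrix.toLin'_apply]
    have := hT2 v
    simp only [Matrix.mulVecLin_apply] at this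
    rw [this]

end Cfsg.Agent.Lib_helper8_SqZero
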