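import Mathlib

set_option autoImplicit false

namespace Cfsg.Agent.Lib_helper9_AffClosure

open Module

theorem sumExtend_inl {K V ι : Type*} [Field K] [AddCommGroup V] [Module K V] {v : ι → V}
    (hv : LinearIndependent K v) (i : ι) : Basis.sumExtend hv (Sum.inl i) = v i := by
  simp only [Basis.sumExtend, Basis.reindex_apply, Basis.coe_extend]
  rfl

theorem exists_equiv_of_li {K V ι : Type*} [Field K] [AddCommGroup V] [Module K V] [Finite V]
    [Finite ι] (v w : ι → V) (hv : LinearIndependent K v) (hw : LinearIndependent K w) :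
    ∃ A : V ≃ₗ[K] V, ∀ i, A (v i) = w i := by
  have hcard : Nat.card (Basis.sumExtendIndex hv) = Nat.card (Basis.sumExtendIndex hw) := by
    have h1 := Module.finrank_eq_nat_card_basis (Basis.sumExtend hv)
    have h2 := Module.finrank_eq_nat_card_basis (Basis.sumExtend hw)
    rw [Nat.card_sum] at h1 h2
    omega
  obtain ⟨e⟩ := Finite.card_eq.mp hcard
  refine ⟨(Basis.sumExtend hv).equiv (Basis.sumExtend hw) (Equiv.sumCongr (Equiv.refl ι) e),
    fun i => ?_⟩
  rw [← sumExtend_inl hv i, Basis.equiv_apply]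
  simp [sumExtend_inl]

theorem exists_equiv_single {K V : Type*} [Field K] [AddCommGroup V] [Module K V] [Finite V]
    {x x' : V} (hx : x ≠ 0) (hx' : x' ≠ 0) : ∃ A : V ≃ₗ[K] V, A x = x' := by
  obtain ⟨A, hA⟩ := exists_equiv_of_li (K := K) (fun _ : Unit => x) (fun _ : Unit => x')
    ((linearIndependent_unique_iff (v := fun _ : Unit => x)).mpr hx)
    ((linearIndependent_unique_iff (v := fun _ : Unit => x')).mpr hx')
  exact ⟨A, hA ()⟩

theorem exists_equiv_pair2 {V : Type*} [AddCommGroup V] [Module (ZMod 2) V] [Finite V]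
    {x y x' y' : V} (h1 : x = 0 ↔ x' = 0) (h2 : y = 0 ↔ y' = 0) (h3 : x = y ↔ x' = y') :
    ∃ A : V ≃ₗ[ZMod 2] V, A x = x' ∧ A y = y' := by
  by_cases hx : x = 0
  · have hx' := h1.mp hx
    by_cases hy : y = 0
    · exact ⟨LinearEquiv.refl _ _, by simp [hx, hx'], by simp [hy, h2.mp hy]⟩
    · obtain ⟨A, hA⟩ := exists_equiv_single (K := ZMod 2) hy (fun h => hy (h2.mpr h))
      exact ⟨A, by rw [hx, hx', map_zero], hA⟩
  · have hx' : x' ≠ 0 := fun h => hx (h1.mpr h)
    by_cases hy : y = 0
    · obtain ⟨A, hA⟩ := exists_equiv_single (K := ZMod 2) hx hx'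
      exact ⟨A, hA, by rw [hy, h2.mp hy, map_zero]⟩
    · have hy' : y' ≠ 0 := fun h => hy (h2.mpr h)
      by_cases hxy : x = y
      · obtain ⟨A, hA⟩ := exists_equiv_single (K := ZMod 2) hx hx'
        exact ⟨A, hA, by rw [← hxy, hA]; exact h3.mp hxy⟩
      · have hxy' : x' ≠ y' := fun h => hxy (h3.mpr h)
        have li : ∀ {a b : V}, a ≠ 0 → b ≠ 0 → a ≠ b → LinearIndependent (ZMod 2) ![a, b] := by
          intro a b ha hb hab
          rw [LinearIndependent.pair_iff]
          intro s t hst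
          have hz2 : ∀ s : ZMod 2, s = 0 ∨ s = 1 := by decide
          have hs : s = 0 ∨ s = 1 := hz2 s
          have ht : t = 0 ∨ t = 1 := hz2 t
          rcases hs with rfl | rfl <;> rcases ht with rfl | rfl
          · exact ⟨rfl, rfl⟩
          · simp at hst; exact absurd hst hb
          · simp at hst; exact absurd hst ha
          · exfalso; apply hab
            simp only [one_smul] at hst
            have hbb : b + b = 0 := by
              have : (2 : ZMod 2) • b = 0 := by
                have h2 : (2 : ZMod 2) = 0 := by decide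
                rw [h2, zero_smul]
              rwa [two_smul] at this
            calc a = a + (b + b) := by rw [hbb, add_zero]
              _ = (a + b) + b := by rw [add_assoc]
              _ = b := by rw [hst, zero_add]
        obtain ⟨A, hA⟩ := exists_equiv_of_li (K := ZMod 2) ![x, y] ![x', y']
          (li hx hy hxy) (li hx' hy' hxy')
        exact ⟨A, hA 0, hA 1⟩

theorem s3517 (d : ℕ) (hd : 3 ≤ d) (σ : Equiv.Perm (Fin d → ZMod 2)) (t : Fin 3 → (Fin d → ZMod 2)) :
    ∃ (A : (Fin d → ZMod 2) ≃ₗ[ZMod 2] (Fin d → ZMod 2)) (b : Fin d → ZMod 2),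
      ∀ i, σ (t i) = A (t i) + b := by
  obtain ⟨A, hA1, hA2⟩ := exists_equiv_pair2 (x := t 1 - t 0) (y := t 2 - t 0)
    (x' := σ (t 1) - σ (t 0)) (y' := σ (t 2) - σ (t 0))
    (by rw [sub_eq_zero, sub_eq_zero, σ.injective.eq_iff])
    (by rw [sub_eq_zero, sub_eq_zero, σ.injective.eq_iff])
    (by rw [sub_left_inj, sub_left_inj, σ.injective.eq_iff])
  refine ⟨A, σ (t 0) - A (t 0), ?_⟩
  rw [map_sub] at hA1 hA2
  intro i
  fin_cases i
  · show σ (t 0) = A (t 0) + (σ (t 0) - A (t 0))
    abel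
  · show σ (t 1) = A (t 1) + (σ (t 0) - A (t 0))
    calc σ (t 1) = (σ (t 1) - σ (t 0)) + σ (t 0) := by abel
      _ = (A (t 1) - A (t 0)) + σ (t 0) := by rw [hA1]
      _ = _ := by abel
  · show σ (t 2) = A (t 2) + (σ (t 0) - A (t 0))
    calc σ (t 2) = (σ (t 2) - σ (t 0)) + σ (t 0) := by abel
      _ = (A (t 2) - A (t 0)) + σ (t 0) := by rw [hA2]
      _ = _ := by abel

end Cfsg.Agent.Lib_helper9_AffClosure
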