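import Mathlib

set_option autoImplicit false

namespace Cfsg.Agent.Lib_helper9_AffClosure2

open Module

theorem affine_of_collinear {p : ℕ} [Fact p.Prime] (hp : p ≠ 2) {V : Type*} [AddCommGroup V]
    [Module (ZMod p) V] (σ : Equiv.Perm V)
    (h : ∀ x y : V, ∀ c : ZMod p, σ (x + c • (y - x)) = σ x + c • (σ y - σ x)) :
    ∃ (A : V ≃ₗ[ZMod p] V) (b : V), ∀ x, σ x = A x + b := by
  have h2ne : (2 : ZMod p) ≠ 0 := by
    intro h0
    have h1 : ((2 : ℕ) : ZMod p) = 0 := by exact_mod_cast h0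
    have h2 : p ∣ 2 := (ZMod.natCast_eq_zero_iff 2 p).mp h1
    exact hp ((Nat.prime_dvd_prime_iff_eq (Fact.out) Nat.prime_two).mp h2)
  have hsm : ∀ (c : ZMod p) (y : V), σ (c • y) - σ 0 = c • (σ y - σ 0) := by
    intro c y
    have := h 0 y c
    simp only [sub_zero, zero_add] at this
    rw [this]; abel
  have hadd : ∀ x y : V, σ (x + y) - σ 0 = (σ x - σ 0) + (σ y - σ 0) := by
    intro x y
    have hm := h x y (2 : ZMod p)⁻¹
    have e : x + y = (2 : ZMod p) • (x + (2 : ZMod p)⁻¹ • (y - x)) := by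
      rw [smul_add, smul_smul, mul_inv_cancel₀ h2ne, one_smul, two_smul]; abel
    have e2 : σ x + (2 : ZMod p)⁻¹ • (σ y - σ x) - σ 0 = (σ x - σ 0) + (2 : ZMod p)⁻¹ • (σ y - σ x) := by
      abel
    rw [e, hsm, hm, e2, smul_add, smul_smul, mul_inv_cancel₀ h2ne, one_smul, two_smul]; abel
  let L : V →ₗ[ZMod p] V :=
    { toFun := fun x => σ x - σ 0
      map_add' := hadd
      map_smul' := fun c y => by simpa using hsm c y }
  have hbij : Function.Bijective L := by
    constructor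
    · intro a b hab
      have : σ a - σ 0 = σ b - σ 0 := hab
      exact σ.injective (sub_left_injective this)
    · intro v
      obtain ⟨a, ha⟩ := σ.surjective (v + σ 0)
      exact ⟨a, by show σ a - σ 0 = v; rw [ha]; abel⟩
  refine ⟨LinearEquiv.ofBijective L hbij, σ 0, fun x => ?_⟩
  show σ x = (σ x - σ 0) + σ 0
  abel

theorem affine_of_closure {p : ℕ} [Fact p.Prime] (hp : p ≠ 2) {d : ℕ}
    (G : Subgroup (Equiv.Perm (Fin d → ZMod p)))
    (haff : (G : Set (Equiv.Perm (Fin d → ZMod p))) ⊆ {τ : Equiv.Perm (Fin d → ZMod p) | ∃ (A : (Fin d → ZMod p) ≃ₗ[ZMod p] (Fin d → ZMod p)) (b : Fin d → ZMod p), ∀ x, τ x = A x + b})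
    (σ : Equiv.Perm (Fin d → ZMod p))
    (hσ : ∀ t : Fin 3 → (Fin d → ZMod p), ∃ g ∈ G, ∀ i, σ (t i) = g (t i)) :
    ∃ (A : (Fin d → ZMod p) ≃ₗ[ZMod p] (Fin d → ZMod p)) (b : Fin d → ZMod p), ∀ x, σ x = A x + b := by
  apply affine_of_collinear hp
  intro x y c
  obtain ⟨g, hg, hgt⟩ := hσ ![x, y, x + c • (y - x)]
  obtain ⟨A, b, hA⟩ := haff hg
  have h0 : σ x = g x := hgt 0
  have h1 : σ y = g y := hgt 1
  have h2 : σ (x + c • (y - x)) = g (x + c • (y - x)) := hgt 2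
  rw [h2, h0, h1, hA, hA, hA, map_add, map_smul, map_sub]
  have e : A y + b - (A x + b) = A y - A x := by abel
  rw [e]; abel

theorem eq_of_three (σ g : Equiv.Perm (Fin 2 → ZMod 2)) (h0 : σ 0 = g 0)
    (h1 : σ (Pi.single 0 1) = g (Pi.single 0 1)) (h2 : σ (Pi.single 1 1) = g (Pi.single 1 1)) :
    σ = g := by
  have hall : ∀ x : Fin 2 → ZMod 2, x = 0 ∨ x = Pi.single 0 1 ∨ x = Pi.single 1 1 ∨
      x = Pi.single 0 1 + Pi.single 1 1 := by decide
  have hw0 : (Pi.single 0 1 + Pi.single 1 1 : Fin 2 → ZMod 2) ≠ 0 := by decide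
  have hw1 : (Pi.single 0 1 + Pi.single 1 1 : Fin 2 → ZMod 2) ≠ Pi.single 0 1 := by decide
  have hw2 : (Pi.single 0 1 + Pi.single 1 1 : Fin 2 → ZMod 2) ≠ Pi.single 1 1 := by decide
  ext x : 1
  rcases hall x with rfl | rfl | rfl | rfl
  · exact h0
  · exact h1
  · exact h2
  · rcases hall (g.symm (σ (Pi.single 0 1 + Pi.single 1 1))) with h | h | h | h
    · exact absurd (σ.injective (((Equiv.symm_apply_eq g).mp h).trans h0.symm)) hw0
    · exact absurd (σ.injective (((Equiv.symm_apply_eq g).mp h).trans h1.symm)) hw1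
    · exact absurd (σ.injective (((Equiv.symm_apply_eq g).mp h).trans h2.symm)) hw2
    · exact (Equiv.symm_apply_eq g).mp h

theorem s3515 (p : ℕ) [Fact p.Prime] (G : Subgroup (Equiv.Perm (Fin 2 → ZMod p)))
    (haff : (G : Set (Equiv.Perm (Fin 2 → ZMod p))) ⊆ {τ : Equiv.Perm (Fin 2 → ZMod p) | ∃ (A : (Fin 2 → ZMod p) ≃ₗ[ZMod p] (Fin 2 → ZMod p)) (b : Fin 2 → ZMod p), ∀ x, τ x = A x + b})
    (σ : Equiv.Perm (Fin 2 → ZMod p))
    (hσ : (∀ t : Fin 3 → (Fin 2 → ZMod p), ∃ g ∈ G, ∀ i, σ (t i) = g (t i))) : σ ∈ G := by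
  obtain ⟨g, hg, hgt⟩ := hσ ![0, Pi.single 0 1, Pi.single 1 1]
  have h0 : σ 0 = g 0 := hgt 0
  have h1 : σ (Pi.single 0 1) = g (Pi.single 0 1) := hgt 1
  have h2 : σ (Pi.single 1 1) = g (Pi.single 1 1) := hgt 2
  suffices hσg : σ = g by rw [hσg]; exact hg
  by_cases hp : p = 2
  · subst hp
    exact eq_of_three σ g h0 h1 h2
  · obtain ⟨A, b, hA⟩ := affine_of_closure hp G haff σ hσ
    obtain ⟨A', b', hA'⟩ := haff hg
    have hb : b = b' := by
      have := h0
      rw [hA, hA', map_zero, map_zero, zero_add, zero_add] at this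
      exact this
    subst hb
    have e1 : A (Pi.single 0 1) = A' (Pi.single 0 1) := by
      have := h1
      rw [hA, hA'] at this
      exact add_right_cancel this
    have e2 : A (Pi.single 1 1) = A' (Pi.single 1 1) := by
      have := h2
      rw [hA, hA'] at this
      exact add_right_cancel this
    have hAA : ∀ x, A x = A' x := by
      intro x
      have hx : x = x 0 • (Pi.single 0 1 : Fin 2 → ZMod p) + x 1 • (Pi.single 1 1 : Fin 2 → ZMod p) := by
        ext i; fin_cases i <;> simp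
      rw [hx, map_add, map_add, map_smul, map_smul, map_smul, map_smul, e1, e2]
    ext x : 1
    rw [hA, hA', hAA]

theorem s3516 (p : ℕ) [Fact p.Prime] (hp : p ≠ 2) (d : ℕ) (hd : 3 ≤ d)
    (G : Subgroup (Equiv.Perm (Fin d → ZMod p)))
    (haff : (G : Set (Equiv.Perm (Fin d → ZMod p))) ⊆ {τ : Equiv.Perm (Fin d → ZMod p) | ∃ (A : (Fin d → ZMod p) ≃ₗ[ZMod p] (Fin d → ZMod p)) (b : Fin d → ZMod p), ∀ x, τ x = A x + b})
    (htrans : ∀ b : Fin d → ZMod p, ∃ g ∈ G, ∀ x, g x = x + b)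
    (hsl : ∀ A : (Fin d → ZMod p) ≃ₗ[ZMod p] (Fin d → ZMod p), LinearMap.det (A : (Fin d → ZMod p) →ₗ[ZMod p] (Fin d → ZMod p)) = 1 → ∃ g ∈ G, ∀ x, g x = A x)
    (σ : Equiv.Perm (Fin d → ZMod p)) :
    (∀ t : Fin 3 → (Fin d → ZMod p), ∃ g ∈ G, ∀ i, σ (t i) = g (t i)) ↔ σ ∈ {τ : Equiv.Perm (Fin d → ZMod p) | ∃ (A : (Fin d → ZMod p) ≃ₗ[ZMod p] (Fin d → ZMod p)) (b : Fin d → ZMod p), ∀ x, τ x = A x + b} := by
  constructor
  · intro hσ
    exact affine_of_closure hp G haff σ hσ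
  · rintro ⟨A, b, hA⟩ t
    let W : Submodule (ZMod p) (Fin d → ZMod p) :=
      Submodule.span (ZMod p) (Set.range ![t 1 - t 0, t 2 - t 0])
    have hW1 : t 1 - t 0 ∈ W := Submodule.subset_span ⟨0, rfl⟩
    have hW2 : t 2 - t 0 ∈ W := Submodule.subset_span ⟨1, rfl⟩
    have hWlt : W < ⊤ := by
      rw [lt_top_iff_ne_top]
      intro htop
      have h1 : Module.finrank (ZMod p) W ≤ 2 := by
        have := finrank_range_le_card (R := ZMod p) ![t 1 - t 0, t 2 - t 0]
        simpa [Set.finrank] using this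
      rw [htop, finrank_top, Module.finrank_fin_fun] at h1
      omega
    obtain ⟨f, hf0, hfW⟩ := Submodule.exists_dual_map_eq_bot_of_lt_top hWlt inferInstance
    have hfW' : ∀ w ∈ W, f w = 0 := by
      intro w hw
      have : f w ∈ W.map f := Submodule.mem_map_of_mem hw
      rw [hfW] at this
      exact (Submodule.mem_bot _).mp this
    obtain ⟨u, hu⟩ : ∃ u, f u ≠ 0 := by
      by_contra hne
      push Not at hne
      exact hf0 (LinearMap.ext hne)
    obtain ⟨δ, hδ⟩ : ∃ δ, δ = (LinearMap.det (A : (Fin d → ZMod p) →ₗ[ZMod p] (Fin d → ZMod p)))⁻¹ :=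
      ⟨_, rfl⟩
    have hdetA : LinearMap.det (A : (Fin d → ZMod p) →ₗ[ZMod p] (Fin d → ZMod p)) ≠ 0 :=
      (LinearEquiv.isUnit_det' A).ne_zero
    have hδ0 : δ ≠ 0 := by rw [hδ]; exact inv_ne_zero hdetA
    have hfv : 1 + f (((δ - 1) / f u) • u) = δ := by
      rw [map_smul, smul_eq_mul, div_mul_cancel₀ _ hu]; ring
    have hunit : IsUnit (1 + f (((δ - 1) / f u) • u)) := by rw [hfv]; exact hδ0.isUnit
    have hD : ∀ w ∈ W, LinearEquiv.dilatransvection hunit w = w := by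
      intro w hw
      rw [LinearEquiv.dilatransvection.apply, hfW' w hw, zero_smul, add_zero]
    have hdetD : LinearMap.det ((LinearEquiv.dilatransvection hunit : (Fin d → ZMod p) ≃ₗ[ZMod p] (Fin d → ZMod p)) : (Fin d → ZMod p) →ₗ[ZMod p] (Fin d → ZMod p)) = δ := by
      rw [LinearEquiv.dilatransvection.coe_toLinearMap, LinearMap.transvection.det, hfv]
    have hdet : LinearMap.det (((LinearEquiv.dilatransvection hunit).trans A : (Fin d → ZMod p) ≃ₗ[ZMod p] (Fin d → ZMod p)) : (Fin d → ZMod p) →ₗ[ZMod p] (Fin d → ZMod p)) = 1 := by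
      rw [LinearEquiv.coe_trans, LinearMap.det_comp, hdetD, hδ, mul_inv_cancel₀ hdetA]
    obtain ⟨g1, hg1, hg1x⟩ := hsl ((LinearEquiv.dilatransvection hunit).trans A) hdet
    obtain ⟨g2, hg2, hg2x⟩ := htrans (A (t 0) - A (LinearEquiv.dilatransvection hunit (t 0)) + b)
    refine ⟨g2 * g1, G.mul_mem hg2 hg1, ?_⟩
    have key : ∀ x, x - t 0 ∈ W → σ x = (g2 * g1) x := by
      intro x hx
      rw [Equiv.Perm.mul_apply, hg2x, hg1x, hA, LinearEquiv.trans_apply]
      have e := hD _ hx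
      rw [map_sub] at e
      have e' : LinearEquiv.dilatransvection hunit x
          = (x - t 0) + LinearEquiv.dilatransvection hunit (t 0) := by rw [← e]; abel
      rw [e', map_add, map_sub]; abel
    intro i
    fin_cases i
    · exact key (t 0) (by rw [sub_self]; exact W.zero_mem)
    · exact key (t 1) hW1
    · exact key (t 2) hW2

end Cfsg.Agent.Lib_helper9_AffClosure2
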