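import Mathlib

set_option autoImplicit false

namespace Cfsg.Agent.Lib_helper9_AffOrder

open Polynomial in
theorem lin_key (p : ℕ) [Fact p.Prime] {A : Type*} [AddCommGroup A] [Module (ZMod p) A] [Finite A]
    (u : Module.End (ZMod p) A) (r : ℕ) (hu : u ^ (p ^ r) = 1) (m : ℕ)
    (hm : Module.finrank (ZMod p) A = m) (a : ℕ) (hk : m < p ^ a) :
    u ^ (p ^ a) = 1 ∧ ∑ i ∈ Finset.range (p ^ a), u ^ i = 0 := by
  have P1 : ∀ j : ℕ, ((X : (ZMod p)[X]) - 1) ^ (p ^ j) = X ^ (p ^ j) - 1 := by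
    intro j
    rw [sub_pow_char_pow, one_pow]
  have hφ : ∀ j : ℕ, (u - 1) ^ (p ^ j) = u ^ (p ^ j) - 1 := by
    intro j
    have := congrArg (aeval u) (P1 j)
    simpa using this
  have hnil : IsNilpotent (u - 1) := ⟨p ^ r, by rw [hφ, hu, sub_self]⟩
  have hm0 : (u - 1) ^ m = 0 := by
    have h1 := hnil.charpoly_eq_X_pow_finrank
    have h2 := LinearMap.aeval_self_charpoly (u - 1)
    rw [h1, hm] at h2
    simpa using h2
  have hk1 : (u - 1) ^ (p ^ a - 1) = 0 := by
    have : p ^ a - 1 = m + (p ^ a - 1 - m) := by omega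
    rw [this, pow_add, hm0, zero_mul]
  have hk0 : (u - 1) ^ (p ^ a) = 0 := by
    have : p ^ a = (p ^ a - 1) + 1 := by omega
    rw [this, pow_succ, hk1, zero_mul]
  refine ⟨?_, ?_⟩
  · have := hφ a
    rw [hk0] at this
    exact (sub_eq_zero.mp this.symm)
  · have hne : (X : (ZMod p)[X]) - 1 ≠ 0 := by
      have := X_sub_C_ne_zero (1 : ZMod p)
      simpa using this
    have P2 : (∑ i ∈ Finset.range (p ^ a), (X : (ZMod p)[X]) ^ i) = (X - 1) ^ (p ^ a - 1) := by
      have h1 : (∑ i ∈ Finset.range (p ^ a), (X : (ZMod p)[X]) ^ i) * (X - 1)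
          = (X - 1) ^ (p ^ a - 1) * (X - 1) := by
        rw [geom_sum_mul, ← pow_succ, ← P1 a]
        congr 1; omega
      exact mul_right_cancel₀ hne h1
    have := congrArg (aeval u) P2
    simp only [map_sum, map_pow, aeval_X, map_sub, map_one] at this
    rw [this, hk1]

theorem affine_order_bound (p : ℕ) [Fact p.Prime] {A : Type*} [AddCommGroup A] [Module (ZMod p) A]
    [Finite A] {G Ω : Type*} [Group G] [MulAction G Ω] [FaithfulSMul G Ω]
    (c : G → A → A) (hc_add : ∀ x a b, c x (a + b) = c x a + c x b) (hc_one : ∀ a, c 1 a = a)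
    (hc_mul : ∀ x y a, c (x * y) a = c x (c y a)) (τ : A → G)
    (hτ : ∀ a b, τ (a + b) = τ a * τ b) (hconj0 : ∀ (x : G) (a : A), x * τ a * x⁻¹ = τ (c x a))
    (ω₀ : Ω) (htr : ∀ ω : Ω, ∃ a : A, ω = τ a • ω₀)
    (m : ℕ) (hA : Nat.card A = p ^ m) (g : G) (r : ℕ) (hr : 1 ≤ r) (hg : orderOf g = p ^ r) :
    p ^ (r - 1) ≤ m := by
  by_contra hlt
  push Not at hlt
  have hp : p.Prime := Fact.out
  let U : G →* Module.End (ZMod p) A :=
    { toFun := fun x => AddMonoidHom.toZModLinearMap p (AddMonoidHom.mk' (c x) (hc_add x))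
      map_one' := LinearMap.ext (fun a => hc_one a)
      map_mul' := fun x y => LinearMap.ext (fun a => hc_mul x y a) }
  have hconj : ∀ (x : G) (a : A), x * τ a * x⁻¹ = τ (U x a) := hconj0
  have hfin : Module.finrank (ZMod p) A = m := by
    haveI := Fintype.ofFinite A
    have h1 := Module.card_eq_pow_finrank (K := ZMod p) (V := A)
    rw [ZMod.card, ← Nat.card_eq_fintype_card, hA] at h1
    exact (Nat.pow_right_injective hp.two_le h1).symm
  have hu : (U g) ^ (p ^ r) = 1 := by rw [← map_pow, ← hg, pow_orderOf_eq_one, map_one]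
  obtain ⟨h1, h2⟩ := lin_key p (U g) r hu m hfin (r - 1) hlt
  have hτ0 : τ 0 = 1 := by
    have := hτ 0 0
    rw [add_zero] at this
    have h3 : τ 0 * τ 0 = τ 0 * 1 := by rw [mul_one]; exact this.symm
    exact mul_left_cancel h3
  obtain ⟨a₀, ha₀⟩ := htr (g • ω₀)
  have hind : ∀ j : ℕ, g ^ j • ω₀ = τ ((∑ i ∈ Finset.range j, (U g) ^ i) a₀) • ω₀ := by
    intro j
    induction j with
    | zero => simp [hτ0]
    | succ j ih =>
      have hS : (∑ i ∈ Finset.range (j + 1), (U g) ^ i) a₀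
          = U g ((∑ i ∈ Finset.range j, (U g) ^ i) a₀) + a₀ := by
        rw [Finset.sum_range_succ', pow_zero]
        simp only [pow_succ', ← Finset.mul_sum]
        rfl
      rw [pow_succ', mul_smul, ih, hS, hτ, mul_smul, ← ha₀, ← hconj, mul_smul, mul_smul,
        inv_smul_smul]
  have hfix0 : g ^ (p ^ (r - 1)) • ω₀ = ω₀ := by
    rw [hind, h2]
    simp [hτ0]
  have hUk : U (g ^ (p ^ (r - 1))) = 1 := by rw [map_pow, h1]
  have hgk : g ^ (p ^ (r - 1)) = 1 := by
    apply FaithfulSMul.eq_of_smul_eq_smul (α := Ω)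
    intro ω
    obtain ⟨a, rfl⟩ := htr ω
    rw [one_smul]
    have hthis : g ^ (p ^ (r - 1)) * τ a * (g ^ (p ^ (r - 1)))⁻¹ = τ a := by
      rw [hconj, hUk]; rfl
    calc g ^ (p ^ (r - 1)) • τ a • ω₀
        = (g ^ (p ^ (r - 1)) * τ a * (g ^ (p ^ (r - 1)))⁻¹) • g ^ (p ^ (r - 1)) • ω₀ := by
          rw [mul_smul, mul_smul, inv_smul_smul]
      _ = τ a • ω₀ := by rw [hthis, hfix0]
  have hdvd := orderOf_dvd_of_pow_eq_one hgk
  rw [hg] at hdvd
  have hle := Nat.le_of_dvd (Nat.pos_of_ne_zero (pow_ne_zero (r - 1) hp.ne_zero)) hdvd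
  have hpr : p ^ r = p ^ (r - 1) * p := by
    rw [← pow_succ]; congr 1; omega
  have hpos : 0 < p ^ (r - 1) := Nat.pos_of_ne_zero (pow_ne_zero (r - 1) hp.ne_zero)
  nlinarith [hp.two_le]

theorem s3508 {G : Type*} [Group G] [Finite G] {Ω : Type*} [Fintype Ω] [MulAction G Ω]
    [FaithfulSMul G Ω] (p m : ℕ) (hp : p.Prime) (hcard : Fintype.card Ω = p ^ m)
    (N : Subgroup G) [hNn : N.Normal] (hNc : IsMulCommutative N) (hNp : ∀ n ∈ N, n ^ p = 1)
    (hNtr : MulAction.IsPretransitive N Ω) (hNreg : ∀ ω : Ω, MulAction.stabilizer N ω = ⊥)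
    (g : G) (r : ℕ) (hr : 1 ≤ r) (hg : orderOf g = p ^ r) :
    p ^ (r - 1) ≤ m ∧ (r = m → m ≤ 2 ∧ (2 < p → m ≤ 1)) := by
  haveI : Fact p.Prime := ⟨hp⟩
  have key : p ^ (r - 1) ≤ m := by
    letI : CommGroup N := { (inferInstance : Group N) with mul_comm := fun a b => mul_comm' a b }
    letI : Module (ZMod p) (Additive N) := AddCommGroup.zmodModule (n := p) (by
      intro x
      apply Additive.toMul.injective
      rw [toMul_nsmul, toMul_zero]
      apply Subtype.ext
      rw [Subgroup.coe_pow]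
      exact hNp _ (Additive.toMul x).2)
    let c : G → Additive N → Additive N := fun x a => Additive.ofMul
      (⟨x * ((Additive.toMul a : N) : G) * x⁻¹, hNn.conj_mem _ (Additive.toMul a).2 x⟩ : N)
    have hcj : ∀ (x : G) (a : Additive N),
        ((Additive.toMul (c x a) : N) : G) = x * ((Additive.toMul a : N) : G) * x⁻¹ :=
      fun x a => rfl
    have hc_add : ∀ x a b, c x (a + b) = c x a + c x b := by
      intro x a b
      apply Additive.toMul.injective
      apply Subtype.ext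
      show x * (((Additive.toMul a : N) : G) * ((Additive.toMul b : N) : G)) * x⁻¹
        = (x * ((Additive.toMul a : N) : G) * x⁻¹) * (x * ((Additive.toMul b : N) : G) * x⁻¹)
      group
    have hc_one : ∀ a, c 1 a = a := by
      intro a
      apply Additive.toMul.injective
      apply Subtype.ext
      rw [hcj, one_mul, inv_one, mul_one]
    have hc_mul : ∀ x y a, c (x * y) a = c x (c y a) := by
      intro x y a
      apply Additive.toMul.injective
      apply Subtype.ext
      rw [hcj, hcj, hcj]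
      group
    have hΩ : 0 < Fintype.card Ω := by rw [hcard]; exact pow_pos hp.pos m
    obtain ⟨ω₀⟩ := Fintype.card_pos_iff.mp hΩ
    have hA : Nat.card (Additive N) = p ^ m := by
      have h1 := MulAction.index_stabilizer_of_transitive (G := N) (x := ω₀)
      rw [hNreg, Subgroup.index_bot, Nat.card_eq_fintype_card (α := Ω), hcard] at h1
      exact h1
    exact affine_order_bound (A := Additive N) p c hc_add hc_one hc_mul
      (fun a => ((Additive.toMul a : N) : G))
      (fun a b => rfl) (fun x a => (hcj x a).symm) ω₀ (fun ω => by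
        obtain ⟨n, hn⟩ := MulAction.exists_smul_eq N ω₀ ω
        exact ⟨Additive.ofMul n, hn.symm⟩) m hA g r hr hg
  refine ⟨key, ?_⟩
  intro hrm
  subst hrm
  have h2 : ∀ j : ℕ, j + 4 ≤ 2 ^ (j + 2) := by
    intro j
    induction j with
    | zero => norm_num
    | succ i ih => rw [pow_succ]; omega
  have h3 : ∀ j : ℕ, j + 3 ≤ 3 ^ (j + 1) := by
    intro j
    induction j with
    | zero => norm_num
    | succ i ih => rw [pow_succ]; omega
  refine ⟨?_, ?_⟩
  · by_contra hgt
    push Not at hgt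
    obtain ⟨j, rfl⟩ : ∃ j, r = j + 3 := ⟨r - 3, by omega⟩
    have e1 : 2 ^ (j + 3 - 1) ≤ p ^ (j + 3 - 1) := Nat.pow_le_pow_left hp.two_le _
    have e2 := h2 j
    have e3 : j + 3 - 1 = j + 2 := by omega
    rw [e3] at e1 key
    omega
  · intro hp3
    by_contra hgt
    push Not at hgt
    obtain ⟨j, rfl⟩ : ∃ j, r = j + 2 := ⟨r - 2, by omega⟩
    have e1 : 3 ^ (j + 2 - 1) ≤ p ^ (j + 2 - 1) := Nat.pow_le_pow_left hp3 _
    have e2 := h3 j
    have e3 : j + 2 - 1 = j + 1 := by omega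
    rw [e3] at e1 key
    omega

end Cfsg.Agent.Lib_helper9_AffOrder
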