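import Mathlib

namespace Cfsg.Agent.Lib_helper9_Bochert

theorem p_apply_inv {Ω : Type*} (f : Equiv.Perm Ω) (ω : Ω) : f (f⁻¹ ω) = ω := f.apply_symm_apply ω

theorem p_inv_apply {Ω : Type*} (f : Equiv.Perm Ω) (ω : Ω) : f⁻¹ (f ω) = ω := f.symm_apply_apply ω

theorem three_cycle_of_inter {Ω : Type*} [Fintype Ω] [DecidableEq Ω] (x y : Equiv.Perm Ω) (α : Ω)
    (hx : x α ≠ α) (hy : y α ≠ α) (hinter : ∀ ω, x ω ≠ ω → y ω ≠ ω → ω = α) :
    (x * y * x⁻¹ * y⁻¹).IsThreeCycle := by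
  have hxy : ∀ ω, x ω ≠ ω → ω ≠ α → y ω = ω :=
    fun ω h1 h2 => by_contra fun h3 => h2 (hinter ω h1 h3)
  have hyx : ∀ ω, y ω ≠ ω → ω ≠ α → x ω = ω :=
    fun ω h1 h2 => by_contra fun h3 => h2 (hinter ω h3 h1)
  have hxα : x (x α) ≠ x α := fun h => hx (x.injective h)
  have hyα : y (y α) ≠ y α := fun h => hy (y.injective h)
  have h1 : y (x α) = x α := hxy (x α) hxα hx
  have h2 : x (y α) = y α := hyx (y α) hyα hy
  -- inverse images
  have hxi : ∀ ω, x ω = ω → x⁻¹ ω = ω := fun ω h => by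
    rw [Equiv.Perm.inv_eq_iff_eq]; exact h.symm
  have hyi : ∀ ω, y ω = ω → y⁻¹ ω = ω := fun ω h => by
    rw [Equiv.Perm.inv_eq_iff_eq]; exact h.symm
  have hcα : (x * y * x⁻¹ * y⁻¹) α = x α := by
    have ha1 : y (y⁻¹ α) ≠ y⁻¹ α := by
      rw [p_apply_inv]
      intro h
      apply hy
      conv_lhs => rw [h]
      rw [p_apply_inv]
    have ha2 : y⁻¹ α ≠ α := by
      intro h
      apply hy
      rw [Equiv.Perm.inv_eq_iff_eq] at h
      exact h.symm
    have ha3 : x (y⁻¹ α) = y⁻¹ α := hyx _ ha1 ha2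
    simp only [Equiv.Perm.mul_apply]
    rw [hxi _ ha3, p_apply_inv]
  have hcx : (x * y * x⁻¹ * y⁻¹) (x α) = y α := by
    simp only [Equiv.Perm.mul_apply]
    rw [hyi _ h1, p_inv_apply, h2]
  have hcy : (x * y * x⁻¹ * y⁻¹) (y α) = α := by
    have hb1 : x (x⁻¹ α) ≠ x⁻¹ α := by
      rw [p_apply_inv]
      intro h
      apply hx
      conv_lhs => rw [h]
      rw [p_apply_inv]
    have hb2 : x⁻¹ α ≠ α := by
      intro h
      apply hx
      rw [Equiv.Perm.inv_eq_iff_eq] at h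
      exact h.symm
    have hb3 : y (x⁻¹ α) = x⁻¹ α := hxy _ hb1 hb2
    simp only [Equiv.Perm.mul_apply]
    rw [p_inv_apply, hb3, p_apply_inv]
  have hcfix : ∀ ω, ω ≠ α → ω ≠ x α → ω ≠ y α → (x * y * x⁻¹ * y⁻¹) ω = ω := by
    intro ω hω1 hω2 hω3
    simp only [Equiv.Perm.mul_apply]
    by_cases hyω : y ω = ω
    · rw [hyi ω hyω]
      by_cases hxω : x ω = ω
      · rw [hxi ω hxω, hyω, hxω]
      · have hc1 : x (x⁻¹ ω) ≠ x⁻¹ ω := by
          rw [p_apply_inv]
          intro h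
          apply hxω
          conv_lhs => rw [h]
          rw [p_apply_inv]
        have hc2 : x⁻¹ ω ≠ α := by
          intro h
          apply hω2
          rw [Equiv.Perm.inv_eq_iff_eq] at h
          exact h
        rw [hxy _ hc1 hc2, p_apply_inv]
    · have hxω : x ω = ω := hyx ω hyω hω1
      have hd1 : y (y⁻¹ ω) ≠ y⁻¹ ω := by
        rw [p_apply_inv]
        intro h
        apply hyω
        conv_lhs => rw [h]
        rw [p_apply_inv]
      have hd2 : y⁻¹ ω ≠ α := by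
        intro h
        apply hω3
        rw [Equiv.Perm.inv_eq_iff_eq] at h
        exact h
      have hd3 : x (y⁻¹ ω) = y⁻¹ ω := hyx _ hd1 hd2
      rw [hxi _ hd3, p_apply_inv, hxω]
  have hne : x α ≠ y α := by
    intro h
    rw [h] at h1
    exact hyα h1
  have hsupp : (x * y * x⁻¹ * y⁻¹).support = {α, x α, y α} := by
    ext ω
    rw [Equiv.Perm.mem_support]
    simp only [Finset.mem_insert, Finset.mem_singleton]
    constructor
    · intro h
      by_contra hcon
      simp only [not_or] at hcon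
      exact h (hcfix ω hcon.1 hcon.2.1 hcon.2.2)
    · rintro (rfl | rfl | rfl)
      · rw [hcα]; exact hx
      · rw [hcx]; exact fun h => hne h.symm
      · rw [hcy]; exact fun h => hy h.symm
  rw [← card_support_eq_three_iff, hsupp]
  rw [Finset.card_insert_of_notMem, Finset.card_insert_of_notMem, Finset.card_singleton]
  · simp only [Finset.mem_singleton]; exact hne
  · simp only [Finset.mem_insert, Finset.mem_singleton, not_or]
    exact ⟨fun h => hx h.symm, fun h => hy h.symm⟩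

theorem bochert_sub {Ω : Type*} [Fintype Ω] [DecidableEq Ω] (R : Subgroup (Equiv.Perm Ω))
    (hprim : MulAction.IsPreprimitive R Ω) (hA : ¬ alternatingGroup Ω ≤ R) :
    Nat.card R * Nat.factorial ((Fintype.card Ω + 1) / 2) ≤ Nat.factorial (Fintype.card Ω) := by
  classical
  have hno3 : ∀ g ∈ R, ¬ g.IsThreeCycle := fun g hg h3 =>
    hA (Equiv.Perm.alternatingGroup_le_of_isPreprimitive_of_isThreeCycle_mem hprim h3 hg)
  have hPuniv : ∀ g ∈ R, (∀ ω ∈ (Finset.univ : Finset Ω), g ω = ω) → g = 1 :=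
    fun g _ h => Equiv.ext (fun ω => h ω (Finset.mem_univ ω))
  obtain ⟨Δ, hΔ, hmin⟩ : ∃ Δ : Finset Ω, (∀ g ∈ R, (∀ ω ∈ Δ, g ω = ω) → g = 1) ∧
      ∀ Δ' : Finset Ω, (∀ g ∈ R, (∀ ω ∈ Δ', g ω = ω) → g = 1) → Δ.card ≤ Δ'.card := by
    obtain ⟨Δ, hΔ, hmin⟩ := Finset.exists_min_image
      (Finset.univ.filter (fun Δ : Finset Ω => ∀ g ∈ R, (∀ ω ∈ Δ, g ω = ω) → g = 1)) Finset.card
      ⟨Finset.univ, Finset.mem_filter.mpr ⟨Finset.mem_univ _, hPuniv⟩⟩
    exact ⟨Δ, (Finset.mem_filter.mp hΔ).2, fun Δ' h' =>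
      hmin Δ' (Finset.mem_filter.mpr ⟨Finset.mem_univ _, h'⟩)⟩
  have hPc : ∀ g ∈ R, (∀ ω ∈ Δᶜ, g ω = ω) → g = 1 := by
    intro x hxR hxfix
    by_contra hx1
    obtain ⟨α, hα⟩ : ∃ α, x α ≠ α := by
      by_contra hall
      simp only [not_exists, not_not] at hall
      exact hx1 (Equiv.ext hall)
    have hαΔ : α ∈ Δ := by
      by_contra h; exact hα (hxfix α (Finset.mem_compl.mpr h))
    have hnot : ¬ (∀ g ∈ R, (∀ ω ∈ Δ.erase α, g ω = ω) → g = 1) := fun h => by
      have h5 := hmin _ h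
      rw [Finset.card_erase_of_mem hαΔ] at h5
      have hpos : 0 < Δ.card := Finset.card_pos.mpr ⟨α, hαΔ⟩
      omega
    simp only [not_forall] at hnot
    obtain ⟨y, hyR, hyfix, hy1⟩ := hnot
    have hyα : y α ≠ α := by
      intro h
      apply hy1
      apply hΔ y hyR
      intro ω hω
      by_cases hωα : ω = α
      · rw [hωα]; exact h
      · exact hyfix ω (Finset.mem_erase.mpr ⟨hωα, hω⟩)
    have h3 := three_cycle_of_inter x y α hα hyα (by
      intro ω hxω hyω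
      by_contra hne
      have hωΔ : ω ∈ Δ := by
        by_contra h; exact hxω (hxfix ω (Finset.mem_compl.mpr h))
      exact hyω (hyfix ω (Finset.mem_erase.mpr ⟨hne, hωΔ⟩)))
    exact hno3 _ (R.mul_mem (R.mul_mem (R.mul_mem hxR hyR) (R.inv_mem hxR)) (R.inv_mem hyR)) h3
  obtain ⟨S, hS, hcard⟩ : ∃ S : Finset Ω, (∀ g ∈ R, (∀ ω ∈ Sᶜ, g ω = ω) → g = 1) ∧
      (Fintype.card Ω + 1) / 2 ≤ S.card := by
    by_cases h : (Fintype.card Ω + 1) / 2 ≤ Δ.card
    · exact ⟨Δ, hPc, h⟩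
    · refine ⟨Δᶜ, by rwa [compl_compl], ?_⟩
      rw [Finset.card_compl]; omega
  have hinj : Function.Injective (fun p : R × Equiv.Perm {x // x ∈ S} =>
      (p.1 : Equiv.Perm Ω) * Equiv.Perm.ofSubtype p.2) := by
    rintro ⟨r, s⟩ ⟨r', s'⟩ h
    simp only at h
    have h1 : (r' : Equiv.Perm Ω)⁻¹ * r = Equiv.Perm.ofSubtype (s' * s⁻¹) := by
      rw [map_mul, map_inv, eq_mul_inv_iff_mul_eq, mul_assoc, h, inv_mul_cancel_left]
    have h2 : (r' : Equiv.Perm Ω)⁻¹ * r = 1 := by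
      apply hS _ (R.mul_mem (R.inv_mem r'.2) r.2)
      intro ω hω
      rw [h1]
      exact Equiv.Perm.ofSubtype_apply_of_not_mem _ (Finset.mem_compl.mp hω)
    have h3 : r = r' := by
      apply Subtype.ext
      exact (inv_mul_eq_one.mp h2).symm
    have h4 : s = s' := by
      rw [h2] at h1
      have h5 : s' * s⁻¹ = 1 := Equiv.Perm.ofSubtype_injective (h1.symm.trans (map_one _).symm)
      exact (mul_inv_eq_one.mp h5).symm
    rw [h3, h4]
  have hle := Nat.card_le_card_of_injective _ hinj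
  have e1 : Nat.card {x // x ∈ S} = S.card := by rw [Nat.card_eq_fintype_card, Fintype.card_coe]
  have e2 : Nat.card Ω = Fintype.card Ω := Nat.card_eq_fintype_card
  rw [Nat.card_prod, Nat.card_perm, Nat.card_perm, e1, e2] at hle
  calc Nat.card R * Nat.factorial ((Fintype.card Ω + 1) / 2)
      ≤ Nat.card R * Nat.factorial S.card := Nat.mul_le_mul_left _ (Nat.factorial_le hcard)
    _ ≤ _ := hle

theorem s3681 {G Ω : Type*} [Group G] [Finite G] [MulAction G Ω] [FaithfulSMul G Ω] [Fintype Ω]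
    [DecidableEq Ω]
    (hprim : MulAction.IsPreprimitive G Ω)
    (hA : ¬ alternatingGroup Ω ≤ (MulAction.toPermHom G Ω).range) :
    Nat.card G * Nat.factorial ((Fintype.card Ω + 1) / 2) ≤ Nat.factorial (Fintype.card Ω) := by
  have hprimR : MulAction.IsPreprimitive (MulAction.toPermHom G Ω).range Ω := by
    let f : Ω →ₑ[(MulAction.toPermHom G Ω).rangeRestrict] Ω := ⟨id, fun g ω => rfl⟩
    exact (MulAction.isPreprimitive_congr (f := f) (MonoidHom.rangeRestrict_surjective _)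
      Function.bijective_id).mp hprim
  have hcard : Nat.card G = Nat.card (MulAction.toPermHom G Ω).range :=
    Nat.card_congr (MonoidHom.ofInjective (f := MulAction.toPermHom G Ω)
      MulAction.toPerm_injective).toEquiv
  rw [hcard]
  exact bochert_sub _ hprimR hA

end Cfsg.Agent.Lib_helper9_Bochert
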