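import Mathlib
import Cfsg.Agent.Lib_helper9_PGroup
import Cfsg.Agent.Lib_helper1_Fitting
import Cfsg.Agent.Lib_helper2_PComp
import Cfsg.Agent.Lib_helper7_PCore

set_option autoImplicit false

namespace Cfsg.Agent.Lib_helper9_CycInt

open Subgroup

theorem cyclic_two_aut {C : Type*} [Group C] [Finite C] [IsCyclic C] (k : ℕ)
    (hC : Nat.card C = 2 ^ k) (α : MulAut C) (m : ℕ) (hm : Odd m) (hα : α ^ m = 1) : α = 1 := by
  have hcard : ∃ j, Nat.card (MulAut C) = 2 ^ j := by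
    rw [IsCyclic.card_mulAut, hC]
    rcases Nat.eq_zero_or_pos k with h0 | h0
    · exact ⟨0, by rw [h0, pow_zero, Nat.totient_one]⟩
    · exact ⟨k - 1, by rw [Nat.totient_prime_pow Nat.prime_two h0]; simp⟩
  obtain ⟨j, hj⟩ := hcard
  have h1 : α ^ (2 ^ j) = 1 := by rw [← hj]; exact pow_card_eq_one'
  have h2 : orderOf α ∣ m := orderOf_dvd_of_pow_eq_one hα
  have h3 : orderOf α ∣ 2 ^ j := orderOf_dvd_of_pow_eq_one h1
  have h4 : Nat.Coprime m (2 ^ j) := Nat.Coprime.pow_right j (Nat.coprime_two_right.mpr hm)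
  exact orderOf_eq_one_iff.mp (Nat.Coprime.eq_one_of_dvd (Nat.Coprime.coprime_dvd_left h2 h4) h3)

theorem isPGroup_of_cyclic_pCore {Q : Type*} [Group Q] [Finite Q] [Group.IsSolvable Q]
    (hO : Cfsg.pPrimeCore 2 Q = ⊥) (hcyc : IsCyclic (Cfsg.pCore 2 Q)) : IsPGroup 2 Q := by
  haveI : Fact (Nat.Prime 2) := ⟨Nat.prime_two⟩
  have hcen := Cfsg.Agent.Lib_helper1_Fitting.centralizer_pCore_le (G := Q) 2 hO
  haveI hN : (Cfsg.pCore 2 Q).Normal := Cfsg.Agent.Lib_helper7_PCore.pCore_normal 2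
  have hP : IsPGroup 2 (Cfsg.pCore 2 Q) := Cfsg.Agent.Lib_helper7_PCore.pCore_isPGroup 2
  obtain ⟨k, hk⟩ := IsPGroup.iff_card.mp hP
  have hodd : ∀ x : Q, ∀ m : ℕ, Odd m → x ^ m = 1 → x = 1 := by
    intro x m hm hx
    have h1 : (MulAut.conjNormal x : MulAut (Cfsg.pCore 2 Q)) ^ m = 1 := by
      rw [← map_pow, hx, map_one]
    have h2 := cyclic_two_aut k hk _ m hm h1
    have h3 : x ∈ Subgroup.centralizer (Cfsg.pCore 2 Q : Set Q) := by
      rw [Subgroup.mem_centralizer_iff]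
      intro y hy
      have h4 : ((MulAut.conjNormal x : MulAut (Cfsg.pCore 2 Q)) ⟨y, hy⟩ : Q) = y := by
        rw [h2]; rfl
      rw [MulAut.conjNormal_apply] at h4
      exact (mul_inv_eq_iff_eq_mul.mp h4).symm
    have h5 : x ∈ Cfsg.pCore 2 Q := hcen h3
    obtain ⟨j, hj⟩ := hP ⟨x, h5⟩
    have h6 : x ^ (2 ^ j) = 1 := congrArg Subtype.val hj
    have h7 : orderOf x ∣ m := orderOf_dvd_of_pow_eq_one hx
    have h8 : orderOf x ∣ 2 ^ j := orderOf_dvd_of_pow_eq_one h6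
    have h9 : Nat.Coprime m (2 ^ j) := Nat.Coprime.pow_right j (Nat.coprime_two_right.mpr hm)
    exact orderOf_eq_one_iff.mp (Nat.Coprime.eq_one_of_dvd (Nat.Coprime.coprime_dvd_left h7 h9) h8)
  intro g
  obtain ⟨k', m, hm, hkm⟩ := Nat.exists_eq_two_pow_mul_odd (orderOf_pos g).ne'
  refine ⟨k', ?_⟩
  apply hodd (g ^ (2 ^ k')) m hm
  rw [← pow_mul, ← hkm, pow_orderOf_eq_one]

theorem inf_map_cyclic {G : Type*} [Group G] [Finite G] (N : Subgroup G) [N.Normal]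
    (hC : ∀ S T : Sylow 2 G, S ≠ T → IsCyclic ↥((S : Subgroup G) ⊓ (T : Subgroup G)))
    (S T : Sylow 2 G)
    (hST : (S : Subgroup G).map (QuotientGroup.mk' N) ≠ (T : Subgroup G).map (QuotientGroup.mk' N)) :
    IsCyclic ↥((S : Subgroup G).map (QuotientGroup.mk' N) ⊓
      (T : Subgroup G).map (QuotientGroup.mk' N)) := by
  haveI : Fact (Nat.Prime 2) := ⟨Nat.prime_two⟩
  obtain ⟨π, hπ⟩ : ∃ π : G →* G ⧸ N, π = QuotientGroup.mk' N := ⟨_, rfl⟩
  rw [← hπ] at hST ⊢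
  obtain ⟨H, hH⟩ : ∃ H : Subgroup G, H = ((T : Subgroup G).map π).comap π := ⟨_, rfl⟩
  have hTH : (T : Subgroup G) ≤ H := by rw [hH]; exact Subgroup.le_comap_map π _
  obtain ⟨D, hD⟩ : ∃ D : Subgroup G, D = (S : Subgroup G) ⊓ H := ⟨_, rfl⟩
  have hDS : D ≤ (S : Subgroup G) := by rw [hD]; exact inf_le_left
  have hDH : D ≤ H := by rw [hD]; exact inf_le_right
  have hD2 : IsPGroup 2 D := S.2.to_le hDS
  obtain ⟨k, hk⟩ := Cfsg.Agent.Lib_helper9_PGroup.exists_conj_le_sylow (T.subtype hTH)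
    (D.subgroupOf H) (hD2.comap_subtype)
  have hHmem : ∀ x : G, x ∈ H ↔ π x ∈ (T : Subgroup G).map π := by
    intro x; rw [hH]; rfl
  have hky : π (k : G) ∈ (T : Subgroup G).map π := (hHmem _).mp k.2
  have hconj : ∀ d ∈ D, (k : G) * d * (k : G)⁻¹ ∈ (T : Subgroup G) := by
    intro d hd
    have h1 := hk ⟨d, hDH hd⟩ (Subgroup.mem_subgroupOf.mpr hd)
    rw [Sylow.coe_subtype] at h1
    exact Subgroup.mem_subgroupOf.mp h1
  have hmemT' : ∀ x : G, x ∈ (((k : G)⁻¹ • T : Sylow 2 G) : Subgroup G) ↔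
      (k : G) * x * (k : G)⁻¹ ∈ (T : Subgroup G) := by
    intro x
    rw [Sylow.coe_subgroup_smul, Subgroup.mem_pointwise_smul_iff_inv_smul_mem]
    simp [MulAut.smul_def]
  have hDT' : D ≤ (((k : G)⁻¹ • T : Sylow 2 G) : Subgroup G) := by
    intro d hd
    exact (hmemT' d).mpr (hconj d hd)
  have hmapT' : (((k : G)⁻¹ • T : Sylow 2 G) : Subgroup G).map π = (T : Subgroup G).map π := by
    apply le_antisymm
    · rintro _ ⟨x, hx, rfl⟩
      have h1 : π ((k : G) * x * (k : G)⁻¹) ∈ (T : Subgroup G).map π :=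
        Subgroup.mem_map_of_mem π ((hmemT' x).mp hx)
      have h2 : π x = (π (k : G))⁻¹ * π ((k : G) * x * (k : G)⁻¹) * π (k : G) := by
        simp only [map_mul, map_inv]; group
      rw [h2]
      exact mul_mem (mul_mem (inv_mem hky) h1) hky
    · rintro _ ⟨t, ht, rfl⟩
      obtain ⟨t₀, ht₀, ht₀k⟩ := hky
      have h1 : (k : G)⁻¹ * (t₀ * t * t₀⁻¹) * (k : G) ∈
          (((k : G)⁻¹ • T : Sylow 2 G) : Subgroup G) := by
        rw [hmemT']
        have : (k : G) * ((k : G)⁻¹ * (t₀ * t * t₀⁻¹) * (k : G)) * (k : G)⁻¹ = t₀ * t * t₀⁻¹ := by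
          group
        rw [this]
        exact mul_mem (mul_mem ht₀ ht) (inv_mem ht₀)
      have h2 : π ((k : G)⁻¹ * (t₀ * t * t₀⁻¹) * (k : G)) = π t := by
        simp only [map_mul, map_inv, ht₀k]; group
      rw [← h2]
      exact Subgroup.mem_map_of_mem π h1
  have hne : S ≠ ((k : G)⁻¹ • T : Sylow 2 G) := by
    intro h
    apply hST
    rw [← hmapT', ← h]
  haveI hcyc := hC S _ hne
  have hDle : D ≤ (S : Subgroup G) ⊓ (((k : G)⁻¹ • T : Sylow 2 G) : Subgroup G) :=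
    le_inf hDS hDT'
  haveI hDcyc : IsCyclic D :=
    isCyclic_of_injective (Subgroup.inclusion hDle) (Subgroup.inclusion_injective hDle)
  have heq : (S : Subgroup G).map π ⊓ (T : Subgroup G).map π = D.map π := by
    apply le_antisymm
    · rintro x ⟨⟨s, hs, rfl⟩, hx2⟩
      refine Subgroup.mem_map_of_mem π ?_
      rw [hD]
      exact ⟨hs, (hHmem s).mpr hx2⟩
    · rintro _ ⟨d, hd, rfl⟩
      exact ⟨Subgroup.mem_map_of_mem π (hDS hd), (hHmem d).mp (hDH hd)⟩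
  rw [heq]
  exact isCyclic_of_surjective (π.subgroupMap D) (π.subgroupMap_surjective D)

theorem cyclic_int_main {G : Type*} [Group G] [Finite G] (hs : Group.IsSolvable G)
    (hC : ∀ S T : Sylow 2 G, S ≠ T → IsCyclic ↥((S : Subgroup G) ⊓ (T : Subgroup G))) :
    ∃ P : Sylow 2 (G ⧸ Cfsg.oddCore G), (P : Subgroup (G ⧸ Cfsg.oddCore G)).Normal := by
  haveI : Fact (Nat.Prime 2) := ⟨Nat.prime_two⟩
  have hsurj : Function.Surjective (QuotientGroup.mk' (Cfsg.oddCore G)) :=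
    QuotientGroup.mk'_surjective _
  obtain ⟨P⟩ : Nonempty (Sylow 2 (G ⧸ Cfsg.oddCore G)) := inferInstance
  refine ⟨P, ?_⟩
  by_contra hnot
  have hex : ∃ g : G ⧸ Cfsg.oddCore G, g • P ≠ P := by
    by_contra hall
    push Not at hall
    apply hnot
    have h1 : Subgroup.normalizer ((P : Subgroup (G ⧸ Cfsg.oddCore G)) : Set (G ⧸ Cfsg.oddCore G)) = ⊤ := by
      rw [eq_top_iff]; intro g _; exact Sylow.smul_eq_iff_mem_normalizer.mp (hall g)
    exact Subgroup.normalizer_eq_top_iff.mp h1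
  obtain ⟨g, hg⟩ := hex
  obtain ⟨S, hS⟩ := Sylow.mapSurjective_surjective hsurj 2 P
  obtain ⟨T, hT⟩ := Sylow.mapSurjective_surjective hsurj 2 (g • P)
  have hS' : (S : Subgroup G).map (QuotientGroup.mk' (Cfsg.oddCore G)) = P := by rw [← hS]; rfl
  have hT' : (T : Subgroup G).map (QuotientGroup.mk' (Cfsg.oddCore G)) = (g • P : Sylow 2 _) := by
    rw [← hT]; rfl
  have hne : (S : Subgroup G).map (QuotientGroup.mk' (Cfsg.oddCore G)) ≠
      (T : Subgroup G).map (QuotientGroup.mk' (Cfsg.oddCore G)) := by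
    rw [hS', hT']; intro h; exact hg (Sylow.ext h.symm)
  have hcyc := inf_map_cyclic (Cfsg.oddCore G) hC S T hne
  rw [hS', hT'] at hcyc
  have hle : Cfsg.pCore 2 (G ⧸ Cfsg.oddCore G) ≤
      (P : Subgroup _) ⊓ ((g • P : Sylow 2 _) : Subgroup _) :=
    le_inf (Cfsg.Agent.Lib_helper7_PCore.pCore_le_sylow P)
      (Cfsg.Agent.Lib_helper7_PCore.pCore_le_sylow (g • P))
  have hcyc' : IsCyclic (Cfsg.pCore 2 (G ⧸ Cfsg.oddCore G)) :=
    isCyclic_of_injective (Subgroup.inclusion hle) (Subgroup.inclusion_injective hle)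
  have hbot : Cfsg.pPrimeCore 2 (G ⧸ Cfsg.oddCore G) = ⊥ :=
    Cfsg.Agent.Lib_helper2_PComp.pPrimeCore_quotient_bot (X := G) 2
  have h2 : IsPGroup 2 (G ⧸ Cfsg.oddCore G) := isPGroup_of_cyclic_pCore hbot hcyc'
  have hP1 : (⊤ : Subgroup (G ⧸ Cfsg.oddCore G)) = P := P.3 (h2.to_subgroup ⊤) le_top
  have hP2 : (⊤ : Subgroup (G ⧸ Cfsg.oddCore G)) = (g • P : Sylow 2 _) :=
    (g • P).3 (h2.to_subgroup ⊤) le_top
  exact hg (Sylow.ext (hP2.symm.trans hP1))

end Cfsg.Agent.Lib_helper9_CycInt
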