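import Mathlib

namespace Cfsg.Agent.Lib_helper9_GLHom

theorem gl0 (p : ℕ) [Fact p.Prime] {W : Type*} [AddCommGroup W] [Module (ZMod p) W] [Finite W]
    (e : ℕ) (hcard : Nat.card W = p ^ e) {Γ : Type*} [Group Γ] (ρ : Γ → W →+ W)
    (hρ1 : ∀ w, ρ 1 w = w) (hρmul : ∀ a b w, ρ (a * b) w = ρ a (ρ b w)) :
    ∃ ψ : Γ →* GL (Fin e) (ZMod p), ∀ g, ψ g = 1 ↔ ∀ w, ρ g w = w := by
  have hfr : Module.finrank (ZMod p) W = e := by
    have h1 := Module.natCard_eq_pow_finrank (K := ZMod p) (V := W)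
    rw [Nat.card_zmod, hcard] at h1
    exact (Nat.pow_right_injective (Fact.out : p.Prime).two_le h1).symm
  let b := Module.finBasisOfFinrankEq (ZMod p) W hfr
  let ψ₀ : Γ →* Module.End (ZMod p) W :=
    { toFun := fun g => (ρ g).toZModLinearMap p
      map_one' := LinearMap.ext hρ1
      map_mul' := fun a b => LinearMap.ext (hρmul a b) }
  refine ⟨(Units.map (MonoidHomClass.toMonoidHom (LinearMap.toMatrixAlgEquiv b))).comp
    ψ₀.toHomUnits, fun g => ?_⟩
  constructor
  · intro h w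
    have h1 : (LinearMap.toMatrixAlgEquiv b) (ψ₀ g) = 1 := congrArg Units.val h
    have h2 : ψ₀ g = 1 := by
      apply (LinearMap.toMatrixAlgEquiv b).injective
      rw [h1, map_one]
    exact congrArg (fun f : Module.End (ZMod p) W => f w) h2
  · intro h
    have h2 : ψ₀ g = 1 := LinearMap.ext h
    apply Units.ext
    show (LinearMap.toMatrixAlgEquiv b) (ψ₀ g) = 1
    rw [h2, map_one]

theorem gl1 (p : ℕ) [Fact p.Prime] {V : Type*} [CommGroup V] [Finite V] (e : ℕ)
    (hexp : ∀ a : V, a ^ p = 1) (hcard : Nat.card V = p ^ e) {Γ : Type*} [Group Γ]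
    (ρ : Γ → V →* V) (hρ1 : ∀ w, ρ 1 w = w) (hρmul : ∀ a b w, ρ (a * b) w = ρ a (ρ b w)) :
    ∃ ψ : Γ →* GL (Fin e) (ZMod p), ∀ g, ψ g = 1 ↔ ∀ w, ρ g w = w := by
  letI : Module (ZMod p) (Additive V) := AddCommGroup.zmodModule (fun a => by
    have h := hexp a.toMul
    exact congrArg Additive.ofMul h)
  obtain ⟨ψ, hψ⟩ := gl0 p (W := Additive V) e hcard (fun g => MonoidHom.toAdditive (ρ g))
    (fun w => congrArg Additive.ofMul (hρ1 w.toMul))
    (fun a b w => congrArg Additive.ofMul (hρmul a b w.toMul))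
  refine ⟨ψ, fun g => ?_⟩
  rw [hψ g]
  constructor
  · intro h v
    exact congrArg Additive.toMul (h (Additive.ofMul v))
  · intro h w
    exact congrArg Additive.ofMul (h w.toMul)

theorem glhom (p : ℕ) [Fact p.Prime] {H : Type*} [Group H] (A : Subgroup H) [A.Normal] [Finite A]
    (e : ℕ) (hcomm : ∀ a ∈ A, ∀ b ∈ A, a * b = b * a) (hexp : ∀ a ∈ A, a ^ p = 1)
    (hcard : Nat.card A = p ^ e) :
    ∃ φ : H →* GL (Fin e) (ZMod p), ∀ h : H, φ h = 1 ↔ ∀ a ∈ A, h * a = a * h := by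
  letI : CommGroup A := { (inferInstance : Group A) with
    mul_comm := fun a b => Subtype.ext (hcomm a a.2 b b.2) }
  obtain ⟨ψ, hψ⟩ := gl1 p (V := A) e (fun a => Subtype.ext (by simpa using hexp a a.2)) hcard
    (fun h : H => (MulAut.conjNormal (H := A) h : MulAut A).toMonoidHom)
    (fun w => by simp) (fun a b w => by simp)
  refine ⟨ψ, fun h => ?_⟩
  rw [hψ h]
  constructor
  · intro h1 a ha
    have h2 := congrArg (fun x : A => (x : H)) (h1 ⟨a, ha⟩)
    simp only [MulEquiv.coe_toMonoidHom, MulAut.conjNormal_apply] at h2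
    calc h * a = h * a * h⁻¹ * h := by group
      _ = a * h := by rw [h2]
  · intro h1 a
    apply Subtype.ext
    simp only [MulEquiv.coe_toMonoidHom, MulAut.conjNormal_apply]
    rw [h1 a a.2]
    group

end Cfsg.Agent.Lib_helper9_GLHom
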