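import Mathlib
import Cfsg.Prelude.Def_Solvable
import Cfsg.Agent.Lib_helper9_Manning
import Cfsg.Agent.Lib_helper9_GLHom
import Cfsg.Agent.Lib_helper9_Fixity

namespace Cfsg.Agent.Lib_helper9_ExtPrim

open Cfsg.Agent.Lib_helper9_Manning

theorem nilpotent_central {X : Type*} [Group X] [Group.IsNilpotent X] [Nontrivial X] :
    ∃ z : X, z ≠ 1 ∧ ∀ x : X, z * x = x * z := by
  by_contra hcon
  simp only [not_exists, not_and] at hcon
  have h : ∀ n, Subgroup.upperCentralSeries X n = ⊥ := by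
    intro n
    induction n with
    | zero => exact Subgroup.upperCentralSeries_zero X
    | succ n ih =>
      rw [eq_bot_iff]
      intro x hx
      rw [Subgroup.mem_upperCentralSeries_succ_iff] at hx
      rw [Subgroup.mem_bot]
      by_contra hx1
      apply hcon x hx1
      intro y
      have h2 := hx y
      rw [ih, Subgroup.mem_bot, commutatorElement_def] at h2
      calc x * y = (x * y * x⁻¹ * y⁻¹) * y * x := by group
        _ = y * x := by rw [h2, one_mul]
  obtain ⟨n, hn⟩ := Group.IsNilpotent.nilpotent' (G := X)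
  rw [h n] at hn
  exact bot_ne_top hn

theorem card_sub_one_dvd {Z X : Type*} [Group Z] [Finite Z] [MulAction Z X] [Finite X] (α : X)
    (hα : ∀ z : Z, z • α = α) (hfree : ∀ (z : Z) (x : X), x ≠ α → z • x = x → z = 1) :
    Nat.card Z ∣ Nat.card X - 1 := by
  let S : SubMulAction Z X :=
    { carrier := {x | x ≠ α}
      smul_mem' := by
        intro z x hx h
        apply hx
        have : x = z⁻¹ • α := by rw [← h, inv_smul_smul]
        rw [this, hα] }
  have h1 : Nat.card Z ∣ Nat.card S := by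
    apply Cfsg.Agent.Lib_helper9_Fixity.card_dvd_of_free
    intro z x hx
    exact hfree z x x.2 (congrArg Subtype.val hx)
  have h2 : Nat.card S = Nat.card X - 1 := by
    have : Nat.card S = ({α}ᶜ : Set X).ncard := by
      rw [← Nat.card_coe_set_eq]; rfl
    rw [this, Set.ncard_compl, Set.ncard_singleton]
  rw [← h2]; exact h1

section
variable {G : Type*} [Group G] [Finite G] {Ω : Type*} [Finite Ω] [MulAction G Ω] [FaithfulSMul G Ω]

theorem map_le_normalizer (α : Ω) (N' : Subgroup (MulAction.stabilizer G α)) [hN : N'.Normal] :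
    MulAction.stabilizer G α ≤ Subgroup.normalizer
      ((N'.map (MulAction.stabilizer G α).subtype : Subgroup G) : Set G) := by
  have h1 : ((N'.map (MulAction.stabilizer G α).subtype).subgroupOf
      (MulAction.stabilizer G α)).Normal := by
    have : (N'.map (MulAction.stabilizer G α).subtype).subgroupOf (MulAction.stabilizer G α) = N' :=
      Subgroup.comap_map_eq_self_of_injective (MulAction.stabilizer G α).subtype_injective N'
    rw [this]; exact hN
  exact (Subgroup.normal_subgroupOf_iff_le_normalizer (Subgroup.map_subtype_le N')).mp h1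

theorem moves (hprim : MulAction.IsPreprimitive G Ω) (hH : ∀ α : Ω, MulAction.stabilizer G α ≠ ⊥)
    (hep : ∀ (α : Ω) (ω : Ω), MulAction.IsPreprimitive (MulAction.stabilizer G α)
      (MulAction.orbit (MulAction.stabilizer G α) ω))
    (α ω : Ω) (hω : ω ≠ α) (N' : Subgroup (MulAction.stabilizer G α)) [N'.Normal] (hN1 : N' ≠ ⊥) :
    ∃ n ∈ N', ((n : MulAction.stabilizer G α) : G) • ω ≠ ω := by
  by_contra hcon
  simp only [not_exists, not_and, not_not] at hcon
  apply hN1
  have h := manning hprim hH hep α ω hω (N'.map (MulAction.stabilizer G α).subtype)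
    (Subgroup.map_subtype_le N') (map_le_normalizer α N') (by
      rintro _ ⟨n, hn, rfl⟩
      exact hcon n hn)
  exact (Subgroup.map_eq_bot_iff_of_injective N' (MulAction.stabilizer G α).subtype_injective).mp h

theorem trans_on (hprim : MulAction.IsPreprimitive G Ω) (hH : ∀ α : Ω, MulAction.stabilizer G α ≠ ⊥)
    (hep : ∀ (α : Ω) (ω : Ω), MulAction.IsPreprimitive (MulAction.stabilizer G α)
      (MulAction.orbit (MulAction.stabilizer G α) ω))
    (α ω : Ω) (hω : ω ≠ α) (N' : Subgroup (MulAction.stabilizer G α)) [N'.Normal] (hN1 : N' ≠ ⊥)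
    (h : MulAction.stabilizer G α) :
    ∃ n ∈ N', (h : G) • ω = ((n : MulAction.stabilizer G α) : G) • ω := by
  obtain ⟨n₀, hn₀, hmove⟩ := moves hprim hH hep α ω hω N' hN1
  obtain ⟨k, ⟨n, hn, rfl⟩, e⟩ := normal_trans α ω (hep α ω)
    (N'.map (MulAction.stabilizer G α).subtype) (Subgroup.map_subtype_le N')
    (map_le_normalizer α N') (n₀ : G) ⟨n₀, hn₀, rfl⟩ hmove (h : G) h.2
  exact ⟨n, hn, e⟩

theorem cent_fix (hprim : MulAction.IsPreprimitive G Ω) (hH : ∀ α : Ω, MulAction.stabilizer G α ≠ ⊥)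
    (hep : ∀ (α : Ω) (ω : Ω), MulAction.IsPreprimitive (MulAction.stabilizer G α)
      (MulAction.orbit (MulAction.stabilizer G α) ω))
    (α ω : Ω) (hω : ω ≠ α) (N' : Subgroup (MulAction.stabilizer G α)) [N'.Normal] (hN1 : N' ≠ ⊥)
    (c : MulAction.stabilizer G α) (hc : ∀ n ∈ N', c * n = n * c) (hcω : (c : G) • ω = ω) :
    c = 1 := by
  apply s3494 hprim hH hep α ω hω c
  rintro x ⟨h, rfl⟩
  obtain ⟨n, hn, e⟩ := trans_on hprim hH hep α ω hω N' hN1 h
  show (c : G) • ((h : G) • ω) = (h : G) • ω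
  rw [e, smul_smul]
  have h1 : (c : G) * (n : G) = (n : G) * (c : G) := congrArg Subtype.val (hc n hn)
  rw [h1, mul_smul, hcω]

theorem exists_ne (α : Ω) (hH1 : MulAction.stabilizer G α ≠ ⊥) : ∃ ω : Ω, ω ≠ α := by
  obtain ⟨k, hk, hk1⟩ : ∃ k ∈ MulAction.stabilizer G α, k ≠ 1 := by
    obtain ⟨a, ha⟩ := Subgroup.ne_bot_iff_exists_ne_one.mp hH1
    exact ⟨a, a.2, fun h => ha (Subtype.ext h)⟩
  by_contra hcon
  simp only [not_exists, not_not] at hcon
  apply hk1
  apply FaithfulSMul.eq_of_smul_eq_smul (α := Ω)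
  intro u
  rw [hcon u, one_smul]
  exact MulAction.mem_stabilizer_iff.mp hk

theorem center_bot (hprim : MulAction.IsPreprimitive G Ω)
    (hH : ∀ α : Ω, MulAction.stabilizer G α ≠ ⊥)
    (hep : ∀ (α : Ω) (ω : Ω), MulAction.IsPreprimitive (MulAction.stabilizer G α)
      (MulAction.orbit (MulAction.stabilizer G α) ω))
    (α : Ω) (hHp : ¬ (Nat.card (MulAction.stabilizer G α)).Prime) :
    Subgroup.center (MulAction.stabilizer G α) = ⊥ := by
  by_contra hZ
  obtain ⟨ω, hω⟩ := exists_ne α (hH α)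
  have ha : ∀ c : MulAction.stabilizer G α, (c : G) • ω = ω → c = 1 := by
    intro c hc
    exact cent_fix hprim hH hep α ω hω (Subgroup.center _) hZ c
      (fun n hn => (Subgroup.mem_center_iff.mp hn c)) hc
  have hb : ∀ (L : Subgroup (MulAction.stabilizer G α)) [L.Normal], L ≠ ⊥ →
      ∀ h : MulAction.stabilizer G α, h ∈ L := by
    intro L _ hL h
    obtain ⟨n, hn, e⟩ := trans_on hprim hH hep α ω hω L hL h
    have h1 : n⁻¹ * h = 1 := by
      apply ha
      show ((n : G)⁻¹ * (h : G)) • ω = ω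
      rw [mul_smul, e, inv_smul_smul]
    have h2 : h = n := by
      calc h = n * (n⁻¹ * h) := by group
        _ = n := by rw [h1, mul_one]
    rw [h2]; exact hn
  have hcomm : ∀ a b : MulAction.stabilizer G α, a * b = b * a := by
    intro a b
    exact (Subgroup.mem_center_iff.mp (hb (Subgroup.center _) hZ b) a)
  have hcard1 : Nat.card (MulAction.stabilizer G α) ≠ 1 :=
    fun h => hH α (Subgroup.eq_bot_of_card_eq _ h)
  obtain ⟨p, hp, hpd⟩ := Nat.exists_prime_and_dvd hcard1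
  haveI : Fact p.Prime := ⟨hp⟩
  obtain ⟨x, hx⟩ := exists_prime_orderOf_dvd_card' p hpd
  haveI : (Subgroup.zpowers x).Normal := ⟨fun n hn g => by
    have h3 : g * n * g⁻¹ = n := by rw [hcomm g n]; group
    rw [h3]; exact hn⟩
  have hL : Subgroup.zpowers x ≠ ⊥ := by
    intro h
    rw [Subgroup.zpowers_eq_bot] at h
    rw [h, orderOf_one] at hx
    exact hp.ne_one hx.symm
  have htop : Subgroup.zpowers x = ⊤ := by
    rw [eq_top_iff]; intro h _; exact hb _ hL h
  apply hHp
  have h4 : Nat.card (MulAction.stabilizer G α) = p := by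
    rw [← hx, ← Nat.card_zpowers, htop, Subgroup.card_top]
  rw [h4]; exact hp

theorem self_cent (hprim : MulAction.IsPreprimitive G Ω)
    (hH : ∀ α : Ω, MulAction.stabilizer G α ≠ ⊥)
    (hep : ∀ (α : Ω) (ω : Ω), MulAction.IsPreprimitive (MulAction.stabilizer G α)
      (MulAction.orbit (MulAction.stabilizer G α) ω))
    (α : Ω) (N' : Subgroup (MulAction.stabilizer G α)) [hNn : N'.Normal]
    (z : MulAction.stabilizer G α) (hz : z ∈ N') (hz1 : z ≠ 1) (hzc : ∀ n ∈ N', z * n = n * z) :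
    (∀ a ∈ N', ∀ b ∈ N', a * b = b * a) ∧ ∃ p : ℕ, p.Prime ∧ (∀ x ∈ N', x ^ p = 1) ∧
      ∀ c : MulAction.stabilizer G α, (∀ n ∈ N', c * n = n * c) → c ∈ N' := by
  obtain ⟨ω, hω⟩ := exists_ne α (hH α)
  have hm1 : orderOf z ≠ 1 := fun h => hz1 (orderOf_eq_one_iff.mp h)
  have hm0 : orderOf z ≠ 0 := (orderOf_pos z).ne'
  have hp : ((orderOf z).minFac).Prime := Nat.minFac_prime hm1
  have hz'ord : orderOf (z ^ (orderOf z / (orderOf z).minFac)) = (orderOf z).minFac :=
    orderOf_pow_orderOf_div hm0 (Nat.minFac_dvd _)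
  generalize (orderOf z).minFac = p at hp hz'ord
  have hz'N : z ^ (orderOf z / p) ∈ N' := N'.pow_mem hz _
  have hz'c : ∀ n ∈ N', z ^ (orderOf z / p) * n = n * z ^ (orderOf z / p) := fun n hn =>
    ((show Commute z n from hzc n hn).pow_left _).eq
  have hz'p : (z ^ (orderOf z / p)) ^ p = 1 := by
    have h5 := pow_orderOf_eq_one (z ^ (orderOf z / p))
    rw [hz'ord] at h5
    exact h5
  have hz'1 : z ^ (orderOf z / p) ≠ 1 := by
    intro h; rw [h, orderOf_one] at hz'ord; exact hp.ne_one hz'ord.symm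
  generalize z ^ (orderOf z / p) = z' at hz'N hz'c hz'p hz'1
  let A : Subgroup (MulAction.stabilizer G α) :=
    { carrier := {a | a ∈ N' ∧ a ^ p = 1 ∧ ∀ n ∈ N', a * n = n * a}
      mul_mem' := by
        rintro a b ⟨ha, hap, hac⟩ ⟨hb, hbp, hbc⟩
        refine ⟨N'.mul_mem ha hb, ?_, fun n hn => ?_⟩
        · have hcm : Commute a b := hac b hb
          rw [hcm.mul_pow, hap, hbp, one_mul]
        · rw [mul_assoc, hbc n hn, ← mul_assoc, hac n hn, mul_assoc]
      one_mem' := ⟨N'.one_mem, one_pow _, fun n _ => by rw [one_mul, mul_one]⟩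
      inv_mem' := by
        rintro a ⟨ha, hap, hac⟩
        have hinvp : a⁻¹ ^ p = 1 := by rw [inv_pow, hap, inv_one]
        refine ⟨N'.inv_mem ha, hinvp, fun n hn => ?_⟩
        exact ((show Commute a n from hac n hn).inv_left).eq }
  have hAN : A ≤ N' := fun a ha => ha.1
  haveI hAnorm : A.Normal := ⟨by
    rintro a ⟨ha, hap, hac⟩ g
    refine ⟨hNn.conj_mem a ha g, by rw [conj_pow, hap, mul_one, mul_inv_cancel], fun n hn => ?_⟩
    have h1 := hac (g⁻¹ * n * g) (by simpa using hNn.conj_mem n hn g⁻¹)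
    calc g * a * g⁻¹ * n = g * (a * (g⁻¹ * n * g)) * g⁻¹ := by group
      _ = g * ((g⁻¹ * n * g) * a) * g⁻¹ := by rw [h1]
      _ = n * (g * a * g⁻¹) := by group⟩
  have hA1 : A ≠ ⊥ := by
    intro h
    have h2 : z' ∈ A := ⟨hz'N, hz'p, hz'c⟩
    rw [h, Subgroup.mem_bot] at h2
    exact hz'1 h2
  have hAself : ∀ c : MulAction.stabilizer G α, (∀ a ∈ A, c * a = a * c) → c ∈ A := by
    intro c hc
    obtain ⟨a, ha, e⟩ := trans_on hprim hH hep α ω hω A hA1 c
    have h1 : a⁻¹ * c = 1 := by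
      apply cent_fix hprim hH hep α ω hω A hA1 (a⁻¹ * c)
      · intro n hn
        have e1 : a * n = n * a := ha.2.2 n (hAN hn)
        have e2 := hc n hn
        calc a⁻¹ * c * n = a⁻¹ * (c * n) := by group
          _ = a⁻¹ * (n * c) := by rw [e2]
          _ = a⁻¹ * (n * a) * a⁻¹ * c := by group
          _ = a⁻¹ * (a * n) * a⁻¹ * c := by rw [e1]
          _ = n * (a⁻¹ * c) := by group
      · show ((a : G)⁻¹ * (c : G)) • ω = ω
        rw [mul_smul, e, inv_smul_smul]
    have h2 : c = a := by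
      calc c = a * (a⁻¹ * c) := by group
        _ = a := by rw [h1, mul_one]
    rw [h2]; exact ha
  have hNA : N' ≤ A := by
    intro n hn
    apply hAself
    intro a ha
    exact (ha.2.2 n hn).symm
  refine ⟨fun a ha b hb => (hNA ha).2.2 b hb, p, hp, fun x hx => (hNA hx).2.1, fun c hc => ?_⟩
  exact hAN (hAself c (fun a ha => hc a (hAN ha)))

theorem sc_le (hprim : MulAction.IsPreprimitive G Ω)
    (hH : ∀ α : Ω, MulAction.stabilizer G α ≠ ⊥)
    (hep : ∀ (α : Ω) (ω : Ω), MulAction.IsPreprimitive (MulAction.stabilizer G α)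
      (MulAction.orbit (MulAction.stabilizer G α) ω))
    (α : Ω) (N₁ N₂ : Subgroup (MulAction.stabilizer G α)) [h1n : N₁.Normal] [h2n : N₂.Normal]
    (hab1 : ∀ a ∈ N₁, ∀ b ∈ N₁, a * b = b * a)
    (hsc1 : ∀ c : MulAction.stabilizer G α, (∀ n ∈ N₁, c * n = n * c) → c ∈ N₁)
    (h2 : N₂ ≠ ⊥) : N₁ ≤ N₂ := by
  by_cases hD : N₁ ⊓ N₂ = ⊥
  · exfalso
    apply h2
    rw [eq_bot_iff]
    intro n₂ hn₂
    have hcomm : ∀ n₁ ∈ N₁, n₂ * n₁ = n₁ * n₂ := by
      intro n₁ hn₁
      have hmem : n₂ * n₁ * n₂⁻¹ * n₁⁻¹ ∈ N₁ ⊓ N₂ := by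
        constructor
        · exact N₁.mul_mem (h1n.conj_mem n₁ hn₁ n₂) (N₁.inv_mem hn₁)
        · have e : n₂ * n₁ * n₂⁻¹ * n₁⁻¹ = n₂ * (n₁ * n₂⁻¹ * n₁⁻¹) := by group
          rw [e]
          exact N₂.mul_mem hn₂ (h2n.conj_mem _ (N₂.inv_mem hn₂) n₁)
      rw [hD, Subgroup.mem_bot] at hmem
      calc n₂ * n₁ = (n₂ * n₁ * n₂⁻¹ * n₁⁻¹) * n₁ * n₂ := by group
        _ = n₁ * n₂ := by rw [hmem, one_mul]
    have h3 : n₂ ∈ N₁ ⊓ N₂ := ⟨hsc1 n₂ hcomm, hn₂⟩
    rw [hD] at h3
    exact h3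
  · obtain ⟨z, hz, hz1⟩ : ∃ z ∈ N₁ ⊓ N₂, z ≠ 1 := by
      obtain ⟨a, ha⟩ := Subgroup.ne_bot_iff_exists_ne_one.mp hD
      exact ⟨a, a.2, fun h => ha (Subtype.ext h)⟩
    obtain ⟨-, -, -, -, hsc⟩ := self_cent hprim hH hep α (N₁ ⊓ N₂) z hz hz1
      (fun n hn => hab1 z hz.1 n hn.1)
    intro n₁ hn₁
    exact (hsc n₁ (fun d hd => hab1 n₁ hn₁ d hd.1)).2

theorem fitting_struct (hprim : MulAction.IsPreprimitive G Ω)
    (hH : ∀ α : Ω, MulAction.stabilizer G α ≠ ⊥)
    (hep : ∀ (α : Ω) (ω : Ω), MulAction.IsPreprimitive (MulAction.stabilizer G α)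
      (MulAction.orbit (MulAction.stabilizer G α) ω))
    (α : Ω) :
    Cfsg.fittingSubgroup (MulAction.stabilizer G α) = ⊥ ∨
    ((Cfsg.fittingSubgroup (MulAction.stabilizer G α)).Normal ∧
      (∀ a ∈ Cfsg.fittingSubgroup (MulAction.stabilizer G α),
        ∀ b ∈ Cfsg.fittingSubgroup (MulAction.stabilizer G α), a * b = b * a) ∧
      ∃ p : ℕ, p.Prime ∧ (∀ x ∈ Cfsg.fittingSubgroup (MulAction.stabilizer G α), x ^ p = 1) ∧
        ∀ c : MulAction.stabilizer G α,
          (∀ n ∈ Cfsg.fittingSubgroup (MulAction.stabilizer G α), c * n = n * c) →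
          c ∈ Cfsg.fittingSubgroup (MulAction.stabilizer G α)) := by
  by_cases hex : ∃ N₁ : Subgroup (MulAction.stabilizer G α),
      N₁.Normal ∧ Group.IsNilpotent N₁ ∧ N₁ ≠ ⊥
  · right
    obtain ⟨N₁, hn1, hnil1, hne1⟩ := hex
    have key : ∀ N : Subgroup (MulAction.stabilizer G α), N.Normal → Group.IsNilpotent N → N ≠ ⊥ →
        (∀ a ∈ N, ∀ b ∈ N, a * b = b * a) ∧ ∃ p : ℕ, p.Prime ∧ (∀ x ∈ N, x ^ p = 1) ∧
          ∀ c : MulAction.stabilizer G α, (∀ n ∈ N, c * n = n * c) → c ∈ N := by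
      intro N hn hnil hne
      haveI := hn
      haveI := hnil
      haveI : Nontrivial N := (Subgroup.nontrivial_iff_ne_bot N).mpr hne
      obtain ⟨z, hz1, hzc⟩ := nilpotent_central (X := N)
      exact self_cent hprim hH hep α N (z : MulAction.stabilizer G α) z.2
        (fun h => hz1 (Subtype.ext h)) (fun n hn' => congrArg Subtype.val (hzc ⟨n, hn'⟩))
    have hF : Cfsg.fittingSubgroup (MulAction.stabilizer G α) = N₁ := by
      apply le_antisymm
      · apply sSup_le
        rintro N ⟨hn, hnil⟩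
        by_cases hNb : N = ⊥
        · rw [hNb]; exact bot_le
        · obtain ⟨hab, -, -, -, hsc⟩ := key N hn hnil hNb
          haveI := hn
          haveI := hn1
          exact sc_le hprim hH hep α N N₁ hab hsc hne1
      · exact le_sSup ⟨hn1, hnil1⟩
    rw [hF]
    exact ⟨hn1, key N₁ hn1 hnil1 hne1⟩
  · left
    rw [eq_bot_iff]
    apply sSup_le
    rintro N ⟨hn, hnil⟩
    by_contra hNb
    exact hex ⟨N, hn, hnil, fun h => hNb (by rw [h])⟩

end

theorem s3497 {G : Type*} [Group G] [Finite G] {Ω : Type*} [Fintype Ω] [MulAction G Ω]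
    [FaithfulSMul G Ω]
    (hprim : MulAction.IsPreprimitive G Ω)
    (hep : ∀ (α : Ω) (ω : Ω), MulAction.IsPreprimitive (MulAction.stabilizer G α)
      (MulAction.orbit (MulAction.stabilizer G α) ω)) (α : Ω)
    (hH1 : MulAction.stabilizer G α ≠ ⊥) (hHp : ¬ (Nat.card (MulAction.stabilizer G α)).Prime) :
    Subgroup.center (MulAction.stabilizer G α) = ⊥ ∧
    IsMulCommutative (Cfsg.fittingSubgroup (MulAction.stabilizer G α)) ∧
    ∃ p e : ℕ, p.Prime ∧ Nat.card (Cfsg.fittingSubgroup (MulAction.stabilizer G α)) = p ^ e ∧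
      (∀ x ∈ Cfsg.fittingSubgroup (MulAction.stabilizer G α), x ^ p = 1) ∧
      (Cfsg.fittingSubgroup (MulAction.stabilizer G α) ≠ ⊥ →
        p ^ e ∣ Fintype.card Ω - 1 ∧
        ∃ φ : MulAction.stabilizer G α →* GL (Fin e) (ZMod p),
          φ.ker = Cfsg.fittingSubgroup (MulAction.stabilizer G α)) := by
  haveI : MulAction.IsPretransitive G Ω := hprim.toIsPretransitive
  have hH : ∀ β : Ω, MulAction.stabilizer G β ≠ ⊥ := by
    intro β h
    apply hH1
    apply Subgroup.eq_bot_of_card_eq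
    rw [card_stab_eq (G := G) α β, h, Subgroup.card_bot]
  refine ⟨center_bot hprim hH hep α hHp, ?_⟩
  rcases fitting_struct hprim hH hep α with hF | ⟨hFn, hab, p, hp, hexp, hsc⟩
  · rw [hF]
    refine ⟨⟨⟨fun a b => ?_⟩⟩, 2, 0, Nat.prime_two, by rw [Subgroup.card_bot, pow_zero], ?_,
      fun h => absurd rfl h⟩
    · have ha : a = 1 := Subtype.ext (Subgroup.mem_bot.mp a.2)
      rw [ha, one_mul, mul_one]
    · intro x hx; rw [Subgroup.mem_bot.mp hx, one_pow]
  · haveI := hFn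
    haveI : Fact p.Prime := ⟨hp⟩
    have hpg : IsPGroup p (Cfsg.fittingSubgroup (MulAction.stabilizer G α)) := by
      intro x
      refine ⟨1, ?_⟩
      rw [pow_one]
      exact Subtype.ext (by simpa using hexp x x.2)
    obtain ⟨e, he⟩ := hpg.exists_card_eq
    refine ⟨⟨⟨fun a b => Subtype.ext (hab a a.2 b b.2)⟩⟩, p, e, hp, he, hexp, fun hne => ⟨?_, ?_⟩⟩
    · rw [← he, ← Nat.card_eq_fintype_card]
      apply card_sub_one_dvd (Z := Cfsg.fittingSubgroup (MulAction.stabilizer G α)) (X := Ω) α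
      · intro z
        exact MulAction.mem_stabilizer_iff.mp (z : MulAction.stabilizer G α).2
      · intro z x hx hzx
        have h1 := cent_fix hprim hH hep α x hx (Cfsg.fittingSubgroup (MulAction.stabilizer G α))
          hne (z : MulAction.stabilizer G α) (fun n hn => hab z z.2 n hn) hzx
        exact Subtype.ext h1
    · obtain ⟨φ, hφ⟩ := Cfsg.Agent.Lib_helper9_GLHom.glhom p
        (Cfsg.fittingSubgroup (MulAction.stabilizer G α)) e hab hexp he
      refine ⟨φ, ?_⟩
      ext h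
      rw [MonoidHom.mem_ker, hφ]
      constructor
      · intro hc; exact hsc h hc
      · intro hh a ha; exact hab h hh a ha

end Cfsg.Agent.Lib_helper9_ExtPrim
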