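import Mathlib
import Cfsg.Prelude.Def_FusionComponents
import Cfsg.Prelude.Def_FusionSystem

namespace Cfsg.Agent.Lib_helper9_FactorSys

open Cfsg
open scoped Pointwise

theorem sylow_conj_into {G : Type*} [Group G] [Finite G] {p : ℕ} [Fact p.Prime] (S : Sylow p G)
    (K Q : Subgroup G) (hSK : (S : Subgroup G) ≤ K) (hQK : Q ≤ K) (hQ : IsPGroup p Q) :
    ∃ k ∈ K, ∀ x ∈ Q, k * x * k⁻¹ ∈ (S : Subgroup G) := by
  have hQ' : IsPGroup p (Q.subgroupOf K) := hQ.comap_of_injective _ K.subtype_injective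
  obtain ⟨R, hR⟩ := hQ'.exists_le_sylow
  obtain ⟨k, hk⟩ := MulAction.exists_smul_eq K R (S.subtype hSK)
  refine ⟨k, k.2, fun x hx => ?_⟩
  have h1 : (⟨x, hQK hx⟩ : K) ∈ (R : Subgroup K) := hR (by simpa [Subgroup.mem_subgroupOf] using hx)
  have h2 : k * ⟨x, hQK hx⟩ * k⁻¹ ∈ ((k • R : Sylow p K) : Subgroup K) := by
    rw [Sylow.coe_subgroup_smul]
    exact Subgroup.smul_mem_pointwise_smul _ (MulAut.conj k) _ h1
  rw [hk, Sylow.coe_subtype, Subgroup.mem_subgroupOf] at h2
  exact h2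

theorem factor_system {G : Type*} [Group G] [Finite G] (p : ℕ) [Fact p.Prime] (S : Sylow p G)
    (H : Subgroup G) [H.Normal] :
    (Cfsg.groupFusionSystem (S : Subgroup G)).IsFactorSystem ((S : Subgroup G) ⊓ H)
      ((QuotientGroup.mk' H).comp (S : Subgroup G).subtype)
      (Cfsg.groupFusionSystem ((S : Subgroup G).map (QuotientGroup.mk' H))) := by
  refine ⟨inf_le_left, fun s => ?_, ?_, fun P' φ' => ?_⟩
  · show ((s : G) : G ⧸ H) = 1 ↔ _
    rw [QuotientGroup.eq_one_iff]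
    exact ⟨fun h => ⟨s.2, h⟩, fun h => h.2⟩
  · rw [MonoidHom.range_comp, Subgroup.range_subtype]
  · constructor
    · rintro ⟨hP', hφS, gbar, hg⟩
      refine ⟨hP', ?_⟩
      obtain ⟨g, rfl⟩ := QuotientGroup.mk_surjective gbar
      have hPS : FusionSystem.preimageAlong ((QuotientGroup.mk' H).comp (S : Subgroup G).subtype) P'
          ≤ (S : Subgroup G) := Subgroup.map_subtype_le _
      have hPmem : ∀ x ∈ FusionSystem.preimageAlong
          ((QuotientGroup.mk' H).comp (S : Subgroup G).subtype) P', ((x : G) : G ⧸ H) ∈ P' := by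
        rintro x ⟨y, hy, rfl⟩
        exact hy
      have hQ : IsPGroup p ((FusionSystem.preimageAlong
          ((QuotientGroup.mk' H).comp (S : Subgroup G).subtype) P').map (MulAut.conj g).toMonoidHom) :=
        (S.isPGroup'.to_le hPS).map _
      have hQK : (FusionSystem.preimageAlong
          ((QuotientGroup.mk' H).comp (S : Subgroup G).subtype) P').map (MulAut.conj g).toMonoidHom
          ≤ (S : Subgroup G) ⊔ H := by
        rintro _ ⟨x, hx, rfl⟩
        have h1 := hφS ⟨_, hPmem x hx⟩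
        rw [hg] at h1
        obtain ⟨s, hs, hs2⟩ := h1
        have h3 : s⁻¹ * (g * x * g⁻¹) ∈ H := by
          rw [← QuotientGroup.eq]; exact hs2
        have h4 : g * x * g⁻¹ = s * (s⁻¹ * (g * x * g⁻¹)) := by group
        show g * x * g⁻¹ ∈ _
        rw [h4]
        exact Subgroup.mul_mem _ (Subgroup.mem_sup_left hs) (Subgroup.mem_sup_right h3)
      obtain ⟨k, hk, hkQ⟩ := sylow_conj_into S _ _ le_sup_left hQK hQ
      have hk' : k ∈ ((S : Subgroup G) : Set G) * (H : Set G) := by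
        rw [← Subgroup.mul_normal]; exact hk
      obtain ⟨s, hs, h, hh, rfl⟩ := Set.mem_mul.mp hk'
      have hconj : ∀ x ∈ FusionSystem.preimageAlong
          ((QuotientGroup.mk' H).comp (S : Subgroup G).subtype) P',
          (h * g) * x * (h * g)⁻¹ ∈ (S : Subgroup G) := by
        intro x hx
        have h5 := hkQ (g * x * g⁻¹) ⟨x, hx, rfl⟩
        have h6 : (h * g) * x * (h * g)⁻¹ = s⁻¹ * (s * h * (g * x * g⁻¹) * (s * h)⁻¹) * s := by group
        rw [h6]
        exact Subgroup.mul_mem _ (Subgroup.mul_mem _ (Subgroup.inv_mem _ hs) h5) hs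
      refine ⟨((MulAut.conj (h * g)).toMonoidHom).comp (Subgroup.subtype _),
        ⟨hPS, fun x => hconj x x.2, h * g, fun x => rfl⟩, hPS, fun x => hconj x x.2,
        fun x => hPmem x x.2, fun x => ?_⟩
      rw [hg]
      show (g : G ⧸ H) * ((x : G) : G ⧸ H) * (g : G ⧸ H)⁻¹ = (((h * g) * x * (h * g)⁻¹ : G) : G ⧸ H)
      have hh1 : (h : G ⧸ H) = 1 := (QuotientGroup.eq_one_iff h).mpr hh
      simp only [QuotientGroup.mk_mul, QuotientGroup.mk_inv, hh1, one_mul, mul_inv_rev, inv_one, mul_one]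
    · rintro ⟨hP', φ, ⟨hPS, hφS, g, hg⟩, hP, hφ, hPP', hind⟩
      have key : ∀ x' : P', ∃ s : G, ∃ hs : s ∈ (S : Subgroup G), ((s : G) : G ⧸ H) = x' ∧
          ∃ hsP : s ∈ FusionSystem.preimageAlong
            ((QuotientGroup.mk' H).comp (S : Subgroup G).subtype) P',
          φ' x' = ((φ ⟨s, hsP⟩ : G) : G ⧸ H) := by
        intro x'
        obtain ⟨s, hs, hsx⟩ := hP' x'.2
        have hsP : s ∈ FusionSystem.preimageAlong
            ((QuotientGroup.mk' H).comp (S : Subgroup G).subtype) P' :=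
          ⟨⟨s, hs⟩, (show (QuotientGroup.mk' H) s ∈ P' from hsx.symm ▸ x'.2), rfl⟩
        refine ⟨s, hs, hsx, hsP, ?_⟩
        have h1 := hind ⟨s, hsP⟩
        have h2 : x' = ⟨((QuotientGroup.mk' H).comp (S : Subgroup G).subtype) ⟨s, hP hsP⟩,
            hPP' ⟨s, hsP⟩⟩ := Subtype.ext hsx.symm
        rw [h2, h1]
        rfl
      refine ⟨hP', fun x' => ?_, (g : G ⧸ H), fun x' => ?_⟩
      · obtain ⟨s, hs, hsx, hsP, h1⟩ := key x'
        rw [h1]
        exact ⟨_, hφS ⟨s, hsP⟩, rfl⟩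
      · obtain ⟨s, hs, hsx, hsP, h1⟩ := key x'
        rw [h1, hg, ← hsx]
        simp only [QuotientGroup.mk_mul, QuotientGroup.mk_inv]

end Cfsg.Agent.Lib_helper9_FactorSys
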