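import Mathlib
import Cfsg.Agent.Lib_helper7_AlperinP

set_option autoImplicit false

namespace Cfsg.Agent.Lib_helper9_FocalLocal

open Cfsg.Agent.Lib_helper7_Alperin Cfsg.Agent.Lib_helper7_AlperinP

open scoped commutatorElement in
/-- along an Alperin chain, `a⁻¹ * (g⁻¹ a g)` lies in any subgroup containing the local
commutators -/
theorem chain_comm {G : Type*} [Group G] {p : ℕ} (P : Sylow p G) (R : Subgroup G)
    (hR : ∀ (T : Subgroup G) (x : G), AR P T x → x ∈ Subgroup.normalizer (T : Set G) →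
      ∀ a ∈ T, a⁻¹ * (x⁻¹ * a * x) ∈ R)
    {A : Set G} {g : G} (h : GChain (AR P) A g) :
    ∀ a ∈ A, a⁻¹ * (g⁻¹ * a * g) ∈ R := by
  induction h with
  | nil A => intro a _; simp
  | cons A T x g hT hx hA _ ih =>
    intro a ha
    have h1 := hR T x hT hx a (hA ha)
    have h2 := ih (x⁻¹ * a * x) ⟨a, ha, rfl⟩
    have h3 : a⁻¹ * ((x * g)⁻¹ * a * (x * g)) =
        (a⁻¹ * (x⁻¹ * a * x)) * ((x⁻¹ * a * x)⁻¹ * (g⁻¹ * (x⁻¹ * a * x) * g)) := by group
    rw [h3]; exact R.mul_mem h1 h2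

open scoped commutatorElement in
theorem s4250 {G : Type*} [Group G] [Finite G] (p : ℕ) [Fact p.Prime] (P : Sylow p G) :
    (P : Subgroup G) ⊓ commutator G =
      ⁅(P : Subgroup G), Subgroup.normalizer ((P : Subgroup G) : Set G)⁆ ⊔
        ⨆ (Q : Sylow p G) (_ : (¬ p ∣ ((P : Subgroup G) ⊓ Subgroup.normalizer (((P : Subgroup G) ⊓ (Q : Subgroup G) : Subgroup G) : Set G)).relIndex (Subgroup.normalizer (((P : Subgroup G) ⊓ (Q : Subgroup G) : Subgroup G) : Set G)) ∧ ¬ p ∣ ((Q : Subgroup G) ⊓ Subgroup.normalizer (((P : Subgroup G) ⊓ (Q : Subgroup G) : Subgroup G) : Set G)).relIndex (Subgroup.normalizer (((P : Subgroup G) ⊓ (Q : Subgroup G) : Subgroup G) : Set G))))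
          (x : G) (_ : x ∈ Subgroup.normalizer (((P : Subgroup G) ⊓ (Q : Subgroup G) : Subgroup G) : Set G) ∧ ∃ k : ℕ, orderOf x = p ^ k),
          ⁅(P : Subgroup G) ⊓ (Q : Subgroup G), Subgroup.zpowers x⁆ := by
  obtain ⟨R, hRdef⟩ : ∃ R : Subgroup G, R =
      ⁅(P : Subgroup G), Subgroup.normalizer ((P : Subgroup G) : Set G)⁆ ⊔
        ⨆ (Q : Sylow p G) (_ : (¬ p ∣ ((P : Subgroup G) ⊓ Subgroup.normalizer (((P : Subgroup G) ⊓ (Q : Subgroup G) : Subgroup G) : Set G)).relIndex (Subgroup.normalizer (((P : Subgroup G) ⊓ (Q : Subgroup G) : Subgroup G) : Set G)) ∧ ¬ p ∣ ((Q : Subgroup G) ⊓ Subgroup.normalizer (((P : Subgroup G) ⊓ (Q : Subgroup G) : Subgroup G) : Set G)).relIndex (Subgroup.normalizer (((P : Subgroup G) ⊓ (Q : Subgroup G) : Subgroup G) : Set G))))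
          (x : G) (_ : x ∈ Subgroup.normalizer (((P : Subgroup G) ⊓ (Q : Subgroup G) : Subgroup G) : Set G) ∧ ∃ k : ℕ, orderOf x = p ^ k),
          ⁅(P : Subgroup G) ⊓ (Q : Subgroup G), Subgroup.zpowers x⁆ := ⟨_, rfl⟩
  rw [← hRdef]
  have hcomm : ∀ a b : G, ⁅a, b⁆ ∈ commutator G := by
    intro a b
    rw [commutator_def]
    exact Subgroup.commutator_mem_commutator (Subgroup.mem_top a) (Subgroup.mem_top b)
  apply le_antisymm
  · -- focal subgroup theorem + Alperin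
    have hfoc : (P : Subgroup G) ⊓ commutator G = (P : Subgroup G).focalSubgroup := by
      rw [inf_comm]; exact Subgroup.commutator_inf_eq_focalSubgroup P
    rw [hfoc, Subgroup.focalSubgroup_def, Subgroup.closure_le]
    rintro g ⟨hg, x, hx, u, rfl⟩
    have h1 : (u⁻¹)⁻¹ * x⁻¹ * u⁻¹ ∈ (P : Subgroup G) := by
      have h' : (u⁻¹)⁻¹ * x⁻¹ * u⁻¹ = x⁻¹ * ⁅x, u⁆ := by rw [commutatorElement_def]; group
      rw [h']; exact mul_mem (inv_mem hx) hg
    have hch := alperin_p P {x⁻¹} u⁻¹ (by rintro b rfl; exact inv_mem hx)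
      (by rintro _ ⟨b, rfl, rfl⟩; exact h1)
    have key := chain_comm P R (fun T y hT hy a ha => by
      obtain ⟨Q, rfl, htame, hor⟩ := hT
      have hel : a⁻¹ * (y⁻¹ * a * y) = ⁅a⁻¹, y⁻¹⁆ := by rw [commutatorElement_def]; group
      rw [hel, hRdef]
      rcases hor with hQP | ⟨k, hk⟩
      · apply Subgroup.mem_sup_left
        have hT' : (P : Subgroup G) ⊓ (Q : Subgroup G) = (P : Subgroup G) := by
          rw [hQP, inf_idem]
        rw [hT'] at ha hy
        exact Subgroup.commutator_mem_commutator (inv_mem ha) (inv_mem hy)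
      · apply Subgroup.mem_sup_right
        have hmem : ⁅a⁻¹, y⁻¹⁆ ∈ ⁅(P : Subgroup G) ⊓ (Q : Subgroup G), Subgroup.zpowers y⁆ :=
          Subgroup.commutator_mem_commutator (inv_mem ha) (inv_mem (Subgroup.mem_zpowers y))
        refine Subgroup.mem_iSup_of_mem Q ?_
        refine Subgroup.mem_iSup_of_mem htame ?_
        refine Subgroup.mem_iSup_of_mem y ?_
        refine Subgroup.mem_iSup_of_mem ⟨hy, k, hk⟩ ?_
        exact hmem) hch
    have h2 := key x⁻¹ rfl
    have h3 : (x⁻¹)⁻¹ * ((u⁻¹)⁻¹ * x⁻¹ * u⁻¹) = ⁅x, u⁆ := by rw [commutatorElement_def]; group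
    rw [h3] at h2
    exact h2
  · rw [hRdef]
    apply sup_le
    · rw [Subgroup.commutator_le]
      intro a ha n hn
      refine ⟨?_, hcomm a n⟩
      have h' : ⁅a, n⁆ = a * (n * a⁻¹ * n⁻¹) := by rw [commutatorElement_def]; group
      rw [h']
      exact mul_mem ha ((Subgroup.mem_normalizer_iff.mp hn a⁻¹).mp (inv_mem ha))
    · apply iSup_le; intro Q
      apply iSup_le; intro _
      apply iSup_le; intro x
      apply iSup_le; rintro ⟨hx, -⟩
      rw [Subgroup.commutator_le]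
      intro a ha y hy
      refine ⟨?_, hcomm a y⟩
      have hyN : y ∈ Subgroup.normalizer (((P : Subgroup G) ⊓ (Q : Subgroup G) : Subgroup G) : Set G) := by
        obtain ⟨j, rfl⟩ := Subgroup.mem_zpowers_iff.mp hy
        exact zpow_mem hx j
      have h' : ⁅a, y⁆ = a * (y * a⁻¹ * y⁻¹) := by rw [commutatorElement_def]; group
      rw [h']
      have h'' := mul_mem ha ((Subgroup.mem_normalizer_iff.mp hyN a⁻¹).mp (inv_mem ha))
      exact (inf_le_left : (P : Subgroup G) ⊓ (Q : Subgroup G) ≤ (P : Subgroup G)) h''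

end Cfsg.Agent.Lib_helper9_FocalLocal
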