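import Mathlib

set_option autoImplicit false

namespace Cfsg.Agent.Lib_helper9_FpfPrime

open Equiv

theorem typeOf {n : ℕ} (g : Perm (Fin n)) (hg : (orderOf g).Prime) (hfix : ∀ i : Fin n, g i ≠ i) :
    orderOf g ∣ n ∧ g.cycleType = Multiset.replicate (n / orderOf g) (orderOf g) := by
  obtain ⟨k, hk⟩ := Perm.cycleType_prime_order hg
  have hsum := Perm.sum_cycleType g
  have hsupp : g.support = Finset.univ := by
    ext i; simp [Perm.mem_support, hfix i]
  rw [hsupp, Finset.card_univ, Fintype.card_fin, hk, Multiset.sum_replicate, smul_eq_mul] at hsum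
  refine ⟨⟨k + 1, hsum.symm.trans (mul_comm _ _)⟩, ?_⟩
  rw [hk]
  congr 1
  exact (Nat.div_eq_of_eq_mul_left hg.pos hsum.symm).symm

theorem exists_type {n p : ℕ} (hp : p.Prime) (hpn : p ∣ n) (hn : 0 < n) :
    ∃ g : Perm (Fin n), g.cycleType = Multiset.replicate (n / p) p ∧ orderOf g = p ∧
      ∀ i : Fin n, g i ≠ i := by
  have h1 : (Multiset.replicate (n / p) p).sum ≤ Fintype.card (Fin n) ∧
      ∀ a ∈ Multiset.replicate (n / p) p, 2 ≤ a := by
    refine ⟨?_, ?_⟩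
    · rw [Multiset.sum_replicate, smul_eq_mul, Fintype.card_fin, Nat.div_mul_cancel hpn]
    · intro a ha
      rw [Multiset.eq_of_mem_replicate ha]; exact hp.two_le
  obtain ⟨g, hg⟩ := (Perm.exists_with_cycleType_iff (Fin n)).mpr h1
  have hpos : 0 < n / p := Nat.div_pos (Nat.le_of_dvd hn hpn) hp.pos
  refine ⟨g, hg, ?_, ?_⟩
  · rw [← Perm.lcm_cycleType, hg]
    obtain ⟨k, hk⟩ := Nat.exists_eq_succ_of_ne_zero hpos.ne'
    rw [hk]
    clear hk hpos hg h1
    induction k with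
    | zero => simp
    | succ j ih => rw [Multiset.replicate_succ, Multiset.lcm_cons, ih]; simp
  · have hsum := Perm.sum_cycleType g
    rw [hg, Multiset.sum_replicate, smul_eq_mul, Nat.div_mul_cancel hpn] at hsum
    have hsupp : g.support = Finset.univ :=
      Finset.eq_univ_of_card _ (by rw [← hsum, Fintype.card_fin])
    intro i
    have : i ∈ g.support := by rw [hsupp]; exact Finset.mem_univ i
    exact Perm.mem_support.mp this

theorem s3504 (n : ℕ) (hn : 5 ≤ n) :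
    Nat.card {c : ConjClasses (Equiv.Perm (Fin n)) // ∃ g : Equiv.Perm (Fin n),
      ConjClasses.mk g = c ∧ (orderOf g).Prime ∧ ∀ i : Fin n, g i ≠ i} = 1 ↔ IsPrimePow n := by
  rw [Nat.card_eq_one_iff_unique, isPrimePow_iff_unique_prime_dvd]
  constructor
  · rintro ⟨hsub, -⟩
    obtain ⟨p, hp, hpn⟩ := Nat.exists_prime_and_dvd (show n ≠ 1 by omega)
    refine ⟨p, ⟨hp, hpn⟩, ?_⟩
    rintro q ⟨hq, hqn⟩
    obtain ⟨g1, hg1, ho1, hf1⟩ := exists_type hp hpn (by omega)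
    obtain ⟨g2, hg2, ho2, hf2⟩ := exists_type hq hqn (by omega)
    have heq := hsub.elim ⟨ConjClasses.mk g1, g1, rfl, by rw [ho1]; exact hp, hf1⟩
      ⟨ConjClasses.mk g2, g2, rfl, by rw [ho2]; exact hq, hf2⟩
    have h2 := (Subtype.ext_iff.mp heq)
    rw [ConjClasses.mk_eq_mk_iff_isConj, Perm.isConj_iff_cycleType_eq, hg1, hg2] at h2
    have hmem : q ∈ Multiset.replicate (n / p) p := by
      rw [h2, Multiset.mem_replicate]
      exact ⟨(Nat.div_pos (Nat.le_of_dvd (by omega) hqn) hq.pos).ne', rfl⟩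
    exact Multiset.eq_of_mem_replicate hmem
  · rintro ⟨p, ⟨hp, hpn⟩, huniq⟩
    refine ⟨⟨?_⟩, ?_⟩
    · rintro ⟨c1, g1, rfl, ho1, hf1⟩ ⟨c2, g2, rfl, ho2, hf2⟩
      apply Subtype.ext
      show ConjClasses.mk g1 = ConjClasses.mk g2
      rw [ConjClasses.mk_eq_mk_iff_isConj, Perm.isConj_iff_cycleType_eq]
      obtain ⟨hd1, ht1⟩ := typeOf g1 ho1 hf1
      obtain ⟨hd2, ht2⟩ := typeOf g2 ho2 hf2
      have e1 := huniq _ ⟨ho1, hd1⟩
      have e2 := huniq _ ⟨ho2, hd2⟩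
      rw [ht1, ht2, e1, e2]
    · obtain ⟨g, hg, ho, hf⟩ := exists_type hp hpn (by omega)
      exact ⟨⟨ConjClasses.mk g, g, rfl, by rw [ho]; exact hp, hf⟩⟩

end Cfsg.Agent.Lib_helper9_FpfPrime
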