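import Mathlib
import Cfsg.Prelude.Def_Transfer
import Cfsg.Agent.Lib_helper1_Frobenius
import Cfsg.Agent.Lib_helper1_Basic
import Cfsg.Agent.Lib_helper7_ClassP2

set_option autoImplicit false

namespace Cfsg.Agent.Lib_helper9_FusP

open Cfsg.Agent.Lib_helper1_Frobenius Cfsg.Agent.Lib_helper7_ClassP2

universe u

/-- a `p'`-element `g` normalizing a `p`-subgroup `U` of a Sylow `p`-subgroup `P` centralizes
`U` as soon as each `g x g⁻¹` (`x ∈ U`) is a `P`-conjugate of `x`. -/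
theorem cent_of_key {G : Type u} [Group G] [Finite G] (p : ℕ) [Fact p.Prime] (P : Sylow p G)
    (U : Subgroup G) (hUP : U ≤ (P : Subgroup G)) (g : G) (hgo : (orderOf g).Coprime p)
    (hgU : g ∈ Subgroup.normalizer (U : Set G))
    (key : ∀ x ∈ U, ∃ u ∈ (P : Subgroup G), g * x * g⁻¹ = u * x * u⁻¹) :
    g ∈ Subgroup.centralizer (U : Set G) := by
  classical
  have hU : IsPGroup p U := P.isPGroup'.to_le hUP
  have hgU' : ∀ x ∈ U, g * x * g⁻¹ ∈ U := fun x hx =>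
    (Subgroup.mem_normalizer_iff.mp hgU x).mp hx
  haveI : Group.IsNilpotent (P : Subgroup G) := P.isPGroup'.isNilpotent
  obtain ⟨n, hn⟩ := (Subgroup.isNilpotent_iff_lowerCentralSeries (P : Subgroup G)).mp inferInstance
  have hpel : ∀ y ∈ U, ∃ j : ℕ, y ^ p ^ j = 1 := by
    intro y hy
    obtain ⟨k, hk⟩ := hU ⟨y, hy⟩
    exact ⟨k, congrArg Subtype.val hk⟩
  have hstep : ∀ i : ℕ, ∀ x ∈ U, x ∈ (P : Subgroup G).lowerCentralSeries i →
      g * x * g⁻¹ * x⁻¹ ∈ (P : Subgroup G).lowerCentralSeries (i + 1) := by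
    intro i x hx hxi
    obtain ⟨u, hu, hgu⟩ := key x hx
    rw [hgu, Subgroup.lowerCentralSeries_succ, Subgroup.commutator_comm]
    have := Subgroup.commutator_mem_commutator hu hxi
    rwa [commutatorElement_def] at this
  have hchain : ∀ k i : ℕ, i + k = n → ∀ x ∈ U, x ∈ (P : Subgroup G).lowerCentralSeries i →
      g * x = x * g := by
    intro k
    induction k with
    | zero =>
      intro i hi x hx hxi
      rw [add_zero] at hi
      rw [hi, hn, Subgroup.mem_bot] at hxi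
      rw [hxi]; simp
    | succ k ih =>
      intro i hi x hx hxi
      have hcU : g * x * g⁻¹ * x⁻¹ ∈ U := U.mul_mem (hgU' x hx) (U.inv_mem hx)
      have hc := ih (i + 1) (by omega) _ hcU (hstep i x hx hxi)
      exact comm_of_comm_commutator p g x hgo (hpel _ hcU) hc
  rw [Subgroup.mem_centralizer_iff]
  intro x hx
  exact (hchain n 0 (by omega) x hx (by rw [Subgroup.lowerCentralSeries_zero]; exact hUP hx)).symm

theorem s1946 {G : Type u} [Group G] [Finite G] {p : ℕ} [Fact p.Prime] (P : Sylow p G) :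
    Cfsg.HasNormalPComplement p G ↔
      ∀ a ∈ (P : Subgroup G), (a ^ p = 1 ∨ (p = 2 ∧ a ^ 4 = 1)) → ∀ g : G,
        g * a * g⁻¹ ∈ (P : Subgroup G) →
        ∃ x ∈ (P : Subgroup G), g * a * g⁻¹ = x * a * x⁻¹ := by
  classical
  constructor
  · intro h a ha _ g hg
    obtain ⟨N, hN, hc, k, hk⟩ := npc_of_hasNormalPComplement h
    have hcomp : N.IsComplement' (P : Subgroup G) := isComplement'_of_npc N hc hk P
    obtain ⟨⟨⟨n, hn⟩, ⟨x, hx⟩⟩, hnx⟩ := hcomp.2 g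
    have hnx' : n * x = g := hnx
    refine ⟨x, hx, ?_⟩
    have hb : x * a * x⁻¹ ∈ (P : Subgroup G) :=
      (P : Subgroup G).mul_mem ((P : Subgroup G).mul_mem hx ha) ((P : Subgroup G).inv_mem hx)
    have h1 : g * a * g⁻¹ = n * (x * a * x⁻¹) * n⁻¹ := by rw [← hnx']; group
    have h2 : n * (x * a * x⁻¹) * n⁻¹ * (x * a * x⁻¹)⁻¹ ∈ (P : Subgroup G) := by
      rw [← h1]
      exact (P : Subgroup G).mul_mem hg ((P : Subgroup G).inv_mem hb)
    have h3 : n * (x * a * x⁻¹) * n⁻¹ * (x * a * x⁻¹)⁻¹ ∈ N := by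
      have h4 : (x * a * x⁻¹) * n⁻¹ * (x * a * x⁻¹)⁻¹ ∈ N := hN.conj_mem _ (N.inv_mem hn) _
      have h5 := N.mul_mem hn h4
      have h6 : n * ((x * a * x⁻¹) * n⁻¹ * (x * a * x⁻¹)⁻¹) =
          n * (x * a * x⁻¹) * n⁻¹ * (x * a * x⁻¹)⁻¹ := by group
      rw [h6] at h5
      exact h5
    have h7 : n * (x * a * x⁻¹) * n⁻¹ * (x * a * x⁻¹)⁻¹ = 1 := by
      have hdis : N ⊓ (P : Subgroup G) = ⊥ := hcomp.disjoint.eq_bot
      have : n * (x * a * x⁻¹) * n⁻¹ * (x * a * x⁻¹)⁻¹ ∈ N ⊓ (P : Subgroup G) := ⟨h3, h2⟩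
      rw [hdis, Subgroup.mem_bot] at this
      exact this
    rw [h1]
    exact mul_inv_eq_one.mp h7
  · intro h
    apply hasNormalPComplement_of_npc
    apply Cfsg.Agent.Lib_helper1_Frobenius.frobenius
    intro Q hQ g hg hgo
    obtain ⟨e, he⟩ : ∃ e : ℕ, (e = p ∧ p ≠ 2) ∨ (e = 4 ∧ p = 2) := by
      by_cases hp2 : p = 2
      · exact ⟨4, Or.inr ⟨rfl, hp2⟩⟩
      · exact ⟨p, Or.inl ⟨rfl, hp2⟩⟩
    refine gen_omega p e he g hgo ?_ (Nat.card Q) Q rfl hQ hg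
    intro U hU hgU hUe
    have hgU' : ∀ x ∈ U, g * x * g⁻¹ ∈ U := fun x hx =>
      (Subgroup.mem_normalizer_iff.mp hgU x).mp hx
    obtain ⟨P₁, hUP⟩ := hU.exists_le_sylow
    obtain ⟨c, hc⟩ := MulAction.exists_smul_eq G P P₁
    have hmem : ∀ z : G, z ∈ (P₁ : Subgroup G) ↔ c⁻¹ * z * c ∈ (P : Subgroup G) := by
      intro z
      rw [← hc]
      exact Cfsg.Agent.Lib_helper1_Basic.mem_sylow_smul P c z
    apply cent_of_key p P₁ U hUP g hgo hgU
    intro x hx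
    have hxe : (c⁻¹ * x * c) ^ p = 1 ∨ (p = 2 ∧ (c⁻¹ * x * c) ^ 4 = 1) := by
      have hpow : ∀ m : ℕ, (c⁻¹ * x * c) ^ m = c⁻¹ * x ^ m * c := by
        intro m
        have := conj_pow (a := c⁻¹) (b := x) (i := m)
        rw [inv_inv] at this
        exact this
      rcases he with ⟨he1, -⟩ | ⟨he1, hp2⟩
      · left
        rw [hpow, ← he1, hUe x hx]; group
      · right
        refine ⟨hp2, ?_⟩
        rw [hpow, ← he1, hUe x hx]; group
    have h1 : c⁻¹ * x * c ∈ (P : Subgroup G) := (hmem x).mp (hUP hx)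
    have h2 : (c⁻¹ * g * c) * (c⁻¹ * x * c) * (c⁻¹ * g * c)⁻¹ ∈ (P : Subgroup G) := by
      have h3 : (c⁻¹ * g * c) * (c⁻¹ * x * c) * (c⁻¹ * g * c)⁻¹ = c⁻¹ * (g * x * g⁻¹) * c := by
        group
      rw [h3]
      exact (hmem _).mp (hUP (hgU' x hx))
    obtain ⟨x', hx', hx'e⟩ := h _ h1 hxe _ h2
    refine ⟨c * x' * c⁻¹, ?_, ?_⟩
    · rw [hmem]
      have : c⁻¹ * (c * x' * c⁻¹) * c = x' := by group
      rw [this]
      exact hx'
    · have h4 : g * x * g⁻¹ = c * ((c⁻¹ * g * c) * (c⁻¹ * x * c) * (c⁻¹ * g * c)⁻¹) * c⁻¹ := by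
        group
      rw [h4, hx'e]
      group

end Cfsg.Agent.Lib_helper9_FusP
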