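import Mathlib
import Cfsg.Prelude.Def_FusionSystem
import Cfsg.Agent.Lib_helper9_FusionAbel
import Cfsg.Agent.Lib_helper5_AutP

set_option autoImplicit false

namespace Cfsg.Agent.Lib_helper9_FusionAb2

open Cfsg Cfsg.FusionSystem Cfsg.Agent.Lib_helper9_Fusion Cfsg.Agent.Lib_helper9_FusionSat
  Cfsg.Agent.Lib_helper9_FusionGen Cfsg.Agent.Lib_helper9_FusionAbel

theorem zmod_two_mul_eq_zero {a : ℕ} (ha : 1 ≤ a) (x : ZMod (2 ^ a)) (h : 2 * x = 0) :
    x = 0 ∨ x = 2 ^ (a - 1) := by
  haveI : NeZero (2 ^ a) := ⟨by positivity⟩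
  have hx : ((x.val : ℕ) : ZMod (2 ^ a)) = x := ZMod.natCast_zmod_val x
  have h1 : ((2 * x.val : ℕ) : ZMod (2 ^ a)) = 0 := by
    rw [Nat.cast_mul, hx]; exact_mod_cast h
  rw [ZMod.natCast_eq_zero_iff] at h1
  have h2 : 2 ^ a = 2 * 2 ^ (a - 1) := by
    rw [← pow_succ']; congr 1; omega
  obtain ⟨c, hc⟩ := h1
  have h1' : 2 * 2 ^ (a - 1) ∣ 2 * x.val := ⟨c, by rw [hc, h2]⟩
  have h3 : 2 ^ (a - 1) ∣ x.val := (Nat.mul_dvd_mul_iff_left (by norm_num)).mp h1'
  obtain ⟨m, hm⟩ := h3
  have hlt : x.val < 2 ^ a := ZMod.val_lt x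
  have hlt' : 2 ^ (a - 1) * m < 2 ^ (a - 1) * 2 := by
    rw [← hm, mul_comm, ← h2]; exact hlt
  have hm2 : m < 2 := Nat.lt_of_mul_lt_mul_left hlt'
  interval_cases m
  · left; rw [← hx, hm]; simp
  · right; rw [← hx, hm]; simp

theorem two_mul_half {a : ℕ} (ha : 1 ≤ a) : (2 : ZMod (2 ^ a)) * 2 ^ (a - 1) = 0 := by
  rw [← pow_succ']
  have h1 : a - 1 + 1 = a := by omega
  rw [h1]
  exact_mod_cast ZMod.natCast_self (2 ^ a)

theorem neg_half {a : ℕ} (ha : 1 ≤ a) : -(2 : ZMod (2 ^ a)) ^ (a - 1) = 2 ^ (a - 1) := by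
  apply neg_eq_of_add_eq_zero_left
  rw [← two_mul]
  exact two_mul_half ha

theorem two_pow_eq_zero {a k : ℕ} (h : a ≤ k) : (2 : ZMod (2 ^ a)) ^ k = 0 := by
  have h1 : ((2 ^ k : ℕ) : ZMod (2 ^ a)) = 0 :=
    (ZMod.natCast_eq_zero_iff _ _).mpr (pow_dvd_pow 2 h)
  exact_mod_cast h1

/-- the elements of order at most `2` that are `2^k`-th powers, in coordinates. -/
def inV {n : ℕ} (a : Fin n → ℕ) (k : ℕ) (v : (i : Fin n) → ZMod (2 ^ a i)) : Prop :=
  ∀ i, v i = 0 ∨ (k < a i ∧ v i = 2 ^ (a i - 1))

theorem inV_iff {n : ℕ} (a : Fin n → ℕ) (ha1 : ∀ i, 1 ≤ a i) (k : ℕ)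
    (v : (i : Fin n) → ZMod (2 ^ a i)) :
    inV a k v ↔ (2 • v = 0 ∧ ∃ w : (i : Fin n) → ZMod (2 ^ a i), v = 2 ^ k • w) := by
  constructor
  · intro h
    refine ⟨?_, fun i => if v i = 0 then 0 else 2 ^ (a i - 1 - k), ?_⟩
    · funext i
      show 2 • v i = 0
      rw [nsmul_eq_mul]
      rcases h i with h0 | ⟨-, h1⟩
      · rw [h0, mul_zero]
      · rw [h1]; exact_mod_cast two_mul_half (ha1 i)
    · funext i
      show v i = 2 ^ k • (if v i = 0 then 0 else 2 ^ (a i - 1 - k))
      rw [nsmul_eq_mul]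
      rcases h i with h0 | ⟨hk, h1⟩
      · rw [if_pos h0, mul_zero, h0]
      · by_cases h0 : v i = 0
        · rw [if_pos h0, mul_zero, h0]
        · rw [if_neg h0, h1]
          push_cast
          rw [← pow_add]
          congr 1
          omega
  · rintro ⟨h2, w, hw⟩ i
    have h2i : 2 * v i = 0 := by
      have h3 := congrFun h2 i
      have h4 : 2 • v i = 0 := h3
      rw [nsmul_eq_mul] at h4
      exact_mod_cast h4
    by_cases hk : k < a i
    · rcases zmod_two_mul_eq_zero (ha1 i) (v i) h2i with h | h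
      · left; exact h
      · right; exact ⟨hk, h⟩
    · left
      have h3 : v i = 2 ^ k • w i := congrFun hw i
      rw [h3, nsmul_eq_mul]
      push_cast
      rw [two_pow_eq_zero (not_lt.mp hk), zero_mul]

theorem fix_omega (n : ℕ) (a : Fin n → ℕ) (ha : StrictMono a) (ha1 : ∀ i, 1 ≤ a i)
    (β : ((i : Fin n) → ZMod (2 ^ a i)) →+ ((i : Fin n) → ZMod (2 ^ a i)))
    (hinj : Function.Injective β) (r : ℕ) (hr : Odd r) (hβr : ∀ v, β^[r] v = v) :
    ∀ k v, inV a k v → β v = v := by
  have hinv : ∀ k v, inV a k v → inV a k (β v) := by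
    intro k v hv
    rw [inV_iff a ha1] at hv ⊢
    obtain ⟨h2, w, hw⟩ := hv
    refine ⟨by rw [← map_nsmul, h2, map_zero], β w, by rw [← map_nsmul, ← hw]⟩
  obtain ⟨K, hK⟩ : ∃ K, ∀ i, a i ≤ K :=
    ⟨Finset.univ.sup a, fun i => Finset.le_sup (Finset.mem_univ i)⟩
  have key : ∀ d k, K ≤ k + d → ∀ v, inV a k v → β v = v := by
    intro d
    induction d with
    | zero =>
      intro k hk v hv
      have hv0 : v = 0 := by
        funext i
        rcases hv i with h | ⟨h, -⟩
        · exact h
        · exfalso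
          have := hK i
          omega
      rw [hv0, map_zero]
    | succ d ih =>
      intro k hk v hv
      by_cases hv1 : inV a (k + 1) v
      · exact ih (k + 1) (by omega) v hv1
      · have hβv : inV a k (β v) := hinv k v hv
        have hβv1 : ¬ inV a (k + 1) (β v) := by
          intro h
          have h1 := ih (k + 1) (by omega) (β v) h
          have h2 := hinj h1
          rw [h2] at h; exact hv1 h
        obtain ⟨i₀, hi₀⟩ := not_forall.mp hv1
        obtain ⟨i₁, hi₁⟩ := not_forall.mp hβv1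
        push Not at hi₀ hi₁
        have h0 : k < a i₀ ∧ v i₀ = 2 ^ (a i₀ - 1) := (hv i₀).resolve_left hi₀.1
        have ha0 : a i₀ = k + 1 := by
          by_contra hne
          exact hi₀.2 (by omega) h0.2
        have h1 : k < a i₁ ∧ (β v) i₁ = 2 ^ (a i₁ - 1) := (hβv i₁).resolve_left hi₁.1
        have ha1' : a i₁ = k + 1 := by
          by_contra hne
          exact hi₁.2 (by omega) h1.2
        have hi : i₁ = i₀ := ha.injective (ha1'.trans ha0.symm)
        subst hi
        have hw : inV a (k + 1) (β v - v) := by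
          intro i
          by_cases hii : i = i₁
          · left
            subst hii
            show (β v) i - v i = 0
            rw [h1.2, h0.2, sub_self]
          · have hai : a i ≠ k + 1 := fun h => hii (ha.injective (h.trans ha0.symm))
            rcases hβv i with hb | ⟨hb1, hb2⟩ <;> rcases hv i with hc | ⟨hc1, hc2⟩
            · left
              show (β v) i - v i = 0
              rw [hb, hc, sub_zero]
            · right
              refine ⟨by omega, ?_⟩
              show (β v) i - v i = _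
              rw [hb, hc2, zero_sub]; exact neg_half (ha1 i)
            · right
              refine ⟨by omega, ?_⟩
              show (β v) i - v i = _
              rw [hb2, hc, sub_zero]
            · left
              show (β v) i - v i = 0
              rw [hb2, hc2, sub_self]
        have hwfix : β (β v - v) = β v - v := ih (k + 1) (by omega) _ hw
        have hiter : ∀ m : ℕ, β^[m] v = v + m • (β v - v) := by
          intro m
          induction m with
          | zero => simp
          | succ m ihm =>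
            rw [Function.iterate_succ_apply', ihm, map_add, map_nsmul, hwfix, succ_nsmul]
            abel
        have h2w : 2 • (β v - v) = 0 := ((inV_iff a ha1 (k + 1) _).mp hw).1
        have hrw : r • (β v - v) = 0 := by
          have h3 := hiter r
          rw [hβr v] at h3
          exact add_eq_left.mp h3.symm
        obtain ⟨m, hm⟩ := hr
        rw [hm, add_nsmul, one_nsmul, mul_nsmul, h2w, nsmul_zero, zero_add] at hrw
        exact sub_eq_zero.mp hrw
  intro k v hv
  exact key K k (by omega) v hv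

/-- the additive map on coordinates given by an automorphism. -/
noncomputable def addOf {A M : Type*} [Group A] [AddCommGroup M] (e : A ≃* Multiplicative M)
    (α : MulAut A) : M →+ M where
  toFun v := Multiplicative.toAdd (e (α (e.symm (Multiplicative.ofAdd v))))
  map_zero' := by simp
  map_add' v w := by simp [ofAdd_add]

theorem addOf_apply {A M : Type*} [Group A] [AddCommGroup M] (e : A ≃* Multiplicative M)
    (α : MulAut A) (v : M) :
    addOf e α v = Multiplicative.toAdd (e (α (e.symm (Multiplicative.ofAdd v)))) := rfl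

theorem addOf_iter {A M : Type*} [Group A] [AddCommGroup M] (e : A ≃* Multiplicative M)
    (α : MulAut A) (m : ℕ) (v : M) :
    (addOf e α)^[m] v = Multiplicative.toAdd (e ((α ^ m) (e.symm (Multiplicative.ofAdd v)))) := by
  induction m with
  | zero => simp
  | succ m ih =>
    rw [Function.iterate_succ_apply', ih, addOf_apply, ofAdd_toAdd, e.symm_apply_apply,
      pow_succ', MulAut.mul_apply]

theorem aut_fix_sq {A : Type*} [Group A] (n : ℕ) (a : Fin n → ℕ) (ha : StrictMono a)
    (ha1 : ∀ i, 1 ≤ a i) (e : A ≃* Multiplicative ((i : Fin n) → ZMod (2 ^ a i)))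
    (α : MulAut A) (r : ℕ) (hr : Odd r) (hαr : α ^ r = 1) (x : A) (hx : x ^ 2 = 1) :
    α x = x := by
  have hinj : Function.Injective (addOf e α) := by
    intro v w h
    have h1 : e (α (e.symm (Multiplicative.ofAdd v))) =
        e (α (e.symm (Multiplicative.ofAdd w))) := h
    exact e.symm.injective (α.injective (e.injective h1))
  have hβr : ∀ v, (addOf e α)^[r] v = v := by
    intro v
    rw [addOf_iter, hαr]
    simp
  have hv : inV a 0 (Multiplicative.toAdd (e x)) := by
    rw [inV_iff a ha1]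
    refine ⟨?_, Multiplicative.toAdd (e x), by rw [pow_zero, one_nsmul]⟩
    rw [← toAdd_pow, ← map_pow, hx, map_one, toAdd_one]
  have h := fix_omega n a ha ha1 (addOf e α) hinj r hr hβr 0 _ hv
  have h1 : e (α (e.symm (e x))) = e x := h
  rw [e.symm_apply_apply] at h1
  exact e.injective h1

variable {Ω : Type*} [Group Ω] {S : Subgroup Ω}

/-- `S5331` -/
theorem inner_of_distinct_invariants [Finite S] (n : ℕ) (a : Fin n → ℕ) (ha : StrictMono a)
    (ha1 : ∀ i, 1 ≤ a i) (e : ↥S ≃* Multiplicative ((i : Fin n) → ZMod (2 ^ a i)))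
    (F : FusionSystem S) (hF : F.IsSaturated 2) (P : Subgroup Ω) :
    F.Hom P = (innerFusionSystem S).Hom P := by
  have hab : ∀ x ∈ S, ∀ y ∈ S, x * y = y * x := by
    intro x hx y hy
    have h1 : e (⟨x, hx⟩ * ⟨y, hy⟩) = e (⟨y, hy⟩ * ⟨x, hx⟩) := by
      rw [map_mul, map_mul, mul_comm]
    exact congrArg Subtype.val (e.injective h1)
  have hcard : Nat.card S = 2 ^ (∑ i, a i) := by
    rw [Nat.card_congr e.toEquiv]
    show Nat.card ((i : Fin n) → ZMod (2 ^ a i)) = _
    rw [Nat.card_pi, ← Finset.prod_pow_eq_pow_sum]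
    apply Finset.prod_congr rfl
    intro i _
    rw [Nat.card_zmod]
  have hS : IsPGroup 2 S := IsPGroup.of_card hcard
  haveI : IsMulCommutative S := ⟨⟨fun x y => Subtype.ext (hab x x.2 y y.2)⟩⟩
  have hfix : ∀ α ∈ F.autGroup S, ∀ x : S, α x = x := by
    intro α hα
    by_cases hS1 : Nat.card S = 1
    · intro x
      haveI : Subsingleton S := (Nat.card_eq_one_iff_unique.mp hS1).1
      exact Subsingleton.elim _ _
    have h2 : 2 ∣ Nat.card S := (hS.card_eq_or_dvd).resolve_left hS1
    have hcop := card_autGroup_top_coprime 2 hS F hF hab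
    have hodd : Odd (Nat.card (F.autGroup S)) := by
      rw [← Nat.not_even_iff_odd, even_iff_two_dvd]
      intro h3
      have h4 := Nat.dvd_gcd h2 h3
      rw [hcop.gcd_eq_one] at h4
      omega
    have hαr : α ^ Nat.card (F.autGroup S) = 1 := by
      have h5 : (⟨α, hα⟩ : F.autGroup S) ^ Nat.card (F.autGroup S) = 1 := pow_card_eq_one'
      exact congrArg Subtype.val h5
    have hsq : ∀ x : S, x ^ 2 = 1 → α x = x := fun x hx =>
      aut_fix_sq n a ha ha1 e α _ hodd hαr x hx
    have hcop2 : Nat.Coprime (Nat.card (F.autGroup S)) 2 :=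
      Nat.Coprime.symm (Nat.coprime_two_left.mpr hodd)
    exact Cfsg.Agent.Lib_helper5_AutP.aut_trivial_of_omega hcop2 hS α
      (fun x => by rw [hαr]; rfl) hsq
  apply Set.Subset.antisymm
  · intro φ hφ
    have hPS := (F.le_of_mem hφ).1
    obtain ⟨α, hα, hαx⟩ := exists_aut_of_abelian 2 hS F hF hab hφ
    refine ⟨hPS, 1, S.one_mem, fun x => ?_⟩
    rw [hαx x (hPS x.2), hfix α hα]
    group
  · exact inner_le F P

end Cfsg.Agent.Lib_helper9_FusionAb2
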