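import Mathlib
import Cfsg.Prelude.Def_FusionSystem
import Cfsg.Prelude.Def_PLocal
import Cfsg.Agent.Lib_helper9_FusionChain
import Cfsg.Agent.Lib_helper9_Omega

set_option autoImplicit false

namespace Cfsg.Agent.Lib_helper9_FusionFocN

open Cfsg Cfsg.FusionSystem Cfsg.Agent.Lib_helper9_Fusion Cfsg.Agent.Lib_helper9_FusionNC
  Cfsg.Agent.Lib_helper9_FusionSat Cfsg.Agent.Lib_helper9_FusionGen
  Cfsg.Agent.Lib_helper9_FusionGen2 Cfsg.Agent.Lib_helper9_FusionNormal
  Cfsg.Agent.Lib_helper9_FusionChain Cfsg.Agent.Lib_helper9_Omega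

open scoped commutatorElement

variable {Ω : Type*} [Group Ω] {S : Subgroup Ω}

theorem focal_le (F : FusionSystem S) : F.focalSubgroup ≤ S := by
  unfold focalSubgroup
  rw [Subgroup.closure_le]
  rintro y ⟨P, φ, x, hφ, rfl⟩
  have h := F.le_of_mem hφ
  exact S.mul_mem (S.inv_mem (h.1 x.2)) (h.2 x)

theorem focal_stronglyClosed (F : FusionSystem S) : F.StronglyClosed F.focalSubgroup := by
  refine ⟨focal_le F, fun R hR φ hφ x => ?_⟩
  have h1 : (x : Ω)⁻¹ * φ x ∈ F.focalSubgroup := Subgroup.subset_closure ⟨R, φ, x, hφ, rfl⟩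
  have h2 := F.focalSubgroup.mul_mem (hR x.2) h1
  rwa [mul_inv_cancel_left] at h2

theorem mem_focal_of_aut (F : FusionSystem S) {U : Subgroup Ω} (hUS : U ≤ S) (γ : MulAut U)
    (hγ : γ ∈ F.autGroup U) (x : U) : (x : Ω)⁻¹ * ((γ x : U) : Ω) ∈ F.focalSubgroup := by
  have hγF := (mem_autGroup_iff F hUS γ).mp hγ
  exact Subgroup.subset_closure ⟨U, _, x, hγF, rfl⟩

/-- a `p`-element normalizing a cyclic subgroup of order `p` centralizes it. -/
theorem conj_eq_of_mem_zpowers {G : Type*} [Group G] {p : ℕ} [Fact p.Prime] {g x : G} {b : ℕ}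
    (hg : g ^ (p ^ b) = 1) (hx : x ^ p = 1) (h : g * x * g⁻¹ ∈ Subgroup.zpowers x) :
    g * x * g⁻¹ = x := by
  by_cases hx1 : x = 1
  · subst hx1; simp
  have hord : orderOf x = p := orderOf_eq_prime hx hx1
  have hfin : IsOfFinOrder x :=
    isOfFinOrder_iff_pow_eq_one.mpr ⟨p, (Fact.out : p.Prime).pos, hx⟩
  obtain ⟨k, hk⟩ : ∃ k : ℕ, x ^ k = g * x * g⁻¹ := hfin.mem_powers_iff_mem_zpowers.mpr h
  have hiter : ∀ j : ℕ, g ^ j * x * (g ^ j)⁻¹ = x ^ (k ^ j) := by
    intro j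
    induction j with
    | zero => simp
    | succ j ih =>
      have h1 : g ^ (j + 1) * x * (g ^ (j + 1))⁻¹ = g * (g ^ j * x * (g ^ j)⁻¹) * g⁻¹ := by
        rw [pow_succ']; group
      rw [h1, ih]
      have h2 : g * x ^ (k ^ j) * g⁻¹ = (g * x * g⁻¹) ^ (k ^ j) := by
        rw [conj_pow]
      rw [h2, ← hk, ← pow_mul, pow_succ']
  have h3 := hiter (p ^ b)
  rw [hg] at h3
  have h3' : x ^ (k ^ (p ^ b)) = x ^ 1 := by
    rw [← h3]; simp
  have h4 : k ^ (p ^ b) ≡ 1 [MOD p] := by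
    have := pow_eq_pow_iff_modEq.mp h3'
    rwa [hord] at this
  have h5 : k ≡ 1 [MOD p] := by
    rw [← ZMod.natCast_eq_natCast_iff] at h4 ⊢
    push_cast at h4 ⊢
    rw [ZMod.pow_card_pow] at h4
    exact h4
  rw [← hk]
  have h6 : x ^ k = x ^ 1 := pow_eq_pow_iff_modEq.mpr (by rw [hord]; exact h5)
  rw [h6, pow_one]

theorem conj_eq_or_inv_of_mem_zpowers {G : Type*} [Group G] {g x : G} (hx : x ^ 4 = 1)
    (h : g * x * g⁻¹ ∈ Subgroup.zpowers x) : g * x * g⁻¹ = x ∨ g * x * g⁻¹ = x⁻¹ := by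
  have hfin : IsOfFinOrder x := isOfFinOrder_iff_pow_eq_one.mpr ⟨4, by norm_num, hx⟩
  obtain ⟨k, hk⟩ : ∃ k : ℕ, x ^ k = g * x * g⁻¹ := hfin.mem_powers_iff_mem_zpowers.mpr h
  have hk4 : x ^ (k % 4) = g * x * g⁻¹ := by
    rw [← hk]
    conv_rhs => rw [← Nat.mod_add_div k 4]
    rw [pow_add, pow_mul, hx, one_pow, mul_one]
  have hlt : k % 4 < 4 := Nat.mod_lt _ (by norm_num)
  have hx1_of : ∀ y : G, g * y * g⁻¹ = 1 → y = 1 := by
    intro y h1
    have h2 : y = g⁻¹ * (g * y * g⁻¹) * g := by group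
    rw [h2, h1]; group
  obtain ⟨m, hm⟩ : ∃ m, m = k % 4 := ⟨_, rfl⟩
  rw [← hm] at hk4 hlt
  interval_cases m
  · rw [pow_zero] at hk4
    have h2 := hx1_of x hk4.symm
    left; rw [h2]; group
  · left; rw [← hk4, pow_one]
  · have h2 : (g * x * g⁻¹) ^ 2 = 1 := by rw [← hk4, ← pow_mul]; exact hx
    rw [conj_pow] at h2
    have hx2 : x ^ 2 = 1 := hx1_of _ h2
    rw [hx2] at hk4
    have h3 := hx1_of x hk4.symm
    left; rw [h3]; group
  · right
    rw [← hk4]
    apply eq_inv_of_mul_eq_one_left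
    rw [← pow_succ]; exact hx

theorem fix_of_pow_fix {V : Type*} [Group V] (β : MulAut V) (n : ℕ)
    (hn : n.Coprime (orderOf β)) (x : V) (h : (β ^ n) x = x) : β x = x := by
  obtain ⟨k, hk⟩ := exists_pow_eq_self_of_coprime hn
  have h2 : ∀ j : ℕ, ((β ^ n) ^ j) x = x := by
    intro j
    induction j with
    | zero => simp
    | succ j ihj => rw [pow_succ, MulAut.mul_apply, h, ihj]
  have h3 := h2 k
  rw [hk] at h3; exact h3

/-- the condition on automorphisms. -/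
def FC (F : FusionSystem S) (p : ℕ) (U : Subgroup Ω) (χ : MulAut U) : Prop :=
  ∀ x : U, (x : Ω) ∈ F.focalSubgroup → (x ^ p = 1 ∨ (p = 2 ∧ x ^ 4 = 1)) →
    (χ x = x ∨ (p = 2 ∧ χ x = x⁻¹))

theorem fc_one (F : FusionSystem S) (p : ℕ) (U : Subgroup Ω) : FC F p U 1 :=
  fun x _ _ => Or.inl rfl

theorem fc_mul {F : FusionSystem S} {p : ℕ} {U : Subgroup Ω} {χ₁ χ₂ : MulAut U}
    (h₁ : FC F p U χ₁) (h₂ : FC F p U χ₂) : FC F p U (χ₁ * χ₂) := by
  intro x hx hxp
  rw [MulAut.mul_apply]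
  rcases h₂ x hx hxp with h | ⟨hp2, h⟩
  · rw [h]; exact h₁ x hx hxp
  · rw [h, map_inv]
    rcases h₁ x hx hxp with h' | ⟨_, h'⟩
    · right; exact ⟨hp2, by rw [h']⟩
    · left; rw [h', inv_inv]

theorem fc_pow {F : FusionSystem S} {p : ℕ} {U : Subgroup Ω} {χ : MulAut U}
    (h : FC F p U χ) (k : ℕ) : FC F p U (χ ^ k) := by
  induction k with
  | zero => rw [pow_zero]; exact fc_one F p U
  | succ k ih => rw [pow_succ]; exact fc_mul ih h

theorem autInducedBy_le_inn_of_focal [Finite S] {p : ℕ} [Fact p.Prime]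
    (hS : IsPGroup p S) (F : FusionSystem S) {U : Subgroup Ω} (hUS : U ≤ S)
    (hrad : F.IsRadical p U)
    (hnorm : ∀ x ∈ F.focalSubgroup, (x ^ p = 1 ∨ (p = 2 ∧ x ^ 4 = 1)) →
      ∀ s ∈ S, s * x * s⁻¹ ∈ Subgroup.zpowers x) :
    autInducedBy S U ≤ Inn U := by
  haveI : Finite U := finite_of_le hUS
  have hfocS := focal_le F
  have hfsc := focal_stronglyClosed F
  obtain ⟨b, hpow⟩ := pow_card_eq_one_of_mem hS
  have hcl : ∀ χ : F.autGroup U,
      χ ∈ Subgroup.closure {χ : F.autGroup U | FC F p U (χ : MulAut U)} →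
      FC F p U (χ : MulAut U) := by
    intro χ hχ
    induction hχ using Subgroup.closure_induction with
    | mem x hx => exact hx
    | one => exact fc_one F p U
    | mul x y _ _ hx hy => exact fc_mul hx hy
    | inv x _ hx =>
      have h1 : (x : MulAut U)⁻¹ = (x : MulAut U) ^ (orderOf (x : MulAut U) - 1) := by
        apply inv_eq_of_mul_eq_one_right
        rw [← pow_succ', Nat.sub_add_cancel (orderOf_pos _), pow_orderOf_eq_one]
      show FC F p U ((x : MulAut U)⁻¹)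
      rw [h1]
      exact fc_pow hx _
  have hinvP : ∀ γ ∈ F.autGroup U, ∀ x : U, (x : Ω) ∈ F.focalSubgroup →
      ((γ x : U) : Ω) ∈ F.focalSubgroup :=
    fun γ hγ x hx => pres_of_stronglyClosed F hfsc hUS γ hγ x hx
  have hnormal : (Subgroup.closure {χ : F.autGroup U | FC F p U (χ : MulAut U)}).Normal := by
    apply closure_normal_of_conj_closed
    intro γ χ hχ
    have hγi : ((γ : MulAut U)⁻¹) ∈ F.autGroup U := (γ⁻¹).2
    intro x hx hxp
    have hw : ((((γ : MulAut U)⁻¹ x : U)) : Ω) ∈ F.focalSubgroup := hinvP _ hγi x hx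
    have hwp : (((γ : MulAut U)⁻¹ x) ^ p = 1 ∨ (p = 2 ∧ ((γ : MulAut U)⁻¹ x) ^ 4 = 1)) := by
      rcases hxp with h | ⟨h2, h⟩
      · left; rw [← map_pow, h, map_one]
      · right; exact ⟨h2, by rw [← map_pow, h, map_one]⟩
    have h3 : ∀ y : U, (γ : MulAut U) ((γ : MulAut U)⁻¹ y) = y := fun y =>
      MulAut.apply_inv_self _ _ y
    show ((γ : MulAut U) ((χ : MulAut U) ((γ : MulAut U)⁻¹ x)) = x ∨
      (p = 2 ∧ (γ : MulAut U) ((χ : MulAut U) ((γ : MulAut U)⁻¹ x)) = x⁻¹))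
    rcases hχ _ hw hwp with h | ⟨h2, h⟩
    · left; rw [h, h3]
    · right; exact ⟨h2, by rw [h, map_inv, h3]⟩
  have hp' : IsPGroup p (Subgroup.closure {χ : F.autGroup U | FC F p U (χ : MulAut U)}) := by
    apply isPGroup_of_coprime_trivial
    rintro ⟨χ, hχ⟩ hord
    have hcc := hcl χ hχ
    have e1 : orderOf (χ : MulAut U) = orderOf χ := Subgroup.orderOf_coe χ
    have e2 : orderOf χ = orderOf (⟨χ, hχ⟩ :
        Subgroup.closure {χ : F.autGroup U | FC F p U (χ : MulAut U)}) :=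
      Subgroup.orderOf_coe (⟨χ, hχ⟩ :
        Subgroup.closure {χ : F.autGroup U | FC F p U (χ : MulAut U)})
    have hord' : (orderOf (χ : MulAut U)).Coprime p := by rw [e1, e2]; exact hord
    have hfixP : ∀ y : U, (y : Ω) ∈ F.focalSubgroup → (χ : MulAut U) y = y := by
      intro y hy
      by_cases hp : p = 2
      · have h2 : (2 : ℕ) ∣ ∑ i ∈ Finset.range 4, i := sum_range_four
        have hpd : p ∣ 4 := by rw [hp]; norm_num
        have hsum : p ∣ ∑ i ∈ Finset.range 4, i := by rw [hp]; exact h2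
        refine omega_aut_sub p 4 hpd hsum (F.focalSubgroup.subgroupOf U)
          ((hS.to_le hfocS).comap_subtype) (χ : MulAut U) hord'
          (fun w hw => Subgroup.mem_subgroupOf.mpr (hinvP χ χ.2 w (Subgroup.mem_subgroupOf.mp hw)))
          (fun w hw hwp => ?_) y (Subgroup.mem_subgroupOf.mpr hy)
        have hwf : (w : Ω) ∈ F.focalSubgroup := Subgroup.mem_subgroupOf.mp hw
        have hsq : ((χ : MulAut U) ^ 2) w = w := by
          rw [pow_two, MulAut.mul_apply]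
          rcases hcc w hwf (Or.inr ⟨hp, hwp⟩) with h | ⟨_, h⟩
          · rw [h, h]
          · rw [h, map_inv, h, inv_inv]
        have hco : (2 : ℕ).Coprime (orderOf (χ : MulAut U)) := by
          rw [hp] at hord'; exact hord'.symm
        exact fix_of_pow_fix _ 2 hco w hsq
      · refine omega_aut_sub p p dvd_rfl (sum_range_dvd_of_odd Fact.out hp)
          (F.focalSubgroup.subgroupOf U)
          ((hS.to_le hfocS).comap_subtype) (χ : MulAut U) hord'
          (fun w hw => Subgroup.mem_subgroupOf.mpr (hinvP χ χ.2 w (Subgroup.mem_subgroupOf.mp hw)))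
          (fun w hw hwp => ?_) y (Subgroup.mem_subgroupOf.mpr hy)
        have hwf : (w : Ω) ∈ F.focalSubgroup := Subgroup.mem_subgroupOf.mp hw
        rcases hcc w hwf (Or.inl hwp) with h | ⟨h2, _⟩
        · exact h
        · exact absurd h2 hp
    apply Subtype.ext
    apply Subtype.ext
    show (χ : MulAut U) = 1
    ext x
    have hc : (χ : MulAut U) (x⁻¹ * (χ : MulAut U) x) = x⁻¹ * (χ : MulAut U) x :=
      hfixP _ (mem_focal_of_aut F hUS _ χ.2 x)
    have h5 := pow_apply_of_fixed (χ : MulAut U) x (x⁻¹ * (χ : MulAut U) x) (by group) hc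
      (orderOf (χ : MulAut U))
    rw [pow_orderOf_eq_one] at h5
    have h6 : (x⁻¹ * (χ : MulAut U) x) ^ orderOf (χ : MulAut U) = 1 := by
      have h7 : x = x * (x⁻¹ * (χ : MulAut U) x) ^ orderOf (χ : MulAut U) := h5
      exact mul_eq_left.mp h7.symm
    have h8 : ((x⁻¹ * (χ : MulAut U) x : U) : Ω) ^ orderOf (χ : MulAut U) = 1 := by
      have h7 := congrArg Subtype.val h6
      simpa using h7
    have h9 := eq_one_of_pow_coprime hS (hUS (x⁻¹ * (χ : MulAut U) x).2) hord' h8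
    have h10 : x⁻¹ * (χ : MulAut U) x = 1 := Subtype.ext h9
    exact congrArg Subtype.val (inv_mul_eq_one.mp h10).symm
  have hX := le_pCore' hnormal hp'
  intro β hβ
  have hβA : β ∈ F.autGroup U := autInducedBy_le_autGroup F hUS hβ
  rw [mem_autInducedBy_iff] at hβ
  obtain ⟨g, hg, hgx⟩ := hβ
  have hβX : (⟨β, hβA⟩ : F.autGroup U) ∈
      Subgroup.closure {χ : F.autGroup U | FC F p U (χ : MulAut U)} := by
    apply Subgroup.subset_closure
    intro x hx hxp
    show (β x = x ∨ (p = 2 ∧ β x = x⁻¹))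
    have hxp' : ((x : Ω) ^ p = 1 ∨ (p = 2 ∧ (x : Ω) ^ 4 = 1)) := by
      rcases hxp with h | ⟨h2, h⟩
      · left; rw [← Subgroup.coe_pow, h, Subgroup.coe_one]
      · right; exact ⟨h2, by rw [← Subgroup.coe_pow, h, Subgroup.coe_one]⟩
    have hz := hnorm (x : Ω) hx hxp' g hg
    by_cases hp : p = 2
    · have hx4 : (x : Ω) ^ 4 = 1 := by
        rcases hxp' with h | ⟨_, h⟩
        · rw [hp] at h
          have : (x : Ω) ^ 4 = ((x : Ω) ^ 2) ^ 2 := by rw [← pow_mul]
          rw [this, h, one_pow]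
        · exact h
      rcases conj_eq_or_inv_of_mem_zpowers hx4 hz with h | h
      · left; apply Subtype.ext; rw [hgx x, h]
      · right; refine ⟨hp, ?_⟩; apply Subtype.ext; rw [hgx x, h]; simp
    · have hxp1 : (x : Ω) ^ p = 1 := by
        rcases hxp' with h | ⟨h2, _⟩
        · exact h
        · exact absurd h2 hp
      left; apply Subtype.ext; rw [hgx x]
      exact conj_eq_of_mem_zpowers (hpow g hg) hxp1 hz
  have h6 : β ∈ (pCore p (F.autGroup U)).map (F.autGroup U).subtype :=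
    ⟨⟨β, hβA⟩, hX hβX, rfl⟩
  rw [hrad.2] at h6; exact h6

/-- `S5300` -/
theorem isNormal_top_of_focal [Finite S] (p : ℕ) [Fact p.Prime] (hS : IsPGroup p S)
    (F : FusionSystem S) (hF : F.IsSaturated p)
    (hnorm : ∀ x ∈ F.focalSubgroup, (x ^ p = 1 ∨ (p = 2 ∧ x ^ 4 = 1)) →
      ∀ s ∈ S, s * x * s⁻¹ ∈ Subgroup.zpowers x) :
    F.IsNormal S := by
  have hSC : F.StronglyClosed S := ⟨le_rfl, fun R hR φ hφ x => (F.le_of_mem hφ).2 x⟩
  apply isNormal_of_stronglyClosed_le p hS F hF hSC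
  intro U hfn hcen hrad
  have hUS := hfn.1
  have hle := autInducedBy_le_inn_of_focal hS F hUS hrad hnorm
  exact le_of_normalizer_le hS hUS le_rfl (hUS.trans Subgroup.le_normalizer) (fun q hq hqN =>
    mem_of_autInducedBy_le_inn le_rfl hUS (hcen.2 U (isConj_refl F hUS)) hle hq hqN)

end Cfsg.Agent.Lib_helper9_FusionFocN
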