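import Mathlib
import Cfsg.Prelude.Def_FusionSystem
import Cfsg.Agent.Lib_helper9_FusionLift
import Cfsg.Agent.Lib_helper7_SE3

set_option autoImplicit false

namespace Cfsg.Agent.Lib_helper9_FusionHyp

open Cfsg Cfsg.FusionSystem Cfsg.Agent.Lib_helper9_Fusion Cfsg.Agent.Lib_helper9_FusionNC
  Cfsg.Agent.Lib_helper9_FusionSat Cfsg.Agent.Lib_helper9_FusionGen
  Cfsg.Agent.Lib_helper9_FusionGen2 Cfsg.Agent.Lib_helper9_FusionEss
  Cfsg.Agent.Lib_helper9_FusionFocal Cfsg.Agent.Lib_helper9_FusionLift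

variable {Ω : Type*} [Group Ω] {S : Subgroup Ω}

/-- the elements acting on `T` as an element of `L`. -/
def actSub (T : Subgroup Ω) (L : Subgroup (MulAut T)) : Subgroup Ω where
  carrier := {x | ∃ a ∈ L, ∀ t : T, ((a t : T) : Ω) = x * (t : Ω) * x⁻¹}
  one_mem' := ⟨1, L.one_mem, fun t => by simp⟩
  mul_mem' := by
    rintro x y ⟨a, ha, hax⟩ ⟨b, hb, hby⟩
    refine ⟨a * b, L.mul_mem ha hb, fun t => ?_⟩
    show ((a (b t) : T) : Ω) = _
    rw [hax, hby]; group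
  inv_mem' := by
    rintro x ⟨a, ha, hax⟩
    refine ⟨a⁻¹, L.inv_mem ha, fun t => ?_⟩
    have h1 := hax (a⁻¹ t)
    rw [MulAut.apply_inv_self] at h1
    rw [h1]; group

theorem mem_actSub (T : Subgroup Ω) (L : Subgroup (MulAut T)) (x : Ω) :
    x ∈ actSub T L ↔ ∃ a ∈ L, ∀ t : T, ((a t : T) : Ω) = x * (t : Ω) * x⁻¹ := Iff.rfl

/-- a `p'`-power of an element agreeing with a given power modulo another order -/
theorem exists_pprime_pow {A B : Type*} [Group A] [Group B] [Finite A] (p : ℕ) [Fact p.Prime]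
    (a : A) (b : B) (hb : (orderOf b).Coprime p) :
    ∃ k : ℕ, (orderOf (a ^ k)).Coprime p ∧ b ^ k = b := by
  have hn : orderOf a ≠ 0 := (orderOf_pos a).ne'
  obtain ⟨e, m, hm, hnm⟩ := Nat.exists_eq_pow_mul_and_not_dvd hn p (Fact.out : p.Prime).ne_one
  have hco : (orderOf b).Coprime (p ^ e) := Nat.Coprime.pow_right e hb
  obtain ⟨k, hk1, hk0⟩ := Nat.chineseRemainder hco 1 0
  refine ⟨k, ?_, ?_⟩
  · have h1 : (a ^ k) ^ m = 1 := by
      rw [← pow_mul]
      apply orderOf_dvd_iff_pow_eq_one.mp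
      rw [hnm]
      exact Nat.mul_dvd_mul ((Nat.modEq_zero_iff_dvd).mp hk0) dvd_rfl
    have h2 : orderOf (a ^ k) ∣ m := orderOf_dvd_of_pow_eq_one h1
    have h3 : m.Coprime p := ((Nat.Prime.coprime_iff_not_dvd (Fact.out : p.Prime)).mpr hm).symm
    exact Nat.Coprime.coprime_dvd_left h2 h3
  · have h1 : b ^ k = b ^ 1 := pow_eq_pow_iff_modEq.mpr hk1
    rw [h1, pow_one]

theorem hyperfocal_act [Finite S] (p : ℕ) [Fact p.Prime] (hS : IsPGroup p S)
    (F : FusionSystem S) (hF : F.IsSaturated p) (T : Subgroup Ω) (hT : F.StronglyClosed T) :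
    ∀ x ∈ F.hyperfocalSubgroup p, ∃ α ∈ ((Cfsg.pResidual p ↥(F.autGroup T)).map
      (F.autGroup T).subtype ⊔ Cfsg.Inn ↥T : Subgroup (MulAut ↥T)),
      ∀ t : ↥T, ((α t : ↥T) : Ω) = x * (t : Ω) * x⁻¹ := by
  have hTS := hT.1
  have hSn := le_normalizer_of_stronglyClosed F hT
  haveI : Finite T := finite_of_le hTS
  -- the key claim for `p'`-elements
  have key : ∀ (P : Subgroup Ω), P ≤ S → ∀ γ : F.autGroup P, (orderOf γ).Coprime p →
      ∀ x : P, (x : Ω)⁻¹ * (((γ : MulAut P) x : P) : Ω) ∈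
        actSub T ((Cfsg.pResidual p ↥(F.autGroup T)).map (F.autGroup T).subtype ⊔ Cfsg.Inn ↥T) := by
    intro P hPS γ hγ x
    haveI : Finite P := finite_of_le hPS
    have hUS : P ⊔ T ≤ S := sup_le hPS hTS
    haveI : Finite (P ⊔ T : Subgroup Ω) := finite_of_le hUS
    have hγF := (mem_autGroup_iff F hPS _).mp γ.2
    obtain ⟨φh, hφh, hφe⟩ := exists_lift_mod p hS F hF hT hγF
    have hPn : P ≤ Subgroup.normalizer (T : Set Ω) := hPS.trans hSn
    -- `φh` maps `P ⊔ T` onto itself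
    have hrange : φh.range = P ⊔ T := by
      apply Subgroup.eq_of_le_of_card_ge
      · rintro _ ⟨z, rfl⟩
        obtain ⟨y, hy, t, ht, hyt⟩ := mem_sup_of_le_normalizer hPn z.2
        have hz : z = ⟨y, Subgroup.mem_sup_left hy⟩ * ⟨t, Subgroup.mem_sup_right ht⟩ :=
          Subtype.ext hyt.symm
        rw [hz, map_mul]
        refine Subgroup.mul_mem _ ?_ (Subgroup.mem_sup_right (sc_mem F hT hφh _ ht))
        have h0 := hφe ⟨y, hy⟩
        have h3 : φh ⟨y, Subgroup.mem_sup_left hy⟩ =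
            (φh ⟨y, Subgroup.mem_sup_left hy⟩ *
              ((P.subtype.comp (γ : MulAut P).toMonoidHom) ⟨y, hy⟩)⁻¹) *
              ((P.subtype.comp (γ : MulAut P).toMonoidHom) ⟨y, hy⟩) := by group
        rw [h3]
        exact Subgroup.mul_mem _ (Subgroup.mem_sup_right h0)
          (Subgroup.mem_sup_left (Subtype.property _))
      · exact (Nat.card_congr (MonoidHom.ofInjective (F.injective_of_mem hφh)).toEquiv).le
    obtain ⟨γh, hγh⟩ : ∃ γh : MulAut (P ⊔ T : Subgroup Ω),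
        γh = isoOf φh (F.injective_of_mem hφh) hrange := ⟨_, rfl⟩
    have hγhA : γh ∈ F.autGroup (P ⊔ T) := hγh ▸ isoOf_mem_autGroup F hφh hrange
    have hγhx : ∀ u : (P ⊔ T : Subgroup Ω), ((γh u : (P ⊔ T : Subgroup Ω)) : Ω) = φh u := by
      intro u; rw [hγh]; rfl
    have H1 : ∀ z : P, ((γh ⟨z, Subgroup.mem_sup_left z.2⟩ : (P ⊔ T : Subgroup Ω)) : Ω) *
        ((((γ : MulAut P) z : P)) : Ω)⁻¹ ∈ T := by
      intro z; rw [hγhx]; exact hφe z
    have H2 : ∀ u : (P ⊔ T : Subgroup Ω), (u : Ω) ∈ T → ((γh u : (P ⊔ T : Subgroup Ω)) : Ω) ∈ T := by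
      intro u hu; rw [hγhx]; exact sc_mem F hT hφh u hu
    have H2pow : ∀ j : ℕ, ∀ u : (P ⊔ T : Subgroup Ω), (u : Ω) ∈ T →
        (((γh ^ j) u : (P ⊔ T : Subgroup Ω)) : Ω) ∈ T := by
      intro j
      induction j with
      | zero => intro u hu; exact hu
      | succ j ih =>
        intro u hu
        rw [pow_succ']
        exact H2 _ (ih u hu)
    have H1pow : ∀ j : ℕ, ∀ z : P,
        (((γh ^ j) ⟨z, Subgroup.mem_sup_left z.2⟩ : (P ⊔ T : Subgroup Ω)) : Ω) *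
        (((((γ : MulAut P) ^ j) z : P)) : Ω)⁻¹ ∈ T := by
      intro j
      induction j with
      | zero =>
        intro z
        show (z : Ω) * (z : Ω)⁻¹ ∈ T
        rw [mul_inv_cancel]; exact T.one_mem
      | succ j ih =>
        intro z
        rw [pow_succ', pow_succ']
        have h0 := ih z
        have hw : (γh ^ j) ⟨z, Subgroup.mem_sup_left z.2⟩ =
            ⟨_, Subgroup.mem_sup_right h0⟩ *
              ⟨((((γ : MulAut P) ^ j) z : P) : Ω), Subgroup.mem_sup_left (Subtype.property _)⟩ := by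
          apply Subtype.ext
          show _ = (((γh ^ j) ⟨z, Subgroup.mem_sup_left z.2⟩ : (P ⊔ T : Subgroup Ω)) : Ω) *
            (((((γ : MulAut P) ^ j) z : P)) : Ω)⁻¹ * (((((γ : MulAut P) ^ j) z : P)) : Ω)
          group
        show ((γh ((γh ^ j) ⟨z, Subgroup.mem_sup_left z.2⟩) : (P ⊔ T : Subgroup Ω)) : Ω) *
          ((((γ : MulAut P) (((γ : MulAut P) ^ j) z) : P)) : Ω)⁻¹ ∈ T
        rw [hw, map_mul]
        have h1 := H2 ⟨_, Subgroup.mem_sup_right h0⟩ h0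
        have h2 := H1 (((γ : MulAut P) ^ j) z)
        have h3 : ∀ a b c : Ω, a * b * c⁻¹ = a * (b * c⁻¹) := fun a b c => by group
        show ((γh ⟨_, Subgroup.mem_sup_right h0⟩ : (P ⊔ T : Subgroup Ω)) : Ω) *
          ((γh ⟨((((γ : MulAut P) ^ j) z : P) : Ω),
            Subgroup.mem_sup_left (Subtype.property _)⟩ : (P ⊔ T : Subgroup Ω)) : Ω) *
          ((((γ : MulAut P) (((γ : MulAut P) ^ j) z) : P)) : Ω)⁻¹ ∈ T
        rw [h3]
        exact T.mul_mem h1 h2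
    -- pass to a `p'`-power
    have hγ' : (orderOf (γ : MulAut P)).Coprime p := by
      rw [Subgroup.orderOf_coe]; exact hγ
    obtain ⟨k, hkco, hkγ⟩ := exists_pprime_pow p γh (γ : MulAut P) hγ'
    have hδA : γh ^ k ∈ F.autGroup (P ⊔ T) := (F.autGroup (P ⊔ T)).pow_mem hγhA k
    have hδ1 : ∀ z : P, (((γh ^ k) ⟨z, Subgroup.mem_sup_left z.2⟩ : (P ⊔ T : Subgroup Ω)) : Ω) *
        ((((γ : MulAut P) z : P)) : Ω)⁻¹ ∈ T := by
      intro z
      have h0 := H1pow k z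
      rw [hkγ] at h0
      exact h0
    -- the restriction of `δ = γh ^ k` to `T`
    have hδF := (mem_autGroup_iff F hUS _).mp hδA
    have hρ := restrict_mem F hδF (le_sup_right : T ≤ P ⊔ T)
    have hρr : (((P ⊔ T).subtype.comp (γh ^ k).toMonoidHom).comp
        (Subgroup.inclusion (le_sup_right : T ≤ P ⊔ T))).range = T := by
      apply Subgroup.eq_of_le_of_card_ge
      · rintro _ ⟨t, rfl⟩
        exact H2pow k ⟨t, Subgroup.mem_sup_right t.2⟩ t.2
      · exact (Nat.card_congr (MonoidHom.ofInjective (F.injective_of_mem hρ)).toEquiv).le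
    obtain ⟨β, hβ⟩ : ∃ β : MulAut T, β = isoOf _ (F.injective_of_mem hρ) hρr := ⟨_, rfl⟩
    have hβA : β ∈ F.autGroup T := hβ ▸ isoOf_mem_autGroup F hρ hρr
    have hβx : ∀ t : T, ((β t : T) : Ω) =
        (((γh ^ k) ⟨t, Subgroup.mem_sup_right t.2⟩ : (P ⊔ T : Subgroup Ω)) : Ω) := by
      intro t; rw [hβ]; rfl
    have hβpow : ∀ j : ℕ, ∀ t : T, (((β ^ j) t : T) : Ω) =
        ((((γh ^ k) ^ j) ⟨t, Subgroup.mem_sup_right t.2⟩ : (P ⊔ T : Subgroup Ω)) : Ω) := by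
      intro j
      induction j with
      | zero => intro t; rfl
      | succ j ih =>
        intro t
        rw [pow_succ', pow_succ']
        show ((β ((β ^ j) t) : T) : Ω) = (((γh ^ k) (((γh ^ k) ^ j)
          ⟨t, Subgroup.mem_sup_right t.2⟩) : (P ⊔ T : Subgroup Ω)) : Ω)
        rw [hβx]
        congr 2
        exact Subtype.ext (ih t)
    have hβco : (orderOf (⟨β, hβA⟩ : F.autGroup T)).Coprime p := by
      rw [Subgroup.orderOf_mk]
      apply Nat.Coprime.coprime_dvd_left _ hkco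
      apply orderOf_dvd_of_pow_eq_one
      ext t
      rw [hβpow, pow_orderOf_eq_one]
      rfl
    -- the element `x` and its images
    have hxS : (x : Ω) ∈ S := hPS x.2
    have hxN : (x : Ω) ∈ Subgroup.normalizer (T : Set Ω) := hSn hxS
    obtain ⟨cx, hcxA, hcxv⟩ : ∃ c : MulAut T, c ∈ F.autGroup T ∧
        ∀ v : T, ((c v : T) : Ω) = (x : Ω) * (v : Ω) * (x : Ω)⁻¹ :=
      ⟨Subgroup.normalizerMonoidHom T ⟨x, hxN⟩,
        autInducedBy_le_autGroup F hTS (Subgroup.subset_closure ⟨x, hxS, fun t => rfl⟩),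
        fun v => rfl⟩
    have hτ := hδ1 x
    obtain ⟨τ, hτdef⟩ : ∃ τ : Ω, τ = (((γh ^ k) ⟨x, Subgroup.mem_sup_left x.2⟩ :
        (P ⊔ T : Subgroup Ω)) : Ω) * ((((γ : MulAut P) x : P)) : Ω)⁻¹ := ⟨_, rfl⟩
    rw [← hτdef] at hτ
    obtain ⟨cτ, hcτI, hcτv⟩ : ∃ c : MulAut T, c ∈ Inn T ∧
        ∀ v : T, ((c v : T) : Ω) = τ * (v : Ω) * τ⁻¹ :=
      ⟨MulAut.conj (⟨τ, hτ⟩ : T), ⟨_, rfl⟩, fun v => rfl⟩
    have hinvv : ∀ (c : MulAut T) (w : T) (g : Ω), (∀ v : T, ((c v : T) : Ω) = g * v * g⁻¹) →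
        ((c⁻¹ w : T) : Ω) = g⁻¹ * w * g := by
      intro c w g hc
      have h4 := hc (c⁻¹ w)
      rw [MulAut.apply_inv_self] at h4
      rw [h4]; group
    -- assemble
    rw [mem_actSub]
    refine ⟨cx⁻¹ * cτ⁻¹ * β * cx * β⁻¹, ?_, ?_⟩
    · have h1 : cx⁻¹ * cτ⁻¹ * β * cx * β⁻¹ =
          (cx⁻¹ * cτ⁻¹ * cx⁻¹⁻¹) * ((cx⁻¹ * β * cx) * β⁻¹) := by group
      rw [h1]
      refine Subgroup.mul_mem _ (Subgroup.mem_sup_right ?_) (Subgroup.mem_sup_left ?_)
      · exact (innNormal T).conj_mem _ ((Inn T).inv_mem hcτI) _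
      · obtain ⟨cxA, hcxA'⟩ : ∃ c : F.autGroup T, (c : MulAut T) = cx := ⟨⟨cx, hcxA⟩, rfl⟩
        obtain ⟨βA, hβA', hβAco⟩ : ∃ b : F.autGroup T, (b : MulAut T) = β ∧
            (orderOf b).Coprime p := ⟨⟨β, hβA⟩, rfl, hβco⟩
        refine ⟨cxA⁻¹ * βA * cxA * βA⁻¹, ?_, ?_⟩
        · refine Subgroup.mul_mem _ ?_ (Subgroup.inv_mem _ (Subgroup.subset_closure hβAco))
          apply Subgroup.subset_closure
          show (orderOf (cxA⁻¹ * βA * cxA)).Coprime p
          rw [Cfsg.Agent.Lib_helper7_SE3.orderOf_conj_inv]; exact hβAco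
        · show ((cxA : MulAut T))⁻¹ * (βA : MulAut T) * (cxA : MulAut T) * ((βA : MulAut T))⁻¹ = _
          rw [hcxA', hβA']
    · intro t
      obtain ⟨u, hu⟩ : ∃ u : T, u = β⁻¹ t := ⟨_, rfl⟩
      have hut : β u = t := by rw [hu, MulAut.apply_inv_self]
      show ((cx⁻¹ (cτ⁻¹ (β (cx (β⁻¹ t)))) : T) : Ω) = _
      rw [← hu]
      have h1 : ((β (cx u) : T) : Ω) =
          (((γh ^ k) ⟨x, Subgroup.mem_sup_left x.2⟩ : (P ⊔ T : Subgroup Ω)) : Ω) * (t : Ω) *
          ((((γh ^ k) ⟨x, Subgroup.mem_sup_left x.2⟩ : (P ⊔ T : Subgroup Ω)) : Ω))⁻¹ := by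
        rw [hβx, ← hut, hβx]
        have h2 : (⟨((cx u : T) : Ω), Subgroup.mem_sup_right (Subtype.property _)⟩ :
            (P ⊔ T : Subgroup Ω)) =
            ⟨x, Subgroup.mem_sup_left x.2⟩ * ⟨u, Subgroup.mem_sup_right u.2⟩ *
              (⟨x, Subgroup.mem_sup_left x.2⟩ : (P ⊔ T : Subgroup Ω))⁻¹ :=
          Subtype.ext (hcxv u)
        rw [h2, map_mul, map_mul, map_inv]
        rfl
      rw [hinvv cx _ x hcxv, hinvv cτ _ τ hcτv, h1, hτdef]
      group
  -- closure induction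
  have key2 : ∀ (P : Subgroup Ω), P ≤ S → ∀ γ : F.autGroup P, γ ∈ pResidual p (F.autGroup P) →
      ∀ x : P, (x : Ω)⁻¹ * (((γ : MulAut P) x : P) : Ω) ∈
        actSub T ((Cfsg.pResidual p ↥(F.autGroup T)).map (F.autGroup T).subtype ⊔ Cfsg.Inn ↥T) := by
    intro P hPS γ hγ
    unfold pResidual at hγ
    induction hγ using Subgroup.closure_induction with
    | mem γ hγ => exact key P hPS γ hγ
    | one =>
      intro x
      show (x : Ω)⁻¹ * (x : Ω) ∈ _
      rw [inv_mul_cancel]; exact Subgroup.one_mem _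
    | mul a b _ _ iha ihb =>
      intro x
      have h1 := ihb x
      have h2 := iha ((b : MulAut P) x)
      have h3 : (x : Ω)⁻¹ * (((a : MulAut P) ((b : MulAut P) x) : P) : Ω) =
          ((x : Ω)⁻¹ * (((b : MulAut P) x : P) : Ω)) *
          ((((b : MulAut P) x : P) : Ω)⁻¹ * (((a : MulAut P) ((b : MulAut P) x) : P) : Ω)) := by
        group
      show (x : Ω)⁻¹ * (((a : MulAut P) ((b : MulAut P) x) : P) : Ω) ∈ _
      rw [h3]; exact Subgroup.mul_mem _ h1 h2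
    | inv a _ iha =>
      intro x
      have h1 := iha ((a : MulAut P)⁻¹ x)
      rw [MulAut.apply_inv_self] at h1
      have h2 := Subgroup.inv_mem _ h1
      have h3 : ((((a : MulAut P)⁻¹ x : P) : Ω)⁻¹ * (x : Ω))⁻¹ =
          (x : Ω)⁻¹ * ((((a : MulAut P)⁻¹ x : P)) : Ω) := by group
      rw [h3] at h2
      exact h2
  intro x hx
  have hle : F.hyperfocalSubgroup p ≤
      actSub T ((Cfsg.pResidual p ↥(F.autGroup T)).map (F.autGroup T).subtype ⊔ Cfsg.Inn ↥T) := by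
    unfold FusionSystem.hyperfocalSubgroup
    rw [Subgroup.closure_le]
    rintro _ ⟨P, α, y, hPS, hα, rfl⟩
    exact key2 P hPS α hα y
  exact hle hx

end Cfsg.Agent.Lib_helper9_FusionHyp
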