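import Mathlib
import Cfsg.Prelude.Def_FusionSystem
import Cfsg.Agent.Lib_helper9_FusionGen2
import Cfsg.Agent.Lib_helper9_FusionNormal
import Cfsg.Agent.Lib_helper9_FusionLift
import Cfsg.Agent.Lib_helper9_FusionQuot
import Cfsg.Agent.Lib_helper9_FusionCentric
import Cfsg.Agent.Lib_helper9_GroupFusion

set_option autoImplicit false

namespace Cfsg.Agent.Lib_helper9_FusionNCent

open Cfsg Cfsg.FusionSystem Cfsg.Agent.Lib_helper9_Fusion Cfsg.Agent.Lib_helper9_FusionSat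
  Cfsg.Agent.Lib_helper9_FusionGen Cfsg.Agent.Lib_helper9_FusionNC
  Cfsg.Agent.Lib_helper9_FusionNormal Cfsg.Agent.Lib_helper9_FusionLift
  Cfsg.Agent.Lib_helper9_FusionQuot Cfsg.Agent.Lib_helper9_FusionCentric

variable {Ω : Type*} [Group Ω] {S : Subgroup Ω}

/-- automorphisms of `U` in `F` centralizing `U ∩ T` and `U` modulo `T`. -/
def kT (F : FusionSystem S) (T U : Subgroup Ω) : Subgroup (F.autGroup U) where
  carrier := {χ | (∀ y : U, (y : Ω) ∈ T → (χ : MulAut U) y = y) ∧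
    ∀ y : U, (y : Ω)⁻¹ * (((χ : MulAut U) y : U) : Ω) ∈ T}
  one_mem' := ⟨fun y _ => rfl, fun y => by
    show (y : Ω)⁻¹ * (y : Ω) ∈ T
    rw [inv_mul_cancel]; exact T.one_mem⟩
  mul_mem' := by
    rintro a b ⟨ha1, ha2⟩ ⟨hb1, hb2⟩
    refine ⟨fun y hy => ?_, fun y => ?_⟩
    · show (a : MulAut U) ((b : MulAut U) y) = y
      rw [hb1 y hy, ha1 y hy]
    · show (y : Ω)⁻¹ * (((a : MulAut U) ((b : MulAut U) y) : U) : Ω) ∈ T
      have h1 := hb2 y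
      have h2 := ha2 ((b : MulAut U) y)
      have h3 : (y : Ω)⁻¹ * (((a : MulAut U) ((b : MulAut U) y) : U) : Ω) =
          ((y : Ω)⁻¹ * (((b : MulAut U) y : U) : Ω)) *
            ((((b : MulAut U) y : U) : Ω)⁻¹ * (((a : MulAut U) ((b : MulAut U) y) : U) : Ω)) := by
        group
      rw [h3]; exact T.mul_mem h1 h2
  inv_mem' := by
    rintro a ⟨ha1, ha2⟩
    refine ⟨fun y hy => ?_, fun y => ?_⟩
    · show (a : MulAut U)⁻¹ y = y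
      have h1 := ha1 y hy
      calc (a : MulAut U)⁻¹ y = (a : MulAut U)⁻¹ ((a : MulAut U) y) := by rw [h1]
        _ = y := MulAut.inv_apply_self _ _ _
    · show (y : Ω)⁻¹ * ((((a : MulAut U)⁻¹ y : U)) : Ω) ∈ T
      have h1 := ha2 ((a : MulAut U)⁻¹ y)
      rw [MulAut.apply_inv_self] at h1
      have h2 := T.inv_mem h1
      have h3 : ((((a : MulAut U)⁻¹ y : U) : Ω)⁻¹ * (y : Ω))⁻¹ =
          (y : Ω)⁻¹ * (((a : MulAut U)⁻¹ y : U) : Ω) := by group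
      rw [h3] at h2; exact h2

theorem kT_normal [Finite S] (F : FusionSystem S) {T : Subgroup Ω} (hT : F.StronglyClosed T)
    {U : Subgroup Ω} (hUS : U ≤ S) : (kT F T U).Normal := by
  constructor
  rintro χ ⟨h1, h2⟩ γ
  have hγF := (mem_autGroup_iff F hUS (γ : MulAut U)).mp γ.2
  have hγiF := (mem_autGroup_iff F hUS ((γ : MulAut U)⁻¹)).mp (Subgroup.inv_mem _ γ.2)
  refine ⟨fun y hy => ?_, fun y => ?_⟩
  · show (γ : MulAut U) ((χ : MulAut U) ((γ : MulAut U)⁻¹ y)) = y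
    have h3 : ((((γ : MulAut U)⁻¹ y : U)) : Ω) ∈ T := sc_mem F hT hγiF y hy
    rw [h1 _ h3, MulAut.apply_inv_self]
  · show (y : Ω)⁻¹ * (((γ : MulAut U) ((χ : MulAut U) ((γ : MulAut U)⁻¹ y)) : U) : Ω) ∈ T
    have h3 := h2 ((γ : MulAut U)⁻¹ y)
    have h4 := sc_mem F hT hγF (((γ : MulAut U)⁻¹ y)⁻¹ * (χ : MulAut U) ((γ : MulAut U)⁻¹ y)) h3
    have h5 : (U.subtype.comp (γ : MulAut U).toMonoidHom)
        (((γ : MulAut U)⁻¹ y)⁻¹ * (χ : MulAut U) ((γ : MulAut U)⁻¹ y)) =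
        (y : Ω)⁻¹ * (((γ : MulAut U) ((χ : MulAut U) ((γ : MulAut U)⁻¹ y)) : U) : Ω) := by
      rw [map_mul, map_inv]
      show ((((γ : MulAut U) ((γ : MulAut U)⁻¹ y) : U) : Ω))⁻¹ * _ = _
      rw [MulAut.apply_inv_self]
      rfl
    rw [h5] at h4
    exact h4

theorem kT_isPGroup [Finite S] {p : ℕ} [Fact p.Prime] (hS : IsPGroup p S)
    (F : FusionSystem S) (T : Subgroup Ω) {U : Subgroup Ω} (hUS : U ≤ S) :
    IsPGroup p (kT F T U) := by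
  obtain ⟨n, hpow⟩ := pow_card_eq_one_of_mem hS
  rintro ⟨χ, h1, h2⟩
  refine ⟨n, Subtype.ext (Subtype.ext ?_)⟩
  show (χ : MulAut U) ^ (p ^ n) = 1
  ext y
  have hc : (χ : MulAut U) (y⁻¹ * (χ : MulAut U) y) = y⁻¹ * (χ : MulAut U) y := h1 _ (h2 y)
  have h5 := pow_apply_of_fixed (χ : MulAut U) y (y⁻¹ * (χ : MulAut U) y) (by group) hc (p ^ n)
  rw [h5]
  have h6 : (y⁻¹ * (χ : MulAut U) y) ^ (p ^ n) = 1 := by
    apply Subtype.ext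
    have h7 := hpow _ (hUS (y⁻¹ * (χ : MulAut U) y).2)
    simpa using h7
  rw [h6, mul_one]; rfl

theorem kT_le_pCore [Finite S] {p : ℕ} [Fact p.Prime] (hS : IsPGroup p S)
    (F : FusionSystem S) {T : Subgroup Ω} (hT : F.StronglyClosed T) {U : Subgroup Ω}
    (hUS : U ≤ S) : kT F T U ≤ pCore p (F.autGroup U) :=
  le_pCore' (kT_normal F hT hUS) (kT_isPGroup hS F T hUS)

/-- `S5251` -/
theorem exists_conj_pcore [Finite S] (p : ℕ) [Fact p.Prime] (hS : IsPGroup p S)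
    (F : FusionSystem S) (hF : F.IsSaturated p) {T : Subgroup Ω} (hT : F.StronglyClosed T)
    (E : FusionSystem T) (hsub : E.IsSubsystemOf F) (P : Subgroup Ω) (hP : F.IsCentric P)
    (hPT : ¬ E.IsCentric (P ⊓ T)) :
    (∃ φ ∈ F.Hom P, ∃ x ∈ S ⊓ Subgroup.normalizer (φ.range : Set Ω), x ∉ φ.range ∧
      ∃ α ∈ ((pCore p ↥(F.autGroup φ.range)).map (F.autGroup φ.range).subtype :
        Subgroup (MulAut ↥φ.range)),
        ∀ y : ↥φ.range, ((α y : ↥φ.range) : Ω) = x * (y : Ω) * x⁻¹) ∧ ¬ F.IsRadical p P := by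
  have hPS := hP.1
  have hTS := hT.1
  have hTn : S ≤ Subgroup.normalizer (T : Set Ω) := le_normalizer_of_stronglyClosed F hT
  obtain ⟨U, hUdef⟩ : ∃ U, U = P ⊓ T := ⟨_, rfl⟩
  rw [← hUdef] at hPT
  have hUP : U ≤ P := hUdef ▸ inf_le_left
  have hUT : U ≤ T := hUdef ▸ inf_le_right
  have hUS : U ≤ S := hUP.trans hPS
  have h1 : ¬ ∀ Q, E.IsConj U Q → centralizerIn T Q ≤ Q := fun h => hPT ⟨hUT, h⟩
  push Not at h1
  obtain ⟨Q₀, hQ₀conj, hQ₀⟩ := h1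
  have hQ₀F : F.IsConj U Q₀ := by
    obtain ⟨θ, hθ, hr⟩ := hQ₀conj
    exact ⟨θ, hsub U hθ, hr⟩
  obtain ⟨c₀, hc₀, hc₀Q⟩ := SetLike.not_le_iff_exists.mp hQ₀
  -- a fully normalized conjugate of `U`
  obtain ⟨Us, hUsconj, hUsFN⟩ := exists_fullyNormalized_conj F hUS
  obtain ⟨hUsFC, hUsFA⟩ := fullyNormalized_imp p hS F hF hUsFN
  have hUsRec := receptive_of_fullyCentralized p hS F hF hUsFC
  obtain ⟨ψ₁, hψ₁, -, hψ₁map⟩ := exists_normalizer_hom p hS F Us U hUsFA hUsRec hUsconj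
  obtain ⟨ψ₂, hψ₂, -, hψ₂map⟩ := exists_normalizer_hom p hS F Us Q₀ hUsFA hUsRec
    (isConj_trans F (isConj_symm F hQ₀F) hUsconj)
  have hc₀N : c₀ ∈ normalizerIn S Q₀ :=
    ⟨hTS hc₀.1, Subgroup.centralizer_le_normalizer _ hc₀.2⟩
  obtain ⟨cs, hcsdef⟩ : ∃ cs, cs = ψ₂ ⟨c₀, hc₀N⟩ := ⟨_, rfl⟩
  have hcsT : cs ∈ T := by rw [hcsdef]; exact sc_mem F hT hψ₂ _ hc₀.1
  have hcsC : cs ∈ Subgroup.centralizer (Us : Set Ω) := by
    rw [Subgroup.mem_centralizer_iff]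
    intro y hy
    rw [← hψ₂map] at hy
    obtain ⟨q, hq, rfl⟩ := hy
    rw [hcsdef, ← map_mul, ← map_mul]
    congr 1
    apply Subtype.ext
    exact (Subgroup.mem_centralizer_iff.mp hc₀.2) q (Subgroup.mem_subgroupOf.mp hq)
  have hcsU : cs ∉ Us := by
    intro h
    rw [← hψ₂map] at h
    obtain ⟨q, hq, hqe⟩ := h
    have h2 := F.injective_of_mem hψ₂ (hqe.trans hcsdef)
    apply hc₀Q
    have h3 : (q : Ω) = c₀ := congrArg Subtype.val h2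
    rw [← h3]; exact Subgroup.mem_subgroupOf.mp hq
  -- `P ≤ N_S(U)`
  have hPN : P ≤ normalizerIn S U := by
    intro x hx
    refine ⟨hPS hx, ?_⟩
    show x ∈ Subgroup.normalizer (U : Set Ω)
    rw [hUdef, Subgroup.mem_normalizer_iff]
    intro h
    have h1 := Subgroup.mem_normalizer_iff.mp (Subgroup.le_normalizer hx) h
    have h2 := Subgroup.mem_normalizer_iff.mp (hTn (hPS hx)) h
    exact ⟨fun ⟨a, b⟩ => ⟨h1.mp a, h2.mp b⟩, fun ⟨a, b⟩ => ⟨h1.mpr a, h2.mpr b⟩⟩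
  obtain ⟨φ, hφdef⟩ : ∃ φ : P →* Ω, φ = ψ₁.comp (Subgroup.inclusion hPN) := ⟨_, rfl⟩
  have hφ : φ ∈ F.Hom P := by rw [hφdef]; exact restrict_mem F hψ₁ hPN
  have hφx : ∀ x : P, φ x = ψ₁ ⟨x, hPN x.2⟩ := fun x => by rw [hφdef]; rfl
  obtain ⟨Ps, hPsdef⟩ : ∃ Ps, Ps = φ.range := ⟨_, rfl⟩
  have hPsS : Ps ≤ S := range_le F hφ hPsdef.symm
  have hmemUs : ∀ y, y ∈ Us ↔ y ∈ Ps ∧ y ∈ T := by
    intro y
    constructor
    · intro hy
      rw [← hψ₁map] at hy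
      obtain ⟨q, hq, rfl⟩ := hy
      have hqU : (q : Ω) ∈ U := Subgroup.mem_subgroupOf.mp hq
      refine ⟨?_, sc_mem F hT hψ₁ q (hUT hqU)⟩
      rw [hPsdef]
      exact ⟨⟨q, hUP hqU⟩, hφx _⟩
    · rintro ⟨hyP, hyT⟩
      rw [hPsdef] at hyP
      obtain ⟨x, rfl⟩ := hyP
      rw [hφx] at hyT ⊢
      have hxT : (x : Ω) ∈ T := (sc_mem_iff F hT hψ₁ _).mp hyT
      rw [← hψ₁map]
      exact ⟨_, Subgroup.mem_subgroupOf.mpr
        (show (x : Ω) ∈ U by rw [hUdef]; exact ⟨x.2, hxT⟩), rfl⟩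
  obtain ⟨X, hXdef⟩ : ∃ X, X = T ⊓ Subgroup.centralizer (Us : Set Ω) := ⟨_, rfl⟩
  have hcsX : cs ∈ X := by rw [hXdef]; exact ⟨hcsT, hcsC⟩
  have hcsPs : cs ∉ Ps := fun h => hcsU ((hmemUs cs).mpr ⟨h, hcsT⟩)
  have hXT : X ≤ T := by rw [hXdef]; exact inf_le_left
  have hXC : X ≤ Subgroup.centralizer (Us : Set Ω) := by rw [hXdef]; exact inf_le_right
  have hXS : X ≤ S := hXT.trans hTS
  have hPsX : Ps ≤ Subgroup.normalizer (X : Set Ω) := by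
    intro y hy
    have hyT := hTn (hPsS hy)
    have hyUs : y ∈ Subgroup.normalizer (Us : Set Ω) := by
      rw [Subgroup.mem_normalizer_iff]
      intro h
      rw [hmemUs, hmemUs]
      have h1 := Subgroup.mem_normalizer_iff.mp (Subgroup.le_normalizer hy) h
      have h2 := Subgroup.mem_normalizer_iff.mp hyT h
      exact ⟨fun ⟨a, b⟩ => ⟨h1.mp a, h2.mp b⟩, fun ⟨a, b⟩ => ⟨h1.mpr a, h2.mpr b⟩⟩
    have hyC := Cfsg.Agent.Lib_helper9_GroupFusion.normalizer_le_normalizer_centralizer Us hyUs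
    rw [hXdef, Subgroup.mem_normalizer_iff]
    intro h
    have h2 := Subgroup.mem_normalizer_iff.mp hyT h
    have h3 := Subgroup.mem_normalizer_iff.mp hyC h
    exact ⟨fun ⟨a, b⟩ => ⟨h2.mp a, h3.mp b⟩, fun ⟨a, b⟩ => ⟨h2.mpr a, h3.mpr b⟩⟩
  have hlt : Ps < Ps ⊔ X := by
    refine lt_of_le_of_ne le_sup_left (fun h => hcsPs ?_)
    rw [h]; exact Subgroup.mem_sup_right hcsX
  have hsupS : Ps ⊔ X ≤ S := sup_le hPsS hXS
  haveI : Finite (Ps ⊔ X : Subgroup Ω) := finite_of_le hsupS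
  obtain ⟨g, hg, hgPs⟩ := exists_normalizer_not_mem (hS.to_le hsupS) hlt
  obtain ⟨y, hy, c, hc, hyc⟩ :=
    Cfsg.Agent.Lib_helper9_FusionGen2.mem_sup_of_le_normalizer hPsX hg.1
  have hcN : c ∈ Subgroup.normalizer (Ps : Set Ω) := by
    have h1 : c = y⁻¹ * g := by rw [← hyc]; group
    rw [h1]
    exact Subgroup.mul_mem _ (Subgroup.inv_mem _ (Subgroup.le_normalizer hy)) hg.2
  have hcPs : c ∉ Ps := fun h => hgPs (hyc ▸ Ps.mul_mem hy h)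
  have hcS : c ∈ S := hXS hc
  have hcT : c ∈ T := hXT hc
  have hcC : c ∈ Subgroup.centralizer (Us : Set Ω) := hXC hc
  obtain ⟨α, hαdef⟩ : ∃ α : MulAut Ps, α = Subgroup.normalizerMonoidHom Ps ⟨c, hcN⟩ := ⟨_, rfl⟩
  have hαx : ∀ y : Ps, ((α y : Ps) : Ω) = c * y * c⁻¹ := fun y => by rw [hαdef]; rfl
  have hαS : α ∈ autInducedBy S Ps := (mem_autInducedBy_iff S Ps α).mpr ⟨c, hcS, hαx⟩
  have hαF : α ∈ F.autGroup Ps := autInducedBy_le_autGroup F hPsS hαS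
  have hαk : (⟨α, hαF⟩ : F.autGroup Ps) ∈ kT F T Ps := by
    refine ⟨fun y hy => ?_, fun y => ?_⟩
    · apply Subtype.ext
      show ((α y : Ps) : Ω) = y
      rw [hαx]
      have h1 := (Subgroup.mem_centralizer_iff.mp hcC) y ((hmemUs y).mpr ⟨y.2, hy⟩)
      rw [← h1]; group
    · show (y : Ω)⁻¹ * ((α y : Ps) : Ω) ∈ T
      rw [hαx]
      have h1 : (y : Ω)⁻¹ * (c * y * c⁻¹) = ((y : Ω)⁻¹ * c * y) * c⁻¹ := by group
      rw [h1]
      exact T.mul_mem (conj_inv_mem_of_mem_normalizer (hTn (hPsS y.2)) hcT) (T.inv_mem hcT)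
  have hαcore : (⟨α, hαF⟩ : F.autGroup Ps) ∈ pCore p (F.autGroup Ps) :=
    kT_le_pCore hS F hT hPsS hαk
  subst hPsdef
  refine ⟨⟨φ, hφ, c, ⟨hcS, hcN⟩, hcPs, α, ⟨⟨α, hαF⟩, hαcore, rfl⟩, hαx⟩, ?_⟩
  -- `P` is not radical
  intro hrad
  obtain ⟨χ, hχ, hχinv, hχr⟩ := exists_inv F hφ
  obtain ⟨e, hedef⟩ : ∃ e : φ.range ≃* P, e = isoOf χ (F.injective_of_mem hχ) hχr := ⟨_, rfl⟩
  have he : ∀ w : φ.range, ((e w : P) : Ω) = χ w := fun w => by rw [hedef]; rfl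
  have heφ : ∀ x : P, e ⟨φ x, ⟨x, rfl⟩⟩ = x := fun x => Subtype.ext ((he _).trans (hχinv x))
  have hφe : ∀ w : φ.range, φ (e w) = (w : Ω) := by
    rintro ⟨_, x', rfl⟩
    rw [heφ]
  have hesymm : ∀ x : P, e.symm x = ⟨φ x, ⟨x, rfl⟩⟩ := fun x => by
    rw [MulEquiv.symm_apply_eq]; exact (heφ x).symm
  have hβF : MulAut.congr e α ∈ F.autGroup P := by
    rw [hedef]; exact congr_mem_autGroup F hχ hχr α hαF
  have hβx : ∀ x : P, (MulAut.congr e α) x = e (α ⟨φ x, ⟨x, rfl⟩⟩) := by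
    intro x
    show e (α (e.symm x)) = _
    rw [hesymm]
  have hβk : (⟨MulAut.congr e α, hβF⟩ : F.autGroup P) ∈ kT F T P := by
    refine ⟨fun x hx => ?_, fun x => ?_⟩
    · show (MulAut.congr e α) x = x
      rw [hβx]
      have h1 : (α ⟨φ x, ⟨x, rfl⟩⟩ : φ.range) = ⟨φ x, ⟨x, rfl⟩⟩ :=
        hαk.1 ⟨φ x, ⟨x, rfl⟩⟩ (sc_mem F hT hφ x hx)
      rw [h1, heφ]
    · show (x : Ω)⁻¹ * (((MulAut.congr e α) x : P) : Ω) ∈ T
      rw [hβx]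
      have h1 := hαk.2 ⟨φ x, ⟨x, rfl⟩⟩
      have h2 := sc_mem F hT hχ ((⟨φ x, ⟨x, rfl⟩⟩ : φ.range)⁻¹ * α ⟨φ x, ⟨x, rfl⟩⟩) h1
      rw [map_mul, map_inv, hχinv, ← he] at h2
      exact h2
  have hβcore : (⟨MulAut.congr e α, hβF⟩ : F.autGroup P) ∈ pCore p (F.autGroup P) :=
    kT_le_pCore hS F hT hPS hβk
  have hβinn : MulAut.congr e α ∈ Inn P := by
    rw [← hrad.2]
    exact ⟨_, hβcore, rfl⟩
  obtain ⟨u, huP, hu⟩ := exists_of_mem_inn hβinn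
  have hcent : centralizerIn S φ.range ≤ φ.range :=
    (isCentric_of_isConj F hP ⟨φ, hφ, rfl⟩).2 φ.range (isConj_refl F hPsS)
  apply hcPs
  have hmem : (φ ⟨u, huP⟩)⁻¹ * c ∈ centralizerIn S φ.range := by
    refine ⟨S.mul_mem (S.inv_mem ((F.le_of_mem hφ).2 _)) hcS,
      Subgroup.mem_centralizer_iff.mpr ?_⟩
    rintro _ ⟨x, rfl⟩
    have h1 : (MulAut.congr e α) x = ⟨u, huP⟩ * x * ⟨u, huP⟩⁻¹ := Subtype.ext (hu x)
    have h2 : φ ((MulAut.congr e α) x) = c * φ x * c⁻¹ := by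
      rw [hβx, hφe, hαx]
    rw [h1, map_mul, map_mul, map_inv] at h2
    calc φ x * ((φ ⟨u, huP⟩)⁻¹ * c)
        = (φ ⟨u, huP⟩)⁻¹ * (φ ⟨u, huP⟩ * φ x * (φ ⟨u, huP⟩)⁻¹) * c := by group
      _ = (φ ⟨u, huP⟩)⁻¹ * c * φ x := by rw [h2]; group
  have h5 := hcent hmem
  have h6 : c = φ ⟨u, huP⟩ * ((φ ⟨u, huP⟩)⁻¹ * c) := by group
  rw [h6]; exact Subgroup.mul_mem _ ⟨_, rfl⟩ h5

end Cfsg.Agent.Lib_helper9_FusionNCent
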