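import Mathlib
import Cfsg.Prelude.Def_FusionSystem
import Cfsg.Prelude.Def_PLocal
import Cfsg.Agent.Lib_helper9_FusionChain
import Cfsg.Agent.Lib_helper9_Omega

set_option autoImplicit false

namespace Cfsg.Agent.Lib_helper9_FusionOmega

open Cfsg Cfsg.FusionSystem Cfsg.Agent.Lib_helper9_Fusion Cfsg.Agent.Lib_helper9_FusionNC
  Cfsg.Agent.Lib_helper9_FusionSat Cfsg.Agent.Lib_helper9_FusionGen
  Cfsg.Agent.Lib_helper9_FusionGen2 Cfsg.Agent.Lib_helper9_FusionNormal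
  Cfsg.Agent.Lib_helper9_FusionChain Cfsg.Agent.Lib_helper9_Omega

open scoped commutatorElement

variable {Ω : Type*} [Group Ω] {S : Subgroup Ω}

/-- `χ` centralizes `U` modulo `P` and stabilizes the chain `E` on `U`. -/
def CC (U P : Subgroup Ω) {n : ℕ} (E : Fin (n + 1) → Subgroup Ω) (χ : MulAut U) : Prop :=
  (∀ x : U, (x : Ω)⁻¹ * ((χ x : U) : Ω) ∈ P) ∧
  ∀ i : Fin n, ∀ x : U, (x : Ω) ∈ E i.succ → (x : Ω)⁻¹ * ((χ x : U) : Ω) ∈ E i.castSucc

theorem cc_one (U P : Subgroup Ω) {n : ℕ} (E : Fin (n + 1) → Subgroup Ω) : CC U P E 1 :=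
  ⟨fun x => by simp, fun i x _ => by simp⟩

theorem cc_mul {U P : Subgroup Ω} {n : ℕ} {E : Fin (n + 1) → Subgroup Ω}
    (hmono : Monotone E) {χ₁ χ₂ : MulAut U} (h₁ : CC U P E χ₁) (h₂ : CC U P E χ₂) :
    CC U P E (χ₁ * χ₂) := by
  have key : ∀ x : U, (x : Ω)⁻¹ * ((χ₂ x : U) : Ω) * (((χ₂ x : U) : Ω)⁻¹ *
      ((χ₁ (χ₂ x) : U) : Ω)) = (x : Ω)⁻¹ * ((χ₁ (χ₂ x) : U) : Ω) := fun x => by group
  refine ⟨fun x => ?_, fun i x hx => ?_⟩
  · have h3 := P.mul_mem (h₂.1 x) (h₁.1 (χ₂ x))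
    rw [key] at h3; exact h3
  · have h4 := h₂.2 i x hx
    have hle : E i.castSucc ≤ E i.succ := hmono (le_of_lt Fin.castSucc_lt_succ)
    have h5 : ((χ₂ x : U) : Ω) ∈ E i.succ := by
      have h6 := (E i.succ).mul_mem hx (hle h4)
      rwa [mul_inv_cancel_left] at h6
    have h3 := (E i.castSucc).mul_mem h4 (h₁.2 i (χ₂ x) h5)
    rw [key] at h3; exact h3

theorem cc_pow {U P : Subgroup Ω} {n : ℕ} {E : Fin (n + 1) → Subgroup Ω}
    (hmono : Monotone E) {χ : MulAut U} (h : CC U P E χ) (k : ℕ) : CC U P E (χ ^ k) := by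
  induction k with
  | zero => rw [pow_zero]; exact cc_one U P E
  | succ k ih => rw [pow_succ]; exact cc_mul hmono ih h

theorem chain_fix {p : ℕ} {U P : Subgroup Ω} {n : ℕ} {E : Fin (n + 1) → Subgroup Ω}
    (hmono : Monotone E) (h0 : E 0 = ⊥) {χ : MulAut U} (h : CC U P E χ) {b : ℕ}
    (hb : ∀ x : U, x ^ (p ^ b) = 1) :
    ∀ i : Fin (n + 1), ∀ x : U, (x : Ω) ∈ E i → (χ ^ ((p ^ b) ^ (i : ℕ))) x = x := by
  intro i
  induction i using Fin.induction with
  | zero =>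
    intro x hx
    rw [h0, Subgroup.mem_bot] at hx
    have hx1 : x = 1 := Subtype.ext hx
    rw [hx1, map_one]
  | succ i ih =>
    intro x hx
    have h1 : ((i.succ : Fin (n + 1)) : ℕ) = (i : ℕ) + 1 := Fin.val_succ i
    rw [h1, pow_succ, pow_mul]
    have hβ : CC U P E (χ ^ ((p ^ b) ^ (i : ℕ))) := cc_pow hmono h _
    have hc : (χ ^ ((p ^ b) ^ (i : ℕ))) (x⁻¹ * (χ ^ ((p ^ b) ^ (i : ℕ))) x) =
        x⁻¹ * (χ ^ ((p ^ b) ^ (i : ℕ))) x := ih _ (hβ.2 i x hx)
    have h5 := pow_apply_of_fixed (χ ^ ((p ^ b) ^ (i : ℕ))) x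
      (x⁻¹ * (χ ^ ((p ^ b) ^ (i : ℕ))) x) (by group) hc (p ^ b)
    rw [h5, hb, mul_one]

theorem autInducedBy_le_inn_of_omega_chain [Finite S] {p : ℕ} [Fact p.Prime] (hp : p ≠ 2)
    (hS : IsPGroup p S) (F : FusionSystem S) {U P : Subgroup Ω} (hUS : U ≤ S)
    (hP : F.StronglyClosed P) (hrad : F.IsRadical p U) {n : ℕ} (E : Fin (n + 1) → Subgroup Ω)
    (h0 : E 0 = ⊥) (hn : E (Fin.last n) = omegaOne p P) (hmono : Monotone E)
    (hsc : ∀ i, F.StronglyClosed (E i)) (hstep : ∀ i : Fin n, ⁅E i.succ, P⁆ ≤ E i.castSucc) :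
    autInducedBy P U ≤ Inn U := by
  haveI : Finite U := finite_of_le hUS
  have hPS := hP.1
  have hPn := le_normalizer_of_stronglyClosed F hP
  obtain ⟨b, hpow⟩ := pow_card_eq_one_of_mem hS
  have hb : ∀ x : U, x ^ (p ^ b) = 1 := by
    intro x
    apply Subtype.ext
    have h7 := hpow _ (hUS x.2)
    simpa using h7
  have hcl : ∀ χ : F.autGroup U,
      χ ∈ Subgroup.closure {χ : F.autGroup U | CC U P E (χ : MulAut U)} →
      CC U P E (χ : MulAut U) := by
    intro χ hχ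
    induction hχ using Subgroup.closure_induction with
    | mem x hx => exact hx
    | one => exact cc_one U P E
    | mul x y _ _ hx hy => exact cc_mul hmono hx hy
    | inv x _ hx =>
      have h1 : (x : MulAut U)⁻¹ = (x : MulAut U) ^ (orderOf (x : MulAut U) - 1) := by
        apply inv_eq_of_mul_eq_one_right
        rw [← pow_succ', Nat.sub_add_cancel (orderOf_pos _), pow_orderOf_eq_one]
      show CC U P E ((x : MulAut U)⁻¹)
      rw [h1]
      exact cc_pow hmono hx _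
  have hinvE : ∀ j, ∀ γ ∈ F.autGroup U, ∀ x : U, (x : Ω) ∈ E j → ((γ x : U) : Ω) ∈ E j :=
    fun j γ hγ x hx => pres_of_stronglyClosed F (hsc j) hUS γ hγ x hx
  have hinvP : ∀ γ ∈ F.autGroup U, ∀ x : U, (x : Ω) ∈ P → ((γ x : U) : Ω) ∈ P :=
    fun γ hγ x hx => pres_of_stronglyClosed F hP hUS γ hγ x hx
  have hnorm : (Subgroup.closure {χ : F.autGroup U | CC U P E (χ : MulAut U)}).Normal := by
    apply closure_normal_of_conj_closed
    intro γ χ hχ
    have hγi : ((γ : MulAut U)⁻¹) ∈ F.autGroup U := (γ⁻¹).2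
    refine ⟨fun x => ?_, fun i x hx => ?_⟩
    · have h2 := hinvP γ γ.2
        (((γ : MulAut U)⁻¹ x)⁻¹ * (χ : MulAut U) ((γ : MulAut U)⁻¹ x)) (hχ.1 _)
      rw [map_mul, map_inv, MulAut.apply_inv_self] at h2
      exact h2
    · have hw : ((((γ : MulAut U)⁻¹ x : U)) : Ω) ∈ E i.succ := hinvE i.succ _ hγi x hx
      have h2 := hinvE i.castSucc γ γ.2
        (((γ : MulAut U)⁻¹ x)⁻¹ * (χ : MulAut U) ((γ : MulAut U)⁻¹ x)) (hχ.2 i _ hw)
      rw [map_mul, map_inv, MulAut.apply_inv_self] at h2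
      exact h2
  have hp' : IsPGroup p (Subgroup.closure {χ : F.autGroup U | CC U P E (χ : MulAut U)}) := by
    apply isPGroup_of_coprime_trivial
    rintro ⟨χ, hχ⟩ hord
    have hcc := hcl χ hχ
    have e1 : orderOf (χ : MulAut U) = orderOf χ := Subgroup.orderOf_coe χ
    have e2 : orderOf χ = orderOf (⟨χ, hχ⟩ :
        Subgroup.closure {χ : F.autGroup U | CC U P E (χ : MulAut U)}) :=
      Subgroup.orderOf_coe (⟨χ, hχ⟩ :
        Subgroup.closure {χ : F.autGroup U | CC U P E (χ : MulAut U)})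
    have hord' : (orderOf (χ : MulAut U)).Coprime p := by rw [e1, e2]; exact hord
    have hN : ((p ^ b) ^ n).Coprime (orderOf (χ : MulAut U)) :=
      Nat.Coprime.pow_left n (Nat.Coprime.pow_left b hord'.symm)
    obtain ⟨k, hk⟩ := exists_pow_eq_self_of_coprime hN
    have hfixΩ : ∀ x : U, (x : Ω) ∈ E (Fin.last n) → (χ : MulAut U) x = x := by
      intro x hx
      have h1 : ((χ : MulAut U) ^ ((p ^ b) ^ n)) x = x :=
        chain_fix hmono h0 hcc hb (Fin.last n) x hx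
      have h2 : ∀ j : ℕ, (((χ : MulAut U) ^ ((p ^ b) ^ n)) ^ j) x = x := by
        intro j
        induction j with
        | zero => simp
        | succ j ihj => rw [pow_succ, MulAut.mul_apply, h1, ihj]
      have h3 := h2 k
      rw [hk] at h3; exact h3
    have hfixP : ∀ y : U, (y : Ω) ∈ P → (χ : MulAut U) y = y := by
      intro y hy
      exact omega_aut_sub p p dvd_rfl (sum_range_dvd_of_odd Fact.out hp) (P.subgroupOf U)
        ((hS.to_le hPS).comap_subtype) (χ : MulAut U) hord'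
        (fun w hw => Subgroup.mem_subgroupOf.mpr (hinvP χ χ.2 w (Subgroup.mem_subgroupOf.mp hw)))
        (fun w hw hwp => hfixΩ w (by
          rw [hn]
          refine Subgroup.subset_closure ⟨Subgroup.mem_subgroupOf.mp hw, ?_⟩
          have h4 := congrArg Subtype.val hwp
          simpa using h4)) y (Subgroup.mem_subgroupOf.mpr hy)
    apply Subtype.ext
    apply Subtype.ext
    show (χ : MulAut U) = 1
    ext x
    have hc : (χ : MulAut U) (x⁻¹ * (χ : MulAut U) x) = x⁻¹ * (χ : MulAut U) x :=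
      hfixP _ (hcc.1 x)
    have h5 := pow_apply_of_fixed (χ : MulAut U) x (x⁻¹ * (χ : MulAut U) x) (by group) hc
      (orderOf (χ : MulAut U))
    rw [pow_orderOf_eq_one] at h5
    have h6 : (x⁻¹ * (χ : MulAut U) x) ^ orderOf (χ : MulAut U) = 1 := by
      have h7 : x = x * (x⁻¹ * (χ : MulAut U) x) ^ orderOf (χ : MulAut U) := h5
      exact mul_eq_left.mp h7.symm
    have h8 : ((x⁻¹ * (χ : MulAut U) x : U) : Ω) ^ orderOf (χ : MulAut U) = 1 := by
      have h7 := congrArg Subtype.val h6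
      simpa using h7
    have h9 := eq_one_of_pow_coprime hS (hUS (x⁻¹ * (χ : MulAut U) x).2) hord' h8
    have h10 : x⁻¹ * (χ : MulAut U) x = 1 := Subtype.ext h9
    exact congrArg Subtype.val (inv_mul_eq_one.mp h10).symm
  have hX := le_pCore' hnorm hp'
  intro β hβ
  have hβA : β ∈ F.autGroup U := autInducedBy_le_autGroup F hUS (autInducedBy_mono hPS U hβ)
  rw [mem_autInducedBy_iff] at hβ
  obtain ⟨g, hg, hgx⟩ := hβ
  have hβX : (⟨β, hβA⟩ : F.autGroup U) ∈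
      Subgroup.closure {χ : F.autGroup U | CC U P E (χ : MulAut U)} := by
    apply Subgroup.subset_closure
    refine ⟨fun x => ?_, fun i x hx => ?_⟩
    · show (x : Ω)⁻¹ * ((β x : U) : Ω) ∈ _
      rw [hgx x]
      have h1 : (x : Ω)⁻¹ * g * (x : Ω)⁻¹⁻¹ ∈ P :=
        conj_mem_of_mem_normalizer (hPn (S.inv_mem (hUS x.2))) hg
      have h2 := P.mul_mem h1 (P.inv_mem hg)
      have h3 : (x : Ω)⁻¹ * g * (x : Ω)⁻¹⁻¹ * g⁻¹ = (x : Ω)⁻¹ * (g * x * g⁻¹) := by group
      rw [h3] at h2; exact h2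
    · show (x : Ω)⁻¹ * ((β x : U) : Ω) ∈ _
      rw [hgx x]
      have h1 : ⁅(x : Ω)⁻¹, g⁆ ∈ ⁅E i.succ, P⁆ :=
        Subgroup.commutator_mem_commutator ((E i.succ).inv_mem hx) hg
      have h2 := hstep i h1
      have h3 : ⁅(x : Ω)⁻¹, g⁆ = (x : Ω)⁻¹ * (g * x * g⁻¹) := by
        rw [commutatorElement_def]; group
      rw [h3] at h2; exact h2
  have h6 : β ∈ (pCore p (F.autGroup U)).map (F.autGroup U).subtype :=
    ⟨⟨β, hβA⟩, hX hβX, rfl⟩
  rw [hrad.2] at h6; exact h6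

theorem isNormal_of_omega_chain [Finite S] (p : ℕ) [Fact p.Prime] (hS : IsPGroup p S)
    (F : FusionSystem S) (hF : F.IsSaturated p) (hp : p ≠ 2) (P : Subgroup Ω)
    (hP : F.StronglyClosed P) {n : ℕ} (Q : Fin (n + 1) → Subgroup Ω) (h0 : Q 0 = ⊥)
    (hn : Q (Fin.last n) = omegaOne p P) (hmono : Monotone Q)
    (hsc : ∀ i, F.StronglyClosed (Q i)) (hstep : ∀ i : Fin n, ⁅Q i.succ, P⁆ ≤ Q i.castSucc) :
    F.IsNormal P := by
  have hPS := hP.1
  have hPn := le_normalizer_of_stronglyClosed F hP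
  apply isNormal_of_stronglyClosed_le p hS F hF hP
  intro U hfn hcen hrad
  have hUS := hfn.1
  have hle := autInducedBy_le_inn_of_omega_chain hp hS F hUS hP hrad Q h0 hn hmono hsc hstep
  exact le_of_normalizer_le hS hUS hPS (hUS.trans hPn) (fun q hq hqN =>
    mem_of_autInducedBy_le_inn hPS hUS (hcen.2 U (isConj_refl F hUS)) hle hq hqN)

theorem omega_chain_of_isNormal [Finite S] (p : ℕ) [Fact p.Prime] (hS : IsPGroup p S)
    (F : FusionSystem S) (hF : F.IsSaturated p) (P : Subgroup Ω) (hP : F.IsNormal P) :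
    ∃ (n : ℕ) (Q : Fin (n + 1) → Subgroup Ω), Q 0 = ⊥ ∧ Q (Fin.last n) = omegaOne p P ∧
      Monotone Q ∧ (∀ i, F.StronglyClosed (Q i)) ∧
      ∀ i : Fin n, ⁅Q i.succ, P⁆ ≤ Q i.castSucc := by
  have hPS := hP.1
  haveI : Finite P := finite_of_le hPS
  haveI : Group.IsNilpotent P := (hS.to_le hPS).isNilpotent
  obtain ⟨c, hc⟩ := Group.IsNilpotent.nilpotent P
  obtain ⟨K₀, hK₀⟩ : ∃ K₀ : Subgroup P, K₀ = Subgroup.closure {x : P | x ^ p = 1} := ⟨_, rfl⟩
  haveI hchar : K₀.Characteristic := by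
    rw [Subgroup.characteristic_iff_map_le]
    intro φ
    rw [hK₀, MonoidHom.map_closure]
    apply Subgroup.closure_mono
    rintro _ ⟨x, hx, rfl⟩
    show (φ x) ^ p = 1
    have hx' : x ^ p = 1 := hx
    rw [← map_pow, hx', map_one]
  have hmapK : K₀.map P.subtype = omegaOne p P := by
    rw [hK₀, MonoidHom.map_closure]
    unfold omegaOne
    congr 1
    ext x
    constructor
    · rintro ⟨y, hy, rfl⟩
      have hy' : y ^ p = 1 := hy
      refine ⟨y.2, ?_⟩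
      have h1 := congrArg Subtype.val hy'
      simpa using h1
    · rintro ⟨hxP, hxp⟩
      exact ⟨⟨x, hxP⟩, Subtype.ext (by simpa using hxp), rfl⟩
  have hcomm : ∀ m : ℕ, ⁅K₀ ⊓ Subgroup.upperCentralSeries P (m + 1), (⊤ : Subgroup P)⁆ ≤
      K₀ ⊓ Subgroup.upperCentralSeries P m := by
    intro m
    apply le_inf
    · exact (Subgroup.commutator_mono inf_le_left le_rfl).trans
        (Subgroup.commutator_le_left K₀ ⊤)
    · refine (Subgroup.commutator_mono inf_le_right le_rfl).trans ?_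
      rw [Subgroup.commutator_le]
      intro a ha b _
      exact (Subgroup.mem_upperCentralSeries_succ_iff.mp ha) b
  have hPtop : (⊤ : Subgroup P).map P.subtype = P := by
    rw [← MonoidHom.range_eq_map, Subgroup.range_subtype]
  refine ⟨c, fun i => (K₀ ⊓ Subgroup.upperCentralSeries P (i : ℕ)).map P.subtype, ?_, ?_, ?_, ?_, ?_⟩
  · show (K₀ ⊓ Subgroup.upperCentralSeries P ((0 : Fin (c + 1)) : ℕ)).map P.subtype = ⊥
    rw [Fin.val_zero, Subgroup.upperCentralSeries_zero, inf_bot_eq, Subgroup.map_bot]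
  · show (K₀ ⊓ Subgroup.upperCentralSeries P ((Fin.last c : Fin (c + 1)) : ℕ)).map P.subtype = _
    rw [Fin.val_last, hc, inf_top_eq, hmapK]
  · intro i j hij
    exact Subgroup.map_mono (inf_le_inf_left _ (Subgroup.upperCentralSeries_mono P hij))
  · intro i
    exact stronglyClosed_char p hS F hF hP (K₀ ⊓ Subgroup.upperCentralSeries P (i : ℕ))
  · intro i
    show ⁅(K₀ ⊓ Subgroup.upperCentralSeries P ((i.succ : Fin (c + 1)) : ℕ)).map P.subtype, P⁆ ≤
      (K₀ ⊓ Subgroup.upperCentralSeries P ((i.castSucc : Fin (c + 1)) : ℕ)).map P.subtype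
    have h1 : ⁅(K₀ ⊓ Subgroup.upperCentralSeries P ((i.succ : Fin (c + 1)) : ℕ)).map P.subtype, P⁆ =
        ⁅(K₀ ⊓ Subgroup.upperCentralSeries P ((i.succ : Fin (c + 1)) : ℕ)).map P.subtype,
          (⊤ : Subgroup P).map P.subtype⁆ := by
      congr 1
      exact hPtop.symm
    rw [h1, ← Subgroup.map_commutator]
    apply Subgroup.map_mono
    rw [Fin.val_succ, Fin.val_castSucc]
    exact hcomm _

/-- `S5236` -/
theorem isNormal_iff_omega_chain [Finite S] (p : ℕ) [Fact p.Prime] (hS : IsPGroup p S)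
    (F : FusionSystem S) (hF : F.IsSaturated p) (hp : p ≠ 2) (P : Subgroup Ω)
    (hP : F.StronglyClosed P) :
    F.IsNormal P ↔ ∃ (n : ℕ) (Q : Fin (n + 1) → Subgroup Ω), Q 0 = ⊥ ∧
      Q (Fin.last n) = omegaOne p P ∧ Monotone Q ∧ (∀ i : Fin (n + 1), F.StronglyClosed (Q i)) ∧
      ∀ i : Fin n, ⁅Q i.succ, P⁆ ≤ Q i.castSucc :=
  ⟨omega_chain_of_isNormal p hS F hF P, fun ⟨_, Q, h0, hn, hmono, hsc, hstep⟩ =>
    isNormal_of_omega_chain p hS F hF hp P hP Q h0 hn hmono hsc hstep⟩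

end Cfsg.Agent.Lib_helper9_FusionOmega
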