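import Mathlib
import Cfsg.Prelude.Def_FusionSystem
import Cfsg.Prelude.Def_FusionComponents
import Cfsg.Agent.Lib_helper9_FusionGen2
import Cfsg.Agent.Lib_helper9_FusionFocal

set_option autoImplicit false

namespace Cfsg.Agent.Lib_helper9_FusionPIdx

open Cfsg Cfsg.FusionSystem Cfsg.Agent.Lib_helper9_Fusion Cfsg.Agent.Lib_helper9_FusionSat
  Cfsg.Agent.Lib_helper9_FusionGen Cfsg.Agent.Lib_helper9_FusionGen2
  Cfsg.Agent.Lib_helper9_FusionFocal

variable {Ω : Type*} [Group Ω] {S : Subgroup Ω}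

/-- the full subsystem of `F` on a subgroup `T` of `S`. -/
def fullSub (F : FusionSystem S) (T : Subgroup Ω) (hT : T ≤ S) : FusionSystem T where
  Hom P := {φ | φ ∈ F.Hom P ∧ P ≤ T ∧ ∀ x : P, φ x ∈ T}
  le_of_mem h := ⟨h.2.1, h.2.2⟩
  injective_of_mem h := F.injective_of_mem h.1
  conj_mem := by
    intro P g hP hg
    exact ⟨F.conj_mem (hP.trans hT) (hT hg), hP, fun x =>
      T.mul_mem (T.mul_mem hg (hP x.2)) (T.inv_mem hg)⟩
  comp_mem := by
    intro P Q φ ψ hφ hψ h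
    exact ⟨F.comp_mem hφ.1 hψ.1 h, hφ.2.1, fun x => hψ.2.2 _⟩
  inv_mem := by
    intro P φ hφ
    obtain ⟨ψ, hψ, hψx⟩ := F.inv_mem hφ.1
    refine ⟨ψ, ⟨hψ, ?_, ?_⟩, hψx⟩
    · rintro _ ⟨x, rfl⟩
      exact hφ.2.2 x
    · rintro ⟨_, x, rfl⟩
      rw [hψx]
      exact hφ.2.1 x.2

/-- `S5199` -/
theorem le_of_pPowerIndex [Finite S] (p : ℕ) [Fact p.Prime] (hS : IsPGroup p S)
    (F : FusionSystem S) {T U : Subgroup Ω} (E : FusionSystem T)
    (hE : E.IsNormalIn F p) (F₀ : FusionSystem U) (hF₀ : F₀.IsNormalIn F p)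
    (hU : T ⊔ F.hyperfocalSubgroup p ≤ U) (hidx : F₀.HasPPowerIndexIn F p) :
    E.IsSubsystemOf F₀ := by
  have hEsat : E.IsSaturated p := hE.1.1
  obtain ⟨hsub, hTsc, -, -⟩ := hE.1.2.2
  have hTS : T ≤ S := hTsc.1
  haveI : Finite T := finite_of_le hTS
  have hT : IsPGroup p T := hS.to_le hTS
  have hTU : T ≤ U := le_sup_left.trans hU
  have hUS : U ≤ S := hF₀.1.2.2.2.1.1
  obtain ⟨-, -, hres⟩ := hidx
  have hle : E ≤ fullSub F₀ T hTU := by
    apply gen_fn p hT E hEsat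
    intro Q hQ α hα
    have hQT := hQ.1
    have hFA := (fullyNormalized_imp p hT E hEsat hQ).2
    obtain ⟨g, hg, β, hβ, hgx⟩ := exists_decomp E hFA α hα
    have hEF : E.autGroup Q ≤ F.autGroup Q := Subgroup.closure_mono (fun _ h => hsub Q h)
    have hβF : (β : MulAut Q) ∈ (pResidual p (F.autGroup Q)).map (F.autGroup Q).subtype := by
      have h1 := pResidual_map_le (p := p) (Subgroup.inclusion hEF) ⟨β, hβ, rfl⟩
      exact ⟨_, h1, rfl⟩
    have hβ₀ : (β : MulAut Q) ∈ F₀.autGroup Q := hres Q (hQT.trans hTU) hβF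
    have hβ₁ : (β : MulAut Q) ∈ (fullSub F₀ T hTU).autGroup Q := by
      rw [mem_autGroup_iff _ hQT]
      exact ⟨(mem_autGroup_iff F₀ (hQT.trans hTU) _).mp hβ₀, hQT, fun x => hQT (_ : Q).2⟩
    have hγ : α * (β : MulAut Q)⁻¹ ∈ (fullSub F₀ T hTU).autGroup Q := by
      rw [mem_autGroup_iff _ hQT]
      apply ext_mem _ ((fullSub F₀ T hTU).conj_mem hQT hg)
      intro x
      have h1 := hgx ((β : MulAut Q)⁻¹ x)
      rw [MulAut.apply_inv_self] at h1
      exact h1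
    have h2 : α = α * (β : MulAut Q)⁻¹ * (β : MulAut Q) := by group
    rw [h2]
    exact Subgroup.mul_mem _ hγ hβ₁
  intro P φ hφ
  exact (hle P hφ).1

end Cfsg.Agent.Lib_helper9_FusionPIdx
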