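import Mathlib
import Cfsg.Prelude.Def_FusionSystem
import Cfsg.Prelude.Def_FusionComponents
import Cfsg.Agent.Lib_helper9_FusionSolv2

set_option autoImplicit false

namespace Cfsg.Agent.Lib_helper9_FusionSolv3

open Cfsg Cfsg.FusionSystem Cfsg.Agent.Lib_helper9_Fusion Cfsg.Agent.Lib_helper9_FusionSat
  Cfsg.Agent.Lib_helper9_FusionGen Cfsg.Agent.Lib_helper9_FusionGen2
  Cfsg.Agent.Lib_helper9_FusionLift Cfsg.Agent.Lib_helper9_FusionLift2
  Cfsg.Agent.Lib_helper9_FusionQuot Cfsg.Agent.Lib_helper9_FusionQuot2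
  Cfsg.Agent.Lib_helper9_FusionChain Cfsg.Agent.Lib_helper9_FusionNC
  Cfsg.Agent.Lib_helper9_FusionChain2 Cfsg.Agent.Lib_helper9_FusionSolv
  Cfsg.Agent.Lib_helper9_FusionSolv2

open scoped commutatorElement

variable {Ω : Type*} [Group Ω] {S : Subgroup Ω}

/-- a chain of strongly closed subgroups with abelian steps from `R` up to `S`. -/
def HasChain (F : FusionSystem S) (R : Subgroup Ω) : Prop :=
  ∃ (n : ℕ) (T : Fin (n + 1) → Subgroup Ω), T 0 = R ∧ T (Fin.last n) = S ∧ Monotone T ∧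
    (∀ i, F.StronglyClosed (T i)) ∧ ∀ i : Fin n, ⁅T i.succ, T i.succ⁆ ≤ T (Fin.castSucc i)

theorem hasChain_top (F : FusionSystem S) : HasChain F S :=
  ⟨0, fun _ => S, rfl, rfl, monotone_const, fun _ => stronglyClosed_top F, fun i => i.elim0⟩

theorem hasChain_cons (F : FusionSystem S) {R R₁ : Subgroup Ω} (hR : F.StronglyClosed R)
    (hRR₁ : R ≤ R₁) (hcomm : ⁅R₁, R₁⁆ ≤ R) (h : HasChain F R₁) : HasChain F R := by
  obtain ⟨n, T', h0, hn, hmono, hsc, hab⟩ := h
  obtain ⟨T'', hT''⟩ : ∃ T'' : Fin (n + 1 + 1) → Subgroup Ω, T'' = Fin.cons R T' := ⟨_, rfl⟩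
  have hT0 : T'' 0 = R := by rw [hT'']; exact Fin.cons_zero _ _
  have hTs : ∀ i : Fin (n + 1), T'' i.succ = T' i := fun i => by
    rw [hT'']; exact Fin.cons_succ _ _ i
  refine ⟨n + 1, T'', hT0, ?_, ?_, ?_, ?_⟩
  · rw [← Fin.succ_last, hTs]; exact hn
  · rw [Fin.monotone_iff_le_succ]
    intro i
    induction i using Fin.cases with
    | zero =>
      rw [Fin.castSucc_zero, hT0, hTs, h0]; exact hRR₁
    | succ j =>
      rw [← Fin.succ_castSucc, hTs, hTs]
      exact hmono (le_of_lt Fin.castSucc_lt_succ)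
  · intro i
    induction i using Fin.cases with
    | zero => rw [hT0]; exact hR
    | succ j => rw [hTs]; exact hsc j
  · intro i
    induction i using Fin.cases with
    | zero =>
      rw [hTs, Fin.castSucc_zero, hT0, h0]; exact hcomm
    | succ j =>
      rw [hTs, ← Fin.succ_castSucc, hTs]; exact hab j

theorem commutator_self_le (U : Subgroup Ω) : ⁅U, U⁆ ≤ U :=
  Subgroup.commutator_le.mpr (fun a ha b hb => by
    rw [commutatorElement_def]
    exact Subgroup.mul_mem _ (Subgroup.mul_mem _ (Subgroup.mul_mem _ ha hb)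
      (Subgroup.inv_mem _ ha)) (Subgroup.inv_mem _ hb))

/-! ### strong closure -/

/-- the strong closure of `X` in `E`. -/
def scl {T : Subgroup Ω} (E : FusionSystem T) (X : Subgroup Ω) : Subgroup Ω :=
  sInf {U | E.StronglyClosed U ∧ X ≤ U}

theorem scl_stronglyClosed {T : Subgroup Ω} (E : FusionSystem T) {X : Subgroup Ω} (hX : X ≤ T) :
    E.StronglyClosed (scl E X) := by
  refine ⟨sInf_le ⟨stronglyClosed_top E, hX⟩, fun R hR φ hφ x => ?_⟩
  unfold scl
  rw [Subgroup.mem_sInf]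
  intro U hU
  exact hU.1.2 R (hR.trans (sInf_le hU)) φ hφ x

theorem le_scl {T : Subgroup Ω} (E : FusionSystem T) (X : Subgroup Ω) : X ≤ scl E X :=
  le_sInf (fun _ hU => hU.2)

theorem scl_le {T : Subgroup Ω} (E : FusionSystem T) {X U : Subgroup Ω}
    (hU : E.StronglyClosed U) (hXU : X ≤ U) : scl E X ≤ U := sInf_le ⟨hU, hXU⟩

/-- the derived series of `E` through strong closures. -/
def dser {T : Subgroup Ω} (E : FusionSystem T) : ℕ → Subgroup Ω
  | 0 => T
  | (k + 1) => scl E ⁅dser E k, dser E k⁆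

theorem dser_sc {T : Subgroup Ω} (E : FusionSystem T) (k : ℕ) : E.StronglyClosed (dser E k) := by
  induction k with
  | zero => exact stronglyClosed_top E
  | succ k ih => exact scl_stronglyClosed E ((commutator_self_le _).trans ih.1)

theorem dser_succ_le {T : Subgroup Ω} (E : FusionSystem T) (k : ℕ) :
    dser E (k + 1) ≤ dser E k :=
  scl_le E (dser_sc E k) (commutator_self_le _)

theorem dser_inv {T : Subgroup Ω} (E : FusionSystem T) (F : FusionSystem S)
    (hinv : E.IsInvariantIn F) (k : ℕ) :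
    ∀ α ∈ F.autGroup T, ∀ x : T, (x : Ω) ∈ dser E k → ((α x : T) : Ω) ∈ dser E k := by
  obtain ⟨hsub, hTsc, hinvar, hfrat⟩ := hinv
  induction k with
  | zero => intro α _ x _; exact (α x).2
  | succ k ih =>
    intro α hα
    have hUT : dser E k ≤ T := (dser_sc E k).1
    have hscl := scl_stronglyClosed E ((commutator_self_le (dser E k)).trans hUT)
    -- the preimage of the strong closure under `α`
    obtain ⟨U', hU'⟩ : ∃ U' : Subgroup Ω, U' = (((scl E ⁅dser E k, dser E k⁆).subgroupOf T).comap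
        α.toMonoidHom).map T.subtype := ⟨_, rfl⟩
    have hmem : ∀ x : Ω, x ∈ U' ↔ ∃ h : x ∈ T, ((α ⟨x, h⟩ : T) : Ω) ∈
        scl E ⁅dser E k, dser E k⁆ := by
      intro x
      rw [hU']
      constructor
      · rintro ⟨t, ht, rfl⟩; exact ⟨t.2, ht⟩
      · rintro ⟨h, hx⟩; exact ⟨⟨x, h⟩, hx, rfl⟩
    have hU'T : U' ≤ T := fun x hx => ((hmem x).mp hx).1
    have hU'sc : E.StronglyClosed U' := by
      refine ⟨hU'T, fun R hR φ hφ x => ?_⟩
      have hRT := hR.trans hU'T
      have hφT := (E.le_of_mem hφ).2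
      rw [hmem]
      refine ⟨hφT x, ?_⟩
      obtain ⟨χ, hχ, hχx⟩ := hinvar R hRT φ hφ α hα
      have hle : (R.subgroupOf T).map (T.subtype.comp α.toMonoidHom) ≤
          scl E ⁅dser E k, dser E k⁆ := by
        rintro _ ⟨y, hy, rfl⟩
        obtain ⟨h, hy'⟩ := (hmem y).mp (hR (Subgroup.mem_subgroupOf.mp hy))
        exact hy'
      have hαx : ((α ⟨x, hRT x.2⟩ : T) : Ω) ∈ (R.subgroupOf T).map (T.subtype.comp α.toMonoidHom) :=
        ⟨⟨x, hRT x.2⟩, Subgroup.mem_subgroupOf.mpr x.2, rfl⟩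
      have h1 := hscl.2 _ hle χ hχ ⟨_, hαx⟩
      rw [hχx x (hφT x) hαx] at h1
      exact h1
    have hcomm : ⁅dser E k, dser E k⁆ ≤ U' := by
      rw [Subgroup.commutator_le]
      intro a ha b hb
      rw [hmem]
      have haT := hUT ha
      have hbT := hUT hb
      refine ⟨(commutator_self_le T) (Subgroup.commutator_mem_commutator haT hbT), ?_⟩
      apply le_scl E
      have h1 : ((α ⟨⁅a, b⁆, (commutator_self_le T) (Subgroup.commutator_mem_commutator haT hbT)⟩ :
          T) : Ω) = ⁅((α ⟨a, haT⟩ : T) : Ω), ((α ⟨b, hbT⟩ : T) : Ω)⁆ := by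
        have h2 : (⟨⁅a, b⁆, (commutator_self_le T) (Subgroup.commutator_mem_commutator haT hbT)⟩ :
            T) = ⁅(⟨a, haT⟩ : T), ⟨b, hbT⟩⁆ := Subtype.ext rfl
        rw [h2, map_commutatorElement]
        rfl
      rw [h1]
      exact Subgroup.commutator_mem_commutator (ih α hα ⟨a, haT⟩ ha) (ih α hα ⟨b, hbT⟩ hb)
    intro x hx
    have h1 : (x : Ω) ∈ U' := scl_le E hU'sc hcomm hx
    obtain ⟨h, h2⟩ := (hmem _).mp h1
    exact h2

theorem dser_fsc {T : Subgroup Ω} (E : FusionSystem T) (F : FusionSystem S)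
    (hinv : E.IsInvariantIn F) (k : ℕ) : F.StronglyClosed (dser E k) := by
  have hinvk := dser_inv E F hinv k
  obtain ⟨hsub, hTsc, hinvar, hfrat⟩ := hinv
  have hE := dser_sc E k
  refine ⟨hE.1.trans hTsc.1, fun R hR φ hφ x => ?_⟩
  obtain ⟨α, hα, φ₀, hφ₀, hx⟩ := hfrat R (hR.trans hE.1) φ hφ
  rw [hx x ((E.le_of_mem hφ₀).2 x)]
  exact hinvk α hα _ (hE.2 R hR φ₀ hφ₀ x)

theorem dser_le_chain {T : Subgroup Ω} (E : FusionSystem T) {n : ℕ}
    (A : Fin (n + 1) → Subgroup Ω) (hn : A (Fin.last n) = T)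
    (hsc : ∀ i, E.StronglyClosed (A i))
    (hab : ∀ i : Fin n, ⁅A i.succ, A i.succ⁆ ≤ A (Fin.castSucc i)) :
    ∀ i : Fin (n + 1), dser E (n - i) ≤ A i := by
  intro i
  induction i using Fin.reverseInduction with
  | last =>
    have h1 : n - (Fin.last n : ℕ) = 0 := by simp
    rw [h1, hn]
    exact le_rfl
  | cast i ih =>
    have h1 : n - ((Fin.castSucc i : Fin (n + 1)) : ℕ) = (n - ((i.succ : Fin (n + 1)) : ℕ)) + 1 := by
      have := i.2
      simp only [Fin.val_castSucc, Fin.val_succ]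
      omega
    rw [h1]
    exact scl_le E (hsc _) ((Subgroup.commutator_mono ih ih).trans (hab i))


/-! ### images and preimages of strongly closed subgroups -/

section quot

variable [Finite S]

theorem image_stronglyClosed (p : ℕ) [Fact p.Prime] (hS : IsPGroup p S) (F : FusionSystem S)
    (hF : F.IsSaturated p) (R : Subgroup Ω) (hR : F.StronglyClosed R) {Ω' : Type*} [Group Ω']
    {S' : Subgroup Ω'} (θ : S →* Ω') (E : FusionSystem S') (hE : F.IsFactorSystem R θ E)
    (U : Subgroup Ω) (hU : F.StronglyClosed U) : E.StronglyClosed (imageAlong θ U) := by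
  obtain ⟨hRS, hker, hr, hhom⟩ := hE
  have hTS := hU.1
  refine ⟨imageAlong_le θ hr _, fun R' hR' φ' hφ' x' => ?_⟩
  obtain ⟨hR'S', φ, hφ, hP, hφS, hPP', he⟩ := (hhom R' φ').mp hφ'
  obtain ⟨x, rfl⟩ := pre_surj θ hr hR'S' x'
  have h1 : φ' (resHom θ (preimageAlong_le θ R') (pre_res θ R') x) = θ ⟨φ x, hφS x⟩ := he x
  rw [h1]
  have hUR := sup_stronglyClosed p hS F hF U R hU hR
  have hxU : (x : Ω) ∈ U ⊔ R := by
    have h2 : θ ⟨x, hP x.2⟩ ∈ imageAlong θ U := hR' (hPP' x)
    obtain ⟨t, htS, ht, hte⟩ := (mem_imageAlong θ _ _).mp h2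
    have h3 : θ ((⟨t, htS⟩ : S)⁻¹ * ⟨x, hP x.2⟩) = 1 := by
      rw [map_mul, map_inv, hte, inv_mul_cancel]
    have h4 : t⁻¹ * (x : Ω) ∈ R := (hker _).mp h3
    have h5 : (x : Ω) = t * (t⁻¹ * x) := by group
    rw [h5]
    exact Subgroup.mul_mem _ (Subgroup.mem_sup_left ht) (Subgroup.mem_sup_right h4)
  have hφU : φ x ∈ U ⊔ R := sc_mem F hUR hφ x hxU
  obtain ⟨t, ht, r, hrR, htr⟩ := Cfsg.Agent.Lib_helper9_FusionGen2.mem_sup_of_le_normalizer
    (hTS.trans (le_normalizer_of_stronglyClosed F hR)) hφU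
  rw [mem_imageAlong]
  refine ⟨t, hTS ht, ht, ?_⟩
  have h6 : (⟨φ x, hφS x⟩ : S) = ⟨t, hTS ht⟩ * ⟨r, hRS hrR⟩ := Subtype.ext htr.symm
  rw [h6, map_mul, (hker ⟨r, _⟩).mpr hrR, mul_one]

theorem preimage_stronglyClosed (p : ℕ) [Fact p.Prime] (hS : IsPGroup p S) (F : FusionSystem S)
    (hF : F.IsSaturated p) (R : Subgroup Ω) (hR : F.StronglyClosed R) {Ω' : Type*} [Group Ω']
    {S' : Subgroup Ω'} (θ : S →* Ω') (E : FusionSystem S') (hE : F.IsFactorSystem R θ E)
    (Q' : Subgroup Ω') (hQ' : E.StronglyClosed Q') : F.StronglyClosed (preimageAlong θ Q') := by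
  obtain ⟨hmor, hr, hsurj⟩ := factor_morphism p hS F hF R hR θ E hE
  refine ⟨preimageAlong_le θ Q', fun A hA φ hφ x => ?_⟩
  obtain ⟨φ', hφ', hAS, hφS, hAA', he⟩ := hmor.2 A φ hφ
  have hle : imageAlong θ A ≤ Q' := by
    rintro _ ⟨s, hs, rfl⟩
    exact ((mem_preimageAlong θ Q' s).mp (hA (Subgroup.mem_subgroupOf.mp hs))).2
  have h1 := hQ'.2 (imageAlong θ A) hle φ' hφ' ⟨θ ⟨x, hAS x.2⟩, hAA' x⟩
  rw [he x] at h1
  exact (mem_preimageAlong θ Q' _).mpr ⟨hφS x, h1⟩

end quot

theorem image_commutator_le {Ω' : Type*} [Group Ω'] (θ : S →* Ω') {U V : Subgroup Ω}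
    (hUS : U ≤ S) (h : ⁅U, U⁆ ≤ V) :
    ⁅imageAlong θ U, imageAlong θ U⁆ ≤ imageAlong θ V := by
  rw [Subgroup.commutator_le]
  intro a' ha' b' hb'
  obtain ⟨a, haS, ha, rfl⟩ := (mem_imageAlong θ _ _).mp ha'
  obtain ⟨b, hbS, hb, rfl⟩ := (mem_imageAlong θ _ _).mp hb'
  rw [mem_imageAlong]
  refine ⟨⁅a, b⁆, (commutator_self_le S) (Subgroup.commutator_mem_commutator haS hbS),
    h (Subgroup.commutator_mem_commutator ha hb), ?_⟩
  have h2 : (⟨⁅a, b⁆, (commutator_self_le S) (Subgroup.commutator_mem_commutator haS hbS)⟩ : S) =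
      ⁅(⟨a, haS⟩ : S), ⟨b, hbS⟩⁆ := Subtype.ext rfl
  rw [h2, map_commutatorElement]

theorem preimage_commutator_le {Ω' : Type*} [Group Ω'] (θ : S →* Ω') {A' B' : Subgroup Ω'}
    (h : ⁅A', A'⁆ ≤ B') :
    ⁅preimageAlong θ A', preimageAlong θ A'⁆ ≤ preimageAlong θ B' := by
  rw [Subgroup.commutator_le]
  intro a ha b hb
  obtain ⟨haS, haQ⟩ := (mem_preimageAlong θ A' a).mp ha
  obtain ⟨hbS, hbQ⟩ := (mem_preimageAlong θ A' b).mp hb
  rw [mem_preimageAlong]
  refine ⟨(commutator_self_le S) (Subgroup.commutator_mem_commutator haS hbS), ?_⟩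
  have h2 : (⟨⁅a, b⁆, (commutator_self_le S) (Subgroup.commutator_mem_commutator haS hbS)⟩ : S) =
      ⁅(⟨a, haS⟩ : S), ⟨b, hbS⟩⁆ := Subtype.ext rfl
  rw [h2, map_commutatorElement]
  exact h (Subgroup.commutator_mem_commutator haQ hbQ)

theorem finite_of_range {Ω' : Type*} [Group Ω'] {S' : Subgroup Ω'} [Finite S] (θ : S →* Ω')
    (hr : θ.range = S') : Finite S' := by
  have hmem : ∀ s : S, θ s ∈ S' := fun s => by rw [← hr]; exact ⟨s, rfl⟩
  have hsurj : Function.Surjective (fun s : S => (⟨θ s, hmem s⟩ : S')) := by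
    rintro ⟨y, hy⟩
    obtain ⟨s, rfl⟩ : y ∈ θ.range := by rw [hr]; exact hy
    exact ⟨s, rfl⟩
  exact Finite.of_surjective _ hsurj

theorem isPGroup_of_range {Ω' : Type*} [Group Ω'] {S' : Subgroup Ω'} (p : ℕ)
    (hS : IsPGroup p S) (θ : S →* Ω') (hr : θ.range = S') : IsPGroup p S' := by
  rintro ⟨y, hy⟩
  obtain ⟨s, rfl⟩ : y ∈ θ.range := by rw [hr]; exact hy
  obtain ⟨k, hk⟩ := hS s
  refine ⟨k, Subtype.ext ?_⟩
  show (θ s) ^ (p ^ k) = 1
  rw [← map_pow, hk, map_one]

theorem solvable_of_chain [Finite S] (p : ℕ) [Fact p.Prime] (hS : IsPGroup p S)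
    (F : FusionSystem S) (hF : F.IsSaturated p) {n : ℕ} (T : Fin (n + 1) → Subgroup Ω)
    (h0 : T 0 = ⊥) (hn : T (Fin.last n) = S) (hsc : ∀ i, F.StronglyClosed (T i))
    (hab : ∀ i : Fin n, ⁅T i.succ, T i.succ⁆ ≤ T (Fin.castSucc i)) : F.IsSolvableSystem := by
  intro R hR hne _ E hE
  have hS' : IsPGroup p (⊤ : Subgroup (S ⧸ R.subgroupOf S)) :=
    (hS.to_quotient _).to_subgroup _
  exact core_ne_bot_of_chain p hS F hF T h0 hn hsc hab R hR hne hS' _ E hE

/-- `S5159` -/
theorem solvable_iff_normal_factor [Finite S] (p : ℕ) [Fact p.Prime] (hS : IsPGroup p S)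
    (F : FusionSystem S) (hF : F.IsSaturated p) {T : Subgroup Ω} (E : FusionSystem T)
    (hE : E.IsNormalIn F p) {Ω' : Type*} [Group Ω'] {S' : Subgroup Ω'} (θ : S →* Ω')
    (D : FusionSystem S') (hD : F.IsFactorSystem T θ D) :
    F.IsSolvableSystem ↔ (E.IsSolvableSystem ∧ D.IsSolvableSystem) := by
  have hEsat : E.IsSaturated p := hE.1.1
  have hinv : E.IsInvariantIn F := hE.1.2.2
  have hTsc : F.StronglyClosed T := hinv.2.1
  have hsub : E.IsSubsystemOf F := hinv.1
  have hTS : T ≤ S := hTsc.1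
  haveI : Finite T := finite_of_le hTS
  have hT : IsPGroup p T := hS.to_le hTS
  have hr : θ.range = S' := hD.2.2.1
  have hker := hD.2.1
  haveI : Finite S' := finite_of_range θ hr
  have hS' : IsPGroup p S' := isPGroup_of_range p hS θ hr
  have hDsat : D.IsSaturated p := factor_saturated p hS F hF T hTsc θ D hD
  constructor
  · intro h
    obtain ⟨n, Tc, h0, hn, hmono, hsc, hab⟩ := (solvable_iff_chain p hS F hF).mp h
    constructor
    · refine solvable_of_chain p hT E hEsat (fun i => Tc i ⊓ T) ?_ ?_ ?_ ?_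
      · show Tc 0 ⊓ T = ⊥
        rw [h0]; exact bot_inf_eq _
      · show Tc (Fin.last n) ⊓ T = T
        rw [hn]; exact inf_eq_right.mpr hTS
      · intro i
        refine ⟨inf_le_right, fun R hR φ hφ x => ?_⟩
        exact Subgroup.mem_inf.mpr ⟨(hsc i).2 R (hR.trans inf_le_left) φ (hsub R hφ) x,
          (E.le_of_mem hφ).2 x⟩
      · intro i
        exact le_inf ((Subgroup.commutator_mono inf_le_left inf_le_left).trans (hab i))
          ((Subgroup.commutator_mono inf_le_right inf_le_right).trans (commutator_self_le T))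
    · refine solvable_of_chain p hS' D hDsat (fun i => imageAlong θ (Tc i)) ?_ ?_ ?_ ?_
      · show imageAlong θ (Tc 0) = ⊥
        rw [h0, eq_bot_iff]
        intro y hy
        obtain ⟨t, htS, ht, rfl⟩ := (mem_imageAlong θ _ _).mp hy
        rw [Subgroup.mem_bot] at ht ⊢
        have h1 : (⟨t, htS⟩ : S) = 1 := Subtype.ext ht
        rw [h1, map_one]
      · show imageAlong θ (Tc (Fin.last n)) = S'
        rw [hn]
        apply le_antisymm (imageAlong_le θ hr _)
        intro y hy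
        obtain ⟨s, rfl⟩ : y ∈ θ.range := by rw [hr]; exact hy
        exact (mem_imageAlong θ _ _).mpr ⟨s, s.2, s.2, rfl⟩
      · intro i
        exact image_stronglyClosed p hS F hF T hTsc θ D hD (Tc i) (hsc i)
      · intro i
        exact image_commutator_le θ (hsc _).1 (hab i)
  · rintro ⟨hEs, hDs⟩
    obtain ⟨m, A, hA0, hAm, -, hAsc, hAab⟩ := (solvable_iff_chain p hT E hEsat).mp hEs
    obtain ⟨n, B, hB0, hBn, hBmono, hBsc, hBab⟩ := (solvable_iff_chain p hS' D hDsat).mp hDs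
    -- the upper part of the chain
    have hupper : ∀ i : Fin (n + 1), HasChain F (preimageAlong θ (B i)) := by
      intro i
      induction i using Fin.reverseInduction with
      | last =>
        have h1 : preimageAlong θ (B (Fin.last n)) = S := by
          rw [hBn]
          apply le_antisymm (preimageAlong_le θ _)
          intro x hx
          exact (mem_preimageAlong θ S' x).mpr ⟨hx, by rw [← hr]; exact ⟨_, rfl⟩⟩
        rw [h1]
        exact hasChain_top F
      | cast i ih =>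
        refine hasChain_cons F (preimage_stronglyClosed p hS F hF T hTsc θ D hD _ (hBsc _)) ?_
          (preimage_commutator_le θ (hBab i)) ih
        intro x hx
        obtain ⟨hxS, hx'⟩ := (mem_preimageAlong θ _ x).mp hx
        exact (mem_preimageAlong θ _ x).mpr
          ⟨hxS, hBmono (le_of_lt Fin.castSucc_lt_succ) hx'⟩
    have hT' : preimageAlong θ (B 0) = T := by
      rw [hB0]
      ext x
      rw [mem_preimageAlong]
      constructor
      · rintro ⟨hxS, hx⟩
        exact (hker _).mp (Subgroup.mem_bot.mp hx)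
      · intro hx
        exact ⟨hTS hx, Subgroup.mem_bot.mpr ((hker ⟨x, hTS hx⟩).mpr hx)⟩
    have hlower : ∀ k : ℕ, HasChain F (dser E k) := by
      intro k
      induction k with
      | zero =>
        have h1 := hupper 0
        rw [hT'] at h1
        exact h1
      | succ k ih =>
        exact hasChain_cons F (dser_fsc E F hinv (k + 1)) (dser_succ_le E k) (le_scl E _) ih
    have hbot : dser E m = ⊥ := by
      have h1 := dser_le_chain E A hAm hAsc hAab 0
      have h2 : m - ((0 : Fin (m + 1)) : ℕ) = m := by simp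
      rw [h2, hA0] at h1
      exact eq_bot_iff.mpr h1
    obtain ⟨N, C, hC0, hCN, -, hCsc, hCab⟩ := hlower m
    rw [hbot] at hC0
    exact solvable_of_chain p hS F hF C hC0 hCN hCsc hCab

end Cfsg.Agent.Lib_helper9_FusionSolv3
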