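import Mathlib
import Cfsg.Prelude.Def_FusionSystem
import Cfsg.Prelude.Def_FusionComponents
import Cfsg.Agent.Lib_helper9_FusionGen2

namespace Cfsg.Agent.Lib_helper9_FusionSubn

open Cfsg Cfsg.FusionSystem Cfsg.Agent.Lib_helper9_Fusion Cfsg.Agent.Lib_helper9_FusionNC
  Cfsg.Agent.Lib_helper9_FusionSat Cfsg.Agent.Lib_helper9_FusionGen
  Cfsg.Agent.Lib_helper9_FusionGen2

variable {Ω : Type*} [Group Ω]

theorem fn_of_subnormal : ∀ {T : Subgroup Ω} {E : FusionSystem T} {S : Subgroup Ω}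
    {F : FusionSystem S} {p : ℕ}, E.IsSubnormalIn F p → Fact p.Prime → Finite S → IsPGroup p S →
    T ≤ S ∧ ∀ P : Subgroup Ω, P ≤ T → F.IsFullyNormalized P → E.IsFullyNormalized P := by
  intro T E S F p h
  induction h with
  | refl F p => intro _ _ _; exact ⟨le_rfl, fun P _ hP => hP⟩
  | @step U S E D F p hED hDF ih =>
    intro hp hfin hS
    have hsatF : F.IsSaturated p := hDF.1.2.1
    have hsub : D.IsSubsystemOf F := hDF.1.2.2.1
    have hSC : F.StronglyClosed U := hDF.1.2.2.2.1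
    have hUS : U ≤ S := hSC.1
    haveI : Finite U := finite_of_le hUS
    obtain ⟨hTU, ih2⟩ := ih hp inferInstance (hS.to_le hUS)
    refine ⟨hTU.trans hUS, fun P hPT hP => ?_⟩
    exact ih2 P hPT ((fully_persist p hS F hsatF U hSC D hsub P (hPT.trans hTU)).2 hP)

end Cfsg.Agent.Lib_helper9_FusionSubn
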