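import Mathlib
import Cfsg.Prelude.Def_FusionSystem
import Cfsg.Agent.Lib_helper9_FusionChain

set_option autoImplicit false

namespace Cfsg.Agent.Lib_helper9_FusionWN

open Cfsg Cfsg.FusionSystem Cfsg.Agent.Lib_helper9_Fusion Cfsg.Agent.Lib_helper9_FusionNC
  Cfsg.Agent.Lib_helper9_FusionSat Cfsg.Agent.Lib_helper9_FusionGen
  Cfsg.Agent.Lib_helper9_FusionGen2 Cfsg.Agent.Lib_helper9_FusionChain
  Cfsg.Agent.Lib_helper9_FusionNormal

open scoped commutatorElement

variable {Ω : Type*} [Group Ω] {S : Subgroup Ω}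

/-- the image of `Q ∩ T` under an automorphism of `T`. -/
def img {T : Subgroup Ω} (α : MulAut T) (Q : Subgroup Ω) : Subgroup Ω :=
  (Q.subgroupOf T).map (T.subtype.comp α.toMonoidHom)

theorem mem_img {T : Subgroup Ω} (α : MulAut T) (Q : Subgroup Ω) (y : Ω) :
    y ∈ img α Q ↔ ∃ x : T, (x : Ω) ∈ Q ∧ ((α x : T) : Ω) = y := by
  constructor
  · rintro ⟨x, hx, rfl⟩
    exact ⟨x, Subgroup.mem_subgroupOf.mp hx, rfl⟩
  · rintro ⟨x, hx, rfl⟩
    exact ⟨x, Subgroup.mem_subgroupOf.mpr hx, rfl⟩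

theorem img_le {T : Subgroup Ω} (α : MulAut T) (Q : Subgroup Ω) : img α Q ≤ T := by
  intro y hy
  obtain ⟨x, -, rfl⟩ := (mem_img α Q y).mp hy
  exact (α x).2

theorem img_mono {T : Subgroup Ω} (α : MulAut T) {Q₁ Q₂ : Subgroup Ω} (h : Q₁ ≤ Q₂) :
    img α Q₁ ≤ img α Q₂ := by
  intro y hy
  obtain ⟨x, hx, rfl⟩ := (mem_img α Q₁ y).mp hy
  exact (mem_img α Q₂ _).mpr ⟨x, h hx, rfl⟩

theorem img_bot {T : Subgroup Ω} (α : MulAut T) : img α ⊥ = ⊥ := by
  rw [eq_bot_iff]
  intro y hy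
  obtain ⟨x, hx, rfl⟩ := (mem_img α ⊥ y).mp hy
  have hx1 : x = 1 := Subtype.ext (Subgroup.mem_bot.mp hx)
  rw [hx1, map_one]
  exact Subgroup.mem_bot.mpr rfl

theorem img_commutator {T : Subgroup Ω} (α : MulAut T) {A B C : Subgroup Ω}
    (h : ⁅A, B⁆ ≤ C) : ⁅img α A, img α B⁆ ≤ img α C := by
  rw [Subgroup.commutator_le]
  intro g₁ hg₁ g₂ hg₂
  obtain ⟨a, ha, rfl⟩ := (mem_img α A g₁).mp hg₁
  obtain ⟨b, hb, rfl⟩ := (mem_img α B g₂).mp hg₂
  refine (mem_img α C _).mpr ⟨⁅a, b⁆, h (Subgroup.commutator_mem_commutator ha hb), ?_⟩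
  rw [map_commutatorElement]
  rfl

section
variable [Finite S]

theorem img_stronglyClosed {T : Subgroup Ω} (F : FusionSystem S) (E : FusionSystem T)
    (hinv : E.IsInvariantIn F) {Q : Subgroup Ω} (hQ : E.StronglyClosed Q) (α : MulAut T)
    (hα : α ∈ F.autGroup T) : E.StronglyClosed (img α Q) := by
  obtain ⟨hsub, hTSC, hinvar, hfrat⟩ := hinv
  refine ⟨img_le α Q, fun P hP ψ hψ x => ?_⟩
  have hPT : P ≤ T := hP.trans (img_le α Q)
  obtain ⟨χ, hχ, hχe⟩ := hinvar P hPT ψ hψ α⁻¹ ((F.autGroup T).inv_mem hα)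
  have hψT : ψ x ∈ T := (E.le_of_mem hψ).2 x
  have hle : (P.subgroupOf T).map (T.subtype.comp (α⁻¹ : MulAut T).toMonoidHom) ≤ Q := by
    rintro _ ⟨z, hz, rfl⟩
    obtain ⟨q, hq, hqz⟩ := (mem_img α Q _).mp (hP (Subgroup.mem_subgroupOf.mp hz))
    have h1 : α q = z := Subtype.ext hqz
    show (((α⁻¹ : MulAut T) z : T) : Ω) ∈ Q
    rw [← h1, MulAut.inv_apply_self]
    exact hq
  have hαx : (((α⁻¹ : MulAut T) ⟨x, hPT x.2⟩ : T) : Ω) ∈
      (P.subgroupOf T).map (T.subtype.comp (α⁻¹ : MulAut T).toMonoidHom) :=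
    ⟨⟨x, hPT x.2⟩, Subgroup.mem_subgroupOf.mpr x.2, rfl⟩
  have h2 := hχe x hψT hαx
  have h3 := hQ.2 _ hle χ hχ ⟨_, hαx⟩
  rw [h2] at h3
  refine (mem_img α Q _).mpr ⟨(α⁻¹ : MulAut T) ⟨ψ x, hψT⟩, h3, ?_⟩
  rw [MulAut.apply_inv_self]

theorem weaklyNormal_closure (p : ℕ) [Fact p.Prime] (hS : IsPGroup p S)
    (F : FusionSystem S) (hF : F.IsSaturated p)
    {T : Subgroup Ω} (E : FusionSystem T) (hE : E.IsWeaklyNormalIn F p)
    (R : Subgroup Ω) (hR : E.IsNormal R) :
    F.IsNormal (Subgroup.closure {x : Ω | ∃ φ ∈ F.Hom R, ∃ r : R, x = φ r}) := by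
  obtain ⟨hEsat, -, hinv⟩ := hE
  have hinv' := hinv
  obtain ⟨hsub, hTSC, hinvar, hfrat⟩ := hinv
  have hTS := hTSC.1
  haveI : Finite T := finite_of_le hTS
  have hT : IsPGroup p T := hS.to_le hTS
  have hO : E.IsNormal E.core := isNormal_core E
  have hOT : E.core ≤ T := hO.1
  have hOS : E.core ≤ S := hOT.trans hTS
  haveI : Finite E.core := finite_of_le hOS
  -- `α(O) ≤ O`
  have himgO : ∀ α : MulAut T, α ∈ F.autGroup T → img α E.core ≤ E.core := by
    intro α hα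
    obtain ⟨n, Qs, h0, hn, hmono, hstep⟩ := (isNormal_iff_chain p hT E hEsat E.core).mp hO
    have hN : E.IsNormal (img α E.core) := by
      apply isNormal_of_chain p hT E hEsat (fun i => img α (Qs i))
      · show img α (Qs 0) = ⊥
        rw [h0, img_bot]
      · show img α (Qs (Fin.last n)) = _
        rw [hn]
      · intro i j hij
        exact img_mono α (hmono hij)
      · intro i
        exact ⟨img_stronglyClosed F E hinv' (hstep i).1 α hα, img_commutator α (hstep i).2⟩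
    exact le_sSup hN
  -- characteristic subgroups of `O` are strongly closed in `F`
  have hchar : ∀ (K : Subgroup E.core) [K.Characteristic], F.StronglyClosed (K.map E.core.subtype) := by
    intro K hK
    have hESC := stronglyClosed_char p hT E hEsat hO K
    have hDO : K.map E.core.subtype ≤ E.core := by
      rintro _ ⟨k, -, rfl⟩; exact k.2
    refine ⟨hDO.trans hOS, fun P hP φ hφ x => ?_⟩
    obtain ⟨α, hα, φ₀, hφ₀, hφe⟩ := hfrat P (hP.trans (hDO.trans hOT)) φ hφ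
    have h1 := hESC.2 P hP φ₀ hφ₀ x
    have hx : φ₀ x ∈ T := hDO.trans hOT h1
    rw [hφe x hx]
    obtain ⟨k, hk, hkx⟩ := h1
    -- the restriction of `α` to `O`
    have hρr : ((T.subtype.comp α.toMonoidHom).comp (Subgroup.inclusion hOT)).range = E.core := by
      apply Subgroup.eq_of_le_of_card_ge
      · rintro _ ⟨o, rfl⟩
        exact himgO α hα ((mem_img α E.core _).mpr ⟨Subgroup.inclusion hOT o, o.2, rfl⟩)
      · have hinj : Function.Injective ((T.subtype.comp α.toMonoidHom).comp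
            (Subgroup.inclusion hOT)) := by
          intro a b hab
          have h2 : α (Subgroup.inclusion hOT a) = α (Subgroup.inclusion hOT b) := Subtype.ext hab
          exact Subgroup.inclusion_injective hOT (α.injective h2)
        exact (Nat.card_congr (MonoidHom.ofInjective hinj).toEquiv).le
    have hinj : Function.Injective ((T.subtype.comp α.toMonoidHom).comp
        (Subgroup.inclusion hOT)) := by
      intro a b hab
      have h2 : α (Subgroup.inclusion hOT a) = α (Subgroup.inclusion hOT b) := Subtype.ext hab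
      exact Subgroup.inclusion_injective hOT (α.injective h2)
    have h3 : k ∈ K.comap (isoOf _ hinj hρr).toMonoidHom := by
      rw [hK.fixed (isoOf _ hinj hρr)]; exact hk
    refine ⟨isoOf _ hinj hρr k, h3, ?_⟩
    show ((α (Subgroup.inclusion hOT k) : T) : Ω) = ((α ⟨φ₀ x, hx⟩ : T) : Ω)
    congr 2
    exact Subtype.ext hkx
  -- `O` is normal in `F`
  have hON : F.IsNormal E.core := by
    haveI : Group.IsNilpotent E.core := (hS.to_le hOS).isNilpotent
    obtain ⟨n, hn⟩ := Group.IsNilpotent.nilpotent E.core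
    apply isNormal_of_chain p hS F hF
      (fun i : Fin (n + 1) => (Subgroup.upperCentralSeries E.core (i : ℕ)).map E.core.subtype)
    · show (Subgroup.upperCentralSeries E.core ((0 : Fin (n + 1)) : ℕ)).map E.core.subtype = ⊥
      rw [Fin.val_zero, Subgroup.upperCentralSeries_zero, Subgroup.map_bot]
    · show (Subgroup.upperCentralSeries E.core ((Fin.last n : Fin (n + 1)) : ℕ)).map
        E.core.subtype = E.core
      rw [Fin.val_last, hn, ← MonoidHom.range_eq_map, Subgroup.range_subtype]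
    · intro i j hij
      exact Subgroup.map_mono (Subgroup.upperCentralSeries_mono E.core (Fin.le_def.mp hij))
    · intro i
      refine ⟨hchar _, ?_⟩
      rw [Subgroup.commutator_le]
      intro q hq z hz
      obtain ⟨z', hz', rfl⟩ := hz
      rw [Fin.val_succ] at hz'
      have h1 : ⁅z', (⟨q, hq⟩ : E.core)⁆ ∈ Subgroup.upperCentralSeries E.core (i : ℕ) :=
        (Subgroup.mem_upperCentralSeries_succ_iff.mp hz') ⟨q, hq⟩
      refine ⟨(⁅z', (⟨q, hq⟩ : E.core)⁆)⁻¹, ?_, ?_⟩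
      · rw [Fin.val_castSucc]
        exact Subgroup.inv_mem _ h1
      · rw [commutatorElement_inv]; rfl
  -- `R* ≤ O`
  have hRT : R ≤ T := hR.1
  have hRSC := stronglyClosed_of_isNormal E hR
  have hRO : R ≤ E.core := le_sSup hR
  have hgen : ∀ (φ : R →* Ω), φ ∈ F.Hom R → ∀ r : R, φ r ∈ E.core := by
    intro φ hφ r
    obtain ⟨α, hα, φ₀, hφ₀, hφe⟩ := hfrat R hRT φ hφ
    have h1 := hRSC.2 R le_rfl φ₀ hφ₀ r
    rw [hφe r (hRT h1)]
    exact himgO α hα ((mem_img α E.core _).mpr ⟨⟨φ₀ r, hRT h1⟩, hRO h1, rfl⟩)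
  have hWO : Subgroup.closure {x : Ω | ∃ φ ∈ F.Hom R, ∃ r : R, x = φ r} ≤ E.core := by
    rw [Subgroup.closure_le]
    rintro _ ⟨φ, hφ, r, rfl⟩
    exact hgen φ hφ r
  -- strongly closed in `F`
  have hWSC : F.StronglyClosed (Subgroup.closure {x : Ω | ∃ φ ∈ F.Hom R, ∃ r : R, x = φ r}) := by
    refine ⟨hWO.trans hOS, fun P hP φ hφ x => ?_⟩
    obtain ⟨β, hβ, hβx⟩ := (isNormal_iff_extend p hS F hF E.core hOS).mp hON P (hP.trans hWO) φ hφ
    have hβF := (mem_autGroup_iff F hOS β).mp hβ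
    have hV : Subgroup.closure {x : Ω | ∃ φ ∈ F.Hom R, ∃ r : R, x = φ r} ≤
        ((Subgroup.closure {x : Ω | ∃ φ ∈ F.Hom R, ∃ r : R, x = φ r}).comap
          (E.core.subtype.comp β.toMonoidHom)).map E.core.subtype := by
      rw [Subgroup.closure_le]
      rintro _ ⟨ψ, hψ, r, rfl⟩
      refine ⟨⟨ψ r, hgen ψ hψ r⟩, ?_, rfl⟩
      rw [SetLike.mem_coe, Subgroup.mem_comap]
      apply Subgroup.subset_closure
      exact ⟨(E.core.subtype.comp β.toMonoidHom).comp (ψ.codRestrict E.core (hgen ψ hψ)),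
        F.comp_mem hψ hβF (hgen ψ hψ), r, rfl⟩
    obtain ⟨o, ho, hox⟩ := hV (hP x.2)
    rw [← hβx x]
    have h1 : Subgroup.inclusion (hP.trans hWO) x = o := Subtype.ext hox.symm
    rw [h1]
    exact ho
  exact (isNormal_iff_stronglyClosed_le p hS F hF _).mpr
    ⟨hWSC, fun P hc hr => hWO.trans (le_of_isNormal_of_centric_radical hS F hON hc hr)⟩

end

end Cfsg.Agent.Lib_helper9_FusionWN
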