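import Mathlib

namespace Cfsg.Agent.Lib_helper9_InvSubset

theorem orbit_lemma {α : Type*} [Fintype α] [DecidableEq α] (σ : Equiv.Perm α) (r : ℕ)
    (hr : r.Prime) (hσ : orderOf σ = r) :
    ∀ (t : ℕ) (T : Finset α), T.card = t → (∀ x ∈ T, σ x ∈ T) → T ⊆ σ.support →
      r ∣ t ∧ ∀ a, a * r ≤ t → ∃ T' ⊆ T, (∀ x ∈ T', σ x ∈ T') ∧ T'.card = a * r := by
  intro t
  induction t using Nat.strong_induction_on with
  | _ t ih =>
    intro T hT hinv hsub
    rcases T.eq_empty_or_nonempty with rfl | ⟨x, hx⟩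
    · rw [Finset.card_empty] at hT
      subst hT
      refine ⟨dvd_zero r, fun a ha => ⟨∅, Finset.Subset.refl _, fun x hx => absurd hx (Finset.notMem_empty x), ?_⟩⟩
      have h0 : a * r = 0 := Nat.le_zero.mp ha
      rw [h0, Finset.card_empty]
    · have hxs : x ∈ σ.support := hsub hx
      have hx' : σ x ≠ x := Equiv.Perm.mem_support.mp hxs
      have hcyc : (σ.cycleOf x).IsCycle := Equiv.Perm.isCycle_cycleOf σ hx'
      have hOcard : (σ.cycleOf x).support.card = r := by
        rw [← hcyc.orderOf]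
        have hdvd : orderOf (σ.cycleOf x) ∣ r := hσ ▸ Equiv.Perm.orderOf_cycleOf_dvd_orderOf σ x
        rcases (Nat.dvd_prime hr).mp hdvd with h1 | h1
        · exfalso; rw [orderOf_eq_one_iff] at h1; exact hcyc.ne_one h1
        · exact h1
      have hOmem : ∀ y, y ∈ (σ.cycleOf x).support ↔ σ.SameCycle x y := by
        intro y; exact Equiv.Perm.mem_support_cycleOf_iff' hx'
      have hpow : ∀ m : ℕ, (σ ^ m) x ∈ T := by
        intro m
        induction m with
        | zero => simpa using hx
        | succ m ihm => rw [pow_succ', Equiv.Perm.mul_apply]; exact hinv _ ihm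
      have hOT : (σ.cycleOf x).support ⊆ T := by
        intro y hy
        obtain ⟨i, -, rfl⟩ := ((hOmem y).mp hy).exists_pow_eq'
        exact hpow i
      have hT1inv : ∀ y ∈ T \ (σ.cycleOf x).support, σ y ∈ T \ (σ.cycleOf x).support := by
        intro y hy
        rw [Finset.mem_sdiff] at hy ⊢
        refine ⟨hinv y hy.1, fun h => hy.2 ?_⟩
        rw [hOmem] at h ⊢
        exact Equiv.Perm.sameCycle_apply_right.mp h
      have hT1card : (T \ (σ.cycleOf x).support).card = t - r := by
        rw [Finset.card_sdiff_of_subset hOT, hT, hOcard]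
      have hrt : r ≤ t := by rw [← hT, ← hOcard]; exact Finset.card_le_card hOT
      obtain ⟨hd, hex⟩ := ih (t - r) (by have := hr.pos; omega) (T \ (σ.cycleOf x).support)
        hT1card hT1inv (fun y hy => hsub (Finset.mem_sdiff.mp hy).1)
      have hdt : r ∣ t := by
        obtain ⟨c, hc⟩ := hd
        exact ⟨c + 1, by rw [mul_add, mul_one]; omega⟩
      refine ⟨hdt, fun a ha => ?_⟩
      by_cases hle : a * r ≤ t - r
      · obtain ⟨T', hT', h1, h2⟩ := hex a hle
        exact ⟨T', hT'.trans Finset.sdiff_subset, h1, h2⟩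
      · refine ⟨T, Finset.Subset.refl _, hinv, ?_⟩
        rw [hT]
        obtain ⟨c, rfl⟩ := hdt
        rcases Nat.lt_or_ge a c with h | h
        · exfalso
          apply hle
          have h3 : (a + 1) * r ≤ c * r := Nat.mul_le_mul_right r h
          have h4 : (a + 1) * r = a * r + r := by ring
          have h5 : c * r = r * c := Nat.mul_comm c r
          omega
        · have h3 : c * r ≤ a * r := Nat.mul_le_mul_right r h
          have h5 : c * r = r * c := Nat.mul_comm c r
          omega

theorem exists_inv_subset {n : ℕ} (σ : Equiv.Perm (Fin n)) (r k : ℕ) (hr : r.Prime)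
    (hσ : orderOf σ = r) (hk : k ≤ n) (hmod : k % r ≤ n % r) :
    ∃ s : Finset (Fin n), s.card = k ∧ s.image σ = s := by
  classical
  obtain ⟨hd, hex⟩ := orbit_lemma σ r hr hσ σ.support.card σ.support rfl
    (fun x hx => Equiv.Perm.apply_mem_support.mpr hx) (Finset.Subset.refl _)
  have htn : σ.support.card ≤ n := by
    have h1 := Finset.card_le_univ σ.support
    rwa [Fintype.card_fin] at h1
  have hF : (Finset.univ \ σ.support).card = n - σ.support.card := by
    rw [Finset.card_sdiff_of_subset (Finset.subset_univ _), Finset.card_univ, Fintype.card_fin]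
  obtain ⟨a, b, hab, har, hbn⟩ : ∃ a b, a * r + b = k ∧ a * r ≤ σ.support.card ∧
      b ≤ n - σ.support.card := by
    by_cases h : (k / r) * r ≤ σ.support.card
    · refine ⟨k / r, k % r, Nat.div_add_mod' k r, h, ?_⟩
      have h1 : (n - σ.support.card) % r = n % r := by
        obtain ⟨c, hc⟩ := hd
        have h2 : n = (n - σ.support.card) + r * c := by omega
        conv_rhs => rw [h2]
        rw [Nat.add_mul_mod_self_left]
      have h2 : (n - σ.support.card) % r ≤ n - σ.support.card := Nat.mod_le _ _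
      omega
    · refine ⟨σ.support.card / r, k - σ.support.card, ?_, ?_, ?_⟩
      · have h1 : σ.support.card / r * r = σ.support.card := Nat.div_mul_cancel hd
        have h2 := Nat.div_mul_le_self k r
        omega
      · exact (Nat.div_mul_cancel hd).le
      · omega
  obtain ⟨T', hT'sub, hT'inv, hT'card⟩ := hex a har
  obtain ⟨B, hBsub, hBcard⟩ := Finset.exists_subset_card_eq (s := Finset.univ \ σ.support) (n := b)
    (by rw [hF]; exact hbn)
  have hdisj : Disjoint T' B := by
    rw [Finset.disjoint_left]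
    intro x hx hxB
    exact (Finset.mem_sdiff.mp (hBsub hxB)).2 (hT'sub hx)
  refine ⟨T' ∪ B, by rw [Finset.card_union_of_disjoint hdisj, hT'card, hBcard, hab], ?_⟩
  apply Finset.eq_of_subset_of_card_le
  · intro y hy
    obtain ⟨x, hx, rfl⟩ := Finset.mem_image.mp hy
    rcases Finset.mem_union.mp hx with h | h
    · exact Finset.mem_union_left _ (hT'inv x h)
    · have h1 : σ x = x := by
        have h2 := (Finset.mem_sdiff.mp (hBsub h)).2
        rwa [Equiv.Perm.notMem_support] at h2
      rw [h1]; exact Finset.mem_union_right _ h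
  · rw [Finset.card_image_of_injective _ σ.injective]

theorem mod_le_of_all {n : ℕ} (r k : ℕ) (hr : r.Prime) (hrn : r ≤ n)
    (hall : ∀ σ : Equiv.Perm (Fin n), orderOf σ = r →
      ∃ s : Finset (Fin n), s.card = k ∧ s.image σ = s) : k % r ≤ n % r := by
  classical
  have hpos : 0 < n / r := Nat.div_pos hrn hr.pos
  obtain ⟨σ, hσ⟩ := (Equiv.Perm.exists_with_cycleType_iff (Fin n)
    (m := Multiset.replicate (n / r) r)).mpr
    ⟨by rw [Multiset.sum_replicate, smul_eq_mul, Fintype.card_fin]; exact Nat.div_mul_le_self n r,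
     fun a ha => by rw [Multiset.eq_of_mem_replicate ha]; exact hr.two_le⟩
  have hord : orderOf σ = r := by
    rw [← Equiv.Perm.lcm_cycleType, hσ]
    apply Nat.dvd_antisymm
    · rw [Multiset.lcm_dvd]
      intro b hb
      rw [Multiset.eq_of_mem_replicate hb]
    · apply Multiset.dvd_lcm
      rw [Multiset.mem_replicate]
      exact ⟨hpos.ne', rfl⟩
  have hsupp : σ.support.card = (n / r) * r := by
    rw [← Equiv.Perm.sum_cycleType, hσ, Multiset.sum_replicate, smul_eq_mul]
  obtain ⟨s, hscard, hsinv⟩ := hall σ hord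
  have hfwd : ∀ x ∈ s, σ x ∈ s := fun x hx => by
    have h1 : σ x ∈ s.image σ := Finset.mem_image_of_mem σ hx
    rwa [hsinv] at h1
  obtain ⟨hd, -⟩ := orbit_lemma σ r hr hord (s ∩ σ.support).card (s ∩ σ.support) rfl
    (fun x hx => by
      rw [Finset.mem_inter] at hx ⊢
      exact ⟨hfwd x hx.1, Equiv.Perm.apply_mem_support.mpr hx.2⟩) Finset.inter_subset_right
  have h1 : (s \ σ.support).card + (s ∩ σ.support).card = k := by
    rw [Finset.card_sdiff_add_card_inter, hscard]
  have h2 : (s \ σ.support).card ≤ n % r := by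
    have h3 : (s \ σ.support).card ≤ (Finset.univ \ σ.support).card :=
      Finset.card_le_card (Finset.sdiff_subset_sdiff (Finset.subset_univ s) (Finset.Subset.refl _))
    rw [Finset.card_sdiff_of_subset (Finset.subset_univ _), Finset.card_univ, Fintype.card_fin,
      hsupp] at h3
    have h4 := Nat.div_add_mod' n r
    omega
  obtain ⟨c, hc⟩ := hd
  have h3 : k % r = (s \ σ.support).card % r := by
    rw [← h1, hc, Nat.add_mul_mod_self_left]
  have h4 := Nat.mod_le (s \ σ.support).card r
  omega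

theorem le_of_dvd_choose (n k r : ℕ) (hr : r.Prime) (hrd : r ∣ Nat.choose n k)
    (hmod : k % r ≤ n % r) : r ≤ k := by
  by_contra hlt
  rw [not_le] at hlt
  haveI : Fact r.Prime := ⟨hr⟩
  have h1 := Choose.choose_modEq_choose_mod_mul_choose_div_nat (n := n) (k := k) (p := r)
  rw [Nat.mod_eq_of_lt hlt, Nat.div_eq_of_lt hlt, Nat.choose_zero_right, mul_one] at h1
  have h2 : r ∣ Nat.choose (n % r) k :=
    (Nat.modEq_zero_iff_dvd).mp (h1.symm.trans ((Nat.modEq_zero_iff_dvd).mpr hrd))
  rw [Nat.mod_eq_of_lt hlt] at hmod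
  have h3 : r ∣ (n % r).factorial := by
    rw [← Nat.choose_mul_factorial_mul_factorial hmod]
    exact Dvd.dvd.mul_right (Dvd.dvd.mul_right h2 _) _
  have h4 := (Nat.Prime.dvd_factorial hr).mp h3
  have h5 := Nat.mod_lt n hr.pos
  omega

theorem s3573 (n k : ℕ) (hk : 1 ≤ k) (hkn : 2 * k < n) (r : ℕ) (hr : r.Prime)
    (hrd : r ∣ Nat.choose n k) :
    (r ≠ 2 → ((∀ σ : Equiv.Perm (Fin n), orderOf σ = r →
        ∃ s : Finset (Fin n), s.card = k ∧ s.image σ = s) ↔
      (r ≤ k ∧ k % r ≤ n % r))) ∧
    (r = 2 → ((∀ σ : Equiv.Perm (Fin n), orderOf σ = 2 →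
        ∃ s : Finset (Fin n), s.card = k ∧ s.image σ = s) ↔
      (Even k ∨ Odd n))) := by
  have hkn' : k ≤ n := by omega
  have hrn : r ≤ n := by
    have h3 : r ∣ n.factorial := by
      rw [← Nat.choose_mul_factorial_mul_factorial hkn']
      exact Dvd.dvd.mul_right (Dvd.dvd.mul_right hrd _) _
    exact (Nat.Prime.dvd_factorial hr).mp h3
  have core : (∀ σ : Equiv.Perm (Fin n), orderOf σ = r →
      ∃ s : Finset (Fin n), s.card = k ∧ s.image σ = s) ↔ k % r ≤ n % r :=
    ⟨mod_le_of_all r k hr hrn, fun h σ hσ => exists_inv_subset σ r k hr hσ hkn' h⟩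
  refine ⟨fun _ => ?_, fun h2 => ?_⟩
  · rw [core]
    exact ⟨fun h => ⟨le_of_dvd_choose n k r hr hrd h, h⟩, fun h => h.2⟩
  · subst h2
    rw [core, Nat.even_iff, Nat.odd_iff]
    omega

end Cfsg.Agent.Lib_helper9_InvSubset
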