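import Mathlib
import Cfsg.Agent.Lib_helper3_Faithful

set_option autoImplicit false

namespace Cfsg.Agent.Lib_helper9_KleinCenter

theorem s3190 {X : Type*} [Group X] [Finite X]
    {p : ℕ} (hp : p.Prime) (hodd : Odd p) (P T R : Subgroup X) (hP : IsPGroup p ↥P)
    (hT : IsKleinFour ↥T)
    (hRP : R ≤ P) (hRn : (R.subgroupOf P).Normal)
    (hTR : T ≤ Subgroup.normalizer (R : Set X))
    (hfac : R ⊔ (P ⊓ Subgroup.centralizer (T : Set X)) = P)
    (hZ : T ≤ Subgroup.centralizer (((Subgroup.center ↥P).map P.subtype : Subgroup X) : Set X)) :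
    T ≤ Subgroup.centralizer (((Subgroup.center ↥R).map R.subtype : Subgroup X) : Set X) := by
  haveI : Fact p.Prime := ⟨hp⟩
  intro t ht
  have htt : t * t = 1 := by
    have h1 : (⟨t, ht⟩ : T) ^ 2 = 1 := by
      rw [← hT.exponent_two]; exact Monoid.pow_exponent_eq_one _
    have h2 := congrArg Subtype.val h1
    rw [pow_two] at h2
    exact h2
  have htinv : t⁻¹ = t := inv_eq_of_mul_eq_one_left htt
  have htR : ∀ r ∈ R, t * r * t ∈ R := by
    intro r hr
    have := (Subgroup.mem_normalizer_iff.mp (hTR ht) r).mp hr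
    rw [htinv] at this
    exact this
  rw [Subgroup.mem_centralizer_iff]
  rintro _ ⟨z, hz, rfl⟩
  by_contra hne
  have hzR : (z : X) ∈ R := z.2
  have hzc : ∀ r ∈ R, r * (z : X) = z * r := by
    intro r hr
    have := Subgroup.mem_center_iff.mp hz ⟨r, hr⟩
    exact congrArg Subtype.val this
  obtain ⟨W, hW⟩ : ∃ W : Subgroup X, ∀ w, w ∈ W ↔
      (w ∈ R ∧ (∀ r ∈ R, r * w = w * r) ∧ t * w * t = w⁻¹) :=
    ⟨{ carrier := {w | w ∈ R ∧ (∀ r ∈ R, r * w = w * r) ∧ t * w * t = w⁻¹}
       one_mem' := ⟨R.one_mem, by simp, by simp [htt]⟩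
       mul_mem' := by
         rintro a b ⟨ha, hac, hat⟩ ⟨hb, hbc, hbt⟩
         refine ⟨R.mul_mem ha hb, fun r hr => ?_, ?_⟩
         · rw [← mul_assoc, hac r hr, mul_assoc, hbc r hr, mul_assoc]
         · have h1 : t * (a * b) * t = (t * a * t) * (t * b * t) := by
             have : (t * a * t) * (t * b * t) = t * a * (t * t) * b * t := by group
             rw [this, htt]; group
           have hab : b * a = a * b := hac b hb
           rw [h1, hat, hbt, ← mul_inv_rev, hab]
       inv_mem' := by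
         rintro a ⟨ha, hac, hat⟩
         refine ⟨R.inv_mem ha, fun r hr => ?_, ?_⟩
         · have h1 := hac r hr
           have h2 : r * a⁻¹ = a⁻¹ * (a * r) * a⁻¹ := by group
           rw [h2, ← h1]; group
         · have h1 : t * a⁻¹ * t = (t * a * t)⁻¹ := by
             rw [mul_inv_rev, mul_inv_rev, htinv]; group
           rw [h1, hat] }, fun w => Iff.rfl⟩
  -- the element `w`
  have hw0 : (z : X)⁻¹ * (t * z * t) ∈ W := by
    rw [hW]
    have hc2 : ∀ r ∈ R, r * (t * (z : X) * t) = (t * z * t) * r := by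
      intro r hr
      have h1 := hzc (t * r * t) (htR r hr)
      have h2 : r * (t * (z : X) * t) = t * ((t * r * t) * z) * t := by
        have : t * ((t * r * t) * (z : X)) * t = (t * t) * r * (t * z * t) := by group
        rw [this, htt, one_mul]
      rw [h2, h1]
      have : t * ((z : X) * (t * r * t)) * t = (t * z * t) * r * (t * t) := by group
      rw [this, htt, mul_one]
    refine ⟨R.mul_mem (R.inv_mem hzR) (htR _ hzR), fun r hr => ?_, ?_⟩
    · have h1 : r * (z : X)⁻¹ = (z : X)⁻¹ * r := by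
        have h1 := hzc r hr
        have h2 : r * (z : X)⁻¹ = (z : X)⁻¹ * ((z : X) * r) * (z : X)⁻¹ := by group
        rw [h2, ← h1]; group
      calc r * ((z : X)⁻¹ * (t * z * t)) = (r * (z : X)⁻¹) * (t * z * t) := by group
        _ = (z : X)⁻¹ * (r * (t * z * t)) := by rw [h1]; group
        _ = (z : X)⁻¹ * ((t * z * t) * r) := by rw [hc2 r hr]
        _ = (z : X)⁻¹ * (t * z * t) * r := by group
    · have h1 : t * ((z : X)⁻¹ * (t * z * t)) * t = t * (z : X)⁻¹ * (t * z) * (t * t) := by group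
      rw [h1, htt, mul_one, mul_inv_rev, mul_inv_rev, mul_inv_rev, htinv, inv_inv]
      group
  have hw1 : (z : X)⁻¹ * (t * z * t) ≠ 1 := by
    intro h
    apply hne
    have h1 : t * (z : X) * t = z := by
      have := congrArg (fun u => (z : X) * u) h
      simpa using this
    show (z : X) * t = t * z
    have h2 : (z : X) * t = (t * z * t) * t := by rw [h1]
    rw [h2, mul_assoc, htt, mul_one]
  -- `W` is normalized by `P`
  have hWR : ∀ w ∈ W, w ∈ R := fun w hw => ((hW w).mp hw).1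
  have hconjR : ∀ g ∈ R, ∀ w ∈ W, g * w * g⁻¹ ∈ W := by
    intro g hg w hw
    have h1 := ((hW w).mp hw).2.1 g hg
    have : g * w * g⁻¹ = w := by rw [h1]; group
    rw [this]; exact hw
  have hconjC : ∀ g ∈ P ⊓ Subgroup.centralizer (T : Set X), ∀ w ∈ W, g * w * g⁻¹ ∈ W := by
    rintro g ⟨hgP, hgC⟩ w hw
    obtain ⟨hwR, hwc, hwt⟩ := (hW w).mp hw
    have hgt : t * g = g * t := Subgroup.mem_centralizer_iff.mp hgC t ht
    have hgn : ∀ r ∈ R, g * r * g⁻¹ ∈ R := by
      intro r hr
      have := hRn.conj_mem ⟨r, hRP hr⟩ (Subgroup.mem_subgroupOf.mpr hr) ⟨g, hgP⟩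
      exact Subgroup.mem_subgroupOf.mp this
    have hgn' : ∀ r ∈ R, g⁻¹ * r * g ∈ R := by
      intro r hr
      have := hRn.conj_mem ⟨r, hRP hr⟩ (Subgroup.mem_subgroupOf.mpr hr) ⟨g, hgP⟩⁻¹
      have h2 := Subgroup.mem_subgroupOf.mp this
      simpa using h2
    rw [hW]
    refine ⟨hgn w hwR, fun r hr => ?_, ?_⟩
    · have h1 := hwc (g⁻¹ * r * g) (hgn' r hr)
      have h2 : r * (g * w * g⁻¹) = g * ((g⁻¹ * r * g) * w) * g⁻¹ := by group
      rw [h2, h1]; group
    · have h1 : t * (g * w * g⁻¹) * t = g * (t * w * t) * g⁻¹ := by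
        have hgt' : t * g⁻¹ = g⁻¹ * t := by
          have : t * g⁻¹ = g⁻¹ * (g * t) * g⁻¹ := by group
          rw [this, ← hgt]; group
        have : t * (g * w * g⁻¹) * t = (t * g) * w * g⁻¹ * t := by group
        rw [this, hgt]
        have : g * t * w * g⁻¹ * t = g * t * w * (g⁻¹ * t) := by group
        rw [this, ← hgt']; group
      rw [h1, hwt]; group
  have hnorm : ∀ g, (∀ w ∈ W, g * w * g⁻¹ ∈ W) → (∀ w ∈ W, g⁻¹ * w * g⁻¹⁻¹ ∈ W) →
      g ∈ Subgroup.normalizer (W : Set X) := by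
    intro g h1 h2
    rw [Subgroup.mem_normalizer_iff]
    intro w
    constructor
    · exact h1 w
    · intro h
      have := h2 _ h
      have e : g⁻¹ * (g * w * g⁻¹) * g⁻¹⁻¹ = w := by group
      rw [e] at this; exact this
  have hPN : P ≤ Subgroup.normalizer (W : Set X) := by
    rw [← hfac]
    apply sup_le
    · intro g hg
      exact hnorm g (hconjR g hg) (hconjR g⁻¹ (R.inv_mem hg))
    · intro g hg
      exact hnorm g (hconjC g hg) (hconjC g⁻¹ (Subgroup.inv_mem _ hg))
  haveI hWn : (W.subgroupOf P).Normal := by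
    constructor
    intro n hn g
    rw [Subgroup.mem_subgroupOf] at hn ⊢
    exact (Subgroup.mem_normalizer_iff.mp (hPN g.2) n).mp hn
  have hWne : W.subgroupOf P ≠ ⊥ := by
    intro h
    have h1 : (⟨_, hRP (hWR _ hw0)⟩ : P) ∈ W.subgroupOf P := Subgroup.mem_subgroupOf.mpr hw0
    rw [h, Subgroup.mem_bot] at h1
    exact hw1 (congrArg Subtype.val h1)
  obtain ⟨c, hcW, hcZ, hc1⟩ :=
    Cfsg.Agent.Lib_helper3_Faithful.exists_center_mem_of_normal hP (W.subgroupOf P) hWne
  have hcW' : (c : X) ∈ W := Subgroup.mem_subgroupOf.mp hcW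
  obtain ⟨-, -, hct⟩ := (hW _).mp hcW'
  have hcomm : (c : X) * t = t * c :=
    Subgroup.mem_centralizer_iff.mp (hZ ht) c ⟨c, hcZ, rfl⟩
  have hcc : (c : X) * c = 1 := by
    have h1 : t * (c : X) * t = c := by rw [← hcomm, mul_assoc, htt, mul_one]
    rw [h1] at hct
    nth_rewrite 2 [hct]
    exact mul_inv_cancel _
  apply hc1
  obtain ⟨k, hk⟩ := (IsPGroup.iff_orderOf.mp hP) c
  have h2 : orderOf c ∣ 2 := by
    apply orderOf_dvd_of_pow_eq_one
    apply Subtype.ext
    rw [pow_two]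
    exact hcc
  rw [hk] at h2
  have hk0 : k = 0 := by
    by_contra hk0
    have h3 : p ∣ 2 := dvd_trans (dvd_pow_self p hk0) h2
    have h4 : p ≤ 2 := Nat.le_of_dvd (by norm_num) h3
    have h5 := hp.two_le
    have h6 : p = 2 := le_antisymm h4 h5
    rw [h6] at hodd
    exact absurd hodd (by decide)
  rw [hk0, pow_zero] at hk
  exact orderOf_eq_one_iff.mp hk

end Cfsg.Agent.Lib_helper9_KleinCenter
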