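import Mathlib
import Cfsg.Agent.Lib_helper9_TransferTwo
import Cfsg.Agent.Lib_helper1_Frobenius

set_option autoImplicit false

namespace Cfsg.Agent.Lib_helper9_Modular

open Subgroup

variable {G : Type*} [Group G]

theorem card_mul_relIndex_of_le [Finite G] (H K : Subgroup G) (hHK : H ≤ K) :
    Nat.card H * H.relIndex K = Nat.card K := by
  have h1 : Nat.card (H.subgroupOf K) = Nat.card H :=
    Nat.card_congr (Subgroup.subgroupOfEquivOfLe hHK).toEquiv
  have h2 := Subgroup.card_mul_index (H.subgroupOf K)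
  rw [h1] at h2
  exact h2

theorem mul_mem_of_card_two [Finite G] (H K : Subgroup G) (hHK : H ≤ K)
    (hcard : Nat.card K = 2 * Nat.card H) :
    ∀ x ∈ K, ∀ y ∈ K, x ∉ H → y ∉ H → x * y ∈ H := by
  have h2 := card_mul_relIndex_of_le H K hHK
  have hpos : 0 < Nat.card H := Nat.card_pos
  have hidx : (H.subgroupOf K).index = 2 := by
    rw [hcard, mul_comm 2] at h2
    exact Nat.eq_of_mul_eq_mul_left hpos h2
  intro x hx y hy hxH hyH
  have h3 : (⟨x, hx⟩ * ⟨y, hy⟩ : K) ∈ H.subgroupOf K :=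
    (Subgroup.mul_mem_iff_of_index_two hidx).mpr
      (iff_of_false (fun h => hxH (Subgroup.mem_subgroupOf.mp h))
        (fun h => hyH (Subgroup.mem_subgroupOf.mp h)))
  exact Subgroup.mem_subgroupOf.mp h3

/-- an automorphism of odd order of an abelian `2`-group of order `2^n` having an element of order
`2^(n-1)`, `n ≥ 3`, is trivial. -/
theorem odd_aut_trivial {A : Type*} [CommGroup A] [Finite A] (n : ℕ) (hn : 3 ≤ n)
    (hcard : Nat.card A = 2 ^ n) (c : A) (hco : orderOf c = 2 ^ (n - 1))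
    (α : A →* A) (m : ℕ) (hm : Odd m) (hαm : ∀ x, α^[m] x = x) : ∀ x, α x = x := by
  have hinj : Function.Injective α := by
    intro x y hxy
    obtain ⟨q, rfl⟩ := hm
    have h1 : α^[2 * q] (α x) = x := (Function.iterate_succ_apply α (2 * q) x).symm.trans (hαm x)
    have h2 : α^[2 * q] (α y) = y := (Function.iterate_succ_apply α (2 * q) y).symm.trans (hαm y)
    rw [← h1, ← h2, hxy]
  have hidx : (zpowers c).index = 2 := by
    have h := Subgroup.card_mul_index (zpowers c)
    rw [Nat.card_zpowers, hco, hcard] at h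
    have h' : 2 ^ n = 2 ^ (n - 1) * 2 := by
      have : n = (n - 1) + 1 := by omega
      conv_lhs => rw [this, pow_succ]
    rw [h'] at h
    exact Nat.eq_of_mul_eq_mul_left (by positivity) h
  have h21 : 2 ^ (n - 2) + 2 ^ (n - 2) = 2 ^ (n - 1) := by
    have : n - 1 = (n - 2) + 1 := by omega
    rw [this, pow_succ]; ring
  set z := c ^ (2 ^ (n - 2)) with hz
  have hz2 : z * z = 1 := by
    rw [hz, ← pow_add, h21, ← hco, pow_orderOf_eq_one]
  have hz1 : z ≠ 1 := by
    intro h
    have h1 := orderOf_dvd_of_pow_eq_one h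
    rw [hco] at h1
    have h2 : 2 ^ (n - 1) ≤ 2 ^ (n - 2) := Nat.le_of_dvd (by positivity) h1
    have h3 : 2 ^ (n - 2) < 2 ^ (n - 1) := Nat.pow_lt_pow_right (by norm_num) (by omega)
    omega
  have hU : ∀ w ∈ zpowers c, w * w = 1 → w = 1 ∨ w = z := by
    intro w hw hw2
    obtain ⟨i, rfl⟩ := (Submonoid.mem_powers_iff _ _).mp (mem_powers_iff_mem_zpowers.mpr hw)
    rw [← pow_add] at hw2
    have h1 := orderOf_dvd_of_pow_eq_one hw2
    rw [hco, ← h21, ← two_mul, ← two_mul] at h1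
    have h2 : 2 ^ (n - 2) ∣ i := Nat.dvd_of_mul_dvd_mul_left (by norm_num) h1
    obtain ⟨j, rfl⟩ := h2
    rw [pow_mul, ← hz]
    rcases Nat.even_or_odd j with ⟨q, rfl⟩ | ⟨q, rfl⟩
    · left; rw [← two_mul, pow_mul, pow_two, hz2, one_pow]
    · right; rw [pow_succ, pow_mul, pow_two, hz2, one_pow, one_mul]
  have hαz : α z = z := by
    have h1 : α c * α c ∈ zpowers c := by
      by_cases h : α c ∈ zpowers c
      · exact mul_mem h h
      · exact (Subgroup.mul_mem_iff_of_index_two hidx).mpr (iff_of_false h h)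
    have h2 : α z ∈ zpowers c := by
      rw [hz, map_pow]
      have h' : 2 ^ (n - 2) = 2 * 2 ^ (n - 3) := by
        have : n - 2 = (n - 3) + 1 := by omega
        rw [this, pow_succ]; ring
      rw [h', pow_mul, pow_two]
      exact pow_mem h1 _
    rcases hU _ h2 (by rw [← map_mul, hz2, map_one]) with h | h
    · exact absurd (hinj (h.trans (map_one α).symm)) hz1
    · exact h
  have hinv : ∀ t : A, t * t = 1 → α t = t := by
    intro t ht2
    have key : α (α t) = t := by
      by_cases htc : t ∈ zpowers c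
      · rcases hU t htc ht2 with h | h
        · rw [h, map_one, map_one]
        · rw [h, hαz, hαz]
      · have h1 : α t ∉ zpowers c := by
          intro h
          rcases hU _ h (by rw [← map_mul, ht2, map_one]) with h' | h'
          · exact htc (by rw [hinj (h'.trans (map_one α).symm)]; exact one_mem _)
          · exact htc (by rw [hinj (h'.trans hαz.symm)]; exact pow_mem (mem_zpowers c) _)
        have h2 : t * α t ∈ zpowers c :=
          (Subgroup.mul_mem_iff_of_index_two hidx).mpr (iff_of_false htc h1)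
        have h3 : (t * α t) * (t * α t) = 1 := by
          rw [mul_mul_mul_comm, ht2, ← map_mul, ht2, map_one, one_mul]
        have e0 : α t = t * (t * α t) := by rw [← mul_assoc, ht2, one_mul]
        rcases hU _ h2 h3 with h | h
        · have e : α t = t := by rw [e0, h, mul_one]
          rw [e, e]
        · have e : α t = t * z := by rw [e0, h]
          rw [e, map_mul, e, hαz, mul_assoc, hz2, mul_one]
    obtain ⟨q, rfl⟩ := hm
    have h1 : α (α^[2 * q] t) = t := (Function.iterate_succ_apply' α (2 * q) t).symm.trans (hαm t)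
    have h2 : α^[2 * q] t = t := by
      rw [Function.iterate_mul]
      exact Function.iterate_fixed key q
    rw [h2] at h1
    exact h1
  have hstep : ∀ k : ℕ, ∀ x : A, x ^ (2 ^ k) = 1 → α x = x := by
    intro k
    induction k with
    | zero => intro x hx; rw [pow_zero, pow_one] at hx; rw [hx, map_one]
    | succ k ih =>
      intro x hx
      have h1 : α (x * x) = x * x := by
        apply ih
        rw [← pow_two, ← pow_mul, ← pow_succ']; exact hx
      have hw2 : (x⁻¹ * α x) * (x⁻¹ * α x) = 1 := by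
        rw [mul_mul_mul_comm, ← map_mul, h1, ← mul_assoc, inv_mul_cancel_right, inv_mul_cancel]
      have hαw : α (x⁻¹ * α x) = x⁻¹ * α x := hinv _ hw2
      obtain ⟨w, hw⟩ : ∃ w, w = x⁻¹ * α x := ⟨_, rfl⟩
      rw [← hw] at hw2 hαw
      have hαx : α x = x * w := by rw [hw, mul_inv_cancel_left]
      have hiter : ∀ j : ℕ, α^[j] x = x * w ^ j := by
        intro j
        induction j with
        | zero => simp
        | succ j ihj =>
          rw [Function.iterate_succ_apply', ihj, map_mul, map_pow, hαx, hαw, mul_assoc,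
            ← pow_succ']
      have h2 := hiter m
      rw [hαm] at h2
      have hwm : w ^ m = 1 := mul_eq_left.mp h2.symm
      have hw1 : w = 1 := by
        obtain ⟨q, rfl⟩ := hm
        rw [pow_succ, pow_mul, pow_two, hw2, one_pow, one_mul] at hwm
        exact hwm
      rw [hαx, hw1, mul_one]
  intro x
  apply hstep n
  rw [← hcard]; exact pow_card_eq_one'

theorem odd_centralizes [Finite G] (A : Subgroup G) (hcomm : ∀ x ∈ A, ∀ y ∈ A, x * y = y * x)
    (n : ℕ) (hn : 3 ≤ n) (hcard : Nat.card A = 2 ^ n) (c : G) (hc : c ∈ A)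
    (hco : orderOf c = 2 ^ (n - 1))
    (g : G) (hg : ∀ x ∈ A, g * x * g⁻¹ ∈ A) (m : ℕ) (hm : Odd m) (hgm : g ^ m = 1) :
    ∀ x ∈ A, g * x * g⁻¹ = x := by
  letI : CommGroup A :=
    { (inferInstance : Group A) with mul_comm := fun x y => Subtype.ext (hcomm x x.2 y y.2) }
  let α : A →* A :=
    { toFun := fun x => ⟨g * x * g⁻¹, hg x x.2⟩
      map_one' := by ext; simp
      map_mul' := by intro x y; ext; simp }
  have hiter : ∀ (k : ℕ) (x : A), ((α^[k] x : A) : G) = g ^ k * x * (g ^ k)⁻¹ := by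
    intro k
    induction k with
    | zero => intro x; simp
    | succ k ih =>
      intro x
      rw [Function.iterate_succ_apply']
      show g * ((α^[k] x : A) : G) * g⁻¹ = _
      rw [ih, pow_succ']; group
  have h := odd_aut_trivial n hn hcard ⟨c, hc⟩ (by rw [Subgroup.orderOf_mk]; exact hco) α m hm
    (by intro x; ext; rw [hiter, hgm]; simp)
  intro x hx
  exact congrArg Subtype.val (h ⟨x, hx⟩)

theorem exists_split (g : G) (k m : ℕ) (hm : Odd m) :
    ∃ u v : ℤ, g = (g ^ (2 ^ k)) ^ u * (g ^ m) ^ v := by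
  have hcop : Nat.Coprime (2 ^ k) m := Nat.Coprime.pow_left k (Nat.coprime_two_left.mpr hm)
  refine ⟨Nat.gcdA (2 ^ k) m, Nat.gcdB (2 ^ k) m, ?_⟩
  have h := Nat.gcd_eq_gcd_ab (2 ^ k) m
  rw [hcop.gcd_eq_one] at h
  rw [← zpow_natCast, ← zpow_natCast, ← zpow_mul, ← zpow_mul, ← zpow_add, ← h]
  simp

theorem b_mul_pow {a b z : G} (haz : a * z = z * a) (hba : b * a = a * z * b) (i : ℕ) :
    b * a ^ i = a ^ i * z ^ i * b := by
  induction i with
  | zero => simp
  | succ i ih =>
    have hc : Commute a z := haz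
    have h1 : z ^ i * a = a * z ^ i := (hc.pow_right i).eq.symm
    calc b * a ^ (i + 1) = (b * a ^ i) * a := by rw [pow_succ, mul_assoc]
      _ = a ^ i * z ^ i * (b * a) := by rw [ih, mul_assoc]
      _ = a ^ i * (z ^ i * a) * z * b := by rw [hba]; group
      _ = a ^ i * (a * z ^ i) * z * b := by rw [h1]
      _ = a ^ (i + 1) * z ^ (i + 1) * b := by rw [pow_succ, pow_succ]; group


theorem modular_npc [Finite G] (S : Sylow 2 G) (n : ℕ) (hn : 3 ≤ n)
    (hS : Nat.card ↥(S : Subgroup G) = 2 ^ (n + 1))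
    (a b : G) (ha : a ∈ (S : Subgroup G)) (hb : b ∈ (S : Subgroup G))
    (hao : orderOf a = 2 ^ n) (hbo : orderOf b = 2)
    (hrel : b * a * b⁻¹ = a ^ (2 ^ (n - 1) + 1)) :
    Cfsg.Agent.Lib_helper1_Frobenius.NPC 2 G := by
  classical
  haveI : Fact (Nat.Prime 2) := ⟨Nat.prime_two⟩
  have hb2 : b * b = 1 := by rw [← pow_two, ← hbo, pow_orderOf_eq_one]
  obtain ⟨z, hz⟩ : ∃ z, z = a ^ (2 ^ (n - 1)) := ⟨_, rfl⟩
  have hpow2 : 2 ^ (n - 1) + 2 ^ (n - 1) = 2 ^ n := by
    have : n = (n - 1) + 1 := by omega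
    conv_rhs => rw [this, pow_succ]
    ring
  have h21 : 2 ^ (n - 1) = 2 * 2 ^ (n - 2) := by
    have : n - 1 = (n - 2) + 1 := by omega
    rw [this, pow_succ]; ring
  have hz2 : z * z = 1 := by rw [hz, ← pow_add, hpow2, ← hao, pow_orderOf_eq_one]
  have hz1 : z ≠ 1 := by
    intro h
    rw [hz] at h
    have h1 := orderOf_dvd_of_pow_eq_one h
    rw [hao] at h1
    have h2 := Nat.le_of_dvd (by positivity) h1
    have h3 : 2 ^ (n - 1) < 2 ^ n := Nat.pow_lt_pow_right (by norm_num) (by omega)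
    omega
  have haz : a * z = z * a := by rw [hz, ← pow_succ', ← pow_succ]
  have hba : b * a = a * z * b := by
    have h1 : b * a = a ^ (2 ^ (n - 1) + 1) * b := by rw [← hrel]; group
    rw [h1, pow_succ', ← hz]
  have hzpow : ∀ i, Even i → z ^ i = 1 := by
    rintro i ⟨q, rfl⟩; rw [← two_mul, pow_mul, pow_two, hz2, one_pow]
  have hzpow' : ∀ i, Odd i → z ^ i = z := by
    rintro i ⟨q, rfl⟩; rw [pow_succ, pow_mul, pow_two, hz2, one_pow, one_mul]
  have hzpow1 : ∀ i, (z ^ i = 1 ↔ Even i) := by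
    intro i
    constructor
    · intro h; by_contra hodd; rw [Nat.not_even_iff_odd] at hodd
      rw [hzpow' i hodd] at h; exact hz1 h
    · exact hzpow i
  have hbpow : ∀ i : ℕ, b * a ^ i = a ^ i * z ^ i * b := b_mul_pow haz hba
  have hev1 : Even (2 ^ (n - 1)) := (Nat.even_pow.mpr ⟨even_two, by omega⟩)
  have hev2 : Even (2 ^ (n - 2)) := (Nat.even_pow.mpr ⟨even_two, by omega⟩)
  have hzpowa : ∀ i : ℕ, (a ^ i) ^ (2 ^ (n - 1)) = z ^ i := by
    intro i; rw [← pow_mul, mul_comm, pow_mul, ← hz]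
  -- structure of `S`
  have hbA : b ∉ zpowers a := by
    intro h
    obtain ⟨k, rfl⟩ := Subgroup.mem_zpowers_iff.mp h
    have h1 : a ^ k * a = a * a ^ k := (Commute.zpow_self a k).eq
    rw [h1] at hba
    apply hz1
    have h2 : a = a * z := mul_right_cancel hba
    exact mul_eq_left.mp h2.symm
  have hcardA : Nat.card (S : Subgroup G) = 2 * Nat.card (zpowers a) := by
    rw [Nat.card_zpowers, hao, hS, pow_succ]; ring
  have hAS : zpowers a ≤ (S : Subgroup G) := (Subgroup.zpowers_le).mpr ha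
  have hE : ∀ s ∈ (S : Subgroup G), ∃ i : ℕ, s = a ^ i ∨ s = a ^ i * b := by
    intro s hs
    by_cases hsA : s ∈ zpowers a
    · obtain ⟨i, hi⟩ := (Submonoid.mem_powers_iff _ _).mp (mem_powers_iff_mem_zpowers.mpr hsA)
      exact ⟨i, Or.inl hi.symm⟩
    · have h1 := mul_mem_of_card_two (zpowers a) S hAS hcardA s hs b hb hsA hbA
      obtain ⟨i, hi⟩ := (Submonoid.mem_powers_iff _ _).mp (mem_powers_iff_mem_zpowers.mpr h1)
      refine ⟨i, Or.inr ?_⟩
      rw [hi, mul_assoc, hb2, mul_one]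
  have hcomm_iff : ∀ i : ℕ, (a ^ i * b = b * a ^ i ↔ Even i) := by
    intro i
    rw [hbpow i, ← hzpow1]
    constructor
    · intro h
      have h1 : a ^ i = a ^ i * z ^ i := mul_right_cancel h
      exact mul_eq_left.mp h1.symm
    · intro h; rw [h, mul_one]
  obtain ⟨M, hMdef⟩ : ∃ M : Subgroup G, M = (S : Subgroup G) ⊓ centralizer {b} := ⟨_, rfl⟩
  have hMmem : ∀ y, y ∈ M ↔ y ∈ (S : Subgroup G) ∧ b * y = y * b := by
    intro y
    rw [hMdef, Subgroup.mem_inf, Subgroup.mem_centralizer_iff]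
    simp only [Set.mem_singleton_iff, forall_eq]
  have hMpow : ∀ i : ℕ, (a ^ i ∈ M ↔ Even i) := by
    intro i
    rw [hMmem, ← hcomm_iff i]
    constructor
    · rintro ⟨_, h⟩; exact h.symm
    · intro h; exact ⟨pow_mem ha i, h.symm⟩
  have hMpowb : ∀ i : ℕ, (a ^ i * b ∈ M ↔ Even i) := by
    intro i
    rw [hMmem, ← hcomm_iff i]
    constructor
    · rintro ⟨_, h⟩
      have h' : b * a ^ i * b = a ^ i * b * b := by rw [← h, mul_assoc]
      exact (mul_right_cancel h').symm
    · intro h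
      exact ⟨mul_mem (pow_mem ha i) hb, by rw [← mul_assoc, ← h]⟩
  have hMS : M ≤ (S : Subgroup G) := by rw [hMdef]; exact inf_le_left
  have hMidx : M.relIndex (S : Subgroup G) = 2 := by
    show (M.subgroupOf (S : Subgroup G)).index = 2
    rw [Subgroup.index_eq_two_iff]
    refine ⟨⟨a, ha⟩, ?_⟩
    intro s
    rw [Subgroup.mem_subgroupOf, Subgroup.mem_subgroupOf]
    show Xor ((s : G) * a ∈ M) ((s : G) ∈ M)
    obtain ⟨i, hi | hi⟩ := hE s s.2
    · rw [hi, ← pow_succ, hMpow, hMpow, Nat.even_add_one]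
      by_cases h : Even i <;> simp [Xor, h]
    · have e : a ^ i * b * a = a ^ (i + 1 + 2 ^ (n - 1)) * b := by
        rw [mul_assoc, hba, pow_add, pow_succ, ← hz]; group
      have hpar : Even (i + 1 + 2 ^ (n - 1)) ↔ ¬ Even i := by
        rw [Nat.even_add, Nat.even_add_one]; simp [hev1]
      rw [hi, e, hMpowb, hMpowb, hpar]
      by_cases h : Even i <;> simp [Xor, h]
  have hpowM : ∀ y ∈ (S : Subgroup G), (y ∈ M ↔ y ^ (2 ^ (n - 1)) = 1) := by
    intro y hy
    obtain ⟨i, hi | hi⟩ := hE y hy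
    · rw [hi, hMpow, hzpowa, hzpow1]
    · rw [hi, hMpowb]
      have hsq : (a ^ i * b) * (a ^ i * b) = a ^ (2 * i) * z ^ i := by
        calc (a ^ i * b) * (a ^ i * b) = a ^ i * (b * a ^ i) * b := by group
          _ = a ^ i * (a ^ i * z ^ i * b) * b := by rw [hbpow]
          _ = a ^ i * a ^ i * z ^ i * (b * b) := by group
          _ = a ^ (2 * i) * z ^ i := by rw [hb2, mul_one, ← pow_add, two_mul]
      have hpw : (a ^ i * b) ^ (2 ^ (n - 1)) = z ^ i := by
        have hc : Commute (a ^ (2 * i)) (z ^ i) :=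
          (show Commute a z from haz).pow_pow _ _
        rw [h21, pow_mul, pow_two, hsq, hc.mul_pow, ← pow_mul, ← pow_mul,
          hzpow (i * 2 ^ (n - 2)) (hev2.mul_left i), mul_one]
        have h' : 2 * i * 2 ^ (n - 2) = 2 ^ (n - 1) * i := by rw [h21]; ring
        rw [h', pow_mul, ← hz]
      rw [hpw, hzpow1]
  -- Step 1: a subgroup of index two
  have hex : ∃ G₁ : Subgroup G, G₁.index = 2 := by
    by_contra hno
    push Not at hno
    have hord : ∀ y ∈ (S : Subgroup G), y ∉ M → 2 ^ (n - 1) < orderOf y := by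
      intro y hy hyM
      have h1 : y ^ (2 ^ (n - 1)) ≠ 1 := fun h => hyM ((hpowM y hy).mpr h)
      have h2 : orderOf y ∣ 2 ^ (n + 1) := by
        rw [← hS]
        have := orderOf_dvd_natCard (⟨y, hy⟩ : (S : Subgroup G))
        rwa [Subgroup.orderOf_mk] at this
      obtain ⟨k, hk, hyk⟩ := (Nat.dvd_prime_pow Nat.prime_two).mp h2
      rw [hyk]
      apply Nat.pow_lt_pow_right (by norm_num)
      by_contra hle
      push Not at hle
      apply h1
      have h3 : orderOf y ∣ 2 ^ (n - 1) := by rw [hyk]; exact pow_dvd_pow 2 hle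
      exact orderOf_dvd_iff_pow_eq_one.mp h3
    obtain ⟨g, hg⟩ :=
      Cfsg.Agent.Lib_helper9_TransferTwo.conj_mem_of_no_index_two hno S M hMidx n hord a hao
    have h1 := (hpowM _ (hMS hg)).mp hg
    rw [conj_pow, ← hz] at h1
    apply hz1
    have h2 : z = g⁻¹ * (g * z * g⁻¹) * g := by group
    rw [h2, h1]; group
  obtain ⟨G₁, hG₁⟩ := hex
  haveI hG₁n : G₁.Normal := Subgroup.normal_of_index_eq_two hG₁
  -- Step 2: `A = S ⊓ G₁` is an abelian Sylow 2-subgroup of `G₁`
  obtain ⟨A, hAdef⟩ : ∃ A : Subgroup G, A = (S : Subgroup G) ⊓ G₁ := ⟨_, rfl⟩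
  have hAS' : A ≤ (S : Subgroup G) := by rw [hAdef]; exact inf_le_left
  have hAG₁ : A ≤ G₁ := by rw [hAdef]; exact inf_le_right
  have hrelG₁ : G₁.relIndex (S : Subgroup G) = 2 := by
    have h1 : G₁.relIndex (S : Subgroup G) ∣ 2 := by
      have h0 := Subgroup.relIndex_dvd_index_of_normal G₁ (S : Subgroup G)
      rwa [hG₁] at h0
    rcases (Nat.dvd_prime Nat.prime_two).mp h1 with h | h
    · exfalso
      have hle : (S : Subgroup G) ≤ G₁ := Subgroup.relIndex_eq_one.mp h
      have h2 : G₁.index ∣ (S : Subgroup G).index := Subgroup.index_dvd_of_le hle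
      rw [hG₁] at h2
      exact S.not_dvd_index h2
    · exact h
  have hAcard : Nat.card A = 2 ^ n := by
    have h1 : A.relIndex (S : Subgroup G) = 2 := by
      rw [hAdef, inf_comm, Subgroup.inf_relIndex_right]; exact hrelG₁
    have h2 := card_mul_relIndex_of_le A S hAS'
    rw [h1, hS, pow_succ] at h2
    exact Nat.eq_of_mul_eq_mul_right (by norm_num) h2
  have ho2 : orderOf (a ^ 2) = 2 ^ (n - 1) := by
    have h1 : orderOf (a ^ 2) = 2 ^ (n - 2 + 1) := by
      apply orderOf_eq_prime_pow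
      · rw [← pow_mul, ← h21, ← hz]; exact hz1
      · rw [← pow_mul, ← pow_succ']
        have : n - 2 + 1 + 1 = n := by omega
        rw [this, ← hao, pow_orderOf_eq_one]
    rw [h1]; congr 1; omega
  have ha2b : a ^ 2 * b = b * a ^ 2 := (hcomm_iff 2).mpr even_two
  have hcen : ∀ s ∈ (S : Subgroup G), s * a ^ 2 = a ^ 2 * s := by
    intro s hs
    obtain ⟨i, hi | hi⟩ := hE s hs
    · rw [hi, ← pow_add, ← pow_add, add_comm]
    · rw [hi, mul_assoc, ← ha2b, ← mul_assoc, ← mul_assoc, ← pow_add, ← pow_add, add_comm]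
  have hcen' : ∀ c ∈ zpowers (a ^ 2), ∀ s ∈ (S : Subgroup G), s * c = c * s := by
    intro c hc s hs
    obtain ⟨k, rfl⟩ := Subgroup.mem_zpowers_iff.mp hc
    exact ((show Commute s (a ^ 2) from hcen s hs).zpow_right k).eq
  have hZA : zpowers (a ^ 2) ≤ A := by
    rw [Subgroup.zpowers_le, hAdef]
    exact ⟨pow_mem ha 2, Subgroup.sq_mem_of_index_two hG₁ a⟩
  have hAcomm : ∀ x ∈ A, ∀ y ∈ A, x * y = y * x := by
    intro x hx y hy
    by_cases hxZ : x ∈ zpowers (a ^ 2)
    · exact (hcen' x hxZ y (hAS' hy)).symm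
    · by_cases hyZ : y ∈ zpowers (a ^ 2)
      · exact hcen' y hyZ x (hAS' hx)
      · have hc2 : Nat.card A = 2 * Nat.card (zpowers (a ^ 2)) := by
          rw [hAcard, Nat.card_zpowers, ho2, ← two_mul, ← h21] at *
          exact hpow2.symm ▸ rfl
        have h1 := mul_mem_of_card_two (zpowers (a ^ 2)) A hZA hc2 x hx y hy hxZ hyZ
        have h2 := hcen' (x * y) h1 x (hAS' hx)
        have h3 : x * (x * y) = x * (y * x) := by rw [h2, mul_assoc]
        exact mul_left_cancel h3
  have hcardG : Nat.card G₁ * 2 = Nat.card G := by rw [← hG₁]; exact Subgroup.card_mul_index G₁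
  have hfacG : (Nat.card G).factorization 2 = n + 1 := by
    have h := S.card_eq_multiplicity
    rw [hS] at h
    exact (Nat.pow_right_injective (le_refl 2) h).symm
  have hfac₁ : (Nat.card G₁).factorization 2 = n := by
    have h : (Nat.card G₁ * 2).factorization 2 = (Nat.card G).factorization 2 := by rw [hcardG]
    rw [Nat.factorization_mul (Nat.card_pos.ne') (by norm_num), Finsupp.add_apply,
      Nat.Prime.factorization_self Nat.prime_two, hfacG] at h
    omega
  have hP₁card : Nat.card (A.subgroupOf G₁) = 2 ^ (Nat.card G₁).factorization 2 := by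
    rw [hfac₁, ← hAcard]
    exact Nat.card_congr (Subgroup.subgroupOfEquivOfLe hAG₁).toEquiv
  obtain ⟨P₁, hP₁⟩ : ∃ P₁ : Sylow 2 G₁, (P₁ : Subgroup G₁) = A.subgroupOf G₁ :=
    ⟨Sylow.ofCard (A.subgroupOf G₁) hP₁card, Sylow.coe_ofCard _ _⟩
  have hP₁card' : Nat.card (P₁ : Subgroup G₁) = 2 ^ n := by
    rw [hP₁, hP₁card, hfac₁]
  have hNC : Subgroup.normalizer ((P₁ : Subgroup G₁) : Set G₁) ≤ centralizer (P₁ : Set G₁) := by
    intro g hg
    have hgA : ∀ k : ℕ, ∀ x ∈ A, ((g : G) ^ k) * x * ((g : G) ^ k)⁻¹ ∈ A := by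
      intro k x hx
      have h1 : g ^ k ∈ Subgroup.normalizer ((P₁ : Subgroup G₁) : Set G₁) := pow_mem hg k
      have h2 : (⟨x, hAG₁ hx⟩ : G₁) ∈ (P₁ : Subgroup G₁) := by
        rw [hP₁]; exact Subgroup.mem_subgroupOf.mpr hx
      have h3 := (Subgroup.mem_normalizer_iff.mp h1 ⟨x, hAG₁ hx⟩).mp h2
      rw [hP₁] at h3
      exact Subgroup.mem_subgroupOf.mp h3
    have hord0 : orderOf g ≠ 0 := (orderOf_pos g).ne'
    obtain ⟨k, m, hm, hkm⟩ := Nat.exists_eq_two_pow_mul_odd hord0
    obtain ⟨u, v, huv⟩ := exists_split (g : G) k m hm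
    have hgord : (g : G) ^ (2 ^ k * m) = 1 := by
      rw [← hkm, ← Subgroup.orderOf_coe, pow_orderOf_eq_one]
    have hodd : ∀ x ∈ A, (g : G) ^ (2 ^ k) * x * ((g : G) ^ (2 ^ k))⁻¹ = x :=
      odd_centralizes A hAcomm n hn hAcard (a ^ 2) (hZA (mem_zpowers _)) ho2 _ (hgA (2 ^ k)) m hm
        (by rw [← pow_mul]; exact hgord)
    have h2part : (g : G) ^ m ∈ A := by
      have hp : IsPGroup 2 (zpowers (g ^ m)) := by
        rintro ⟨y, hy⟩
        refine ⟨k, ?_⟩
        obtain ⟨j, rfl⟩ := Subgroup.mem_zpowers_iff.mp hy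
        apply Subtype.ext
        apply Subtype.ext
        show (((g : G) ^ m) ^ j) ^ (2 ^ k) = 1
        rw [← zpow_natCast, ← zpow_mul, mul_comm, zpow_mul, zpow_natCast, ← pow_mul, mul_comm,
          hgord, one_zpow]
      have h1 := hp.inf_normalizer_sylow P₁
      have h2 : g ^ m ∈ zpowers (g ^ m) ⊓ Subgroup.normalizer (P₁ : Set G₁) :=
        ⟨mem_zpowers _, pow_mem hg m⟩
      rw [h1] at h2
      have h3 : g ^ m ∈ (P₁ : Subgroup G₁) := h2.2
      rw [hP₁] at h3
      exact Subgroup.mem_subgroupOf.mp h3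
    rw [Subgroup.mem_centralizer_iff]
    intro x hx
    have hxA : (x : G) ∈ A := by
      have h3 : x ∈ (P₁ : Subgroup G₁) := hx
      rw [hP₁] at h3
      exact Subgroup.mem_subgroupOf.mp h3
    have c1 : Commute (x : G) ((g : G) ^ (2 ^ k)) :=
      (mul_inv_eq_iff_eq_mul.mp (hodd x hxA)).symm
    have c2 : Commute (x : G) ((g : G) ^ m) := hAcomm x hxA _ h2part
    have c3 : Commute (x : G) (((g : G) ^ (2 ^ k)) ^ u * ((g : G) ^ m) ^ v) :=
      (c1.zpow_right u).mul_right (c2.zpow_right v)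
    rw [← huv] at c3
    exact Subtype.ext c3.eq
  have hcompl := MonoidHom.ker_transferSylow_isComplement' P₁ hNC
  obtain ⟨K₁, hK₁⟩ : ∃ K₁ : Subgroup G₁, K₁ = (MonoidHom.transferSylow P₁ hNC).ker := ⟨_, rfl⟩
  rw [← hK₁] at hcompl
  haveI hK₁n : K₁.Normal := by rw [hK₁]; infer_instance
  have hK₁idx : K₁.index = 2 ^ n := by
    rw [hcompl.symm.index_eq_card, hP₁card']
  have hK₁cop : (Nat.card K₁).Coprime 2 := by
    have h1 := P₁.card_coprime_index
    rw [hcompl.index_eq_card, hP₁card'] at h1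
    have h2 : (2 : ℕ) ∣ 2 ^ n := dvd_pow_self 2 (by omega)
    exact (Nat.Coprime.coprime_dvd_left h2 h1).symm
  -- Step 3
  refine ⟨K₁.map G₁.subtype, ?_, ?_, n + 1, ?_⟩
  · constructor
    intro x hx g
    obtain ⟨k, hk, rfl⟩ := Subgroup.mem_map.mp hx
    have hmem : g * (k : G) * g⁻¹ ∈ G₁ := hG₁n.conj_mem _ k.2 g
    refine Subgroup.mem_map.mpr ⟨⟨g * (k : G) * g⁻¹, hmem⟩, ?_, rfl⟩
    apply Cfsg.Agent.Lib_helper1_Frobenius.mem_of_coprime_of_index K₁ hK₁idx
    have h1 : orderOf (⟨g * (k : G) * g⁻¹, hmem⟩ : G₁) = orderOf k := by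
      rw [Subgroup.orderOf_mk, ← Subgroup.orderOf_coe k]
      have : g * (k : G) * g⁻¹ = MulAut.conj g (k : G) := by simp [MulAut.conj_apply]
      rw [this, MulEquiv.orderOf_eq]
    rw [h1]
    have h2 : orderOf k ∣ Nat.card K₁ := by
      have := orderOf_dvd_natCard (⟨k, hk⟩ : K₁)
      rwa [Subgroup.orderOf_mk] at this
    exact Nat.Coprime.coprime_dvd_left h2 hK₁cop
  · rw [← Nat.card_congr
      (Subgroup.equivMapOfInjective K₁ G₁.subtype G₁.subtype_injective).toEquiv]
    exact hK₁cop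
  · rw [Subgroup.index_map_subtype, hK₁idx, hG₁, pow_succ]

theorem modular_result [Finite G] (S : Sylow 2 G) (n : ℕ) (hn : 3 ≤ n)
    (hS : Nat.card ↥(S : Subgroup G) = 2 ^ (n + 1))
    (a b : G) (ha : a ∈ (S : Subgroup G)) (hb : b ∈ (S : Subgroup G))
    (hao : orderOf a = 2 ^ n) (hbo : orderOf b = 2)
    (hrel : b * a * b⁻¹ = a ^ (2 ^ (n - 1) + 1)) :
    Cfsg.HasNormalPComplement 2 G := by
  haveI : Fact (Nat.Prime 2) := ⟨Nat.prime_two⟩
  exact Cfsg.Agent.Lib_helper1_Frobenius.hasNormalPComplement_of_npc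
    (modular_npc S n hn hS a b ha hb hao hbo hrel)

end Cfsg.Agent.Lib_helper9_Modular
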