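import Mathlib
import Cfsg.Prelude.Def_LocalEven
import Cfsg.Agent.Lib_helper6_PCore

set_option autoImplicit false

namespace Cfsg.Agent.Lib_helper9_NStable

open Cfsg.Agent.Lib_helper6_PCore

theorem s3836 {G : Type*} [Group G] [Finite G] {p : ℕ} [Fact p.Prime]
    (hst : Cfsg.IsNormalizerPStable p G) (H : Subgroup G) :
    Cfsg.IsNormalizerPStable p ↥H := by
  intro P' hP' g' hg' hcomm
  have hP : IsPGroup p (P'.map H.subtype) := hP'.map H.subtype
  have hg : (g' : G) ∈ Subgroup.normalizer ((P'.map H.subtype : Subgroup G) : Set G) :=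
    Subgroup.le_normalizer_map H.subtype (Subgroup.mem_map.mpr ⟨g', hg', rfl⟩)
  have hz : Subgroup.zpowers (g' : G) = (Subgroup.zpowers g').map H.subtype := by
    rw [MonoidHom.map_zpowers]; rfl
  have hcomm' : ⁅⁅P'.map H.subtype, Subgroup.zpowers (g' : G)⁆, Subgroup.zpowers (g' : G)⁆ = ⊥ := by
    rw [hz, ← Subgroup.map_commutator, ← Subgroup.map_commutator, hcomm, Subgroup.map_bot]
  have key := hst (P'.map H.subtype) hP (g' : G) hg hcomm'
  -- the comparison homomorphism of normalizers
  have hN : ∀ n : ↥(Subgroup.normalizer (P' : Set ↥H)),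
      ((n : ↥H) : G) ∈ Subgroup.normalizer ((P'.map H.subtype : Subgroup G) : Set G) :=
    fun n => Subgroup.le_normalizer_map H.subtype (Subgroup.mem_map.mpr ⟨n.1, n.2, rfl⟩)
  let φ : ↥(Subgroup.normalizer (P' : Set ↥H)) →*
      ↥(Subgroup.normalizer ((P'.map H.subtype : Subgroup G) : Set G)) :=
    { toFun := fun n => ⟨((n : ↥H) : G), hN n⟩
      map_one' := rfl
      map_mul' := fun _ _ => rfl }
  have hle : (Subgroup.centralizer (P' : Set ↥H)).subgroupOf (Subgroup.normalizer (P' : Set ↥H)) ≤
      ((Subgroup.centralizer ((P'.map H.subtype : Subgroup G) : Set G)).subgroupOf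
        (Subgroup.normalizer ((P'.map H.subtype : Subgroup G) : Set G))).comap φ := by
    intro n hn
    rw [Subgroup.mem_comap, Subgroup.mem_subgroupOf]
    rw [Subgroup.mem_subgroupOf] at hn
    rw [Subgroup.mem_centralizer_iff] at hn ⊢
    rintro _ ⟨q, hq, rfl⟩
    have := hn q hq
    exact congrArg Subtype.val this
  let ψ := QuotientGroup.map _ _ φ hle
  have hψinj : Function.Injective ψ := by
    rw [injective_iff_map_eq_one]
    intro a
    induction a using QuotientGroup.induction_on with
    | H n =>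
      intro h
      have h1 : ψ (QuotientGroup.mk n) = QuotientGroup.mk (φ n) := rfl
      rw [h1, QuotientGroup.eq_one_iff, Subgroup.mem_subgroupOf] at h
      rw [QuotientGroup.eq_one_iff, Subgroup.mem_subgroupOf]
      rw [Subgroup.mem_centralizer_iff] at h ⊢
      intro q hq
      apply Subtype.ext
      exact h (q : G) (Subgroup.mem_map.mpr ⟨q, hq, rfl⟩)
  have hK : (Cfsg.pCore p (↥(Subgroup.normalizer ((P'.map H.subtype : Subgroup G) : Set G)) ⧸
      (Subgroup.centralizer ((P'.map H.subtype : Subgroup G) : Set G)).subgroupOf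
        (Subgroup.normalizer ((P'.map H.subtype : Subgroup G) : Set G)))).comap ψ ≤
      Cfsg.pCore p (↥(Subgroup.normalizer (P' : Set ↥H)) ⧸
        (Subgroup.centralizer (P' : Set ↥H)).subgroupOf (Subgroup.normalizer (P' : Set ↥H))) := by
    apply le_pCore
    · exact Subgroup.Normal.comap inferInstance ψ
    · exact (pCore_isPGroup p).comap_of_injective ψ hψinj
  apply hK
  rw [Subgroup.mem_comap]
  exact key

end Cfsg.Agent.Lib_helper9_NStable
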