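import Mathlib
import Cfsg.Agent.Lib_helper1_Coprime
import Cfsg.Agent.Lib_helper2_DihSyl
import Cfsg.Agent.Lib_helper7_ClassP2

set_option autoImplicit false

namespace Cfsg.Agent.Lib_helper9_OddNorm

open Cfsg.Agent.Lib_helper2_DihSyl Cfsg.Agent.Lib_helper7_ClassP2

universe u

/-- relative chain: inside a subgroup `F`, a subgroup of order `p ^ n` lies in a subgroup of `F`
of order `p ^ m` whenever `n ≤ m` and `p ^ m ∣ |F|`. -/
theorem exists_between {X : Type u} [Group X] [Finite X] (p : ℕ) [Fact p.Prime]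
    (F H : Subgroup X) (hHF : H ≤ F) {n m : ℕ} (hH : Nat.card H = p ^ n) (hnm : n ≤ m)
    (hm : p ^ m ∣ Nat.card F) :
    ∃ K : Subgroup X, H ≤ K ∧ K ≤ F ∧ Nat.card K = p ^ m := by
  have hH' : Nat.card (H.subgroupOf F) = p ^ n := by
    rw [← hH]; exact Nat.card_congr (Subgroup.subgroupOfEquivOfLe hHF).toEquiv
  obtain ⟨K', hK', hle⟩ := Sylow.exists_subgroup_card_pow_prime_le p hm (H.subgroupOf F) hH' hnm
  refine ⟨K'.map F.subtype, ?_, Subgroup.map_subtype_le _, ?_⟩
  · intro h hh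
    exact Subgroup.mem_map.mpr ⟨⟨h, hHF hh⟩, hle (Subgroup.mem_subgroupOf.mpr hh), rfl⟩
  · rw [Subgroup.card_map_of_injective (Subgroup.subtype_injective F)]; exact hK'

/-- a group of odd order normalizing a `2`-group `F` and all its subgroups of index `2`
centralizes `F`. -/
theorem cent_of_index_two {X : Type u} [Group X] [Finite X] (F A : Subgroup X)
    (hF : IsPGroup 2 F) (hA : Odd (Nat.card A)) (hAF : A ≤ Subgroup.normalizer (F : Set X))
    (hM : ∀ M : Subgroup X, M ≤ F → 2 * Nat.card M = Nat.card F →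
      A ≤ Subgroup.normalizer (M : Set X)) :
    F ≤ Subgroup.centralizer (A : Set X) := by
  by_contra hcon
  have hCF : F ⊓ Subgroup.centralizer (A : Set X) ≤ F := inf_le_left
  have hCne : F ⊓ Subgroup.centralizer (A : Set X) ≠ F := by
    intro h
    apply hcon
    rw [← h]
    exact inf_le_right
  obtain ⟨k, hk⟩ := hF.exists_card_eq
  obtain ⟨n, hn⟩ := (hF.to_le hCF).exists_card_eq
  have hnk : n < k := by
    have hlt : Nat.card ↥(F ⊓ Subgroup.centralizer (A : Set X)) < Nat.card F := by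
      by_contra h
      exact hCne (Subgroup.eq_of_le_of_card_ge hCF (not_lt.mp h))
    rw [hn, hk] at hlt
    exact (Nat.pow_lt_pow_iff_right (by norm_num)).mp hlt
  obtain ⟨M, hCM, hMF, hMc⟩ := exists_between 2 F _ hCF hn (Nat.le_sub_one_of_lt hnk)
    (by rw [hk]; exact pow_dvd_pow 2 (Nat.sub_le k 1))
  have h2M : 2 * Nat.card M = Nat.card F := by
    rw [hMc, hk, ← pow_succ']
    congr 1
    omega
  have hAM := hM M hMF h2M
  have hMne : M ≠ F := by
    intro h
    rw [h] at h2M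
    have := Nat.card_pos (α := F)
    omega
  obtain ⟨y, hyF, hyM⟩ : ∃ y ∈ F, y ∉ M := by
    by_contra h
    push Not at h
    exact hMne (le_antisymm hMF h)
  have hidx : (M.subgroupOf F).index = 2 := by
    have h1 := Subgroup.card_mul_index (M.subgroupOf F)
    have h2 : Nat.card (M.subgroupOf F) = Nat.card M :=
      Nat.card_congr (Subgroup.subgroupOfEquivOfLe hMF).toEquiv
    rw [h2, ← h2M] at h1
    have hpos : 0 < Nat.card M := Nat.card_pos
    have h3 : Nat.card M * (M.subgroupOf F).index = Nat.card M * 2 := by rw [h1]; ring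
    exact Nat.eq_of_mul_eq_mul_left hpos h3
  have hfix : ∀ a ∈ A, a * y * a⁻¹ * y⁻¹ ∈ M := by
    intro a ha
    have haF : a * y * a⁻¹ ∈ F := (Subgroup.mem_normalizer_iff.mp (hAF ha) y).mp hyF
    have haM : a * y * a⁻¹ ∉ M := fun h =>
      hyM ((Subgroup.mem_normalizer_iff.mp (hAM ha) y).mpr h)
    have h3 : (⟨a * y * a⁻¹, haF⟩ : F) * (⟨y, hyF⟩ : F)⁻¹ ∈ M.subgroupOf F := by
      rw [Subgroup.mul_mem_iff_of_index_two hidx]
      constructor
      · intro h
        exact absurd (Subgroup.mem_subgroupOf.mp h) haM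
      · intro h
        exact absurd (Subgroup.mem_subgroupOf.mp (inv_mem_iff.mp h)) hyM
    exact Subgroup.mem_subgroupOf.mp h3
  haveI : Group.IsNilpotent ↥M := (hF.to_le hMF).isNilpotent
  have hcop : (Nat.card A).Coprime (Nat.card M) := by
    rw [hMc]
    exact Nat.Coprime.pow_right _ (Nat.coprime_two_right.mpr hA)
  obtain ⟨m, hmM, hmy⟩ := Cfsg.Agent.Lib_helper1_Coprime.fixed_in_coset A M hAM hcop
    (Or.inr inferInstance) y hfix
  have h4 : m * y ∈ F ⊓ Subgroup.centralizer (A : Set X) := ⟨F.mul_mem (hMF hmM) hyF, hmy⟩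
  have h5 : m * y ∈ M := hCM h4
  apply hyM
  have h6 := M.mul_mem (M.inv_mem hmM) h5
  rw [inv_mul_cancel_left] at h6
  exact h6

theorem conj_mem_sup {X : Type u} [Group X] (E M : Subgroup X) (a : X)
    (hE : ∀ d ∈ E, a * d * a⁻¹ ∈ E) (hM : ∀ d ∈ M, a * d * a⁻¹ ∈ M) :
    ∀ d ∈ E ⊔ M, a * d * a⁻¹ ∈ E ⊔ M := by
  intro d hd
  rw [Subgroup.sup_eq_closure] at hd ⊢
  induction hd using Subgroup.closure_induction with
  | mem x hx =>
    rcases hx with hx | hx
    · exact Subgroup.subset_closure (Or.inl (hE x hx))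
    · exact Subgroup.subset_closure (Or.inr (hM x hx))
  | one => simp
  | mul x y _ _ hx hy =>
    have : a * (x * y) * a⁻¹ = (a * x * a⁻¹) * (a * y * a⁻¹) := by group
    rw [this]
    exact mul_mem hx hy
  | inv x _ hx =>
    have : a * x⁻¹ * a⁻¹ = (a * x * a⁻¹)⁻¹ := by group
    rw [this]
    exact inv_mem hx


theorem two_pow_of_pgroup {X : Type u} [Group X] (P : Subgroup X) (hP : IsPGroup 2 P)
    (q : X) (hq : q ∈ P) : ∃ e : ℕ, q ^ (2 ^ e) = 1 := by
  obtain ⟨e, he⟩ := hP ⟨q, hq⟩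
  exact ⟨e, congrArg Subtype.val he⟩

theorem cent_four {X : Type u} [Group X] [Finite X] (P A D : Subgroup X) (hP : IsPGroup 2 P)
    (hA : Odd (Nat.card A)) (hDP : D ≤ P) (hD1 : 1 < Nat.card D)
    (hD2 : Nat.card D < Nat.card P)
    (hinv : ∀ E : Subgroup X, E ≤ P →
      (Nat.card E = Nat.card D ∨ (Nat.card D = 2 ∧ Nat.card E = 4)) →
      A ≤ Subgroup.normalizer (E : Set X))
    (x : X) (hx : x ∈ P) (hx4 : x ^ 4 = 1) (a : X) (ha : a ∈ A) : a * x * a⁻¹ = x := by
  haveI : Fact (Nat.Prime 2) := ⟨Nat.prime_two⟩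
  obtain ⟨k, hk⟩ := hP.exists_card_eq
  obtain ⟨j, hj⟩ := (hP.to_le hDP).exists_card_eq
  have hj1 : 1 ≤ j := by
    rcases Nat.eq_zero_or_pos j with h | h
    · rw [hj, h] at hD1; simp at hD1
    · exact h
  have hjk : j < k := by
    rw [hj, hk] at hD2
    exact (Nat.pow_lt_pow_iff_right (by norm_num)).mp hD2
  have hcop : (orderOf a).Coprime 2 := by
    have h1 : orderOf a ∣ Nat.card A := Subgroup.orderOf_dvd_natCard A ha
    have h2 : (Nat.card A).Coprime 2 := Nat.coprime_two_right.mpr hA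
    exact Nat.Coprime.coprime_dvd_left h1 h2
  have hZP : Subgroup.zpowers x ≤ P := by
    rw [Subgroup.zpowers_le]; exact hx
  have hZc : Nat.card (Subgroup.zpowers x) = orderOf x := Nat.card_zpowers x
  have hox : orderOf x ∣ 2 ^ 2 := orderOf_dvd_of_pow_eq_one (by norm_num; exact hx4)
  obtain ⟨i, hi2, hi⟩ := (Nat.dvd_prime_pow Nat.prime_two).mp hox
  have hnorm : ∀ E : Subgroup X, A ≤ Subgroup.normalizer (E : Set X) →
      ∀ q ∈ E, a * q * a⁻¹ ∈ E := fun E hE q hq =>
    (Subgroup.mem_normalizer_iff.mp (hE ha) q).mp hq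
  by_cases hj' : j = 1
  · -- `|D| = 2`
    have hZn : A ≤ Subgroup.normalizer ((Subgroup.zpowers x : Subgroup X) : Set X) := by
      have hi' : i = 0 ∨ i = 1 ∨ i = 2 := by omega
      rcases hi' with h | h | h
      · have hx1 : x = 1 := by
          rw [← orderOf_eq_one_iff, hi, h, pow_zero]
        rw [hx1, Subgroup.zpowers_one_eq_bot]
        intro b _
        rw [Subgroup.mem_normalizer_iff]
        intro h
        simp [Subgroup.mem_bot]
      · apply hinv _ hZP
        left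
        rw [hZc, hi, h, hj, hj']
      · apply hinv _ hZP
        right
        refine ⟨by rw [hj, hj']; rfl, ?_⟩
        rw [hZc, hi, h]; rfl
    exact centralizes_cyclic (Subgroup.zpowers x)
      (fun q hq => two_pow_of_pgroup P hP q (hZP hq)) (hnorm _ hZn) hcop x
      (Subgroup.mem_zpowers x)
  · have hj2 : 2 ≤ j := by omega
    have hZc' : Nat.card (Subgroup.zpowers x) = 2 ^ i := by rw [hZc, hi]
    obtain ⟨E, hZE, hEP, hEc⟩ := exists_between 2 P _ hZP hZc' (le_trans hi2 hj2)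
      (by rw [hk]; exact pow_dvd_pow 2 hjk.le)
    have hAE : A ≤ Subgroup.normalizer (E : Set X) := hinv E hEP (Or.inl (by rw [hEc, hj]))
    obtain ⟨F, hEF, hFP, hFc⟩ := exists_between 2 P E hEP hEc (Nat.le_succ j)
      (by rw [hk]; exact pow_dvd_pow 2 hjk)
    have hMn : ∀ M : Subgroup X, M ≤ F → 2 * Nat.card M = Nat.card F →
        A ≤ Subgroup.normalizer (M : Set X) := by
      intro M hMF hMc
      apply hinv M (hMF.trans hFP)
      left
      rw [hFc, pow_succ'] at hMc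
      rw [hj]
      omega
    have hEneF : E ≠ F := by
      intro h
      rw [h, hFc] at hEc
      have := (Nat.pow_right_injective (le_refl 2)) hEc
      omega
    obtain ⟨y, hyF, hyE⟩ : ∃ y ∈ F, y ∉ E := by
      by_contra h
      push Not at h
      exact hEneF (le_antisymm hEF h)
    have hYF : Subgroup.zpowers y ≤ F := by
      rw [Subgroup.zpowers_le]; exact hyF
    obtain ⟨l, hl⟩ := ((hP.to_le hFP).to_le hYF).exists_card_eq
    have hxE : x ∈ E := hZE (Subgroup.mem_zpowers x)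
    by_cases hlj : l ≤ j
    · obtain ⟨M₂, hYM, hMF, hMc⟩ := exists_between 2 F _ hYF hl hlj
        (by rw [hFc]; exact pow_dvd_pow 2 (Nat.le_succ j))
      have hAM : A ≤ Subgroup.normalizer (M₂ : Set X) := by
        apply hMn M₂ hMF
        rw [hMc, hFc, pow_succ']
      have hyM : y ∈ M₂ := hYM (Subgroup.mem_zpowers y)
      have hsupF : E ⊔ M₂ ≤ F := sup_le hEF hMF
      have hsup : E ⊔ M₂ = F := by
        obtain ⟨t, ht⟩ := ((hP.to_le hFP).to_le hsupF).exists_card_eq
        have h1 : Nat.card E ∣ Nat.card ↥(E ⊔ M₂) := Subgroup.card_dvd_of_le le_sup_left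
        have h2 : Nat.card ↥(E ⊔ M₂) ∣ Nat.card F := Subgroup.card_dvd_of_le hsupF
        rw [hEc, ht] at h1
        rw [ht, hFc] at h2
        have h1' : j ≤ t := (Nat.pow_dvd_pow_iff_le_right (le_refl 2)).mp h1
        have h2' : t ≤ j + 1 := (Nat.pow_dvd_pow_iff_le_right (le_refl 2)).mp h2
        have htj : t ≠ j := by
          intro h
          have hle : Nat.card ↥(E ⊔ M₂) ≤ Nat.card E := by rw [ht, hEc, h]
          have heq : E = E ⊔ M₂ := Subgroup.eq_of_le_of_card_ge le_sup_left hle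
          apply hyE
          rw [heq]
          exact (le_sup_right : M₂ ≤ E ⊔ M₂) hyM
        have ht' : t = j + 1 := by omega
        exact Subgroup.eq_of_le_of_card_ge hsupF (by rw [ht, hFc, ht'])
      have hAF : A ≤ Subgroup.normalizer (F : Set X) := by
        intro b hb
        have hb' : b⁻¹ ∈ A := A.inv_mem hb
        have hc1 : ∀ d ∈ F, b * d * b⁻¹ ∈ F := by
          intro d hd
          rw [← hsup] at hd ⊢
          exact conj_mem_sup E M₂ b
            (fun q hq => (Subgroup.mem_normalizer_iff.mp (hAE hb) q).mp hq)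
            (fun q hq => (Subgroup.mem_normalizer_iff.mp (hAM hb) q).mp hq) d hd
        have hc2 : ∀ d ∈ F, b⁻¹ * d * b⁻¹⁻¹ ∈ F := by
          intro d hd
          rw [← hsup] at hd ⊢
          exact conj_mem_sup E M₂ b⁻¹
            (fun q hq => (Subgroup.mem_normalizer_iff.mp (hAE hb') q).mp hq)
            (fun q hq => (Subgroup.mem_normalizer_iff.mp (hAM hb') q).mp hq) d hd
        rw [Subgroup.mem_normalizer_iff]
        intro d
        refine ⟨hc1 d, fun hd => ?_⟩
        have := hc2 _ hd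
        have he : b⁻¹ * (b * d * b⁻¹) * b⁻¹⁻¹ = d := by group
        rw [he] at this
        exact this
      have hcent := cent_of_index_two F A (hP.to_le hFP) hA hAF hMn
      have hxc : x ∈ Subgroup.centralizer (A : Set X) := hcent (hEF hxE)
      have h1 := Subgroup.mem_centralizer_iff.mp hxc a ha
      rw [h1]; group
    · -- `F` is cyclic
      have hl' : Nat.card (Subgroup.zpowers y) = Nat.card F := by
        have h2 : Nat.card ↥(Subgroup.zpowers y) ∣ Nat.card F := Subgroup.card_dvd_of_le hYF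
        rw [hl, hFc] at h2
        have h2' : l ≤ j + 1 := (Nat.pow_dvd_pow_iff_le_right (le_refl 2)).mp h2
        rw [hl, hFc]
        congr 1
        omega
      have hYeq : Subgroup.zpowers y = F := Subgroup.eq_of_le_of_card_ge hYF hl'.ge
      haveI : IsCyclic ↥E := Subgroup.isCyclic_of_le (H' := Subgroup.zpowers y)
        (by rw [hYeq]; exact hEF)
      exact centralizes_cyclic E (fun q hq => two_pow_of_pgroup P hP q (hEP hq))
        (hnorm _ hAE) hcop x hxE

/-- `2`-elements of `P ⊔ ⟨a⟩`, for `a` of odd order normalizing the `2`-group `P`, lie in `P`. -/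
theorem two_elt_mem {X : Type u} [Group X] [Finite X] (P : Subgroup X) (a : X)
    (haP : a ∈ Subgroup.normalizer (P : Set X)) (ha : (orderOf a).Coprime 2)
    (h : X) (hh : h ∈ P ⊔ Subgroup.zpowers a) (e : ℕ) (hhe : h ^ 2 ^ e = 1) : h ∈ P := by
  have hconj : ∀ (i : ℤ) (x : X), x ∈ P → a ^ i * x * (a ^ i)⁻¹ ∈ P := by
    intro i x hx
    have : a ^ i ∈ Subgroup.normalizer (P : Set X) := zpow_mem haP i
    exact (Subgroup.mem_normalizer_iff.mp this x).mp hx
  have hform : ∀ h ∈ P ⊔ Subgroup.zpowers a, ∃ x ∈ P, ∃ i : ℤ, h = x * a ^ i := by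
    intro h hh
    rw [Subgroup.sup_eq_closure] at hh
    induction hh using Subgroup.closure_induction with
    | mem z hz =>
      rcases hz with hz | hz
      · exact ⟨z, hz, 0, by simp⟩
      · obtain ⟨i, hi⟩ := Subgroup.mem_zpowers_iff.mp hz
        exact ⟨1, P.one_mem, i, by simp [hi]⟩
    | one => exact ⟨1, P.one_mem, 0, by simp⟩
    | mul z w _ _ hz hw =>
      obtain ⟨x, hx, i, rfl⟩ := hz
      obtain ⟨y, hy, j, rfl⟩ := hw
      refine ⟨x * (a ^ i * y * (a ^ i)⁻¹), P.mul_mem hx (hconj i y hy), i + j, ?_⟩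
      rw [zpow_add]; group
    | inv z _ hz =>
      obtain ⟨x, hx, i, rfl⟩ := hz
      refine ⟨a ^ (-i) * x⁻¹ * (a ^ (-i))⁻¹, hconj (-i) _ (P.inv_mem hx), -i, ?_⟩
      group
  obtain ⟨x, hx, i, rfl⟩ := hform h hh
  have hpow : ∀ m : ℕ, ∃ z ∈ P, (x * a ^ i) ^ m = z * a ^ (i * (m : ℤ)) := by
    intro m
    induction m with
    | zero => exact ⟨1, P.one_mem, by simp⟩
    | succ m ih =>
      obtain ⟨z, hz, hzm⟩ := ih
      refine ⟨z * (a ^ (i * (m : ℤ)) * x * (a ^ (i * (m : ℤ)))⁻¹),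
        P.mul_mem hz (hconj _ x hx), ?_⟩
      rw [pow_succ, hzm]
      have : i * ((m + 1 : ℕ) : ℤ) = i * (m : ℤ) + i := by push_cast; ring
      rw [this, zpow_add]; group
  obtain ⟨z, hz, hzn⟩ := hpow (orderOf a)
  have h1 : a ^ (i * ((orderOf a : ℕ) : ℤ)) = 1 := by
    rw [mul_comm, zpow_mul, zpow_natCast, pow_orderOf_eq_one, one_zpow]
  rw [h1, mul_one] at hzn
  have ho : orderOf (x * a ^ i) ∣ 2 ^ e := orderOf_dvd_of_pow_eq_one hhe
  have hcop : (orderOf a).Coprime (orderOf (x * a ^ i)) :=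
    Nat.Coprime.coprime_dvd_right ho (Nat.Coprime.pow_right e ha)
  obtain ⟨m, hm⟩ := exists_pow_eq_self_of_coprime hcop
  rw [← hm, hzn]
  exact P.pow_mem hz m

theorem s3803 {X : Type u} [Group X] [Finite X] (P A D : Subgroup X) (hP : IsPGroup 2 P)
    (hA : Odd (Nat.card A)) (hAP : A ≤ Subgroup.normalizer (P : Set X)) (hDP : D ≤ P)
    (hD1 : 1 < Nat.card D) (hD2 : Nat.card D < Nat.card P)
    (hinv : ∀ E : Subgroup X, E ≤ P →
      (Nat.card E = Nat.card D ∨ (Nat.card D = 2 ∧ Nat.card E = 4)) →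
      A ≤ Subgroup.normalizer (E : Set X)) :
    A ≤ Subgroup.centralizer (P : Set X) := by
  haveI : Fact (Nat.Prime 2) := ⟨Nat.prime_two⟩
  intro a ha
  have hcop : (orderOf a).Coprime 2 := by
    have h1 : orderOf a ∣ Nat.card A := Subgroup.orderOf_dvd_natCard A ha
    have h2 : (Nat.card A).Coprime 2 := Nat.coprime_two_right.mpr hA
    exact Nat.Coprime.coprime_dvd_left h1 h2
  have haH : a ∈ P ⊔ Subgroup.zpowers a :=
    (le_sup_right : Subgroup.zpowers a ≤ P ⊔ Subgroup.zpowers a) (Subgroup.mem_zpowers a)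
  have hPH : P ≤ P ⊔ Subgroup.zpowers a := le_sup_left
  have hcop' : (orderOf (⟨a, haH⟩ : ↥(P ⊔ Subgroup.zpowers a))).Coprime 2 := by
    rw [Subgroup.orderOf_mk]; exact hcop
  have hyp : ∀ Q : Subgroup ↥(P ⊔ Subgroup.zpowers a), IsPGroup 2 Q →
      (⟨a, haH⟩ : ↥(P ⊔ Subgroup.zpowers a)) ∈ Subgroup.normalizer (Q : Set _) →
      (∀ y ∈ Q, y ^ 4 = 1) →
      (⟨a, haH⟩ : ↥(P ⊔ Subgroup.zpowers a)) ∈ Subgroup.centralizer (Q : Set _) := by
    intro Q hQ _ h4
    rw [Subgroup.mem_centralizer_iff]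
    intro y hy
    obtain ⟨e, he⟩ := hQ ⟨y, hy⟩
    have he' : (y : X) ^ 2 ^ e = 1 := by
      have := congrArg Subtype.val he
      simpa using congrArg Subtype.val this
    have hyP : (y : X) ∈ P := two_elt_mem P a (hAP ha) hcop y.1 y.2 e he'
    have hy4 : (y : X) ^ 4 = 1 := by
      have := congrArg Subtype.val (h4 y hy)
      simpa using this
    have hc := cent_four P A D hP hA hDP hD1 hD2 hinv y.1 hyP hy4 a ha
    apply Subtype.ext
    show (y : X) * a = a * (y : X)
    nth_rewrite 1 [← hc]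
    group
  have hnorm : (⟨a, haH⟩ : ↥(P ⊔ Subgroup.zpowers a)) ∈
      Subgroup.normalizer ((P.subgroupOf (P ⊔ Subgroup.zpowers a) : Subgroup _) : Set _) := by
    rw [Subgroup.mem_normalizer_iff]
    intro h
    rw [Subgroup.mem_subgroupOf, Subgroup.mem_subgroupOf]
    exact Subgroup.mem_normalizer_iff.mp (hAP ha) h.1
  have key := gen_omega (G := ↥(P ⊔ Subgroup.zpowers a)) 2 4 (Or.inr ⟨rfl, rfl⟩)
    (⟨a, haH⟩ : ↥(P ⊔ Subgroup.zpowers a)) hcop' hyp
    (Nat.card (P.subgroupOf (P ⊔ Subgroup.zpowers a)))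
    (P.subgroupOf (P ⊔ Subgroup.zpowers a)) rfl (hP.comap_subtype) hnorm
  rw [Subgroup.mem_centralizer_iff]
  intro x hx
  have h1 := Subgroup.mem_centralizer_iff.mp key ⟨x, hPH hx⟩ (Subgroup.mem_subgroupOf.mpr hx)
  exact congrArg Subtype.val h1

end Cfsg.Agent.Lib_helper9_OddNorm
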