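import Mathlib
import Cfsg.Prelude.Def_RootSubgroups

set_option autoImplicit false

namespace Cfsg.Agent.Lib_helper9_RankOne

open Cfsg

variable {G : Type*} [Group G]

theorem mem_conjBy {A : Subgroup G} {g x : G} : x ∈ conjBy A g ↔ g⁻¹ * x * g ∈ A := by
  unfold conjBy
  constructor
  · rintro ⟨y, hy, rfl⟩
    simpa [mul_assoc] using hy
  · intro h
    exact ⟨g⁻¹ * x * g, h, by simp [mul_assoc]⟩

theorem conjBy_one (A : Subgroup G) : conjBy A 1 = A := by
  ext x; simp

theorem conjBy_conjBy (A : Subgroup G) (g h : G) : conjBy (conjBy A g) h = conjBy A (h * g) := by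
  ext x; simp [mul_assoc]

theorem conjBy_of_mem {A : Subgroup G} {g : G} (hg : g ∈ A) : conjBy A g = A := by
  ext x
  rw [mem_conjBy]
  constructor
  · intro h
    have := A.mul_mem (A.mul_mem hg h) (A.inv_mem hg)
    simpa [mul_assoc] using this
  · intro h
    exact A.mul_mem (A.mul_mem (A.inv_mem hg) h) hg

theorem conjBy_eq_iff {A B : Subgroup G} {g : G} : conjBy A g = B ↔ A = conjBy B g⁻¹ := by
  constructor
  · rintro rfl; rw [conjBy_conjBy]; simp [conjBy_one]
  · rintro rfl; rw [conjBy_conjBy]; simp [conjBy_one]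

theorem mem_normalizer_iff_conjBy {A : Subgroup G} {g : G} :
    g ∈ Subgroup.normalizer (A : Set G) ↔ conjBy A g = A := by
  rw [Subgroup.mem_normalizer_iff_map_conj_eq]
  rfl

theorem conjBy_mono {A B : Subgroup G} (h : A ≤ B) (g : G) : conjBy A g ≤ conjBy B g :=
  Subgroup.map_mono h

theorem conjBy_le_of_mem {A X : Subgroup G} {g : G} (hA : A ≤ X) (hg : g ∈ X) : conjBy A g ≤ X := by
  intro x hx
  rw [mem_conjBy] at hx
  have := X.mul_mem (X.mul_mem hg (hA hx)) (X.inv_mem hg)
  simpa [mul_assoc] using this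

theorem conjBy_injective (g : G) {A B : Subgroup G} (h : conjBy A g = conjBy B g) : A = B := by
  have := congrArg (fun C => conjBy C g⁻¹) h
  simpa [conjBy_conjBy, conjBy_one] using this

/-- In a rank one pair no non-identity element of `B` normalizes `A`. -/
theorem inf_normalizer_right {A B : Subgroup G} (h : IsRankOnePair A B) :
    B ⊓ Subgroup.normalizer (A : Set G) = ⊥ := by
  rw [eq_bot_iff]
  rintro b ⟨hbB, hbN⟩
  rw [Subgroup.mem_bot]
  by_contra hb1
  obtain ⟨a, haA, -, hab⟩ := h.cond_right b hbB hb1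
  have hbN' : b⁻¹ ∈ Subgroup.normalizer (A : Set G) := Subgroup.inv_mem _ hbN
  rw [mem_normalizer_iff_conjBy.mp hbN', conjBy_eq_iff, inv_inv, conjBy_of_mem haA] at hab
  exact h.ne hab.symm

theorem inf_normalizer_left {A B : Subgroup G} (h : IsRankOnePair A B) :
    A ⊓ Subgroup.normalizer (B : Set G) = ⊥ :=
  inf_normalizer_right (RankOnePair_symm h)

theorem partner_unique_right {A B : Subgroup G} (h : IsRankOnePair A B) {a b b' : G}
    (hb : b ∈ B) (hb' : b' ∈ B)
    (h1 : conjBy A b⁻¹ = conjBy B a⁻¹) (h2 : conjBy A b'⁻¹ = conjBy B a⁻¹) : b' = b := by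
  have h3 : conjBy A (b' * b⁻¹) = A := by
    rw [← conjBy_conjBy, h1, ← h2, conjBy_conjBy]; simp [conjBy_one]
  have h4 : b' * b⁻¹ ∈ B ⊓ Subgroup.normalizer (A : Set G) :=
    ⟨B.mul_mem hb' (B.inv_mem hb), mem_normalizer_iff_conjBy.mpr h3⟩
  rw [inf_normalizer_right h, Subgroup.mem_bot] at h4
  exact mul_inv_eq_one.mp h4

theorem partner_unique_left {A B : Subgroup G} (h : IsRankOnePair A B) {a a' b : G}
    (ha : a ∈ A) (ha' : a' ∈ A)
    (h1 : conjBy A b⁻¹ = conjBy B a⁻¹) (h2 : conjBy A b⁻¹ = conjBy B a'⁻¹) : a' = a :=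
  partner_unique_right (RankOnePair_symm h) ha ha' h1.symm h2.symm


theorem ne_bot_left {A B : Subgroup G} (h : IsRankOnePair A B) : A ≠ ⊥ := by
  intro hA
  have hB : B ≠ ⊥ := fun hB => h.ne (hA.trans hB.symm)
  rw [Ne, Subgroup.eq_bot_iff_forall] at hB
  push Not at hB
  obtain ⟨b, hbB, hb1⟩ := hB
  obtain ⟨a, haA, ha1, -⟩ := h.cond_right b hbB hb1
  rw [hA, Subgroup.mem_bot] at haA
  exact ha1 haA

theorem exists_ne_one_left {A B : Subgroup G} (h : IsRankOnePair A B) : ∃ a ∈ A, a ≠ 1 := by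
  have hA := ne_bot_left h
  rw [Ne, Subgroup.eq_bot_iff_forall] at hA
  push Not at hA
  exact hA

/-- `B` is a conjugate of `A` under `A ⊔ B`. -/
theorem right_eq_conjBy {A B : Subgroup G} (h : IsRankOnePair A B) : ∃ x ∈ A ⊔ B, B = conjBy A x := by
  obtain ⟨a, haA, ha1⟩ := exists_ne_one_left h
  obtain ⟨b, hbB, -, hab⟩ := h.cond_left a haA ha1
  refine ⟨a * b⁻¹, Subgroup.mul_mem _ (Subgroup.mem_sup_left haA)
    (Subgroup.inv_mem _ (Subgroup.mem_sup_right hbB)), ?_⟩
  have := conjBy_eq_iff.mp hab.symm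
  rw [this, conjBy_conjBy, inv_inv]

/-- The set `{A} ∪ {a B a⁻¹ : a ∈ A}`. -/
def Delta (A B : Subgroup G) : Set (Subgroup G) := {C | C = A ∨ ∃ a ∈ A, C = conjBy B a}

theorem delta_conj_left {A B : Subgroup G} {C : Subgroup G} (hC : C ∈ Delta A B) {x : G}
    (hx : x ∈ A) : conjBy C x ∈ Delta A B := by
  rcases hC with rfl | ⟨a, ha, rfl⟩
  · left; exact conjBy_of_mem hx
  · right; exact ⟨x * a, A.mul_mem hx ha, conjBy_conjBy _ _ _⟩

theorem delta_conj_left_right {A B : Subgroup G} (h : IsRankOnePair A B) {b : G} (hb : b ∈ B) :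
    conjBy A b ∈ Delta A B := by
  by_cases hb1 : b = 1
  · subst hb1; left; exact conjBy_one A
  · have hb1' : b⁻¹ ≠ 1 := by simpa using hb1
    obtain ⟨a', ha', -, hab⟩ := h.cond_right b⁻¹ (B.inv_mem hb) hb1'
    rw [inv_inv] at hab
    right; exact ⟨a'⁻¹, A.inv_mem ha', hab.symm⟩

theorem delta_conj_right {A B : Subgroup G} (h : IsRankOnePair A B) {C : Subgroup G}
    (hC : C ∈ Delta A B) {x : G} (hx : x ∈ B) : conjBy C x ∈ Delta A B := by
  rcases hC with rfl | ⟨a, ha, rfl⟩
  · exact delta_conj_left_right h hx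
  · by_cases ha1 : a = 1
    · subst ha1
      rw [conjBy_one, conjBy_of_mem hx]
      right; exact ⟨1, A.one_mem, (conjBy_one B).symm⟩
    · have ha1' : a⁻¹ ≠ 1 := by simpa using ha1
      obtain ⟨b₀, hb₀, -, hab⟩ := h.cond_left a⁻¹ (A.inv_mem ha) ha1'
      rw [inv_inv] at hab
      rw [← hab, conjBy_conjBy]
      exact delta_conj_left_right h (B.mul_mem hx (B.inv_mem hb₀))

theorem delta_conj {A B : Subgroup G} (h : IsRankOnePair A B) {x : G} (hx : x ∈ A ⊔ B) :
    ∀ C ∈ Delta A B, conjBy C x ∈ Delta A B := by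
  have hsup : A ⊔ B = Subgroup.closure ((A : Set G) ∪ B) := by
    rw [Subgroup.closure_union, Subgroup.closure_eq, Subgroup.closure_eq]
  rw [hsup] at hx
  have key : (∀ C ∈ Delta A B, conjBy C x ∈ Delta A B) ∧
      (∀ C ∈ Delta A B, conjBy C x⁻¹ ∈ Delta A B) := by
    induction hx using Subgroup.closure_induction with
    | mem y hy =>
      rcases hy with hy | hy
      · exact ⟨fun C hC => delta_conj_left hC hy, fun C hC => delta_conj_left hC (A.inv_mem hy)⟩
      · exact ⟨fun C hC => delta_conj_right h hC hy, fun C hC => delta_conj_right h hC (B.inv_mem hy)⟩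
    | one =>
      refine ⟨fun C hC => ?_, fun C hC => ?_⟩
      · rw [conjBy_one]; exact hC
      · rw [inv_one, conjBy_one]; exact hC
    | mul y z _ _ ihy ihz =>
      refine ⟨fun C hC => ?_, fun C hC => ?_⟩
      · rw [← conjBy_conjBy]; exact ihy.1 _ (ihz.1 _ hC)
      · rw [mul_inv_rev, ← conjBy_conjBy]; exact ihz.2 _ (ihy.2 _ hC)
    | inv y _ ih =>
      refine ⟨ih.2, fun C hC => ?_⟩
      rw [inv_inv]; exact ih.1 C hC
  exact key.1

theorem unipotent_cases {A B : Subgroup G} (h : IsRankOnePair A B) {C : Subgroup G}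
    (hC : C ∈ unipotentSubgroups A B) : C = A ∨ ∃ a ∈ A, C = conjBy B a := by
  obtain ⟨x, hx, rfl⟩ := hC
  exact delta_conj h hx A (Or.inl rfl)

theorem left_mem_unipotent (A B : Subgroup G) : A ∈ unipotentSubgroups A B :=
  ⟨1, Subgroup.one_mem _, (conjBy_one A).symm⟩

theorem right_mem_unipotent {A B : Subgroup G} (h : IsRankOnePair A B) :
    B ∈ unipotentSubgroups A B := right_eq_conjBy h

theorem conjBy_mem_unipotent {A B C : Subgroup G} (hC : C ∈ unipotentSubgroups A B) {x : G}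
    (hx : x ∈ A ⊔ B) : conjBy C x ∈ unipotentSubgroups A B := by
  obtain ⟨u, hu, rfl⟩ := hC
  exact ⟨x * u, Subgroup.mul_mem _ hx hu, conjBy_conjBy _ _ _⟩

/-- Any two different unipotent subgroups can be moved to `(A, B)`. -/
theorem exists_conj_to_pair {A B : Subgroup G} (h : IsRankOnePair A B) {C₁ C₂ : Subgroup G}
    (h1 : C₁ ∈ unipotentSubgroups A B) (h2 : C₂ ∈ unipotentSubgroups A B) (hne : C₁ ≠ C₂) :
    ∃ x ∈ A ⊔ B, conjBy C₁ x = A ∧ conjBy C₂ x = B := by
  obtain ⟨u, hu, rfl⟩ := h1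
  have hu' : u⁻¹ ∈ A ⊔ B := Subgroup.inv_mem _ hu
  have h3 : conjBy C₂ u⁻¹ ∈ unipotentSubgroups A B := conjBy_mem_unipotent h2 hu'
  have h4 : conjBy C₂ u⁻¹ ≠ A := by
    intro h5
    rw [conjBy_eq_iff, inv_inv] at h5
    exact hne h5.symm
  rcases unipotent_cases h h3 with h5 | ⟨a, ha, h5⟩
  · exact absurd h5 h4
  · refine ⟨a⁻¹ * u⁻¹, Subgroup.mul_mem _ (Subgroup.mem_sup_left (A.inv_mem ha)) hu', ?_, ?_⟩
    · rw [conjBy_conjBy]
      have : a⁻¹ * u⁻¹ * u = a⁻¹ := by group
      rw [this]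
      exact conjBy_of_mem (A.inv_mem ha)
    · rw [← conjBy_conjBy, h5, conjBy_conjBy]
      simp [conjBy_one]


theorem ne_bot_right {A B : Subgroup G} (h : IsRankOnePair A B) : B ≠ ⊥ :=
  ne_bot_left (RankOnePair_symm h)

/-- The ambient group of a rank one pair is not abelian. -/
theorem center_ne_top {A B : Subgroup G} (h : IsRankOnePair A B) : Subgroup.center G ≠ ⊤ := by
  intro hZ
  apply ne_bot_right h
  rw [← inf_normalizer_right h]
  refine (inf_eq_left.mpr ?_).symm
  intro b hb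
  rw [mem_normalizer_iff_conjBy]
  ext x
  rw [mem_conjBy]
  have hbZ : b ∈ Subgroup.center G := by rw [hZ]; trivial
  rw [Subgroup.mem_center_iff] at hbZ
  rw [mul_assoc, hbZ x, inv_mul_cancel_left]

theorem sup_eq_top_of_moves_left {A B : Subgroup G} (hAB : A ⊔ B = ⊤) (h : IsRankOnePair A B)
    (N : Subgroup G) {n : G} (hn : n ∈ N) (hmove : conjBy A n ≠ A) : N ⊔ A = ⊤ := by
  have h1 : conjBy A n ∈ unipotentSubgroups A B :=
    ⟨n, by rw [hAB]; trivial, rfl⟩
  rcases unipotent_cases h h1 with h2 | ⟨a, ha, h2⟩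
  · exact absurd h2 hmove
  · have h3 : B = conjBy A (a⁻¹ * n) := by
      have := conjBy_eq_iff.mp h2.symm
      rw [this, conjBy_conjBy]
    have h4 : B ≤ N ⊔ A := by
      rw [h3]
      exact conjBy_le_of_mem le_sup_right
        (Subgroup.mul_mem _ (Subgroup.mem_sup_right (A.inv_mem ha)) (Subgroup.mem_sup_left hn))
    rw [eq_top_iff, ← hAB]
    exact sup_le le_sup_right h4

theorem normal_dichotomy {A B : Subgroup G} (hAB : A ⊔ B = ⊤) (h : IsRankOnePair A B)
    (N : Subgroup G) (hN : N.Normal) : N ⊔ A = ⊤ ∨ N ≤ Subgroup.center G := by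
  by_cases hNA : N ≤ Subgroup.normalizer (A : Set G)
  · by_cases hNB : N ≤ Subgroup.normalizer (B : Set G)
    · right
      intro n hn
      have comm_aux : ∀ (C D : Subgroup G), N ≤ Subgroup.normalizer (C : Set G) →
          N ≤ Subgroup.normalizer (D : Set G) → C ⊓ Subgroup.normalizer (D : Set G) = ⊥ →
          ∀ c ∈ C, n * c = c * n := by
        intro C D hC hD hCD c hc
        have h1 : n * c * n⁻¹ * c⁻¹ ∈ C ⊓ Subgroup.normalizer (D : Set G) := by
          refine ⟨?_, hD ?_⟩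
          · have := (Subgroup.mem_normalizer_iff.mp (hC hn) c).mp hc
            exact C.mul_mem this (C.inv_mem hc)
          · have h2 : c * n⁻¹ * c⁻¹ ∈ N := hN.conj_mem _ (N.inv_mem hn) c
            have h3 := N.mul_mem hn h2
            have h4 : n * (c * n⁻¹ * c⁻¹) = n * c * n⁻¹ * c⁻¹ := by group
            rw [h4] at h3
            exact h3
        rw [hCD, Subgroup.mem_bot] at h1
        calc n * c = (n * c * n⁻¹ * c⁻¹) * (c * n) := by group
          _ = c * n := by rw [h1, one_mul]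
      have hcA := comm_aux A B hNA hNB (inf_normalizer_left h)
      have hcB := comm_aux B A hNB hNA (inf_normalizer_right h)
      rw [Subgroup.mem_center_iff]
      intro g
      have hle : A ⊔ B ≤ Subgroup.centralizer ({n} : Set G) := by
        rw [sup_le_iff]
        constructor
        · intro a ha
          rw [Subgroup.mem_centralizer_iff]
          intro m hm
          rw [Set.mem_singleton_iff] at hm
          subst hm
          exact hcA a ha
        · intro b hb
          rw [Subgroup.mem_centralizer_iff]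
          intro m hm
          rw [Set.mem_singleton_iff] at hm
          subst hm
          exact hcB b hb
      have hg : g ∈ Subgroup.centralizer ({n} : Set G) := hle (by rw [hAB]; trivial)
      rw [Subgroup.mem_centralizer_iff] at hg
      exact (hg n rfl).symm
    · left
      obtain ⟨n, hn, hnB⟩ := SetLike.not_le_iff_exists.mp hNB
      rw [mem_normalizer_iff_conjBy] at hnB
      obtain ⟨x₀, -, hx₀⟩ := right_eq_conjBy h
      have hn' : x₀⁻¹ * n * x₀ ∈ N := by
        have := hN.conj_mem n hn x₀⁻¹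
        rwa [inv_inv] at this
      refine sup_eq_top_of_moves_left hAB h N hn' ?_
      intro h5
      apply hnB
      have h6 : conjBy A (x₀⁻¹ * n * x₀) = conjBy (conjBy (conjBy A x₀) n) x₀⁻¹ := by
        rw [conjBy_conjBy, conjBy_conjBy, mul_assoc]
      rw [h6, ← hx₀, conjBy_eq_iff, inv_inv, ← hx₀] at h5
      exact h5
  · left
    obtain ⟨n, hn, hnA⟩ := SetLike.not_le_iff_exists.mp hNA
    rw [mem_normalizer_iff_conjBy] at hnA
    exact sup_eq_top_of_moves_left hAB h N hn hnA

end Cfsg.Agent.Lib_helper9_RankOne
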