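import Mathlib
import Cfsg.Prelude.Def_RootSubgroups
import Cfsg.Agent.Lib_helper9_RankOne

set_option autoImplicit false

namespace Cfsg.Agent.Lib_helper9_SL2Rank

open Cfsg Matrix
open Cfsg.Agent.Lib_helper9_RankOne

variable {k : Type*} [Field k]

/-- upper unitriangular -/
def U (s : k) : Matrix.SpecialLinearGroup (Fin 2) k :=
  ⟨!![1, s; 0, 1], by simp [Matrix.det_fin_two]⟩

/-- lower unitriangular -/
def L (c : k) : Matrix.SpecialLinearGroup (Fin 2) k :=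
  ⟨!![1, 0; c, 1], by simp [Matrix.det_fin_two]⟩

theorem coe_U (s : k) : ((U s : Matrix.SpecialLinearGroup (Fin 2) k) : Matrix (Fin 2) (Fin 2) k) =
    !![1, s; 0, 1] := rfl

theorem coe_L (s : k) : ((L s : Matrix.SpecialLinearGroup (Fin 2) k) : Matrix (Fin 2) (Fin 2) k) =
    !![1, 0; s, 1] := rfl

theorem sl_ext {g h : Matrix.SpecialLinearGroup (Fin 2) k}
    (h00 : (g : Matrix (Fin 2) (Fin 2) k) 0 0 = (h : Matrix (Fin 2) (Fin 2) k) 0 0)
    (h01 : (g : Matrix (Fin 2) (Fin 2) k) 0 1 = (h : Matrix (Fin 2) (Fin 2) k) 0 1)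
    (h10 : (g : Matrix (Fin 2) (Fin 2) k) 1 0 = (h : Matrix (Fin 2) (Fin 2) k) 1 0)
    (h11 : (g : Matrix (Fin 2) (Fin 2) k) 1 1 = (h : Matrix (Fin 2) (Fin 2) k) 1 1) : g = h := by
  apply Subtype.ext
  ext i j
  fin_cases i <;> fin_cases j
  · exact h00
  · exact h01
  · exact h10
  · exact h11

theorem U_mul (s t : k) : U s * U t = U (s + t) := by
  apply sl_ext <;> simp [Matrix.SpecialLinearGroup.coe_mul, coe_U, coe_L, Matrix.mul_apply, Fin.sum_univ_two]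
  ring

theorem L_mul (s t : k) : L s * L t = L (s + t) := by
  apply sl_ext <;> simp [Matrix.SpecialLinearGroup.coe_mul, coe_U, coe_L, Matrix.mul_apply, Fin.sum_univ_two]

theorem U_zero : U (0 : k) = 1 := by
  apply sl_ext <;> simp [coe_U]

theorem L_zero : L (0 : k) = 1 := by
  apply sl_ext <;> simp [coe_L]

theorem U_inv (s : k) : (U s)⁻¹ = U (-s) := by
  rw [inv_eq_iff_mul_eq_one, U_mul, add_neg_cancel, U_zero]

theorem L_inv (s : k) : (L s)⁻¹ = L (-s) := by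
  rw [inv_eq_iff_mul_eq_one, L_mul, add_neg_cancel, L_zero]

theorem U_inj {s t : k} (h : U s = U t) : s = t := by
  have := congrArg (fun g : Matrix.SpecialLinearGroup (Fin 2) k => (g : Matrix (Fin 2) (Fin 2) k) 0 1) h
  simpa [coe_U] using this

theorem L_inj {s t : k} (h : L s = L t) : s = t := by
  have := congrArg (fun g : Matrix.SpecialLinearGroup (Fin 2) k => (g : Matrix (Fin 2) (Fin 2) k) 1 0) h
  simpa [coe_L] using this

theorem mem_upper {g : Matrix.SpecialLinearGroup (Fin 2) k} :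
    g ∈ upperUnipotentSL2 k ↔ ∃ s : k, g = U s := by
  constructor
  · intro hg
    unfold upperUnipotentSL2 at hg
    induction hg using Subgroup.closure_induction with
    | mem x hx =>
      obtain ⟨h1, h2, h3⟩ := hx
      refine ⟨(x : Matrix (Fin 2) (Fin 2) k) 0 1, ?_⟩
      apply sl_ext <;> simp [coe_U, h1, h2, h3]
    | one => exact ⟨0, U_zero.symm⟩
    | mul x y _ _ hx hy =>
      obtain ⟨s, rfl⟩ := hx
      obtain ⟨t, rfl⟩ := hy
      exact ⟨s + t, U_mul s t⟩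
    | inv x _ hx =>
      obtain ⟨s, rfl⟩ := hx
      exact ⟨-s, U_inv s⟩
  · rintro ⟨s, rfl⟩
    apply Subgroup.subset_closure
    simp [coe_U]

theorem mem_lower {g : Matrix.SpecialLinearGroup (Fin 2) k} :
    g ∈ lowerUnipotentSL2 k ↔ ∃ s : k, g = L s := by
  constructor
  · intro hg
    unfold lowerUnipotentSL2 at hg
    induction hg using Subgroup.closure_induction with
    | mem x hx =>
      obtain ⟨h1, h2, h3⟩ := hx
      refine ⟨(x : Matrix (Fin 2) (Fin 2) k) 1 0, ?_⟩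
      apply sl_ext <;> simp [coe_L, h1, h2, h3]
    | one => exact ⟨0, L_zero.symm⟩
    | mul x y _ _ hx hy =>
      obtain ⟨s, rfl⟩ := hx
      obtain ⟨t, rfl⟩ := hy
      exact ⟨s + t, L_mul s t⟩
    | inv x _ hx =>
      obtain ⟨s, rfl⟩ := hx
      exact ⟨-s, L_inv s⟩
  · rintro ⟨s, rfl⟩
    apply Subgroup.subset_closure
    simp [coe_L]

theorem det_eq (g : Matrix.SpecialLinearGroup (Fin 2) k) :
    (g : Matrix (Fin 2) (Fin 2) k) 0 0 * (g : Matrix (Fin 2) (Fin 2) k) 1 1 -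
      (g : Matrix (Fin 2) (Fin 2) k) 0 1 * (g : Matrix (Fin 2) (Fin 2) k) 1 0 = 1 := by
  have := g.det_coe
  rwa [Matrix.det_fin_two] at this

theorem decomp (g : Matrix.SpecialLinearGroup (Fin 2) k)
    (hc : (g : Matrix (Fin 2) (Fin 2) k) 1 0 ≠ 0) :
    g = U (((g : Matrix (Fin 2) (Fin 2) k) 0 0 - 1) / (g : Matrix (Fin 2) (Fin 2) k) 1 0) *
      L ((g : Matrix (Fin 2) (Fin 2) k) 1 0) *
      U (((g : Matrix (Fin 2) (Fin 2) k) 1 1 - 1) / (g : Matrix (Fin 2) (Fin 2) k) 1 0) := by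
  have hdet := det_eq g
  obtain ⟨a, ha⟩ : ∃ a, a = (g : Matrix (Fin 2) (Fin 2) k) 0 0 := ⟨_, rfl⟩
  obtain ⟨b, hb⟩ : ∃ b, b = (g : Matrix (Fin 2) (Fin 2) k) 0 1 := ⟨_, rfl⟩
  obtain ⟨c, hc'⟩ : ∃ c, c = (g : Matrix (Fin 2) (Fin 2) k) 1 0 := ⟨_, rfl⟩
  obtain ⟨d, hd⟩ : ∃ d, d = (g : Matrix (Fin 2) (Fin 2) k) 1 1 := ⟨_, rfl⟩
  rw [← ha, ← hb, ← hc', ← hd] at hdet
  rw [← hc'] at hc
  rw [← ha, ← hc', ← hd]
  apply sl_ext
  · rw [← ha]
    simp [Matrix.SpecialLinearGroup.coe_mul, coe_U, coe_L, Matrix.mul_apply, Fin.sum_univ_two]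
    field_simp
    ring
  · rw [← hb]
    simp [Matrix.SpecialLinearGroup.coe_mul, coe_U, coe_L, Matrix.mul_apply, Fin.sum_univ_two]
    field_simp
    linear_combination (-1 : k) * hdet
  · rw [← hc']
    simp [Matrix.SpecialLinearGroup.coe_mul, coe_U, coe_L, Matrix.mul_apply, Fin.sum_univ_two]
  · rw [← hd]
    simp [Matrix.SpecialLinearGroup.coe_mul, coe_U, coe_L, Matrix.mul_apply, Fin.sum_univ_two]
    field_simp
    ring

theorem sup_eq_top : lowerUnipotentSL2 k ⊔ upperUnipotentSL2 k = ⊤ := by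
  rw [eq_top_iff]
  intro g _
  have hU : ∀ s : k, U s ∈ lowerUnipotentSL2 k ⊔ upperUnipotentSL2 k := fun s =>
    Subgroup.mem_sup_right (mem_upper.mpr ⟨s, rfl⟩)
  have hL : ∀ s : k, L s ∈ lowerUnipotentSL2 k ⊔ upperUnipotentSL2 k := fun s =>
    Subgroup.mem_sup_left (mem_lower.mpr ⟨s, rfl⟩)
  have key : ∀ g : Matrix.SpecialLinearGroup (Fin 2) k, (g : Matrix (Fin 2) (Fin 2) k) 1 0 ≠ 0 →
      g ∈ lowerUnipotentSL2 k ⊔ upperUnipotentSL2 k := by
    intro g hc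
    rw [decomp g hc]
    exact Subgroup.mul_mem _ (Subgroup.mul_mem _ (hU _) (hL _)) (hU _)
  by_cases hc : (g : Matrix (Fin 2) (Fin 2) k) 1 0 = 0
  · have hdet := det_eq g
    rw [hc, mul_zero, sub_zero] at hdet
    have ha : (g : Matrix (Fin 2) (Fin 2) k) 0 0 ≠ 0 := by
      intro h0; rw [h0, zero_mul] at hdet; exact zero_ne_one hdet
    have h1 : L 1 * g ∈ lowerUnipotentSL2 k ⊔ upperUnipotentSL2 k := by
      apply key
      simp [Matrix.SpecialLinearGroup.coe_mul, coe_U, coe_L, Matrix.mul_apply, Fin.sum_univ_two, hc, ha]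
    have h2 : g = (L 1)⁻¹ * (L 1 * g) := by group
    rw [h2]
    exact Subgroup.mul_mem _ (Subgroup.inv_mem _ (hL 1)) h1
  · exact key g hc

theorem conj_identity {c : k} (hc : c ≠ 0) (t : k) :
    (U (1 / c))⁻¹ * L t * U (1 / c) = (L c)⁻¹ * U (-t / c ^ 2) * L c := by
  rw [U_inv, L_inv]
  apply sl_ext <;> simp [Matrix.SpecialLinearGroup.coe_mul, coe_U, coe_L, Matrix.mul_apply, Fin.sum_univ_two] <;> field_simp <;> ring

theorem conj_eq {c : k} (hc : c ≠ 0) :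
    conjBy (lowerUnipotentSL2 k) (U (1 / c))⁻¹ = conjBy (upperUnipotentSL2 k) (L c)⁻¹ := by
  ext g
  rw [mem_conjBy, mem_conjBy, inv_inv, inv_inv, mem_lower, mem_upper]
  constructor
  · rintro ⟨t, ht⟩
    refine ⟨-t / c ^ 2, ?_⟩
    have h1 : g = (U (1 / c))⁻¹ * L t * U (1 / c) := by rw [← ht]; group
    rw [h1, conj_identity hc]; group
  · rintro ⟨u, hu⟩
    refine ⟨-u * c ^ 2, ?_⟩
    have h1 : g = (L c)⁻¹ * U u * L c := by rw [← hu]; group
    have h2 : u = -(-u * c ^ 2) / c ^ 2 := by field_simp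
    rw [h1, h2, ← conj_identity hc]
    have h3 : -(-(-u * c ^ 2) / c ^ 2) * c ^ 2 = -u * c ^ 2 := by field_simp
    rw [h3]; group

theorem lower_comm : IsMulCommutative ↥(lowerUnipotentSL2 k) := by
  rw [isMulCommutative_iff]
  rintro ⟨x, hx⟩ ⟨y, hy⟩
  obtain ⟨s, rfl⟩ := mem_lower.mp hx
  obtain ⟨t, rfl⟩ := mem_lower.mp hy
  apply Subtype.ext
  show L s * L t = L t * L s
  rw [L_mul, L_mul, add_comm]

theorem upper_comm : IsMulCommutative ↥(upperUnipotentSL2 k) := by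
  rw [isMulCommutative_iff]
  rintro ⟨x, hx⟩ ⟨y, hy⟩
  obtain ⟨s, rfl⟩ := mem_upper.mp hx
  obtain ⟨t, rfl⟩ := mem_upper.mp hy
  apply Subtype.ext
  show U s * U t = U t * U s
  rw [U_mul, U_mul, add_comm]

theorem L_ne_one {c : k} (hc : c ≠ 0) : L c ≠ 1 := by
  intro h
  rw [← L_zero] at h
  exact hc (L_inj h)

theorem U_ne_one {c : k} (hc : c ≠ 0) : U c ≠ 1 := by
  intro h
  rw [← U_zero] at h
  exact hc (U_inj h)

theorem rankOnePair : IsRankOnePair (lowerUnipotentSL2 k) (upperUnipotentSL2 k) := by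
  refine ⟨?_, ?_, ?_, ?_, ?_⟩
  · intro h
    have h1 : L (1 : k) ∈ upperUnipotentSL2 k := by rw [← h]; exact mem_lower.mpr ⟨1, rfl⟩
    obtain ⟨s, hs⟩ := mem_upper.mp h1
    have := congrArg (fun g : Matrix.SpecialLinearGroup (Fin 2) k =>
      (g : Matrix (Fin 2) (Fin 2) k) 1 0) hs
    simp [coe_U, coe_L] at this
  · exact ⟨⟨1, Subgroup.upperCentralSeries_one_eq_top_iff.mpr lower_comm⟩⟩
  · exact ⟨⟨1, Subgroup.upperCentralSeries_one_eq_top_iff.mpr upper_comm⟩⟩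
  · intro a ha ha1
    obtain ⟨c, rfl⟩ := mem_lower.mp ha
    have hc : c ≠ 0 := by
      rintro rfl; exact ha1 L_zero
    exact ⟨U (1 / c), mem_upper.mpr ⟨_, rfl⟩, U_ne_one (one_div_ne_zero hc), conj_eq hc⟩
  · intro b hb hb1
    obtain ⟨s, rfl⟩ := mem_upper.mp hb
    have hs : s ≠ 0 := by
      rintro rfl; exact hb1 U_zero
    refine ⟨L (1 / s), mem_lower.mpr ⟨_, rfl⟩, L_ne_one (one_div_ne_zero hs), ?_⟩
    have := conj_eq (one_div_ne_zero hs)
    rw [one_div_one_div] at this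
    exact this.symm

theorem special_identity {c : k} (hc : c ≠ 0) :
    (U (1 / c))⁻¹ * L c * U (1 / c) = (L c)⁻¹ * (U (1 / c))⁻¹ * L c := by
  rw [U_inv, L_inv]
  apply sl_ext
  · simp [Matrix.SpecialLinearGroup.coe_mul, coe_U, coe_L, Matrix.mul_apply, Fin.sum_univ_two]
  · simp [Matrix.SpecialLinearGroup.coe_mul, coe_U, coe_L, Matrix.mul_apply, Fin.sum_univ_two]
    left
    rw [inv_mul_cancel₀ hc]; ring
  · simp [Matrix.SpecialLinearGroup.coe_mul, coe_U, coe_L, Matrix.mul_apply, Fin.sum_univ_two]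
    rw [mul_inv_cancel₀ hc]; ring
  · simp [Matrix.SpecialLinearGroup.coe_mul, coe_U, coe_L, Matrix.mul_apply, Fin.sum_univ_two]

theorem main (k : Type*) [Field k] :
    Cfsg.IsRankOneGroup (Matrix.SpecialLinearGroup (Fin 2) k) (Cfsg.lowerUnipotentSL2 k)
      (Cfsg.upperUnipotentSL2 k) ∧
    Cfsg.IsSpecialRankOnePair (Cfsg.lowerUnipotentSL2 k) (Cfsg.upperUnipotentSL2 k) ∧
    Cfsg.HasAbelianUnipotents (Cfsg.lowerUnipotentSL2 k) (Cfsg.upperUnipotentSL2 k) := by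
  refine ⟨⟨sup_eq_top, rankOnePair⟩, ⟨rankOnePair, ?_⟩, ⟨lower_comm, upper_comm⟩⟩
  intro a ha ha1 b hb hb1 hab
  obtain ⟨c, rfl⟩ := mem_lower.mp ha
  have hc : c ≠ 0 := by
    rintro rfl; exact ha1 L_zero
  have h1 : U (1 / c) = b :=
    partner_unique_right rankOnePair hb (mem_upper.mpr ⟨_, rfl⟩) hab (conj_eq hc)
  rw [← h1]
  exact special_identity hc

end Cfsg.Agent.Lib_helper9_SL2Rank
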