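import Mathlib
import Cfsg.Agent.Lib_helper9_AffF4
import Cfsg.Agent.Lib_helper9_Spectrum
import Cfsg.Agent.Lib_helper9_SL2Rank

set_option autoImplicit false

namespace Cfsg.Agent.Lib_helper9_PrimeGraph

open Polynomial Matrix
open Cfsg.Agent.Lib_helper9_AffF4
open Cfsg.Agent.Lib_helper9_SL2Rank

/-- `n` is a prime or a product of two distinct primes -/
def Nice (n : ℕ) : Prop := n.Prime ∨ ∃ p q : ℕ, p.Prime ∧ q.Prime ∧ p ≠ q ∧ n = p * q

theorem nice_dvd_prime_pow {n r j : ℕ} (hn : Nice n) (hr : r.Prime) (h : n ∣ r ^ j) : n = r := by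
  rcases hn with hn | ⟨p, q, hp, hq, hpq, rfl⟩
  · exact (Nat.prime_dvd_prime_iff_eq hn hr).mp (hn.dvd_of_dvd_pow h)
  · exfalso
    have h1 := (Nat.prime_dvd_prime_iff_eq hp hr).mp
      (hp.dvd_of_dvd_pow (dvd_trans (dvd_mul_right p q) h))
    have h2 := (Nat.prime_dvd_prime_iff_eq hq hr).mp
      (hq.dvd_of_dvd_pow (dvd_trans (dvd_mul_left q p) h))
    exact hpq (h1.trans h2.symm)

theorem nice_ne_four {n : ℕ} (h : Nice n) : n ≠ 4 := by
  rintro rfl
  have h1 : (4 : ℕ) ∣ 2 ^ 2 := by norm_num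
  have := nice_dvd_prime_pow h Nat.prime_two h1
  omega

theorem prime_dvd_card_iff {G : Type*} [Group G] [Finite G] {p : ℕ} (hp : p.Prime) :
    p ∣ Nat.card G ↔ ∃ g : G, orderOf g = p := by
  constructor
  · intro h
    haveI : Fact p.Prime := ⟨hp⟩
    exact exists_prime_orderOf_dvd_card' p h
  · rintro ⟨g, rfl⟩
    exact orderOf_dvd_natCard g

theorem same_graph {G : Type*} [Group G] [Finite G] {H : Type} [Group H] [Finite H]
    (h : ∀ n, Nice n → ((∃ g : G, orderOf g = n) ↔ (∃ g : H, orderOf g = n))) :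
    (∀ p : ℕ, p.Prime → (p ∣ Nat.card G ↔ p ∣ Nat.card H)) ∧
      (∀ p q : ℕ, p.Prime → q.Prime → p ≠ q →
        ((∃ g : G, orderOf g = p * q) ↔ (∃ g : H, orderOf g = p * q))) := by
  constructor
  · intro p hp
    rw [prime_dvd_card_iff hp, prime_dvd_card_iff hp]
    exact h p (Or.inl hp)
  · intro p q hp hq hpq
    exact h (p * q) (Or.inr ⟨p, q, hp, hq, hpq, rfl⟩)

theorem orderOf_conj'' {G : Type*} [Group G] (g d : G) : orderOf (g * d * g⁻¹) = orderOf d := by
  have := MulEquiv.orderOf_eq (MulAut.conj g) d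
  rwa [MulAut.conj_apply] at this

variable {F : Type*} [Field F] [Fintype F]

/-- the section of the affine group over `SL₂`, as a function -/
def secFun (A : Matrix.SpecialLinearGroup (Fin 2) F) : affSub F :=
  ⟨mkAff ((A : Matrix (Fin 2) (Fin 2) F) 0 0) ((A : Matrix (Fin 2) (Fin 2) F) 0 1)
    ((A : Matrix (Fin 2) (Fin 2) F) 1 0) ((A : Matrix (Fin 2) (Fin 2) F) 1 1) 0 0 (det_eq A),
    mkAff_mem _ _ _ _ _ _ _⟩

theorem secFun_coe (A : Matrix.SpecialLinearGroup (Fin 2) F) :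
    ((secFun A).1 : Matrix (Fin 3) (Fin 3) F) =
      !![(A : Matrix (Fin 2) (Fin 2) F) 0 0, (A : Matrix (Fin 2) (Fin 2) F) 0 1, 0;
        (A : Matrix (Fin 2) (Fin 2) F) 1 0, (A : Matrix (Fin 2) (Fin 2) F) 1 1, 0; 0, 0, 1] := rfl

/-- the section of the affine group over `SL₂` -/
def sec : Matrix.SpecialLinearGroup (Fin 2) F →* affSub F where
  toFun := secFun
  map_one' := by
    apply Subtype.ext
    apply Subtype.ext
    show (((secFun (1 : Matrix.SpecialLinearGroup (Fin 2) F)).1 :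
      Matrix.SpecialLinearGroup (Fin 3) F) : Matrix (Fin 3) (Fin 3) F) = 1
    rw [secFun_coe]
    ext i j
    fin_cases i <;> fin_cases j <;> simp
  map_mul' := by
    intro A B
    apply Subtype.ext
    apply Subtype.ext
    show ((secFun (A * B)).1 : Matrix (Fin 3) (Fin 3) F) =
      (((secFun A).1 * (secFun B).1 : Matrix.SpecialLinearGroup (Fin 3) F) :
        Matrix (Fin 3) (Fin 3) F)
    rw [Matrix.SpecialLinearGroup.coe_mul, secFun_coe, secFun_coe, secFun_coe]
    ext i j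
    fin_cases i <;> fin_cases j <;>
      simp [Matrix.SpecialLinearGroup.coe_mul, Matrix.mul_apply, Fin.sum_univ_two, Fin.sum_univ_three]

theorem sec_coe (A : Matrix.SpecialLinearGroup (Fin 2) F) :
    ((sec A).1 : Matrix (Fin 3) (Fin 3) F) =
      !![(A : Matrix (Fin 2) (Fin 2) F) 0 0, (A : Matrix (Fin 2) (Fin 2) F) 0 1, 0;
        (A : Matrix (Fin 2) (Fin 2) F) 1 0, (A : Matrix (Fin 2) (Fin 2) F) 1 1, 0; 0, 0, 1] := rfl

theorem sec_injective : Function.Injective (sec : Matrix.SpecialLinearGroup (Fin 2) F → affSub F) := by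
  intro A B h
  have h' : ((sec A).1 : Matrix (Fin 3) (Fin 3) F) = ((sec B).1 : Matrix (Fin 3) (Fin 3) F) := by
    rw [h]
  rw [sec_coe, sec_coe] at h'
  apply sl_ext
  · simpa using congrFun (congrFun h' 0) 0
  · simpa using congrFun (congrFun h' 0) 1
  · simpa using congrFun (congrFun h' 1) 0
  · simpa using congrFun (congrFun h' 1) 1

theorem order_eq_of_det_ne {g : affSub F} {a b c d e f : F} (hdet : a * d - b * c = 1)
    (hform : (g.1 : Matrix (Fin 3) (Fin 3) F) = !![a, b, e; c, d, f; 0, 0, 1])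
    (hD : (a - 1) * (d - 1) - b * c ≠ 0) :
    ∃ A : Matrix.SpecialLinearGroup (Fin 2) F, orderOf A = orderOf g := by
  obtain ⟨A, hA⟩ : ∃ A : Matrix.SpecialLinearGroup (Fin 2) F,
      (A : Matrix (Fin 2) (Fin 2) F) = !![a, b; c, d] :=
    ⟨⟨!![a, b; c, d], by rw [Matrix.det_fin_two_of]; exact hdet⟩, rfl⟩
  refine ⟨A, ?_⟩
  obtain ⟨D, hDdef⟩ : ∃ D, D = (a - 1) * (d - 1) - b * c := ⟨_, rfl⟩
  rw [← hDdef] at hD
  obtain ⟨w₁, hw₁⟩ : ∃ w₁, w₁ = ((d - 1) * e - b * f) / D := ⟨_, rfl⟩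
  obtain ⟨w₂, hw₂⟩ : ∃ w₂, w₂ = (-c * e + (a - 1) * f) / D := ⟨_, rfl⟩
  obtain ⟨τ, hτ⟩ : ∃ τ : affSub F, (τ.1 : Matrix (Fin 3) (Fin 3) F) = !![1, 0, w₁; 0, 1, w₂; 0, 0, 1] :=
    ⟨⟨mkAff 1 0 0 1 w₁ w₂ (by ring), mkAff_mem _ _ _ _ _ _ _⟩, rfl⟩
  have e1 : (a - 1) * w₁ + b * w₂ = e := by
    rw [hw₁, hw₂]; field_simp; rw [hDdef]; ring
  have e2 : c * w₁ + (d - 1) * w₂ = f := by
    rw [hw₁, hw₂]; field_simp; rw [hDdef]; ring
  have hconj : τ * g = sec A * τ := by
    apply Subtype.ext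
    apply Subtype.ext
    show ((τ.1 * g.1 : Matrix.SpecialLinearGroup (Fin 3) F) : Matrix (Fin 3) (Fin 3) F) =
      (((sec A).1 * τ.1 : Matrix.SpecialLinearGroup (Fin 3) F) : Matrix (Fin 3) (Fin 3) F)
    rw [Matrix.SpecialLinearGroup.coe_mul, Matrix.SpecialLinearGroup.coe_mul, hform, hτ, sec_coe, hA]
    ext i j
    fin_cases i <;> fin_cases j <;> simp [Matrix.mul_apply, Fin.sum_univ_three]
    · linear_combination (-1 : F) * e1
    · linear_combination (-1 : F) * e2
  have h3 : g = τ⁻¹ * sec A * τ⁻¹⁻¹ := by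
    rw [inv_inv, mul_assoc, ← hconj]; group
  rw [h3, orderOf_conj'', orderOf_injective sec sec_injective A]

theorem pow_four_of_trace_zero {g : affSub F} {a b c d e f : F} (hdet : a * d - b * c = 1)
    (hform : (g.1 : Matrix (Fin 3) (Fin 3) F) = !![a, b, e; c, d, f; 0, 0, 1]) (ht : a + d = 0) :
    g ^ 4 = 1 := by
  have hP := aeval_ch3 a b c d e f hdet
  rw [← hform] at hP
  have hT : (C (a + d) : F[X]) = 0 := by rw [ht, map_zero]
  have e1 : ((X - 1) * (X ^ 2 - C (a + d) * X + 1) : F[X]) * (X + 1) = X ^ 4 - 1 := by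
    linear_combination (-X * (X - 1) * (X + 1)) * hT
  have e2 := congrArg (aeval (g.1 : Matrix (Fin 3) (Fin 3) F)) e1
  rw [map_mul, hP, zero_mul] at e2
  simp only [map_sub, map_pow, aeval_X, map_one] at e2
  have e3 : (g.1 : Matrix (Fin 3) (Fin 3) F) ^ 4 = 1 := (sub_eq_zero.mp e2.symm)
  apply Subtype.ext
  apply Subtype.ext
  show (((g.1 ^ 4 : Matrix.SpecialLinearGroup (Fin 3) F)) : Matrix (Fin 3) (Fin 3) F) = 1
  rw [Matrix.SpecialLinearGroup.coe_pow]
  exact e3

theorem U_one_order (h2 : (2 : F) = 0) : orderOf (U (1 : F)) = 2 := by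
  apply orderOf_eq_prime
  · rw [pow_two, U_mul]
    have : (1 : F) + 1 = 0 := by rw [one_add_one_eq_two, h2]
    rw [this, U_zero]
  · exact U_ne_one one_ne_zero

theorem aff_to_sl (h2 : (2 : F) = 0) (g : affSub F) (hn : orderOf g ≠ 4) :
    ∃ A : Matrix.SpecialLinearGroup (Fin 2) F, orderOf A = orderOf g := by
  obtain ⟨a, b, c, d, e, f, hdet, hform⟩ := affSub_form g.1 g.2
  by_cases hD : (a - 1) * (d - 1) - b * c = 0
  · have ht : a + d = 0 := by linear_combination (-1 : F) * hD + hdet + h2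
    have h4 := pow_four_of_trace_zero hdet hform ht
    have hdvd : orderOf g ∣ 4 := orderOf_dvd_of_pow_eq_one h4
    have h4' : (4 : ℕ) = 2 ^ 2 := by norm_num
    rw [h4'] at hdvd
    obtain ⟨k, hk, hk'⟩ := (Nat.dvd_prime_pow Nat.prime_two).mp hdvd
    interval_cases k
    · exact ⟨1, by rw [orderOf_one, hk']; norm_num⟩
    · exact ⟨U 1, by rw [hk', U_one_order h2]; norm_num⟩
    · exact absurd hk' (by norm_num; exact hn)
  · exact order_eq_of_det_ne hdet hform hD

theorem center_eq_bot (h2 : (2 : F) = 0) :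
    Subgroup.center (Matrix.SpecialLinearGroup (Fin 2) F) = ⊥ := by
  rw [eq_bot_iff]
  intro A hA
  rw [Matrix.SpecialLinearGroup.mem_center_iff] at hA
  obtain ⟨r, hr, hA⟩ := hA
  rw [Fintype.card_fin] at hr
  have hr1 : r = 1 := by
    have h3 : (r - 1) ^ 2 = 0 := by linear_combination hr + (1 - r) * h2
    exact sub_eq_zero.mp ((pow_eq_zero_iff (by norm_num)).mp h3)
  rw [Subgroup.mem_bot]
  apply Subtype.ext
  rw [← hA, hr1]
  simp

theorem psl_iff (h2 : (2 : F) = 0) (n : ℕ) :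
    (∃ g : Matrix.ProjectiveSpecialLinearGroup (Fin 2) F, orderOf g = n) ↔
      (∃ A : Matrix.SpecialLinearGroup (Fin 2) F, orderOf A = n) := by
  have hinj : Function.Injective
      (QuotientGroup.mk' (Subgroup.center (Matrix.SpecialLinearGroup (Fin 2) F))) := by
    rw [← MonoidHom.ker_eq_bot_iff, QuotientGroup.ker_mk', center_eq_bot h2]
  constructor
  · rintro ⟨g, rfl⟩
    obtain ⟨A, rfl⟩ := QuotientGroup.mk'_surjective _ g
    exact ⟨A, (orderOf_injective _ hinj A).symm⟩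
  · rintro ⟨A, rfl⟩
    exact ⟨QuotientGroup.mk' _ A, orderOf_injective _ hinj A⟩

theorem transl_sq' (h2 : (2 : F) = 0) (e f : F) :
    (!![1, 0, e; 0, 1, f; 0, 0, 1] : Matrix (Fin 3) (Fin 3) F) *
      !![1, 0, e; 0, 1, f; 0, 0, 1] = 1 := by
  have he : e + e = 0 := by rw [← two_mul, h2, zero_mul]
  have hf : f + f = 0 := by rw [← two_mul, h2, zero_mul]
  rw [transl_mul, he, hf, transl_zero]

theorem ker_sq' (h2 : (2 : F) = 0) (g : affSub F) (hg : g ∈ (topBlock F).ker) :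
    g * g = 1 := by
  obtain ⟨a, b, c, d, e, f, hdet, hform⟩ := affSub_form g.1 g.2
  have h1 : topBlock F g = 1 := MonoidHom.mem_ker.mp hg
  have ha : a = 1 := by
    have := congrFun (congrFun h1 0) 0
    simpa [topBlock, hform] using this
  have hb : b = 0 := by
    have := congrFun (congrFun h1 0) 1
    simpa [topBlock, hform] using this
  have hc : c = 0 := by
    have := congrFun (congrFun h1 1) 0
    simpa [topBlock, hform] using this
  have hd : d = 1 := by
    have := congrFun (congrFun h1 1) 1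
    simpa [topBlock, hform] using this
  subst ha hb hc hd
  apply Subtype.ext
  apply Subtype.ext
  show ((g.1 * g.1 : Matrix.SpecialLinearGroup (Fin 3) F) : Matrix (Fin 3) (Fin 3) F) = 1
  rw [Matrix.SpecialLinearGroup.coe_mul, hform, transl_sq' h2]

theorem ker_ne_bot' : (topBlock F).ker ≠ ⊥ := by
  intro h
  have hmem : (⟨mkAff 1 0 0 1 1 0 (by ring), mkAff_mem _ _ _ _ _ _ _⟩ : affSub F) ∈
      (topBlock F).ker := by
    rw [MonoidHom.mem_ker]
    ext i j
    fin_cases i <;> fin_cases j <;> simp [topBlock, mkAff]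
  rw [h, Subgroup.mem_bot] at hmem
  have h' := congrFun (congrFun (congrArg Subtype.val (congrArg Subtype.val hmem)) 0) 2
  rw [mkAff_coe] at h'
  simp at h'

theorem ker_solvable' (h2 : (2 : F) = 0) : Group.IsSolvable (topBlock F).ker := by
  apply Group.isSolvable_of_comm
  intro x y
  have hx : x * x = 1 := Subtype.ext (ker_sq' h2 x.1 x.2)
  have hy : y * y = 1 := Subtype.ext (ker_sq' h2 y.1 y.2)
  have hxy : (x * y) * (x * y) = 1 := Subtype.ext (ker_sq' h2 (x * y).1 (x * y).2)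
  calc x * y = x * (x * y * (x * y)) * y := by rw [hxy, mul_one]
    _ = (x * x) * y * x * (y * y) := by group
    _ = y * x := by rw [hx, hy, one_mul, mul_one]

/-- the affine group in characteristic two and `SL₂` have the same "nice" element orders -/
theorem aff_iff (h2 : (2 : F) = 0) {n : ℕ} (hn : Nice n) :
    (∃ A : Matrix.SpecialLinearGroup (Fin 2) F, orderOf A = n) ↔
      (∃ g : affSub F, orderOf g = n) := by
  constructor
  · rintro ⟨A, rfl⟩
    exact ⟨sec A, orderOf_injective sec sec_injective A⟩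
  · rintro ⟨g, rfl⟩
    exact aff_to_sl h2 g (nice_ne_four hn)

/-- large groups with the same nice orders as the affine group -/
theorem exists_large (h2 : (2 : F) = 0) (N : ℕ) :
    ∃ (H : Type) (_ : Group H) (_ : Finite H), N < Nat.card H ∧
      ∀ n, Nice n → ((∃ A : Matrix.SpecialLinearGroup (Fin 2) F, orderOf A = n) ↔
        (∃ h : H, orderOf h = n)) := by
  obtain ⟨H, i1, i2, hc, hs⟩ := Cfsg.Agent.Lib_helper9_Spectrum.spectrum_main (G := affSub F)
    (topBlock F).ker ker_ne_bot' (ker_solvable' h2) N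
  refine ⟨H, i1, Finite.of_fintype H, ?_, ?_⟩
  · rw [Nat.card_eq_fintype_card]; exact hc
  · intro n hn
    rw [aff_iff h2 hn]
    have h3 := Set.ext_iff.mp hs n
    simp only [Set.mem_range] at h3
    exact h3.symm

theorem s3660 {F : Type*} [Field F] [Fintype F] [CharP F 2] (N : ℕ) :
    ∃ (H : Type) (_ : Group H) (_ : Finite H), N < Nat.card H ∧
      ((∀ p : ℕ, p.Prime → (p ∣ Nat.card (Matrix.ProjectiveSpecialLinearGroup (Fin 2) F) ↔
          p ∣ Nat.card H)) ∧
      (∀ p q : ℕ, p.Prime → q.Prime → p ≠ q →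
        ((∃ g : (Matrix.ProjectiveSpecialLinearGroup (Fin 2) F), orderOf g = p * q) ↔
          (∃ g : H, orderOf g = p * q)))) := by
  have h2 : (2 : F) = 0 := CharTwo.two_eq_zero
  obtain ⟨H, i1, i2, hc, hs⟩ := exists_large h2 N
  refine ⟨H, i1, i2, hc, ?_⟩
  apply same_graph
  intro n hn
  rw [psl_iff h2]
  exact hs n hn

end Cfsg.Agent.Lib_helper9_PrimeGraph
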