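import Mathlib
import Cfsg.Agent.Lib_helper9_PrimeGraph

set_option autoImplicit false

namespace Cfsg.Agent.Lib_helper9_PrimeGraph7

open Polynomial Matrix
open Cfsg.Agent.Lib_helper9_PrimeGraph
open Cfsg.Agent.Lib_helper9_SL2Rank

section identities

variable {R : Type*} [CommRing R] (X T : R)

theorem id_t0 (hT : T = 0) : (X ^ 2 - T * X + 1) * 1 = X ^ 2 + 1 := by
  linear_combination (-X) * hT

theorem id_t1 (hT : T = 1) : (X ^ 2 - T * X + 1) * (X + 1) = X ^ 3 + 1 := by
  linear_combination (-X * (X + 1)) * hT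

theorem id_tm1 (hT : T = -1) : (X ^ 2 - T * X + 1) * (X - 1) = X ^ 3 - 1 := by
  linear_combination (-X * (X - 1)) * hT

theorem id_t2 (hT : T = 2) (h7 : (7 : R) = 0) : (X ^ 2 - T * X + 1) * (X - 1) ^ 5 = X ^ 7 - 1 := by
  linear_combination (-X * (X - 1) ^ 5) * hT +
    (-(X ^ 6 - 3 * X ^ 5 + 5 * X ^ 4 - 5 * X ^ 3 + 3 * X ^ 2 - X)) * h7

theorem id_tm2 (hT : T = -2) (h7 : (7 : R) = 0) :
    (X ^ 2 - T * X + 1) * (X + 1) ^ 5 = X ^ 7 + 1 := by
  linear_combination (-X * (X + 1) ^ 5) * hT +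
    (X ^ 6 + 3 * X ^ 5 + 5 * X ^ 4 + 5 * X ^ 3 + 3 * X ^ 2 + X) * h7

theorem id_t3 (hT : T = 3) (h7 : (7 : R) = 0) :
    (X ^ 2 - T * X + 1) * (X ^ 2 + 3 * X + 8) = X ^ 4 + 1 := by
  linear_combination (-X * (X ^ 2 + 3 * X + 8)) * hT + (1 - 3 * X) * h7

theorem id_tm3 (hT : T = -3) (h7 : (7 : R) = 0) :
    (X ^ 2 - T * X + 1) * (X ^ 2 - 3 * X + 8) = X ^ 4 + 1 := by
  linear_combination (-X * (X ^ 2 - 3 * X + 8)) * hT + (3 * X + 1) * h7

theorem id8_t0 (hT : T = 0) (h2 : (2 : R) = 0) : (X ^ 2 - T * X + 1) * 1 = X ^ 2 - 1 := by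
  linear_combination (-X) * hT + h2

theorem id8_t1 (hT : T = 1) (h2 : (2 : R) = 0) : (X ^ 2 - T * X + 1) * (X + 1) = X ^ 3 - 1 := by
  linear_combination (-X * (X + 1)) * hT + h2

theorem id8_7 (hT : T ^ 3 + T ^ 2 + 1 = 0) (h2 : (2 : R) = 0) :
    (X ^ 2 - T * X + 1) * ((1) * X ^ 5 + (1) * X ^ 4 * T + (1) * X ^ 3 * T ^ 2 + (-1) * X ^ 3 +
      (1) * X ^ 2 * T ^ 3 + (-2) * X ^ 2 * T + (1) * X * T ^ 4 + (-3) * X * T ^ 2 + (1) * X +
      (1) * T ^ 5 + (-4) * T ^ 3 + (3) * T) = X ^ 7 - 1 := by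
  linear_combination ((-1) * X * T ^ 3 + (1) * X * T ^ 2 + (4) * X * T + (-3) * X + (1) * T ^ 2 +
    (-1) * T + (-3)) * hT +
    ((-2) * X * T ^ 2 + (-2) * X * T + (2) * X + (1) * T ^ 2 + (2) * T + (2)) * h2

theorem id8_9 (hT : T ^ 3 + T + 1 = 0) (h2 : (2 : R) = 0) :
    (X ^ 2 - T * X + 1) * ((1) * X ^ 7 + (1) * X ^ 6 * T + (1) * X ^ 5 * T ^ 2 + (-1) * X ^ 5 +
      (1) * X ^ 4 * T ^ 3 + (-2) * X ^ 4 * T + (1) * X ^ 3 * T ^ 4 + (-3) * X ^ 3 * T ^ 2 +
      (1) * X ^ 3 + (1) * X ^ 2 * T ^ 5 + (-4) * X ^ 2 * T ^ 3 + (3) * X ^ 2 * T + (1) * X * T ^ 6 +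
      (-5) * X * T ^ 4 + (6) * X * T ^ 2 + (-1) * X + (1) * T ^ 7 + (-6) * T ^ 5 + (10) * T ^ 3 +
      (-4) * T) = X ^ 9 - 1 := by
  linear_combination ((-1) * X * T ^ 5 + (8) * X * T ^ 3 + (1) * X * T ^ 2 + (-23) * X * T +
    (-9) * X + (1) * T ^ 4 + (-7) * T ^ 2 + (-1) * T + (17)) * hT +
    ((16) * X * T ^ 2 + (16) * X * T + (4) * X + (4) * T ^ 2 + (-10) * T + (-8)) * h2

end identities

section general

variable {K : Type*} [Field K]

theorem ch2 (A : Matrix.SpecialLinearGroup (Fin 2) K) :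
    aeval (A : Matrix (Fin 2) (Fin 2) K)
      (X ^ 2 - C ((A : Matrix (Fin 2) (Fin 2) K).trace) * X + 1 : K[X]) = 0 := by
  have h := Matrix.aeval_self_charpoly (A : Matrix (Fin 2) (Fin 2) K)
  rw [Matrix.charpoly_fin_two, A.det_coe, map_one] at h
  exact h

theorem mat_pow_eq_one {M : Matrix (Fin 2) (Fin 2) K} {P Q : K[X]} {n : ℕ} (hP : aeval M P = 0)
    (e : P * Q = X ^ n - 1) : M ^ n = 1 := by
  have e2 := congrArg (aeval M) e
  rw [map_mul, hP, zero_mul] at e2
  simp only [map_sub, map_pow, aeval_X, map_one] at e2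
  exact sub_eq_zero.mp e2.symm

theorem mat_pow_eq_neg_one {M : Matrix (Fin 2) (Fin 2) K} {P Q : K[X]} {n : ℕ}
    (hP : aeval M P = 0) (e : P * Q = X ^ n + 1) : M ^ n = -1 := by
  have e2 := congrArg (aeval M) e
  rw [map_mul, hP, zero_mul] at e2
  simp only [map_add, map_pow, aeval_X, map_one] at e2
  exact eq_neg_of_add_eq_zero_left e2.symm

theorem sl_pow_eq_one (A : Matrix.SpecialLinearGroup (Fin 2) K) {n : ℕ}
    (h : (A : Matrix (Fin 2) (Fin 2) K) ^ n = 1) : A ^ n = 1 := by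
  apply Subtype.ext
  rw [Matrix.SpecialLinearGroup.coe_pow]
  exact h

theorem psl_pow_eq_one (A : Matrix.SpecialLinearGroup (Fin 2) K) {n : ℕ}
    (h : (A : Matrix (Fin 2) (Fin 2) K) ^ n = 1 ∨ (A : Matrix (Fin 2) (Fin 2) K) ^ n = -1) :
    (QuotientGroup.mk' (Subgroup.center (Matrix.SpecialLinearGroup (Fin 2) K)) A) ^ n = 1 := by
  rw [← map_pow, QuotientGroup.mk'_apply, QuotientGroup.eq_one_iff,
    Matrix.SpecialLinearGroup.mem_center_iff]
  rcases h with h | h
  · refine ⟨1, one_pow _, ?_⟩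
    rw [Matrix.SpecialLinearGroup.coe_pow, h]; simp
  · refine ⟨-1, by rw [Fintype.card_fin]; ring, ?_⟩
    rw [Matrix.SpecialLinearGroup.coe_pow, h]
    ext i j
    fin_cases i <;> fin_cases j <;> simp

theorem psl_ne_one (A : Matrix.SpecialLinearGroup (Fin 2) K)
    (h : (A : Matrix (Fin 2) (Fin 2) K) 0 1 ≠ 0) :
    QuotientGroup.mk' (Subgroup.center (Matrix.SpecialLinearGroup (Fin 2) K)) A ≠ 1 := by
  intro h1
  rw [QuotientGroup.mk'_apply, QuotientGroup.eq_one_iff,
    Matrix.SpecialLinearGroup.mem_center_iff] at h1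
  obtain ⟨r, -, hr⟩ := h1
  apply h
  rw [← hr]; simp

end general

section seven

variable {F : Type*} [Field F] [Fintype F]

theorem seven_eq_zero (hF : Fintype.card F = 7) : (7 : F) = 0 := by
  have h := FiniteField.cast_card_eq_zero F
  rw [hF] at h; exact_mod_cast h

theorem cases7 (hF : Fintype.card F = 7) (t : F) :
    t = 0 ∨ t = 1 ∨ t = -1 ∨ t = 2 ∨ t = -2 ∨ t = 3 ∨ t = -3 := by
  have h7 := seven_eq_zero hF
  have h := FiniteField.pow_card t
  rw [hF] at h
  have h3 : t * ((t - 1) * ((t + 1) * ((t - 2) * ((t + 2) * ((t - 3) * (t + 3)))))) = 0 := by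
    linear_combination h - (2 * t ^ 5 - 7 * t ^ 3 + 5 * t) * h7
  rcases mul_eq_zero.mp h3 with h | h
  · left; exact h
  rcases mul_eq_zero.mp h with h | h
  · right; left; exact sub_eq_zero.mp h
  rcases mul_eq_zero.mp h with h | h
  · right; right; left; exact eq_neg_of_add_eq_zero_left h
  rcases mul_eq_zero.mp h with h | h
  · right; right; right; left; exact sub_eq_zero.mp h
  rcases mul_eq_zero.mp h with h | h
  · right; right; right; right; left; exact eq_neg_of_add_eq_zero_left h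
  rcases mul_eq_zero.mp h with h | h
  · right; right; right; right; right; left; exact sub_eq_zero.mp h
  · right; right; right; right; right; right; exact eq_neg_of_add_eq_zero_left h

/-- power relations in `SL₂(F₇)` by trace -/
theorem mat_cases7 (hF : Fintype.card F = 7) (A : Matrix.SpecialLinearGroup (Fin 2) F) :
    ((A : Matrix (Fin 2) (Fin 2) F).trace = 0 → (A : Matrix (Fin 2) (Fin 2) F) ^ 2 = -1) ∧
    ((A : Matrix (Fin 2) (Fin 2) F).trace = 1 → (A : Matrix (Fin 2) (Fin 2) F) ^ 3 = -1) ∧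
    ((A : Matrix (Fin 2) (Fin 2) F).trace = -1 → (A : Matrix (Fin 2) (Fin 2) F) ^ 3 = 1) ∧
    ((A : Matrix (Fin 2) (Fin 2) F).trace = 2 → (A : Matrix (Fin 2) (Fin 2) F) ^ 7 = 1) ∧
    ((A : Matrix (Fin 2) (Fin 2) F).trace = -2 → (A : Matrix (Fin 2) (Fin 2) F) ^ 7 = -1) ∧
    ((A : Matrix (Fin 2) (Fin 2) F).trace = 3 → (A : Matrix (Fin 2) (Fin 2) F) ^ 4 = -1) ∧
    ((A : Matrix (Fin 2) (Fin 2) F).trace = -3 → (A : Matrix (Fin 2) (Fin 2) F) ^ 4 = -1) := by
  have hP := ch2 A
  have h7 : (7 : F[X]) = 0 := by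
    have := congrArg (C : F →+* F[X]) (seven_eq_zero hF)
    rw [map_ofNat, map_zero] at this
    exact this
  obtain ⟨t, ht⟩ : ∃ t, t = (A : Matrix (Fin 2) (Fin 2) F).trace := ⟨_, rfl⟩
  rw [← ht] at hP ⊢
  refine ⟨?_, ?_, ?_, ?_, ?_, ?_, ?_⟩
  · intro h
    have hT : (C t : F[X]) = 0 := by rw [h, map_zero]
    exact mat_pow_eq_neg_one hP (id_t0 X (C t) hT)
  · intro h
    have hT : (C t : F[X]) = 1 := by rw [h, map_one]
    exact mat_pow_eq_neg_one hP (id_t1 X (C t) hT)
  · intro h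
    have hT : (C t : F[X]) = -1 := by rw [h, map_neg, map_one]
    exact mat_pow_eq_one hP (id_tm1 X (C t) hT)
  · intro h
    have hT : (C t : F[X]) = 2 := by rw [h, map_ofNat]
    exact mat_pow_eq_one hP (id_t2 X (C t) hT h7)
  · intro h
    have hT : (C t : F[X]) = -2 := by rw [h, map_neg, map_ofNat]
    exact mat_pow_eq_neg_one hP (id_tm2 X (C t) hT h7)
  · intro h
    have hT : (C t : F[X]) = 3 := by rw [h, map_ofNat]
    exact mat_pow_eq_neg_one hP (id_t3 X (C t) hT h7)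
  · intro h
    have hT : (C t : F[X]) = -3 := by rw [h, map_neg, map_ofNat]
    exact mat_pow_eq_neg_one hP (id_tm3 X (C t) hT h7)

theorem psl7_pow (hF : Fintype.card F = 7) (x : Matrix.ProjectiveSpecialLinearGroup (Fin 2) F) :
    x ^ 2 = 1 ∨ x ^ 3 = 1 ∨ x ^ 4 = 1 ∨ x ^ 7 = 1 := by
  obtain ⟨A, rfl⟩ := QuotientGroup.mk'_surjective _ x
  obtain ⟨h0, h1, hm1, h2, hm2, h3, hm3⟩ := mat_cases7 hF A
  rcases cases7 hF (A : Matrix (Fin 2) (Fin 2) F).trace with h | h | h | h | h | h | h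
  · left; exact psl_pow_eq_one A (Or.inr (h0 h))
  · right; left; exact psl_pow_eq_one A (Or.inr (h1 h))
  · right; left; exact psl_pow_eq_one A (Or.inl (hm1 h))
  · right; right; right; exact psl_pow_eq_one A (Or.inl (h2 h))
  · right; right; right; exact psl_pow_eq_one A (Or.inr (hm2 h))
  · right; right; left; exact psl_pow_eq_one A (Or.inr (h3 h))
  · right; right; left; exact psl_pow_eq_one A (Or.inr (hm3 h))

theorem psl7_iff (hF : Fintype.card F = 7) {n : ℕ} (hn : Nice n) :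
    (∃ g : Matrix.ProjectiveSpecialLinearGroup (Fin 2) F, orderOf g = n) ↔
      (n = 2 ∨ n = 3 ∨ n = 7) := by
  constructor
  · rintro ⟨g, rfl⟩
    rcases psl7_pow hF g with h | h | h | h
    · left
      exact nice_dvd_prime_pow (j := 1) hn Nat.prime_two (by simpa using orderOf_dvd_of_pow_eq_one h)
    · right; left
      exact nice_dvd_prime_pow (j := 1) hn Nat.prime_three
        (by simpa using orderOf_dvd_of_pow_eq_one h)
    · left
      exact nice_dvd_prime_pow (j := 2) hn Nat.prime_two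
        (by simpa using orderOf_dvd_of_pow_eq_one h)
    · right; right
      exact nice_dvd_prime_pow (j := 1) hn (by norm_num : Nat.Prime 7)
        (by simpa using orderOf_dvd_of_pow_eq_one h)
  · have h10 : (1 : F) ≠ 0 := one_ne_zero
    rintro (rfl | rfl | rfl)
    · -- order 2
      obtain ⟨A, hA⟩ : ∃ A : Matrix.SpecialLinearGroup (Fin 2) F,
          (A : Matrix (Fin 2) (Fin 2) F) = !![0, 1; -1, 0] :=
        ⟨⟨!![0, 1; -1, 0], by rw [Matrix.det_fin_two_of]; ring⟩, rfl⟩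
      refine ⟨QuotientGroup.mk' _ A, ?_⟩
      apply orderOf_eq_prime
      · apply psl_pow_eq_one A
        right
        apply (mat_cases7 hF A).1
        rw [hA, Matrix.trace_fin_two_of]; ring
      · apply psl_ne_one
        rw [hA]; simpa using h10
    · -- order 3
      obtain ⟨A, hA⟩ : ∃ A : Matrix.SpecialLinearGroup (Fin 2) F,
          (A : Matrix (Fin 2) (Fin 2) F) = !![0, 1; -1, -1] :=
        ⟨⟨!![0, 1; -1, -1], by rw [Matrix.det_fin_two_of]; ring⟩, rfl⟩
      refine ⟨QuotientGroup.mk' _ A, ?_⟩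
      haveI : Fact (Nat.Prime 3) := ⟨Nat.prime_three⟩
      apply orderOf_eq_prime
      · apply psl_pow_eq_one A
        left
        apply (mat_cases7 hF A).2.2.1
        rw [hA, Matrix.trace_fin_two_of]; ring
      · apply psl_ne_one
        rw [hA]; simpa using h10
    · -- order 7
      refine ⟨QuotientGroup.mk' _ (U (1 : F)), ?_⟩
      haveI : Fact (Nat.Prime 7) := ⟨by norm_num⟩
      apply orderOf_eq_prime
      · apply psl_pow_eq_one
        left
        apply (mat_cases7 hF (U 1)).2.2.2.1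
        rw [coe_U, Matrix.trace_fin_two_of]; ring
      · apply psl_ne_one
        rw [coe_U]; simpa using h10

end seven

section eight

variable {K : Type*} [Field K] [Fintype K]

theorem two_eq_zero8 (hK : Fintype.card K = 8) : (2 : K) = 0 := by
  have h := FiniteField.cast_card_eq_zero K
  rw [hK] at h
  have h8 : (2 : K) ^ 3 = 0 := by
    have : ((8 : ℕ) : K) = 2 ^ 3 := by norm_num
    rw [← this]; exact h
  exact (pow_eq_zero_iff (by norm_num)).mp h8

theorem cases8 (hK : Fintype.card K = 8) (t : K) :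
    t = 0 ∨ t = 1 ∨ t ^ 3 + t ^ 2 + 1 = 0 ∨ t ^ 3 + t + 1 = 0 := by
  have h2 := two_eq_zero8 hK
  have h := FiniteField.pow_card t
  rw [hK] at h
  have h3 : t * ((t - 1) * ((t ^ 3 + t ^ 2 + 1) * (t ^ 3 + t + 1))) = 0 := by
    linear_combination h + (t ^ 5 - t ^ 4) * h2
  rcases mul_eq_zero.mp h3 with h | h
  · left; exact h
  rcases mul_eq_zero.mp h with h | h
  · right; left; exact sub_eq_zero.mp h
  rcases mul_eq_zero.mp h with h | h
  · right; right; left; exact h
  · right; right; right; exact h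

theorem sl8_pow (hK : Fintype.card K = 8) (A : Matrix.SpecialLinearGroup (Fin 2) K) :
    A ^ 2 = 1 ∨ A ^ 3 = 1 ∨ A ^ 7 = 1 ∨ A ^ 9 = 1 := by
  have hP := ch2 A
  have h2 : (2 : K[X]) = 0 := by
    have := congrArg (C : K →+* K[X]) (two_eq_zero8 hK)
    rw [map_ofNat, map_zero] at this
    exact this
  obtain ⟨t, ht⟩ : ∃ t, t = (A : Matrix (Fin 2) (Fin 2) K).trace := ⟨_, rfl⟩
  rw [← ht] at hP
  rcases cases8 hK t with h | h | h | h
  · left
    have hT : (C t : K[X]) = 0 := by rw [h, map_zero]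
    exact sl_pow_eq_one A (mat_pow_eq_one hP (id8_t0 X (C t) hT h2))
  · right; left
    have hT : (C t : K[X]) = 1 := by rw [h, map_one]
    exact sl_pow_eq_one A (mat_pow_eq_one hP (id8_t1 X (C t) hT h2))
  · right; right; left
    have hT : (C t : K[X]) ^ 3 + C t ^ 2 + 1 = 0 := by
      rw [← map_pow, ← map_pow, ← map_add, ← map_one C, ← map_add, h, map_zero]
    exact sl_pow_eq_one A (mat_pow_eq_one hP (id8_7 X (C t) hT h2))
  · right; right; right
    have hT : (C t : K[X]) ^ 3 + C t + 1 = 0 := by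
      rw [← map_pow, ← map_add, ← map_one C, ← map_add, h, map_zero]
    exact sl_pow_eq_one A (mat_pow_eq_one hP (id8_9 X (C t) hT h2))

theorem exists_lambda (hK : Fintype.card K = 8) : ∃ l : K, l ≠ 0 ∧ l ≠ 1 := by
  classical
  by_contra hcon
  push Not at hcon
  have h1 : (Finset.univ : Finset K) ⊆ {0, 1} := by
    intro x _
    by_cases hx : x = 0
    · simp [hx]
    · simp [hcon x hx]
  have h2 := Finset.card_le_card h1
  rw [Finset.card_univ, hK] at h2
  have h3 : ({0, 1} : Finset K).card ≤ 2 := Finset.card_le_two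
  omega

theorem sl8_iff (hK : Fintype.card K = 8) {n : ℕ} (hn : Nice n) :
    (∃ A : Matrix.SpecialLinearGroup (Fin 2) K, orderOf A = n) ↔ (n = 2 ∨ n = 3 ∨ n = 7) := by
  have h2 := two_eq_zero8 hK
  constructor
  · rintro ⟨g, rfl⟩
    rcases sl8_pow hK g with h | h | h | h
    · left
      exact nice_dvd_prime_pow (j := 1) hn Nat.prime_two (by simpa using orderOf_dvd_of_pow_eq_one h)
    · right; left
      exact nice_dvd_prime_pow (j := 1) hn Nat.prime_three
        (by simpa using orderOf_dvd_of_pow_eq_one h)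
    · right; right
      exact nice_dvd_prime_pow (j := 1) hn (by norm_num : Nat.Prime 7)
        (by simpa using orderOf_dvd_of_pow_eq_one h)
    · right; left
      exact nice_dvd_prime_pow (j := 2) hn Nat.prime_three
        (by simpa using orderOf_dvd_of_pow_eq_one h)
  · have h10 : (1 : K) ≠ 0 := one_ne_zero
    rintro (rfl | rfl | rfl)
    · exact ⟨U 1, U_one_order h2⟩
    · obtain ⟨A, hA⟩ : ∃ A : Matrix.SpecialLinearGroup (Fin 2) K,
          (A : Matrix (Fin 2) (Fin 2) K) = !![0, 1; 1, 1] :=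
        ⟨⟨!![0, 1; 1, 1], by rw [Matrix.det_fin_two_of]; linear_combination (-1 : K) * h2⟩, rfl⟩
      refine ⟨A, ?_⟩
      haveI : Fact (Nat.Prime 3) := ⟨Nat.prime_three⟩
      apply orderOf_eq_prime
      · have hP := ch2 A
        have h2X : (2 : K[X]) = 0 := by
          have := congrArg (C : K →+* K[X]) h2
          rw [map_ofNat, map_zero] at this
          exact this
        have hT : (C ((A : Matrix (Fin 2) (Fin 2) K).trace) : K[X]) = 1 := by
          rw [hA, Matrix.trace_fin_two_of, zero_add, map_one]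
        exact sl_pow_eq_one A (mat_pow_eq_one hP (id8_t1 X _ hT h2X))
      · intro h
        have h' := congrFun (congrFun (congrArg Subtype.val h) 0) 1
        rw [hA] at h'
        simp at h'
    · obtain ⟨l, hl0, hl1⟩ := exists_lambda hK
      have hl7 : l ^ 7 = 1 := by
        have := FiniteField.pow_card_sub_one_eq_one l hl0
        rwa [hK] at this
      obtain ⟨A, hA⟩ : ∃ A : Matrix.SpecialLinearGroup (Fin 2) K,
          (A : Matrix (Fin 2) (Fin 2) K) = Matrix.diagonal ![l, l⁻¹] :=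
        ⟨⟨Matrix.diagonal ![l, l⁻¹], by
          rw [Matrix.det_diagonal, Fin.prod_univ_two]; simp [hl0]⟩, rfl⟩
      refine ⟨A, ?_⟩
      haveI : Fact (Nat.Prime 7) := ⟨by norm_num⟩
      apply orderOf_eq_prime
      · apply sl_pow_eq_one
        rw [hA, Matrix.diagonal_pow]
        have : (![l, l⁻¹] : Fin 2 → K) ^ 7 = 1 := by
          funext i
          fin_cases i
          · simpa using hl7
          · simp [inv_pow, hl7]
        rw [this]; exact Matrix.diagonal_one
      · intro h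
        have h' := congrFun (congrFun (congrArg Subtype.val h) 0) 0
        rw [hA] at h'
        simp at h'
        exact hl1 h'

end eight

theorem s3678 {F : Type*} [Field F] [Fintype F] (hF : Fintype.card F = 7) (N : ℕ) :
    ∃ (H : Type) (_ : Group H) (_ : Finite H), N < Nat.card H ∧
      ((∀ p : ℕ, p.Prime → (p ∣ Nat.card (Matrix.ProjectiveSpecialLinearGroup (Fin 2) F) ↔
          p ∣ Nat.card H)) ∧
      (∀ p q : ℕ, p.Prime → q.Prime → p ≠ q →
        ((∃ g : (Matrix.ProjectiveSpecialLinearGroup (Fin 2) F), orderOf g = p * q) ↔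
          (∃ g : H, orderOf g = p * q)))) := by
  letI : Fintype (GaloisField 2 3) := Fintype.ofFinite _
  have hK : Fintype.card (GaloisField 2 3) = 8 := by
    rw [← Nat.card_eq_fintype_card, GaloisField.card 2 3 (by norm_num)]; norm_num
  obtain ⟨H, i1, i2, hc, hs⟩ := exists_large (F := GaloisField 2 3) (two_eq_zero8 hK) N
  refine ⟨H, i1, i2, hc, ?_⟩
  apply same_graph
  intro n hn
  rw [psl7_iff hF hn, ← hs n hn, sl8_iff hK hn]

end Cfsg.Agent.Lib_helper9_PrimeGraph7
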