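import Mathlib
import Cfsg.Prelude.Def_FusionComponents
import Cfsg.Prelude.Def_FusionSystem

namespace Cfsg.Agent.Lib_helper9_ProdSys

open Cfsg

theorem hom_transport {Ω : Type*} [Group Ω] {S : Subgroup Ω} (F : FusionSystem S) {P Q : Subgroup Ω}
    (h : P = Q) (φ : P →* Ω) (hφ : φ ∈ F.Hom P) :
    ∃ φ' ∈ F.Hom Q, ∀ (x : Ω) (hx : x ∈ P) (hx' : x ∈ Q), φ' ⟨x, hx'⟩ = φ ⟨x, hx⟩ := by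
  subst h
  exact ⟨φ, hφ, fun x hx hx' => rfl⟩

theorem product_exists {Ω₁ Ω₂ : Type*} [Group Ω₁] [Group Ω₂] {S₁ : Subgroup Ω₁} {S₂ : Subgroup Ω₂}
    (F₁ : Cfsg.FusionSystem S₁) (F₂ : Cfsg.FusionSystem S₂) :
    ∃ E : Cfsg.FusionSystem (S₁.prod S₂), Cfsg.FusionSystem.IsProductSystem F₁ F₂ E := by
  refine ⟨{
    Hom := fun P => {φ | P ≤ S₁.prod S₂ ∧
                ∃ φ₁ ∈ F₁.Hom (P.map (MonoidHom.fst Ω₁ Ω₂)), ∃ φ₂ ∈ F₂.Hom (P.map (MonoidHom.snd Ω₁ Ω₂)),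
                  ∀ (x : P) (h₁ : (x : Ω₁ × Ω₂).1 ∈ P.map (MonoidHom.fst Ω₁ Ω₂))
                    (h₂ : (x : Ω₁ × Ω₂).2 ∈ P.map (MonoidHom.snd Ω₁ Ω₂)),
                    φ x = (φ₁ ⟨(x : Ω₁ × Ω₂).1, h₁⟩, φ₂ ⟨(x : Ω₁ × Ω₂).2, h₂⟩)}
    le_of_mem := ?_
    injective_of_mem := ?_
    conj_mem := ?_
    comp_mem := ?_
    inv_mem := ?_ }, fun P φ => Iff.rfl⟩
  · -- le_of_mem
    rintro P φ ⟨hP, φ₁, h1, φ₂, h2, hf⟩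
    refine ⟨hP, fun x => ?_⟩
    rw [hf x ⟨x, x.2, rfl⟩ ⟨x, x.2, rfl⟩]
    exact ⟨(F₁.le_of_mem h1).2 _, (F₂.le_of_mem h2).2 _⟩
  · -- injective
    rintro P φ ⟨hP, φ₁, h1, φ₂, h2, hf⟩ x y hxy
    rw [hf x ⟨x, x.2, rfl⟩ ⟨x, x.2, rfl⟩, hf y ⟨y, y.2, rfl⟩ ⟨y, y.2, rfl⟩] at hxy
    have e1 := F₁.injective_of_mem h1 (congrArg Prod.fst hxy)
    have e2 := F₂.injective_of_mem h2 (congrArg Prod.snd hxy)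
    exact Subtype.ext (Prod.ext (congrArg Subtype.val e1) (congrArg Subtype.val e2))
  · -- conj
    rintro P g hP hg
    refine ⟨hP, conjHom _ g.1, F₁.conj_mem ?_ hg.1, conjHom _ g.2, F₂.conj_mem ?_ hg.2,
      fun x h₁ h₂ => rfl⟩
    · rintro _ ⟨x, hx, rfl⟩; exact (hP hx).1
    · rintro _ ⟨x, hx, rfl⟩; exact (hP hx).2
  · -- comp
    rintro P Q φ ψ ⟨hP, φ₁, h1, φ₂, h2, hf⟩ ⟨hQ, ψ₁, k1, ψ₂, k2, kf⟩ h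
    have hφ1 : ∀ y : P.map (MonoidHom.fst Ω₁ Ω₂), φ₁ y ∈ Q.map (MonoidHom.fst Ω₁ Ω₂) := by
      rintro ⟨_, x, hx, rfl⟩
      refine ⟨φ ⟨x, hx⟩, h _, ?_⟩
      rw [hf ⟨x, hx⟩ ⟨x, hx, rfl⟩ ⟨x, hx, rfl⟩]
      rfl
    have hφ2 : ∀ y : P.map (MonoidHom.snd Ω₁ Ω₂), φ₂ y ∈ Q.map (MonoidHom.snd Ω₁ Ω₂) := by
      rintro ⟨_, x, hx, rfl⟩
      refine ⟨φ ⟨x, hx⟩, h _, ?_⟩
      rw [hf ⟨x, hx⟩ ⟨x, hx, rfl⟩ ⟨x, hx, rfl⟩]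
      rfl
    refine ⟨hP, ψ₁.comp (φ₁.codRestrict _ hφ1), F₁.comp_mem h1 k1 hφ1,
      ψ₂.comp (φ₂.codRestrict _ hφ2), F₂.comp_mem h2 k2 hφ2, fun x h₁ h₂ => ?_⟩
    show ψ ⟨φ x, h x⟩ = (ψ₁ ⟨φ₁ ⟨_, h₁⟩, _⟩, ψ₂ ⟨φ₂ ⟨_, h₂⟩, _⟩)
    rw [kf ⟨φ x, h x⟩ ⟨_, h x, rfl⟩ ⟨_, h x, rfl⟩]
    have e := hf x h₁ h₂
    exact Prod.ext (congrArg ψ₁ (Subtype.ext (congrArg Prod.fst e)))
      (congrArg ψ₂ (Subtype.ext (congrArg Prod.snd e)))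
  · -- inv
    rintro P φ ⟨hP, φ₁, h1, φ₂, h2, hf⟩
    obtain ⟨ψ₁, k1, kf1⟩ := F₁.inv_mem h1
    obtain ⟨ψ₂, k2, kf2⟩ := F₂.inv_mem h2
    have e1 : φ₁.range = φ.range.map (MonoidHom.fst Ω₁ Ω₂) := by
      ext z
      constructor
      · rintro ⟨⟨_, x, hx, rfl⟩, rfl⟩
        refine ⟨φ ⟨x, hx⟩, ⟨_, rfl⟩, ?_⟩
        rw [hf ⟨x, hx⟩ ⟨x, hx, rfl⟩ ⟨x, hx, rfl⟩]; rfl
      · rintro ⟨_, ⟨x, rfl⟩, rfl⟩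
        refine ⟨⟨_, x, x.2, rfl⟩, ?_⟩
        rw [hf x ⟨x, x.2, rfl⟩ ⟨x, x.2, rfl⟩]; rfl
    have e2 : φ₂.range = φ.range.map (MonoidHom.snd Ω₁ Ω₂) := by
      ext z
      constructor
      · rintro ⟨⟨_, x, hx, rfl⟩, rfl⟩
        refine ⟨φ ⟨x, hx⟩, ⟨_, rfl⟩, ?_⟩
        rw [hf ⟨x, hx⟩ ⟨x, hx, rfl⟩ ⟨x, hx, rfl⟩]; rfl
      · rintro ⟨_, ⟨x, rfl⟩, rfl⟩
        refine ⟨⟨_, x, x.2, rfl⟩, ?_⟩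
        rw [hf x ⟨x, x.2, rfl⟩ ⟨x, x.2, rfl⟩]; rfl
    obtain ⟨ψ₁', k1', kf1'⟩ := hom_transport F₁ e1 ψ₁ k1
    obtain ⟨ψ₂', k2', kf2'⟩ := hom_transport F₂ e2 ψ₂ k2
    refine ⟨MonoidHom.prod
        (ψ₁'.comp (((MonoidHom.fst Ω₁ Ω₂).comp φ.range.subtype).codRestrict _
          (fun y => Subgroup.mem_map_of_mem _ y.2)))
        (ψ₂'.comp (((MonoidHom.snd Ω₁ Ω₂).comp φ.range.subtype).codRestrict _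
          (fun y => Subgroup.mem_map_of_mem _ y.2))),
      ⟨?_, ψ₁', k1', ψ₂', k2', fun x h₁ h₂ => rfl⟩, fun x => ?_⟩
    · rintro _ ⟨x, rfl⟩
      rw [hf x ⟨x, x.2, rfl⟩ ⟨x, x.2, rfl⟩]
      exact ⟨(F₁.le_of_mem h1).2 _, (F₂.le_of_mem h2).2 _⟩
    · have e := hf x ⟨x, x.2, rfl⟩ ⟨x, x.2, rfl⟩
      have a1 : (φ x).1 ∈ φ₁.range := ⟨⟨_, x, x.2, rfl⟩, (congrArg Prod.fst e).symm⟩
      have a2 : (φ x).2 ∈ φ₂.range := ⟨⟨_, x, x.2, rfl⟩, (congrArg Prod.snd e).symm⟩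
      have b1 : ψ₁ ⟨(φ x).1, a1⟩ = (x : Ω₁ × Ω₂).1 := by
        have := kf1 ⟨(x : Ω₁ × Ω₂).1, x, x.2, rfl⟩
        exact (congrArg ψ₁ (Subtype.ext (congrArg Prod.fst e))).trans this
      have b2 : ψ₂ ⟨(φ x).2, a2⟩ = (x : Ω₁ × Ω₂).2 := by
        have := kf2 ⟨(x : Ω₁ × Ω₂).2, x, x.2, rfl⟩
        exact (congrArg ψ₂ (Subtype.ext (congrArg Prod.snd e))).trans this
      exact Prod.ext ((kf1' _ a1 _).trans b1) ((kf2' _ a2 _).trans b2)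

end Cfsg.Agent.Lib_helper9_ProdSys
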