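import Mathlib

namespace Cfsg.Agent.Lib_helper9_QPJordan

open scoped Pointwise

/-- A quasiprimitive group with a primitive Jordan set is primitive. -/
theorem prim_of_qp {G Ω : Type*} [Group G] [MulAction G Ω]
    (hqp : ∀ N : Subgroup G, N.Normal → N ≠ ⊥ → MulAction.IsPretransitive ↥N Ω)
    (Γ : Set Ω) (x y : Ω) (hx : x ∈ Γ) (hy : y ∈ Γ) (hxy : x ≠ y)
    (hJ : MulAction.IsPretransitive ↥(fixingSubgroup G Γᶜ) ↥(SubMulAction.ofFixingSubgroup G Γᶜ))
    (hJp : MulAction.IsPreprimitive ↥(fixingSubgroup G Γᶜ) ↥(SubMulAction.ofFixingSubgroup G Γᶜ)) :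
    MulAction.IsPreprimitive G Ω := by
  classical
  have hx' : x ∈ SubMulAction.ofFixingSubgroup G Γᶜ := by
    rw [SubMulAction.mem_ofFixingSubgroup_iff]; exact fun h => h hx
  have hy' : y ∈ SubMulAction.ofFixingSubgroup G Γᶜ := by
    rw [SubMulAction.mem_ofFixingSubgroup_iff]; exact fun h => h hy
  obtain ⟨j₀, hj₀, hj₀xy⟩ : ∃ j ∈ fixingSubgroup G Γᶜ, j • x = y := by
    obtain ⟨j, hj⟩ := hJ.exists_smul_eq (⟨x, hx'⟩ : SubMulAction.ofFixingSubgroup G Γᶜ) ⟨y, hy'⟩
    exact ⟨j, j.2, congrArg Subtype.val hj⟩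
  have hG1 : (⊤ : Subgroup G) ≠ ⊥ := by
    intro h
    have h1 : j₀ ∈ (⊥ : Subgroup G) := h ▸ Subgroup.mem_top j₀
    rw [Subgroup.mem_bot] at h1
    rw [h1, one_smul] at hj₀xy
    exact hxy hj₀xy
  have htrans : MulAction.IsPretransitive G Ω := by
    have h1 := hqp ⊤ inferInstance hG1
    refine ⟨fun a b => ?_⟩
    obtain ⟨g, hg⟩ := h1.exists_smul_eq a b
    exact ⟨g, hg⟩
  refine { toIsPretransitive := htrans, isTrivialBlock_of_isBlock := ?_ }
  intro B hB
  by_contra htriv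
  rw [MulAction.IsTrivialBlock, not_or] at htriv
  obtain ⟨hns, hnu⟩ := htriv
  let K : Subgroup G :=
    { carrier := {k | ∀ g : G, k • (g • B) = g • B}
      mul_mem' := by
        intro a b ha hb g
        show (a * b) • (g • B) = g • B
        rw [mul_smul, hb g, ha g]
      one_mem' := by
        intro g
        show (1 : G) • (g • B) = g • B
        rw [one_smul]
      inv_mem' := by
        intro a ha g
        show a⁻¹ • (g • B) = g • B
        rw [inv_smul_eq_iff, ha g] }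
  have hKn : K.Normal := ⟨fun k hk h g => by
    show (h * k * h⁻¹) • (g • B) = g • B
    rw [mul_smul, mul_smul, smul_smul h⁻¹ g, hk (h⁻¹ * g), smul_smul, mul_inv_cancel_left]⟩
  have hK : K = ⊥ := by
    by_contra hK1
    have htr := hqp K hKn hK1
    obtain ⟨b, hb⟩ : B.Nonempty := by
      by_contra hemp
      rw [Set.not_nonempty_iff_eq_empty] at hemp
      exact hns (hemp ▸ Set.subsingleton_empty)
    obtain ⟨c, hc⟩ : ∃ c, c ∉ B := by
      by_contra hall
      simp only [not_exists, not_not] at hall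
      exact hnu (Set.eq_univ_of_forall hall)
    obtain ⟨k, hk⟩ := htr.exists_smul_eq b c
    have hkB : (k : G) • B = B := by
      have h1 := k.2 1
      rwa [one_smul] at h1
    apply hc
    rw [← hk, ← hkB]
    exact Set.smul_mem_smul_set hb
  have hJK : fixingSubgroup G Γᶜ ≤ K := by
    intro j hj g
    have hB' : MulAction.IsBlock G (g • B) := hB.translate g
    let ι : ↥(SubMulAction.ofFixingSubgroup G Γᶜ) →ₑ[fun m : fixingSubgroup G Γᶜ => (m : G)] Ω :=
      ⟨fun y => (y : Ω), fun m y => rfl⟩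
    have hB'' : MulAction.IsBlock (fixingSubgroup G Γᶜ) (ι ⁻¹' (g • B)) := hB'.preimage ι
    have hjfix : ∀ z ∈ Γᶜ, j • z = z := fun z hz => (mem_fixingSubgroup_iff G).mp hj z hz
    obtain ⟨a, ha, hja⟩ : ∃ a ∈ g • B, j • a ∈ g • B := by
      rcases hJp.isTrivialBlock_of_isBlock hB'' with hsub | huniv
      · have hns' : ¬ (g • B).Subsingleton := by
          intro h; apply hns
          intro a ha b hb
          have h1 := h (Set.smul_mem_smul_set ha) (Set.smul_mem_smul_set hb)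
          exact smul_left_cancel g h1
        obtain ⟨z, hz, hzΓ⟩ : ∃ z ∈ g • B, z ∈ Γᶜ := by
          by_contra hcon
          simp only [not_exists, not_and] at hcon
          apply hns'
          intro a ha b hb
          have ha' : a ∈ SubMulAction.ofFixingSubgroup G Γᶜ := by
            rw [SubMulAction.mem_ofFixingSubgroup_iff]; exact hcon a ha
          have hb' : b ∈ SubMulAction.ofFixingSubgroup G Γᶜ := by
            rw [SubMulAction.mem_ofFixingSubgroup_iff]; exact hcon b hb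
          have h1 := hsub
            (show (⟨a, ha'⟩ : ↥(SubMulAction.ofFixingSubgroup G Γᶜ)) ∈ ι ⁻¹' (g • B) from ha)
            (show (⟨b, hb'⟩ : ↥(SubMulAction.ofFixingSubgroup G Γᶜ)) ∈ ι ⁻¹' (g • B) from hb)
          exact congrArg Subtype.val h1
        exact ⟨z, hz, by rw [hjfix z hzΓ]; exact hz⟩
      · have hxB : x ∈ g • B := by
          have h1 : (⟨x, hx'⟩ : ↥(SubMulAction.ofFixingSubgroup G Γᶜ)) ∈ ι ⁻¹' (g • B) := by
            rw [huniv]; trivial
          exact h1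
        have hjx : j • x ∈ g • B := by
          have hmem : ((⟨j, hj⟩ : fixingSubgroup G Γᶜ) •
              (⟨x, hx'⟩ : ↥(SubMulAction.ofFixingSubgroup G Γᶜ))) ∈ ι ⁻¹' (g • B) := by
            rw [huniv]; trivial
          exact hmem
        exact ⟨x, hxB, hjx⟩
    exact MulAction.isBlock_iff_smul_eq_of_mem.mp hB' ha hja
  rw [hK] at hJK
  have h2 := hJK hj₀
  rw [Subgroup.mem_bot] at h2
  rw [h2, one_smul] at hj₀xy
  exact hxy hj₀xy

theorem s3619 {G Ω : Type*} [Group G] [Finite G] [MulAction G Ω] [FaithfulSMul G Ω] [Finite Ω]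
    (hqp : ∀ N : Subgroup G, N.Normal → N ≠ ⊥ → MulAction.IsPretransitive ↥N Ω)
    (Γ : Set Ω) (hΓ1 : 1 < Γ.ncard) (hΓ2 : Γ.ncard < Nat.card Ω)
    (hJ : MulAction.IsPretransitive ↥(fixingSubgroup G Γᶜ) ↥(SubMulAction.ofFixingSubgroup G Γᶜ))
    (hJp : MulAction.IsPreprimitive ↥(fixingSubgroup G Γᶜ) ↥(SubMulAction.ofFixingSubgroup G Γᶜ)) :
    MulAction.IsMultiplyPretransitive G Ω (Nat.card Ω - Γ.ncard + 1) := by
  obtain ⟨x, hx, y, hy, hxy⟩ := Set.one_lt_ncard_iff_nontrivial.mp hΓ1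
  have hprim := prim_of_qp hqp Γ x y hx hy hxy hJ hJp
  have hcard : Γᶜ.ncard = (Nat.card Ω - Γ.ncard - 1) + 1 := by
    rw [Set.ncard_compl]; omega
  have h1 := hprim.isMultiplyPreprimitive hcard (by omega) hJp
  have h2 : Nat.card Ω - Γ.ncard - 1 + 2 = Nat.card Ω - Γ.ncard + 1 := by omega
  rw [h2] at h1
  exact h1.isMultiplyPretransitive

end Cfsg.Agent.Lib_helper9_QPJordan
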