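import Cfsg.Statements.S0721
import Mathlib
import Cfsg.Agent.Lib_helper4_CharSimple

set_option autoImplicit false
open Cfsg

namespace Cfsg.Agent.S0721

/-- A minimal normal subgroup of a finite group is isomorphic to a direct power `T ^ m` of a simple group `T` (possibly of prime order). -/
theorem result {H : Type*} [Group H] [Finite H] (N : Subgroup H) [N.Normal] (hN : N ≠ ⊥) (hmin : ∀ M : Subgroup H, M.Normal → M ≤ N → M = ⊥ ∨ M = N) : ∃ (T : Type) (_ : Group T) (m : ℕ), IsSimpleGroup T ∧ 0 < m ∧ Nonempty (N ≃* (Fin m → T)) := by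
  classical
  haveI : Nontrivial N := (Subgroup.nontrivial_iff_ne_bot N).mpr hN
  apply Cfsg.Agent.Lib_helper4_CharSimple.exists_equiv_pi' (MulAut.conjNormal (H := N)).range
  intro K hK
  have hKn : (K.map N.subtype).Normal := by
    constructor
    rintro _ ⟨k, hk, rfl⟩ h
    have h1 := hK (MulAut.conjNormal h) ⟨h, rfl⟩
    have h2 : (MulAut.conjNormal h : N ≃* N) k ∈ K := h1 ⟨k, hk, rfl⟩
    refine ⟨(MulAut.conjNormal h : N ≃* N) k, h2, ?_⟩
    exact MulAut.conjNormal_apply h k
  rcases hmin (K.map N.subtype) hKn (Subgroup.map_subtype_le K) with h | h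
  · left
    exact (Subgroup.map_eq_bot_iff_of_injective K N.subtype_injective).mp h
  · right
    rw [eq_top_iff]
    intro n _
    have h3 : (n : H) ∈ K.map N.subtype := by rw [h]; exact n.2
    obtain ⟨k, hk, hkn⟩ := h3
    have h4 : k = n := Subtype.ext hkn
    rw [← h4]; exact hk

end Cfsg.Agent.S0721
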