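import Mathlib
import Cfsg.Agent.Lib_helper4_Perm
import Cfsg.Agent.Lib_helper4_CharSimple
import Cfsg.Agent.Lib_helper1_Basic
import Cfsg.Agent.Lib_helper9_ThreePrimes2
import Cfsg.Agent.S0721

set_option autoImplicit false

namespace Cfsg.Agent.Lib_helper9_SocPrim

open MulAction Subgroup

section basic

variable {G Ω : Type*} [Group G] [MulAction G Ω] [FaithfulSMul G Ω]

theorem eq_one_of_centralizes (M : Subgroup G) [hM : IsPretransitive M Ω] (c : G)
    (hc : ∀ m ∈ M, c * m = m * c) (a : Ω) (hca : c • a = a) : c = 1 := by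
  apply FaithfulSMul.eq_of_smul_eq_smul (α := Ω)
  intro b
  obtain ⟨m, hm⟩ := MulAction.exists_smul_eq M a b
  have hm' : (m : G) • a = b := hm
  rw [one_smul, ← hm', ← mul_smul, hc m m.2, mul_smul, hca]

theorem mem_of_centralizes [Nonempty Ω] (M L : Subgroup G) [hM : IsPretransitive M Ω]
    [hL : IsPretransitive L Ω]
    (hLM : ∀ l ∈ L, ∀ m ∈ M, l * m = m * l) (c : G) (hc : ∀ m ∈ M, c * m = m * c) : c ∈ L := by
  obtain ⟨a⟩ := ‹Nonempty Ω›
  obtain ⟨l, hl⟩ := MulAction.exists_smul_eq L a (c • a)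
  have hl' : (l : G) • a = c • a := hl
  have h1 : (l : G)⁻¹ * c = 1 := by
    refine eq_one_of_centralizes M _ ?_ a ?_
    · intro m hm
      exact ((show Commute (l : G) m from hLM l l.2 m hm).inv_left.mul_left
        (show Commute c m from hc m hm)).eq
    · rw [mul_smul, ← hl', inv_smul_smul]
  have h2 : c = l := by rw [← mul_one (l : G), ← h1, mul_inv_cancel_left]
  rw [h2]; exact l.2

theorem iso_of_commuting [Nonempty Ω] (M L : Subgroup G) [hM : IsPretransitive M Ω]
    [hL : IsPretransitive L Ω]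
    (hLM : ∀ l ∈ L, ∀ m ∈ M, l * m = m * l) : Nonempty (M ≃* L) := by
  classical
  obtain ⟨a⟩ := ‹Nonempty Ω›
  have hregL : ∀ l l' : L, (l : G) • a = (l' : G) • a → l = l' := by
    intro l l' h
    have h1 : (l : G)⁻¹ * l' = 1 := by
      refine eq_one_of_centralizes M _ ?_ a ?_
      · intro m hm
        exact ((show Commute (l : G) m from hLM l l.2 m hm).inv_left.mul_left
          (show Commute (l' : G) m from hLM l' l'.2 m hm)).eq
      · rw [mul_smul, ← h, inv_smul_smul]
    apply Subtype.ext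
    rw [← mul_one (l : G), ← h1, mul_inv_cancel_left]
  have hregM : ∀ m m' : M, (m : G) • a = (m' : G) • a → m = m' := by
    intro m m' h
    have h1 : (m : G)⁻¹ * m' = 1 := by
      refine eq_one_of_centralizes L _ ?_ a ?_
      · intro l hl
        exact ((show Commute (m : G) l from (hLM l hl m m.2).symm).inv_left.mul_left
          (show Commute (m' : G) l from (hLM l hl m' m'.2).symm)).eq
      · rw [mul_smul, ← h, inv_smul_smul]
    apply Subtype.ext
    rw [← mul_one (m : G), ← h1, mul_inv_cancel_left]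
  have hex : ∀ m : M, ∃ l : L, (l : G) • a = (m : G) • a :=
    fun m => MulAction.exists_smul_eq L a ((m : G) • a)
  choose φ hφ using hex
  have hφmul : ∀ m m' : M, φ (m * m') = φ m' * φ m := by
    intro m m'
    apply hregL
    calc (φ (m * m') : G) • a = ((m * m' : M) : G) • a := hφ _
      _ = (m : G) • ((m' : G) • a) := by rw [Subgroup.coe_mul, mul_smul]
      _ = (m : G) • ((φ m' : G) • a) := by rw [hφ m']
      _ = ((m : G) * (φ m' : G)) • a := by rw [mul_smul]
      _ = ((φ m' : G) * (m : G)) • a := by rw [hLM (φ m') (φ m').2 m m.2]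
      _ = (φ m' : G) • ((φ m : G) • a) := by rw [mul_smul, hφ m]
      _ = ((φ m' * φ m : L) : G) • a := by rw [Subgroup.coe_mul, mul_smul]
  have hφone : φ 1 = 1 := by
    apply hregL
    rw [hφ]
    simp
  let f : M →* L :=
    { toFun := fun m => (φ m)⁻¹
      map_one' := by rw [hφone, inv_one]
      map_mul' := by intro m m'; rw [hφmul, mul_inv_rev] }
  have hinj : Function.Injective f := by
    intro m m' h
    have h1 : φ m = φ m' := inv_injective h
    apply hregM
    rw [← hφ m, ← hφ m', h1]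
  have hsurj : Function.Surjective f := by
    intro l
    obtain ⟨m, hm⟩ := MulAction.exists_smul_eq M a ((l⁻¹ : L) • a)
    refine ⟨m, ?_⟩
    have h1 : φ m = l⁻¹ := by
      apply hregL
      rw [hφ]
      exact hm
    show (φ m)⁻¹ = l
    rw [h1, inv_inv]
  exact ⟨MulEquiv.ofBijective f ⟨hinj, hsurj⟩⟩

end basic

/-- concatenation of tuples as a group isomorphism -/
def appendEquiv (T : Type*) [Group T] (m n : ℕ) :
    (Fin m → T) × (Fin n → T) ≃* (Fin (m + n) → T) where
  toFun p := Fin.append p.1 p.2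
  invFun g := (fun i => g (Fin.castAdd n i), fun i => g (Fin.natAdd m i))
  left_inv p := by ext i <;> simp
  right_inv g := by
    funext i
    refine Fin.addCases (fun i => ?_) (fun i => ?_) i <;> simp
  map_mul' p q := by
    funext i
    refine Fin.addCases (fun i => ?_) (fun i => ?_) i <;> simp

theorem not_comm_of_equiv_pi {V T : Type*} [Group V] [Group T] (m : ℕ) (e : V ≃* (Fin m → T))
    (hV : ¬ IsMulCommutative V) : ¬ IsMulCommutative T := by
  intro hT
  apply hV
  rw [isMulCommutative_iff]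
  intro x y
  apply e.injective
  rw [map_mul, map_mul]
  funext i
  exact (isMulCommutative_iff.mp hT) _ _


theorem socle_primitive {G Ω : Type*} [Group G] [Finite G] [MulAction G Ω] [FaithfulSMul G Ω]
    [Finite Ω] (hprim : IsPreprimitive G Ω) (N : Subgroup G)
    (hN : N = sSup {V : Subgroup G | V.Normal ∧ V ≠ ⊥ ∧
      ∀ M : Subgroup G, M.Normal → M ≤ V → M = ⊥ ∨ M = V}) :
    (∃ p : ℕ, p.Prime ∧ IsMulCommutative N ∧ (∀ x : N, x ^ p = 1) ∧
      IsPretransitive N Ω ∧ ∀ ω : Ω, stabilizer N ω = ⊥) ∨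
    (∃ (T : Type) (_ : Group T) (m : ℕ), 1 ≤ m ∧ IsSimpleGroup T ∧ ¬ IsMulCommutative T ∧
      Nonempty (N ≃* (Fin m → T))) := by
  classical
  obtain ⟨𝒮, h𝒮⟩ : ∃ 𝒮 : Set (Subgroup G), 𝒮 = {V : Subgroup G | V.Normal ∧ V ≠ ⊥ ∧
      ∀ M : Subgroup G, M.Normal → M ≤ V → M = ⊥ ∨ M = V} := ⟨_, rfl⟩
  rw [← h𝒮] at hN
  have hmem : ∀ V, V ∈ 𝒮 ↔ (V.Normal ∧ V ≠ ⊥ ∧
      ∀ M : Subgroup G, M.Normal → M ≤ V → M = ⊥ ∨ M = V) := by
    intro V; rw [h𝒮]; rfl
  haveI := hprim
  by_cases hG : Nontrivial G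
  swap
  · left
    haveI : Subsingleton G := not_nontrivial_iff_subsingleton.mp hG
    refine ⟨2, Nat.prime_two, ⟨⟨fun a b => Subsingleton.elim _ _⟩⟩,
      fun x => Subsingleton.elim _ _, ?_, ?_⟩
    · refine ⟨fun x y => ?_⟩
      obtain ⟨g, hg⟩ := MulAction.exists_smul_eq G x y
      refine ⟨1, ?_⟩
      rw [one_smul, ← hg, Subsingleton.elim g 1, one_smul]
    · intro ω
      rw [Subgroup.eq_bot_iff_forall]
      intro x _
      exact Subsingleton.elim _ _
  haveI hne : Nonempty Ω := by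
    by_contra hemp
    rw [not_nonempty_iff] at hemp
    obtain ⟨g, hg⟩ := exists_ne (1 : G)
    apply hg
    apply FaithfulSMul.eq_of_smul_eq_smul (α := Ω)
    intro a
    exact (hemp.false a).elim
  have htr : ∀ V ∈ 𝒮, IsPretransitive V Ω := by
    intro V hV
    obtain ⟨hVn, hV0, _⟩ := (hmem V).mp hV
    haveI := hVn
    exact Cfsg.Agent.Lib_helper4_Perm.isPretransitive_of_normal_ne_bot V hV0
  have hdisj : ∀ V ∈ 𝒮, ∀ W ∈ 𝒮, W ≠ V → ∀ w ∈ W, ∀ v ∈ V, w * v = v * w := by
    intro V hV W hW hne w hw v hv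
    obtain ⟨hVn, hV0, hVmin⟩ := (hmem V).mp hV
    obtain ⟨hWn, hW0, hWmin⟩ := (hmem W).mp hW
    haveI := hVn; haveI := hWn
    have hinf : W ⊓ V = ⊥ := by
      rcases hWmin (W ⊓ V) inferInstance inf_le_left with h | h
      · exact h
      · exfalso
        have hWV : W ≤ V := by rw [← h]; exact inf_le_right
        rcases hVmin W hWn hWV with h' | h'
        · exact hW0 h'
        · exact hne h'
    exact (Subgroup.commute_of_normal_of_disjoint W V hWn hVn (disjoint_iff.mpr hinf) w v hw hv).eq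
  obtain ⟨V₁, hV₁⟩ : ∃ V, V ∈ 𝒮 := by
    obtain ⟨V, ⟨hVn, hV0⟩, hVmin⟩ := Cfsg.Agent.Lib_helper1_Basic.exists_minimal_subgroup
      (fun T : Subgroup G => T.Normal ∧ T ≠ ⊥) ⟨⊤, inferInstance, top_ne_bot⟩
    refine ⟨V, (hmem V).mpr ⟨hVn, hV0, ?_⟩⟩
    intro M hM hMV
    by_cases hM0 : M = ⊥
    · left; exact hM0
    · right; exact hVmin M ⟨hM, hM0⟩ hMV
  by_cases hab : ∃ V ∈ 𝒮, IsMulCommutative V
  · left
    obtain ⟨V, hV, hVc⟩ := hab
    obtain ⟨hVn, hV0, hVmin⟩ := (hmem V).mp hV
    haveI := hVn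
    haveI hVt := htr V hV
    have hcomm : ∀ x ∈ V, ∀ y ∈ V, x * y = y * x := by
      intro x hx y hy
      exact congrArg Subtype.val ((isMulCommutative_iff.mp hVc) ⟨x, hx⟩ ⟨y, hy⟩)
    have huniq : ∀ W ∈ 𝒮, W = V := by
      intro W hW
      by_contra hne
      obtain ⟨hWn, hW0, hWmin⟩ := (hmem W).mp hW
      have hWV : W ≤ V := by
        intro w hw
        exact mem_of_centralizes (Ω := Ω) V V hcomm w (fun v hv => hdisj V hV W hW hne w hw v hv)
      rcases hVmin W hWn hWV with h | h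
      · exact hW0 h
      · exact hne h
    have hNV : N = V := by
      rw [hN]
      apply le_antisymm
      · apply sSup_le; intro W hW; rw [huniq W hW]
      · exact le_sSup hV
    obtain ⟨u, N', hu, hN'n, hN'V, hN'0, hN'u⟩ :=
      Cfsg.Agent.Lib_helper9_ThreePrimes2.exists_normal_pgroup V
        (Group.isSolvable_of_comm (isMulCommutative_iff.mp hVc)) hV0
    have hN'eq : N' = V := by
      rcases hVmin N' hN'n hN'V with h | h
      · exact absurd h hN'0
      · exact h
    rw [hNV]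
    refine ⟨u, hu, hVc, ?_, hVt, ?_⟩
    · intro x
      apply Subtype.ext
      rw [Subgroup.coe_pow]
      exact hN'u x (by rw [hN'eq]; exact x.2)
    · intro ω
      rw [Subgroup.eq_bot_iff_forall]
      intro x hx
      apply Subtype.ext
      exact eq_one_of_centralizes V (x : G) (fun v hv => hcomm x x.2 v hv) ω hx
  · right
    push Not at hab
    obtain ⟨hV₁n, hV₁0, hV₁min⟩ := (hmem V₁).mp hV₁
    haveI := hV₁n
    obtain ⟨T, instT, m, hTs, hm, ⟨e⟩⟩ := Cfsg.Agent.S0721.result V₁ hV₁0 hV₁min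
    have hTna : ¬ IsMulCommutative T := not_comm_of_equiv_pi m e (hab V₁ hV₁)
    by_cases hall : ∀ W ∈ 𝒮, W = V₁
    · have hNV : N = V₁ := by
        rw [hN]
        apply le_antisymm
        · apply sSup_le; intro W hW; rw [hall W hW]
        · exact le_sSup hV₁
      rw [hNV]
      exact ⟨T, instT, m, hm, hTs, hTna, ⟨e⟩⟩
    · push Not at hall
      obtain ⟨V₂, hV₂, hne⟩ := hall
      obtain ⟨hV₂n, hV₂0, hV₂min⟩ := (hmem V₂).mp hV₂
      haveI := hV₂n
      haveI := htr V₁ hV₁
      haveI := htr V₂ hV₂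
      have hc21 : ∀ w ∈ V₂, ∀ v ∈ V₁, w * v = v * w := hdisj V₁ hV₁ V₂ hV₂ hne
      have honly : ∀ W ∈ 𝒮, W = V₁ ∨ W = V₂ := by
        intro W hW
        by_cases hW1 : W = V₁
        · left; exact hW1
        · right
          obtain ⟨hWn, hW0, hWmin⟩ := (hmem W).mp hW
          have hWV : W ≤ V₂ := by
            intro w hw
            exact mem_of_centralizes (Ω := Ω) V₁ V₂ hc21 w
              (fun v hv => hdisj V₁ hV₁ W hW hW1 w hw v hv)
          rcases hV₂min W hWn hWV with h | h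
          · exact absurd h hW0
          · exact h
      have hNV : N = V₁ ⊔ V₂ := by
        rw [hN]
        apply le_antisymm
        · apply sSup_le; intro W hW
          rcases honly W hW with h | h
          · rw [h]; exact le_sup_left
          · rw [h]; exact le_sup_right
        · exact sup_le (le_sSup hV₁) (le_sSup hV₂)
      have hdis : Disjoint V₁ V₂ := by
        rw [disjoint_iff]
        rcases hV₁min (V₁ ⊓ V₂) inferInstance inf_le_left with h | h
        · exact h
        · exfalso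
          have h12 : V₁ ≤ V₂ := by rw [← h]; exact inf_le_right
          rcases hV₂min V₁ hV₁n h12 with h' | h'
          · exact hV₁0 h'
          · exact hne h'.symm
      obtain ⟨e₁⟩ := Cfsg.Agent.Lib_helper4_CharSimple.nonempty_sup_equiv_prod V₁ V₂ hV₁n hV₂n hdis
      obtain ⟨e₂⟩ := iso_of_commuting (Ω := Ω) V₁ V₂ hc21
      rw [hNV]
      refine ⟨T, instT, m + m, by omega, hTs, hTna, ⟨?_⟩⟩
      exact e₁.trans ((MulEquiv.prodCongr e (e₂.symm.trans e)).trans (appendEquiv T m m))

end Cfsg.Agent.Lib_helper9_SocPrim
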