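import Mathlib
import Cfsg.Agent.Lib_helper9_AffPrim
import Cfsg.Agent.Lib_helper4_DihHom

set_option autoImplicit false

namespace Cfsg.Agent.Lib_helper9_Suborbit2

theorem normal_le_stab {G Ω : Type*} [Group G] [MulAction G Ω] [FaithfulSMul G Ω]
    [MulAction.IsPretransitive G Ω]
    (K : Subgroup G) [hK : K.Normal] (a : Ω) (hle : K ≤ MulAction.stabilizer G a) : K = ⊥ := by
  rw [eq_bot_iff]
  intro k hk
  rw [Subgroup.mem_bot]
  apply FaithfulSMul.eq_of_smul_eq_smul (α := Ω)
  intro ω
  obtain ⟨g, rfl⟩ := MulAction.exists_smul_eq G a ω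
  have h1 : (g⁻¹ * k * g⁻¹⁻¹) • a = a := hle (hK.conj_mem k hk g⁻¹)
  rw [one_smul]
  have h2 : k • g • a = g • (g⁻¹ * k * g⁻¹⁻¹) • a := by
    rw [← mul_smul, ← mul_smul]; congr 1; group
  rw [h2, h1]

theorem card_stab_two {G Ω : Type*} [Group G] [Finite G] [MulAction G Ω] [FaithfulSMul G Ω]
    [Finite Ω]
    (hprim : MulAction.IsPreprimitive G Ω) (a b : Ω)
    (h2 : Nat.card (MulAction.orbit (MulAction.stabilizer G a) b) = 2) :
    Nat.card (MulAction.stabilizer G a) = 2 ∧ a ≠ b := by
  haveI : MulAction.IsPretransitive G Ω := hprim.toIsPretransitive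
  have hstab : MulAction.stabilizer (MulAction.stabilizer G a) b =
      (MulAction.stabilizer G a ⊓ MulAction.stabilizer G b).subgroupOf (MulAction.stabilizer G a) := by
    ext x
    rw [MulAction.mem_stabilizer_iff, Subgroup.mem_subgroupOf, Subgroup.mem_inf]
    constructor
    · intro h; exact ⟨x.2, h⟩
    · intro h; exact h.2
  have hrel : (MulAction.stabilizer G a ⊓ MulAction.stabilizer G b).relIndex
      (MulAction.stabilizer G a) = 2 := by
    have := MulAction.index_stabilizer (G := MulAction.stabilizer G a) (x := b)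
    rw [hstab, ← Nat.card_coe_set_eq, h2] at this
    exact this
  have hne : a ≠ b := by
    rintro rfl
    rw [inf_idem, Subgroup.relIndex_self] at hrel
    omega
  haveI : Nontrivial Ω := ⟨⟨a, b, hne⟩⟩
  have hco : IsCoatom (MulAction.stabilizer G a) :=
    MulAction.IsPreprimitive.isCoatom_stabilizer_of_isPreprimitive G a
  have hKH : MulAction.stabilizer G a ⊓ MulAction.stabilizer G b ≤ MulAction.stabilizer G a :=
    inf_le_left
  have hKb : MulAction.stabilizer G a ⊓ MulAction.stabilizer G b ≤ MulAction.stabilizer G b :=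
    inf_le_right
  have hrel' : (MulAction.stabilizer G a ⊓ MulAction.stabilizer G b).relIndex
      (MulAction.stabilizer G b) = 2 := by
    have e1 := Subgroup.relIndex_mul_index hKH
    have e2 := Subgroup.relIndex_mul_index hKb
    have i1 : (MulAction.stabilizer G a).index = Nat.card Ω :=
      MulAction.index_stabilizer_of_transitive ..
    have i2 : (MulAction.stabilizer G b).index = Nat.card Ω :=
      MulAction.index_stabilizer_of_transitive ..
    rw [i1] at e1; rw [i2] at e2
    have hpos : 0 < Nat.card Ω := Nat.card_pos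
    have : (MulAction.stabilizer G a ⊓ MulAction.stabilizer G b).relIndex (MulAction.stabilizer G b)
        * Nat.card Ω = (MulAction.stabilizer G a ⊓ MulAction.stabilizer G b).relIndex
        (MulAction.stabilizer G a) * Nat.card Ω := by rw [e1, e2]
    rw [← hrel]; exact Nat.eq_of_mul_eq_mul_right hpos this
  have hn1 : MulAction.stabilizer G a ≤ Subgroup.normalizer
      ((MulAction.stabilizer G a ⊓ MulAction.stabilizer G b : Subgroup G) : Set G) := by
    haveI : ((MulAction.stabilizer G a ⊓ MulAction.stabilizer G b).subgroupOf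
        (MulAction.stabilizer G a)).Normal := Subgroup.normal_of_index_eq_two hrel
    exact (Subgroup.normal_subgroupOf_iff_le_normalizer hKH).mp inferInstance
  have hn2 : MulAction.stabilizer G b ≤ Subgroup.normalizer
      ((MulAction.stabilizer G a ⊓ MulAction.stabilizer G b : Subgroup G) : Set G) := by
    haveI : ((MulAction.stabilizer G a ⊓ MulAction.stabilizer G b).subgroupOf
        (MulAction.stabilizer G b)).Normal := Subgroup.normal_of_index_eq_two hrel'
    exact (Subgroup.normal_subgroupOf_iff_le_normalizer hKb).mp inferInstance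
  have hnle : ¬ MulAction.stabilizer G b ≤ MulAction.stabilizer G a := by
    intro hle
    rw [inf_eq_right.mpr hle, Subgroup.relIndex_self] at hrel'
    omega
  have htop : MulAction.stabilizer G a ⊔ MulAction.stabilizer G b = ⊤ := by
    apply hco.2
    refine lt_of_le_of_ne le_sup_left (fun h => hnle ?_)
    rw [h]; exact le_sup_right
  have hnorm : Subgroup.normalizer
      ((MulAction.stabilizer G a ⊓ MulAction.stabilizer G b : Subgroup G) : Set G) = ⊤ := by
    rw [eq_top_iff, ← htop]; exact sup_le hn1 hn2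
  haveI : (MulAction.stabilizer G a ⊓ MulAction.stabilizer G b).Normal :=
    Subgroup.normalizer_eq_top_iff.mp hnorm
  have hKbot := normal_le_stab (MulAction.stabilizer G a ⊓ MulAction.stabilizer G b) a hKH
  rw [hKbot, Subgroup.relIndex_bot_left] at hrel
  exact ⟨hrel, hne⟩

theorem dihedral_of_stab_two {G Ω : Type*} [Group G] [Finite G] [MulAction G Ω] [FaithfulSMul G Ω]
    [Finite Ω]
    (hprim : MulAction.IsPreprimitive G Ω) (a b : Ω) (hab : a ≠ b) (t : G) (ht1 : t ≠ 1)
    (hstab : ∀ g : G, g • a = a → g = 1 ∨ g = t) (hta : t • a = a) :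
    ∃ p : ℕ, p.Prime ∧ Nonempty (G ≃* DihedralGroup p) := by
  haveI : MulAction.IsPretransitive G Ω := hprim.toIsPretransitive
  haveI : Nontrivial Ω := ⟨⟨a, b, hab⟩⟩
  have hco : IsCoatom (MulAction.stabilizer G a) :=
    MulAction.IsPreprimitive.isCoatom_stabilizer_of_isPreprimitive G a
  have htt : t * t = 1 := by
    rcases hstab (t * t) (by rw [mul_smul, hta, hta]) with h | h
    · exact h
    · exfalso; apply ht1
      have : t * t = t * 1 := by rw [mul_one]; exact h
      exact mul_left_cancel this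
  have hti : t⁻¹ = t := inv_eq_of_mul_eq_one_left htt
  have hcent : ∀ g : G, g * t = t * g → g = 1 ∨ g = t := by
    intro g hg
    apply hstab
    by_contra hga
    have hnorm : g ∈ Subgroup.normalizer ((MulAction.stabilizer G a : Subgroup G) : Set G) := by
      rw [Subgroup.mem_normalizer_iff]
      intro x
      constructor
      · intro hx
        rcases hstab x hx with h1 | h1
        · rw [h1, mul_one, mul_inv_cancel]; exact Subgroup.one_mem _
        · rw [h1, hg, mul_inv_cancel_right]; exact hta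
      · intro hx
        rcases hstab _ hx with h | h
        · have : x = 1 := by
            have e : x = g⁻¹ * (g * x * g⁻¹) * g := by group
            rw [e, h]; group
          rw [this]; exact Subgroup.one_mem _
        · have hx' : x = t := by
            have e : x = g⁻¹ * (g * x * g⁻¹) * g := by group
            rw [e, h, mul_assoc, ← hg, inv_mul_cancel_left]
          rw [hx']; exact hta
    have hle : MulAction.stabilizer G a ≤
        Subgroup.normalizer ((MulAction.stabilizer G a : Subgroup G) : Set G) := Subgroup.le_normalizer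
    rcases eq_or_lt_of_le hle with heq | hlt
    · rw [← heq] at hnorm; exact hga hnorm
    · have htop := hco.2 _ hlt
      haveI : (MulAction.stabilizer G a).Normal := Subgroup.normalizer_eq_top_iff.mp htop
      have hbot := normal_le_stab (MulAction.stabilizer G a) a le_rfl
      have : t ∈ (⊥ : Subgroup G) := by rw [← hbot]; exact hta
      exact ht1 (Subgroup.mem_bot.mp this)
  have hfixt : ∀ c : Ω, t • c = c → c = a := by
    intro c hc
    obtain ⟨h, rfl⟩ := MulAction.exists_smul_eq G a c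
    have h1 : (h⁻¹ * t * h) • a = a := by
      rw [mul_smul, mul_smul, hc, inv_smul_smul]
    rcases hstab _ h1 with h2 | h2
    · exfalso; apply ht1
      have e : t = h * (h⁻¹ * t * h) * h⁻¹ := by group
      rw [e, h2]; group
    · have h3 : h * t = t * h := by
        have e : t * h = h * (h⁻¹ * t * h) := by group
        rw [e, h2]
      rcases hcent h h3 with h4 | h4
      · rw [h4]; exact one_smul _ _
      · rw [h4]; exact hta
  have hconjsq : ∀ c : G, (c * t * c⁻¹) * (c * t * c⁻¹) = 1 := by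
    intro c
    have : (c * t * c⁻¹) * (c * t * c⁻¹) = c * (t * t) * c⁻¹ := by group
    rw [this, htt]; group
  have hconjne : ∀ c : G, c * t * c⁻¹ ≠ 1 := by
    intro c h
    apply ht1
    have e : t = c⁻¹ * (c * t * c⁻¹) * c := by group
    rw [e, h]; group
  have hinv : ∀ c : G, (c * t * c⁻¹ * t) * (c * t * c⁻¹ * t) = 1 → c * t * c⁻¹ = t := by
    intro c h
    have hcomm : (c * t * c⁻¹) * t = t * (c * t * c⁻¹) := by
      have e1 : (c * t * c⁻¹ * t)⁻¹ = c * t * c⁻¹ * t := inv_eq_of_mul_eq_one_left h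
      have e2 : (c * t * c⁻¹)⁻¹ = c * t * c⁻¹ := inv_eq_of_mul_eq_one_left (hconjsq c)
      calc (c * t * c⁻¹) * t = (c * t * c⁻¹ * t)⁻¹ := e1.symm
        _ = t⁻¹ * (c * t * c⁻¹)⁻¹ := mul_inv_rev _ _
        _ = t * (c * t * c⁻¹) := by rw [hti, e2]
    rcases hcent _ hcomm with h1 | h1
    · exact absurd h1 (hconjne c)
    · exact h1
  choose c hc using fun ω => MulAction.exists_smul_eq G a ω
  have hfinj : Function.Injective (fun ω => (c ω * t * (c ω)⁻¹) • a) := by
    intro ω ω' h
    have h0 : (c ω * t * (c ω)⁻¹) • a = (c ω' * t * (c ω')⁻¹) • a := h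
    have h' : ((c ω * t * (c ω)⁻¹)⁻¹ * (c ω' * t * (c ω')⁻¹)) • a = a := by
      rw [mul_smul, ← h0, inv_smul_smul]
    rcases hstab _ h' with h1 | h1
    · have hss : c ω * t * (c ω)⁻¹ = c ω' * t * (c ω')⁻¹ := by
        rw [inv_mul_eq_one] at h1; exact h1
      have h2 : t • ((c ω)⁻¹ • ω') = (c ω)⁻¹ • ω' := by
        have h3 : (c ω' * t * (c ω')⁻¹) • ω' = ω' := by
          rw [mul_smul, mul_smul, inv_smul_eq_iff.mpr (hc ω').symm, hta, hc]
        rw [← hss] at h3
        rw [mul_smul, mul_smul] at h3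
        rw [smul_eq_iff_eq_inv_smul] at h3; exact h3
      have h4 := hfixt _ h2
      rw [inv_smul_eq_iff] at h4
      rw [h4, hc]
    · exfalso
      have hs' : c ω' * t * (c ω')⁻¹ = c ω * t * (c ω)⁻¹ * t := by
        rw [inv_mul_eq_iff_eq_mul] at h1; exact h1
      have hsq : (c ω * t * (c ω)⁻¹ * t) * (c ω * t * (c ω)⁻¹ * t) = 1 := by
        rw [← hs']; exact hconjsq _
      have h5 := hinv _ hsq
      rw [h5, htt] at hs'
      exact hconjne _ hs'
  have hfsurj := Finite.injective_iff_surjective.mp hfinj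
  have hcl : ∀ g : G, ∃ e : G, g = e * t * e⁻¹ ∨ g = e * t * e⁻¹ * t := by
    intro g
    obtain ⟨ω', hω'⟩ := hfsurj (g • a)
    have hω'' : (c ω' * t * (c ω')⁻¹) • a = g • a := hω'
    have h' : ((c ω' * t * (c ω')⁻¹)⁻¹ * g) • a = a := by
      rw [mul_smul, ← hω'', inv_smul_smul]
    refine ⟨c ω', ?_⟩
    rcases hstab _ h' with h1 | h1
    · left; rw [inv_mul_eq_one] at h1; exact h1.symm
    · right; rw [inv_mul_eq_iff_eq_mul] at h1; exact h1
  have hdisj : ∀ e d : G, e * t * e⁻¹ ≠ d * t * d⁻¹ * t := by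
    intro e d h
    have hsq : (d * t * d⁻¹ * t) * (d * t * d⁻¹ * t) = 1 := by
      rw [← h]; exact hconjsq e
    have h5 := hinv _ hsq
    rw [h5, htt] at h
    exact hconjne _ h
  have hXconj : ∀ g : G, (∃ d, g = d * t * d⁻¹ * t) → ∀ e : G,
      ∃ d', e * g * e⁻¹ = d' * t * d'⁻¹ * t := by
    rintro g ⟨d, rfl⟩ e
    obtain ⟨d', h | h⟩ := hcl (e * (d * t * d⁻¹ * t) * e⁻¹)
    · exfalso
      apply hdisj (e⁻¹ * d') d
      have : d * t * d⁻¹ * t = e⁻¹ * (e * (d * t * d⁻¹ * t) * e⁻¹) * e := by group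
      rw [this, h]; group
    · exact ⟨d', h⟩
  let X : Subgroup G :=
    { carrier := {g | ∃ d, g = d * t * d⁻¹ * t}
      one_mem' := ⟨1, by simp [htt]⟩
      mul_mem' := by
        rintro x y ⟨d₁, rfl⟩ ⟨d₂, rfl⟩
        obtain ⟨d', h⟩ := hXconj ((t * d₂)⁻¹ * d₁ * t * ((t * d₂)⁻¹ * d₁)⁻¹ * t) ⟨_, rfl⟩ (t * d₂)
        refine ⟨d', ?_⟩
        rw [← h]
        have : (t * d₂) * ((t * d₂)⁻¹ * d₁ * t * ((t * d₂)⁻¹ * d₁)⁻¹ * t) * (t * d₂)⁻¹
            = d₁ * t * d₁⁻¹ * t * (d₂ * t * d₂⁻¹ * t⁻¹) := by group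
        rw [this, hti]
      inv_mem' := by
        rintro x ⟨d, rfl⟩
        refine ⟨t * d, ?_⟩
        have e1 : (d * t * d⁻¹ * t)⁻¹ = t⁻¹ * d * t⁻¹ * d⁻¹ := by group
        have e2 : t * d * t * (t * d)⁻¹ * t = t * d * t * d⁻¹ * (t⁻¹ * t) := by group
        rw [e1, hti, e2, hti, htt, mul_one] }
  have htX : t ∉ X := by
    rintro ⟨d, hd⟩
    apply hdisj 1 d
    rw [one_mul, inv_one, mul_one]; exact hd
  have hXinv : ∀ x ∈ X, t * x * t⁻¹ = x⁻¹ := by
    rintro x ⟨d, rfl⟩
    have e1 : t * (d * t * d⁻¹ * t) * t⁻¹ = t * d * t * d⁻¹ := by group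
    have e2 : (d * t * d⁻¹ * t)⁻¹ = t⁻¹ * d * t⁻¹ * d⁻¹ := by group
    rw [e1, e2, hti]
  have hnotX : ∀ g : G, g ∉ X → t * g ∈ X := by
    intro g hg
    obtain ⟨e, h | h⟩ := hcl g
    · refine ⟨t * e, ?_⟩
      rw [h]
      have e2 : t * e * t * (t * e)⁻¹ * t = t * (e * t * e⁻¹) * (t⁻¹ * t) := by group
      rw [e2, hti, htt, mul_one]
    · exact absurd ⟨e, h⟩ hg
  have hsimple : ∀ Y : Subgroup G, Y ≤ X → Y = ⊥ ∨ Y = X := by
    intro Y hYX
    have hYn : MulAction.stabilizer G a ≤ Subgroup.normalizer (Y : Set G) := by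
      intro h hh
      rw [Subgroup.mem_normalizer_iff]
      rcases hstab h hh with h1 | h1
      · intro x; rw [h1, one_mul, inv_one, mul_one]
      · intro x
        rw [h1]
        constructor
        · intro hx; rw [hXinv x (hYX hx)]; exact Y.inv_mem hx
        · intro hx
          have h2 := hXinv _ (hYX hx)
          have h3 : t * (t * x * t⁻¹) * t⁻¹ = x := by
            rw [hti]
            calc t * (t * x * t) * t = (t * t) * x * (t * t) := by group
              _ = x := by rw [htt, one_mul, mul_one]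
          rw [h3] at h2
          rw [h2]; exact Y.inv_mem hx
    have hle : MulAction.stabilizer G a ≤ Y ⊔ MulAction.stabilizer G a := le_sup_right
    rcases eq_or_lt_of_le hle with heq | hlt
    · left
      rw [eq_bot_iff]
      intro y hy
      have h1 : y ∈ Y ⊔ MulAction.stabilizer G a := Subgroup.mem_sup_left hy
      rw [← heq] at h1
      rcases hstab y h1 with h | h
      · exact Subgroup.mem_bot.mpr h
      · exfalso; apply htX; rw [← h]; exact hYX hy
    · right
      have htop := hco.2 _ hlt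
      apply le_antisymm hYX
      intro x hx
      obtain ⟨y, hy, h, hh, rfl⟩ := Lib_helper9_AffPrim.mem_sup_of_le_normalizer Y _ hYn x
        (by rw [htop]; exact Subgroup.mem_top x)
      rcases hstab h hh with h1 | h1
      · rw [h1, mul_one]; exact hy
      · exfalso; apply htX
        have : t = y⁻¹ * (y * h) := by rw [h1]; group
        rw [this]; exact X.mul_mem (X.inv_mem (hYX hy)) hx
  obtain ⟨g0, hg0⟩ := MulAction.exists_smul_eq G a b
  have hx0 : g0 * t * g0⁻¹ * t ∈ X := ⟨g0, rfl⟩
  have hx01 : g0 * t * g0⁻¹ * t ≠ 1 := by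
    intro h
    have h1 : g0 * t * g0⁻¹ = t := by
      have := mul_eq_one_iff_eq_inv.mp h
      rw [this, hti]
    have h2 : t • b = b := by
      rw [← hg0]
      calc t • g0 • a = (g0 * t * g0⁻¹) • g0 • a := by rw [h1]
        _ = g0 • a := by rw [mul_smul, mul_smul, inv_smul_smul, hta]
    exact hab (hfixt b h2).symm
  have ho : orderOf (g0 * t * g0⁻¹ * t) ≠ 1 := by rwa [Ne, orderOf_eq_one_iff]
  obtain ⟨p, hp, hpd⟩ := Nat.exists_prime_and_dvd ho
  obtain ⟨m, hm⟩ := hpd
  have hm0 : m ≠ 0 := by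
    rintro rfl
    rw [mul_zero] at hm
    exact (orderOf_pos _).ne' hm
  obtain ⟨r, hr⟩ : ∃ r : G, r = (g0 * t * g0⁻¹ * t) ^ m := ⟨_, rfl⟩
  have hro : orderOf r = p := by
    rw [hr, orderOf_pow_of_dvd hm0 ⟨p, by rw [hm, mul_comm]⟩, hm,
      Nat.mul_div_cancel _ (Nat.pos_of_ne_zero hm0)]
  have hrX : r ∈ X := by rw [hr]; exact X.pow_mem hx0 m
  have hr1 : r ≠ 1 := by
    intro h; rw [h, orderOf_one] at hro; exact hp.one_lt.ne hro
  have hzr : Subgroup.zpowers r = X := by
    rcases hsimple (Subgroup.zpowers r) (by rw [Subgroup.zpowers_le]; exact hrX) with h | h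
    · exfalso; apply hr1
      have : r ∈ (⊥ : Subgroup G) := by rw [← h]; exact Subgroup.mem_zpowers r
      exact Subgroup.mem_bot.mp this
    · exact h
  haveI : NeZero p := ⟨hp.ne_zero⟩
  refine ⟨p, hp, Lib_helper4_DihHom.dih_equiv p r t hro (hXinv r hrX) htt ?_ ?_⟩
  · intro k hk
    apply htX
    rw [hk]; exact X.pow_mem hrX k
  · intro g
    have hpow : ∀ x ∈ X, ∃ k : ℕ, x = r ^ k := by
      intro x hx
      rw [← hzr] at hx
      have := (mem_powers_iff_mem_zpowers (x := r)).mpr hx
      obtain ⟨k, hk⟩ := this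
      exact ⟨k, hk.symm⟩
    by_cases hg : g ∈ X
    · obtain ⟨k, hk⟩ := hpow g hg
      exact ⟨k, Or.inl hk⟩
    · obtain ⟨k, hk⟩ := hpow _ (hnotX g hg)
      refine ⟨k, Or.inr ?_⟩
      rw [← hk, ← mul_assoc, htt, one_mul]

theorem s3684 {G Ω : Type*} [Group G] [Finite G] [MulAction G Ω] [FaithfulSMul G Ω] [Finite Ω]
    (hprim : MulAction.IsPreprimitive G Ω) (a b : Ω)
    (h2 : Nat.card (MulAction.orbit (MulAction.stabilizer G a) b) = 2) :
    Nat.card (MulAction.stabilizer G a) = 2 ∧
      ∃ p : ℕ, p.Prime ∧ Nonempty (G ≃* DihedralGroup p) := by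
  obtain ⟨hcard, hab⟩ := card_stab_two hprim a b h2
  refine ⟨hcard, ?_⟩
  obtain ⟨t', ht', huniq⟩ := (Nat.card_eq_two_iff' (1 : MulAction.stabilizer G a)).mp hcard
  apply dihedral_of_stab_two hprim a b hab (t' : G)
  · intro h; exact ht' (Subtype.ext h)
  · intro g hg
    by_cases h1 : g = 1
    · exact Or.inl h1
    · right
      have := huniq ⟨g, hg⟩ (fun h => h1 (congrArg Subtype.val h))
      exact congrArg Subtype.val this
  · exact t'.2

end Cfsg.Agent.Lib_helper9_Suborbit2
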