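import Mathlib
import Cfsg.Agent.Lib_helper7_Extremal

namespace Cfsg.Agent.Lib_helper9_SylC2D8

theorem chi_mul : ∀ a b : Multiplicative (ZMod 2),
    (if a * b = 1 then (1 : ℤˣ) else -1) =
      (if a = 1 then 1 else -1) * (if b = 1 then 1 else -1) := by decide

def psi : Multiplicative (ZMod 2) × DihedralGroup 4 →* ℤˣ where
  toFun x := if x.1 = 1 then 1 else -1
  map_one' := by simp
  map_mul' x y := chi_mul x.1 y.1

theorem psi_apply (x : Multiplicative (ZMod 2) × DihedralGroup 4) :
    psi x = if x.1 = 1 then 1 else -1 := rfl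

theorem fa : ∀ x : Multiplicative (ZMod 2) × DihedralGroup 4, (∀ y, x * y = y * x) → x.1 = 1 →
    x = 1 ∨ x = (1, DihedralGroup.r 2) := by decide

theorem fb : ∀ a : Multiplicative (ZMod 2), a * a = 1 := by decide

theorem fc : ((1 : Multiplicative (ZMod 2)), (DihedralGroup.r 2 : DihedralGroup 4)) =
    (1, DihedralGroup.r 1) * (1, DihedralGroup.r 1) := by decide

theorem cent_c : ∀ x : Multiplicative (ZMod 2) × DihedralGroup 4,
    ((Multiplicative.ofAdd (1 : ZMod 2), (1 : DihedralGroup 4)) :
      Multiplicative (ZMod 2) × DihedralGroup 4) * x = x * (Multiplicative.ofAdd 1, 1) := by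
  decide

theorem c_ne_one : ((Multiplicative.ofAdd (1 : ZMod 2), (1 : DihedralGroup 4)) :
    Multiplicative (ZMod 2) × DihedralGroup 4) ≠ 1 := by decide

theorem c_sq : ((Multiplicative.ofAdd (1 : ZMod 2), (1 : DihedralGroup 4)) :
    Multiplicative (ZMod 2) × DihedralGroup 4) ^ 2 = 1 := by decide

theorem ofAdd_ne : (Multiplicative.ofAdd (1 : ZMod 2)) ≠ 1 := by decide

theorem main {G : Type*} [Group G] [Finite G] (S : Sylow 2 G)
    (e : ↥(S : Subgroup G) ≃* Multiplicative (ZMod 2) × DihedralGroup 4) :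
    ∃ t : G, MonoidHom.transfer ((psi.comp e.toMonoidHom) : ↥(S : Subgroup G) →* ℤˣ) t ≠ 1 := by
  obtain ⟨c, hc⟩ : ∃ c : ↥(S : Subgroup G), c = e.symm (Multiplicative.ofAdd 1, 1) := ⟨_, rfl⟩
  have hec : e c = (Multiplicative.ofAdd 1, 1) := by rw [hc]; exact e.apply_symm_apply _
  have hϕc : (psi.comp e.toMonoidHom) c = -1 := by
    show psi (e c) = -1
    rw [hec, psi_apply, if_neg ofAdd_ne]
  have hc1 : (c : G) ≠ 1 := by
    intro h
    have h1 : c = 1 := Subtype.ext h
    rw [h1, map_one] at hec
    exact c_ne_one hec.symm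
  have hc2 : (c : G) ^ 2 = 1 := by
    have h1 : c ^ 2 = 1 := by
      apply e.injective
      rw [map_pow, hec, c_sq]
      exact (map_one e).symm
    have h2 := congrArg Subtype.val h1
    exact h2
  have hcent : ∀ s : ↥(S : Subgroup G), c * s = s * c := by
    intro s
    apply e.injective
    rw [map_mul, map_mul, hec]
    exact cent_c (e s)
  refine ⟨(c : G), ?_⟩
  haveI : Fact (Nat.Prime 2) := ⟨Nat.prime_two⟩
  apply Cfsg.Agent.Lib_helper7_Extremal.transfer_ne_one S (psi.comp e.toMonoidHom)
    (fun a b _ _ ha hb => by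
      rcases Int.units_eq_one_or a with h | h
      · exact absurd h ha
      · rcases Int.units_eq_one_or b with h' | h'
        · exact absurd h' hb
        · rw [h, h'])
    (c : G) (orderOf_eq_prime hc2 hc1) c.2
  · show (psi.comp e.toMonoidHom) c ≠ 1
    rw [hϕc]; decide
  · intro h hsub hm
    have hS : ∀ s ∈ (S : Subgroup G), h * s * h⁻¹ ∈ (S : Subgroup G) := by
      intro s hs
      apply hsub
      refine ⟨s, ⟨hs, ?_⟩, rfl⟩
      show s ∈ Subgroup.centralizer ({(c : G)} : Set G)
      rw [Cfsg.Agent.Lib_helper7_Extremal.mem_cent_single]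
      exact congrArg Subtype.val (hcent ⟨s, hs⟩)
    obtain ⟨κ, hκ⟩ : ∃ κ : ↥(S : Subgroup G) → ↥(S : Subgroup G),
        ∀ s, ((κ s : ↥(S : Subgroup G)) : G) = h * s * h⁻¹ :=
      ⟨fun s => ⟨h * s * h⁻¹, hS s s.2⟩, fun s => rfl⟩
    have hκinj : Function.Injective κ := by
      intro a b hab
      have h1 := congrArg Subtype.val hab
      rw [hκ, hκ] at h1
      exact Subtype.ext (mul_left_cancel (mul_right_cancel h1))
    have hκsurj : Function.Surjective κ := Finite.surjective_of_injective hκinj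
    have hκmul : ∀ a b, κ (a * b) = κ a * κ b := by
      intro a b
      apply Subtype.ext
      rw [Subgroup.coe_mul, hκ, hκ, hκ, Subgroup.coe_mul]
      group
    intro hϕu
    have hu : (⟨h * (c : G) * h⁻¹, hm⟩ : ↥(S : Subgroup G)) = κ c := Subtype.ext (hκ c).symm
    rw [hu] at hϕu
    have hucent : ∀ y : Multiplicative (ZMod 2) × DihedralGroup 4,
        e (κ c) * y = y * e (κ c) := by
      intro y
      obtain ⟨s, hs⟩ := hκsurj (e.symm y)
      have h1 : κ c * κ s = κ s * κ c := by
        rw [← hκmul, ← hκmul, hcent s]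
      have h3 := congrArg e h1
      rw [map_mul, map_mul, hs, e.apply_symm_apply] at h3
      exact h3
    have hfst : (e (κ c)).1 = 1 := by
      by_contra hne
      have h1 : (psi.comp e.toMonoidHom) (κ c) = -1 := by
        show psi (e (κ c)) = -1
        rw [psi_apply, if_neg hne]
      rw [h1] at hϕu
      exact absurd hϕu (by decide)
    rcases fa (e (κ c)) hucent hfst with h1 | h1
    · have h2 : κ c = 1 := e.injective (by rw [h1, map_one])
      have h3 := congrArg Subtype.val h2
      rw [hκ] at h3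
      apply hc1
      calc (c : G) = h⁻¹ * (h * c * h⁻¹) * h := by group
        _ = 1 := by rw [h3]; simp
    · obtain ⟨x, hx⟩ := hκsurj (e.symm (1, DihedralGroup.r 1))
      have h2 : κ c = κ (x * x) := by
        rw [hκmul, hx]
        apply e.injective
        rw [h1, map_mul, e.apply_symm_apply]
        exact fc
      have h4 : c = x * x := hκinj h2
      have h5 : (e c).1 = (e (x * x)).1 := by rw [← h4]
      rw [hec, map_mul, Prod.fst_mul, fb] at h5
      exact ofAdd_ne h5

theorem s3309 {G : Type*} [Group G] [Finite G] (S : Sylow 2 G)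
    (hS : Nonempty (↥(S : Subgroup G) ≃* Multiplicative (ZMod 2) × DihedralGroup 4))
    [IsSimpleGroup G] (hG : ¬ IsMulCommutative G) : False := by
  obtain ⟨e⟩ := hS
  obtain ⟨t, ht⟩ := main S e
  have hnorm : (MonoidHom.transfer (psi.comp e.toMonoidHom)).ker.Normal := inferInstance
  rcases hnorm.eq_bot_or_eq_top with h | h
  · apply hG
    refine ⟨⟨fun a b => ?_⟩⟩
    have hinj := (MonoidHom.ker_eq_bot_iff _).mp h
    apply hinj
    rw [map_mul, map_mul, mul_comm]
  · apply ht
    have h1 : t ∈ (MonoidHom.transfer (psi.comp e.toMonoidHom)).ker := by rw [h]; trivial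
    exact MonoidHom.mem_ker.mp h1

end Cfsg.Agent.Lib_helper9_SylC2D8
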