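import Mathlib
import Cfsg.Prelude.Def_Transfer
import Cfsg.Agent.Lib_helper1_Frobenius
import Cfsg.Agent.Lib_helper2_DihSyl

set_option autoImplicit false

namespace Cfsg.Agent.Lib_helper9_TameFrob

open Cfsg Cfsg.Agent.Lib_helper7_Alperin Cfsg.Agent.Lib_helper7_AlperinP
open Cfsg.Agent.Lib_helper1_Frobenius

universe u

/-- if `N(T)/C(T)` is a `p`-group and `P ∩ N(T)` is Sylow in `N(T)` then `N(T) = C(T)(P ∩ N(T))`,
so every element of `N(T)` acts on `T` like an element of `P`. -/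
theorem step' {G : Type*} [Group G] [Finite G] {p : ℕ} [Fact p.Prime] (P : Sylow p G)
    (T : Subgroup G)
    (hquot : IsPGroup p (Subgroup.normalizer (T : Set G) ⧸
      (Subgroup.centralizer (T : Set G)).subgroupOf (Subgroup.normalizer (T : Set G))))
    (hS : ¬ p ∣ ((P : Subgroup G) ⊓ Subgroup.normalizer (T : Set G)).relIndex
      (Subgroup.normalizer (T : Set G)))
    (x : G) (hx : x ∈ Subgroup.normalizer (T : Set G)) :
    ∃ u ∈ (P : Subgroup G), ∀ t ∈ T, x⁻¹ * t * x = u⁻¹ * t * u := by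
  have hp : p.Prime := Fact.out
  obtain ⟨k, hk⟩ := hquot.exists_card_eq
  have h1 : (Subgroup.centralizer (T : Set G)).relIndex (Subgroup.normalizer (T : Set G)) =
      p ^ k := by
    rw [Subgroup.relIndex, Subgroup.index_eq_card]; exact hk
  obtain ⟨N, hN⟩ : ∃ N : Subgroup G, N = Subgroup.normalizer (T : Set G) := ⟨_, rfl⟩
  obtain ⟨C, hC⟩ : ∃ C : Subgroup G, C = Subgroup.centralizer (T : Set G) := ⟨_, rfl⟩
  rw [← hN] at hS hx h1
  rw [← hC] at h1
  have h2 : (C ⊔ ((P : Subgroup G) ⊓ N)).relIndex N ∣ C.relIndex N :=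
    Subgroup.relIndex_dvd_of_le_left N le_sup_left
  have h3 : (C ⊔ ((P : Subgroup G) ⊓ N)).relIndex N ∣ ((P : Subgroup G) ⊓ N).relIndex N :=
    Subgroup.relIndex_dvd_of_le_left N le_sup_right
  have h4 : (C ⊔ ((P : Subgroup G) ⊓ N)).relIndex N = 1 := by
    rw [h1] at h2
    obtain ⟨j, -, hj⟩ := (Nat.dvd_prime_pow hp).mp h2
    rcases Nat.eq_zero_or_pos j with rfl | hjpos
    · simpa using hj
    · exfalso; apply hS
      refine dvd_trans ?_ h3
      rw [hj]; exact dvd_pow_self p (by omega)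
  have h5 : N ≤ C ⊔ ((P : Subgroup G) ⊓ N) := Subgroup.relIndex_eq_one.mp h4
  have h6 : x ∈ Subgroup.centralizer (T : Set G) ⊔ ((P : Subgroup G) ⊓ N) := by
    rw [← hC]; exact h5 hx
  obtain ⟨c, hc, s, hs, hcs⟩ := Cfsg.Agent.Lib_helper2_DihSyl.mem_sup_centralizer T
    ((P : Subgroup G) ⊓ N) (by rw [hN]; exact inf_le_right) h6
  refine ⟨s, hs.1, fun t ht => ?_⟩
  rw [← hcs]
  have hct : c * t = t * c := ((Subgroup.mem_centralizer_iff.mp hc) t ht).symm
  calc (c * s)⁻¹ * t * (c * s) = s⁻¹ * (c⁻¹ * (t * c)) * s := by group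
    _ = s⁻¹ * (c⁻¹ * (c * t)) * s := by rw [hct]
    _ = s⁻¹ * t * s := by group

theorem s4251 {G : Type u} [Group G] [Finite G] (p : ℕ) [Fact p.Prime] (P : Sylow p G)
    (h : ∀ Q : Sylow p G, (P : Subgroup G) ⊓ (Q : Subgroup G) ≠ ⊥ → (¬ p ∣ ((P : Subgroup G) ⊓ Subgroup.normalizer (((P : Subgroup G) ⊓ (Q : Subgroup G) : Subgroup G) : Set G)).relIndex (Subgroup.normalizer (((P : Subgroup G) ⊓ (Q : Subgroup G) : Subgroup G) : Set G)) ∧ ¬ p ∣ ((Q : Subgroup G) ⊓ Subgroup.normalizer (((P : Subgroup G) ⊓ (Q : Subgroup G) : Subgroup G) : Set G)).relIndex (Subgroup.normalizer (((P : Subgroup G) ⊓ (Q : Subgroup G) : Subgroup G) : Set G))) →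
      IsPGroup p (Subgroup.normalizer (((P : Subgroup G) ⊓ (Q : Subgroup G) : Subgroup G) : Set G) ⧸
        (Subgroup.centralizer (((P : Subgroup G) ⊓ (Q : Subgroup G) : Subgroup G) : Set G)).subgroupOf
          (Subgroup.normalizer (((P : Subgroup G) ⊓ (Q : Subgroup G) : Subgroup G) : Set G)))) :
    Cfsg.HasNormalPComplement p G := by
  apply hasNormalPComplement_of_npc
  apply Cfsg.Agent.Lib_helper1_Frobenius.frobenius
  apply frobHyp_of_le_sylow P
  intro Q hQP g hg hgo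
  have hch := alperin_p P (Q : Set G) g hQP (by
    rintro _ ⟨a, ha, rfl⟩
    exact hQP ((Subgroup.mem_normalizer_iff''.mp hg a).mp ha))
  obtain ⟨u, hu, hconj⟩ := chain_conj (P : Subgroup G) (fun T x hT hx => by
    obtain ⟨Q', rfl, htame, -⟩ := hT
    by_cases hbot : (P : Subgroup G) ⊓ (Q' : Subgroup G) = ⊥
    · refine ⟨1, one_mem _, fun t ht => ?_⟩
      rw [hbot, Subgroup.mem_bot] at ht
      rw [ht]; group
    · exact step' P _ (h Q' hbot htame) htame.1 x hx) hch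
  have hs : ∀ a ∈ Q, u⁻¹ * a * u⁻¹⁻¹ ∈ Q := by
    intro a ha
    rw [inv_inv, ← hconj a ha]
    exact (Subgroup.mem_normalizer_iff''.mp hg a).mp ha
  have hgu : ∀ a ∈ Q, g⁻¹ * a * g⁻¹⁻¹ = u⁻¹ * a * u⁻¹⁻¹ := by
    intro a ha
    rw [inv_inv, inv_inv]; exact hconj a ha
  have hpow := Cfsg.Agent.Lib_helper2_DihSyl.conj_pow_eq Q hs hgu
  obtain ⟨j, hj⟩ := P.2 ⟨u, hu⟩
  have huj : u ^ p ^ j = 1 := by
    have := congrArg Subtype.val hj
    simpa using this
  have hcent : g⁻¹ ^ p ^ j ∈ Subgroup.centralizer (Q : Set G) := by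
    rw [Subgroup.mem_centralizer_iff]
    intro a ha
    have h1 := hpow (p ^ j) a ha
    rw [inv_pow u, huj] at h1
    have h2 : g⁻¹ ^ p ^ j * a * (g⁻¹ ^ p ^ j)⁻¹ = a := by rw [h1]; group
    calc a * g⁻¹ ^ p ^ j = (g⁻¹ ^ p ^ j * a * (g⁻¹ ^ p ^ j)⁻¹) * g⁻¹ ^ p ^ j := by rw [h2]
      _ = g⁻¹ ^ p ^ j * a := by group
  have hcop : (p ^ j).Coprime (orderOf g⁻¹) := by
    rw [orderOf_inv]; exact (Nat.Coprime.pow_right j hgo).symm
  obtain ⟨m, hm⟩ := exists_pow_eq_self_of_coprime hcop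
  have h7 : g⁻¹ ∈ Subgroup.centralizer (Q : Set G) := by
    rw [← hm]; exact pow_mem hcent m
  have := inv_mem h7
  rwa [inv_inv] at this

end Cfsg.Agent.Lib_helper9_TameFrob
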