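import Mathlib
import Cfsg.Prelude.Def_Transfer
import Cfsg.Agent.Lib_helper7_InvConj

set_option autoImplicit false

namespace Cfsg.Agent.Lib_helper9_ZStar

open Cfsg

theorem s3276 {G : Type*} [Group G] [Finite G] (x y : G) (hx : orderOf x = 2) (hy : orderOf y = 2)
    (hxy : Commute x y) (hnc : ¬ IsConj x y)
    (hstar : ∀ u : G, orderOf u = 2 → Commute u x → ∀ g : G, Commute (g * y * g⁻¹) u → Commute (g * y * g⁻¹) y) :
    Subgroup.normalClosure ({y} : Set G) ≠ ⊤ ∧ Cfsg.IsElementaryAbelian 2 (Subgroup.normalClosure ({y} : Set G)) ∧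
      ((∀ u ∈ Subgroup.normalClosure ({y} : Set G), orderOf u = 2 → Commute u x → u = y) →
        Nat.card ↥(Subgroup.normalClosure ({y} : Set G)) ≤ 4) := by
  haveI : Fact (Nat.Prime 2) := ⟨Nat.prime_two⟩
  have hxx : x * x = 1 := Lib_helper7_InvConj.mul_self_of_order_two hx
  have hyy : y * y = 1 := Lib_helper7_InvConj.mul_self_of_order_two hy
  have hxi : x⁻¹ = x := Lib_helper7_InvConj.inv_of_order_two hx
  have key : ∀ g : G, Commute (g * y * g⁻¹) y := by
    intro g
    have hzz : (g * y * g⁻¹) * (g * y * g⁻¹) = 1 := by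
      have : (g * y * g⁻¹) * (g * y * g⁻¹) = g * (y * y) * g⁻¹ := by group
      rw [this, hyy]; group
    have heven : Even (orderOf (x * (g * y * g⁻¹))) := by
      by_contra hodd
      rw [Nat.not_even_iff_odd] at hodd
      obtain ⟨c, -, -, -, hc⟩ := Lib_helper7_InvConj.dih_odd hxx hzz hodd
      apply hnc
      rw [isConj_comm, isConj_iff]
      exact ⟨c * g, by rw [← hc]; group⟩
    obtain ⟨z, hz2, hzx, hzy⟩ := Lib_helper7_InvConj.dih_even hxx hzz heven
    exact hstar z hz2 hzx g hzy.symm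
  have hmemconj : ∀ s ∈ Group.conjugatesOfSet ({y} : Set G), ∃ g : G, s = g * y * g⁻¹ := by
    intro s hs
    rw [Group.mem_conjugatesOfSet_iff] at hs
    obtain ⟨a, ha, hconj⟩ := hs
    rw [Set.mem_singleton_iff] at ha
    subst ha
    rw [isConj_iff] at hconj
    obtain ⟨c, hc⟩ := hconj
    exact ⟨c, hc.symm⟩
  have hcomm2 : ∀ s ∈ Group.conjugatesOfSet ({y} : Set G),
      ∀ t ∈ Group.conjugatesOfSet ({y} : Set G), s * t = t * s := by
    intro s hs t ht
    obtain ⟨g, rfl⟩ := hmemconj s hs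
    obtain ⟨h, rfl⟩ := hmemconj t ht
    have hk := key (h⁻¹ * g)
    have h2 : g * y * g⁻¹ * (h * y * h⁻¹) = h * ((h⁻¹ * g) * y * (h⁻¹ * g)⁻¹ * y) * h⁻¹ := by group
    have h3 : h * y * h⁻¹ * (g * y * g⁻¹) = h * (y * ((h⁻¹ * g) * y * (h⁻¹ * g)⁻¹)) * h⁻¹ := by group
    rw [h2, h3, hk.eq]
  have hNle : Subgroup.normalClosure ({y} : Set G) ≤
      Subgroup.centralizer (Group.conjugatesOfSet ({y} : Set G)) := by
    rw [Subgroup.normalClosure, Subgroup.closure_le]
    intro s hs
    rw [SetLike.mem_coe, Subgroup.mem_centralizer_iff]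
    intro t ht
    exact hcomm2 t ht s hs
  have hNab : ∀ a ∈ Subgroup.normalClosure ({y} : Set G),
      ∀ b ∈ Subgroup.normalClosure ({y} : Set G), a * b = b * a := by
    have h1 : Subgroup.closure (Group.conjugatesOfSet ({y} : Set G)) ≤
        Subgroup.centralizer (Subgroup.normalClosure ({y} : Set G) : Set G) := by
      rw [Subgroup.closure_le]
      intro s hs
      rw [SetLike.mem_coe, Subgroup.mem_centralizer_iff]
      intro n hn
      have h := hNle hn
      rw [Subgroup.mem_centralizer_iff] at h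
      exact (h s hs).symm
    intro a ha b hb
    have h := h1 ha
    rw [Subgroup.mem_centralizer_iff] at h
    exact (h b hb).symm
  have hNsq : ∀ a ∈ Subgroup.normalClosure ({y} : Set G), a ^ 2 = 1 := by
    intro a ha
    refine Subgroup.closure_induction (p := fun a _ => a ^ 2 = 1) ?_ ?_ ?_ ?_ ha
    · intro s hs
      obtain ⟨g, rfl⟩ := hmemconj s hs
      rw [pow_two]
      have : g * y * g⁻¹ * (g * y * g⁻¹) = g * (y * y) * g⁻¹ := by group
      rw [this, hyy]; group
    · exact one_pow 2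
    · intro a b ha hb ha2 hb2
      have hab : Commute a b := hNab a ha b hb
      rw [hab.mul_pow, ha2, hb2, one_mul]
    · intro a ha ha2
      rw [inv_pow, ha2, inv_one]
  have hne : Subgroup.normalClosure ({y} : Set G) ≠ ⊤ := by
    intro htop
    have hall : ∀ a b : G, a * b = b * a := fun a b =>
      hNab a (htop ▸ Subgroup.mem_top a) b (htop ▸ Subgroup.mem_top b)
    have hle : Subgroup.normalClosure ({y} : Set G) ≤ Subgroup.zpowers y := by
      rw [Subgroup.normalClosure, Subgroup.closure_le]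
      intro s hs
      obtain ⟨g, rfl⟩ := hmemconj s hs
      have : g * y * g⁻¹ = y := by rw [hall g y, mul_inv_cancel_right]
      rw [this]; exact Subgroup.mem_zpowers y
    have hxN : x ∈ Subgroup.zpowers y := hle (htop ▸ Subgroup.mem_top x)
    obtain ⟨k, hk⟩ := Subgroup.mem_zpowers_iff.mp hxN
    have h2 : y ^ (k % 2) = y ^ k := by
      have := zpow_mod_orderOf y k
      rw [hy] at this; exact_mod_cast this
    rcases Int.emod_two_eq_zero_or_one k with h0 | h1
    · rw [h0, zpow_zero] at h2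
      have : x = 1 := by rw [← hk, ← h2]
      rw [this, orderOf_one] at hx; omega
    · rw [h1, zpow_one] at h2
      apply hnc; rw [← hk, ← h2]
  refine ⟨hne, ⟨⟨⟨fun a b => Subtype.ext (hNab a a.2 b b.2)⟩⟩, hNsq⟩, ?_⟩
  intro huniq
  have hnorm : ∀ a ∈ Subgroup.normalClosure ({y} : Set G),
      x * a * x⁻¹ ∈ Subgroup.normalClosure ({y} : Set G) :=
    fun a ha => (Subgroup.normalClosure_normal).conj_mem a ha x
  let φ : Subgroup.normalClosure ({y} : Set G) →* Subgroup.normalClosure ({y} : Set G) :=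
    MonoidHom.mk' (fun a => ⟨(a : G) * (x * a * x⁻¹), Subgroup.mul_mem _ a.2 (hnorm a a.2)⟩) (by
      intro a b
      apply Subtype.ext
      have h1 := hNab (b : G) b.2 (x * a * x⁻¹) (hnorm a a.2)
      show (a : G) * b * (x * (a * b) * x⁻¹) = a * (x * a * x⁻¹) * (b * (x * b * x⁻¹))
      have e1 : x * ((a : G) * b) * x⁻¹ = (x * a * x⁻¹) * (x * b * x⁻¹) := by group
      rw [e1]
      calc (a : G) * b * ((x * a * x⁻¹) * (x * b * x⁻¹))
          = a * (b * (x * a * x⁻¹)) * (x * b * x⁻¹) := by simp only [mul_assoc]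
        _ = a * ((x * a * x⁻¹) * b) * (x * b * x⁻¹) := by rw [h1]
        _ = _ := by simp only [mul_assoc])
  have hφ : ∀ a : Subgroup.normalClosure ({y} : Set G), ((φ a : Subgroup.normalClosure ({y} : Set G)) : G)
      = (a : G) * (x * a * x⁻¹) := fun a => rfl
  have hC : ∀ a : Subgroup.normalClosure ({y} : Set G), (a : G) * x = x * a → a = 1 ∨ (a : G) = y := by
    intro a hax
    by_cases h1 : a = 1
    · exact Or.inl h1
    · right
      apply huniq a a.2 _ hax
      exact orderOf_eq_prime (hNsq a a.2) (fun h => h1 (Subtype.ext h))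
  have hyN : y ∈ Subgroup.normalClosure ({y} : Set G) :=
    Subgroup.subset_normalClosure (Set.mem_singleton y)
  have hbound : ∀ K : Subgroup (Subgroup.normalClosure ({y} : Set G)),
      (∀ a ∈ K, (a : G) * x = x * a) → Nat.card K ≤ 2 := by
    intro K hK
    have hsub : (K : Set (Subgroup.normalClosure ({y} : Set G))) ⊆ {1, ⟨y, hyN⟩} := by
      intro a ha
      rcases hC a (hK a ha) with h | h
      · exact Or.inl h
      · exact Or.inr (Subtype.ext h)
    calc Nat.card K = (K : Set (Subgroup.normalClosure ({y} : Set G))).ncard :=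
          (Nat.card_coe_set_eq _)
      _ ≤ ({1, ⟨y, hyN⟩} : Set (Subgroup.normalClosure ({y} : Set G))).ncard :=
          Set.ncard_le_ncard hsub (Set.toFinite _)
      _ ≤ 2 := (Set.ncard_insert_le _ _).trans (by rw [Set.ncard_singleton])
  have hker : Nat.card φ.ker ≤ 2 := hbound _ (by
    intro a ha
    rw [MonoidHom.mem_ker] at ha
    have h1 : (a : G) * (x * a * x⁻¹) = 1 := by rw [← hφ, ha]; rfl
    have h2 : (a : G) * a = 1 := by rw [← pow_two]; exact hNsq a a.2
    have h3 : x * a * x⁻¹ = a := by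
      have : (a : G) * (x * a * x⁻¹) = a * a := by rw [h1, h2]
      exact mul_left_cancel this
    calc (a : G) * x = (x * a * x⁻¹) * x := by rw [h3]
      _ = x * a := by group)
  have hrange : Nat.card φ.range ≤ 2 := hbound _ (by
    rintro _ ⟨a, rfl⟩
    rw [hφ]
    have h1 := hNab (a : G) a.2 (x * a * x⁻¹) (hnorm a a.2)
    rw [hxi] at h1 ⊢
    calc (a : G) * (x * a * x) * x = (x * a * x * a) * x := by rw [h1]
      _ = x * (a * (x * a * x)) := by simp only [mul_assoc])
  have hcard : Nat.card (Subgroup.normalClosure ({y} : Set G)) = Nat.card φ.ker * Nat.card φ.range := by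
    rw [← Subgroup.index_ker, Subgroup.card_mul_index]
  rw [hcard]
  calc _ ≤ 2 * 2 := Nat.mul_le_mul hker hrange
    _ = 4 := rfl

end Cfsg.Agent.Lib_helper9_ZStar
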