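import Mathlib
import Cfsg.Prelude.Def_Characters
import Cfsg.Agent.Lib_helper3_CharBasic
import Cfsg.Agent.Lib_helper3_CharIntegral
import Cfsg.Agent.Lib_helper3_CharMore

set_option autoImplicit false

namespace Cfsg.Agent.Lib_lead_CharCentral

open Cfsg
open Cfsg.Agent.Lib_helper3_CharBasic
open scoped ComplexConjugate

universe u v

variable {G : Type u} [Group G]

/-- A central element acts as a scalar in an irreducible representation. -/
theorem central_scalar {V : Type v} [AddCommGroup V] [Module ℂ V] [FiniteDimensional ℂ V]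
    (ρ : Representation ℂ G V) [ρ.IsIrreducible] {z : G} (hz : z ∈ Subgroup.center G) :
    ∃ c : ℂ, ρ z = c • (1 : V →ₗ[ℂ] V) := by
  have hcomm : ∀ h : G, ρ z * ρ h = ρ h * ρ z := by
    intro h
    rw [← map_mul, ← map_mul, Subgroup.mem_center_iff.mp hz h]
  let Tm : Representation.IntertwiningMap ρ ρ := ⟨ρ z, hcomm⟩
  obtain ⟨c, hc⟩ :=
    (Representation.IsIrreducible.algebraMap_intertwiningMap_bijective_of_isAlgClosed
      (ρ := ρ)).2 Tm
  refine ⟨c, ?_⟩
  calc ρ z = Tm.toLinearMap := rfl
    _ = (algebraMap ℂ (ρ.IntertwiningMap ρ) c).toLinearMap := by rw [hc]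
    _ = c • (1 : V →ₗ[ℂ] V) := rfl

/-- Multiplying by a central element multiplies an irreducible character by a scalar. -/
theorem irr_mul_central {χ : G → ℂ} (hχ : IsIrrCharacter G χ) {z : G}
    (hz : z ∈ Subgroup.center G) : ∃ c : ℂ, ∀ g : G, χ (g * z) = c * χ g := by
  obtain ⟨k, ρ, hirr, rfl⟩ := hχ
  have := hirr
  obtain ⟨c, hc⟩ := central_scalar ρ hz
  refine ⟨c, fun g => ?_⟩
  simp only [Representation.character]
  rw [map_mul, hc, mul_smul_comm, mul_one, map_smul, smul_eq_mul]

end Cfsg.Agent.Lib_lead_CharCentral
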