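import Mathlib
import Cfsg.Prelude.Def_Characters
import Cfsg.Agent.Lib_helper3_CharBasic
import Cfsg.Agent.Lib_helper3_CharMore
import Cfsg.Agent.Lib_helper3_CharDiag
import Cfsg.Agent.Lib_helper3_CharInd

set_option autoImplicit false

namespace Cfsg.Agent.Lib_lead_CharConstituent

open Cfsg
open Cfsg.Agent.Lib_helper3_CharBasic Cfsg.Agent.Lib_helper3_CharMore
open Cfsg.Agent.Lib_helper3_CharDiag Cfsg.Agent.Lib_helper3_CharInd
open scoped ComplexConjugate

universe u

variable {G : Type u} [Group G]

/-- a character of degree zero is zero -/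
theorem isCharacter_eq_zero_of_apply_one [Finite G] {ψ : G → ℂ} (hψ : IsCharacter G ψ)
    (h1 : ψ 1 = 0) : ψ = 0 := by
  funext g
  have := isCharacter_norm_le hψ g
  rw [h1, Complex.zero_re] at this
  exact norm_le_zero_iff.mp this

/-- if `χ` is an irreducible constituent of the character `ψ`, then `ψ - χ` is a character -/
theorem isCharacter_sub_constituent [Fintype G] {χ ψ : G → ℂ} (hχ : IsIrrCharacter G χ)
    (hψ : IsCharacter G ψ) (hne : classInner ψ χ ≠ 0) : IsCharacter G (ψ - χ) := by
  apply isCharacter_of_inner_nat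
    (isClassFunction_sub (isClassFunction_of_isCharacter hψ) (isClassFunction_of_irr hχ))
  intro φ hφ
  rw [classInner_sub_left]
  obtain ⟨n, hn⟩ := classInner_nat hψ (isCharacter_of_irr hφ)
  by_cases h : χ = φ
  · subst h
    rw [irr_inner_self hχ, hn]
    rw [hn] at hne
    have hn0 : n ≠ 0 := by
      rintro rfl
      exact hne (by simp)
    refine ⟨n - 1, ?_⟩
    have : 1 ≤ n := Nat.one_le_iff_ne_zero.mpr hn0
    push_cast [Nat.cast_sub this]
    ring
  · rw [irr_inner_ne hχ hφ h, hn]
    exact ⟨n, by simp⟩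

/-- an irreducible constituent of a character of at most its own degree is the whole character -/
theorem eq_of_constituent_of_degree_le [Fintype G] {χ ψ : G → ℂ} (hχ : IsIrrCharacter G χ)
    (hψ : IsCharacter G ψ) (hne : classInner ψ χ ≠ 0) (hdeg : (ψ 1).re ≤ (χ 1).re) : ψ = χ := by
  have hB := isCharacter_sub_constituent hχ hψ hne
  obtain ⟨n, hn⟩ := isCharacter_apply_one hB
  obtain ⟨a, ha⟩ := isCharacter_apply_one hψ
  obtain ⟨b, hb⟩ := isCharacter_apply_one (isCharacter_of_irr hχ)
  have h1 : (ψ - χ) 1 = ψ 1 - χ 1 := rfl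
  rw [ha, hb, Complex.natCast_re, Complex.natCast_re] at hdeg
  rw [h1, ha, hb] at hn
  have h2 : (a : ℝ) - b = n := by
    have := congrArg Complex.re hn
    simpa using this
  have hn0 : n = 0 := by
    have : (n : ℝ) ≤ 0 := by linarith
    exact_mod_cast le_antisymm (by exact_mod_cast this) (Nat.zero_le n)
  have h3 : (ψ - χ) 1 = 0 := by rw [h1, ha, hb, hn, hn0]; simp
  have h4 := isCharacter_eq_zero_of_apply_one hB h3
  exact sub_eq_zero.mp h4

/-- a nonzero restriction has an irreducible constituent; more precisely the degree of a character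
is the sum of multiplicities times degrees -/
theorem apply_one_eq_sum [Fintype G] [Fintype (IrrCharacter G)] {ψ : G → ℂ}
    (hψ : IsCharacter G ψ) :
    ψ 1 = ∑ θ : IrrCharacter G, classInner ψ (θ : G → ℂ) * (θ : G → ℂ) 1 :=
  classFunction_eq_sum_apply ψ (isClassFunction_of_isCharacter hψ) 1

end Cfsg.Agent.Lib_lead_CharConstituent
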