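import Mathlib
import Cfsg.Prelude.Def_Characters
import Cfsg.Agent.Lib_helper3_CharBasic
import Cfsg.Agent.Lib_helper3_CharIntegral
import Cfsg.Agent.Lib_helper3_CharMore

set_option autoImplicit false

namespace Cfsg.Agent.Lib_lead_CharNormal

open Cfsg
open Cfsg.Agent.Lib_helper3_CharBasic
open scoped ComplexConjugate

universe u v

variable {G : Type u} [Group G]

/-- For an irreducible representation and a normal subgroup not contained in its kernel, the sum
of the representation over the subgroup vanishes. -/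
theorem sum_normal_rep_eq_zero {V : Type v} [AddCommGroup V] [Module ℂ V] [FiniteDimensional ℂ V]
    (ρ : Representation ℂ G V) [ρ.IsIrreducible] (N : Subgroup G) [hN : N.Normal] [Fintype N]
    (hker : ∃ h ∈ N, ρ h ≠ 1) : ∑ n : N, ρ (n : G) = 0 := by
  classical
  set T : V →ₗ[ℂ] V := ∑ n : N, ρ (n : G) with hT
  have hcomm : ∀ h : G, T * ρ h = ρ h * T := by
    intro h
    simp only [hT, Finset.sum_mul, Finset.mul_sum]
    rw [← Equiv.sum_comp (MulAut.conjNormal h : N ≃* N).toEquiv (fun n : N => ρ (n : G) * ρ h)]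
    apply Finset.sum_congr rfl
    intro n _
    rw [← map_mul, ← map_mul]
    congr 1
    simp only [MulEquiv.toEquiv_eq_coe, MulEquiv.coe_toEquiv, MulAut.conjNormal_apply]
    group
  let Tm : Representation.IntertwiningMap ρ ρ := ⟨T, hcomm⟩
  obtain ⟨c, hc⟩ :=
    (Representation.IsIrreducible.algebraMap_intertwiningMap_bijective_of_isAlgClosed
      (ρ := ρ)).2 Tm
  have hTc : T = c • (1 : V →ₗ[ℂ] V) := by
    calc T = Tm.toLinearMap := rfl
      _ = (algebraMap ℂ (ρ.IntertwiningMap ρ) c).toLinearMap := by rw [hc]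
      _ = c • (1 : V →ₗ[ℂ] V) := rfl
  obtain ⟨m, hm, hρm⟩ := hker
  have hmT : ρ m * T = T := by
    simp only [hT, Finset.mul_sum]
    rw [← Equiv.sum_comp (Equiv.mulLeft (⟨m, hm⟩ : N)) (fun n : N => ρ (n : G))]
    apply Finset.sum_congr rfl
    intro n _
    rw [← map_mul]
    rfl
  rw [hTc] at hmT ⊢
  by_cases hc0 : c = 0
  · rw [hc0, zero_smul]
  · exfalso
    apply hρm
    rw [mul_smul_comm, mul_one] at hmT
    have := smul_right_injective (V →ₗ[ℂ] V) hc0 hmT
    exact this

/-- For an irreducible character and a normal subgroup not contained in its kernel, the sum of the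
character over any coset of the subgroup vanishes. -/
theorem sum_coset_char_eq_zero {χ : G → ℂ} (hχ : IsIrrCharacter G χ) (N : Subgroup G)
    [hN : N.Normal] [Fintype N] (hker : ∃ x ∈ N, χ x ≠ χ 1) (g : G) :
    ∑ n : N, χ (g * (n : G)) = 0 := by
  obtain ⟨k, ρ, hirr, rfl⟩ := hχ
  have := hirr
  have hker' : ∃ h ∈ N, ρ h ≠ 1 := by
    obtain ⟨x, hx, hne⟩ := hker
    refine ⟨x, hx, ?_⟩
    intro h1
    apply hne
    simp only [Representation.character]
    rw [h1, map_one ρ]
  have h1 : ∀ n : N, ρ.character (g * (n : G)) = LinearMap.trace ℂ _ (ρ g * ρ (n : G)) := by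
    intro n
    rw [← map_mul]; rfl
  rw [Finset.sum_congr rfl (fun n _ => h1 n), ← map_sum, ← Finset.mul_sum,
    sum_normal_rep_eq_zero ρ N hker', mul_zero, map_zero]

end Cfsg.Agent.Lib_lead_CharNormal
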