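import Mathlib
import Cfsg.Prelude.Def_Characters
import Cfsg.Prelude.Def_Blocks
import Cfsg.Agent.Lib_helper3_CharBasic
import Cfsg.Agent.Lib_helper3_CharMore
import Cfsg.Agent.Lib_lead_CharQuot

set_option autoImplicit false

namespace Cfsg.Agent.Lib_lead_Codegree

open Cfsg
open Cfsg.Agent.Lib_helper3_CharBasic Cfsg.Agent.Lib_helper3_CharMore
open Cfsg.Agent.Lib_lead_CharQuot
open scoped ComplexConjugate

universe u

variable {G : Type u} [Group G]

theorem charDegree_eq {χ : G → ℂ} {d : ℕ} (h : χ 1 = d) : charDegree χ = d := by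
  unfold charDegree; rw [h]; simp

theorem irr_natDegree [Finite G] {χ : G → ℂ} (hχ : IsIrrCharacter G χ) :
    ∃ d : ℕ, 0 < d ∧ χ 1 = d ∧ charDegree χ = d := by
  haveI := Fintype.ofFinite G
  obtain ⟨d, hd0, hd⟩ := irr_apply_one_pos hχ
  exact ⟨d, hd0, hd, charDegree_eq hd⟩

theorem irr_apply_one_eq [Finite G] {χ : G → ℂ} (hχ : IsIrrCharacter G χ) : χ 1 = (charDegree χ : ℂ) := by
  obtain ⟨d, _, hd, hd'⟩ := irr_natDegree hχ
  rw [hd', hd]

theorem charDegree_pos [Finite G] {χ : G → ℂ} (hχ : IsIrrCharacter G χ) : 0 < charDegree χ := by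
  obtain ⟨d, hd0, _, hd'⟩ := irr_natDegree hχ
  rw [hd']; exact hd0

/-- the codegree `|G| / (|ker χ| χ(1))` is an exact quotient -/
theorem codegree_spec [Finite G] {χ : G → ℂ} (hχ : IsIrrCharacter G χ) :
    ∃ c : ℕ, Nat.card G = Nat.card {g : G // χ g = χ 1} * charDegree χ * c ∧
      Nat.card G / (Nat.card {g : G // χ g = χ 1} * charDegree χ) = c := by
  have hchar := isCharacter_of_irr hχ
  obtain ⟨d, hd0, hd, hdeg⟩ := irr_natDegree hχ
  rw [hdeg]
  set K := charKer hchar with hK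
  have hKcard : Nat.card {g : G // χ g = χ 1} = Nat.card K :=
    Nat.card_congr (Equiv.subtypeEquivRight (fun g => Iff.rfl))
  rw [hKcard]
  obtain ⟨c, hc⟩ := irr_degree_dvd_index hχ K (fun g hg => hg) hd
  have hGK : Nat.card G = Nat.card K * d * c := by
    rw [mul_assoc, ← hc, Subgroup.card_mul_index]
  have hKpos : 0 < Nat.card K := Nat.card_pos
  refine ⟨c, hGK, ?_⟩
  rw [hGK]
  exact Nat.mul_div_cancel_left c (Nat.mul_pos hKpos hd0)

/-- an irreducible character that is constant is the principal character -/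
theorem irr_eq_one_of_const [Finite G] {χ : G → ℂ} (hχ : IsIrrCharacter G χ)
    (h : ∀ g, χ g = χ 1) : χ = fun _ => 1 := by
  classical
  haveI := Fintype.ofFinite G
  by_contra hne
  have h0 := irr_inner_ne hχ isIrrCharacter_one hne
  rw [classInner_def] at h0
  have h1 : ∑ g : G, χ g * conj ((fun _ : G => (1 : ℂ)) g) = (Nat.card G : ℂ) * χ 1 := by
    simp only [h, map_one, mul_one, Finset.sum_const, Finset.card_univ, nsmul_eq_mul,
      Nat.card_eq_fintype_card]
  rw [h1, ← mul_assoc, inv_mul_cancel₀ card_ne_zero, one_mul] at h0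
  exact irr_apply_one_ne_zero hχ h0

theorem sum_sq_degree_nat [Finite G] [Fintype (IrrCharacter G)] :
    ∑ χ : IrrCharacter G, charDegree (χ : G → ℂ) ^ 2 = Nat.card G := by
  haveI := Fintype.ofFinite G
  have h := sum_sq_degree (G := G)
  have h2 : ((∑ χ : IrrCharacter G, charDegree (χ : G → ℂ) ^ 2 : ℕ) : ℂ) = (Nat.card G : ℂ) := by
    rw [← h]
    push_cast
    apply Finset.sum_congr rfl
    intro χ _
    rw [irr_apply_one_eq χ.2]
  exact_mod_cast h2

/-- if `p` divides `|G|`, some non-principal irreducible character has degree prime to `p` -/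
theorem exists_irr_not_dvd [Finite G] (p : ℕ) (hp : p.Prime) (hpG : p ∣ Nat.card G) :
    ∃ χ : IrrCharacter G, (χ : G → ℂ) ≠ (fun _ => 1) ∧ ¬ p ∣ charDegree (χ : G → ℂ) := by
  classical
  haveI : Finite (IrrCharacter G) := irr_finite
  haveI : Fintype (IrrCharacter G) := Fintype.ofFinite _
  by_contra hcon
  push_neg at hcon
  let one : IrrCharacter G := ⟨fun _ => 1, isIrrCharacter_one⟩
  have hsum := sum_sq_degree_nat (G := G)
  rw [← Finset.add_sum_erase Finset.univ _ (Finset.mem_univ one)] at hsum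
  have h1 : charDegree (one : G → ℂ) = 1 := charDegree_eq (by simp [one])
  rw [h1] at hsum
  have h2 : p ∣ ∑ χ ∈ Finset.univ.erase one, charDegree (χ : G → ℂ) ^ 2 := by
    apply Finset.dvd_sum
    intro χ hχ
    have hne : (χ : G → ℂ) ≠ fun _ => 1 := by
      intro h
      exact (Finset.mem_erase.mp hχ).1 (Subtype.ext h)
    exact dvd_pow (hcon χ hne) (by norm_num)
  have h3 : p ∣ 1 := by
    have h4 : p ∣ 1 ^ 2 + ∑ χ ∈ Finset.univ.erase one, charDegree (χ : G → ℂ) ^ 2 := by
      rw [hsum]; exact hpG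
    rw [one_pow] at h4
    exact (Nat.dvd_add_left h2).mp h4
  exact hp.one_lt.ne' (Nat.dvd_one.mp h3)

end Cfsg.Agent.Lib_lead_Codegree
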