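import Mathlib

/-! Matrices with `B * B = a • B`: characteristic polynomial and a reduction-mod-`p` trace lemma. -/

namespace Cfsg.Agent.Lib_lead_IdemCharpoly

open Polynomial Matrix

variable {ι : Type*} [Fintype ι] [DecidableEq ι]

/-- roots of the charpoly of a matrix with `B * B = a • B` are `0` or `a` -/
theorem root_zero_or {K : Type*} [Field K] (B : Matrix ι ι K) (a : K) (hB : B * B = a • B)
    (μ : K) (hμ : B.charpoly.IsRoot μ) : μ = 0 ∨ μ = a := by
  have h1 : (Matrix.scalar ι μ - B).det = 0 := by
    rw [← Matrix.eval_charpoly]; exact hμ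
  obtain ⟨v, hv, hv0⟩ := Matrix.exists_mulVec_eq_zero_iff.mpr h1
  have h2 : B *ᵥ v = μ • v := by
    rw [Matrix.sub_mulVec] at hv0
    have : Matrix.scalar ι μ *ᵥ v = μ • v := by
      ext i
      simp [Matrix.scalar_apply, Matrix.mulVec, dotProduct, Matrix.diagonal_apply]
    rw [this] at hv0
    exact (sub_eq_zero.mp hv0).symm
  have h3 : (B * B) *ᵥ v = (μ * μ) • v := by
    rw [← Matrix.mulVec_mulVec, h2, Matrix.mulVec_smul, h2, smul_smul]
  rw [hB, Matrix.smul_mulVec, h2, smul_smul] at h3
  have h4 : (a * μ - μ * μ) • v = 0 := by rw [sub_smul, h3, sub_self]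
  rcases smul_eq_zero.mp h4 with h | h
  · have : μ * (a - μ) = 0 := by linear_combination h
    rcases mul_eq_zero.mp this with h | h
    · left; exact h
    · right; exact (sub_eq_zero.mp h).symm
  · exact absurd h hv

theorem multiset_zero_or {K : Type*} [Field K] [DecidableEq K] (a : K) (ha : a ≠ 0)
    (S : Multiset K) (hS : ∀ x ∈ S, x = 0 ∨ x = a) :
    S.sum = (S.count a) • a ∧
    (S.map (fun x => X - C x)).prod
      = X ^ (Multiset.card S - S.count a) * (X - C a) ^ (S.count a) := by
  induction S using Multiset.induction_on with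
  | empty => simp
  | cons x S ih =>
    obtain ⟨ih1, ih2⟩ := ih (fun y hy => hS y (Multiset.mem_cons_of_mem hy))
    have hle : S.count a ≤ Multiset.card S := Multiset.count_le_card a S
    rcases hS x (Multiset.mem_cons_self x S) with hx | hx
    · rw [hx]
      have hc : Multiset.count a (0 ::ₘ S) = Multiset.count a S :=
        Multiset.count_cons_of_ne ha _
      refine ⟨by simp [hc, ih1], ?_⟩
      rw [Multiset.map_cons, Multiset.prod_cons, ih2, hc, Multiset.card_cons,
        show Multiset.card S + 1 - S.count a = (Multiset.card S - S.count a) + 1 by omega,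
        pow_succ]
      simp only [map_zero, sub_zero]
      ring
    · rw [hx, Multiset.count_cons_self]
      refine ⟨by rw [Multiset.sum_cons, ih1, succ_nsmul]; ring, ?_⟩
      rw [Multiset.map_cons, Multiset.prod_cons, ih2, Multiset.card_cons,
        show Multiset.card S + 1 - (S.count a + 1) = Multiset.card S - S.count a by omega,
        pow_succ]
      ring

theorem charpoly_of_sq {K : Type*} [Field K] [IsAlgClosed K] (B : Matrix ι ι K) (a : K)
    (ha : a ≠ 0) (hB : B * B = a • B) :
    ∃ r : ℕ, B.charpoly = X ^ (Fintype.card ι - r) * (X - C a) ^ r ∧ B.trace = r • a := by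
  classical
  have hsplit := IsAlgClosed.splits B.charpoly
  have hroots : ∀ x ∈ B.charpoly.roots, x = 0 ∨ x = a := fun x hx =>
    root_zero_or B a hB x (Polynomial.isRoot_of_mem_roots hx)
  obtain ⟨h1, h2⟩ := multiset_zero_or a ha B.charpoly.roots hroots
  refine ⟨B.charpoly.roots.count a, ?_, ?_⟩
  · have h3 := hsplit.eq_prod_roots_of_monic B.charpoly_monic
    have h4 : Multiset.card B.charpoly.roots = Fintype.card ι := by
      rw [← hsplit.natDegree_eq_card_roots, Matrix.charpoly_natDegree_eq_dim]
    rw [h4] at h2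
    rw [← h2]
    exact h3
  · rw [Matrix.trace_eq_sum_roots_charpoly, h1]

/-- Two matrices over `R ⊆ ℂ` with `B * B = a • B`, `B' * B' = a • B'` that agree modulo a prime
ideal not containing `a` have the same trace. -/
theorem trace_eq_of_map_eq {R F : Type*} [CommRing R] [Field F] (j : R →+* ℂ)
    (hj : Function.Injective j) (π : R →+* F) (B B' : Matrix ι ι R) (a : R) (ha : π a ≠ 0)
    (hB : B.map j * B.map j = j a • B.map j) (hB' : B'.map j * B'.map j = j a • B'.map j)
    (hπ : B.map π = B'.map π) :
    (B.map j).trace = (B'.map j).trace := by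
  have ha0 : j a ≠ 0 := by
    intro h
    apply ha
    have : a = 0 := hj (by rw [h, map_zero])
    rw [this, map_zero]
  have key : ∀ B : Matrix ι ι R, B.map j * B.map j = j a • B.map j → ∃ r : ℕ,
      (B.map π).charpoly = X ^ (Fintype.card ι - r) * (X - C (π a)) ^ r ∧
      (B.map j).trace = r • j a := by
    intro B hBc
    obtain ⟨r, hr1, hr2⟩ := charpoly_of_sq (B.map j) (j a) ha0 hBc
    refine ⟨r, ?_, hr2⟩
    have h3 : B.charpoly = X ^ (Fintype.card ι - r) * (X - C a) ^ r := by
      apply Polynomial.map_injective j hj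
      rw [← Matrix.charpoly_map, hr1]
      simp
    rw [Matrix.charpoly_map, h3]
    simp
  obtain ⟨r, hr1, hr2⟩ := key B hB
  obtain ⟨r', hr1', hr2'⟩ := key B' hB'
  rw [hπ, hr1'] at hr1
  have hrr : r = r' := by
    have hm : ∀ k s : ℕ,
        Polynomial.rootMultiplicity (π a) (X ^ k * (X - C (π a)) ^ s : F[X]) = s := by
      intro k s
      rw [Polynomial.rootMultiplicity_mul, Polynomial.rootMultiplicity_X_sub_C_pow,
        Polynomial.rootMultiplicity_eq_zero, zero_add]
      · simp [Polynomial.IsRoot, ha]
      · exact mul_ne_zero (pow_ne_zero _ X_ne_zero) (pow_ne_zero _ (X_sub_C_ne_zero _))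
    have := congrArg (Polynomial.rootMultiplicity (π a)) hr1
    rw [hm, hm] at this
    exact this.symm
  rw [hr2, hr2', hrr]

end Cfsg.Agent.Lib_lead_IdemCharpoly
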