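import Mathlib
import Cfsg.Prelude.Def_Characters
import Cfsg.Agent.Lib_lead_IdemCharpoly
import Cfsg.Agent.Lib_lead_CharSchur
import Cfsg.Agent.Lib_helper3_CharDiag
import Cfsg.Agent.Lib_helper3_CharBasic
import Cfsg.Agent.Lib_helper3_IntLemmas

/-! Irreducible characters of `p`-defect zero vanish on `p`-singular elements. -/

set_option autoImplicit false

namespace Cfsg.Agent.Lib_lead_DefectZero

open Cfsg
open Cfsg.Agent.Lib_helper3_CharBasic

universe u

/-- Fourier: a function on a finite abelian group orthogonal to all homs to `ℂ` is zero. -/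
theorem fourier_zero {H : Type*} [Group H] [IsMulCommutative H] [Fintype H] (f : H → ℂ)
    (hf : ∀ θ : H →* ℂ, ∑ h, θ h * f h = 0) : f = 0 := by
  classical
  letI : CommGroup H := { (inferInstance : Group H) with mul_comm := mul_comm' }
  funext h0
  have h1 : ∀ ψ : AddChar (Additive H) ℂ, ∑ h : H, ψ (Additive.ofMul h) * f h = 0 := by
    intro ψ
    exact hf { toFun := fun h => ψ (Additive.ofMul h)
               map_one' := by simp
               map_mul' := fun a b => by simp [AddChar.map_add_eq_mul] }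
  have h2 : ∑ ψ : AddChar (Additive H) ℂ,
      ψ (Additive.ofMul h0⁻¹) * ∑ h : H, ψ (Additive.ofMul h) * f h = 0 := by
    simp [h1]
  have h3 : ∑ ψ : AddChar (Additive H) ℂ,
      ψ (Additive.ofMul h0⁻¹) * ∑ h : H, ψ (Additive.ofMul h) * f h
      = ∑ h : H, f h * ∑ ψ : AddChar (Additive H) ℂ, ψ (Additive.ofMul (h0⁻¹ * h)) := by
    simp_rw [Finset.mul_sum]
    rw [Finset.sum_comm]
    refine Finset.sum_congr rfl fun h _ => Finset.sum_congr rfl fun ψ _ => ?_
    rw [ofMul_mul, AddChar.map_add_eq_mul]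
    ring
  rw [h3] at h2
  simp_rw [AddChar.sum_apply_eq_ite] at h2
  have h4 : ∀ h : H, (Additive.ofMul (h0⁻¹ * h) = 0) ↔ h = h0 := by
    intro h
    rw [← ofMul_one, Additive.ofMul.injective.eq_iff, inv_mul_eq_one, eq_comm]
  simp only [h4, mul_ite, mul_zero, Finset.sum_ite_eq', Finset.mem_univ, if_true] at h2
  rcases mul_eq_zero.mp h2 with h | h
  · exact h
  · exfalso
    simp at h

variable {G : Type u} [Group G] [Fintype G]

/-- the coset matrix of a class function, twisted by a function on the subgroup -/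
noncomputable def cosetMat (H : Subgroup G) [Fintype H] (χ : G → ℂ) (θ : H → ℂ) :
    Matrix (G ⧸ H) (G ⧸ H) ℂ :=
  fun i j => ∑ h : H, θ h * χ (i.out * (h : G) * (j.out)⁻¹)

theorem cosetMap_bijective (H : Subgroup G) (t : G) :
    Function.Bijective (fun q : (G ⧸ H) × H => t * (q.2 : G) * (q.1.out)⁻¹) := by
  constructor
  · rintro ⟨j, h⟩ ⟨j', h'⟩ heq
    replace heq : t * (h : G) * (j.out)⁻¹ = t * (h' : G) * (j'.out)⁻¹ := heq
    have h1 : j.out * (h : G)⁻¹ = j'.out * (h' : G)⁻¹ := by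
      have : (t * (h : G) * (j.out)⁻¹)⁻¹ * t = (t * (h' : G) * (j'.out)⁻¹)⁻¹ * t := by rw [heq]
      simpa [mul_assoc] using this
    have h2 : j = j' := by
      have := congrArg (fun g : G => (QuotientGroup.mk g : G ⧸ H)) h1
      beta_reduce at this
      rw [QuotientGroup.mk_mul_of_mem _ (H.inv_mem h.2),
        QuotientGroup.mk_mul_of_mem _ (H.inv_mem h'.2), QuotientGroup.out_eq',
        QuotientGroup.out_eq'] at this
      exact this
    subst h2
    have h3 : (h : G) = h' := by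
      have := mul_left_cancel h1
      exact inv_injective this
    exact Prod.ext rfl (Subtype.ext h3)
  · intro y
    set g : G := y⁻¹ * t with hg
    have hmem : g⁻¹ * (QuotientGroup.mk g : G ⧸ H).out ∈ H := by
      have := QuotientGroup.out_eq' (QuotientGroup.mk g : G ⧸ H)
      exact QuotientGroup.eq.mp this.symm
    refine ⟨(QuotientGroup.mk g, ⟨g⁻¹ * (QuotientGroup.mk g : G ⧸ H).out, hmem⟩), ?_⟩
    simp only [hg]
    group

theorem cosetMat_sq (H : Subgroup G) [Fintype H] [Fintype (G ⧸ H)] [DecidableEq (G ⧸ H)]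
    (χ : G → ℂ) (a : ℂ) (hχ : ∀ w : G, ∑ y : G, χ y * χ (y⁻¹ * w) = a * χ w) (θ : H →* ℂ) :
    cosetMat H χ θ * cosetMat H χ θ = a • cosetMat H χ θ := by
  ext i k
  simp only [Matrix.mul_apply, Matrix.smul_apply, cosetMat, smul_eq_mul]
  have step1 : ∀ j : G ⧸ H,
      (∑ h : H, θ h * χ (i.out * (h : G) * (j.out)⁻¹)) *
        (∑ h' : H, θ h' * χ (j.out * (h' : G) * (k.out)⁻¹))
      = ∑ u : H, θ u * ∑ h : H, χ (i.out * (h : G) * (j.out)⁻¹) *
          χ ((i.out * (h : G) * (j.out)⁻¹)⁻¹ * (i.out * (u : G) * (k.out)⁻¹)) := by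
    intro j
    rw [Finset.sum_mul_sum]
    have e : ∀ h : H, ∑ h' : H, θ h * χ (i.out * (h : G) * (j.out)⁻¹) *
          (θ h' * χ (j.out * (h' : G) * (k.out)⁻¹))
        = ∑ u : H, θ u * (χ (i.out * (h : G) * (j.out)⁻¹) *
          χ ((i.out * (h : G) * (j.out)⁻¹)⁻¹ * (i.out * (u : G) * (k.out)⁻¹))) := by
      intro h
      rw [← Equiv.sum_comp (Equiv.mulLeft h⁻¹)]
      refine Finset.sum_congr rfl fun u _ => ?_
      have e1 : θ h * θ (h⁻¹ * u) = θ u := by rw [← map_mul, mul_inv_cancel_left]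
      have e2 : j.out * ((h⁻¹ * u : H) : G) * (k.out)⁻¹
          = (i.out * (h : G) * (j.out)⁻¹)⁻¹ * (i.out * (u : G) * (k.out)⁻¹) := by
        push_cast
        group
      simp only [Equiv.coe_mulLeft]
      rw [e2, ← e1]
      ring
    rw [Finset.sum_congr rfl (fun h _ => e h), Finset.sum_comm]
    refine Finset.sum_congr rfl fun u _ => ?_
    rw [Finset.mul_sum]
  rw [Finset.sum_congr rfl (fun j _ => step1 j), Finset.sum_comm, Finset.mul_sum]
  refine Finset.sum_congr rfl fun u _ => ?_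
  rw [← Finset.mul_sum]
  have step2 : ∑ j : G ⧸ H, ∑ h : H, χ (i.out * (h : G) * (j.out)⁻¹) *
          χ ((i.out * (h : G) * (j.out)⁻¹)⁻¹ * (i.out * (u : G) * (k.out)⁻¹))
      = a * χ (i.out * (u : G) * (k.out)⁻¹) := by
    rw [← hχ, ← (cosetMap_bijective H i.out).sum_comp
      (fun y => χ y * χ (y⁻¹ * (i.out * (u : G) * (k.out)⁻¹)))]
    rw [Fintype.sum_prod_type]
  rw [step2]
  ring

theorem cosetMat_trace (H : Subgroup G) [Fintype H] [Fintype (G ⧸ H)] [DecidableEq (G ⧸ H)]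
    (χ : G → ℂ) (hχ : IsClassFunction G χ) (θ : H → ℂ) :
    (cosetMat H χ θ).trace = (Fintype.card (G ⧸ H) : ℂ) * ∑ h : H, θ h * χ h := by
  simp only [Matrix.trace, Matrix.diag, cosetMat]
  have : ∀ i : G ⧸ H, ∑ h : H, θ h * χ (i.out * (h : G) * (i.out)⁻¹) = ∑ h : H, θ h * χ h := by
    intro i
    refine Finset.sum_congr rfl fun h _ => ?_
    rw [hχ]
  rw [Finset.sum_congr rfl (fun i _ => this i)]
  simp


/-- An irreducible character of `p`-defect zero vanishes on `p`-singular elements. -/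
theorem defect_zero_vanish {G : Type u} [Group G] [Finite G] {χ : G → ℂ}
    (hχ : IsIrrCharacter G χ) (p : ℕ) (hp : p.Prime) (d a : ℕ) (hd : χ 1 = d)
    (hda : Nat.card G = a * d) (hpa : ¬ p ∣ a) (x : G) (hx : p ∣ orderOf x) : χ x = 0 := by
  classical
  haveI : Fintype G := Fintype.ofFinite G
  haveI : Fact p.Prime := ⟨hp⟩
  let H : Subgroup G := Subgroup.zpowers x
  haveI : IsMulCommutative H := Subgroup.zpowers_isMulCommutative x
  haveI : Fintype H := Fintype.ofFinite H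
  haveI : Fintype (G ⧸ H) := Fintype.ofFinite _
  have hχc : IsCharacter G χ := isCharacter_of_irr hχ
  have hd0 : d ≠ 0 := by
    rintro rfl
    have h0 : Nat.card G = 0 := by rw [hda, mul_zero]
    exact Nat.card_pos.ne' h0
  have hconv : ∀ w : G, ∑ y : G, χ y * χ (y⁻¹ * w) = (a : ℂ) * χ w := by
    intro w
    rw [Cfsg.Agent.Lib_lead_CharSchur.sum_char_mul_char_inv_mul hχ w, hd, hda]
    have : (d : ℂ) ≠ 0 := by exact_mod_cast hd0
    push_cast
    field_simp
  -- the ring of algebraic integers and a maximal ideal above p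
  let R := integralClosure ℤ ℂ
  have hpR : ¬ IsUnit ((p : ℕ) : R) := by
    rintro ⟨u, hu⟩
    have h1 : ((u⁻¹ : Rˣ) : R) * ((p : ℕ) : R) = 1 := by rw [← hu]; exact u.inv_mul
    have h2 : (((u⁻¹ : Rˣ) : R) : ℂ) = ((1 : ℕ) : ℂ) / ((p : ℕ) : ℂ) := by
      have h := congrArg (fun z : R => (z : ℂ)) h1
      have hp0 : ((p : ℕ) : ℂ) ≠ 0 := by exact_mod_cast hp.ne_zero
      simp only [MulMemClass.coe_mul, OneMemClass.coe_one] at h
      rw [eq_div_iff hp0, Nat.cast_one, ← h]
      simp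
    have h3 : IsIntegral ℤ (((1 : ℕ) : ℂ) / ((p : ℕ) : ℂ)) := by
      rw [← h2]; exact ((u⁻¹ : Rˣ) : R).2
    have h4 := Cfsg.Agent.Lib_helper3_IntLemmas.nat_dvd_of_isIntegral_div hp.ne_zero h3
    exact hp.one_lt.ne' (Nat.dvd_one.mp h4)
  obtain ⟨M, hM, hpM⟩ := Ideal.exists_le_maximal (Ideal.span {((p : ℕ) : R)})
    (by rw [Ne, Ideal.span_singleton_eq_top]; exact hpR)
  letI : Field (R ⧸ M) := Ideal.Quotient.field M
  let π : R →+* R ⧸ M := Ideal.Quotient.mk M
  have hpF : ((p : ℕ) : R ⧸ M) = 0 := by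
    have h : π ((p : ℕ) : R) = 0 :=
      Ideal.Quotient.eq_zero_iff_mem.mpr (hpM (Ideal.subset_span (Set.mem_singleton _)))
    simpa using h
  haveI : CharP (R ⧸ M) p := by
    have h := CharP.ringChar_of_prime_eq_zero hp hpF
    have h' := ringChar.charP (R ⧸ M)
    rwa [h] at h'
  have hπa : π ((a : ℕ) : R) ≠ 0 := by
    rw [map_natCast]
    intro h
    exact hpa ((CharP.cast_eq_zero_iff (R ⧸ M) p a).mp h)
  have hπ1 : ∀ z : R, z ^ p = 1 → π z = 1 := by
    intro z hz
    have h1 : (π z - 1) ^ p = 0 := by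
      rw [sub_pow_char, ← map_pow, hz, map_one, one_pow, sub_self]
    exact sub_eq_zero.mp ((pow_eq_zero_iff hp.ne_zero).mp h1)
  -- the linear character λ of H = ⟨x⟩ of order p
  have hgen : ∀ y : H, y ∈ Subgroup.zpowers (⟨x, Subgroup.mem_zpowers x⟩ : H) := by
    rintro ⟨y, hy⟩
    obtain ⟨k, rfl⟩ := Subgroup.mem_zpowers_iff.mp hy
    exact Subgroup.mem_zpowers_iff.mpr ⟨k, Subtype.ext (by simp)⟩
  have hζ : IsPrimitiveRoot (Complex.exp (2 * Real.pi * Complex.I / p)) p :=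
    Complex.isPrimitiveRoot_exp p hp.ne_zero
  set ζ := Complex.exp (2 * Real.pi * Complex.I / p) with hζdef
  have hζ0 : ζ ≠ 0 := hζ.ne_zero hp.ne_zero
  let ζu : ℂˣ := Units.mk0 ζ hζ0
  have hζu : IsPrimitiveRoot ζu p := IsPrimitiveRoot.coe_units_iff.mp hζ
  have hord : orderOf ζu ∣ orderOf (⟨x, Subgroup.mem_zpowers x⟩ : H) := by
    rw [← hζu.eq_orderOf, Subgroup.orderOf_mk]; exact hx
  let lamU : H →* ℂˣ := monoidHomOfForallMemZpowers hgen hord
  have hlamU : lamU ⟨x, Subgroup.mem_zpowers x⟩ = ζu :=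
    monoidHomOfForallMemZpowers_apply_gen hgen hord
  let lam : H →* ℂ := (Units.coeHom ℂ).comp lamU
  have hlam_gen : lam ⟨x, Subgroup.mem_zpowers x⟩ = ζ := by
    show ((lamU ⟨x, _⟩ : ℂˣ) : ℂ) = ζ
    rw [hlamU]
    rfl
  have hlam_p : ∀ h : H, lam h ^ p = 1 := by
    intro h
    obtain ⟨k, hk⟩ := Subgroup.mem_zpowers_iff.mp (hgen h)
    have h1 : lamU h ^ p = 1 := by
      rw [← hk, map_zpow, hlamU, ← zpow_natCast, ← zpow_mul, mul_comm, zpow_mul, zpow_natCast,
        hζu.pow_eq_one, one_zpow]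
    show ((lamU h : ℂˣ) : ℂ) ^ p = 1
    rw [← Units.val_pow_eq_pow_val, h1, Units.val_one]
  -- integrality
  have hθint : ∀ (θ : H →* ℂ) (h : H), IsIntegral ℤ (θ h) := by
    intro θ h
    apply IsIntegral.of_pow (n := Fintype.card H) Fintype.card_pos
    rw [← map_pow, pow_card_eq_one, map_one]
    exact isIntegral_one
  have hχint : ∀ g : G, IsIntegral ℤ (χ g) := fun g =>
    Cfsg.Agent.Lib_helper3_CharDiag.isCharacter_isIntegral hχc g
  let χR : G → R := fun g => ⟨χ g, hχint g⟩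
  let θR : (H →* ℂ) → H → R := fun θ h => ⟨θ h, hθint θ h⟩
  let BR : (H →* ℂ) → Matrix (G ⧸ H) (G ⧸ H) R := fun θ i j =>
    ∑ h : H, θR θ h * χR (i.out * (h : G) * (j.out)⁻¹)
  let jR : R →+* ℂ := algebraMap R ℂ
  have hjR : Function.Injective jR := Subtype.val_injective
  have hBR : ∀ θ : H →* ℂ, (BR θ).map jR = cosetMat H χ θ := by
    intro θ
    ext i j
    show jR (∑ h : H, θR θ h * χR (i.out * (h : G) * (j.out)⁻¹))
      = ∑ h : H, θ h * χ (i.out * (h : G) * (j.out)⁻¹)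
    rw [map_sum]
    refine Finset.sum_congr rfl fun h _ => ?_
    rw [map_mul]
    rfl
  have hja : jR ((a : ℕ) : R) = (a : ℂ) := by simp [jR]
  have key : ∀ θ : H →* ℂ, (cosetMat H χ θ).trace = (cosetMat H χ ⇑(θ * lam)).trace := by
    intro θ
    rw [← hBR θ, ← hBR (θ * lam)]
    apply Cfsg.Agent.Lib_lead_IdemCharpoly.trace_eq_of_map_eq jR hjR π (BR θ) (BR (θ * lam))
      ((a : ℕ) : R) hπa
    · rw [hBR θ, hja]; exact cosetMat_sq H χ a hconv θ
    · rw [hBR (θ * lam), hja]; exact cosetMat_sq H χ a hconv (θ * lam)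
    · ext i j
      show π (∑ h : H, θR θ h * χR (i.out * (h : G) * (j.out)⁻¹))
        = π (∑ h : H, θR (θ * lam) h * χR (i.out * (h : G) * (j.out)⁻¹))
      rw [map_sum, map_sum]
      refine Finset.sum_congr rfl fun h _ => ?_
      rw [map_mul, map_mul]
      have h1 : θR (θ * lam) h = θR θ h * θR lam h := Subtype.ext rfl
      have h2 : θR lam h ^ p = 1 := Subtype.ext (by simpa [θR] using hlam_p h)
      rw [h1, map_mul, hπ1 (θR lam h) h2, mul_one]
  have hcl : IsClassFunction G χ := isClassFunction_of_irr hχ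
  have hcard : (Fintype.card (G ⧸ H) : ℂ) ≠ 0 := by exact_mod_cast Fintype.card_ne_zero
  have hsum : ∀ θ : H →* ℂ, ∑ h : H, θ h * ((1 - lam h) * χ h) = 0 := by
    intro θ
    have h1 := key θ
    rw [cosetMat_trace H χ hcl, cosetMat_trace H χ hcl] at h1
    have h2 := mul_left_cancel₀ hcard h1
    have h3 : ∑ h : H, θ h * ((1 - lam h) * χ h)
        = ∑ h : H, θ h * χ h - ∑ h : H, (θ * lam) h * χ h := by
      rw [← Finset.sum_sub_distrib]
      refine Finset.sum_congr rfl fun h _ => ?_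
      rw [MonoidHom.mul_apply]; ring
    rw [h3, h2, sub_self]
  have hf := fourier_zero (fun h : H => (1 - lam h) * χ h) hsum
  have h5 := congrFun hf ⟨x, Subgroup.mem_zpowers x⟩
  simp only [Pi.zero_apply] at h5
  rw [hlam_gen] at h5
  rcases mul_eq_zero.mp h5 with h | h
  · exact absurd (sub_eq_zero.mp h).symm (hζ.ne_one hp.one_lt)
  · exact h

end Cfsg.Agent.Lib_lead_DefectZero
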