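import Mathlib

/-! A finite check on the permutations of eight points, split into 56 kernel computations. -/

set_option autoImplicit false

namespace Cfsg.Agent.Lib_lead_S8Def

/-- the three admissible patterns for a triple -/
def good3 (t : Fin 8 → Fin 8) (x y z : Fin 8) : Bool :=
  (x != y) && (y != z) && (x != z) &&
    (((t x == x) && (t y == y) && (t z == z)) || ((t x == y) && (t y == z) && (t z == x)) ||
      ((t x != x) && (t x != y) && (t x != z) && (t y != x) && (t y != y) && (t y != z) &&
        (t z != x) && (t z != y) && (t z != z)))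

/-- some triple is admissible -/
def goodT (t : Fin 8 → Fin 8) : Bool :=
  (List.finRange 8).any fun x => (List.finRange 8).any fun y => (List.finRange 8).any fun z =>
    good3 t x y z

/-- all injective tables with the first two values prescribed -/
def part (a0 a1 : Fin 8) : Bool :=
  ((List.finRange 8).all fun a2 => (a2 == a0) || (a2 == a1) ||
  ((List.finRange 8).all fun a3 => (a3 == a0) || (a3 == a1) || (a3 == a2) ||
  ((List.finRange 8).all fun a4 => (a4 == a0) || (a4 == a1) || (a4 == a2) || (a4 == a3) ||
  ((List.finRange 8).all fun a5 => (a5 == a0) || (a5 == a1) || (a5 == a2) || (a5 == a3) ||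
    (a5 == a4) ||
  ((List.finRange 8).all fun a6 => (a6 == a0) || (a6 == a1) || (a6 == a2) || (a6 == a3) ||
    (a6 == a4) || (a6 == a5) ||
  ((List.finRange 8).all fun a7 => (a7 == a0) || (a7 == a1) || (a7 == a2) || (a7 == a3) ||
    (a7 == a4) || (a7 == a5) || (a7 == a6) ||
    goodT ![a0, a1, a2, a3, a4, a5, a6, a7]))))))

end Cfsg.Agent.Lib_lead_S8Def
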