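import Mathlib
import Cfsg.Agent.Lib_lead_S8Def

set_option autoImplicit false

namespace Cfsg.Agent.Lib_lead_S8KeyA

open Cfsg.Agent.Lib_lead_S8Def

set_option maxRecDepth 1000000 in
theorem chk_0_1 : part 0 1 = true := by decide +kernel

set_option maxRecDepth 1000000 in
theorem chk_0_2 : part 0 2 = true := by decide +kernel

set_option maxRecDepth 1000000 in
theorem chk_0_3 : part 0 3 = true := by decide +kernel

set_option maxRecDepth 1000000 in
theorem chk_0_4 : part 0 4 = true := by decide +kernel

set_option maxRecDepth 1000000 in
theorem chk_0_5 : part 0 5 = true := by decide +kernel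

set_option maxRecDepth 1000000 in
theorem chk_0_6 : part 0 6 = true := by decide +kernel

set_option maxRecDepth 1000000 in
theorem chk_0_7 : part 0 7 = true := by decide +kernel

set_option maxRecDepth 1000000 in
theorem chk_1_0 : part 1 0 = true := by decide +kernel

set_option maxRecDepth 1000000 in
theorem chk_1_2 : part 1 2 = true := by decide +kernel

set_option maxRecDepth 1000000 in
theorem chk_1_3 : part 1 3 = true := by decide +kernel

set_option maxRecDepth 1000000 in
theorem chk_1_4 : part 1 4 = true := by decide +kernel

set_option maxRecDepth 1000000 in
theorem chk_1_5 : part 1 5 = true := by decide +kernel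

set_option maxRecDepth 1000000 in
theorem chk_1_6 : part 1 6 = true := by decide +kernel

set_option maxRecDepth 1000000 in
theorem chk_1_7 : part 1 7 = true := by decide +kernel

end Cfsg.Agent.Lib_lead_S8KeyA
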