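import Mathlib
import Cfsg.Agent.Lib_lead_S8Def

set_option autoImplicit false

namespace Cfsg.Agent.Lib_lead_S8KeyB

open Cfsg.Agent.Lib_lead_S8Def

set_option maxRecDepth 1000000 in
theorem chk_2_0 : part 2 0 = true := by decide +kernel

set_option maxRecDepth 1000000 in
theorem chk_2_1 : part 2 1 = true := by decide +kernel

set_option maxRecDepth 1000000 in
theorem chk_2_3 : part 2 3 = true := by decide +kernel

set_option maxRecDepth 1000000 in
theorem chk_2_4 : part 2 4 = true := by decide +kernel

set_option maxRecDepth 1000000 in
theorem chk_2_5 : part 2 5 = true := by decide +kernel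

set_option maxRecDepth 1000000 in
theorem chk_2_6 : part 2 6 = true := by decide +kernel

set_option maxRecDepth 1000000 in
theorem chk_2_7 : part 2 7 = true := by decide +kernel

set_option maxRecDepth 1000000 in
theorem chk_3_0 : part 3 0 = true := by decide +kernel

set_option maxRecDepth 1000000 in
theorem chk_3_1 : part 3 1 = true := by decide +kernel

set_option maxRecDepth 1000000 in
theorem chk_3_2 : part 3 2 = true := by decide +kernel

set_option maxRecDepth 1000000 in
theorem chk_3_4 : part 3 4 = true := by decide +kernel

set_option maxRecDepth 1000000 in
theorem chk_3_5 : part 3 5 = true := by decide +kernel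

set_option maxRecDepth 1000000 in
theorem chk_3_6 : part 3 6 = true := by decide +kernel

set_option maxRecDepth 1000000 in
theorem chk_3_7 : part 3 7 = true := by decide +kernel

end Cfsg.Agent.Lib_lead_S8KeyB
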