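import Mathlib
import Cfsg.Agent.Lib_lead_S8Def

set_option autoImplicit false

namespace Cfsg.Agent.Lib_lead_S8KeyC

open Cfsg.Agent.Lib_lead_S8Def

set_option maxRecDepth 1000000 in
theorem chk_4_0 : part 4 0 = true := by decide +kernel

set_option maxRecDepth 1000000 in
theorem chk_4_1 : part 4 1 = true := by decide +kernel

set_option maxRecDepth 1000000 in
theorem chk_4_2 : part 4 2 = true := by decide +kernel

set_option maxRecDepth 1000000 in
theorem chk_4_3 : part 4 3 = true := by decide +kernel

set_option maxRecDepth 1000000 in
theorem chk_4_5 : part 4 5 = true := by decide +kernel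

set_option maxRecDepth 1000000 in
theorem chk_4_6 : part 4 6 = true := by decide +kernel

set_option maxRecDepth 1000000 in
theorem chk_4_7 : part 4 7 = true := by decide +kernel

set_option maxRecDepth 1000000 in
theorem chk_5_0 : part 5 0 = true := by decide +kernel

set_option maxRecDepth 1000000 in
theorem chk_5_1 : part 5 1 = true := by decide +kernel

set_option maxRecDepth 1000000 in
theorem chk_5_2 : part 5 2 = true := by decide +kernel

set_option maxRecDepth 1000000 in
theorem chk_5_3 : part 5 3 = true := by decide +kernel

set_option maxRecDepth 1000000 in
theorem chk_5_4 : part 5 4 = true := by decide +kernel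

set_option maxRecDepth 1000000 in
theorem chk_5_6 : part 5 6 = true := by decide +kernel

set_option maxRecDepth 1000000 in
theorem chk_5_7 : part 5 7 = true := by decide +kernel

end Cfsg.Agent.Lib_lead_S8KeyC
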