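import Mathlib
import Cfsg.Agent.Lib_lead_S8Def

set_option autoImplicit false

namespace Cfsg.Agent.Lib_lead_S8KeyD

open Cfsg.Agent.Lib_lead_S8Def

set_option maxRecDepth 1000000 in
theorem chk_6_0 : part 6 0 = true := by decide +kernel

set_option maxRecDepth 1000000 in
theorem chk_6_1 : part 6 1 = true := by decide +kernel

set_option maxRecDepth 1000000 in
theorem chk_6_2 : part 6 2 = true := by decide +kernel

set_option maxRecDepth 1000000 in
theorem chk_6_3 : part 6 3 = true := by decide +kernel

set_option maxRecDepth 1000000 in
theorem chk_6_4 : part 6 4 = true := by decide +kernel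

set_option maxRecDepth 1000000 in
theorem chk_6_5 : part 6 5 = true := by decide +kernel

set_option maxRecDepth 1000000 in
theorem chk_6_7 : part 6 7 = true := by decide +kernel

set_option maxRecDepth 1000000 in
theorem chk_7_0 : part 7 0 = true := by decide +kernel

set_option maxRecDepth 1000000 in
theorem chk_7_1 : part 7 1 = true := by decide +kernel

set_option maxRecDepth 1000000 in
theorem chk_7_2 : part 7 2 = true := by decide +kernel

set_option maxRecDepth 1000000 in
theorem chk_7_3 : part 7 3 = true := by decide +kernel

set_option maxRecDepth 1000000 in
theorem chk_7_4 : part 7 4 = true := by decide +kernel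

set_option maxRecDepth 1000000 in
theorem chk_7_5 : part 7 5 = true := by decide +kernel

set_option maxRecDepth 1000000 in
theorem chk_7_6 : part 7 6 = true := by decide +kernel

end Cfsg.Agent.Lib_lead_S8KeyD
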