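import Mathlib
import Cfsg.Prelude.Def_Solvable
import Cfsg.Agent.Lib_helper6_PCore
import Cfsg.Agent.Lib_lead_AltPClosed

/-! The group `3^2 : SD16` (affine semilinear maps of the field with nine elements) and the
subgroup generated by the field automorphism. -/

set_option autoImplicit false

namespace Cfsg.Agent.Lib_lead_SD16Ex

/-- the semidihedral group of order 16: `⟨k, e⟩` stands for `x ^ k * y ^ e` with
`y * x * y⁻¹ = x ^ 3` -/
structure SD where
  k : ZMod 8
  e : ZMod 2
  deriving DecidableEq, Fintype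

instance : Mul SD := ⟨fun a b => ⟨a.k + (if a.e = 0 then 1 else 3) * b.k, a.e + b.e⟩⟩
instance : One SD := ⟨⟨0, 0⟩⟩
instance : Inv SD := ⟨fun a => ⟨-((if a.e = 0 then 1 else 3) * a.k), a.e⟩⟩

theorem sd_assoc : ∀ a b c : SD, a * b * c = a * (b * c) := by decide +kernel
theorem sd_one_mul : ∀ a : SD, 1 * a = a := by decide +kernel
theorem sd_mul_one : ∀ a : SD, a * 1 = a := by decide +kernel
theorem sd_inv_mul : ∀ a : SD, a⁻¹ * a = 1 := by decide +kernel

instance : Group SD where
  mul_assoc := sd_assoc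
  one_mul := sd_one_mul
  mul_one := sd_mul_one
  inv_mul_cancel := sd_inv_mul

/-- the action on the plane over the field with three elements -/
def actFun (t : SD) (v : ZMod 3 × ZMod 3) : ZMod 3 × ZMod 3 :=
  (fun w : ZMod 3 × ZMod 3 => (w.1 - w.2, w.1 + w.2))^[t.k.val] (if t.e = 0 then v else (v.1, -v.2))

theorem act_add : ∀ (t : SD) (v w : ZMod 3 × ZMod 3),
    actFun t (v + w) = actFun t v + actFun t w := by decide +kernel

theorem act_mul : ∀ (s t : SD) (v : ZMod 3 × ZMod 3),
    actFun (s * t) v = actFun s (actFun t v) := by decide +kernel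

theorem act_one : ∀ v : ZMod 3 × ZMod 3, actFun 1 v = v := by decide +kernel

/-- the action as a homomorphism -/
def phi : SD →* MulAut (Multiplicative (ZMod 3 × ZMod 3)) where
  toFun t :=
    { toFun := fun v => Multiplicative.ofAdd (actFun t (Multiplicative.toAdd v))
      invFun := fun v => Multiplicative.ofAdd (actFun t⁻¹ (Multiplicative.toAdd v))
      left_inv := fun v => by
        show Multiplicative.ofAdd (actFun t⁻¹ (actFun t (Multiplicative.toAdd v))) = v
        rw [← act_mul, inv_mul_cancel, act_one]; rfl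
      right_inv := fun v => by
        show Multiplicative.ofAdd (actFun t (actFun t⁻¹ (Multiplicative.toAdd v))) = v
        rw [← act_mul, mul_inv_cancel, act_one]; rfl
      map_mul' := fun v w => by
        show Multiplicative.ofAdd (actFun t (Multiplicative.toAdd v + Multiplicative.toAdd w)) = _
        rw [act_add]; rfl }
  map_one' := by
    apply MulEquiv.ext
    intro v
    show Multiplicative.ofAdd (actFun 1 (Multiplicative.toAdd v)) = v
    rw [act_one]; rfl
  map_mul' := fun s t => by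
    apply MulEquiv.ext
    intro v
    show Multiplicative.ofAdd (actFun (s * t) (Multiplicative.toAdd v))
      = Multiplicative.ofAdd (actFun s (actFun t (Multiplicative.toAdd v)))
    rw [act_mul]

/-- the group `3^2 : SD16` -/
abbrev GG : Type := Multiplicative (ZMod 3 × ZMod 3) ⋊[phi] SD

instance : Fintype GG := Fintype.ofEquiv _ SemidirectProduct.equivProd.symm

/-- the field automorphism -/
def aEl : GG := ⟨1, ⟨0, 1⟩⟩

/-- a translation not fixed by it -/
def nEl : GG := ⟨Multiplicative.ofAdd ((0, 1) : ZMod 3 × ZMod 3), 1⟩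

theorem a_sq : aEl * aEl = 1 := by decide +kernel
theorem a_ne : aEl ≠ 1 := by decide +kernel

theorem w_facts : aEl * nEl * aEl⁻¹ * nEl⁻¹ ≠ 1 ∧
    (aEl * nEl * aEl⁻¹ * nEl⁻¹) * (aEl * nEl * aEl⁻¹ * nEl⁻¹) * (aEl * nEl * aEl⁻¹ * nEl⁻¹) = 1 := by
  decide +kernel

theorem key : ∀ c : GG, ∃ k : GG,
    (aEl * (k * c * k⁻¹) = (k * c * k⁻¹) * aEl) ∨ (k * c * k⁻¹).left = 1 := by
  decide +kernel

theorem card_SD : Fintype.card SD = 16 := by decide +kernel

/-- in a finite nilpotent group every subgroup is subnormal -/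
theorem isSubnormal_of_nilpotent {K : Type*} [Group K] [Finite K] [Group.IsNilpotent K]
    (H : Subgroup K) : H.IsSubnormal := by
  have hnc : NormalizerCondition K := normalizerCondition_of_isNilpotent
  induction' hn : H.index using Nat.strong_induction_on with n ih generalizing H
  by_cases htop : H = ⊤
  · rw [htop]; exact Subgroup.IsSubnormal.top
  · have hlt : H < ⊤ := lt_top_iff_ne_top.mpr htop
    have h1 := hnc H hlt
    have h2 : (Subgroup.normalizer (H : Set K)).index < H.index := Subgroup.index_strictAnti h1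
    have h3 := ih _ (hn ▸ h2) (Subgroup.normalizer (H : Set K)) rfl
    exact Subgroup.IsSubnormal.trans h1.le
      (Subgroup.Normal.isSubnormal Subgroup.normal_in_normalizer) h3

theorem subnormal_of_commute {G : Type*} [Group G] (a g : G) (h : a * g = g * a) :
    ((Subgroup.zpowers a).subgroupOf (Subgroup.zpowers a ⊔ Subgroup.zpowers g)).IsSubnormal := by
  have hK : Subgroup.zpowers a ⊔ Subgroup.zpowers g ≤ Subgroup.centralizer {a} := by
    apply sup_le
    · rw [Subgroup.zpowers_le]
      exact Subgroup.mem_centralizer_iff.mpr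
        (fun x hx => by rw [Set.mem_singleton_iff.mp hx])
    · rw [Subgroup.zpowers_le]
      exact Subgroup.mem_centralizer_iff.mpr
        (fun x hx => by rw [Set.mem_singleton_iff.mp hx]; exact h)
  apply Subgroup.Normal.isSubnormal
  constructor
  intro n hn k
  rw [Subgroup.mem_subgroupOf] at hn ⊢
  obtain ⟨m, hm⟩ := Subgroup.mem_zpowers_iff.mp hn
  have hk : a * (k : G) = (k : G) * a :=
    Subgroup.mem_centralizer_iff.mp (hK k.2) a (Set.mem_singleton a)
  have hc1 : Commute (k : G) a := hk.symm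
  have hcomm : Commute (k : G) (n : G) := by
    rw [← hm]; exact hc1.zpow_right m
  show (k : G) * (n : G) * (k : G)⁻¹ ∈ Subgroup.zpowers a
  rw [hcomm.mul_inv_cancel]
  exact hn

theorem isPGroup_SD : IsPGroup 2 SD :=
  IsPGroup.of_card (n := 4) (by rw [Nat.card_eq_fintype_card, card_SD]; rfl)

theorem subnormal_of_left {g : GG} (hg : g.left = 1) :
    ((Subgroup.zpowers aEl).subgroupOf (Subgroup.zpowers aEl ⊔ Subgroup.zpowers g)).IsSubnormal := by
  have hT : IsPGroup 2 ((SemidirectProduct.inr : SD →* GG).range) :=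
    isPGroup_SD.of_surjective (SemidirectProduct.inr : SD →* GG).rangeRestrict
      (MonoidHom.rangeRestrict_surjective _)
  have hle : Subgroup.zpowers aEl ⊔ Subgroup.zpowers g ≤ (SemidirectProduct.inr : SD →* GG).range := by
    apply sup_le
    · rw [Subgroup.zpowers_le]
      exact ⟨⟨0, 1⟩, rfl⟩
    · rw [Subgroup.zpowers_le]
      refine ⟨g.right, ?_⟩
      apply SemidirectProduct.ext
      · rw [SemidirectProduct.left_inr, hg]
      · rw [SemidirectProduct.right_inr]
  have hK : IsPGroup 2 ↥(Subgroup.zpowers aEl ⊔ Subgroup.zpowers g) := hT.to_le hle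
  haveI : Fact (Nat.Prime 2) := ⟨Nat.prime_two⟩
  haveI : Group.IsNilpotent ↥(Subgroup.zpowers aEl ⊔ Subgroup.zpowers g) := hK.isNilpotent
  exact isSubnormal_of_nilpotent _

theorem main : ∃ (G : Type) (_ : Group G) (_ : Finite G) (A : Subgroup G),
    Group.IsSolvable G ∧ Nat.card A = 2 ∧
      (∀ c : G, ∃ g : G, IsConj c g ∧
        (A.subgroupOf (A ⊔ Subgroup.zpowers g)).IsSubnormal) ∧
      ¬ A ≤ Cfsg.pCore 2 G := by
  haveI : Fact (Nat.Prime 2) := ⟨Nat.prime_two⟩
  refine ⟨GG, inferInstance, inferInstance, Subgroup.zpowers aEl, ?_, ?_, ?_, ?_⟩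
  · haveI : Group.IsNilpotent SD := isPGroup_SD.isNilpotent
    exact Group.isSolvable_of_ker_le_range
      (SemidirectProduct.inl : Multiplicative (ZMod 3 × ZMod 3) →* GG)
      SemidirectProduct.rightHom (SemidirectProduct.range_inl_eq_ker_rightHom).ge
  · rw [Nat.card_zpowers]
    exact orderOf_eq_prime (by rw [pow_two]; exact a_sq) a_ne
  · intro c
    obtain ⟨k, hk⟩ := key c
    refine ⟨k * c * k⁻¹, isConj_iff.mpr ⟨k, rfl⟩, ?_⟩
    rcases hk with hk | hk
    · exact subnormal_of_commute aEl _ hk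
    · exact subnormal_of_left hk
  · intro hle
    have ha : aEl ∈ Cfsg.pCore 2 GG := hle (Subgroup.mem_zpowers aEl)
    have hn : (Cfsg.pCore 2 GG).Normal := Cfsg.Agent.Lib_helper6_PCore.pCore_normal 2
    have hw : aEl * nEl * aEl⁻¹ * nEl⁻¹ ∈ Cfsg.pCore 2 GG := by
      have e : aEl * nEl * aEl⁻¹ * nEl⁻¹ = aEl * (nEl * aEl⁻¹ * nEl⁻¹) := by group
      rw [e]
      exact (Cfsg.pCore 2 GG).mul_mem ha (hn.conj_mem aEl⁻¹ ((Cfsg.pCore 2 GG).inv_mem ha) nEl)
    obtain ⟨j, hj⟩ := (IsPGroup.iff_orderOf.mp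
      (Cfsg.Agent.Lib_helper6_PCore.pCore_isPGroup (G := GG) 2)) ⟨_, hw⟩
    rw [← Subgroup.orderOf_coe] at hj
    have h3 : orderOf (aEl * nEl * aEl⁻¹ * nEl⁻¹) = 3 :=
      orderOf_eq_prime (by rw [pow_succ, pow_two]; exact w_facts.2) w_facts.1
    rw [h3] at hj
    exact Cfsg.Agent.Lib_lead_AltPClosed.ne_pow_of_prime Nat.prime_two Nat.prime_three
      (by norm_num) j hj

end Cfsg.Agent.Lib_lead_SD16Ex
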