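import Mathlib
import Cfsg.Prelude.Def_Solvable
import Cfsg.Agent.Lib_helper6_PCore
import Cfsg.Agent.Lib_lead_AltPClosed
import Cfsg.Agent.Lib_lead_SD16Ex
import Cfsg.Agent.Lib_lead_S8KeyA
import Cfsg.Agent.Lib_lead_S8KeyB
import Cfsg.Agent.Lib_lead_S8KeyC
import Cfsg.Agent.Lib_lead_S8KeyD

set_option autoImplicit false

namespace Cfsg.Agent.Lib_lead_S8Sub

open Cfsg.Agent.Lib_lead_S8Def
open Pointwise

theorem part_ok (a0 a1 : Fin 8) (h : a1 ≠ a0) : part a0 a1 = true := by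
  fin_cases a0 <;> fin_cases a1
  · exact absurd rfl h
  · exact Cfsg.Agent.Lib_lead_S8KeyA.chk_0_1
  · exact Cfsg.Agent.Lib_lead_S8KeyA.chk_0_2
  · exact Cfsg.Agent.Lib_lead_S8KeyA.chk_0_3
  · exact Cfsg.Agent.Lib_lead_S8KeyA.chk_0_4
  · exact Cfsg.Agent.Lib_lead_S8KeyA.chk_0_5
  · exact Cfsg.Agent.Lib_lead_S8KeyA.chk_0_6
  · exact Cfsg.Agent.Lib_lead_S8KeyA.chk_0_7
  · exact Cfsg.Agent.Lib_lead_S8KeyA.chk_1_0
  · exact absurd rfl h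
  · exact Cfsg.Agent.Lib_lead_S8KeyA.chk_1_2
  · exact Cfsg.Agent.Lib_lead_S8KeyA.chk_1_3
  · exact Cfsg.Agent.Lib_lead_S8KeyA.chk_1_4
  · exact Cfsg.Agent.Lib_lead_S8KeyA.chk_1_5
  · exact Cfsg.Agent.Lib_lead_S8KeyA.chk_1_6
  · exact Cfsg.Agent.Lib_lead_S8KeyA.chk_1_7
  · exact Cfsg.Agent.Lib_lead_S8KeyB.chk_2_0
  · exact Cfsg.Agent.Lib_lead_S8KeyB.chk_2_1
  · exact absurd rfl h
  · exact Cfsg.Agent.Lib_lead_S8KeyB.chk_2_3
  · exact Cfsg.Agent.Lib_lead_S8KeyB.chk_2_4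
  · exact Cfsg.Agent.Lib_lead_S8KeyB.chk_2_5
  · exact Cfsg.Agent.Lib_lead_S8KeyB.chk_2_6
  · exact Cfsg.Agent.Lib_lead_S8KeyB.chk_2_7
  · exact Cfsg.Agent.Lib_lead_S8KeyB.chk_3_0
  · exact Cfsg.Agent.Lib_lead_S8KeyB.chk_3_1
  · exact Cfsg.Agent.Lib_lead_S8KeyB.chk_3_2
  · exact absurd rfl h
  · exact Cfsg.Agent.Lib_lead_S8KeyB.chk_3_4
  · exact Cfsg.Agent.Lib_lead_S8KeyB.chk_3_5
  · exact Cfsg.Agent.Lib_lead_S8KeyB.chk_3_6
  · exact Cfsg.Agent.Lib_lead_S8KeyB.chk_3_7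
  · exact Cfsg.Agent.Lib_lead_S8KeyC.chk_4_0
  · exact Cfsg.Agent.Lib_lead_S8KeyC.chk_4_1
  · exact Cfsg.Agent.Lib_lead_S8KeyC.chk_4_2
  · exact Cfsg.Agent.Lib_lead_S8KeyC.chk_4_3
  · exact absurd rfl h
  · exact Cfsg.Agent.Lib_lead_S8KeyC.chk_4_5
  · exact Cfsg.Agent.Lib_lead_S8KeyC.chk_4_6
  · exact Cfsg.Agent.Lib_lead_S8KeyC.chk_4_7
  · exact Cfsg.Agent.Lib_lead_S8KeyC.chk_5_0
  · exact Cfsg.Agent.Lib_lead_S8KeyC.chk_5_1
  · exact Cfsg.Agent.Lib_lead_S8KeyC.chk_5_2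
  · exact Cfsg.Agent.Lib_lead_S8KeyC.chk_5_3
  · exact Cfsg.Agent.Lib_lead_S8KeyC.chk_5_4
  · exact absurd rfl h
  · exact Cfsg.Agent.Lib_lead_S8KeyC.chk_5_6
  · exact Cfsg.Agent.Lib_lead_S8KeyC.chk_5_7
  · exact Cfsg.Agent.Lib_lead_S8KeyD.chk_6_0
  · exact Cfsg.Agent.Lib_lead_S8KeyD.chk_6_1
  · exact Cfsg.Agent.Lib_lead_S8KeyD.chk_6_2
  · exact Cfsg.Agent.Lib_lead_S8KeyD.chk_6_3
  · exact Cfsg.Agent.Lib_lead_S8KeyD.chk_6_4
  · exact Cfsg.Agent.Lib_lead_S8KeyD.chk_6_5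
  · exact absurd rfl h
  · exact Cfsg.Agent.Lib_lead_S8KeyD.chk_6_7
  · exact Cfsg.Agent.Lib_lead_S8KeyD.chk_7_0
  · exact Cfsg.Agent.Lib_lead_S8KeyD.chk_7_1
  · exact Cfsg.Agent.Lib_lead_S8KeyD.chk_7_2
  · exact Cfsg.Agent.Lib_lead_S8KeyD.chk_7_3
  · exact Cfsg.Agent.Lib_lead_S8KeyD.chk_7_4
  · exact Cfsg.Agent.Lib_lead_S8KeyD.chk_7_5
  · exact Cfsg.Agent.Lib_lead_S8KeyD.chk_7_6
  · exact absurd rfl h

theorem peel (f g : Fin 8 → Bool)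
    (h : (List.finRange 8).all (fun a => f a || g a) = true) (a : Fin 8) (hf : f a = false) :
    g a = true := by
  have h1 := List.all_eq_true.mp h a (List.mem_finRange a)
  rw [hf, Bool.false_or] at h1
  exact h1

theorem good3_iff (t : Fin 8 → Fin 8) (x y z : Fin 8) : good3 t x y z = true ↔
    (x ≠ y ∧ y ≠ z ∧ x ≠ z ∧ ((t x = x ∧ t y = y ∧ t z = z) ∨ (t x = y ∧ t y = z ∧ t z = x) ∨
      (t x ≠ x ∧ t x ≠ y ∧ t x ≠ z ∧ t y ≠ x ∧ t y ≠ y ∧ t y ≠ z ∧ t z ≠ x ∧ t z ≠ y ∧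
        t z ≠ z))) := by
  simp only [good3, Bool.and_eq_true, Bool.or_eq_true, bne_iff_ne, beq_iff_eq, ne_eq]
  tauto

theorem triple_of_perm (c : Equiv.Perm (Fin 8)) : ∃ x y z : Fin 8, x ≠ y ∧ y ≠ z ∧ x ≠ z ∧
    ((c x = x ∧ c y = y ∧ c z = z) ∨ (c x = y ∧ c y = z ∧ c z = x) ∨
     (c x ≠ x ∧ c x ≠ y ∧ c x ≠ z ∧ c y ≠ x ∧ c y ≠ y ∧ c y ≠ z ∧ c z ≠ x ∧ c z ≠ y ∧
       c z ≠ z)) := by
  have ne : ∀ i j : Fin 8, i ≠ j → (c i == c j) = false :=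
    fun i j h => beq_eq_false_iff_ne.mpr (fun e => h (c.injective e))
  have h1 : part (c 0) (c 1) = true :=
    part_ok (c 0) (c 1) (fun e => absurd (c.injective e) (by decide))
  unfold part at h1
  have h2 := peel _ _ h1 (c 2) (by simp [ne 2 0 (by decide), ne 2 1 (by decide)])
  have h3 := peel _ _ h2 (c 3) (by simp [ne 3 0 (by decide), ne 3 1 (by decide), ne 3 2 (by decide)])
  have h4 := peel _ _ h3 (c 4) (by simp [ne 4 0 (by decide), ne 4 1 (by decide), ne 4 2 (by decide), ne 4 3 (by decide)])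
  have h5 := peel _ _ h4 (c 5) (by simp [ne 5 0 (by decide), ne 5 1 (by decide), ne 5 2 (by decide), ne 5 3 (by decide), ne 5 4 (by decide)])
  have h6 := peel _ _ h5 (c 6) (by simp [ne 6 0 (by decide), ne 6 1 (by decide), ne 6 2 (by decide), ne 6 3 (by decide), ne 6 4 (by decide), ne 6 5 (by decide)])
  have h7 := peel _ _ h6 (c 7) (by simp [ne 7 0 (by decide), ne 7 1 (by decide), ne 7 2 (by decide), ne 7 3 (by decide), ne 7 4 (by decide), ne 7 5 (by decide), ne 7 6 (by decide)])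
  have hlook : (![c 0, c 1, c 2, c 3, c 4, c 5, c 6, c 7] : Fin 8 → Fin 8) = c := by
    funext x
    fin_cases x <;> rfl
  rw [hlook] at h7
  unfold goodT at h7
  simp only [List.any_eq_true, List.mem_finRange, true_and] at h7
  obtain ⟨x, y, z, hxyz⟩ := h7
  exact ⟨x, y, z, (good3_iff _ x y z).mp hxyz⟩

theorem swap_commute {α : Type*} [DecidableEq α] (a b u v : α) (h1 : u ≠ a) (h2 : u ≠ b)
    (h3 : v ≠ a) (h4 : v ≠ b) : Commute (Equiv.swap a b) (Equiv.swap u v) := by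
  have h := Equiv.swap_apply_apply (Equiv.swap a b) u v
  rw [Equiv.swap_apply_of_ne_of_ne h1 h2, Equiv.swap_apply_of_ne_of_ne h3 h4] at h
  show Equiv.swap a b * Equiv.swap u v = Equiv.swap u v * Equiv.swap a b
  rw [eq_mul_inv_iff_mul_eq] at h
  exact h.symm

theorem exists_commuting (c : Equiv.Perm (Fin 8)) :
    ∃ τ : Equiv.Perm (Fin 8), τ.IsThreeCycle ∧ Commute τ (c * τ * c⁻¹) := by
  obtain ⟨x, y, z, hxy, hyz, hxz, h⟩ := triple_of_perm c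
  refine ⟨Equiv.swap x y * Equiv.swap y z, ?_, ?_⟩
  · rw [Equiv.swap_comm x y]
    exact Equiv.Perm.isThreeCycle_swap_mul_swap_same hxy.symm hyz hxz
  · have e1 : c * (Equiv.swap x y * Equiv.swap y z) * c⁻¹
        = Equiv.swap (c x) (c y) * Equiv.swap (c y) (c z) := by
      rw [Equiv.swap_apply_apply, Equiv.swap_apply_apply]; group
    rw [e1]
    rcases h with ⟨h1, h2, h3⟩ | ⟨h1, h2, h3⟩ | ⟨h1, h2, h3, h4, h5, h6, h7, h8, h9⟩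
    · rw [h1, h2, h3]
    · rw [h1, h2, h3]
      have e2 : Equiv.swap y z * Equiv.swap z x = Equiv.swap x y * Equiv.swap y z := by
        rw [← Equiv.swap_mul_swap_mul_swap hxy hxz, ← mul_assoc, ← mul_assoc,
          Equiv.swap_mul_self, one_mul]
      rw [e2]
    · exact ((swap_commute x y (c x) (c y) h1 h2 h4 h5).mul_right
        (swap_commute x y (c y) (c z) h4 h5 h7 h8)).mul_left
        ((swap_commute y z (c x) (c y) h2 h3 h5 h6).mul_right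
          (swap_commute y z (c y) (c z) h5 h6 h8 h9))

theorem part1 (σ : Equiv.Perm (Fin 8)) (hσ : σ.IsThreeCycle) (c : Equiv.Perm (Fin 8)) :
    ∃ g : Equiv.Perm (Fin 8), IsConj c g ∧
      ((Subgroup.zpowers σ).subgroupOf
        (Subgroup.zpowers σ ⊔ MulAut.conj g • Subgroup.zpowers σ)).IsSubnormal := by
  obtain ⟨τ, hτ, hcomm⟩ := exists_commuting c
  have h1 : τ.cycleType = {3} := hτ
  have h2 : σ.cycleType = {3} := hσ
  have hconj : IsConj τ σ := by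
    rw [Equiv.Perm.isConj_iff_cycleType_eq, h1, h2]
  obtain ⟨k, hk⟩ := isConj_iff.mp hconj
  refine ⟨k * c * k⁻¹, isConj_iff.mpr ⟨k, rfl⟩, ?_⟩
  have e : MulAut.conj (k * c * k⁻¹) • Subgroup.zpowers σ
      = Subgroup.zpowers ((k * c * k⁻¹) * σ * (k * c * k⁻¹)⁻¹) := by
    show (Subgroup.zpowers σ).map (MulAut.conj (k * c * k⁻¹)).toMonoidHom = _
    rw [MonoidHom.map_zpowers]; rfl
  rw [e]
  apply Cfsg.Agent.Lib_lead_SD16Ex.subnormal_of_commute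
  rw [← hk]
  have e1 : k * c * k⁻¹ * (k * τ * k⁻¹) * (k * c * k⁻¹)⁻¹ = k * (c * τ * c⁻¹) * k⁻¹ := by group
  rw [e1]
  have e2 : k * τ * k⁻¹ * (k * (c * τ * c⁻¹) * k⁻¹) = k * (τ * (c * τ * c⁻¹)) * k⁻¹ := by group
  have e3 : k * (c * τ * c⁻¹) * k⁻¹ * (k * τ * k⁻¹) = k * ((c * τ * c⁻¹) * τ) * k⁻¹ := by group
  rw [e2, e3, hcomm.eq]

theorem pCore3_S8 : Cfsg.pCore 3 (Equiv.Perm (Fin 8)) = ⊥ := by
  haveI : Fact (Nat.Prime 3) := ⟨Nat.prime_three⟩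
  by_contra hne
  haveI : (Cfsg.pCore 3 (Equiv.Perm (Fin 8))).Normal :=
    Cfsg.Agent.Lib_helper6_PCore.pCore_normal 3
  have hnt : Nontrivial ↥(Cfsg.pCore 3 (Equiv.Perm (Fin 8))) :=
    (Subgroup.nontrivial_iff_ne_bot _).mpr hne
  have hle := Equiv.Perm.alternatingGroup_le_of_normal (α := Fin 8) (by simp) hnt
  have hsign : Equiv.Perm.sign (Equiv.swap (0 : Fin 8) 1 * Equiv.swap 2 3) = 1 := by
    rw [Equiv.Perm.sign_mul, Equiv.Perm.sign_swap (by decide), Equiv.Perm.sign_swap (by decide)]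
    rfl
  have hmem : (Equiv.swap (0 : Fin 8) 1 * Equiv.swap 2 3) ∈ Cfsg.pCore 3 (Equiv.Perm (Fin 8)) :=
    hle (Equiv.Perm.mem_alternatingGroup.mpr hsign)
  obtain ⟨j, hj⟩ := (IsPGroup.iff_orderOf.mp
    (Cfsg.Agent.Lib_helper6_PCore.pCore_isPGroup (G := Equiv.Perm (Fin 8)) 3)) ⟨_, hmem⟩
  rw [← Subgroup.orderOf_coe] at hj
  have h2 : orderOf (Equiv.swap (0 : Fin 8) 1 * Equiv.swap 2 3) = 2 :=
    orderOf_eq_prime (by decide) (by decide)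
  rw [h2] at hj
  exact Cfsg.Agent.Lib_lead_AltPClosed.ne_pow_of_prime Nat.prime_three Nat.prime_two
    (by norm_num) j hj

end Cfsg.Agent.Lib_lead_S8Sub
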