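import Cfsg.Statements.S0016
import Cfsg.Agent.Lib_helper1_UniqInv

set_option autoImplicit false
open Cfsg

namespace Cfsg.Agent.S0016

/-- A finite p-group in which only one subgroup has order p is either cyclic or (with p = 2) isomorphic to a generalized quaternion group. -/
theorem result {G : Type*} [Group G] [Finite G] (p : ℕ) [Fact p.Prime]
    (hG : IsPGroup p G) (huniq : ∀ H K : Subgroup G, Nat.card H = p → Nat.card K = p → H = K) :
    IsCyclic G ∨ (p = 2 ∧ ∃ n : ℕ, Nonempty (G ≃* QuaternionGroup (2 ^ n))) := by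
  have hpp : p.Prime := Fact.out
  by_cases hp2 : p = 2
  · subst hp2
    have hui : Cfsg.Agent.Lib_helper1_UniqInv.UI G := by
      intro u v hu hv hu1 hv1
      have h1 : Nat.card (Subgroup.zpowers u) = 2 := by
        rw [Nat.card_zpowers]
        exact orderOf_eq_prime hu hu1
      have h2 : Nat.card (Subgroup.zpowers v) = 2 := by
        rw [Nat.card_zpowers]
        exact orderOf_eq_prime hv hv1
      have h3 := huniq _ _ h1 h2
      have h4 : u ∈ Subgroup.zpowers v := by
        rw [← h3]
        exact Subgroup.mem_zpowers u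
      obtain ⟨y, hy1, hyu⟩ := (Nat.card_eq_two_iff' (1 : Subgroup.zpowers v)).mp h2
      have h5 := hyu ⟨u, h4⟩ (fun h => hu1 (congrArg Subtype.val h))
      have h6 := hyu ⟨v, Subgroup.mem_zpowers v⟩ (fun h => hv1 (congrArg Subtype.val h))
      exact congrArg Subtype.val (h5.trans h6.symm)
    rcases Cfsg.Agent.Lib_helper1_UniqInv.two_group_ui hG hui with h | h
    · exact Or.inl h
    · exact Or.inr ⟨rfl, h⟩
  · left
    by_contra hnc
    have hnc' : ¬ IsCyclic (⊤ : Subgroup G) := fun h =>
      hnc (isCyclic_of_surjective Subgroup.topEquiv.toMonoidHom Subgroup.topEquiv.surjective)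
    obtain ⟨A, -, -, hAab, hAexp, hAcard⟩ :=
      Cfsg.Agent.Lib_helper1_NormalRankTwo.normal_rank_two hp2 hG ⊤ hnc'
    have hex : ∃ a ∈ A, a ≠ 1 := by
      by_contra hcon
      push Not at hcon
      have h1 : A = ⊥ := by
        rw [eq_bot_iff]
        intro a ha
        rw [Subgroup.mem_bot]
        exact hcon a ha
      rw [h1, Subgroup.card_bot] at hAcard
      have := hpp.one_lt
      nlinarith
    obtain ⟨a, haA, ha1⟩ := hex
    have hca : Nat.card (Subgroup.zpowers a) = p := by
      rw [Nat.card_zpowers]
      exact orderOf_eq_prime (hAexp a haA) ha1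
    have hex2 : ∃ b ∈ A, b ∉ Subgroup.zpowers a := by
      by_contra hcon
      push Not at hcon
      have h1 : A = Subgroup.zpowers a :=
        le_antisymm (fun b hb => hcon b hb) (Subgroup.zpowers_le.mpr haA)
      rw [h1, hca] at hAcard
      have := hpp.one_lt
      nlinarith
    obtain ⟨b, hbA, hba⟩ := hex2
    have hb1 : b ≠ 1 := by
      intro h
      apply hba
      rw [h]
      exact Subgroup.one_mem _
    have hcb : Nat.card (Subgroup.zpowers b) = p := by
      rw [Nat.card_zpowers]
      exact orderOf_eq_prime (hAexp b hbA) hb1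
    have h3 := huniq _ _ hca hcb
    apply hba
    rw [h3]
    exact Subgroup.mem_zpowers b

end Cfsg.Agent.S0016
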