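import Cfsg.Statements.S0048
import Cfsg.Agent.Lib_helper1_MaxSub

set_option autoImplicit false
open Cfsg

namespace Cfsg.Agent.S0048

open Cfsg.Agent.Lib_helper1_Basic Cfsg.Agent.Lib_helper1_Hall Cfsg.Agent.Lib_helper1_MaxSub

universe u

theorem aux (n : ℕ) : ∀ (G : Type u) [Group G] [Finite G] [Group.IsSolvable G],
    Nat.card G = n → ∀ M : Subgroup G, IsCoatom M → IsPrimePow M.index := by
  induction n using Nat.strong_induction_on with
  | _ n ih =>
  intro G _ _ _ hn M hM
  have hnt : Nontrivial G := by
    by_contra hcon
    rw [not_nontrivial_iff_subsingleton] at hcon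
    exact hM.1 (Subsingleton.elim _ _)
  obtain ⟨N, hNn, hN1, hNab, hNmin, p, k, hp, hk, hNcard⟩ := exists_minimal_normal (G := G)
  have := hNn
  by_cases hNM : N ≤ M
  · set f := QuotientGroup.mk' N with hf
    have hfs : Function.Surjective f := QuotientGroup.mk'_surjective N
    have hcomap : (M.map f).comap f = M := by
      rw [hf, QuotientGroup.comap_map_mk']; exact sup_eq_right.mpr hNM
    have hco : IsCoatom (M.map f) := by
      constructor
      · intro hT
        rw [hT, Subgroup.comap_top] at hcomap
        exact hM.1 hcomap.symm
      · intro X hX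
        have h1 : M ≤ X.comap f := by
          rw [← hcomap]; exact Subgroup.comap_mono hX.le
        have h2 : M ≠ X.comap f := by
          intro h
          have : M.map f = X := by
            rw [h]; exact Subgroup.map_comap_eq_self_of_surjective hfs X
          exact hX.ne this
        have h3 : X.comap f = ⊤ := hM.2 _ (lt_of_le_of_ne h1 h2)
        have h4 := Subgroup.map_comap_eq_self_of_surjective hfs X
        rw [h3] at h4
        rw [← h4, ← MonoidHom.range_eq_map]
        exact MonoidHom.range_eq_top.mpr hfs
    have hidx : (M.map f).index = M.index :=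
      Subgroup.index_map_eq M hfs (by rw [hf, QuotientGroup.ker_mk']; exact hNM)
    have hlt : Nat.card (G ⧸ N) < n := by
      have hcardG := Subgroup.card_eq_card_quotient_mul_card_subgroup N
      rw [hn] at hcardG
      have hpos : 0 < Nat.card (G ⧸ N) := Nat.card_pos
      have h1 : 1 < Nat.card N := by
        rw [hNcard]; exact Nat.one_lt_pow hk hp.one_lt
      nlinarith
    have := ih _ hlt (G ⧸ N) rfl (M.map f) hco
    rwa [hidx] at this
  · have hc := isComplement'_of_minimal_abelian N hNmin M hM hNM
    rw [hc.index_eq_card, hNcard]
    exact hp.isPrimePow.pow hk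

/-- In a finite solvable group every maximal subgroup has index a prime power. -/
theorem result {G : Type*} [Group G] [Finite G] [Group.IsSolvable G]
    (M : Subgroup G) (hM : IsCoatom M) : IsPrimePow M.index :=
  aux _ G rfl M hM

end Cfsg.Agent.S0048
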