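import Cfsg.Statements.S0130


set_option autoImplicit false
open Cfsg

namespace Cfsg.Agent.S0130

theorem choose_dvd {p : ℕ} (hp : p.Prime) (n : ℕ) (hn : p ^ n ≠ 2) : p ∣ (p ^ n).choose 2 := by
  have h2 : 2 * (p ^ n).choose 2 = p ^ n * (p ^ n - 1) := by
    rw [Nat.choose_two_right]
    exact Nat.mul_div_cancel' (Nat.even_mul_pred_self _).two_dvd
  cases n with
  | zero => simp
  | succ k =>
    have h3 : p ∣ 2 * (p ^ (k + 1)).choose 2 := by
      rw [h2]; exact Dvd.dvd.mul_right (dvd_pow_self p (Nat.succ_ne_zero k)) _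
    rcases (Nat.Prime.dvd_mul hp).mp h3 with h4 | h4
    · have hp2 : p = 2 := (Nat.prime_dvd_prime_iff_eq hp Nat.prime_two).mp h4
      subst hp2
      cases k with
      | zero => exact absurd (by norm_num) hn
      | succ k' =>
        have h5 : 2 ^ (k' + 1 + 1) = 4 * 2 ^ k' := by ring
        rw [h5] at h2 ⊢
        have h6 : 4 * 2 ^ k' * (4 * 2 ^ k' - 1) = 4 * (2 ^ k' * (4 * 2 ^ k' - 1)) := by
          rw [Nat.mul_assoc]
        rw [h6] at h2
        exact ⟨2 ^ k' * (4 * 2 ^ k' - 1), by omega⟩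
    · exact h4

theorem pow_mul_comm_cl2 {G : Type*} [Group G] (c y e : G) (h1 : y * c = e * c * y)
    (hey : Commute e y) (m : ℕ) : y ^ m * c = e ^ m * c * y ^ m := by
  induction m with
  | zero => simp
  | succ m ih =>
    calc y ^ (m + 1) * c = y ^ m * (y * c) := by rw [pow_succ, mul_assoc]
      _ = y ^ m * (e * c * y) := by rw [h1]
      _ = e * (y ^ m * c) * y := by
          simp only [← mul_assoc]
          rw [(hey.pow_right m).eq]
      _ = e * (e ^ m * c * y ^ m) * y := by rw [ih]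
      _ = e ^ (m + 1) * c * y ^ (m + 1) := by
          rw [pow_succ' e, pow_succ y]; simp only [mul_assoc]

theorem mul_pow_cl2 {G : Type*} [Group G] (c y e : G) (h1 : y * c = e * c * y)
    (hec : Commute e c) (hey : Commute e y) (m : ℕ) :
    (c * y) ^ m = e ^ (m.choose 2) * c ^ m * y ^ m := by
  induction m with
  | zero => simp
  | succ m ih =>
    have h2 := pow_mul_comm_cl2 c y e h1 hey m
    have h3 : (m + 1).choose 2 = m.choose 2 + m := by
      show Nat.choose (m + 1) (1 + 1) = Nat.choose m (1 + 1) + m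
      rw [Nat.choose_succ_succ' m 1, Nat.choose_one_right, add_comm]
    have h4 : c ^ m * e ^ m = e ^ m * c ^ m := ((hec.pow_left m).pow_right m).eq.symm
    calc (c * y) ^ (m + 1) = (c * y) ^ m * (c * y) := pow_succ _ _
      _ = e ^ (m.choose 2) * c ^ m * y ^ m * (c * y) := by rw [ih]
      _ = e ^ (m.choose 2) * c ^ m * (y ^ m * c) * y := by simp only [mul_assoc]
      _ = e ^ (m.choose 2) * c ^ m * (e ^ m * c * y ^ m) * y := by rw [h2]
      _ = e ^ (m.choose 2) * e ^ m * (c ^ m * c) * (y ^ m * y) := by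
          simp only [← mul_assoc]
          rw [mul_assoc (e ^ m.choose 2) (c ^ m) (e ^ m), h4]
          simp only [← mul_assoc]
      _ = e ^ ((m + 1).choose 2) * c ^ (m + 1) * y ^ (m + 1) := by
          rw [h3, pow_add e, pow_succ c, pow_succ y]

theorem step1 {G : Type*} [Group G] (A : Subgroup G) (p n : ℕ) (hp : p.Prime)
    (hn : p ^ n ≠ 2) (c y : G) (hcC : c ∈ Subgroup.centralizer (A : Set G))
    (hyC : y ∈ Subgroup.centralizer (A : Set G))
    (hyp : y ^ p ∈ A) (hyn : y ^ p ^ n = 1) (hcy : (c * y) ^ p ^ n = 1)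
    (he : y * c * y⁻¹ * c⁻¹ ∈ A) : c ^ p ^ n = 1 := by
  have h1 : y * c = (y * c * y⁻¹ * c⁻¹) * c * y := by group
  have hec : Commute (y * c * y⁻¹ * c⁻¹) c := Subgroup.mem_centralizer_iff.mp hcC _ he
  have hey : Commute (y * c * y⁻¹ * c⁻¹) y := Subgroup.mem_centralizer_iff.mp hyC _ he
  have hep : (y * c * y⁻¹ * c⁻¹) ^ p = 1 := by
    have h2 := pow_mul_comm_cl2 c y _ h1 hey p
    have h3 : y ^ p * c = c * y ^ p := Subgroup.mem_centralizer_iff.mp hcC _ hyp
    rw [h3, mul_assoc] at h2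
    have h5 : 1 * (c * y ^ p) = (y * c * y⁻¹ * c⁻¹) ^ p * (c * y ^ p) := by
      rw [one_mul]; exact h2
    exact (mul_right_cancel h5).symm
  have h4 := mul_pow_cl2 c y _ h1 hec hey (p ^ n)
  rw [hcy, hyn, mul_one] at h4
  obtain ⟨t, ht⟩ := choose_dvd hp n hn
  rw [ht, pow_mul, hep, one_pow, one_mul] at h4
  exact h4.symm

theorem step0 {G : Type*} [Group G] (A : Subgroup G) [hAn : A.Normal]
    (hA : IsMulCommutative A) (m : ℕ) (hAe : ∀ a ∈ A, a ^ m = 1)
    (hmax : ∀ B : Subgroup G, B.Normal → IsMulCommutative B → (∀ b ∈ B, b ^ m = 1) →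
      A ≤ B → B = A)
    (y : G) (hyC : y ∈ Subgroup.centralizer (A : Set G)) (hym : y ^ m = 1)
    (hy : ∀ g : G, g * y * g⁻¹ * y⁻¹ ∈ A) : y ∈ A := by
  have hrep : ∀ b ∈ A ⊔ Subgroup.zpowers y, ∃ a ∈ A, ∃ k : ℤ, b = a * y ^ k := by
    intro b hb
    obtain ⟨a, ha, z, hz, rfl⟩ := Subgroup.mem_sup_of_normal_left.mp hb
    obtain ⟨k, rfl⟩ := Subgroup.mem_zpowers_iff.mp hz
    exact ⟨a, ha, k, rfl⟩
  have hcomm : ∀ a ∈ A, ∀ k : ℤ, Commute a (y ^ k) := by
    intro a ha k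
    have h0 : Commute a y := Subgroup.mem_centralizer_iff.mp hyC a ha
    exact h0.zpow_right k
  have hAA : ∀ a ∈ A, ∀ a' ∈ A, a * a' = a' * a := by
    intro a ha a' ha'
    have h0 := hA.is_comm.comm (⟨a, ha⟩ : A) ⟨a', ha'⟩
    exact congrArg Subtype.val h0
  have hBn : (A ⊔ Subgroup.zpowers y).Normal := by
    constructor
    intro b hb g
    obtain ⟨a, ha, k, rfl⟩ := hrep b hb
    have h1 : g * y * g⁻¹ ∈ A ⊔ Subgroup.zpowers y := by
      have h2 : g * y * g⁻¹ = (g * y * g⁻¹ * y⁻¹) * y := by group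
      rw [h2]
      exact mul_mem ((le_sup_left : A ≤ _) (hy g))
        ((le_sup_right : Subgroup.zpowers y ≤ _) (Subgroup.mem_zpowers y))
    have h3 : g * (a * y ^ k) * g⁻¹ = (g * a * g⁻¹) * (g * y * g⁻¹) ^ k := by
      rw [conj_zpow]; group
    rw [h3]
    exact mul_mem ((le_sup_left : A ≤ _) (hAn.conj_mem a ha g)) (zpow_mem h1 k)
  have hBc : IsMulCommutative ↥(A ⊔ Subgroup.zpowers y) := by
    refine ⟨⟨fun b1 b2 => ?_⟩⟩
    apply Subtype.ext
    obtain ⟨a1, ha1, k1, h1⟩ := hrep b1 b1.2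
    obtain ⟨a2, ha2, k2, h2⟩ := hrep b2 b2.2
    show (b1 : G) * (b2 : G) = (b2 : G) * (b1 : G)
    rw [h1, h2]
    have e1 := (hcomm a2 ha2 k1).eq
    have e2 := (hcomm a1 ha1 k2).eq
    have e3 := hAA a1 ha1 a2 ha2
    have e4 : y ^ k1 * y ^ k2 = y ^ k2 * y ^ k1 := by
      rw [← zpow_add, ← zpow_add, add_comm]
    calc a1 * y ^ k1 * (a2 * y ^ k2) = a1 * (y ^ k1 * a2) * y ^ k2 := by
          simp only [mul_assoc]
      _ = a1 * (a2 * y ^ k1) * y ^ k2 := by rw [e1]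
      _ = (a1 * a2) * (y ^ k1 * y ^ k2) := by simp only [mul_assoc]
      _ = (a2 * a1) * (y ^ k2 * y ^ k1) := by rw [e3, e4]
      _ = a2 * (a1 * y ^ k2) * y ^ k1 := by simp only [mul_assoc]
      _ = a2 * (y ^ k2 * a1) * y ^ k1 := by rw [e2]
      _ = a2 * y ^ k2 * (a1 * y ^ k1) := by simp only [mul_assoc]
  have hBe : ∀ b ∈ A ⊔ Subgroup.zpowers y, b ^ m = 1 := by
    intro b hb
    obtain ⟨a, ha, k, rfl⟩ := hrep b hb
    rw [(hcomm a ha k).mul_pow, hAe a ha, one_mul, ← zpow_natCast, ← zpow_mul, mul_comm,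
      zpow_mul, zpow_natCast, hym, one_zpow]
  have hB := hmax _ hBn hBc hBe le_sup_left
  rw [← hB]
  exact (le_sup_right : Subgroup.zpowers y ≤ _) (Subgroup.mem_zpowers y)



/-- If A is maximal among the normal abelian subgroups of exponent dividing p^n of a p-group (p^n ≠ 2), then A contains every element of order dividing p^n in its centralizer. -/
theorem result {G : Type*} [Group G] [Finite G] {p : ℕ} [Fact p.Prime] (hG : IsPGroup p G) (n : ℕ) (hn : p ^ n ≠ 2) (A : Subgroup G) [A.Normal] (hA : IsMulCommutative A) (hAe : ∀ a ∈ A, a ^ p ^ n = 1) (hmax : ∀ B : Subgroup G, B.Normal → IsMulCommutative B → (∀ b ∈ B, b ^ p ^ n = 1) → A ≤ B → B = A) (x : G) (hx : x ∈ Subgroup.centralizer (A : Set G)) (hxn : x ^ p ^ n = 1) : x ∈ A := by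
  classical
  by_contra hxA
  have hp : p.Prime := Fact.out
  haveI hCn : (Subgroup.centralizer (A : Set G)).Normal := inferInstance
  haveI : Group.IsNilpotent (G ⧸ A) := (hG.to_quotient A).isNilpotent
  obtain ⟨N, hN⟩ := Group.IsNilpotent.nilpotent (G ⧸ A)
  have hex : ∃ j, ∃ y, y ∈ Subgroup.centralizer (A : Set G) ∧ y ^ p ^ n = 1 ∧
      QuotientGroup.mk' A y ∈ Subgroup.upperCentralSeries (G ⧸ A) j ∧ y ∉ A :=
    ⟨N, x, hx, hxn, by rw [hN]; exact Subgroup.mem_top _, hxA⟩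
  obtain ⟨j, hj, hmin⟩ : ∃ j, (∃ y, y ∈ Subgroup.centralizer (A : Set G) ∧ y ^ p ^ n = 1 ∧
      QuotientGroup.mk' A y ∈ Subgroup.upperCentralSeries (G ⧸ A) j ∧ y ∉ A) ∧
      ∀ i < j, ¬ ∃ y, y ∈ Subgroup.centralizer (A : Set G) ∧ y ^ p ^ n = 1 ∧
      QuotientGroup.mk' A y ∈ Subgroup.upperCentralSeries (G ⧸ A) i ∧ y ∉ A :=
    ⟨Nat.find hex, Nat.find_spec hex, fun i hi => Nat.find_min hex hi⟩
  obtain ⟨y0, hy0C, hy0n, hy0Z, hy0A⟩ := hj
  have hexk : ∃ k, y0 ^ p ^ k ∈ A := ⟨n, by rw [hy0n]; exact one_mem A⟩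
  have hk := Nat.find_spec hexk
  have hk0 : Nat.find hexk ≠ 0 := by
    intro h0
    rw [h0, pow_zero, pow_one] at hk
    exact hy0A hk
  obtain ⟨k', hk'⟩ := Nat.exists_eq_succ_of_ne_zero hk0
  have hk'' : Nat.find hexk = k' + 1 := hk'
  have hkmin : y0 ^ p ^ k' ∉ A := Nat.find_min hexk (by omega)
  obtain ⟨y, hyC, hyn, hyZ, hyA, hyp⟩ : ∃ y, y ∈ Subgroup.centralizer (A : Set G) ∧
      y ^ p ^ n = 1 ∧ QuotientGroup.mk' A y ∈ Subgroup.upperCentralSeries (G ⧸ A) j ∧ y ∉ A ∧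
      y ^ p ∈ A := by
    refine ⟨y0 ^ p ^ k', pow_mem hy0C _, ?_, ?_, hkmin, ?_⟩
    · rw [← pow_mul, mul_comm, pow_mul, hy0n, one_pow]
    · rw [map_pow]; exact pow_mem hy0Z _
    · rw [← pow_mul, ← pow_succ, ← hk'']; exact hk
  have hj0 : j ≠ 0 := by
    rintro rfl
    rw [Subgroup.upperCentralSeries_zero, Subgroup.mem_bot] at hyZ
    exact hyA ((QuotientGroup.eq_one_iff _).mp hyZ)
  have key : ∀ i, i < j → ∀ g : G,
      QuotientGroup.mk' A (g * y * g⁻¹ * y⁻¹) ∈ Subgroup.upperCentralSeries (G ⧸ A) i →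
      g * y * g⁻¹ * y⁻¹ ∈ A := by
    intro i
    induction i with
    | zero =>
      intro _ g hg
      rw [Subgroup.upperCentralSeries_zero, Subgroup.mem_bot] at hg
      exact (QuotientGroup.eq_one_iff _).mp hg
    | succ i ih =>
      intro hi g hg
      by_contra hcA
      obtain ⟨c, hc⟩ : ∃ c, c = g * y * g⁻¹ * y⁻¹ := ⟨_, rfl⟩
      rw [← hc] at hg hcA
      have hcC : c ∈ Subgroup.centralizer (A : Set G) := by
        rw [hc]; exact mul_mem (hCn.conj_mem y hyC g) (inv_mem hyC)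
      have hd : c * y * c⁻¹ * y⁻¹ ∈ A := by
        apply ih (by omega)
        have h1 := (Subgroup.mem_upperCentralSeries_succ_iff.mp hg) (QuotientGroup.mk' A y)
        rw [map_mul, map_mul, map_mul, map_inv, map_inv]
        exact h1
      have he : y * c * y⁻¹ * c⁻¹ ∈ A := by
        have h2 : y * c * y⁻¹ * c⁻¹ = (c * y * c⁻¹ * y⁻¹)⁻¹ := by group
        rw [h2]; exact inv_mem hd
      have hcy : (c * y) ^ p ^ n = 1 := by
        have h3 : c * y = g * y * g⁻¹ := by rw [hc]; group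
        rw [h3, conj_pow, hyn]; group
      have hcn := step1 A p n hp hn c y hcC hyC hyp hyn hcy he
      exact hmin (i + 1) hi ⟨c, hcC, hcn, hg, hcA⟩
  obtain ⟨j', rfl⟩ := Nat.exists_eq_succ_of_ne_zero hj0
  apply hyA
  apply step0 A hA (p ^ n) hAe hmax y hyC hyn
  intro g
  apply key j' (Nat.lt_succ_self j')
  have h1 := (Subgroup.mem_upperCentralSeries_succ_iff.mp hyZ) (QuotientGroup.mk' A g)
  have h2 : QuotientGroup.mk' A (g * y * g⁻¹ * y⁻¹) =
      (QuotientGroup.mk' A y * QuotientGroup.mk' A g * (QuotientGroup.mk' A y)⁻¹ *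
        (QuotientGroup.mk' A g)⁻¹)⁻¹ := by
    rw [map_mul, map_mul, map_mul, map_inv, map_inv]; group
  rw [h2]
  exact inv_mem h1

end Cfsg.Agent.S0130
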