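import Cfsg.Statements.S0154
import Mathlib
import Cfsg.Agent.Lib_helper3_CharMore
import Cfsg.Agent.Lib_helper3_CharDiag

set_option autoImplicit false
open Cfsg

namespace Cfsg.Agent.S0154

/-- A finite group has exactly as many irreducible complex characters of degree 1 as the index of its commutator subgroup. -/
theorem result {G : Type*} [Group G] [Finite G] : Nat.card {χ : Cfsg.IrrCharacter G // (χ : G → ℂ) 1 = 1} = (commutator G).index := by
  classical
  let F : (G →* ℂˣ) → {χ : Cfsg.IrrCharacter G // (χ : G → ℂ) 1 = 1} := fun lam =>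
    ⟨⟨fun g => (lam g : ℂ), Cfsg.Agent.Lib_helper3_CharMore.isIrrCharacter_of_monoidHom lam⟩, by simp⟩
  have hinj : Function.Injective F := by
    intro l₁ l₂ h
    have h1 : (fun g => (l₁ g : ℂ)) = (fun g => (l₂ g : ℂ)) :=
      congrArg (fun χ => (χ.1 : Cfsg.IrrCharacter G).1) h
    ext g
    exact congrFun h1 g
  have hsurj : Function.Surjective F := by
    rintro ⟨⟨χ, hχ⟩, h1⟩
    obtain ⟨n, ρ, hirr, rfl⟩ := hχ
    have h1' : ρ.character 1 = 1 := h1
    rw [Representation.char_one] at h1'
    have hfr : Module.finrank ℂ (Fin n → ℂ) = 1 := by exact_mod_cast h1'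
    obtain ⟨lam, hlam⟩ :=
      Cfsg.Agent.Lib_helper3_CharDiag.exists_monoidHom_of_finrank_eq_one ρ hfr
    refine ⟨lam, ?_⟩
    apply Subtype.ext
    apply Subtype.ext
    funext g
    show (lam g : ℂ) = ρ.character g
    have h2 : ρ g = (lam g : ℂ) • (1 : (Fin n → ℂ) →ₗ[ℂ] (Fin n → ℂ)) := by
      apply LinearMap.ext
      intro v
      rw [hlam g v]
      rfl
    simp only [Representation.character]
    rw [h2, map_smul, LinearMap.trace_one, hfr]
    simp
  rw [← Nat.card_congr (Equiv.ofBijective F ⟨hinj, hsurj⟩)]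
  rw [Nat.card_congr (Abelianization.lift (G := G) (A := ℂˣ))]
  have hne : NeZero ((Monoid.exponent (Abelianization G) : ℕ) : ℂ) :=
    ⟨by exact_mod_cast Monoid.exponent_ne_zero_of_finite⟩
  rw [CommGroup.card_monoidHom_of_hasEnoughRootsOfUnity]
  exact (Subgroup.index_eq_card (commutator G)).symm
end Cfsg.Agent.S0154
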