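import Cfsg.Statements.S0178
import Mathlib
import Cfsg.Agent.Lib_helper3_CharIntegral
import Cfsg.Agent.Lib_helper3_CharDiag

set_option autoImplicit false
open Cfsg

namespace Cfsg.Agent.S0178

/-- The degree of an irreducible complex representation of a finite group is at most the index of any abelian subgroup. -/
theorem result {G : Type*} [Group G] [Finite G] {V : Type*} [AddCommGroup V] [Module ℂ V] [FiniteDimensional ℂ V] (ρ : Representation ℂ G V) [ρ.IsIrreducible] (A : Subgroup G) (hA : ∀ a ∈ A, ∀ b ∈ A, a * b = b * a) : Module.finrank ℂ V ≤ A.index := by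
  classical
  have hAcomm : IsMulCommutative A := ⟨⟨fun a b => Subtype.ext (hA a a.2 b b.2)⟩⟩
  let σ : Representation ℂ A V := ρ.comp A.subtype
  obtain ⟨ι, _, b, lam, hb⟩ := Cfsg.Agent.Lib_helper3_CharDiag.exists_diag σ
  have hpos := Cfsg.Agent.Lib_helper3_CharIntegral.finrank_pos_of_irreducible ρ
  have hι : Nonempty ι := by
    by_contra h
    rw [not_nonempty_iff] at h
    have : Module.finrank ℂ V = 0 := by
      rw [Module.finrank_eq_card_basis b]
      simp
    omega
  obtain ⟨i₀⟩ := hι
  set v := b i₀ with hvdef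
  have hv : v ≠ 0 := b.ne_zero i₀
  have := Fintype.ofFinite (G ⧸ A)
  let w : G ⧸ A → V := fun q => ρ (Quotient.out q) v
  have key : ∀ g' : G, ρ g' v ∈ Submodule.span ℂ (Set.range w) := by
    intro g'
    set t := Quotient.out (g' : G ⧸ A) with ht
    have hmem : t⁻¹ * g' ∈ A := by
      rw [← QuotientGroup.eq]
      exact Quotient.out_eq (g' : G ⧸ A)
    have h1 : ρ g' v = (lam i₀ ⟨t⁻¹ * g', hmem⟩ : ℂ) • w (g' : G ⧸ A) := by
      have h2 : g' = t * (t⁻¹ * g') := by group
      have h3 : ρ (t⁻¹ * g') v = (lam i₀ ⟨t⁻¹ * g', hmem⟩ : ℂ) • v := hb ⟨t⁻¹ * g', hmem⟩ i₀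
      conv_lhs => rw [h2, map_mul, Module.End.mul_apply, h3, map_smul]
    rw [h1]
    exact Submodule.smul_mem _ _ (Submodule.subset_span ⟨_, rfl⟩)
  let W : Subrepresentation ρ :=
    { toSubmodule := Submodule.span ℂ (Set.range w)
      apply_mem_toSubmodule := by
        intro g x hx
        induction hx using Submodule.span_induction with
        | mem x hx =>
          obtain ⟨q, rfl⟩ := hx
          show ρ g (ρ (Quotient.out q) v) ∈ _
          rw [← Module.End.mul_apply, ← map_mul]
          exact key _
        | zero => rw [map_zero]; exact Submodule.zero_mem _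
        | add x y _ _ hx hy => rw [map_add]; exact Submodule.add_mem _ hx hy
        | smul c x _ hx => rw [map_smul]; exact Submodule.smul_mem _ c hx }
  have hI : IsSimpleOrder (Subrepresentation ρ) := ‹ρ.IsIrreducible›
  have hvW : v ∈ W.toSubmodule := by
    have := key 1
    rwa [map_one, Module.End.one_apply] at this
  rcases hI.eq_bot_or_eq_top W with hW | hW
  · exfalso
    rw [hW] at hvW
    exact hv ((Submodule.mem_bot ℂ).mp hvW)
  · have h1 : Submodule.span ℂ (Set.range w) = ⊤ := by
      have : W.toSubmodule = (⊤ : Subrepresentation ρ).toSubmodule := by rw [hW]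
      exact this
    have h2 : Module.finrank ℂ (Submodule.span ℂ (Set.range w)) ≤ Fintype.card (G ⧸ A) :=
      finrank_range_le_card w
    rw [h1, finrank_top] at h2
    rw [Subgroup.index_eq_card, Nat.card_eq_fintype_card]
    exact h2
end Cfsg.Agent.S0178
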