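import Cfsg.Statements.S0187
import Cfsg.Agent.Lib_helper3_CharCount

set_option autoImplicit false
open Cfsg

namespace Cfsg.Agent.S0187

/-- A finite group is commutative if and only if every irreducible complex character has degree 1. -/
theorem result {G : Type*} [Group G] [Finite G] : (∀ a b : G, a * b = b * a) ↔ ∀ χ : Cfsg.IrrCharacter G, (χ : G → ℂ) 1 = 1 := by
  classical
  have := Fintype.ofFinite G
  have := Cfsg.Agent.Lib_helper3_CharBasic.irr_finite (G := G)
  have := Fintype.ofFinite (Cfsg.IrrCharacter G)
  constructor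
  · intro hcomm χ
    obtain ⟨n, ρ, hρ, hχ⟩ := χ.2
    have : IsMulCommutative G := ⟨⟨fun a b => hcomm a b⟩⟩
    have h1 := Representation.IsIrreducible.finrank_eq_one_of_isMulCommutative ρ
    rw [← hχ, Representation.char_one, h1, Nat.cast_one]
  · intro hall a b
    have h1 := Cfsg.Agent.Lib_helper3_CharBasic.sum_sq_degree (G := G)
    have h2 : ∑ χ : Cfsg.IrrCharacter G, (χ : G → ℂ) 1 ^ 2 = (Fintype.card (Cfsg.IrrCharacter G) : ℂ) := by
      rw [Finset.sum_congr rfl (fun χ _ => by rw [hall χ, one_pow])]
      simp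
    rw [h2] at h1
    have h3 : Fintype.card (Cfsg.IrrCharacter G) = Nat.card G := by exact_mod_cast h1
    have h4 := Cfsg.Agent.Lib_helper3_CharCount.card_irr_eq_card_conjClasses (G := G)
    rw [Nat.card_eq_fintype_card, h3] at h4
    have hinj : Function.Injective (ConjClasses.mk : G → ConjClasses G) := by
      have hsurj : Function.Surjective (ConjClasses.mk : G → ConjClasses G) :=
        ConjClasses.mk_surjective
      exact ((Fintype.bijective_iff_surjective_and_card _).mpr ⟨hsurj, by
          rw [← Nat.card_eq_fintype_card, ← Nat.card_eq_fintype_card, h4]⟩).1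
    have h5 : ConjClasses.mk (a * b * a⁻¹) = ConjClasses.mk b :=
      ConjClasses.mk_eq_mk_iff_isConj.mpr (isConj_iff.mpr ⟨a, rfl⟩).symm
    have h6 := hinj h5
    calc a * b = a * b * a⁻¹ * a := by group
      _ = b * a := by rw [h6]
end Cfsg.Agent.S0187
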