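import Cfsg.Statements.S0284
import Mathlib
import Cfsg.Agent.Lib_helper4_HermCount

set_option autoImplicit false
open Cfsg

namespace Cfsg.Agent.S0284

/-- The standard Hermitian form on F^n, |F| = q^2, has exactly q^(n-1) (q^n - (-1)^n) vectors of norm 1. -/
theorem result {F : Type*} [Field F] [Fintype F] {q : ℕ} (hF : Fintype.card F = q ^ 2) (n : ℕ) : Nat.card {v : Fin n → F // Cfsg.hermForm n F q v v = 1} = (if Even n then q ^ (n - 1) * (q ^ n - 1) else q ^ (n - 1) * (q ^ n + 1)) := by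
  have hq1 := Cfsg.Agent.Lib_helper4_Herm.q_pos hF
  have hc := (Cfsg.Agent.Lib_helper4_HermCount.closed hF n).1
  show Cfsg.Agent.Lib_helper4_HermCount.N F q n 1 = _
  have hq0 : (q : ℤ) ≠ 0 := by
    have : q ≠ 0 := by omega
    exact_mod_cast this
  apply Nat.cast_injective (R := ℤ)
  apply mul_left_cancel₀ hq0
  rw [hc]
  rcases Nat.eq_zero_or_pos n with h0 | hpos
  · subst h0
    simp
  · obtain ⟨k, rfl⟩ : ∃ k, n = k + 1 := ⟨n - 1, by omega⟩
    rw [Nat.add_sub_cancel]
    by_cases he : Even (k + 1)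
    · rw [if_pos he, he.neg_one_pow]
      have h1 : 1 ≤ q ^ (k + 1) := Nat.one_le_pow _ _ hq1
      push_cast [Nat.cast_sub h1]
      ring
    · rw [if_neg he, (Nat.not_even_iff_odd.mp he).neg_one_pow]
      push_cast
      ring

end Cfsg.Agent.S0284
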