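import Cfsg.Statements.S0436
-- import your own Cfsg.Agent.* helpers here

set_option autoImplicit false
open Cfsg

namespace Cfsg.Agent.S0436

theorem sq {G : Type*} [Group G] {E : Set G} (hE : Cfsg.IsThreeTranspositionSet E) {d : G}
    (hd : d ∈ E) : d * d = 1 := by
  have h := pow_orderOf_eq_one d
  rw [hE.1 d hd, pow_two] at h; exact h

theorem dich {G : Type*} [Group G] {E : Set G} (hE : Cfsg.IsThreeTranspositionSet E) {d f : G}
    (hd : d ∈ E) (hf : f ∈ E) : Commute d f ∨ d * f * d = f * d * f := by
  have hdd := sq hE hd
  have hff := sq hE hf
  have hdinv : d⁻¹ = d := inv_eq_of_mul_eq_one_right hdd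
  have hfinv : f⁻¹ = f := inv_eq_of_mul_eq_one_right hff
  rcases hE.2 d hd f hf with h | h
  · left
    have h1 : d * f * (d * f) = 1 := by rw [← pow_two]; exact h
    have h2 : d * f = (d * f)⁻¹ := eq_inv_of_mul_eq_one_left h1
    rw [mul_inv_rev, hdinv, hfinv] at h2
    exact h2
  · right
    have h1 : (d * f) ^ 2 * (d * f) = 1 := by rw [← pow_succ]; exact h
    have h2 : (d * f) ^ 2 = (d * f)⁻¹ := eq_inv_of_mul_eq_one_left h1
    rw [pow_two, mul_inv_rev, hdinv, hfinv] at h2
    calc d * f * d = d * f * d * (f * f) := by rw [hff, mul_one]
      _ = d * f * (d * f) * f := by group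
      _ = f * d * f := by rw [h2]

/-- two-element version, used again for three elements -/
theorem two {G : Type*} [Group G] {E : Set G} (hE : Cfsg.IsThreeTranspositionSet E) {a b e : G}
    (ha : a ∈ E) (hb : b ∈ E) (he : e ∈ E) (hab : a ≠ b)
    (hc : Commute e (a * b)) : Commute e a ∧ Commute e b := by
  have haa := sq hE ha
  have hbb := sq hE hb
  have hee := sq hE he
  have h1 := hc.eq
  rcases dich hE he ha with hea | hea
  · refine ⟨hea, ?_⟩
    have h2 := hea.eq
    show e * b = b * e
    apply mul_left_cancel (a := a)
    calc a * (e * b) = (a * e) * b := by group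
      _ = (e * a) * b := by rw [h2]
      _ = e * (a * b) := by group
      _ = a * b * e := h1
      _ = a * (b * e) := by group
  · rcases dich hE he hb with heb | heb
    · refine ⟨?_, heb⟩
      have h2 := heb.eq
      show e * a = a * e
      apply mul_right_cancel (b := b)
      calc e * a * b = e * (a * b) := by group
        _ = a * b * e := h1
        _ = a * (b * e) := by group
        _ = a * (e * b) := by rw [h2]
        _ = a * e * b := by group
    · exfalso
      apply hab
      have key : a * b = 1 := by
        calc a * b = a * b * (e * e) := by rw [hee, mul_one]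
          _ = (a * b * e) * e := by group
          _ = e * (a * b) * e := by rw [h1]
          _ = (e * a * e) * (e * b * e) := by
                have h5 : (e * a * e) * (e * b * e) = e * a * (e * e) * b * e := by group
                rw [h5, hee]; group
          _ = (a * e * a) * (b * e * b) := by rw [hea, heb]
          _ = a * (e * (a * b) * e) * b := by group
          _ = a * (a * b * e * e) * b := by rw [h1]
          _ = (a * a) * (b * (e * e) * b) := by group
          _ = 1 := by rw [haa, hee, mul_one, hbb, one_mul]
      calc a = a * (b * b) := by rw [hbb, mul_one]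
        _ = (a * b) * b := by group
        _ = b := by rw [key, one_mul]

/-- For distinct commuting members a, b of a set of 3-transpositions E, a member e of E centralises the product a * b if and only if it centralises both a and b. -/
theorem result {G : Type*} [Group G] {E : Set G} (hE : Cfsg.IsThreeTranspositionSet E) {a b e : G} (ha : a ∈ E) (hb : b ∈ E) (he : e ∈ E) (hab : a ≠ b) (hcomm : Commute a b) : Commute e (a * b) ↔ (Commute e a ∧ Commute e b) := by
  constructor
  · intro hc
    exact two hE ha hb he hab hc
  · rintro ⟨h1, h2⟩
    exact h1.mul_right h2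

end Cfsg.Agent.S0436
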