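import Cfsg.Statements.S0437
import Cfsg.Agent.S0436

set_option autoImplicit false
open Cfsg

namespace Cfsg.Agent.S0437

theorem tri {G : Type*} [Group G] {x y w e : G} (hee : e * e = 1)
    (hx : e * x * e = x * e * x) (hy : e * y * e = y * e * y) (hw : e * w * e = w * e * w)
    (hcom : e * (x * y * w) = x * y * w * e) : e * (x * y) * e * (y * w) * e = y := by
  have h0 : e * (x * y * w) * e = x * y * w := by rw [hcom, mul_assoc, hee, mul_one]
  have h1 : e * (x * y * w) * e = x * (e * (x * y) * e * (y * w) * e) * w := by
    calc e * (x * y * w) * e = (e * x * e) * (e * y * e) * (e * w * e) := by
            have h5 : (e * x * e) * (e * y * e) * (e * w * e)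
                = e * x * (e * e) * y * (e * e) * w * e := by group
            rw [h5, hee]; group
      _ = (x * e * x) * (y * e * y) * (w * e * w) := by rw [hx, hy, hw]
      _ = x * (e * (x * y) * e * (y * w) * e) * w := by group
  have h2 : x * (e * (x * y) * e * (y * w) * e) * w = x * y * w := h1.symm.trans h0
  exact mul_left_cancel (mul_right_cancel h2)

/-- For three distinct, pairwise commuting members a, b, c of a set of 3-transpositions E, a member e of E centralises a * b * c if and only if it centralises each of a, b and c. -/
theorem result {G : Type*} [Group G] {E : Set G} (hE : Cfsg.IsThreeTranspositionSet E) {a b c e : G} (ha : a ∈ E) (hb : b ∈ E) (hc : c ∈ E) (he : e ∈ E) (hab : a ≠ b) (hac : a ≠ c) (hbc : b ≠ c) (h₁ : Commute a b) (h₂ : Commute a c) (h₃ : Commute b c) : Commute e (a * b * c) ↔ (Commute e a ∧ Commute e b ∧ Commute e c) := by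
  have two := @Cfsg.Agent.S0436.two G _ E hE
  have dich := @Cfsg.Agent.S0436.dich G _ E hE
  have haa := Cfsg.Agent.S0436.sq hE ha
  have hbb := Cfsg.Agent.S0436.sq hE hb
  have hcc := Cfsg.Agent.S0436.sq hE hc
  have hee := Cfsg.Agent.S0436.sq hE he
  constructor
  · intro hcom
    by_cases hea : Commute e a
    · have hbc' : Commute e (b * c) := by
        show e * (b * c) = b * c * e
        apply mul_left_cancel (a := a)
        calc a * (e * (b * c)) = (a * e) * (b * c) := by group
          _ = (e * a) * (b * c) := by rw [hea.eq]
          _ = e * (a * b * c) := by group
          _ = a * b * c * e := hcom.eq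
          _ = a * (b * c * e) := by group
      obtain ⟨hb', hc'⟩ := two hb hc he hbc hbc'
      exact ⟨hea, hb', hc'⟩
    · exfalso
      by_cases heb : Commute e b
      · have hac' : Commute e (a * c) := by
          show e * (a * c) = a * c * e
          apply mul_left_cancel (a := b)
          calc b * (e * (a * c)) = (b * e) * (a * c) := by group
            _ = (e * b) * (a * c) := by rw [heb.eq]
            _ = e * (b * a * c) := by group
            _ = e * (a * b * c) := by rw [h₁.eq]
            _ = a * b * c * e := hcom.eq
            _ = b * a * c * e := by rw [h₁.eq]
            _ = b * (a * c * e) := by group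
        exact hea (two ha hc he hac hac').1
      · by_cases hec : Commute e c
        · have hab' : Commute e (a * b) := by
            show e * (a * b) = a * b * e
            apply mul_right_cancel (b := c)
            calc e * (a * b) * c = e * (a * b * c) := by group
              _ = a * b * c * e := hcom.eq
              _ = a * b * (c * e) := by group
              _ = a * b * (e * c) := by rw [hec.eq]
              _ = a * b * e * c := by group
          exact hea (two ha hb he hab hab').1
        · have bra := (dich he ha).resolve_left hea
          have brb := (dich he hb).resolve_left heb
          have brc := (dich he hc).resolve_left hec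
          have hcba : c * b * a = a * b * c := by
            calc c * b * a = b * c * a := by rw [h₃.eq]
              _ = b * (c * a) := by group
              _ = b * (a * c) := by rw [h₂.eq]
              _ = b * a * c := by group
              _ = a * b * c := by rw [h₁.eq]
          have X₁ := tri hee bra brb brc hcom.eq
          have X₂ := tri hee brc brb bra (by rw [hcba]; exact hcom.eq)
          rw [← h₃.eq, ← h₁.eq] at X₂
          have h5 : e * ((a * b) * e * (b * c)) * e = e * ((b * c) * e * (a * b)) * e := by
            calc e * ((a * b) * e * (b * c)) * e = e * (a * b) * e * (b * c) * e := by group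
              _ = b := X₁
              _ = e * (b * c) * e * (a * b) * e := X₂.symm
              _ = e * ((b * c) * e * (a * b)) * e := by group
          have h6 : (a * b) * e * (b * c) = (b * c) * e * (a * b) :=
            mul_left_cancel (mul_right_cancel h5)
          have hpq : (a * b) * (b * c) = a * c := by
            calc (a * b) * (b * c) = a * (b * b) * c := by group
              _ = a * c := by rw [hbb, mul_one]
          have hqp : (b * c) * (a * b) = a * c := by
            calc (b * c) * (a * b) = b * (c * a) * b := by group
              _ = b * (a * c) * b := by rw [h₂.eq]
              _ = (b * a) * (c * b) := by group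
              _ = (a * b) * (b * c) := by rw [h₁.eq, h₃.eq]
              _ = a * c := hpq
          have hqq : (b * c) * (b * c) = 1 := by
            calc (b * c) * (b * c) = b * (c * b) * c := by group
              _ = b * (b * c) * c := by rw [h₃.eq]
              _ = (b * b) * (c * c) := by group
              _ = 1 := by rw [hbb, hcc, mul_one]
          have hac' : Commute e (a * c) := by
            show e * (a * c) = a * c * e
            symm
            calc a * c * e = (b * c) * (a * b) * e := by rw [hqp]
              _ = (b * c) * (a * b) * e * ((b * c) * (b * c)) := by rw [hqq, mul_one]
              _ = (b * c) * ((a * b) * e * (b * c)) * (b * c) := by group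
              _ = (b * c) * ((b * c) * e * (a * b)) * (b * c) := by rw [h6]
              _ = ((b * c) * (b * c)) * e * ((a * b) * (b * c)) := by group
              _ = e * (a * c) := by rw [hqq, one_mul, hpq]
          exact hea (two ha hc he hac hac').1
  · rintro ⟨h1, h2, h3⟩
    exact (h1.mul_right h2).mul_right h3

end Cfsg.Agent.S0437
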