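import Cfsg.Statements.S0827
import Mathlib
import Cfsg.Agent.S0282
import Cfsg.Agent.Lib_helper4_QuatHom
import Cfsg.Agent.Lib_helper4_Herm

set_option autoImplicit false
open Cfsg

namespace Cfsg.Agent.S0827

open Matrix

/-- A concrete model of the field with four elements: `0, 1, ω, ω²`. -/
inductive K4 : Type
  | z | o | w | v
  deriving DecidableEq

instance instFintypeK4 : Fintype K4 :=
  ⟨{K4.z, K4.o, K4.w, K4.v}, by intro x; cases x <;> decide⟩

/-- Addition on `K4`. -/
def K4.add : K4 → K4 → K4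
  | .z, .z => .z | .z, .o => .o | .z, .w => .w | .z, .v => .v
  | .o, .z => .o | .o, .o => .z | .o, .w => .v | .o, .v => .w
  | .w, .z => .w | .w, .o => .v | .w, .w => .z | .w, .v => .o
  | .v, .z => .v | .v, .o => .w | .v, .w => .o | .v, .v => .z

/-- Multiplication on `K4`. -/
def K4.mul : K4 → K4 → K4
  | .z, .z => .z | .z, .o => .z | .z, .w => .z | .z, .v => .z
  | .o, .z => .z | .o, .o => .o | .o, .w => .w | .o, .v => .v
  | .w, .z => .z | .w, .o => .w | .w, .w => .v | .w, .v => .o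
  | .v, .z => .z | .v, .o => .v | .v, .w => .o | .v, .v => .w

/-- Inversion on `K4`. -/
def K4.inv : K4 → K4
  | .z => .z | .o => .o | .w => .v | .v => .w

instance instZeroK4 : Zero K4 := ⟨K4.z⟩
instance instOneK4 : One K4 := ⟨K4.o⟩
instance instAddK4 : Add K4 := ⟨K4.add⟩
instance instMulK4 : Mul K4 := ⟨K4.mul⟩
instance instNegK4 : Neg K4 := ⟨id⟩
instance instInvK4 : Inv K4 := ⟨K4.inv⟩

instance instCommRingK4 : CommRing K4 where
  add_assoc := by decide
  zero_add := by decide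
  add_zero := by decide
  add_comm := by decide
  neg_add_cancel := by decide
  left_distrib := by decide
  right_distrib := by decide
  zero_mul := by decide
  mul_zero := by decide
  mul_assoc := by decide
  one_mul := by decide
  mul_one := by decide
  mul_comm := by decide
  nsmul := nsmulRec
  zsmul := zsmulRec

instance instFieldK4 : Field K4 where
  exists_pair_ne := ⟨K4.z, K4.o, by decide⟩
  mul_inv_cancel := by decide
  inv_zero := rfl
  nnqsmul := _
  nnqsmul_def := fun _ _ => rfl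
  qsmul := _
  qsmul_def := fun _ _ => rfl

theorem card_K4 : Fintype.card K4 = 4 := rfl

/-- The diagonal element of order 3. -/
def D0 : Matrix (Fin 3) (Fin 3) K4 := !![1, 0, 0; 0, K4.w, 0; 0, 0, K4.v]
/-- The cyclic permutation matrix. -/
def C0 : Matrix (Fin 3) (Fin 3) K4 := !![0, 1, 0; 0, 0, 1; 1, 0, 0]
/-- The Fourier matrix, of order 4. -/
def A0 : Matrix (Fin 3) (Fin 3) K4 := !![1, 1, 1; 1, K4.w, K4.v; 1, K4.v, K4.w]
/-- The second generator of the quaternion group. -/
def B0 : Matrix (Fin 3) (Fin 3) K4 := !![1, K4.w, K4.w; K4.v, K4.w, K4.v; K4.v, K4.v, K4.w]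
/-- The scalar matrix `ω`. -/
def Z0 : Matrix (Fin 3) (Fin 3) K4 := !![K4.w, 0, 0; 0, K4.w, 0; 0, 0, K4.w]

/-- Determinant one and unitary. -/
def Good (M : Matrix (Fin 3) (Fin 3) K4) : Prop :=
  M 0 0 * M 1 1 * M 2 2 - M 0 0 * M 1 2 * M 2 1 - M 0 1 * M 1 0 * M 2 2 + M 0 1 * M 1 2 * M 2 0
    + M 0 2 * M 1 0 * M 2 1 - M 0 2 * M 1 1 * M 2 0 = 1 ∧ Mᵀ * M.map (fun x => x ^ 2) = 1

instance instDecGood (M : Matrix (Fin 3) (Fin 3) K4) : Decidable (Good M) := by
  unfold Good; infer_instance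

theorem gD : Good D0 := by decide +kernel
theorem gC : Good C0 := by decide +kernel
theorem gA : Good A0 := by decide +kernel
theorem gB : Good B0 := by decide +kernel
theorem gZ : Good Z0 := by decide +kernel

theorem k1 : D0 ^ 3 = 1 := by decide +kernel
theorem k2 : C0 ^ 3 = 1 := by decide +kernel
theorem k3 : C0 * D0 = Z0 * (D0 * C0) := by decide +kernel
theorem k4 : A0 ^ 4 = 1 := by decide +kernel
theorem k5 : A0 * B0 * A0 = B0 := by decide +kernel
theorem k6 : B0 * B0 = A0 ^ 2 := by decide +kernel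
theorem k7 : A0 * D0 = C0 * A0 := by decide +kernel
theorem k8 : A0 * C0 = D0 ^ 2 * A0 := by decide +kernel
theorem k9 : B0 * D0 = Z0 * (D0 ^ 2 * C0 * B0) := by decide +kernel
theorem k10 : B0 * C0 = Z0 ^ 2 * (D0 * C0 * B0) := by decide +kernel
theorem k11 : C0 * D0 ≠ D0 * C0 := by decide +kernel
theorem k12 : A0 ^ 2 * C0 ≠ C0 * A0 ^ 2 := by decide +kernel



section Glue
variable {F : Type*} [Field F] [Fintype F]

/-- Gram criterion for preserving the Hermitian form. -/
theorem preserves_of_gram (hF : Fintype.card F = 2 ^ 2) (M : Matrix (Fin 3) (Fin 3) F)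
    (h : Mᵀ * M.map (fun x => x ^ 2) = 1) (u v : Fin 3 → F) :
    Cfsg.hermForm 3 F 2 (M *ᵥ u) (M *ᵥ v) = Cfsg.hermForm 3 F 2 u v := by
  have h1 : ∀ x y : Fin 3 → F, Cfsg.hermForm 3 F 2 x y = x ⬝ᵥ (fun i => y i ^ 2) :=
    fun x y => rfl
  have h2 : (fun i => (M *ᵥ v) i ^ 2) = (M.map (fun x => x ^ 2)) *ᵥ (fun i => v i ^ 2) := by
    funext i
    simp only [Matrix.mulVec, dotProduct, Matrix.map_apply]
    rw [Cfsg.Agent.Lib_helper4_Herm.frob_sum hF]
    refine Finset.sum_congr rfl fun j _ => ?_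
    rw [mul_pow]
  rw [h1, h1, h2, Matrix.dotProduct_mulVec, ← Matrix.vecMul_transpose, Matrix.vecMul_vecMul, h,
    Matrix.vecMul_one]

theorem gram_map (e : K4 →+* F) (M : Matrix (Fin 3) (Fin 3) K4) (hM : Good M) :
    (e.mapMatrix M)ᵀ * (e.mapMatrix M).map (fun x => x ^ 2) = 1 := by
  have h1 : (e.mapMatrix M)ᵀ = e.mapMatrix Mᵀ := by
    ext i j; rfl
  have h2 : (e.mapMatrix M).map (fun x => x ^ 2) = e.mapMatrix (M.map (fun x => x ^ 2)) := by
    ext i j
    simp [RingHom.mapMatrix_apply, Matrix.map_apply]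
  rw [h1, h2, ← map_mul, hM.2, map_one]

/-- The special unitary matrix over `F` of a good matrix over `K4`. -/
def mk (hF : Fintype.card F = 2 ^ 2) (e : K4 →+* F) (M : Matrix (Fin 3) (Fin 3) K4)
    (hM : Good M) : Cfsg.SU 3 F 2 :=
  ⟨⟨e.mapMatrix M, by rw [← RingHom.map_det, Matrix.det_fin_three, hM.1, map_one]⟩,
    fun u v => preserves_of_gram hF (e.mapMatrix M) (gram_map e M hM) u v⟩

/-- The matrix of an element of `SU`. -/
def vm : Cfsg.SU 3 F 2 →* Matrix (Fin 3) (Fin 3) F :=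
  (Cfsg.slToMat 3 F).comp (Cfsg.SU 3 F 2).subtype

theorem vm_inj : Function.Injective (vm (F := F)) := by
  intro S T h
  apply Subtype.ext
  apply Subtype.ext
  exact h

theorem vm_mk (hF : Fintype.card F = 2 ^ 2) (e : K4 →+* F) (M : Matrix (Fin 3) (Fin 3) K4)
    (hM : Good M) : vm (mk hF e M hM) = e.mapMatrix M := rfl

theorem mkZ_comm (hF : Fintype.card F = 2 ^ 2) (e : K4 →+* F) (S : Cfsg.SU 3 F 2) :
    mk hF e Z0 gZ * S = S * mk hF e Z0 gZ := by
  apply vm_inj
  rw [map_mul, map_mul, vm_mk]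
  have h : e.mapMatrix Z0 = (e K4.w) • (1 : Matrix (Fin 3) (Fin 3) F) := by
    ext i j
    fin_cases i <;> fin_cases j <;> simp [Z0, RingHom.mapMatrix_apply, Matrix.one_apply]
  rw [h, Matrix.smul_mul, Matrix.mul_smul, one_mul, mul_one]

variable (hF : Fintype.card F = 2 ^ 2) (e : K4 →+* F)

theorem r1 : mk hF e D0 gD ^ 3 = 1 := by
  apply vm_inj
  simp only [map_mul, map_pow, map_one, vm_mk]
  rw [← map_pow, k1, map_one]

theorem r2 : mk hF e C0 gC ^ 3 = 1 := by
  apply vm_inj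
  simp only [map_mul, map_pow, map_one, vm_mk]
  rw [← map_pow, k2, map_one]

theorem r3 : mk hF e C0 gC * mk hF e D0 gD = mk hF e Z0 gZ * (mk hF e D0 gD * mk hF e C0 gC) := by
  apply vm_inj
  simp only [map_mul, map_pow, map_one, vm_mk]
  simp only [← map_mul, ← map_pow]
  rw [k3]

theorem r4 : mk hF e A0 gA ^ 4 = 1 := by
  apply vm_inj
  simp only [map_mul, map_pow, map_one, vm_mk]
  rw [← map_pow, k4, map_one]

theorem r5 : mk hF e A0 gA * mk hF e B0 gB * mk hF e A0 gA = mk hF e B0 gB := by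
  apply vm_inj
  simp only [map_mul, map_pow, map_one, vm_mk]
  simp only [← map_mul, ← map_pow]
  rw [k5]

theorem r6 : mk hF e B0 gB * mk hF e B0 gB = mk hF e A0 gA ^ 2 := by
  apply vm_inj
  simp only [map_mul, map_pow, map_one, vm_mk]
  simp only [← map_mul, ← map_pow]
  rw [k6]

theorem r7 : mk hF e A0 gA * mk hF e D0 gD = mk hF e C0 gC * mk hF e A0 gA := by
  apply vm_inj
  simp only [map_mul, map_pow, map_one, vm_mk]
  simp only [← map_mul, ← map_pow]
  rw [k7]

theorem r8 : mk hF e A0 gA * mk hF e C0 gC = mk hF e D0 gD ^ 2 * mk hF e A0 gA := by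
  apply vm_inj
  simp only [map_mul, map_pow, map_one, vm_mk]
  simp only [← map_mul, ← map_pow]
  rw [k8]

theorem r9 : mk hF e B0 gB * mk hF e D0 gD
    = mk hF e Z0 gZ * (mk hF e D0 gD ^ 2 * mk hF e C0 gC * mk hF e B0 gB) := by
  apply vm_inj
  simp only [map_mul, map_pow, map_one, vm_mk]
  simp only [← map_mul, ← map_pow]
  rw [k9]

theorem r10 : mk hF e B0 gB * mk hF e C0 gC
    = mk hF e Z0 gZ ^ 2 * (mk hF e D0 gD * mk hF e C0 gC * mk hF e B0 gB) := by
  apply vm_inj
  simp only [map_mul, map_pow, map_one, vm_mk]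
  simp only [← map_mul, ← map_pow]
  rw [k10]

theorem r11 (he : Function.Injective e) :
    mk hF e C0 gC * mk hF e D0 gD ≠ mk hF e D0 gD * mk hF e C0 gC := by
  intro h
  have h1 := congrArg vm h
  simp only [map_mul, map_pow, map_one, vm_mk] at h1
  simp only [← map_mul, ← map_pow] at h1
  exact k11 (Matrix.map_injective he h1)

theorem r12 (he : Function.Injective e) :
    mk hF e A0 gA ^ 2 * mk hF e C0 gC ≠ mk hF e C0 gC * mk hF e A0 gA ^ 2 := by
  intro h
  have h1 := congrArg vm h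
  simp only [map_mul, map_pow, map_one, vm_mk] at h1
  simp only [← map_mul, ← map_pow] at h1
  exact k12 (Matrix.map_injective he h1)

end Glue



section Core
variable {G : Type*} [Group G]

theorem cl_comm_gen (x y : G) (hxy : y * x = x * y) :
    ∀ g ∈ Subgroup.closure ({x, y} : Set G), g * x = x * g ∧ g * y = y * g := by
  intro g hg
  induction hg using Subgroup.closure_induction with
  | mem g hg =>
    simp only [Set.mem_insert_iff, Set.mem_singleton_iff] at hg
    rcases hg with rfl | rfl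
    · exact ⟨rfl, hxy.symm⟩
    · exact ⟨hxy, rfl⟩
  | one => simp
  | mul g h _ _ ihg ihh =>
    constructor
    · rw [mul_assoc, ihh.1, ← mul_assoc, ihg.1, mul_assoc]
    · rw [mul_assoc, ihh.2, ← mul_assoc, ihg.2, mul_assoc]
  | inv g _ ih =>
    constructor
    · calc g⁻¹ * x = g⁻¹ * (x * g) * g⁻¹ := by group
        _ = g⁻¹ * (g * x) * g⁻¹ := by rw [ih.1]
        _ = x * g⁻¹ := by group
    · calc g⁻¹ * y = g⁻¹ * (y * g) * g⁻¹ := by group
        _ = g⁻¹ * (g * y) * g⁻¹ := by rw [ih.2]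
        _ = y * g⁻¹ := by group

theorem cl_comm (x y : G) (hxy : y * x = x * y) :
    ∀ g ∈ Subgroup.closure ({x, y} : Set G), ∀ h ∈ Subgroup.closure ({x, y} : Set G),
      g * h = h * g := by
  intro g hg h hh
  induction hh using Subgroup.closure_induction with
  | mem h hh =>
    simp only [Set.mem_insert_iff, Set.mem_singleton_iff] at hh
    rcases hh with rfl | rfl
    · exact (cl_comm_gen _ y hxy g hg).1
    · exact (cl_comm_gen x _ hxy g hg).2
  | one => simp
  | mul h k _ _ ihh ihk => rw [← mul_assoc, ihh, mul_assoc, ihk, mul_assoc]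
  | inv h _ ih =>
    calc g * h⁻¹ = h⁻¹ * (h * g) * h⁻¹ := by group
      _ = h⁻¹ * (g * h) * h⁻¹ := by rw [ih]
      _ = h⁻¹ * g := by group

theorem cl_exp (x y : G) (hxy : y * x = x * y) (hx3 : x ^ 3 = 1) (hy3 : y ^ 3 = 1) :
    ∀ g ∈ Subgroup.closure ({x, y} : Set G), g ^ 3 = 1 := by
  intro g hg
  induction hg using Subgroup.closure_induction with
  | mem g hg =>
    simp only [Set.mem_insert_iff, Set.mem_singleton_iff] at hg
    rcases hg with rfl | rfl
    · exact hx3
    · exact hy3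
  | one => simp
  | mul g h hg hh ihg ihh =>
    rw [(show Commute g h from cl_comm x y hxy g hg h hh).mul_pow, ihg, ihh, one_mul]
  | inv g _ ih => rw [inv_pow, ih, inv_one]

theorem cl_norm (x y : G) (g : G) (hg4 : g ^ 4 = 1)
    (hgx : g * x * g⁻¹ ∈ Subgroup.closure ({x, y} : Set G))
    (hgy : g * y * g⁻¹ ∈ Subgroup.closure ({x, y} : Set G)) :
    g ∈ Subgroup.normalizer ((Subgroup.closure ({x, y} : Set G) : Subgroup G) : Set G) := by
  have hfwd : ∀ h ∈ Subgroup.closure ({x, y} : Set G),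
      g * h * g⁻¹ ∈ Subgroup.closure ({x, y} : Set G) := by
    intro h hh
    induction hh using Subgroup.closure_induction with
    | mem h hh =>
      simp only [Set.mem_insert_iff, Set.mem_singleton_iff] at hh
      rcases hh with rfl | rfl
      · exact hgx
      · exact hgy
    | one => simp
    | mul h k _ _ ihh ihk =>
      have : g * (h * k) * g⁻¹ = (g * h * g⁻¹) * (g * k * g⁻¹) := by group
      rw [this]
      exact mul_mem ihh ihk
    | inv h _ ih =>
      have : g * h⁻¹ * g⁻¹ = (g * h * g⁻¹)⁻¹ := by group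
      rw [this]
      exact inv_mem ih
  rw [Subgroup.mem_normalizer_iff]
  intro h
  refine ⟨hfwd h, fun hh => ?_⟩
  have h1 := hfwd _ (hfwd _ (hfwd _ hh))
  have h2 : g * (g * (g * (g * h * g⁻¹) * g⁻¹) * g⁻¹) * g⁻¹ = g ^ 4 * h * (g ^ 4)⁻¹ := by
    simp only [pow_succ, pow_zero, one_mul, _root_.mul_inv_rev, mul_assoc]
  rw [h2, hg4, one_mul, inv_one, mul_one] at h1
  exact h1

theorem comm_aux (c d : G) (k : ℤ)
    (h : d * ((d ^ k)⁻¹ * c) = ((d ^ k)⁻¹ * c) * d) : c * d = d * c := by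
  have hc : c = d ^ k * ((d ^ k)⁻¹ * c) := (mul_inv_cancel_left _ _).symm
  calc c * d = d ^ k * (((d ^ k)⁻¹ * c) * d) := by rw [← mul_assoc, ← hc]
    _ = d ^ k * (d * ((d ^ k)⁻¹ * c)) := by rw [h]
    _ = d * (d ^ k * ((d ^ k)⁻¹ * c)) := by
      rw [← mul_assoc (d ^ k) d, ← mul_assoc d (d ^ k), (Commute.zpow_self d k).eq]
    _ = d * c := by rw [← hc]

/-- The abstract group-theoretic core. -/
theorem core [Finite G] (hG : Nat.card G = 72) (x y a b : G)
    (hx3 : x ^ 3 = 1) (hy3 : y ^ 3 = 1) (hxy : y * x = x * y)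
    (ha4 : a ^ 4 = 1) (hab : a * b * a = b) (hb2 : b * b = a ^ 2)
    (hax : a * x = y * a) (hay : a * y = x ^ 2 * a)
    (hbx : b * x = x ^ 2 * y * b) (hby : b * y = x * y * b)
    (hx1 : x ≠ 1) (hyx : y ∉ Subgroup.zpowers x) (ha2 : a ^ 2 ≠ 1) :
    ∃ (N : Subgroup G) (_ : N.Normal), Nat.card N = 9 ∧ (∀ g ∈ N, g ^ 3 = 1) ∧
      Nonempty (G ⧸ N ≃* QuaternionGroup 2) := by
  classical
  haveI : Fact (Nat.Prime 3) := ⟨Nat.prime_three⟩
  haveI : Fact (Nat.Prime 2) := ⟨Nat.prime_two⟩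
  have hxN : x ∈ Subgroup.closure ({x, y} : Set G) := Subgroup.subset_closure (by simp)
  have hyN : y ∈ Subgroup.closure ({x, y} : Set G) := Subgroup.subset_closure (by simp)
  have hexp := cl_exp x y hxy hx3 hy3
  -- the order of N
  have hP : IsPGroup 3 (Subgroup.closure ({x, y} : Set G)) := by
    intro g
    refine ⟨1, ?_⟩
    apply Subtype.ext
    rw [pow_one, Subgroup.coe_pow]
    exact hexp g.1 g.2
  obtain ⟨n, hn⟩ := IsPGroup.iff_card.mp hP
  have hdvd : Nat.card (Subgroup.closure ({x, y} : Set G)) ∣ 72 :=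
    hG ▸ Subgroup.card_subgroup_dvd_card _
  have hox : orderOf x = 3 := orderOf_eq_prime hx3 hx1
  have hzx : Nat.card (Subgroup.zpowers x) = 3 := by rw [Nat.card_zpowers, hox]
  have hle : Subgroup.zpowers x ≤ Subgroup.closure ({x, y} : Set G) := by
    rw [Subgroup.zpowers_le]; exact hxN
  have h3 : 3 ∣ Nat.card (Subgroup.closure ({x, y} : Set G)) :=
    hzx ▸ Subgroup.card_dvd_of_le hle
  have hcardN : Nat.card (Subgroup.closure ({x, y} : Set G)) = 9 := by
    have hn2 : n ≤ 2 := by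
      by_contra hcon
      rw [not_le] at hcon
      have h27 : 3 ^ 3 ∣ 3 ^ n := pow_dvd_pow 3 hcon
      rw [← hn] at h27
      have : 3 ^ 3 ∣ 72 := dvd_trans h27 hdvd
      norm_num at this
    interval_cases n
    · rw [hn] at h3
      norm_num at h3
    · exfalso
      have heq : Subgroup.zpowers x = Subgroup.closure ({x, y} : Set G) :=
        Subgroup.eq_of_le_of_card_ge hle (by rw [hzx, hn]; norm_num)
      exact hyx (heq ▸ hyN)
    · rw [hn]; norm_num
  -- the quaternion subgroup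
  have hb4 : b ^ 4 = 1 := by
    have : b ^ 4 = (b * b) ^ 2 := by rw [← pow_two, ← pow_mul]
    rw [this, hb2, ← pow_mul]
    exact ha4
  have haN : a ∈ Subgroup.normalizer ((Subgroup.closure ({x, y} : Set G) : Subgroup G) : Set G) := by
    apply cl_norm x y a ha4
    · rw [hax, mul_inv_cancel_right]; exact hyN
    · rw [hay, mul_inv_cancel_right]; exact pow_mem hxN 2
  have hbN : b ∈ Subgroup.normalizer ((Subgroup.closure ({x, y} : Set G) : Subgroup G) : Set G) := by
    apply cl_norm x y b hb4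
    · rw [hbx, mul_inv_cancel_right]; exact mul_mem (pow_mem hxN 2) hyN
    · rw [hby, mul_inv_cancel_right]; exact mul_mem hxN hyN
  have hoa : orderOf a = 2 * 2 := by
    have h := orderOf_eq_prime_pow (x := a) (p := 2) (n := 1) (by simpa using ha2)
      (by norm_num; exact ha4)
    rw [h]
    norm_num
  have hy' : b * a * b⁻¹ = a⁻¹ := by
    apply eq_inv_of_mul_eq_one_right
    rw [← mul_assoc, ← mul_assoc, hab, mul_inv_cancel]
  obtain ⟨φ, hφa, hφxa, hφinj⟩ : ∃ φ : QuaternionGroup 2 →* G,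
      (∀ i, φ (QuaternionGroup.a i) = a ^ i.val) ∧ (∀ i, φ (QuaternionGroup.xa i) = b * a ^ i.val) ∧
      Function.Injective φ :=
    ⟨Cfsg.Agent.Lib_helper4_QuatHom.quatHom 2 a b ha4 hy' hb2, fun i => rfl, fun i => rfl,
      Cfsg.Agent.Lib_helper4_QuatHom.quatHom_injective 2 le_rfl a b hoa hy' hb2⟩
  have hQ8 : Nat.card (QuaternionGroup 2) = 8 := by
    rw [Nat.card_eq_fintype_card, QuaternionGroup.card]
  have hQcard : Nat.card φ.range = 8 := by
    rw [← hQ8]
    exact (Nat.card_congr (MonoidHom.ofInjective hφinj).toEquiv).symm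
  have hQle : φ.range ≤ Subgroup.normalizer ((Subgroup.closure ({x, y} : Set G) : Subgroup G) : Set G) := by
    rintro _ ⟨q, rfl⟩
    rcases q with i | i
    · rw [hφa]; exact pow_mem haN _
    · rw [hφxa]; exact mul_mem hbN (pow_mem haN _)
  have hNtop : Subgroup.normalizer ((Subgroup.closure ({x, y} : Set G) : Subgroup G) : Set G) = ⊤ := by
    apply Subgroup.eq_top_of_card_eq
    have h9 : 9 ∣ Nat.card (Subgroup.normalizer ((Subgroup.closure ({x, y} : Set G) : Subgroup G) : Set G)) :=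
      hcardN ▸ Subgroup.card_dvd_of_le Subgroup.le_normalizer
    have h8 : 8 ∣ Nat.card (Subgroup.normalizer ((Subgroup.closure ({x, y} : Set G) : Subgroup G) : Set G)) :=
      hQcard ▸ Subgroup.card_dvd_of_le hQle
    have h72 : 9 * 8 ∣ Nat.card (Subgroup.normalizer ((Subgroup.closure ({x, y} : Set G) : Subgroup G) : Set G)) :=
      Nat.Coprime.mul_dvd_of_dvd_of_dvd (by norm_num) h9 h8
    have hd : Nat.card (Subgroup.normalizer ((Subgroup.closure ({x, y} : Set G) : Subgroup G) : Set G)) ∣ 72 :=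
      hG ▸ Subgroup.card_subgroup_dvd_card _
    rw [hG]
    exact Nat.dvd_antisymm hd h72
  have hNn : (Subgroup.closure ({x, y} : Set G)).Normal := Subgroup.normalizer_eq_top_iff.mp hNtop
  refine ⟨Subgroup.closure ({x, y} : Set G), hNn, hcardN, hexp, ?_⟩
  have hψ : Function.Injective ((QuotientGroup.mk' (Subgroup.closure ({x, y} : Set G))).comp φ) := by
    rw [injective_iff_map_eq_one]
    intro q hq
    have h1 : φ q ∈ Subgroup.closure ({x, y} : Set G) := (QuotientGroup.eq_one_iff _).mp hq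
    have h3' := hexp _ h1
    have h8 : q ^ 8 = 1 := by
      have := pow_card_eq_one' (G := QuaternionGroup 2) (x := q)
      rwa [hQ8] at this
    have h8' : φ q ^ 8 = 1 := by rw [← map_pow, h8, map_one]
    have h9 : φ q ^ 9 = 1 := by rw [show 9 = 3 * 3 from rfl, pow_mul, h3', one_pow]
    have h10 : φ q = 1 := by
      have h := h9
      rw [pow_succ, h8', one_mul] at h
      exact h
    exact hφinj (h10.trans (map_one φ).symm)
  have hcq : Nat.card (G ⧸ Subgroup.closure ({x, y} : Set G)) = 8 := by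
    have := Subgroup.card_eq_card_quotient_mul_card_subgroup (Subgroup.closure ({x, y} : Set G))
    rw [hG, hcardN] at this
    omega
  have hbij : Function.Bijective ((QuotientGroup.mk' (Subgroup.closure ({x, y} : Set G))).comp φ) := by
    apply Function.Injective.bijective_of_nat_card_le hψ
    rw [hcq, hQ8]
  exact ⟨(MulEquiv.ofBijective _ hbij).symm⟩

end Core

theorem main {F : Type*} [Field F] [Fintype F] (hF : Fintype.card F = 4) :
    ∃ (N : Subgroup (Cfsg.PSU 3 F 2)) (_ : N.Normal), Nat.card N = 9 ∧ (∀ x ∈ N, x ^ 3 = 1) ∧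
      Nonempty (Cfsg.PSU 3 F 2 ⧸ N ≃* QuaternionGroup 2) := by
  have hF' : Fintype.card F = 2 ^ 2 := by rw [hF]; norm_num
  have hcard : Nat.card (Cfsg.PSU 3 F 2) = 72 := (Cfsg.Agent.S0282.result hF).1
  haveI : Finite (Cfsg.PSU 3 F 2) := Nat.finite_of_card_ne_zero (by rw [hcard]; norm_num)
  obtain ⟨e0⟩ : Nonempty (K4 ≃+* F) := ⟨FiniteField.ringEquivOfCardEq (by rw [hF]; rfl)⟩
  obtain ⟨e, he⟩ : ∃ e : K4 →+* F, Function.Injective e := ⟨e0.toRingHom, e0.injective⟩
  obtain ⟨π, hπ⟩ : ∃ π : Cfsg.SU 3 F 2 →* Cfsg.PSU 3 F 2,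
      ∀ S, π S = 1 ↔ S ∈ Subgroup.center (Cfsg.SU 3 F 2) :=
    ⟨QuotientGroup.mk' _, fun S => QuotientGroup.eq_one_iff S⟩
  have hπZ : π (mk hF' e Z0 gZ) = 1 := by
    rw [hπ, Subgroup.mem_center_iff]
    intro S
    exact (mkZ_comm hF' e S).symm
  have hker : ∀ S : Cfsg.SU 3 F 2, π S = 1 → ∀ T, T * S = S * T := by
    intro S hS T
    rw [hπ, Subgroup.mem_center_iff] at hS
    exact hS T
  refine core hcard (π (mk hF' e D0 gD)) (π (mk hF' e C0 gC)) (π (mk hF' e A0 gA))
    (π (mk hF' e B0 gB)) ?_ ?_ ?_ ?_ ?_ ?_ ?_ ?_ ?_ ?_ ?_ ?_ ?_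
  · rw [← map_pow, r1, map_one]
  · rw [← map_pow, r2, map_one]
  · rw [← map_mul, r3, map_mul, hπZ, one_mul, map_mul]
  · rw [← map_pow, r4, map_one]
  · rw [← map_mul, ← map_mul, r5]
  · rw [← map_mul, r6, map_pow]
  · rw [← map_mul, r7, map_mul]
  · rw [← map_mul, r8, map_mul, map_pow]
  · rw [← map_mul, r9, map_mul, hπZ, one_mul, map_mul, map_mul, map_pow]
  · rw [← map_mul, r10, map_mul, map_pow, hπZ, one_pow, one_mul, map_mul, map_mul]
  · intro h
    exact r11 hF' e he (hker _ h _)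
  · intro h
    obtain ⟨k, hk⟩ := Subgroup.mem_zpowers_iff.mp h
    have h1 : π ((mk hF' e D0 gD ^ k)⁻¹ * mk hF' e C0 gC) = 1 := by
      rw [map_mul, map_inv, map_zpow, hk, inv_mul_cancel]
    have h2 := hker _ h1 (mk hF' e D0 gD)
    exact r11 hF' e he (comm_aux _ _ k h2)
  · intro h
    rw [← map_pow] at h
    exact r12 hF' e he (hker _ h _).symm



/-- U_3(2) ≅ 3².Q_8: PSU_3(2) (form over the field with 4 elements) has a normal subgroup N which is elementary abelian of order 9 such that the quotient by N is isomorphic to the quaternion group of order 8. -/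
theorem result {F : Type*} [Field F] [Fintype F] (hF : Fintype.card F = 4) : ∃ (N : Subgroup (Cfsg.PSU 3 F 2)) (_ : N.Normal), Nat.card N = 9 ∧ (∀ x ∈ N, x ^ 3 = 1) ∧ Nonempty (Cfsg.PSU 3 F 2 ⧸ N ≃* QuaternionGroup 2) := by
  exact main hF

end Cfsg.Agent.S0827
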