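import Cfsg.Statements.S0914
import Cfsg.Agent.Lib_helper3_DefectZero
import Cfsg.Agent.S0909

set_option autoImplicit false
open Cfsg

namespace Cfsg.Agent.S0914

/-- Let χ be an irreducible character of the finite group G, p a prime and M a maximal ideal of the algebraic integers containing p. Then p does not divide the integer (Nat.card G) / χ(1) if and only if the block of χ relative to M consists of χ alone. -/
theorem result {G : Type*} [Group G] [Finite G] (p : ℕ) [Fact p.Prime] (M : Ideal Cfsg.AlgInt) (hM : Cfsg.IsPModular p M) (χ : Cfsg.IrrCharacter G) : ¬ p ∣ Nat.card G / Cfsg.charDegree (χ : G → ℂ) ↔ Cfsg.blockOf M (χ : G → ℂ) = {χ} := by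
  classical
  have := Fintype.ofFinite G
  have hMp : M.IsPrime := Cfsg.Agent.Lib_helper3_Local2.isPrime_of_modular hM
  constructor
  · intro h
    have hA := Cfsg.Agent.Lib_helper3_DefectZero.memLocalRing_blockCoeff_singleton hM χ h
    have h1 := Cfsg.Agent.S0909.result p M hM ({χ} : Set (Cfsg.IrrCharacter G)) hA χ rfl
    exact Set.Subset.antisymm h1 (Set.singleton_subset_iff.mpr
      (Cfsg.Agent.Lib_helper3_BlockAlg.mem_blockOf_self hMp.ne_top χ))
  · intro hB
    have hR : ∀ g : G, Cfsg.MemLocalRing M
        (Cfsg.blockCoeff ({χ} : Set (Cfsg.IrrCharacter G)) g) := by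
      intro g
      rw [← hB]
      exact Cfsg.Agent.Lib_helper3_BlockAlg.osima ⟨χ, rfl⟩ g
    exact Cfsg.Agent.Lib_helper3_DefectZero.not_dvd_of_vanish χ
      (fun y hy => Cfsg.Agent.Lib_helper3_DefectZero.eq_zero_of_singular hM χ hR y hy)
end Cfsg.Agent.S0914
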