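import Cfsg.Statements.S1892
import Cfsg.Agent.Lib_helper1_PSolvComp
import Cfsg.Agent.Lib_helper1_Coprime
import Cfsg.Agent.Lib_helper7_Comm
import Cfsg.Agent.Lib_helper7_PCore
import Cfsg.Agent.Lib_helper7_OddCore

set_option autoImplicit false
open Cfsg

namespace Cfsg.Agent.S1892

/-- Let S be a finite p-solvable group with no nontrivial normal subgroup of order prime to p, A a p-subgroup of S, and Q a nontrivial A-invariant subgroup of order prime to p with [A, Q] = Q. Then the commutator [O_p(S), A, Q] is nontrivial. -/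
theorem result {S : Type*} [Group S] [Finite S] {p : ℕ} [Fact p.Prime]
    (hS : Cfsg.IsPSolvable p S) (hred : Cfsg.pPrimeCore p S = ⊥)
    (A Q : Subgroup S) (hA : IsPGroup p A) (hQ : ¬ p ∣ Nat.card Q) (hQ1 : Q ≠ ⊥)
    (hinv : ∀ a ∈ A, ∀ x ∈ Q, a * x * a⁻¹ ∈ Q) (hAQ : ⁅A, Q⁆ = Q) :
    ⁅⁅Cfsg.pCore p S, A⁆, Q⁆ ≠ ⊥ := by
  intro hbot
  have hPn : (Cfsg.pCore p S).Normal := Cfsg.Agent.Lib_helper7_PCore.pCore_normal p
  have hPp : IsPGroup p (Cfsg.pCore p S) := Cfsg.Agent.Lib_helper7_PCore.pCore_isPGroup p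
  have hp : p.Prime := Fact.out
  have hNtop : ∀ X : Subgroup S, X ≤ Subgroup.normalizer ((Cfsg.pCore p S : Subgroup S) : Set S) :=
    fun X => le_top.trans_eq (Subgroup.normalizer_eq_top_iff.mpr hPn).symm
  have hnA : A ≤ Subgroup.normalizer ((⁅Cfsg.pCore p S, A⁆ : Subgroup S) : Set S) :=
    Cfsg.Agent.Lib_helper1_Coprime.normalizer_commutator_right A _ (hNtop A)
  have hnP : Cfsg.pCore p S ≤ Subgroup.normalizer ((⁅Cfsg.pCore p S, A⁆ : Subgroup S) : Set S) :=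
    Cfsg.Agent.Lib_helper1_Coprime.normalizer_commutator_left A _
  have hnQ : Q ≤ Subgroup.normalizer ((⁅Cfsg.pCore p S, A⁆ : Subgroup S) : Set S) := by
    refine le_trans ?_ (Subgroup.centralizer_le_normalizer _)
    rw [Subgroup.le_centralizer_iff]
    exact Subgroup.commutator_eq_bot_iff_le_centralizer.mp hbot
  have h1 : ⁅⁅Q, Cfsg.pCore p S⁆, A⁆ ≤ ⁅Cfsg.pCore p S, A⁆ :=
    Subgroup.commutator_mono (Subgroup.commutator_le_right Q _) le_rfl
  have h2 : ⁅⁅Cfsg.pCore p S, A⁆, Q⁆ ≤ ⁅Cfsg.pCore p S, A⁆ := by rw [hbot]; exact bot_le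
  have h3 := Cfsg.Agent.Lib_helper7_Comm.three_subgroups_rel ⁅Cfsg.pCore p S, A⁆ A Q (Cfsg.pCore p S)
    hnA hnQ hnP h1 h2
  rw [hAQ] at h3
  have h4 : ⁅⁅Cfsg.pCore p S, Q⁆, Q⁆ = ⊥ := by
    rw [eq_bot_iff, ← hbot]
    exact Subgroup.commutator_mono (by rw [Subgroup.commutator_comm]; exact h3) le_rfl
  have hQc : (Nat.card Q).Coprime p := ((Nat.Prime.coprime_iff_not_dvd hp).mpr hQ).symm
  have hcop : (Nat.card Q).Coprime (Nat.card (Cfsg.pCore p S)) := by
    obtain ⟨n, hn⟩ := hPp.exists_card_eq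
    rw [hn]
    exact Nat.Coprime.pow_right n hQc
  have hsolvP : Group.IsSolvable (Cfsg.pCore p S) := by
    haveI := hPp.isNilpotent
    infer_instance
  have h5 := Cfsg.Agent.Lib_helper1_Coprime.commutator_commutator_eq Q (Cfsg.pCore p S) (hNtop Q) hcop
    (Or.inr hsolvP)
  rw [h4] at h5
  have h6 : Q ≤ Subgroup.centralizer ((Cfsg.pCore p S : Subgroup S) : Set S) := by
    rw [Subgroup.le_centralizer_iff]
    exact Subgroup.commutator_eq_bot_iff_le_centralizer.mp h5.symm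
  have h7 : Q ≤ Cfsg.pCore p S :=
    h6.trans (Cfsg.Agent.Lib_helper1_PSolvComp.centralizer_pCore_le_of_pSolvable p hred hS)
  apply hQ1
  rw [eq_bot_iff]
  intro x hx
  rw [Subgroup.mem_bot]
  exact Cfsg.Agent.Lib_helper7_OddCore.eq_one_of_mem_pgroup_of_mem_coprime (Cfsg.pCore p S) Q hPp hQc x
    (h7 hx) hx

end Cfsg.Agent.S1892
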