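import Cfsg.Statements.S1894
import Cfsg.Agent.Lib_helper1_NormalRankTwo

set_option autoImplicit false
open Cfsg

namespace Cfsg.Agent.S1894

theorem sup_zpowers {G : Type*} [Group G] (A : Subgroup G) [hAn : A.Normal]
    (hA : IsMulCommutative A)
    (y : G) (hyC : y ∈ Subgroup.centralizer (A : Set G))
    (hy : ∀ g : G, g * y * g⁻¹ * y⁻¹ ∈ A) :
    (A ⊔ Subgroup.zpowers y).Normal ∧ IsMulCommutative ↥(A ⊔ Subgroup.zpowers y) := by
  have hrep : ∀ b ∈ A ⊔ Subgroup.zpowers y, ∃ a ∈ A, ∃ k : ℤ, b = a * y ^ k := by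
    intro b hb
    obtain ⟨a, ha, z, hz, rfl⟩ := Subgroup.mem_sup_of_normal_left.mp hb
    obtain ⟨k, rfl⟩ := Subgroup.mem_zpowers_iff.mp hz
    exact ⟨a, ha, k, rfl⟩
  have hcomm : ∀ a ∈ A, ∀ k : ℤ, Commute a (y ^ k) := by
    intro a ha k
    have h0 : Commute a y := Subgroup.mem_centralizer_iff.mp hyC a ha
    exact h0.zpow_right k
  have hAA : ∀ a ∈ A, ∀ a' ∈ A, a * a' = a' * a := by
    intro a ha a' ha'
    have h0 : (⟨a, ha⟩ : A) * ⟨a', ha'⟩ = ⟨a', ha'⟩ * ⟨a, ha⟩ := hA.is_comm.comm _ _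
    exact congrArg Subtype.val h0
  constructor
  · constructor
    intro b hb g
    obtain ⟨a, ha, k, rfl⟩ := hrep b hb
    have h1 : g * y * g⁻¹ ∈ A ⊔ Subgroup.zpowers y := by
      have h2 : g * y * g⁻¹ = (g * y * g⁻¹ * y⁻¹) * y := by group
      rw [h2]
      exact mul_mem ((le_sup_left : A ≤ _) (hy g))
        ((le_sup_right : Subgroup.zpowers y ≤ _) (Subgroup.mem_zpowers y))
    have h3 : g * (a * y ^ k) * g⁻¹ = (g * a * g⁻¹) * (g * y * g⁻¹) ^ k := by
      rw [conj_zpow]; group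
    rw [h3]
    exact mul_mem ((le_sup_left : A ≤ _) (hAn.conj_mem a ha g)) (zpow_mem h1 k)
  · refine ⟨⟨fun b1 b2 => ?_⟩⟩
    apply Subtype.ext
    obtain ⟨a1, ha1, k1, h1⟩ := hrep b1 b1.2
    obtain ⟨a2, ha2, k2, h2⟩ := hrep b2 b2.2
    show (b1 : G) * (b2 : G) = (b2 : G) * (b1 : G)
    rw [h1, h2]
    have e1 := (hcomm a2 ha2 k1).eq
    have e2 := (hcomm a1 ha1 k2).eq
    have e3 := hAA a1 ha1 a2 ha2
    have e4 : y ^ k1 * y ^ k2 = y ^ k2 * y ^ k1 := by
      rw [← zpow_add, ← zpow_add, add_comm]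
    calc a1 * y ^ k1 * (a2 * y ^ k2) = a1 * (y ^ k1 * a2) * y ^ k2 := by
          simp only [mul_assoc]
      _ = a1 * (a2 * y ^ k1) * y ^ k2 := by rw [e1]
      _ = (a1 * a2) * (y ^ k1 * y ^ k2) := by simp only [mul_assoc]
      _ = (a2 * a1) * (y ^ k2 * y ^ k1) := by rw [e3, e4]
      _ = a2 * (a1 * y ^ k2) * y ^ k1 := by simp only [mul_assoc]
      _ = a2 * (y ^ k2 * a1) * y ^ k1 := by rw [e2]
      _ = a2 * y ^ k2 * (a1 * y ^ k1) := by simp only [mul_assoc]



/-- Let P be a finite p-group, A a normal subgroup of P and B an abelian subgroup of A that is normal in P. Then some subgroup C of A containing B is normal in P and is self-centralizing and normal in A (C ∈ SCN(A)). -/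
theorem result {P : Type*} [Group P] [Finite P] {p : ℕ} [Fact p.Prime] (hP : IsPGroup p P)
    (A : Subgroup P) [A.Normal] (B : Subgroup P) [B.Normal] (hBA : B ≤ A) (hB : IsMulCommutative B) :
    ∃ C : Subgroup P, C.Normal ∧ B ≤ C ∧ Cfsg.IsSCN A C := by
  classical
  obtain ⟨C, hBC, hCmax⟩ := (Set.toFinite {K : Subgroup P | K.Normal ∧ IsMulCommutative K ∧
      K ≤ A}).exists_le_maximal (a := B) ⟨inferInstance, hB, hBA⟩
  obtain ⟨⟨hCn, hCc, hCA⟩, hCm⟩ := hCmax
  haveI := hCn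
  refine ⟨C, hCn, hBC, hCA, ?_, ?_⟩
  · rw [Subgroup.normalizer_eq_top]; exact le_top
  · apply le_antisymm
    · by_contra hcon
      haveI hDn : (A ⊓ Subgroup.centralizer (C : Set P)).Normal := inferInstance
      have hne : (A ⊓ Subgroup.centralizer (C : Set P)).map (QuotientGroup.mk' C) ≠ ⊥ := by
        intro h
        rw [Subgroup.map_eq_bot_iff, QuotientGroup.ker_mk'] at h
        exact hcon h
      haveI : ((A ⊓ Subgroup.centralizer (C : Set P)).map (QuotientGroup.mk' C)).Normal :=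
        Subgroup.Normal.map hDn _ (QuotientGroup.mk'_surjective _)
      obtain ⟨z, hzD, hzc, hzo⟩ :=
        Cfsg.Agent.Lib_helper1_NormalRankTwo.exists_central_order_p (hP.to_quotient C) _ hne
      obtain ⟨d, hd, rfl⟩ := hzD
      obtain ⟨hdA, hdC⟩ := Subgroup.mem_inf.mp hd
      have hdnC : d ∉ C := by
        intro h
        have h1 : QuotientGroup.mk' C d = 1 := (QuotientGroup.eq_one_iff d).mpr h
        rw [h1, orderOf_one] at hzo
        exact (Fact.out : p.Prime).ne_one hzo.symm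
      have hy : ∀ g : P, g * d * g⁻¹ * d⁻¹ ∈ C := by
        intro g
        apply (QuotientGroup.eq_one_iff _).mp
        have h1 := Subgroup.mem_center_iff.mp hzc (QuotientGroup.mk' C g)
        have h2 : QuotientGroup.mk' C (g * d * g⁻¹ * d⁻¹) = 1 := by
          rw [map_mul, map_mul, map_mul, map_inv, map_inv, h1]
          group
        exact h2
      obtain ⟨hn', hc'⟩ := sup_zpowers C hCc d hdC hy
      have hle : C ⊔ Subgroup.zpowers d ≤ A := sup_le hCA (Subgroup.zpowers_le.mpr hdA)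
      have h3 := hCm ⟨hn', hc', hle⟩ le_sup_left
      exact hdnC (h3 ((le_sup_right : Subgroup.zpowers d ≤ _) (Subgroup.mem_zpowers d)))
    · intro c hc
      refine Subgroup.mem_inf.mpr ⟨hCA hc, ?_⟩
      rw [Subgroup.mem_centralizer_iff]
      intro c' hc'
      have h0 : (⟨c', hc'⟩ : C) * ⟨c, hc⟩ = ⟨c, hc⟩ * ⟨c', hc'⟩ := hCc.is_comm.comm _ _
      exact congrArg Subtype.val h0

end Cfsg.Agent.S1894
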