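import Cfsg.Statements.S1898
import Cfsg.Agent.Lib_helper7_OddOmega

set_option autoImplicit false
open Cfsg

namespace Cfsg.Agent.S1898

/-- Let X be a finite 2-group whose derived subgroup is elementary abelian and central. Then the subgroup generated by the elements of order dividing 4 has exponent dividing 4, and every automorphism of X fixing each element of order dividing 4 has 2-power order. -/
theorem result {X : Type*} [Group X] [Finite X] (hX : IsPGroup 2 X)
    (hel : Cfsg.IsElementaryAbelian 2 (commutator X)) (hcen : commutator X ≤ Subgroup.center X) :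
    (∀ x ∈ Subgroup.closure {g : X | g ^ 4 = 1}, x ^ 4 = 1) ∧
      ∀ φ : MulAut X, (∀ g : X, g ^ 4 = 1 → φ g = g) → ∃ k : ℕ, φ ^ (2 ^ k) = 1 := by
  classical
  have hsum4 : ∑ i ∈ Finset.range 4, i = 6 := by decide
  have hmul4 : ∀ a b : X, (a * b) ^ 4 = a ^ 4 * b ^ 4 := by
    intro a b
    have hc : b * a = (b * a * b⁻¹ * a⁻¹) * a * b := by group
    have hcm : b * a * b⁻¹ * a⁻¹ ∈ commutator X := by
      have := Subgroup.commutator_mem_commutator (Subgroup.mem_top b) (Subgroup.mem_top a)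
      exact this
    have hcz := hcen hcm
    have hca : Commute a (b * a * b⁻¹ * a⁻¹) := (Subgroup.mem_center_iff.mp hcz a)
    have hcb : Commute b (b * a * b⁻¹ * a⁻¹) := (Subgroup.mem_center_iff.mp hcz b)
    have hc2 : (b * a * b⁻¹ * a⁻¹) ^ 2 = 1 := hel.2 _ hcm
    rw [Cfsg.Agent.Lib_helper7_OddOmega.mul_pow' a b _ hc hca hcb 4, hsum4,
      show (6 : ℕ) = 2 * 3 by norm_num, pow_mul, hc2, one_pow, one_mul]
  refine ⟨?_, ?_⟩
  · intro x hx
    let φ₄ : X →* X :=
      { toFun := fun g => g ^ 4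
        map_one' := one_pow 4
        map_mul' := hmul4 }
    have hle : Subgroup.closure {g : X | g ^ 4 = 1} ≤ φ₄.ker := by
      rw [Subgroup.closure_le]
      intro g hg
      exact MonoidHom.mem_ker.mpr hg
    exact MonoidHom.mem_ker.mp (hle hx)
  · intro φ hφ
    have hn : orderOf φ ≠ 0 := (orderOf_pos φ).ne'
    obtain ⟨a, m, hodd, hnm⟩ := Nat.exists_eq_two_pow_mul_odd hn
    refine ⟨a, ?_⟩
    have hβm : (φ ^ (2 ^ a)) ^ m = 1 := by rw [← pow_mul, ← hnm, pow_orderOf_eq_one]
    have hφk : ∀ (k : ℕ) (g : X), g ^ 4 = 1 → (φ ^ k) g = g := by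
      intro k g hg
      induction k with
      | zero => simp
      | succ k ih => rw [pow_succ', MulAut.mul_apply, ih, hφ g hg]
    have hm2 : Nat.Coprime m 2 := by
      apply Nat.Coprime.symm
      apply (Nat.Prime.coprime_iff_not_dvd Nat.prime_two).mpr
      intro h2
      have := Nat.odd_iff.mp hodd
      omega
    have key : ∀ (j : ℕ) (y : X), y ^ (4 ^ j) = 1 → (φ ^ (2 ^ a)) y = y := by
      intro j
      induction j with
      | zero =>
        intro y hy
        rw [pow_zero, pow_one] at hy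
        rw [hy, map_one]
      | succ j ih =>
        intro y hy
        have h1 : (y ^ 4) ^ (4 ^ j) = 1 := by rw [← pow_mul, ← pow_succ']; exact hy
        have h2 := ih (y ^ 4) h1
        have hω4 : ((φ ^ (2 ^ a)) y * y⁻¹) ^ 4 = 1 := by
          rw [hmul4, ← map_pow, h2, inv_pow, mul_inv_cancel]
        have hβω : (φ ^ (2 ^ a)) ((φ ^ (2 ^ a)) y * y⁻¹) = (φ ^ (2 ^ a)) y * y⁻¹ :=
          hφk _ _ hω4
        have hiter : ∀ k : ℕ, ((φ ^ (2 ^ a)) ^ k) y = ((φ ^ (2 ^ a)) y * y⁻¹) ^ k * y := by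
          intro k
          induction k with
          | zero => simp
          | succ k ih2 =>
            rw [pow_succ', MulAut.mul_apply, ih2, map_mul, map_pow, hβω, pow_succ, mul_assoc,
              inv_mul_cancel_right]
        have hωm : ((φ ^ (2 ^ a)) y * y⁻¹) ^ m = 1 := by
          have h3 := hiter m
          rw [hβm] at h3
          have h4 : y = ((φ ^ (2 ^ a)) y * y⁻¹) ^ m * y := h3
          exact mul_eq_right.mp h4.symm
        have ho1 : orderOf ((φ ^ (2 ^ a)) y * y⁻¹) ∣ m := orderOf_dvd_of_pow_eq_one hωm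
        have ho2 : orderOf ((φ ^ (2 ^ a)) y * y⁻¹) ∣ 2 ^ 2 :=
          orderOf_dvd_of_pow_eq_one (by rw [show (2 : ℕ) ^ 2 = 4 by norm_num]; exact hω4)
        have hc : Nat.Coprime (orderOf ((φ ^ (2 ^ a)) y * y⁻¹)) (2 ^ 2) :=
          Nat.Coprime.coprime_dvd_left ho1 (Nat.Coprime.pow_right 2 hm2)
        have ho : orderOf ((φ ^ (2 ^ a)) y * y⁻¹) = 1 := Nat.Coprime.eq_one_of_dvd hc ho2
        exact mul_inv_eq_one.mp (orderOf_eq_one_iff.mp ho)
    apply MulEquiv.ext
    intro y
    rw [MulAut.one_apply]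
    obtain ⟨k, hk⟩ := hX y
    have h5 : y ^ (4 ^ k) = 1 := by
      rw [show (4 : ℕ) = 2 * 2 by norm_num, mul_pow, pow_mul, hk, one_pow]
    exact key k y h5

end Cfsg.Agent.S1898
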