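import Cfsg.Statements.S1899
-- import your own Cfsg.Agent.* helpers here

set_option autoImplicit false
open Cfsg

namespace Cfsg.Agent.S1899

/-- Let a dihedral group of order 2n, n odd and n > 1, act on a finite abelian 2-group A through automorphisms d and t with d^n = 1, t² = 1 and t d t⁻¹ = d⁻¹, and suppose that d fixes only the identity. Then A is the internal direct product of C_A(t) and its image under d. -/
theorem result {A : Type*} [CommGroup A] [Finite A] (hA : IsPGroup 2 A)
    {n : ℕ} (hn : Odd n) (hn1 : 1 < n) (d t : MulAut A) (hd : d ^ n = 1) (ht : t ^ 2 = 1) (hdt : t * d * t⁻¹ = d⁻¹)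
    (hfix : ∀ a : A, d a = a → a = 1) :
    (MulEquiv.toMonoidHom t).eqLocus (MonoidHom.id A) ⊓ ((MulEquiv.toMonoidHom t).eqLocus (MonoidHom.id A)).map d.toMonoidHom = ⊥ ∧
      (MulEquiv.toMonoidHom t).eqLocus (MonoidHom.id A) ⊔ ((MulEquiv.toMonoidHom t).eqLocus (MonoidHom.id A)).map d.toMonoidHom = ⊤ := by
  classical
  -- `d² a = a` forces `a = 1`
  have hd2 : ∀ a : A, d (d a) = a → a = 1 := by
    intro a ha
    obtain ⟨m, hm⟩ := hn
    have hk : ∀ k : ℕ, (d ^ (2 * k)) a = a := by
      intro k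
      induction k with
      | zero => simp
      | succ k ih =>
        rw [show 2 * (k + 1) = 2 * k + 2 by ring, pow_add, MulAut.mul_apply, pow_two, MulAut.mul_apply, ha, ih]
    have h1 : d ^ (2 * (m + 1)) = d := by
      rw [show 2 * (m + 1) = n + 1 by omega, pow_succ, hd, one_mul]
    have h2 := hk (m + 1)
    rw [h1] at h2
    exact hfix a h2
  -- the relation `d (t (d y)) = t y`
  have hR : ∀ y : A, d (t (d y)) = t y := by
    intro y
    have h1 : t * d = d⁻¹ * t := mul_inv_eq_iff_eq_mul.mp hdt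
    have h2 : (t * d) y = (d⁻¹ * t) y := by rw [h1]
    rw [MulAut.mul_apply, MulAut.mul_apply] at h2
    rw [h2, MulAut.apply_inv_self]
  have htt : ∀ a : A, t (t a) = a := by
    intro a
    have h1 : (t ^ 2) a = a := by rw [ht]; rfl
    rwa [pow_two, MulAut.mul_apply] at h1
  -- generic injectivity
  have hinj : ∀ K : Subgroup A, (∀ a ∈ K, ∀ y ∈ K, a = d y → a = 1) →
      Function.Injective (fun z : K × K => ((z.1 : A) * d (z.2 : A))) := by
    intro K hK
    rintro ⟨x, y⟩ ⟨x', y'⟩ h
    have h' : (x : A) * d (y : A) = (x' : A) * d (y' : A) := h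
    have h1 : (x' : A)⁻¹ * (x : A) = d ((y' : A) * (y : A)⁻¹) := by
      rw [map_mul, map_inv, inv_mul_eq_iff_eq_mul, ← mul_assoc, ← h', mul_assoc, mul_inv_cancel, mul_one]
    have h2 := hK _ (K.mul_mem (K.inv_mem x'.2) x.2) _ (K.mul_mem y'.2 (K.inv_mem y.2)) h1
    have hx : (x : A) = x' := by
      rw [inv_mul_eq_one] at h2
      exact h2.symm
    have hy : (y : A) = y' := by
      rw [hx] at h'
      exact d.injective (mul_left_cancel h')
    exact Prod.ext (Subtype.ext hx) (Subtype.ext hy)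
  have hcardK : ∀ K : Subgroup A, (∀ a ∈ K, ∀ y ∈ K, a = d y → a = 1) →
      Nat.card K * Nat.card K ≤ Nat.card A := by
    intro K hK
    rw [← Nat.card_prod]
    exact Nat.card_le_card_of_injective _ (hinj K hK)
  -- the subgroups
  have hC : ∀ a ∈ (MulEquiv.toMonoidHom t).eqLocus (MonoidHom.id A), ∀ y ∈ (MulEquiv.toMonoidHom t).eqLocus (MonoidHom.id A), a = d y → a = 1 := by
    intro a ha y hy hay
    have ha' : t a = a := ha
    have hy' : t y = y := hy
    apply hd2
    have h1 := hR y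
    rw [← hay, ha', hy'] at h1
    rw [h1]
    exact hay.symm
  let φ : A →* A := MonoidHom.id A * MulEquiv.toMonoidHom t
  have hφ : ∀ a : A, φ a = a * t a := fun a => rfl
  have hI : ∀ a ∈ φ.ker, ∀ y ∈ φ.ker, a = d y → a = 1 := by
    intro a ha y hy hay
    have ha' : t a = a⁻¹ := by
      rw [MonoidHom.mem_ker, hφ] at ha
      exact eq_inv_of_mul_eq_one_right ha
    have hy' : t y = y⁻¹ := by
      rw [MonoidHom.mem_ker, hφ] at hy
      exact eq_inv_of_mul_eq_one_right hy
    apply hd2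
    have h1 := hR y
    rw [← hay, ha', hy', map_inv, inv_inj] at h1
    rw [h1]
    exact hay.symm
  have hrange : φ.range ≤ (MulEquiv.toMonoidHom t).eqLocus (MonoidHom.id A) := by
    rintro _ ⟨a, rfl⟩
    show t (φ a) = φ a
    rw [hφ, map_mul, htt, mul_comm]
  have h1 := hcardK _ hC
  have h2 := hcardK _ hI
  have h3 : Nat.card φ.ker * Nat.card φ.range = Nat.card A := by
    rw [← Subgroup.index_ker]
    exact Subgroup.card_mul_index _
  have h4 : Nat.card φ.range ≤ Nat.card ((MulEquiv.toMonoidHom t).eqLocus (MonoidHom.id A)) :=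
    Subgroup.card_le_of_le hrange
  have hcpos : 0 < Nat.card ((MulEquiv.toMonoidHom t).eqLocus (MonoidHom.id A)) := Nat.card_pos
  have hipos : 0 < Nat.card φ.ker := Nat.card_pos
  have h5 : Nat.card A ≤ Nat.card φ.ker * Nat.card ((MulEquiv.toMonoidHom t).eqLocus (MonoidHom.id A)) := by
    rw [← h3]
    exact Nat.mul_le_mul_left _ h4
  have h6 : Nat.card ((MulEquiv.toMonoidHom t).eqLocus (MonoidHom.id A)) ≤ Nat.card φ.ker :=
    Nat.le_of_mul_le_mul_right (h1.trans h5) hcpos
  have h7 : Nat.card φ.ker ≤ Nat.card ((MulEquiv.toMonoidHom t).eqLocus (MonoidHom.id A)) :=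
    Nat.le_of_mul_le_mul_left (h2.trans h5) hipos
  have h8 : Nat.card A ≤ Nat.card ((MulEquiv.toMonoidHom t).eqLocus (MonoidHom.id A)) *
      Nat.card ((MulEquiv.toMonoidHom t).eqLocus (MonoidHom.id A)) :=
    h5.trans (Nat.mul_le_mul_right _ h7)
  refine ⟨?_, ?_⟩
  · rw [eq_bot_iff]
    rintro a ⟨ha, y, hy, rfl⟩
    rw [Subgroup.mem_bot]
    exact hC _ ha y hy rfl
  · rw [eq_top_iff]
    intro a _
    have hbij := Function.Injective.bijective_of_nat_card_le (hinj _ hC) (by rw [Nat.card_prod]; exact h8)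
    obtain ⟨⟨x, y⟩, rfl⟩ := hbij.2 a
    exact Subgroup.mul_mem _ (Subgroup.mem_sup_left x.2)
      (Subgroup.mem_sup_right (Subgroup.mem_map_of_mem _ y.2))

end Cfsg.Agent.S1899
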