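import Cfsg.Statements.S1939
-- import your own Cfsg.Agent.* helpers here

set_option autoImplicit false
open Cfsg

namespace Cfsg.Agent.S1939

/-- Let S be a Sylow p-subgroup of the finite group G and a an element of S that is the only G-conjugate of a lying in S. Then every power of a has the same property: for every n, the only G-conjugate of a^n lying in S is a^n. -/
theorem result {G : Type*} [Group G] [Finite G] {p : ℕ} [Fact p.Prime] (S : Sylow p G) (a : G)
    (haS : a ∈ (S : Subgroup G)) (hwc : ∀ g : G, g * a * g⁻¹ ∈ (S : Subgroup G) → g * a * g⁻¹ = a) (n : ℕ) :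
    ∀ g : G, g * a ^ n * g⁻¹ ∈ (S : Subgroup G) → g * a ^ n * g⁻¹ = a ^ n := by
  intro g hg
  have hcen : ∀ s ∈ (S : Subgroup G), s * a = a * s := by
    intro s hs
    have h1 := hwc s (Subgroup.mul_mem _ (Subgroup.mul_mem _ hs haS) (Subgroup.inv_mem _ hs))
    rw [mul_inv_eq_iff_eq_mul] at h1; exact h1
  have hSC : (S : Subgroup G) ≤ Subgroup.centralizer ({a ^ n} : Set G) := by
    intro s hs
    rw [Subgroup.mem_centralizer_iff]
    intro h hh
    rw [Set.mem_singleton_iff] at hh; subst hh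
    have hc : Commute a s := (hcen s hs).symm
    exact (hc.pow_left n).eq
  have hcC : g⁻¹ * a * g ∈ Subgroup.centralizer ({a ^ n} : Set G) := by
    rw [Subgroup.mem_centralizer_iff]
    intro h hh
    rw [Set.mem_singleton_iff] at hh; subst hh
    have h1 := hcen _ hg
    calc a ^ n * (g⁻¹ * a * g) = g⁻¹ * ((g * a ^ n * g⁻¹) * a) * g := by group
      _ = g⁻¹ * (a * (g * a ^ n * g⁻¹)) * g := by rw [h1]
      _ = g⁻¹ * a * g * a ^ n := by group
  let C := Subgroup.centralizer ({a ^ n} : Set G)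
  let S' : Sylow p C := S.subtype hSC
  let Q : Subgroup G := (S : Subgroup G).map (MulAut.conj g⁻¹).toMonoidHom
  have hQ : IsPGroup p Q := S.isPGroup'.map _
  have hQ' : IsPGroup p (Q.subgroupOf C) := hQ.comap_subtype
  obtain ⟨R, hR⟩ := hQ'.exists_le_sylow
  obtain ⟨c, hc⟩ := MulAction.exists_smul_eq C R S'
  have hxQ : (⟨g⁻¹ * a * g, hcC⟩ : C) ∈ Q.subgroupOf C := by
    rw [Subgroup.mem_subgroupOf]
    refine ⟨a, haS, ?_⟩
    simp
  have hxR : (⟨g⁻¹ * a * g, hcC⟩ : C) ∈ (R : Subgroup C) := hR hxQ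
  have hcx : c * (⟨g⁻¹ * a * g, hcC⟩ : C) * c⁻¹ ∈ (S' : Subgroup C) := by
    rw [← hc, Sylow.coe_subgroup_smul]
    have := Subgroup.smul_mem_pointwise_smul _ (MulAut.conj c) (R : Subgroup C) hxR
    simpa [MulAut.smul_def, MulAut.conj_apply] using this
  have hcx' : (c : G) * (g⁻¹ * a * g) * (c : G)⁻¹ ∈ (S : Subgroup G) := by
    have := hcx
    rw [Sylow.coe_subtype, Subgroup.mem_subgroupOf] at this
    simpa using this
  have h2 : ((c : G) * g⁻¹) * a * ((c : G) * g⁻¹)⁻¹ = a := by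
    apply hwc
    have e : ((c : G) * g⁻¹) * a * ((c : G) * g⁻¹)⁻¹ = (c : G) * (g⁻¹ * a * g) * (c : G)⁻¹ := by group
    rw [e]; exact hcx'
  have h3 : Commute ((c : G) * g⁻¹) a := by
    have : ((c : G) * g⁻¹) * a = a * ((c : G) * g⁻¹) := by
      rw [mul_inv_eq_iff_eq_mul] at h2; exact h2
    exact this
  have h4 : Commute ((c : G) * g⁻¹) (a ^ n) := h3.pow_right n
  have h5 : Commute (c : G) (a ^ n) := by
    have := c.2
    rw [Subgroup.mem_centralizer_iff] at this
    exact (this (a ^ n) rfl).symm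
  have h6 : Commute g⁻¹ (a ^ n) := by
    have : g⁻¹ = (c : G)⁻¹ * ((c : G) * g⁻¹) := by group
    rw [this]
    exact h5.inv_left.mul_left h4
  have h7 : Commute g (a ^ n) := by simpa using h6.inv_left
  rw [mul_inv_eq_iff_eq_mul]; exact h7.eq

end Cfsg.Agent.S1939
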