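import Cfsg.Statements.S1941
import Cfsg.Agent.Lib_helper7_InnerCoh

set_option autoImplicit false
open Cfsg

namespace Cfsg.Agent.S1941

/-- Let G be a finite group with no nontrivial normal subgroup of order prime to p, T a Sylow p-subgroup of G and E(G) the layer of G (the subgroup generated by its components). An automorphism of G of p-power order that fixes T and E(G) elementwise is inner. -/
theorem result {G : Type*} [Group G] [Finite G] {p : ℕ} [Fact p.Prime] (hcore : Cfsg.pPrimeCore p G = ⊥)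
    (T : Sylow p G) (α : MulAut G) (hα : ∃ j : ℕ, orderOf α = p ^ j) (hfixT : ∀ x ∈ (T : Subgroup G), α x = x)
    (hfixE : ∀ x ∈ Cfsg.layer G, α x = x) : ∃ g : G, ∀ x : G, α x = g * x * g⁻¹ := by
  classical
  have hF : Cfsg.fittingSubgroup G = Cfsg.pCore p G :=
    Cfsg.Agent.Lib_helper2_PCons.fitting_eq_pCore_of_pPrimeCore p hcore
  have hfixF : ∀ x ∈ Cfsg.generalizedFittingSubgroup G, α x = x := by
    have : Cfsg.generalizedFittingSubgroup G ≤ MonoidHom.eqLocus α.toMonoidHom (MonoidHom.id G) := by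
      unfold Cfsg.generalizedFittingSubgroup
      apply sup_le
      · intro x hx; exact hfixE x hx
      · rw [hF]; intro x hx
        exact hfixT x (Cfsg.Agent.Lib_helper7_PCore.pCore_le_sylow T hx)
    intro x hx; exact this hx
  haveI hFn : (Cfsg.generalizedFittingSubgroup G).Normal := Cfsg.Agent.Lib_helper2_Comp.gfit_normal
  obtain ⟨Z, hZ⟩ : ∃ Z : Subgroup G, Z = Subgroup.centralizer (Cfsg.generalizedFittingSubgroup G : Set G) :=
    ⟨_, rfl⟩
  haveI hZn : Z.Normal := by rw [hZ]; exact Subgroup.normal_centralizer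
  have hZle : Z ≤ Cfsg.generalizedFittingSubgroup G := by
    rw [hZ]; exact Cfsg.Agent.Lib_helper2_Comp.centralizer_gfit_le
  haveI hZab : IsMulCommutative ↥Z := by
    refine ⟨⟨fun a b => Subtype.ext ?_⟩⟩
    have ha : (a : G) ∈ Subgroup.centralizer (Cfsg.generalizedFittingSubgroup G : Set G) := by
      rw [← hZ]; exact a.2
    have := Subgroup.mem_centralizer_iff.mp ha (b : G) (hZle b.2)
    show (a : G) * (b : G) = (b : G) * (a : G)
    exact this.symm
  have hZnil : Group.IsNilpotent ↥Z := by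
    have : ∀ a b : ↥Z, a * b = b * a := fun a b => hZab.is_comm.comm a b
    letI : CommGroup ↥Z := { (inferInstance : Group ↥Z) with mul_comm := this }
    exact CommGroup.isNilpotent
  have hZF : Z ≤ Cfsg.pCore p G := by
    rw [← hF]; exact Cfsg.Agent.Lib_helper5_Fitting.le_fitting hZn hZnil
  have hZp : IsPGroup p ↥Z := (Cfsg.Agent.Lib_helper7_PCore.pCore_isPGroup p).to_le hZF
  have hcop : (Nat.card ↥Z).Coprime (T : Subgroup G).index := by
    obtain ⟨k, hk⟩ := IsPGroup.iff_card.mp hZp
    rw [hk]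
    apply Nat.Coprime.pow_left
    rw [Nat.Prime.coprime_iff_not_dvd Fact.out]
    exact T.not_dvd_index
  have hmem : ∀ g, α g * g⁻¹ ∈ Z := by
    intro g
    rw [hZ, Subgroup.mem_centralizer_iff]
    intro f hf
    have hf' : g⁻¹ * f * g ∈ Cfsg.generalizedFittingSubgroup G := by
      have := hFn.conj_mem f hf g⁻¹
      simpa using this
    have e1 : α (g * (g⁻¹ * f * g) * g⁻¹) = α g * (g⁻¹ * f * g) * (α g)⁻¹ := by
      rw [map_mul, map_mul, hfixF _ hf', map_inv]
    have e2 : g * (g⁻¹ * f * g) * g⁻¹ = f := by group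
    rw [e2, hfixF f hf] at e1
    calc f * (α g * g⁻¹) = (α g * (g⁻¹ * f * g) * (α g)⁻¹) * (α g * g⁻¹) := by rw [← e1]
      _ = α g * g⁻¹ * f := by group
  obtain ⟨u, -, hu⟩ := Cfsg.Agent.Lib_helper7_InnerCoh.inner_of_cocycle Z T hcop α hfixT hmem
  exact ⟨u, hu⟩

end Cfsg.Agent.S1941
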