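import Cfsg.Statements.S1947
import Cfsg.Agent.Lib_helper7_OmegaGen
import Cfsg.Agent.Lib_helper7_CharP

set_option autoImplicit false
open Cfsg

namespace Cfsg.Agent.S1947

/-- Let G be a finite group and p a prime. If every element of G of order dividing p (dividing 4 when p = 2) lies in some fixed term Z_n(G) of the upper central series, then G has a normal p-complement. -/
theorem result {G : Type*} [Group G] [Finite G] {p : ℕ} [Fact p.Prime] (n : ℕ)
    (h : ∀ a : G, (a ^ p = 1 ∨ (p = 2 ∧ a ^ 4 = 1)) → a ∈ Subgroup.upperCentralSeries G n) : Cfsg.HasNormalPComplement p G := by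
  have hp : p.Prime := Fact.out
  apply Cfsg.Agent.Lib_helper1_Frobenius.hasNormalPComplement_of_npc
  apply Cfsg.Agent.Lib_helper1_Frobenius.frobenius
  intro Q hQ g hg hgo
  have hBN : Subgroup.zpowers g ≤ Subgroup.normalizer (Q : Set G) := by
    rw [Subgroup.zpowers_le]; exact hg
  have hBsolv : Group.IsSolvable ↥(Subgroup.zpowers g) :=
    isSolvable_of_comm (fun a b => by
      obtain ⟨a, i, rfl⟩ := a
      obtain ⟨b, j, rfl⟩ := b
      exact Subtype.ext (zpow_mul_comm g i j))
  have hZ : ∀ i : ℕ, ⁅Q ⊓ Subgroup.upperCentralSeries G i, Subgroup.zpowers g⁆ = ⊥ := by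
    intro i
    induction i with
    | zero =>
      rw [Subgroup.upperCentralSeries_zero, inf_bot_eq]
      exact Subgroup.commutator_bot_left _
    | succ i ih =>
      have hBW : Subgroup.zpowers g ≤ Subgroup.normalizer
          ((Q ⊓ Subgroup.upperCentralSeries G (i + 1) : Subgroup G) : Set G) := by
        apply Cfsg.Agent.Lib_helper7_CharP.le_normalizer_inf _ _ _ hBN
        exact le_top.trans_eq (Subgroup.normalizer_eq_top_iff.mpr inferInstance).symm
      have hcop : (Nat.card (Subgroup.zpowers g)).Coprime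
          (Nat.card ↥(Q ⊓ Subgroup.upperCentralSeries G (i + 1))) := by
        obtain ⟨k, hk⟩ := (hQ.to_le inf_le_left).exists_card_eq
        rw [hk, Nat.card_zpowers]
        exact Nat.Coprime.pow_right k hgo
      have h1 := Cfsg.Agent.Lib_helper1_Coprime.commutator_commutator_eq (Subgroup.zpowers g) _ hBW
        hcop (Or.inl hBsolv)
      rw [← h1, eq_bot_iff, ← ih]
      apply Subgroup.commutator_mono _ le_rfl
      rw [Subgroup.commutator_le]
      intro x hx b hb
      show x * b * x⁻¹ * b⁻¹ ∈ _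
      have hx' := Subgroup.mem_inf.mp hx
      refine Subgroup.mem_inf.mpr ⟨?_, ?_⟩
      · have hy : b * x⁻¹ * b⁻¹ ∈ Q :=
          (Subgroup.mem_normalizer_iff.mp (hBN hb) x⁻¹).mp (Q.inv_mem hx'.1)
        have e1 : x * b * x⁻¹ * b⁻¹ = x * (b * x⁻¹ * b⁻¹) := by group
        rw [e1]
        exact Q.mul_mem hx'.1 hy
      · exact Subgroup.mem_upperCentralSeries_succ_iff.mp hx'.2 b
  apply Cfsg.Agent.Lib_helper7_OmegaGen.centralizes_of_small p g hgo Q hQ hg
  intro x hxQ hx
  have hxZ : x ∈ Subgroup.upperCentralSeries G n := h x hx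
  have h2 : Subgroup.zpowers g ≤ Subgroup.centralizer
      ((Q ⊓ Subgroup.upperCentralSeries G n : Subgroup G) : Set G) := by
    rw [Subgroup.le_centralizer_iff]
    exact Subgroup.commutator_eq_bot_iff_le_centralizer.mp (hZ n)
  exact (Subgroup.mem_centralizer_iff.mp (h2 (Subgroup.mem_zpowers g)) x
    (Subgroup.mem_inf.mpr ⟨hxQ, hxZ⟩)).symm

end Cfsg.Agent.S1947
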