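import Cfsg.Statements.S1948
import Cfsg.Agent.Lib_helper1_PStabQ2

set_option autoImplicit false
open Cfsg

namespace Cfsg.Agent.S1948

/-- Let S be a Sylow p-subgroup of the finite group G. Then G = N_G(S)·O_{p'}(G) if and only if G is p-constrained and N_G(S) controls fusion in S, in the sense that whenever a subgroup Q of S has a conjugate g Q g⁻¹ inside S, the element g is a product n c with n normalizing S and c centralizing Q. -/
theorem result {G : Type*} [Group G] [Finite G] {p : ℕ} [Fact p.Prime] (S : Sylow p G) :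
    Subgroup.normalizer ((S : Subgroup G) : Set G) ⊔ Cfsg.pPrimeCore p G = ⊤ ↔
      (Cfsg.IsPConstrained p G ∧
        ∀ Q : Subgroup G, Q ≤ (S : Subgroup G) → ∀ g : G, Q.map (MulAut.conj g).toMonoidHom ≤ (S : Subgroup G) →
          ∃ n ∈ Subgroup.normalizer ((S : Subgroup G) : Set G), ∃ c ∈ Subgroup.centralizer (Q : Set G), g = n * c) := by
  classical
  haveI hOn : (Cfsg.pPrimeCore p G).Normal := Lib_helper6_PCore.pPrimeCore_normal p
  have hOc : (Nat.card (Cfsg.pPrimeCore p G)).Coprime p :=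
    Lib_helper7_PPrime.card_pPrimeCore_coprime p
  have hbot := H1PSQ.pPrimeCore_quot_bot (G := G) p
  have hsurj := QuotientGroup.mk'_surjective (Cfsg.pPrimeCore p G)
  have hcons : Cfsg.IsPConstrained p G ↔
      Subgroup.centralizer (Cfsg.pCore p (G ⧸ Cfsg.pPrimeCore p G) :
        Set (G ⧸ Cfsg.pPrimeCore p G)) ≤ Cfsg.pCore p (G ⧸ Cfsg.pPrimeCore p G) := by
    rw [Lib_helper2_PCons.pConstrained_iff p, Lib_helper2_PCons.pLayer_eq_bot_iff p,
      Lib_helper2_PCons.layer_eq_bot_iff_of_pPrimeCore p hbot]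
  have hcoreS : Cfsg.pCore p (G ⧸ Cfsg.pPrimeCore p G) ≤
      (S : Subgroup G).map (QuotientGroup.mk' (Cfsg.pPrimeCore p G)) := by
    have := Lib_helper6_PCore.pCore_le_sylow (S.mapSurjective hsurj)
    rwa [Sylow.coe_mapSurjective] at this
  have hSN : (S : Subgroup G) ≤ Subgroup.normalizer ((S : Subgroup G) : Set G) :=
    Subgroup.le_normalizer
  constructor
  · intro h
    have hTn : ((S : Subgroup G).map (QuotientGroup.mk' (Cfsg.pPrimeCore p G))).Normal := by
      rw [← Subgroup.normalizer_eq_top_iff, eq_top_iff]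
      have h1 : (Subgroup.normalizer ((S : Subgroup G) : Set G)).map
          (QuotientGroup.mk' (Cfsg.pPrimeCore p G)) = ⊤ := by
        have h2 := congrArg (Subgroup.map (QuotientGroup.mk' (Cfsg.pPrimeCore p G))) h
        rw [Subgroup.map_sup, QuotientGroup.map_mk'_self, sup_bot_eq,
          Subgroup.map_top_of_surjective _ hsurj] at h2
        exact h2
      rw [← h1]
      exact Subgroup.le_normalizer_map _
    have hcore : Cfsg.pCore p (G ⧸ Cfsg.pPrimeCore p G) =
        (S : Subgroup G).map (QuotientGroup.mk' (Cfsg.pPrimeCore p G)) :=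
      le_antisymm hcoreS (Lib_helper6_PCore.le_pCore hTn (S.2.map _))
    refine ⟨?_, ?_⟩
    · rw [hcons, hcore]
      exact H1PSQ.cent_normal_sylow_le (S.mapSurjective hsurj) hTn hbot
    · intro Q hQS g hg
      have hgm : g ∈ (((Subgroup.normalizer ((S : Subgroup G) : Set G)) ⊔
          Cfsg.pPrimeCore p G : Subgroup G) : Set G) := by
        rw [h]; exact Subgroup.mem_top g
      rw [Subgroup.mul_normal] at hgm
      obtain ⟨n, hn, o, ho, rfl⟩ := Set.mem_mul.mp hgm
      refine ⟨n, hn, o, ?_, rfl⟩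
      rw [Subgroup.mem_centralizer_iff]
      intro x hx
      have h1 : n * o * x * (n * o)⁻¹ ∈ (S : Subgroup G) := hg ⟨x, hx, rfl⟩
      have hn' : n⁻¹ ∈ Subgroup.normalizer ((S : Subgroup G) : Set G) := Subgroup.inv_mem _ hn
      have h2 : o * x * o⁻¹ ∈ (S : Subgroup G) := by
        have := (Subgroup.mem_normalizer_iff.mp hn' _).mp h1
        have e : n⁻¹ * (n * o * x * (n * o)⁻¹) * n⁻¹⁻¹ = o * x * o⁻¹ := by group
        rwa [e] at this
      have h3 : o * x * o⁻¹ * x⁻¹ ∈ (S : Subgroup G) :=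
        (S : Subgroup G).mul_mem h2 ((S : Subgroup G).inv_mem (hQS hx))
      have h4 : o * x * o⁻¹ * x⁻¹ ∈ Cfsg.pPrimeCore p G := by
        have := hOn.conj_mem o⁻¹ (Subgroup.inv_mem _ ho) x
        have e : o * x * o⁻¹ * x⁻¹ = o * (x * o⁻¹ * x⁻¹) := by group
        rw [e]; exact Subgroup.mul_mem _ ho this
      have h5 := H1PSQ.pgroup_inf_triv _ hOc _ S.2 _ h3 h4
      have h6 : o * x * o⁻¹ = x := mul_inv_eq_one.mp h5
      have h7 : o * x = x * o := mul_inv_eq_iff_eq_mul.mp h6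
      exact h7.symm
  · rintro ⟨hc, hf⟩
    rw [hcons] at hc
    rw [eq_top_iff]
    intro g _
    obtain ⟨Q, hQ⟩ : ∃ Q : Subgroup G, Q = (S : Subgroup G) ⊓
        (Cfsg.pCore p (G ⧸ Cfsg.pPrimeCore p G)).comap
          (QuotientGroup.mk' (Cfsg.pPrimeCore p G)) := ⟨_, rfl⟩
    have hQS : Q ≤ (S : Subgroup G) := by rw [hQ]; exact inf_le_left
    have hQp : IsPGroup p Q := S.2.to_le hQS
    have hQmap : Q.map (QuotientGroup.mk' (Cfsg.pPrimeCore p G)) =
        Cfsg.pCore p (G ⧸ Cfsg.pPrimeCore p G) := by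
      apply le_antisymm
      · rintro _ ⟨x, hx, rfl⟩
        rw [hQ] at hx; exact hx.2
      · intro xb hxb
        obtain ⟨s, hs, rfl⟩ := hcoreS hxb
        exact ⟨s, by rw [hQ]; exact ⟨hs, hxb⟩, rfl⟩
    have hstep : ∀ x ∈ Q, g * x * g⁻¹ ∈ Q ⊔ Cfsg.pPrimeCore p G := by
      intro x hx
      have h1 : (QuotientGroup.mk' (Cfsg.pPrimeCore p G)) (g * x * g⁻¹) ∈
          Q.map (QuotientGroup.mk' (Cfsg.pPrimeCore p G)) := by
        rw [hQmap]
        have hxc : (QuotientGroup.mk' (Cfsg.pPrimeCore p G)) x ∈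
            Cfsg.pCore p (G ⧸ Cfsg.pPrimeCore p G) := by rw [← hQmap]; exact ⟨x, hx, rfl⟩
        have := (Lib_helper6_PCore.pCore_normal p (G := G ⧸ Cfsg.pPrimeCore p G)).conj_mem _ hxc
          ((QuotientGroup.mk' (Cfsg.pPrimeCore p G)) g)
        rw [map_mul, map_mul, map_inv]
        exact this
      obtain ⟨q, hq, hqe⟩ := h1
      have h2 : q⁻¹ * (g * x * g⁻¹) ∈ Cfsg.pPrimeCore p G := QuotientGroup.eq.mp hqe
      have e : g * x * g⁻¹ = q * (q⁻¹ * (g * x * g⁻¹)) := by group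
      rw [e]
      exact Subgroup.mul_mem _ (Subgroup.mem_sup_left hq) (Subgroup.mem_sup_right h2)
    obtain ⟨w, hw, hwn⟩ := Lib_helper2_PCons.exists_mul_mem_normalizer_of_sup p
      (Cfsg.pPrimeCore p G) hOc Q hQp g hstep
    have hconj : Q.map (MulAut.conj (w * g)).toMonoidHom ≤ (S : Subgroup G) := by
      rintro _ ⟨x, hx, rfl⟩
      have := (Subgroup.mem_normalizer_iff.mp hwn x).mp hx
      exact hQS this
    obtain ⟨n, hn, c, hcc, hnc⟩ := hf Q hQS (w * g) hconj
    have hcb : (QuotientGroup.mk' (Cfsg.pPrimeCore p G)) c ∈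
        Cfsg.pCore p (G ⧸ Cfsg.pPrimeCore p G) := by
      apply hc
      rw [Subgroup.mem_centralizer_iff]
      intro yb hyb
      have hyb' : yb ∈ Q.map (QuotientGroup.mk' (Cfsg.pPrimeCore p G)) := by
        rw [hQmap]; exact hyb
      obtain ⟨y, hy, rfl⟩ := hyb'
      have := (Subgroup.mem_centralizer_iff.mp hcc) y hy
      rw [← map_mul, ← map_mul, this]
    obtain ⟨s, hs, hse⟩ := hcoreS hcb
    have ho' : s⁻¹ * c ∈ Cfsg.pPrimeCore p G := QuotientGroup.eq.mp hse
    have e : g = w⁻¹ * (n * (s * (s⁻¹ * c))) := by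
      calc g = w⁻¹ * (w * g) := by group
        _ = w⁻¹ * (n * c) := by rw [hnc]
        _ = w⁻¹ * (n * (s * (s⁻¹ * c))) := by group
    rw [e]
    exact Subgroup.mul_mem _ (Subgroup.mem_sup_right (Subgroup.inv_mem _ hw))
      (Subgroup.mul_mem _ (Subgroup.mem_sup_left hn)
        (Subgroup.mul_mem _ (Subgroup.mem_sup_left (hSN hs)) (Subgroup.mem_sup_right ho')))

end Cfsg.Agent.S1948
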