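import Cfsg.Statements.S2162
import Cfsg.Agent.Lib_helper8_SqZero
import Cfsg.Agent.Lib_helper8_Transv

set_option autoImplicit false
open Cfsg

namespace Cfsg.Agent.S2162

/-- Conjugacy of involutions in the special linear group over a finite field of characteristic two, in dimension at least 3: two elements of order 2 of SL_n(F) are conjugate in SL_n(F) exactly when the matrices a − 1 and b − 1 have the same rank (the rank of a − 1 is the dimension of the commutator space [V, a]). -/
theorem result {F : Type*} [Field F] [Fintype F] [CharP F 2] {n : ℕ} (hn : 3 ≤ n) (a b : Matrix.SpecialLinearGroup (Fin n) F) (ha : orderOf a = 2) (hb : orderOf b = 2) :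
    IsConj a b ↔ ((a : Matrix (Fin n) (Fin n) F) - 1).rank = ((b : Matrix (Fin n) (Fin n) F) - 1).rank := by
  have h2 : (2 : F) = 0 := CharP.cast_eq_zero F 2
  constructor
  · intro h
    obtain ⟨c, hc⟩ := isConj_iff.mp h
    have hinv : (c : Matrix (Fin n) (Fin n) F) *
        ((c⁻¹ : Matrix.SpecialLinearGroup (Fin n) F) : Matrix (Fin n) (Fin n) F) = 1 := by
      rw [← Matrix.SpecialLinearGroup.coe_mul, mul_inv_cancel, Matrix.SpecialLinearGroup.coe_one]
    have e : (b : Matrix (Fin n) (Fin n) F) - 1 = (c : Matrix (Fin n) (Fin n) F)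
        * ((a : Matrix (Fin n) (Fin n) F) - 1)
        * ((c⁻¹ : Matrix.SpecialLinearGroup (Fin n) F) : Matrix (Fin n) (Fin n) F) := by
      rw [← hc, Matrix.SpecialLinearGroup.coe_mul, Matrix.SpecialLinearGroup.coe_mul, Matrix.mul_sub,
        Matrix.sub_mul, Matrix.mul_one, hinv]
    rw [e, Matrix.rank_mul_eq_left_of_isUnit_det _ _
        (by rw [Matrix.SpecialLinearGroup.det_coe]; exact isUnit_one),
      Matrix.rank_mul_eq_right_of_isUnit_det _ _
        (by rw [Matrix.SpecialLinearGroup.det_coe]; exact isUnit_one)]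
  · intro hr
    have hsqz : ∀ g : Matrix.SpecialLinearGroup (Fin n) F, orderOf g = 2 →
        ((g : Matrix (Fin n) (Fin n) F) - 1) * ((g : Matrix (Fin n) (Fin n) F) - 1) = 0 ∧
        (g : Matrix (Fin n) (Fin n) F) - 1 ≠ 0 := by
      intro g hg
      have hg2 : (g : Matrix (Fin n) (Fin n) F) * (g : Matrix (Fin n) (Fin n) F) = 1 := by
        have h1 : g ^ 2 = 1 := by rw [← hg]; exact pow_orderOf_eq_one g
        rw [pow_two] at h1
        rw [← Matrix.SpecialLinearGroup.coe_mul, h1, Matrix.SpecialLinearGroup.coe_one]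
      constructor
      · have e : ((g : Matrix (Fin n) (Fin n) F) - 1) * ((g : Matrix (Fin n) (Fin n) F) - 1)
            = (g : Matrix (Fin n) (Fin n) F) * (g : Matrix (Fin n) (Fin n) F)
              - (2 : F) • (g : Matrix (Fin n) (Fin n) F) + 1 := by
          rw [Matrix.sub_mul, Matrix.mul_sub, Matrix.mul_sub, Matrix.mul_one, Matrix.one_mul,
            Matrix.mul_one, two_smul]
          abel
        rw [e, hg2, h2, zero_smul, sub_zero]
        have e2 : (1 : Matrix (Fin n) (Fin n) F) + 1 = (2 : F) • (1 : Matrix (Fin n) (Fin n) F) := by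
          rw [two_smul]
        rw [e2, h2, zero_smul]
      · intro h0
        have h1 : g = 1 := Subtype.ext (sub_eq_zero.mp h0)
        rw [h1, orderOf_one] at hg
        omega
    obtain ⟨hA, hA0⟩ := hsqz a ha
    obtain ⟨hB, hB0⟩ := hsqz b hb
    have hpos : ((a : Matrix (Fin n) (Fin n) F) - 1).rank ≠ 0 :=
      Lib_helper8_Transv.rank_ne_zero hA0
    obtain ⟨P, hP1, hP2⟩ := Lib_helper8_SqZero.exists_conj_of_sq_zero _ _ hA hB hr hpos
      (fun x => FiniteField.isSquare_of_char_two (ringChar.eq F 2) x)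
    rw [isConj_iff]
    obtain ⟨c, hc⟩ : ∃ c : Matrix.SpecialLinearGroup (Fin n) F,
        (c : Matrix (Fin n) (Fin n) F) = P := ⟨⟨P, hP1⟩, rfl⟩
    refine ⟨c, ?_⟩
    rw [mul_inv_eq_iff_eq_mul]
    apply Subtype.ext
    rw [Matrix.SpecialLinearGroup.coe_mul, Matrix.SpecialLinearGroup.coe_mul, hc]
    rw [Matrix.mul_sub, Matrix.sub_mul, Matrix.mul_one, Matrix.one_mul] at hP2
    exact sub_left_injective hP2

end Cfsg.Agent.S2162
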