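import Cfsg.Statements.S2163
-- import your own Cfsg.Agent.* helpers here

set_option autoImplicit false
open Cfsg

namespace Cfsg.Agent.S2163

/-- Over a finite field of characteristic two and for n ≥ 3: for every ℓ with 1 ≤ ℓ and 2ℓ ≤ n, the matrix j_ℓ that is the identity plus the entries 1 in positions (n − ℓ + i, i) for i < ℓ (an identity block of size ℓ in the lower left corner) lies in SL_n(F), has order 2, and j_ℓ − 1 has rank ℓ. Together with the conjugacy criterion by rank, these matrices represent the conjugacy classes of involutions of SL_n(F). -/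
theorem result {F : Type*} [Field F] [Fintype F] [CharP F 2] {n : ℕ} (hn : 3 ≤ n) (ℓ : ℕ) (h1 : 1 ≤ ℓ) (h2 : 2 * ℓ ≤ n) :
    ∃ a : Matrix.SpecialLinearGroup (Fin n) F, (a : Matrix (Fin n) (Fin n) F) = 1 + Matrix.of (fun i j : Fin n => if j.val < ℓ ∧ i.val = j.val + (n - ℓ) then (1 : F) else 0) ∧ orderOf a = 2 ∧ ((a : Matrix (Fin n) (Fin n) F) - 1).rank = ℓ := by
  classical
  have h2F : (2 : F) = 0 := CharP.cast_eq_zero F 2
  set N : Matrix (Fin n) (Fin n) F :=
    Matrix.of (fun i j : Fin n => if j.val < ℓ ∧ i.val = j.val + (n - ℓ) then (1 : F) else 0) with hN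
  have hNN : N * N = 0 := by
    ext i k
    rw [Matrix.mul_apply]
    apply Finset.sum_eq_zero
    intro j _
    simp only [hN, Matrix.of_apply]
    by_cases hjk : k.val < ℓ ∧ j.val = k.val + (n - ℓ)
    · have : ¬ (j.val < ℓ ∧ i.val = j.val + (n - ℓ)) := by
        intro h
        omega
      rw [if_neg this, zero_mul]
    · rw [if_neg hjk, mul_zero]
  have hsq : (1 + N) * (1 + N) = 1 := by
    have e : (1 + N) * (1 + N) = 1 + (2 : F) • N + N * N := by
      simp only [Matrix.add_mul, Matrix.mul_add, Matrix.one_mul, Matrix.mul_one, two_smul]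
      abel
    rw [e, hNN, h2F, zero_smul, add_zero, add_zero]
  have hdet : (1 + N).det = 1 := by
    have h1 : (1 + N).det * (1 + N).det = 1 := by
      rw [← Matrix.det_mul, hsq, Matrix.det_one]
    have h3 : ((1 + N).det - 1) * ((1 + N).det - 1) = 0 := by
      have e : ((1 + N).det - 1) * ((1 + N).det - 1)
          = (1 + N).det * (1 + N).det - 2 * (1 + N).det + 1 := by ring
      rw [e, h1, h2F]
      ring_nf
      exact_mod_cast h2F
    exact sub_eq_zero.mp (mul_self_eq_zero.mp h3)
  obtain ⟨a, ha⟩ : ∃ a : Matrix.SpecialLinearGroup (Fin n) F,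
      (a : Matrix (Fin n) (Fin n) F) = 1 + N := ⟨⟨1 + N, hdet⟩, rfl⟩
  have hN0 : N ≠ 0 := by
    intro h0
    have := congrFun (congrFun h0 ⟨n - ℓ, by omega⟩) ⟨0, by omega⟩
    simp only [hN, Matrix.of_apply, Matrix.zero_apply] at this
    rw [if_pos ⟨by omega, by simp⟩] at this
    exact one_ne_zero this
  have hAN : (a : Matrix (Fin n) (Fin n) F) - 1 = N := by rw [ha]; abel
  refine ⟨a, ha, ?_, ?_⟩
  · have : Fact (Nat.Prime 2) := ⟨Nat.prime_two⟩
    apply orderOf_eq_prime
    · apply Subtype.ext
      rw [Matrix.SpecialLinearGroup.coe_pow, pow_two, ha, hsq, Matrix.SpecialLinearGroup.coe_one]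
    · intro h1
      apply hN0
      rw [← hAN, h1, Matrix.SpecialLinearGroup.coe_one, sub_self]
  · rw [hAN]
    let A : Matrix (Fin n) (Fin ℓ) F :=
      Matrix.of (fun i j => if i.val = j.val + (n - ℓ) then (1 : F) else 0)
    let B : Matrix (Fin ℓ) (Fin n) F :=
      Matrix.of (fun j k => if k.val = j.val then (1 : F) else 0)
    have hAB : N = A * B := by
      ext i k
      rw [Matrix.mul_apply]
      simp only [hN, A, B, Matrix.of_apply]
      by_cases hk : k.val < ℓ
      · rw [Finset.sum_eq_single (⟨k.val, hk⟩ : Fin ℓ)]
        · simp [hk]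
        · intro j _ hj
          have : ¬ k.val = j.val := by
            intro h
            apply hj
            exact Fin.ext h.symm
          rw [if_neg this, mul_zero]
        · intro h
          exact absurd (Finset.mem_univ _) h
      · rw [if_neg (fun h => hk h.1)]
        symm
        apply Finset.sum_eq_zero
        intro j _
        have : ¬ k.val = j.val := by
          intro h
          have := j.2
          omega
        rw [if_neg this, mul_zero]
    have hAA : A.transpose * A = 1 := by
      ext j j'
      rw [Matrix.mul_apply]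
      simp only [A, Matrix.transpose_apply, Matrix.of_apply, Matrix.one_apply]
      rw [Finset.sum_eq_single (⟨j.val + (n - ℓ), by have := j.2; omega⟩ : Fin n)]
      · by_cases hjj : j = j'
        · subst hjj; simp
        · have : ¬ j.val = j'.val := by
            intro h
            apply hjj
            exact Fin.ext h
          simp [hjj, this]
      · intro i _ hi
        have : ¬ i.val = j.val + (n - ℓ) := by
          intro h
          apply hi
          exact Fin.ext h
        rw [if_neg this, zero_mul]
      · intro h
        exact absurd (Finset.mem_univ _) h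
    have hBB : B * B.transpose = 1 := by
      ext j j'
      rw [Matrix.mul_apply]
      simp only [B, Matrix.transpose_apply, Matrix.of_apply, Matrix.one_apply]
      rw [Finset.sum_eq_single (⟨j.val, by have := j.2; omega⟩ : Fin n)]
      · by_cases hjj : j = j'
        · subst hjj; simp
        · have : ¬ j.val = j'.val := by
            intro h
            apply hjj
            exact Fin.ext h
          simp [hjj, this]
      · intro k _ hk
        have : ¬ k.val = j.val := by
          intro h
          apply hk
          exact Fin.ext h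
        rw [if_neg this, zero_mul]
      · intro h
        exact absurd (Finset.mem_univ _) h
    apply le_antisymm
    · rw [hAB]
      exact (Matrix.rank_mul_le_left A B).trans (Matrix.rank_le_width A)
    · have h1 : (1 : Matrix (Fin ℓ) (Fin ℓ) F).rank = ℓ := by
        rw [Matrix.rank_one, Fintype.card_fin]
      have h3 : A.transpose * N * B.transpose = 1 := by
        rw [hAB, ← Matrix.mul_assoc, hAA, Matrix.one_mul, hBB]
      calc ℓ = (A.transpose * N * B.transpose).rank := by rw [h3, h1]
        _ ≤ (A.transpose * N).rank := Matrix.rank_mul_le_left _ _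
        _ ≤ N.rank := Matrix.rank_mul_le_right _ _

end Cfsg.Agent.S2163
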