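import Cfsg.Statements.S2165
-- import your own Cfsg.Agent.* helpers here

set_option autoImplicit false
open Cfsg

namespace Cfsg.Agent.S2165

section Aux

def sig (n ℓ : ℕ) (h2 : 2 * ℓ ≤ n) (i : Fin n) : Fin n :=
  if h : i.val < ℓ then ⟨i.val + (n - ℓ), by omega⟩
  else if h' : n - ℓ ≤ i.val then ⟨i.val - (n - ℓ), by have := i.2; omega⟩ else i

theorem sig_val (n ℓ : ℕ) (h2 : 2 * ℓ ≤ n) (i : Fin n) :
    (sig n ℓ h2 i).val = if i.val < ℓ then i.val + (n - ℓ)
      else if n - ℓ ≤ i.val then i.val - (n - ℓ) else i.val := by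
  unfold sig
  split_ifs <;> rfl

theorem sig_invol (n ℓ : ℕ) (h2 : 2 * ℓ ≤ n) : Function.Involutive (sig n ℓ h2) := by
  intro i
  apply Fin.ext
  rw [sig_val, sig_val]
  have := i.2
  split_ifs <;> omega

def sigP (n ℓ : ℕ) (h2 : 2 * ℓ ≤ n) : Equiv.Perm (Fin n) := (sig_invol n ℓ h2).toPerm

theorem sigP_apply (n ℓ : ℕ) (h2 : 2 * ℓ ≤ n) (i : Fin n) : sigP n ℓ h2 i = sig n ℓ h2 i := rfl

theorem M_eq {F : Type*} [Field F] (n ℓ : ℕ) (h2 : 2 * ℓ ≤ n) :
    (sigP n ℓ h2).permMatrix F = Matrix.of (fun i j : Fin n => if (j.val < ℓ ∧ i.val = j.val + (n - ℓ)) ∨ (i.val < ℓ ∧ j.val = i.val + (n - ℓ)) ∨ (i = j ∧ ℓ ≤ i.val ∧ i.val < n - ℓ) then (1 : F) else 0) := by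
  ext i j
  show PEquiv.toMatrix (Equiv.toPEquiv (sigP n ℓ h2)) i j = _
  rw [Matrix.of_apply, PEquiv.toMatrix_apply, Equiv.toPEquiv_apply]
  have hiff : ((j.val < ℓ ∧ i.val = j.val + (n - ℓ)) ∨ (i.val < ℓ ∧ j.val = i.val + (n - ℓ)) ∨ (i = j ∧ ℓ ≤ i.val ∧ i.val < n - ℓ)) ↔ j ∈ some (sigP n ℓ h2 i) := by
    rw [Option.mem_some_iff, sigP_apply, Fin.ext_iff, Fin.ext_iff, sig_val]
    have := i.2
    have := j.2
    split_ifs <;> omega
  by_cases hc : (j.val < ℓ ∧ i.val = j.val + (n - ℓ)) ∨ (i.val < ℓ ∧ j.val = i.val + (n - ℓ)) ∨ (i = j ∧ ℓ ≤ i.val ∧ i.val < n - ℓ)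
  · rw [if_pos hc, if_pos (hiff.1 hc)]
  · rw [if_neg hc, if_neg (fun h => hc (hiff.2 h))]

theorem rank_sub_one {F : Type*} [Field F] (n ℓ : ℕ) (h2 : 2 * ℓ ≤ n) :
    ((sigP n ℓ h2).permMatrix F - 1).rank = ℓ := by
  classical
  let T : (Fin n → F) →ₗ[F] (Fin ℓ → F) :=
    { toFun := fun v i => v ⟨i.val + (n - ℓ), by have := i.2; omega⟩ -
        v ⟨i.val, by have := i.2; omega⟩
      map_add' := fun v w => by
        ext i
        simp only [Pi.add_apply]
        ring
      map_smul' := fun c v => by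
        ext i
        simp only [Pi.smul_apply, smul_eq_mul, RingHom.id_apply]
        ring }
  let S : (Fin ℓ → F) →ₗ[F] (Fin n → F) :=
    { toFun := fun w j => if h : j.val < ℓ then w ⟨j.val, h⟩
        else if h' : n - ℓ ≤ j.val then - w ⟨j.val - (n - ℓ), by have := j.2; omega⟩ else 0
      map_add' := fun v w => by
        ext j
        simp only [Pi.add_apply]
        split_ifs
        · rfl
        · ring
        · ring
      map_smul' := fun c v => by
        ext j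
        simp only [Pi.smul_apply, smul_eq_mul, RingHom.id_apply]
        split_ifs
        · rfl
        · ring
        · ring }
  have hT : ∀ v i, T v i = v ⟨i.val + (n - ℓ), by have := i.2; omega⟩ -
        v ⟨i.val, by have := i.2; omega⟩ := fun v i => rfl
  have hS : ∀ w j, S w j = if h : j.val < ℓ then w ⟨j.val, h⟩
        else if h' : n - ℓ ≤ j.val then - w ⟨j.val - (n - ℓ), by have := j.2; omega⟩ else 0 :=
    fun w j => rfl
  have hcomp : ((sigP n ℓ h2).permMatrix F - 1).mulVecLin = S ∘ₗ T := by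
    apply LinearMap.ext
    intro v
    ext j
    rw [Matrix.mulVecLin_apply, Matrix.sub_mulVec, Matrix.one_mulVec, Matrix.permMatrix_mulVec]
    have hv : ∀ a b : Fin n, a.val = b.val → v a = v b := fun a b h => by rw [Fin.ext h]
    show v (sig n ℓ h2 j) - v j = S (T v) j
    rw [hS]
    have hj := j.2
    by_cases hc1 : j.val < ℓ
    · rw [dif_pos hc1, hT]
      have e1 : v (sig n ℓ h2 j) = v ⟨j.val + (n - ℓ), by omega⟩ :=
        hv _ _ (by rw [sig_val, if_pos hc1])
      rw [e1]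
    · rw [dif_neg hc1]
      by_cases hc2 : n - ℓ ≤ j.val
      · rw [dif_pos hc2, hT]
        have e1 : v (sig n ℓ h2 j) = v ⟨j.val - (n - ℓ), by omega⟩ :=
          hv _ _ (by rw [sig_val, if_neg hc1, if_pos hc2])
        have e2 : v ⟨j.val - (n - ℓ) + (n - ℓ), by omega⟩ = v j :=
          hv _ _ (by show j.val - (n - ℓ) + (n - ℓ) = j.val; omega)
        rw [e1]
        show _ = -(v ⟨j.val - (n - ℓ) + (n - ℓ), _⟩ - v ⟨j.val - (n - ℓ), _⟩)
        rw [e2]
        ring
      · rw [dif_neg hc2]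
        have e1 : v (sig n ℓ h2 j) = v j :=
          hv _ _ (by rw [sig_val, if_neg hc1, if_neg hc2])
        rw [e1, sub_self]
  have hTsurj : Function.Surjective T := by
    intro w
    refine ⟨fun j => if h' : n - ℓ ≤ j.val then
      w ⟨j.val - (n - ℓ), by have := j.2; omega⟩ else 0, ?_⟩
    ext i
    rw [hT]
    have hi := i.2
    rw [dif_pos (show n - ℓ ≤ i.val + (n - ℓ) by omega),
      dif_neg (show ¬ (n - ℓ ≤ i.val) by omega), sub_zero]
    congr 1
    apply Fin.ext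
    show i.val + (n - ℓ) - (n - ℓ) = i.val
    omega
  have hSinj : Function.Injective S := by
    intro w w' h
    ext i
    have h' := congrFun h ⟨i.val, by have := i.2; omega⟩
    rw [hS, hS, dif_pos i.2, dif_pos i.2] at h'
    exact h'
  show Module.finrank F (LinearMap.range ((sigP n ℓ h2).permMatrix F - 1).mulVecLin) = ℓ
  rw [hcomp, LinearMap.range_comp_of_range_eq_top _ (LinearMap.range_eq_top.2 hTsurj),
    LinearMap.finrank_range_of_inj hSinj, Module.finrank_fin_fun]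

theorem main {F : Type*} [Field F] [Fintype F] [CharP F 2] {n q : ℕ} (ℓ : ℕ) (h1 : 1 ≤ ℓ)
    (h2 : 2 * ℓ ≤ n) :
    ∃ a : ↥(Cfsg.SU n F q), (((a : Matrix.SpecialLinearGroup (Fin n) F) : Matrix (Fin n) (Fin n) F) = Matrix.of (fun i j : Fin n => if (j.val < ℓ ∧ i.val = j.val + (n - ℓ)) ∨ (i.val < ℓ ∧ j.val = i.val + (n - ℓ)) ∨ (i = j ∧ ℓ ≤ i.val ∧ i.val < n - ℓ) then (1 : F) else 0)) ∧ orderOf a = 2 ∧ ((((a : Matrix.SpecialLinearGroup (Fin n) F) : Matrix (Fin n) (Fin n) F)) - 1).rank = ℓ := by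
  classical
  have hdet : ((sigP n ℓ h2).permMatrix F).det = 1 := by
    rw [Matrix.det_permutation]
    rcases Int.units_eq_one_or (Equiv.Perm.sign (sigP n ℓ h2)) with h | h
    · rw [h]
      simp
    · rw [h]
      simp only [Units.val_neg, Units.val_one, Int.cast_neg, Int.cast_one]
      exact CharTwo.neg_eq 1
  have hpres : ∀ u v, Cfsg.hermForm n F q (((sigP n ℓ h2).permMatrix F).mulVec u)
      (((sigP n ℓ h2).permMatrix F).mulVec v) = Cfsg.hermForm n F q u v := by
    intro u v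
    rw [Matrix.permMatrix_mulVec, Matrix.permMatrix_mulVec]
    unfold Cfsg.hermForm
    exact Equiv.sum_comp (sigP n ℓ h2) (fun i => u i * v i ^ q)
  have hPP : (sigP n ℓ h2).permMatrix F * (sigP n ℓ h2).permMatrix F = 1 := by
    rw [← Matrix.permMatrix_mul]
    have : sigP n ℓ h2 * sigP n ℓ h2 = 1 := by
      apply Equiv.ext
      intro i
      exact sig_invol n ℓ h2 i
    rw [this, Matrix.permMatrix_one]
  let a : ↥(Cfsg.SU n F q) := ⟨⟨(sigP n ℓ h2).permMatrix F, hdet⟩, hpres⟩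
  have hcoe : ((a : Matrix.SpecialLinearGroup (Fin n) F) : Matrix (Fin n) (Fin n) F) =
      (sigP n ℓ h2).permMatrix F := rfl
  refine ⟨a, ?_, ?_, ?_⟩
  · rw [hcoe, M_eq]
  · apply orderOf_eq_prime
    · rw [pow_two]
      exact Subtype.ext (Subtype.ext hPP)
    · intro h
      have hP1 : (sigP n ℓ h2).permMatrix F = 1 := by
        rw [← hcoe, h]
        rfl
      have hn0 : 0 < n := by omega
      have := congrFun (congrArg (fun M : Matrix (Fin n) (Fin n) F =>
        M.mulVec (fun j : Fin n => if j = ⟨0, hn0⟩ then (1 : F) else 0)) hP1) ⟨0, hn0⟩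
      simp only [Matrix.permMatrix_mulVec, Matrix.one_mulVec, Function.comp_apply] at this
      have hne : sigP n ℓ h2 ⟨0, hn0⟩ ≠ ⟨0, hn0⟩ := by
        rw [sigP_apply, Ne, Fin.ext_iff, sig_val, if_pos (show (0:ℕ) < ℓ by omega)]
        show ¬ (0 + (n - ℓ) = 0)
        omega
      rw [if_neg hne, if_pos trivial] at this
      exact zero_ne_one this
  · rw [hcoe]
    exact rank_sub_one n ℓ h2

end Aux

/-- In SU_n(q), q even, n ≥ 3 (matrices of determinant 1 over the field with q² elements preserving Σ u_i v_i^q): for every ℓ with 1 ≤ ℓ and 2ℓ ≤ n, the permutation matrix of the involution of {0, …, n−1} exchanging i and n − ℓ + i for each i < ℓ lies in SU_n(q), has order 2, and differs from the identity by a matrix of rank ℓ. So every rank between 1 and n/2 occurs for involutions of SU_n(q). -/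
theorem result {F : Type*} [Field F] [Fintype F] [CharP F 2] {n q : ℕ} (hF : Fintype.card F = q ^ 2) (hn : 3 ≤ n) (ℓ : ℕ) (h1 : 1 ≤ ℓ) (h2 : 2 * ℓ ≤ n) :
    ∃ a : ↥(Cfsg.SU n F q), (((a : Matrix.SpecialLinearGroup (Fin n) F) : Matrix (Fin n) (Fin n) F) = Matrix.of (fun i j : Fin n => if (j.val < ℓ ∧ i.val = j.val + (n - ℓ)) ∨ (i.val < ℓ ∧ j.val = i.val + (n - ℓ)) ∨ (i = j ∧ ℓ ≤ i.val ∧ i.val < n - ℓ) then (1 : F) else 0)) ∧ orderOf a = 2 ∧ ((((a : Matrix.SpecialLinearGroup (Fin n) F) : Matrix (Fin n) (Fin n) F)) - 1).rank = ℓ := by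
  exact main ℓ h1 h2

end Cfsg.Agent.S2165
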