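import Cfsg.Statements.S2167
import Cfsg.Agent.Lib_helper8_AltRank
import Cfsg.Agent.Lib_helper4_Sp

set_option autoImplicit false
open Cfsg

namespace Cfsg.Agent.S2167

section Aux
open Cfsg.Agent.Lib_helper4_Sp Matrix

theorem main {F : Type*} [Field F] [Fintype F] [CharP F 2] {m : ℕ}
    (A : Matrix (Fin m ⊕ Fin m) (Fin m ⊕ Fin m) F) (hA : A ∈ Matrix.symplecticGroup (Fin m) F)
    (hA2 : A * A = 1) :
    (Nat.card {v : Fin m ⊕ Fin m → F // Cfsg.sympForm m F v (A.mulVec v) = 0} = Fintype.card F ^ (2 * m) ∨ Nat.card {v : Fin m ⊕ Fin m → F // Cfsg.sympForm m F v (A.mulVec v) = 0} * Fintype.card F = Fintype.card F ^ (2 * m)) ∧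
    ((∀ v : Fin m ⊕ Fin m → F, Cfsg.sympForm m F v (A.mulVec v) = 0) → Even (A - 1).rank) := by
  classical
  have h2 : (2 : F) = 0 := CharTwo.two_eq_zero
  have hAA : ∀ u, A.mulVec (A.mulVec u) = u := fun u => by
    rw [Matrix.mulVec_mulVec, hA2, Matrix.one_mulVec]
  have hcross : ∀ u v, Cfsg.sympForm m F v (A.mulVec u) = Cfsg.sympForm m F u (A.mulVec v) := by
    intro u v
    have e1 := form_mulVec_of_mem hA v (A.mulVec u)
    rw [hAA] at e1
    rw [← e1, form_swap, CharTwo.neg_eq]
  let φ : (Fin m ⊕ Fin m → F) →+ F :=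
    { toFun := fun v => Cfsg.sympForm m F v (A.mulVec v)
      map_zero' := by rw [form_zero_left]
      map_add' := fun u v => by
        rw [Matrix.mulVec_add, form_add_left, form_add_right, form_add_right, hcross u v]
        linear_combination Cfsg.sympForm m F u (A.mulVec v) * h2 }
  have hφ : ∀ v, φ v = Cfsg.sympForm m F v (A.mulVec v) := fun v => rfl
  have hcardV : Nat.card (Fin m ⊕ Fin m → F) = Fintype.card F ^ (2 * m) := by
    rw [Nat.card_eq_fintype_card, Fintype.card_fun, Fintype.card_sum, Fintype.card_fin, two_mul]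
  have hcardS : Nat.card {v : Fin m ⊕ Fin m → F // Cfsg.sympForm m F v (A.mulVec v) = 0} =
      Nat.card φ.ker :=
    Nat.card_congr (Equiv.subtypeEquivRight (fun v => (AddMonoidHom.mem_ker (f := φ)).symm))
  have hidx := AddSubgroup.card_mul_index φ.ker
  rw [AddSubgroup.index_ker, hcardV] at hidx
  constructor
  · rw [hcardS]
    by_cases h0 : ∀ v, φ v = 0
    · left
      have hr : Nat.card φ.range = 1 := by
        have : φ.range = ⊥ := by
          rw [eq_bot_iff]
          rintro _ ⟨v, rfl⟩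
          rw [h0 v]
          exact AddSubgroup.zero_mem _
        rw [this]
        exact AddSubgroup.card_bot
      rw [hr, mul_one] at hidx
      exact hidx
    · right
      push Not at h0
      obtain ⟨v0, hv0⟩ := h0
      have hr : Nat.card φ.range = Fintype.card F := by
        have : φ.range = ⊤ := by
          rw [eq_top_iff]
          intro d _
          obtain ⟨e, he⟩ := FiniteField.isSquare_of_char_two (ringChar.eq F 2) (d / φ v0)
          refine ⟨e • v0, ?_⟩
          rw [hφ, Matrix.mulVec_smul, form_smul_left, form_smul_right, ← hφ, ← mul_assoc, ← he]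
          field_simp
        rw [this, Nat.card_congr (AddSubgroup.topEquiv (G := F)).toEquiv, Nat.card_eq_fintype_card]
      rw [hr] at hidx
      exact hidx
  · intro hall
    have hJ : IsUnit (Matrix.J (Fin m) F).det := Matrix.isUnit_det_J (Fin m) F
    rw [← Matrix.rank_mul_eq_right_of_isUnit_det (Matrix.J (Fin m) F) (A - 1) hJ]
    apply Cfsg.Agent.Lib_helper8_AltRank.even_rank
    intro v
    rw [← Matrix.mulVec_mulVec, Matrix.sub_mulVec, Matrix.one_mulVec, Matrix.mulVec_sub,
      dotProduct_sub]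
    have e1 : v ⬝ᵥ (Matrix.J (Fin m) F).mulVec (A.mulVec v) = 0 := hall v
    have e2 : v ⬝ᵥ (Matrix.J (Fin m) F).mulVec v = 0 := form_self v
    rw [e1, e2, sub_zero]

end Aux

/-- For an involution t of the symplectic group Sp_{2m}(F), m ≥ 2, F a finite field of characteristic two (matrices A with A J Aᵀ = J acting on column vectors, alternating form f(u, v) = u ⬝ (J v)): the set V(t) of vectors v with f(v, t v) = 0 has either q^{2m} or q^{2m−1} elements, q the order of F (it is a subspace of codimension at most 1), and if it is the whole space then t − 1 has even rank. -/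
theorem result {F : Type*} [Field F] [Fintype F] [CharP F 2] {m : ℕ} (hm : 2 ≤ m) (a : ↥(Matrix.symplecticGroup (Fin m) F)) (ha : orderOf a = 2) :
    (Nat.card {v : Fin m ⊕ Fin m → F // Cfsg.sympForm m F v (Matrix.mulVec ((a : ↥(Matrix.symplecticGroup (Fin m) F)) : Matrix (Fin m ⊕ Fin m) (Fin m ⊕ Fin m) F) v) = 0} = Fintype.card F ^ (2 * m) ∨ Nat.card {v : Fin m ⊕ Fin m → F // Cfsg.sympForm m F v (Matrix.mulVec ((a : ↥(Matrix.symplecticGroup (Fin m) F)) : Matrix (Fin m ⊕ Fin m) (Fin m ⊕ Fin m) F) v) = 0} * Fintype.card F = Fintype.card F ^ (2 * m)) ∧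
    ((∀ v : Fin m ⊕ Fin m → F, Cfsg.sympForm m F v (Matrix.mulVec ((a : ↥(Matrix.symplecticGroup (Fin m) F)) : Matrix (Fin m ⊕ Fin m) (Fin m ⊕ Fin m) F) v) = 0) → Even (((a : ↥(Matrix.symplecticGroup (Fin m) F)) : Matrix (Fin m ⊕ Fin m) (Fin m ⊕ Fin m) F) - 1).rank) := by
  have hA2 : (a : Matrix (Fin m ⊕ Fin m) (Fin m ⊕ Fin m) F) * (a : Matrix (Fin m ⊕ Fin m) (Fin m ⊕ Fin m) F) = 1 := by
    have h := pow_orderOf_eq_one a
    rw [ha, pow_two] at h
    have h' := congrArg (fun x : ↥(Matrix.symplecticGroup (Fin m) F) => (x : Matrix (Fin m ⊕ Fin m) (Fin m ⊕ Fin m) F)) h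
    exact h'
  exact main (a : Matrix (Fin m ⊕ Fin m) (Fin m ⊕ Fin m) F) a.2 hA2

end Cfsg.Agent.S2167
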