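import Cfsg.Statements.S2231
import Cfsg.Agent.Lib_helper4_SL2Syl

set_option autoImplicit false
open Cfsg

namespace Cfsg.Agent.S2231

section Aux
open Matrix

theorem sect_comm {G H : Type*} [Group G] [Finite G] [Group H] (p : ℕ) [Fact p.Prime]
    (hab : ∀ P : Sylow p G, ∀ a ∈ (P : Subgroup G), ∀ b ∈ (P : Subgroup G), a * b = b * a)
    (K : Subgroup G) (f : K →* H) (hf : Function.Surjective f)
    (Q : Subgroup H) (hQ : IsPGroup p Q) (a b : H) (ha : a ∈ Q) (hb : b ∈ Q) : a * b = b * a := by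
  classical
  let f₀ : Q.comap f →* Q := f.subgroupComap Q
  have hf₀ : Function.Surjective f₀ := f.subgroupComap_surjective_of_surjective Q hf
  obtain ⟨S⟩ : Nonempty (Sylow p (Q.comap f)) := inferInstance
  have hS : ((S.mapSurjective hf₀ : Sylow p Q) : Subgroup Q) = ⊤ :=
    ((S.mapSurjective hf₀).is_maximal' (hQ.to_subgroup ⊤) le_top).symm
  rw [Sylow.coe_mapSurjective] at hS
  have ha' : (⟨a, ha⟩ : Q) ∈ (S : Subgroup (Q.comap f)).map f₀ := by rw [hS]; trivial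
  have hb' : (⟨b, hb⟩ : Q) ∈ (S : Subgroup (Q.comap f)).map f₀ := by rw [hS]; trivial
  obtain ⟨s, hs, hsa⟩ := ha'
  obtain ⟨t, ht, htb⟩ := hb'
  have hSp : IsPGroup p (((S : Subgroup (Q.comap f)).map (Q.comap f).subtype).map K.subtype) :=
    (S.isPGroup'.map _).map _
  obtain ⟨P, hP⟩ := hSp.exists_le_sylow
  have hs' : ((s : K) : G) ∈ (P : Subgroup G) := hP ⟨(s : K), ⟨s, hs, rfl⟩, rfl⟩
  have ht' : ((t : K) : G) ∈ (P : Subgroup G) := hP ⟨(t : K), ⟨t, ht, rfl⟩, rfl⟩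
  have hc := hab P _ hs' _ ht'
  have hc' : s * t = t * s := by
    apply Subtype.ext; apply Subtype.ext
    simpa using hc
  have h1 : f₀ s * f₀ t = f₀ t * f₀ s := by rw [← map_mul, ← map_mul, hc']
  rw [hsa, htb] at h1
  simpa using congrArg Subtype.val h1

theorem sl2_sylow_comm {p : ℕ} [Fact p.Prime] {K : Type*} [Field K] [Fintype K] [CharP K p]
    (P : Sylow p (SpecialLinearGroup (Fin 2) K)) (a : SpecialLinearGroup (Fin 2) K)
    (ha : a ∈ (P : Subgroup (SpecialLinearGroup (Fin 2) K))) (b : SpecialLinearGroup (Fin 2) K)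
    (hb : b ∈ (P : Subgroup (SpecialLinearGroup (Fin 2) K))) : a * b = b * a := by
  obtain ⟨g, hg⟩ := Cfsg.Agent.Lib_helper4_SL2Syl.exists_conj p P
  rw [hg] at ha hb
  obtain ⟨u, ⟨s, rfl⟩, rfl⟩ := ha
  obtain ⟨v, ⟨t, rfl⟩, rfl⟩ := hb
  rw [← map_mul, ← map_mul, Cfsg.Agent.Lib_helper4_SL2Syl.um_add,
    Cfsg.Agent.Lib_helper4_SL2Syl.um_add, add_comm]

def xq (p : ℕ) : SpecialLinearGroup (Fin 3) (ZMod p) :=
  ⟨!![1, 1, 0; 0, 1, 0; 0, 0, 1], by simp [Matrix.det_fin_three]⟩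

def yq (p : ℕ) : SpecialLinearGroup (Fin 3) (ZMod p) :=
  ⟨!![1, 0, 0; 0, 1, 1; 0, 0, 1], by simp [Matrix.det_fin_three]⟩

def TS (p : ℕ) : Set (SpecialLinearGroup (Fin 3) (ZMod p)) :=
  {M | (M : Matrix (Fin 3) (Fin 3) (ZMod p)) 1 0 = 0 ∧ (M : Matrix (Fin 3) (Fin 3) (ZMod p)) 2 0 = 0 ∧
    (M : Matrix (Fin 3) (Fin 3) (ZMod p)) 2 1 = 0 ∧ (M : Matrix (Fin 3) (Fin 3) (ZMod p)) 0 0 = 1 ∧
    (M : Matrix (Fin 3) (Fin 3) (ZMod p)) 1 1 = 1 ∧ (M : Matrix (Fin 3) (Fin 3) (ZMod p)) 2 2 = 1}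

def T (p : ℕ) : Subgroup (SpecialLinearGroup (Fin 3) (ZMod p)) where
  carrier := TS p
  mul_mem' := by
    rintro a b ⟨a1, a2, a3, a4, a5, a6⟩ ⟨b1, b2, b3, b4, b5, b6⟩
    refine ⟨?_, ?_, ?_, ?_, ?_, ?_⟩ <;>
      simp [Matrix.mul_apply, Fin.sum_univ_three, a1, a2, a3, a4, a5, a6,
        b1, b2, b3, b4, b5, b6]
  one_mem' := by
    refine ⟨?_, ?_, ?_, ?_, ?_, ?_⟩ <;> simp
  inv_mem' := by
    rintro a ⟨a1, a2, a3, a4, a5, a6⟩
    refine ⟨?_, ?_, ?_, ?_, ?_, ?_⟩ <;>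
      simp [Matrix.adjugate_fin_three, a1, a2, a3, a4, a5, a6]

theorem T_pow {p : ℕ} [Fact p.Prime] (hp : p ≠ 2) (M : SpecialLinearGroup (Fin 3) (ZMod p))
    (hM : M ∈ T p) : M ^ p = 1 := by
  obtain ⟨a1, a2, a3, a4, a5, a6⟩ := hM
  have hp3 : 3 ≤ p := by
    have := (Fact.out : p.Prime).two_le
    omega
  set A : Matrix (Fin 3) (Fin 3) (ZMod p) := (M : Matrix (Fin 3) (Fin 3) (ZMod p)) with hA
  set N : Matrix (Fin 3) (Fin 3) (ZMod p) := A - 1 with hN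
  have hN3 : N * N * N = 0 := by
    ext i j
    fin_cases i <;> fin_cases j <;>
      simp [hN, Matrix.mul_apply, Fin.sum_univ_three, a1, a2, a3, a4, a5, a6, Matrix.one_apply]
  have hAN : A = 1 + N := by rw [hN]; abel
  have hpow : A ^ p = 1 := by
    rw [hAN, add_pow_char_of_commute p (Commute.one_left N), one_pow]
    have : N ^ p = 0 := by
      have h3 : N ^ 3 = 0 := by rw [pow_succ, pow_two, hN3]
      obtain ⟨k, rfl⟩ : ∃ k, p = 3 + k := ⟨p - 3, by omega⟩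
      rw [pow_add, h3, zero_mul]
    rw [this, add_zero]
  apply Subtype.ext
  show (M : Matrix (Fin 3) (Fin 3) (ZMod p)) ^ p = 1
  exact hpow

theorem T_le_qd (p : ℕ) : T p ≤ Cfsg.qd p := by
  rintro M ⟨a1, a2, a3, a4, a5, a6⟩
  exact Subgroup.subset_closure ⟨a2, a3, a6⟩

theorem xq_mem (p : ℕ) : xq p ∈ T p := by
  refine ⟨?_, ?_, ?_, ?_, ?_, ?_⟩ <;> simp [xq]

theorem yq_mem (p : ℕ) : yq p ∈ T p := by
  refine ⟨?_, ?_, ?_, ?_, ?_, ?_⟩ <;> simp [yq]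

theorem xy_ne {p : ℕ} [Fact p.Prime] : xq p * yq p ≠ yq p * xq p := by
  intro h
  have h1 : ((xq p : SpecialLinearGroup (Fin 3) (ZMod p)) : Matrix (Fin 3) (Fin 3) (ZMod p)) *
      ((yq p : SpecialLinearGroup (Fin 3) (ZMod p)) : Matrix (Fin 3) (Fin 3) (ZMod p)) =
      ((yq p : SpecialLinearGroup (Fin 3) (ZMod p)) : Matrix (Fin 3) (Fin 3) (ZMod p)) *
      ((xq p : SpecialLinearGroup (Fin 3) (ZMod p)) : Matrix (Fin 3) (Fin 3) (ZMod p)) :=
    congrArg Subtype.val h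
  have h2 := congrFun (congrFun h1 0) 2
  simp [xq, yq, Matrix.mul_apply, Fin.sum_univ_three] at h2

theorem main {p : ℕ} [Fact p.Prime] (hp : p ≠ 2) {K : Type*} [Field K] [Fintype K] [CharP K p] :
    ¬ Cfsg.Involves ↥(Cfsg.qd p) (Matrix.ProjectiveSpecialLinearGroup (Fin 2) K) := by
  rintro ⟨Ks, R, hn, ⟨e⟩⟩
  let π : SpecialLinearGroup (Fin 2) K →* Matrix.ProjectiveSpecialLinearGroup (Fin 2) K :=
    QuotientGroup.mk' _
  have hπ : Function.Surjective π := QuotientGroup.mk'_surjective _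
  let π' : Ks.comap π →* Ks := π.subgroupComap Ks
  have hπ' : Function.Surjective π' := π.subgroupComap_surjective_of_surjective Ks hπ
  let f : Ks.comap π →* ↥(Cfsg.qd p) :=
    e.toMonoidHom.comp ((QuotientGroup.mk' (R.subgroupOf Ks)).comp π')
  have hf : Function.Surjective f :=
    e.surjective.comp ((QuotientGroup.mk'_surjective _).comp hπ')
  have hQ : IsPGroup p ((T p).subgroupOf (Cfsg.qd p)) := by
    rintro ⟨⟨M, hMq⟩, hM⟩
    refine ⟨1, ?_⟩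
    apply Subtype.ext; apply Subtype.ext
    simp only [pow_one, Subgroup.coe_pow, Subgroup.coe_one]
    exact T_pow hp M hM
  have h := sect_comm p (fun P a ha b hb => sl2_sylow_comm P a ha b hb) (Ks.comap π) f hf
    ((T p).subgroupOf (Cfsg.qd p)) hQ ⟨xq p, T_le_qd p (xq_mem p)⟩ ⟨yq p, T_le_qd p (yq_mem p)⟩
    (xq_mem p) (yq_mem p)
  exact xy_ne (congrArg Subtype.val h)

end Aux

/-- Let p be an odd prime and K a finite field of characteristic p. Then Qd(p) (the natural semidirect product of an elementary abelian group of order p² by SL₂(p)) is not involved in the projective special linear group PSL₂(K). -/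
theorem result {p : ℕ} [Fact p.Prime] (hp : p ≠ 2) {K : Type*} [Field K] [Fintype K] [CharP K p] : ¬ Cfsg.Involves ↥(Cfsg.qd p) (Matrix.ProjectiveSpecialLinearGroup (Fin 2) K) := by
  exact main hp

end Cfsg.Agent.S2231
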