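import Cfsg.Statements.S2268
-- import your own Cfsg.Agent.* helpers here

set_option autoImplicit false
open Cfsg

namespace Cfsg.Agent.S2268

open scoped Pointwise

theorem conj_mem_centralizer {G : Type*} [Group G] (Q : Subgroup G) {g x : G}
    (hg : g ∈ Subgroup.normalizer (Q : Set G)) (hx : x ∈ Subgroup.centralizer (Q : Set G)) :
    g * x * g⁻¹ ∈ Subgroup.centralizer (Q : Set G) := by
  rw [Subgroup.mem_centralizer_iff] at hx ⊢
  intro q hq
  have hq' : g⁻¹ * q * g ∈ (Q : Set G) := (Subgroup.mem_set_normalizer_iff''.mp hg q).mp hq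
  have h := hx _ hq'
  calc q * (g * x * g⁻¹) = g * ((g⁻¹ * q * g) * x) * g⁻¹ := by group
    _ = g * (x * (g⁻¹ * q * g)) * g⁻¹ := by rw [h]
    _ = g * x * g⁻¹ * q := by group


/-- Let G be a finite group with an abelian Sylow p-subgroup P and let Q ≤ P. Then N_G(Q) = (N_G(Q) ∩ N_G(P))·C_G(Q), so that N_G(Q)/C_G(Q) is a homomorphic image of the subgroup (N_G(Q) ∩ N_G(P))/C_G(P) of N_G(P)/C_G(P); in particular the order of N_G(Q)/C_G(Q) divides the order of N_G(P)/C_G(P). -/
theorem result {G : Type*} [Group G] [Finite G] {p : ℕ} [Fact p.Prime]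
    (P : Sylow p G) (hP : IsMulCommutative (P : Subgroup G)) (Q : Subgroup G) (hQ : Q ≤ (P : Subgroup G)) :
    Subgroup.normalizer (Q : Set G) =
      (Subgroup.normalizer (Q : Set G) ⊓ Subgroup.normalizer ((P : Subgroup G) : Set G)) ⊔ Subgroup.centralizer (Q : Set G) ∧
    ((Subgroup.centralizer (Q : Set G)).subgroupOf (Subgroup.normalizer (Q : Set G))).index ∣ ((Subgroup.centralizer ((P : Subgroup G) : Set G)).subgroupOf (Subgroup.normalizer ((P : Subgroup G) : Set G))).index := by
  classical
  set N := Subgroup.normalizer (Q : Set G) with hN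
  set C := Subgroup.centralizer (Q : Set G) with hC
  set NP := Subgroup.normalizer ((P : Subgroup G) : Set G) with hNP
  set CP := Subgroup.centralizer ((P : Subgroup G) : Set G) with hCP
  have hCN : C ≤ N := Subgroup.centralizer_le_normalizer _
  have hPC : (P : Subgroup G) ≤ C := by
    intro x hx
    rw [hC, Subgroup.mem_centralizer_iff]
    intro q hq
    have := hP.is_comm.comm ⟨q, hQ hq⟩ ⟨x, hx⟩
    exact congrArg Subtype.val this
  have part1 : N = (N ⊓ NP) ⊔ C := by
    apply le_antisymm
    · intro g hg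
      have hgPC : ((g • P : Sylow p G) : Subgroup G) ≤ C := by
        intro x hx
        rw [Sylow.coe_subgroup_smul, Subgroup.mem_smul_pointwise_iff_exists] at hx
        obtain ⟨y, hy, rfl⟩ := hx
        rw [MulAut.smul_def, MulAut.conj_apply]
        exact conj_mem_centralizer Q hg (hPC hy)
      obtain ⟨c, hc⟩ := MulAction.exists_smul_eq C ((g • P).subtype hgPC) (P.subtype hPC)
      rw [Sylow.smul_subtype] at hc
      have hc' : c • (g • P) = P := Sylow.subtype_injective hc
      have hc'' : ((c : G) * g) • P = P := by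
        rw [mul_smul]; exact hc'
      have hmem : (c : G) * g ∈ NP := Sylow.smul_eq_iff_mem_normalizer.mp hc''
      have hmemN : (c : G) * g ∈ N := N.mul_mem (hCN c.2) hg
      have : g = (c : G)⁻¹ * ((c : G) * g) := by group
      rw [this, sup_comm]
      exact Subgroup.mul_mem_sup (C.inv_mem c.2) (Subgroup.mem_inf.mpr ⟨hmemN, hmem⟩)
    · exact sup_le inf_le_left hCN
  refine ⟨part1, ?_⟩
  -- index part
  set M := N ⊓ NP with hM
  have hMN : M ≤ N := inf_le_left
  have hnorm : (C.subgroupOf N).Normal := by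
    refine ⟨fun x hx n => ?_⟩
    rw [Subgroup.mem_subgroupOf] at hx ⊢
    have := conj_mem_centralizer Q n.2 hx
    simpa using this
  have h1 : (C.subgroupOf N).index = C.relIndex M := by
    have h := Subgroup.relIndex_sup_right (K := C.subgroupOf N) (H := M.subgroupOf N)
    rw [← Subgroup.subgroupOf_sup hMN hCN, ← part1, Subgroup.subgroupOf_self,
      Subgroup.relIndex_top_right, Subgroup.relIndex_subgroupOf hMN] at h
    exact h
  have hCPC : CP ≤ C := Subgroup.centralizer_le (by
    intro x hx; exact hQ hx)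
  have hCPNP : CP ≤ NP := Subgroup.centralizer_le_normalizer _
  have hCPM : CP ≤ C ⊓ M := le_inf hCPC (le_inf (hCPC.trans hCN) hCPNP)
  have hMNP : M ≤ NP := inf_le_right
  have e1 := Subgroup.relIndex_mul_relIndex CP (C ⊓ M) M hCPM inf_le_right
  have e2 := Subgroup.relIndex_mul_relIndex CP M NP (hCPM.trans inf_le_right) hMNP
  rw [h1, ← Subgroup.inf_relIndex_right]
  change (C ⊓ M).relIndex M ∣ CP.relIndex NP
  rw [← e2, ← e1]
  exact Dvd.intro_left _ rfl |>.trans (Dvd.intro _ rfl)

end Cfsg.Agent.S2268
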