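import Cfsg.Statements.S2270
-- import your own Cfsg.Agent.* helpers here

set_option autoImplicit false
open Cfsg

namespace Cfsg.Agent.S2270

/-- Let n ≥ 3, p an odd prime, and P an abelian Sylow p-subgroup of the symmetric group S_n (with p dividing n!, so that P ≠ 1). Then N(P)/C(P) has even order. -/
theorem result (n : ℕ) (hn : 3 ≤ n) {p : ℕ} [Fact p.Prime] (hp : p ≠ 2) (hpn : p ≤ n)
    (P : Sylow p (Equiv.Perm (Fin n))) (hP : IsMulCommutative (P : Subgroup (Equiv.Perm (Fin n)))) :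
    2 ∣ ((Subgroup.centralizer ((P : Subgroup (Equiv.Perm (Fin n))) : Set (Equiv.Perm (Fin n)))).subgroupOf (Subgroup.normalizer ((P : Subgroup (Equiv.Perm (Fin n))) : Set (Equiv.Perm (Fin n))))).index := by
  classical
  haveI : IsMulCommutative (P : Subgroup (Equiv.Perm (Fin n))) := hP
  have hne : (P : Subgroup (Equiv.Perm (Fin n))) ≠ ⊥ := by
    apply Sylow.ne_bot_of_dvd_card
    rw [Nat.card_eq_fintype_card, Fintype.card_perm, Fintype.card_fin]
    exact Nat.dvd_factorial (Fact.out : p.Prime).pos hpn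
  obtain ⟨c, hc1⟩ := (Subgroup.ne_bot_iff_exists_ne_one).mp hne
  have hcP' : (c : Equiv.Perm (Fin n)) ∈ (P : Subgroup (Equiv.Perm (Fin n))) := c.2
  have hc1' : (c : Equiv.Perm (Fin n)) ≠ 1 := by
    intro h; apply hc1; ext1; exact h
  have hconj : IsConj (c : Equiv.Perm (Fin n)) (c : Equiv.Perm (Fin n))⁻¹ := by
    rw [Equiv.Perm.isConj_iff_cycleType_eq, Equiv.Perm.cycleType_inv]
  obtain ⟨g, hg⟩ := isConj_iff.mp hconj
  obtain ⟨t, ht, hteq⟩ := Sylow.conj_eq_normalizer_conj_of_mem P (c : Equiv.Perm (Fin n)) g⁻¹ hcP'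
    (by rw [inv_inv, hg]; exact inv_mem hcP')
  have ht' : t⁻¹ * (c : Equiv.Perm (Fin n)) * t = (c : Equiv.Perm (Fin n))⁻¹ := by
    rw [← hteq, inv_inv, hg]
  by_contra hodd
  have hodd' : Odd ((Subgroup.centralizer ((P : Subgroup (Equiv.Perm (Fin n))) : Set (Equiv.Perm (Fin n)))).subgroupOf (Subgroup.normalizer ((P : Subgroup (Equiv.Perm (Fin n))) : Set (Equiv.Perm (Fin n))))).index := by
    rw [← Nat.not_even_iff_odd, even_iff_two_dvd]; exact hodd
  have hpow := Subgroup.pow_index_mem ((Subgroup.centralizer ((P : Subgroup (Equiv.Perm (Fin n))) : Set (Equiv.Perm (Fin n)))).subgroupOf (Subgroup.normalizer ((P : Subgroup (Equiv.Perm (Fin n))) : Set (Equiv.Perm (Fin n))))) (⟨t, ht⟩ : Subgroup.normalizer ((P : Subgroup (Equiv.Perm (Fin n))) : Set (Equiv.Perm (Fin n))))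
  rw [Subgroup.mem_subgroupOf] at hpow
  simp only [Subgroup.coe_pow] at hpow
  set k := ((Subgroup.centralizer ((P : Subgroup (Equiv.Perm (Fin n))) : Set (Equiv.Perm (Fin n)))).subgroupOf (Subgroup.normalizer ((P : Subgroup (Equiv.Perm (Fin n))) : Set (Equiv.Perm (Fin n))))).index with hk
  have hcomm : (c : Equiv.Perm (Fin n)) * t ^ k = t ^ k * (c : Equiv.Perm (Fin n)) := by
    have := hpow (c : Equiv.Perm (Fin n)) hcP'
    exact this
  have hiter : ∀ j : ℕ, (t ^ j)⁻¹ * (c : Equiv.Perm (Fin n)) * t ^ j = (c : Equiv.Perm (Fin n)) ^ ((-1 : ℤ) ^ j) := by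
    intro j
    induction j with
    | zero => simp
    | succ j ih =>
      have h1 : (t ^ (j + 1))⁻¹ * (c : Equiv.Perm (Fin n)) * t ^ (j + 1)
          = t⁻¹ * ((t ^ j)⁻¹ * (c : Equiv.Perm (Fin n)) * t ^ j) * t := by
        rw [pow_succ]; group
      rw [h1, ih]
      have h2 : ∀ z : ℤ, t⁻¹ * (c : Equiv.Perm (Fin n)) ^ z * t = ((c : Equiv.Perm (Fin n))⁻¹) ^ z := by
        intro z
        rw [← ht']
        have : t⁻¹ * (c : Equiv.Perm (Fin n)) * t = t⁻¹ * (c : Equiv.Perm (Fin n)) * t⁻¹⁻¹ := by rw [inv_inv]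
        rw [this, conj_zpow, inv_inv]
      rw [h2, inv_zpow']
      congr 1; rw [pow_succ]; ring
  have h3 := hiter k
  rw [hodd'.neg_one_pow, zpow_neg_one] at h3
  have h4 : (c : Equiv.Perm (Fin n)) = (c : Equiv.Perm (Fin n))⁻¹ := by
    rw [← h3, mul_assoc, hcomm, inv_mul_cancel_left]
  have h5 : (c : Equiv.Perm (Fin n)) ^ 2 = 1 := by
    rw [pow_two]; nth_rewrite 2 [h4]; exact mul_inv_cancel _
  have h6 : orderOf (c : Equiv.Perm (Fin n)) ∣ 2 := orderOf_dvd_of_pow_eq_one h5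
  obtain ⟨m, hm⟩ := (IsPGroup.iff_orderOf.mp P.isPGroup') ⟨(c : Equiv.Perm (Fin n)), hcP'⟩
  have h7 : orderOf (c : Equiv.Perm (Fin n)) = p ^ m := by
    rw [← hm, Subgroup.orderOf_mk]
  rw [h7] at h6
  have hp2 : p.Prime := Fact.out
  rcases Nat.eq_zero_or_pos m with hm0 | hm0
  · subst hm0
    rw [pow_zero, orderOf_eq_one_iff] at h7
    exact hc1' h7
  · have : p ∣ 2 := dvd_trans (dvd_pow_self p (by omega)) h6
    have := (Nat.prime_dvd_prime_iff_eq hp2 Nat.prime_two).mp this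
    exact hp this

end Cfsg.Agent.S2270
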