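import Cfsg.Statements.S2336
import Mathlib
import Cfsg.Agent.Lib_helper3_TwoTrans
import Cfsg.Agent.Lib_helper8_IndB

set_option autoImplicit false
open Cfsg

namespace Cfsg.Agent.S2336

section Aux
open Cfsg.Agent.Lib_helper3_CharBasic Cfsg.Agent.Lib_helper3_CharInd Cfsg.Agent.Lib_helper3_CharMore
open Cfsg.Agent.Lib_helper3_TwoTrans Cfsg.Agent.Lib_helper8_IndB
open scoped ComplexConjugate
open Matrix

universe u
variable {F : Type u} [Field F] {n : ℕ}

/-- The action of `SL_n` on vectors. -/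
def mv (g : Matrix.SpecialLinearGroup (Fin n) F) (v : Fin n → F) : Fin n → F :=
  (g : Matrix (Fin n) (Fin n) F).mulVec v

theorem mv_mul (g h : Matrix.SpecialLinearGroup (Fin n) F) (v : Fin n → F) :
    mv (g * h) v = mv g (mv h v) := by
  unfold mv
  rw [Matrix.SpecialLinearGroup.coe_mul, Matrix.mulVec_mulVec]

theorem mv_one (v : Fin n → F) : mv (1 : Matrix.SpecialLinearGroup (Fin n) F) v = v := by
  unfold mv
  rw [Matrix.SpecialLinearGroup.coe_one, Matrix.one_mulVec]

theorem mv_smul (g : Matrix.SpecialLinearGroup (Fin n) F) (c : F) (v : Fin n → F) :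
    mv g (c • v) = c • mv g v := by
  unfold mv
  rw [Matrix.mulVec_smul]

theorem mv_add (g : Matrix.SpecialLinearGroup (Fin n) F) (v w : Fin n → F) :
    mv g (v + w) = mv g v + mv g w := by
  unfold mv
  rw [Matrix.mulVec_add]

theorem mv_zero (g : Matrix.SpecialLinearGroup (Fin n) F) : mv g (0 : Fin n → F) = 0 := by
  unfold mv
  rw [Matrix.mulVec_zero]

theorem mv_inv (g : Matrix.SpecialLinearGroup (Fin n) F) (v : Fin n → F) :
    mv g⁻¹ (mv g v) = v := by
  rw [← mv_mul, inv_mul_cancel, mv_one]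

theorem mv_inj (g : Matrix.SpecialLinearGroup (Fin n) F) {v w : Fin n → F}
    (h : mv g v = mv g w) : v = w := by
  rw [← mv_inv g v, ← mv_inv g w, h]

theorem mv_ne_zero (g : Matrix.SpecialLinearGroup (Fin n) F) {v : Fin n → F} (hv : v ≠ 0) :
    mv g v ≠ 0 := by
  intro h
  apply hv
  apply mv_inj g
  rw [h, mv_zero]

/-- Linear independence of a pair of vectors. -/
def Ind (v w : Fin n → F) : Prop := ∀ s t : F, s • v + t • w = 0 → s = 0 ∧ t = 0

theorem Ind.mv {v w : Fin n → F} (h : Ind v w) (g : Matrix.SpecialLinearGroup (Fin n) F) :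
    Ind (mv g v) (mv g w) := by
  intro s t hst
  apply h s t
  apply mv_inj g
  rw [mv_add, mv_smul, mv_smul, hst, mv_zero]

theorem Ind.smul {v w : Fin n → F} (h : Ind v w) (a b : Fˣ) :
    Ind ((a : F) • v) ((b : F) • w) := by
  intro s t hst
  rw [smul_smul, smul_smul] at hst
  obtain ⟨h1, h2⟩ := h _ _ hst
  exact ⟨(mul_eq_zero.mp h1).resolve_right a.ne_zero, (mul_eq_zero.mp h2).resolve_right b.ne_zero⟩

theorem Ind.left_ne {v w : Fin n → F} (h : Ind v w) : v ≠ 0 := by
  rintro rfl
  have := h 1 0 (by simp)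
  exact one_ne_zero this.1

theorem Ind.right_ne {v w : Fin n → F} (h : Ind v w) : w ≠ 0 := by
  rintro rfl
  have := h 0 1 (by simp)
  exact one_ne_zero this.2

theorem exists_ind (hn : 2 ≤ n) (v : Fin n → F) (hv : v ≠ 0) : ∃ w : Fin n → F, Ind v w := by
  classical
  obtain ⟨i, hi⟩ := Function.ne_iff.mp hv
  have hj : ∃ j : Fin n, j ≠ i := by
    by_cases h0 : i = ⟨0, by omega⟩
    · refine ⟨⟨1, by omega⟩, ?_⟩
      rw [h0]
      simp [Fin.ext_iff]
    · exact ⟨⟨0, by omega⟩, fun h => h0 h.symm⟩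
  obtain ⟨j, hj⟩ := hj
  refine ⟨Pi.single j 1, ?_⟩
  intro s t hst
  have h1 := congrFun hst i
  simp only [Pi.add_apply, Pi.smul_apply, smul_eq_mul, Pi.zero_apply, Pi.single_apply,
    if_neg hj.symm, mul_zero, add_zero] at h1
  have hs : s = 0 := (mul_eq_zero.mp h1).resolve_right hi
  refine ⟨hs, ?_⟩
  have h2 := congrFun hst j
  simpa [hs] using h2

theorem ind_std (hn : 3 ≤ n) :
    Ind (Pi.single (⟨0, by omega⟩ : Fin n) (1 : F)) (Pi.single (⟨1, by omega⟩ : Fin n) (1 : F)) := by
  intro s t hst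
  have h0 := congrFun hst ⟨0, by omega⟩
  have h1 := congrFun hst ⟨1, by omega⟩
  simp [Pi.single_apply, Fin.ext_iff] at h0 h1
  exact ⟨h0, h1⟩

theorem exists_sl (hn : 3 ≤ n) (v w : Fin n → F) (h : Ind v w) :
    ∃ g : Matrix.SpecialLinearGroup (Fin n) F,
      mv g (Pi.single ⟨0, by omega⟩ 1) = v ∧ mv g (Pi.single ⟨1, by omega⟩ 1) = w := by
  classical
  have hE : LinearIndependent F ![v, w] := LinearIndependent.pair_iff.mpr h
  have hD : LinearIndependent F ![(Pi.single (⟨0, by omega⟩ : Fin n) (1 : F) : Fin n → F),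
      (Pi.single (⟨1, by omega⟩ : Fin n) (1 : F) : Fin n → F)] := by
    rw [LinearIndependent.pair_iff]
    exact ind_std hn
  have qD : ∀ {x y : Fin n → F} (hh : LinearIndependent F ![x, y]),
      ((hh.linearCombinationEquiv (Finsupp.single 0 1) :
        Submodule.span F (Set.range ![x, y])) : Fin n → F) = x := by
    intro x y hh
    simp
  have qD' : ∀ {x y : Fin n → F} (hh : LinearIndependent F ![x, y]),
      ((hh.linearCombinationEquiv (Finsupp.single 1 1) :
        Submodule.span F (Set.range ![x, y])) : Fin n → F) = y := by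
    intro x y hh
    simp
  let f := hD.linearCombinationEquiv.symm ≪≫ₗ hE.linearCombinationEquiv
  obtain ⟨g, hg⟩ := Submodule.exists_linearEquiv_restrict_eq f
  have g0 : g (Pi.single ⟨0, by omega⟩ 1) = v := by
    have h1 := hg (hD.linearCombinationEquiv (Finsupp.single 0 1))
    rw [qD hD] at h1
    rw [← h1]
    simp [f]
  have g1 : g (Pi.single ⟨1, by omega⟩ 1) = w := by
    have h1 := hg (hD.linearCombinationEquiv (Finsupp.single 1 1))
    rw [qD' hD] at h1
    rw [← h1]
    simp [f]
  set M : Matrix (Fin n) (Fin n) F := LinearMap.toMatrix' (g : (Fin n → F) →ₗ[F] (Fin n → F))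
    with hM
  have hMv : ∀ x : Fin n → F, M.mulVec x = g x := by
    intro x
    rw [hM, LinearMap.toMatrix'_mulVec]
    rfl
  have hdet : M.det ≠ 0 := by
    rw [hM, LinearMap.det_toMatrix']
    exact (LinearEquiv.isUnit_det' g).ne_zero
  set D : Matrix (Fin n) (Fin n) F :=
    Matrix.diagonal (fun i => if i = (⟨2, by omega⟩ : Fin n) then M.det⁻¹ else 1) with hDm
  have hdet' : (M * D).det = 1 := by
    rw [Matrix.det_mul, hDm, Matrix.det_diagonal, Finset.prod_ite_eq' Finset.univ
      (⟨2, by omega⟩ : Fin n) (fun _ => M.det⁻¹), if_pos (Finset.mem_univ _)]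
    exact mul_inv_cancel₀ hdet
  refine ⟨⟨M * D, hdet'⟩, ?_, ?_⟩
  · show (M * D).mulVec _ = v
    rw [← Matrix.mulVec_mulVec, hDm, Matrix.diagonal_mulVec_single, if_neg (by simp [Fin.ext_iff]),
      one_mul, hMv, g0]
  · show (M * D).mulVec _ = w
    rw [← Matrix.mulVec_mulVec, hDm, Matrix.diagonal_mulVec_single, if_neg (by simp [Fin.ext_iff]),
      one_mul, hMv, g1]

theorem trans2 (hn : 3 ≤ n) {v w v' w' : Fin n → F} (h : Ind v w) (h' : Ind v' w') :
    ∃ g : Matrix.SpecialLinearGroup (Fin n) F, mv g v = v' ∧ mv g w = w' := by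
  obtain ⟨g₁, a1, b1⟩ := exists_sl hn v w h
  obtain ⟨g₂, a2, b2⟩ := exists_sl hn v' w' h'
  refine ⟨g₂ * g₁⁻¹, ?_, ?_⟩
  · rw [mv_mul, ← a1, mv_inv, a2]
  · rw [mv_mul, ← b1, mv_inv, b2]

theorem trans1 (hn : 3 ≤ n) {v v' : Fin n → F} (hv : v ≠ 0) (hv' : v' ≠ 0) :
    ∃ g : Matrix.SpecialLinearGroup (Fin n) F, mv g v = v' := by
  obtain ⟨w, hw⟩ := exists_ind (by omega) v hv
  obtain ⟨w', hw'⟩ := exists_ind (by omega) v' hv'
  obtain ⟨g, h1, -⟩ := trans2 hn hw hw'
  exact ⟨g, h1⟩

/-- Double counting for a transitive action. -/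
theorem dc {G₀ : Type*} [Group G₀] [Fintype G₀] {X : Type*} [Fintype X] [DecidableEq X]
    (act : G₀ → X → X) (hmul : ∀ g h x, act (g * h) x = act g (act h x))
    (htrans : ∀ x y, ∃ g, act g x = y) (x y : X) :
    (Finset.univ.filter (fun g => act g x = y)).card * Fintype.card X = Fintype.card G₀ := by
  have hle : ∀ y y' : X, (Finset.univ.filter (fun g => act g x = y)).card ≤
      (Finset.univ.filter (fun g => act g x = y')).card := by
    intro y y'
    obtain ⟨g₀, hg₀⟩ := htrans y y'
    apply Finset.card_le_card_of_injOn (fun g => g₀ * g)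
    · intro g hg
      simp only [Finset.coe_filter, Finset.mem_univ, true_and, Set.mem_setOf_eq] at hg ⊢
      rw [hmul, hg, hg₀]
    · intro a _ b _ hab
      exact mul_left_cancel hab
  have heq : ∀ y' : X, (Finset.univ.filter (fun g => act g x = y')).card =
      (Finset.univ.filter (fun g => act g x = y)).card := fun y' => le_antisymm (hle y' y) (hle y y')
  have hsum := Finset.card_eq_sum_card_fiberwise (f := fun g => act g x) (s := Finset.univ)
    (t := Finset.univ) (fun g _ => Finset.mem_coe.mpr (Finset.mem_univ _))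
  rw [Finset.sum_congr rfl (fun y' _ => heq y'), Finset.sum_const, Finset.card_univ,
    Finset.card_univ, smul_eq_mul] at hsum
  rw [mul_comm]
  exact hsum.symm

section Count

variable [Fintype F] [DecidableEq F] [Fintype (Matrix.SpecialLinearGroup (Fin n) F)]

open Classical in
theorem d1 (hn : 3 ≤ n) (v : Fin n → F) (hv : v ≠ 0) (a : Fˣ) :
    (Finset.univ.filter (fun g : Matrix.SpecialLinearGroup (Fin n) F => mv g v = (a : F) • v)).card *
      Fintype.card {v : Fin n → F // v ≠ 0} = Fintype.card (Matrix.SpecialLinearGroup (Fin n) F) := by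
  have key := dc (G₀ := Matrix.SpecialLinearGroup (Fin n) F) (X := {v : Fin n → F // v ≠ 0})
    (fun g x => ⟨mv g x.1, mv_ne_zero g x.2⟩)
    (fun g h x => Subtype.ext (mv_mul g h x.1))
    (fun x y => by
      obtain ⟨g, hg⟩ := trans1 hn x.2 y.2
      exact ⟨g, Subtype.ext hg⟩)
    ⟨v, hv⟩ ⟨(a : F) • v, smul_ne_zero a.ne_zero hv⟩
  have e : (Finset.univ.filter (fun g : Matrix.SpecialLinearGroup (Fin n) F =>
      mv g v = (a : F) • v)) = Finset.univ.filter (fun g : Matrix.SpecialLinearGroup (Fin n) F =>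
      (⟨mv g v, mv_ne_zero g hv⟩ : {v : Fin n → F // v ≠ 0}) =
        ⟨(a : F) • v, smul_ne_zero a.ne_zero hv⟩) := by
    apply Finset.filter_congr
    intro g _
    rw [Subtype.mk.injEq]
  rw [e]
  exact key

open Classical in
theorem d2 (hn : 3 ≤ n) (v w : Fin n → F) (hvw : Ind v w) (a b : Fˣ) :
    (Finset.univ.filter (fun g : Matrix.SpecialLinearGroup (Fin n) F =>
      mv g v = (a : F) • v ∧ mv g w = (b : F) • w)).card *
      Fintype.card {p : (Fin n → F) × (Fin n → F) // Ind p.1 p.2} =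
        Fintype.card (Matrix.SpecialLinearGroup (Fin n) F) := by
  have key := dc (G₀ := Matrix.SpecialLinearGroup (Fin n) F)
    (X := {p : (Fin n → F) × (Fin n → F) // Ind p.1 p.2})
    (fun g x => ⟨(mv g x.1.1, mv g x.1.2), x.2.mv g⟩)
    (fun g h x => Subtype.ext (Prod.ext (mv_mul g h x.1.1) (mv_mul g h x.1.2)))
    (fun x y => by
      obtain ⟨g, hg1, hg2⟩ := trans2 hn x.2 y.2
      exact ⟨g, Subtype.ext (Prod.ext hg1 hg2)⟩)
    ⟨(v, w), hvw⟩ ⟨((a : F) • v, (b : F) • w), hvw.smul a b⟩
  have e : (Finset.univ.filter (fun g : Matrix.SpecialLinearGroup (Fin n) F =>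
      mv g v = (a : F) • v ∧ mv g w = (b : F) • w)) =
      Finset.univ.filter (fun g : Matrix.SpecialLinearGroup (Fin n) F =>
      (⟨(mv g v, mv g w), hvw.mv g⟩ : {p : (Fin n → F) × (Fin n → F) // Ind p.1 p.2}) =
        ⟨((a : F) • v, (b : F) • w), hvw.smul a b⟩) := by
    apply Finset.filter_congr
    intro g _
    rw [Subtype.mk.injEq, Prod.mk.injEq]
  rw [e]
  exact key

theorem dep (v w : Fin n → F) (hv : v ≠ 0) (hw : w ≠ 0) (h : ¬ Ind v w) :
    ∃ a : Fˣ, w = (a : F) • v := by
  unfold Ind at h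
  push Not at h
  obtain ⟨s, t, hst, h2⟩ := h
  have ht : t ≠ 0 := by
    intro ht
    rw [ht, zero_smul, add_zero] at hst
    have hs : s = 0 := (smul_eq_zero.mp hst).resolve_right hv
    exact h2 hs ht
  have hw' : w = (-s / t) • v := by
    rw [eq_comm, div_eq_inv_mul, ← smul_smul, inv_smul_eq_iff₀ ht, neg_smul]
    exact (eq_neg_of_add_eq_zero_right hst).symm
  have hst0 : -s / t ≠ 0 := by
    intro h0
    rw [h0, zero_smul] at hw'
    exact hw hw'
  exact ⟨Units.mk0 _ hst0, hw'⟩

/-- The vectors scaled by `c⁻¹` by `g`. -/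
def Pf (g : Matrix.SpecialLinearGroup (Fin n) F) (c : Fˣ) : Finset (Fin n → F) :=
  Finset.univ.filter (fun v : Fin n → F => v ≠ 0 ∧ (c : F) • mv g v = v)

theorem smul_mv_iff (g : Matrix.SpecialLinearGroup (Fin n) F) (c : Fˣ) (v : Fin n → F) :
    (c : F) • mv g v = v ↔ mv g v = ((c⁻¹ : Fˣ) : F) • v := by
  rw [Units.val_inv_eq_inv_val, eq_inv_smul_iff₀ c.ne_zero]

open Classical in
theorem t1 (hn : 3 ≤ n) (c c' : Fˣ) :
    ∑ g : Matrix.SpecialLinearGroup (Fin n) F, (Pf g c).card * (Pf g c').card =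
      Fintype.card (Matrix.SpecialLinearGroup (Fin n) F) *
        (1 + if c = c' then Fintype.card Fˣ else 0) := by
  set N1 := Fintype.card {v : Fin n → F // v ≠ 0} with hN1
  set N2 := Fintype.card {p : (Fin n → F) × (Fin n → F) // Ind p.1 p.2} with hN2
  set NG := Fintype.card (Matrix.SpecialLinearGroup (Fin n) F) with hNG
  have hN1pos : 0 < N1 :=
    Fintype.card_pos_iff.mpr ⟨⟨Pi.single ⟨0, by omega⟩ 1, (ind_std (F := F) hn).left_ne⟩⟩
  have hN2pos : 0 < N2 := Fintype.card_pos_iff.mpr ⟨⟨(_, _), ind_std (F := F) hn⟩⟩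
  -- the count for a pair of vectors
  have hT : ∀ v w : Fin n → F,
      (Finset.univ.filter (fun g : Matrix.SpecialLinearGroup (Fin n) F =>
        (v ≠ 0 ∧ (c : F) • mv g v = v) ∧ (w ≠ 0 ∧ (c' : F) • mv g w = w))).card * (N1 * N2) =
      (if Ind v w then NG * N1 else 0) +
        (if v ≠ 0 ∧ w ≠ 0 ∧ ¬ Ind v w then (if c = c' then NG * N2 else 0) else 0) := by
    intro v w
    by_cases hI : Ind v w
    · have hv := hI.left_ne
      have hw := hI.right_ne
      rw [if_pos hI, if_neg (fun h => h.2.2 hI), add_zero]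
      have e : (Finset.univ.filter (fun g : Matrix.SpecialLinearGroup (Fin n) F =>
          (v ≠ 0 ∧ (c : F) • mv g v = v) ∧ (w ≠ 0 ∧ (c' : F) • mv g w = w))) =
          Finset.univ.filter (fun g : Matrix.SpecialLinearGroup (Fin n) F =>
            mv g v = ((c⁻¹ : Fˣ) : F) • v ∧ mv g w = ((c'⁻¹ : Fˣ) : F) • w) := by
        apply Finset.filter_congr
        intro g _
        rw [smul_mv_iff, smul_mv_iff]
        exact ⟨fun h => ⟨h.1.2, h.2.2⟩, fun h => ⟨⟨hv, h.1⟩, ⟨hw, h.2⟩⟩⟩
      rw [e, mul_comm N1 N2, ← mul_assoc, d2 hn v w hI c⁻¹ c'⁻¹]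
    · rw [if_neg hI, zero_add]
      by_cases hvw : v ≠ 0 ∧ w ≠ 0
      · obtain ⟨hv, hw⟩ := hvw
        rw [if_pos ⟨hv, hw, hI⟩]
        obtain ⟨a, ha⟩ := dep v w hv hw hI
        by_cases hcc : c = c'
        · rw [if_pos hcc]
          subst hcc
          have e : (Finset.univ.filter (fun g : Matrix.SpecialLinearGroup (Fin n) F =>
              (v ≠ 0 ∧ (c : F) • mv g v = v) ∧ (w ≠ 0 ∧ (c : F) • mv g w = w))) =
              Finset.univ.filter (fun g : Matrix.SpecialLinearGroup (Fin n) F =>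
                mv g v = ((c⁻¹ : Fˣ) : F) • v) := by
            apply Finset.filter_congr
            intro g _
            rw [smul_mv_iff, smul_mv_iff]
            constructor
            · intro h
              exact h.1.2
            · intro h
              refine ⟨⟨hv, h⟩, ⟨hw, ?_⟩⟩
              rw [ha, mv_smul, h, smul_comm]
          rw [e, ← mul_assoc, d1 hn v hv c⁻¹]
        · rw [if_neg hcc]
          have e : (Finset.univ.filter (fun g : Matrix.SpecialLinearGroup (Fin n) F =>
              (v ≠ 0 ∧ (c : F) • mv g v = v) ∧ (w ≠ 0 ∧ (c' : F) • mv g w = w))) = ∅ := by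
            apply Finset.filter_false_of_mem
            intro g _
            rintro ⟨⟨-, h1⟩, ⟨-, h2⟩⟩
            apply hcc
            have h2' : (c' : F) • (a : F) • mv g v = (a : F) • v := by
              rw [← mv_smul, ← ha]
              exact h2
            have h3 : ((a : F) * ((c' : F) - (c : F))) • mv g v = 0 := by
              rw [mul_sub, sub_smul, mul_smul, mul_smul, smul_comm (a : F) (c' : F), h2', h1,
                sub_self]
            rcases smul_eq_zero.mp h3 with h4 | h4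
            · rcases mul_eq_zero.mp h4 with h5 | h5
              · exact absurd h5 a.ne_zero
              · exact Units.ext (sub_eq_zero.mp h5).symm
            · exact absurd h4 (mv_ne_zero g hv)
          rw [e, Finset.card_empty, zero_mul]
      · rw [if_neg (fun h => hvw ⟨h.1, h.2.1⟩)]
        have e : (Finset.univ.filter (fun g : Matrix.SpecialLinearGroup (Fin n) F =>
            (v ≠ 0 ∧ (c : F) • mv g v = v) ∧ (w ≠ 0 ∧ (c' : F) • mv g w = w))) = ∅ := by
          apply Finset.filter_false_of_mem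
          intro g _
          rintro ⟨⟨h1, -⟩, ⟨h2, -⟩⟩
          exact hvw ⟨h1, h2⟩
        rw [e, Finset.card_empty, zero_mul]
  -- expand the left side
  have hexp : ∀ g : Matrix.SpecialLinearGroup (Fin n) F, (Pf g c).card * (Pf g c').card =
      ∑ v : Fin n → F, ∑ w : Fin n → F,
        if (v ≠ 0 ∧ (c : F) • mv g v = v) ∧ (w ≠ 0 ∧ (c' : F) • mv g w = w) then 1 else 0 := by
    intro g
    unfold Pf
    rw [Finset.card_filter, Finset.card_filter, Finset.sum_mul_sum]
    apply Finset.sum_congr rfl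
    intro v _
    apply Finset.sum_congr rfl
    intro w _
    by_cases h1 : v ≠ 0 ∧ (c : F) • mv g v = v <;> by_cases h2 : w ≠ 0 ∧ (c' : F) • mv g w = w <;>
      simp [h1, h2]
  have hsum : (∑ g : Matrix.SpecialLinearGroup (Fin n) F, (Pf g c).card * (Pf g c').card) *
      (N1 * N2) = ∑ v : Fin n → F, ∑ w : Fin n → F, ((if Ind v w then NG * N1 else 0) +
        (if v ≠ 0 ∧ w ≠ 0 ∧ ¬ Ind v w then (if c = c' then NG * N2 else 0) else 0)) := by
    rw [Finset.sum_congr rfl (fun g _ => hexp g), Finset.sum_comm, Finset.sum_mul]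
    apply Finset.sum_congr rfl
    intro v _
    rw [Finset.sum_comm, Finset.sum_mul]
    apply Finset.sum_congr rfl
    intro w _
    rw [← hT v w, Finset.card_filter]
  -- count the independent pairs
  have hc2 : (∑ v : Fin n → F, ∑ w : Fin n → F, if Ind v w then NG * N1 else 0) =
      N2 * (NG * N1) := by
    rw [hN2, Fintype.card_subtype, Finset.card_filter, Finset.sum_mul, Fintype.sum_prod_type]
    apply Finset.sum_congr rfl
    intro v _
    apply Finset.sum_congr rfl
    intro w _
    by_cases h : Ind v w <;> simp [h]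
  -- count the dependent pairs
  have hc1 : (∑ v : Fin n → F, ∑ w : Fin n → F,
      if v ≠ 0 ∧ w ≠ 0 ∧ ¬ Ind v w then (if c = c' then NG * N2 else 0) else 0) =
      N1 * Fintype.card Fˣ * (if c = c' then NG * N2 else 0) := by
    have hv : ∀ v : Fin n → F, (∑ w : Fin n → F,
        if v ≠ 0 ∧ w ≠ 0 ∧ ¬ Ind v w then (if c = c' then NG * N2 else 0) else 0) =
        if v ≠ 0 then Fintype.card Fˣ * (if c = c' then NG * N2 else 0) else 0 := by
      intro v
      by_cases hv : v ≠ 0
      · rw [if_pos hv, ← Finset.sum_filter, Finset.sum_const, smul_eq_mul]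
        congr 1
        rw [← Finset.card_univ (α := Fˣ)]
        symm
        apply Finset.card_bij (fun (a : Fˣ) _ => (a : F) • v)
        · intro a _
          rw [Finset.mem_filter]
          refine ⟨Finset.mem_univ _, hv, smul_ne_zero a.ne_zero hv, ?_⟩
          intro hI
          have := hI (a : F) (-1) (by simp)
          exact a.ne_zero this.1
        · intro a _ b _ hab
          have h3 : ((a : F) - (b : F)) • v = 0 := by rw [sub_smul, hab, sub_self]
          rcases smul_eq_zero.mp h3 with h4 | h4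
          · exact Units.ext (sub_eq_zero.mp h4)
          · exact absurd h4 hv
        · intro w hw
          rw [Finset.mem_filter] at hw
          obtain ⟨a, ha⟩ := dep v w hv hw.2.2.1 hw.2.2.2
          exact ⟨a, Finset.mem_univ _, ha.symm⟩
      · rw [if_neg hv]
        apply Finset.sum_eq_zero
        intro w _
        rw [if_neg (fun h => hv h.1)]
    rw [Finset.sum_congr rfl (fun v _ => hv v), ← Finset.sum_filter, Finset.sum_const, smul_eq_mul,
      hN1, Fintype.card_subtype, mul_assoc]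
  have hfin : (∑ g : Matrix.SpecialLinearGroup (Fin n) F, (Pf g c).card * (Pf g c').card) *
      (N1 * N2) = NG * (1 + if c = c' then Fintype.card Fˣ else 0) * (N1 * N2) := by
    rw [hsum]
    simp only [Finset.sum_add_distrib]
    rw [hc2, hc1]
    by_cases hcc : c = c'
    · simp only [if_pos hcc]
      ring
    · simp only [if_neg hcc]
      ring
  exact Nat.eq_of_mul_eq_mul_right (Nat.mul_pos hN1pos hN2pos) hfin

end Count

/-- The non-zero vectors. -/
abbrev X1 (F : Type u) [Field F] (n : ℕ) := {v : Fin n → F // v ≠ 0}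

instance actX1 : MulAction (Matrix.SpecialLinearGroup (Fin n) F × Fˣ) (X1 F n) where
  smul p x := ⟨(p.2 : F) • mv p.1 x.1, smul_ne_zero p.2.ne_zero (mv_ne_zero p.1 x.2)⟩
  one_smul x := by
    apply Subtype.ext
    show (((1 : Matrix.SpecialLinearGroup (Fin n) F × Fˣ).2 : Fˣ) : F) •
      mv (1 : Matrix.SpecialLinearGroup (Fin n) F × Fˣ).1 x.1 = x.1
    simp [mv_one]
  mul_smul p p' x := by
    apply Subtype.ext
    show (((p * p').2 : Fˣ) : F) • mv (p * p').1 x.1 =
      (p.2 : F) • mv p.1 ((p'.2 : F) • mv p'.1 x.1)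
    rw [Prod.snd_mul, Prod.fst_mul, mv_mul, mv_smul, smul_smul, Units.val_mul]

theorem smul_X1 (g : Matrix.SpecialLinearGroup (Fin n) F) (c : Fˣ) (x : X1 F n) :
    (((g, c) • x : X1 F n) : Fin n → F) = (c : F) • mv g x.1 := rfl

theorem pretrans (hn : 3 ≤ n) :
    MulAction.IsPretransitive (Matrix.SpecialLinearGroup (Fin n) F × Fˣ) (X1 F n) := by
  constructor
  intro x y
  obtain ⟨g, hg⟩ := trans1 hn x.2 y.2
  refine ⟨(g, 1), ?_⟩
  apply Subtype.ext
  rw [smul_X1, hg]
  simp

section Chars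

variable [Fintype F] [DecidableEq F] [Fintype (Matrix.SpecialLinearGroup (Fin n) F)]

theorem card_fixed (g : Matrix.SpecialLinearGroup (Fin n) F) (c : Fˣ) :
    Nat.card (MulAction.fixedBy (X1 F n) (g, c)) = (Pf g c).card := by
  rw [← Nat.card_eq_finsetCard]
  apply Nat.card_congr
  exact
    { toFun := fun x => ⟨x.1.1, by
        unfold Pf
        rw [Finset.mem_filter]
        exact ⟨Finset.mem_univ _, x.1.2, congrArg Subtype.val x.2⟩⟩
      invFun := fun v => ⟨⟨v.1, (Finset.mem_filter.mp v.2).2.1⟩,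
        Subtype.ext (Finset.mem_filter.mp v.2).2.2⟩
      left_inv := fun x => rfl
      right_inv := fun v => rfl }

/-- The permutation character of `SL_n × Fˣ` on the non-zero vectors. -/
noncomputable def Pc (p : Matrix.SpecialLinearGroup (Fin n) F × Fˣ) : ℂ :=
  (Nat.card (MulAction.fixedBy (X1 F n) p) : ℂ)

/-- The isotypic parts of the permutation character on the non-zero vectors. -/
noncomputable def piα (α : MulChar F ℂ) : Matrix.SpecialLinearGroup (Fin n) F → ℂ :=
  fun g => ((Fintype.card F : ℂ) - 1)⁻¹ * ∑ c : Fˣ, conj (α (c : F)) * Pc (g, c)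

theorem Q_ne : ((Fintype.card F : ℂ) - 1) ≠ 0 := (card_ne (F := F)).1

theorem card_units_C : (Fintype.card Fˣ : ℂ) = (Fintype.card F : ℂ) - 1 := by
  rw [Fintype.card_units]
  push_cast [Nat.cast_sub (Fintype.card_pos (α := F))]
  ring

theorem Pc_char (hn : 3 ≤ n) :
    IsCharacter (Matrix.SpecialLinearGroup (Fin n) F × Fˣ) (Pc (F := F) (n := n)) := by
  haveI := pretrans (F := F) hn
  haveI : Nonempty (X1 F n) := ⟨⟨Pi.single ⟨0, by omega⟩ 1, (ind_std (F := F) hn).left_ne⟩⟩
  exact isCharacter_perm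

theorem Pc_inner_one (hn : 3 ≤ n) :
    classInner (Pc (F := F) (n := n)) (fun _ => 1) = 1 := by
  haveI := pretrans (F := F) hn
  haveI : Nonempty (X1 F n) := ⟨⟨Pi.single ⟨0, by omega⟩ 1, (ind_std (F := F) hn).left_ne⟩⟩
  exact inner_perm_one

theorem Pc_conj (p : Matrix.SpecialLinearGroup (Fin n) F × Fˣ) : conj (Pc p) = Pc p := by
  unfold Pc
  exact Complex.conj_natCast _

theorem piα_class (hn : 3 ≤ n) (α : MulChar F ℂ) :
    IsClassFunction (Matrix.SpecialLinearGroup (Fin n) F) (piα (n := n) α) := by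
  intro g h
  unfold piα
  congr 1
  apply Finset.sum_congr rfl
  intro c _
  congr 1
  have h1 := isClassFunction_of_isCharacter (Pc_char (F := F) hn) (g, c) (h, 1)
  rw [← h1]
  congr 1
  simp

theorem isChar_prod (α : MulChar F ℂ) {χ : Matrix.SpecialLinearGroup (Fin n) F → ℂ}
    (hχ : IsCharacter (Matrix.SpecialLinearGroup (Fin n) F) χ) :
    IsCharacter (Matrix.SpecialLinearGroup (Fin n) F × Fˣ)
      (fun p => χ p.1 * α (p.2 : F)) := by
  have h1 : IsCharacter (Matrix.SpecialLinearGroup (Fin n) F × Fˣ)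
      (χ ∘ (MonoidHom.fst (Matrix.SpecialLinearGroup (Fin n) F) Fˣ)) :=
    isCharacter_comp (MonoidHom.fst (Matrix.SpecialLinearGroup (Fin n) F) Fˣ) hχ
  have h2 : IsCharacter (Matrix.SpecialLinearGroup (Fin n) F × Fˣ)
      (fun p => (((α.toUnitHom.comp (MonoidHom.snd (Matrix.SpecialLinearGroup (Fin n) F) Fˣ)) p :
        ℂˣ) : ℂ)) := isCharacter_of_monoidHom _
  have h3 := isCharacter_mul h1 h2
  have e : (fun p : Matrix.SpecialLinearGroup (Fin n) F × Fˣ => χ p.1 * α (p.2 : F)) =
      (χ ∘ (MonoidHom.fst (Matrix.SpecialLinearGroup (Fin n) F) Fˣ)) *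
      (fun p => (((α.toUnitHom.comp (MonoidHom.snd (Matrix.SpecialLinearGroup (Fin n) F) Fˣ)) p :
        ℂˣ) : ℂ)) := by
    funext p
    simp [MulChar.coe_toUnitHom]
  rw [e]
  exact h3

theorem inner_pi (α : MulChar F ℂ) (χ : Matrix.SpecialLinearGroup (Fin n) F → ℂ) :
    classInner (piα (n := n) α) χ =
      classInner (Pc (F := F) (n := n)) (fun p => χ p.1 * α (p.2 : F)) := by
  rw [classInner_def, classInner_def, Fintype.sum_prod_type, Nat.card_prod,
    Nat.card_eq_fintype_card (α := Fˣ)]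
  unfold piα
  push_cast
  rw [card_units_C, mul_inv, mul_assoc]
  congr 1
  simp only [Finset.mul_sum, Finset.sum_mul, map_mul]
  apply Finset.sum_congr rfl
  intro g _
  apply Finset.sum_congr rfl
  intro c _
  ring

theorem piα_char (hn : 3 ≤ n) (α : MulChar F ℂ) :
    IsCharacter (Matrix.SpecialLinearGroup (Fin n) F) (piα (n := n) α) := by
  apply isCharacter_of_inner_nat (piα_class hn α)
  intro χ hχ
  rw [inner_pi]
  exact classInner_nat (Pc_char hn) (isChar_prod α (isCharacter_of_irr hχ))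

theorem t1c (hn : 3 ≤ n) (c c' : Fˣ) :
    ∑ g : Matrix.SpecialLinearGroup (Fin n) F, Pc (g, c) * Pc (g, c') =
      (Nat.card (Matrix.SpecialLinearGroup (Fin n) F) : ℂ) *
        (1 + if c = c' then ((Fintype.card F : ℂ) - 1) else 0) := by
  classical
  have h := t1 (F := F) hn c c'
  have h2 : ∀ g : Matrix.SpecialLinearGroup (Fin n) F,
      Pc (g, c) * Pc (g, c') = (((Pf g c).card * (Pf g c').card : ℕ) : ℂ) := by
    intro g
    unfold Pc
    rw [card_fixed, card_fixed, Nat.cast_mul]
  rw [Finset.sum_congr rfl (fun g _ => h2 g), ← Nat.cast_sum, h, Nat.card_eq_fintype_card]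
  by_cases hcc : c = c'
  · rw [if_pos hcc, if_pos hcc]
    push_cast
    rw [card_units_C]
  · rw [if_neg hcc, if_neg hcc]
    push_cast
    ring

theorem inner_pi_pi (hn : 3 ≤ n) (α β : MulChar F ℂ) [Decidable (α = β)] [Decidable (α = 1)]
    [Decidable (β = 1)] :
    classInner (piα (n := n) α) (piα (n := n) β) =
      (if α = 1 then (if β = 1 then 1 else 0) else 0) + (if α = β then 1 else 0) := by
  classical
  have hQ := Q_ne (F := F)
  have hG : (Nat.card (Matrix.SpecialLinearGroup (Fin n) F) : ℂ) ≠ 0 := card_ne_zero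
  rw [classInner_def]
  have h1 : ∀ g : Matrix.SpecialLinearGroup (Fin n) F, piα α g * conj (piα β g) =
      ((Fintype.card F : ℂ) - 1)⁻¹ * ((Fintype.card F : ℂ) - 1)⁻¹ *
        ∑ c : Fˣ, ∑ c' : Fˣ, (conj (α (c : F)) * β (c' : F)) * (Pc (g, c) * Pc (g, c')) := by
    intro g
    unfold piα
    have hc : conj (((Fintype.card F : ℂ) - 1)⁻¹ * ∑ c : Fˣ, conj (β (c : F)) * Pc (g, c)) =
        ((Fintype.card F : ℂ) - 1)⁻¹ * ∑ c : Fˣ, β (c : F) * Pc (g, c) := by
      rw [map_mul, map_inv₀, map_sub, Complex.conj_natCast, map_one, map_sum]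
      congr 1
      apply Finset.sum_congr rfl
      intro c _
      rw [map_mul, Complex.conj_conj, Pc_conj]
    rw [hc]
    rw [show ((Fintype.card F : ℂ) - 1)⁻¹ * (∑ c : Fˣ, conj (α (c : F)) * Pc (g, c)) *
        (((Fintype.card F : ℂ) - 1)⁻¹ * ∑ c : Fˣ, β (c : F) * Pc (g, c)) =
        ((Fintype.card F : ℂ) - 1)⁻¹ * ((Fintype.card F : ℂ) - 1)⁻¹ *
          ((∑ c : Fˣ, conj (α (c : F)) * Pc (g, c)) * (∑ c : Fˣ, β (c : F) * Pc (g, c))) by ring]
    congr 1
    rw [Finset.sum_mul_sum]
    apply Finset.sum_congr rfl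
    intro c _
    apply Finset.sum_congr rfl
    intro c' _
    ring
  rw [Finset.sum_congr rfl (fun g _ => h1 g), ← Finset.mul_sum, Finset.sum_comm]
  have h2 : ∀ c : Fˣ, (∑ g : Matrix.SpecialLinearGroup (Fin n) F, ∑ c' : Fˣ,
      (conj (α (c : F)) * β (c' : F)) * (Pc (g, c) * Pc (g, c'))) =
      (Nat.card (Matrix.SpecialLinearGroup (Fin n) F) : ℂ) * (conj (α (c : F)) *
        ((∑ c' : Fˣ, β (c' : F)) + ((Fintype.card F : ℂ) - 1) * β (c : F))) := by
    intro c
    rw [Finset.sum_comm]
    have h3 : ∀ c' : Fˣ, (∑ g : Matrix.SpecialLinearGroup (Fin n) F,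
        (conj (α (c : F)) * β (c' : F)) * (Pc (g, c) * Pc (g, c'))) =
        (Nat.card (Matrix.SpecialLinearGroup (Fin n) F) : ℂ) * (conj (α (c : F)) *
          (β (c' : F) + if c = c' then ((Fintype.card F : ℂ) - 1) * β (c' : F) else 0)) := by
      intro c'
      rw [← Finset.mul_sum, t1c hn c c']
      by_cases hcc : c = c'
      · simp only [if_pos hcc]
        ring
      · simp only [if_neg hcc]
        ring
    rw [Finset.sum_congr rfl (fun c' _ => h3 c'), ← Finset.mul_sum, ← Finset.mul_sum,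
      Finset.sum_add_distrib, Finset.sum_ite_eq Finset.univ c, if_pos (Finset.mem_univ _)]
  rw [Finset.sum_congr rfl (fun c _ => h2 c), ← Finset.mul_sum]
  have h4 : (∑ c : Fˣ, conj (α (c : F)) *
      ((∑ c' : Fˣ, β (c' : F)) + ((Fintype.card F : ℂ) - 1) * β (c : F))) =
      (∑ c : Fˣ, (α⁻¹) (c : F)) * (∑ c' : Fˣ, β (c' : F)) +
        ((Fintype.card F : ℂ) - 1) * ∑ c : Fˣ, (α⁻¹ * β) (c : F) := by
    rw [Finset.sum_mul, Finset.mul_sum, ← Finset.sum_add_distrib]
    apply Finset.sum_congr rfl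
    intro c _
    rw [(conj_unit α c).1, MulChar.mul_apply]
    ring
  rw [h4, sum_units, sum_units, sum_units]
  have e1 : (α⁻¹ = 1) ↔ (α = 1) := inv_eq_one
  have e2 : (α⁻¹ * β = 1) ↔ (α = β) := by
    rw [inv_mul_eq_one]
  by_cases ha : α = 1
  · have c1 : α⁻¹ = 1 := e1.mpr ha
    by_cases hb : β = 1
    · have c2 : α⁻¹ * β = 1 := e2.mpr (ha.trans hb.symm)
      rw [if_pos c1, if_pos hb, if_pos c2, if_pos ha, if_pos hb, if_pos (ha.trans hb.symm)]
      first | (field_simp; ring) | field_simp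
    · have c2 : ¬ α⁻¹ * β = 1 := fun h => hb ((e2.mp h).symm.trans ha)
      rw [if_pos c1, if_neg hb, if_neg c2, if_pos ha, if_neg hb,
        if_neg (fun h : α = β => hb (h.symm.trans ha))]
      simp
  · have c1 : ¬ α⁻¹ = 1 := fun h => ha (e1.mp h)
    by_cases hab : α = β
    · have c2 : α⁻¹ * β = 1 := e2.mpr hab
      rw [if_neg c1, if_pos c2, if_neg ha, if_pos hab]
      first | (field_simp; ring) | field_simp
    · have c2 : ¬ α⁻¹ * β = 1 := fun h => hab (e2.mp h)
      rw [if_neg c1, if_neg c2, if_neg ha, if_neg hab]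
      simp

end Chars


theorem sum_mulChar [Fintype F] [DecidableEq F] [Fintype (MulChar F ℂ)] (c : Fˣ) :
    ∑ α : MulChar F ℂ, α (c : F) = if c = 1 then ((Fintype.card F : ℂ) - 1) else 0 := by
  by_cases hc : c = 1
  · rw [if_pos hc, hc]
    simp only [Units.val_one, map_one, Finset.sum_const, Finset.card_univ, nsmul_eq_mul, mul_one]
    rw [← Nat.card_eq_fintype_card, MulChar.card_eq_card_units_of_hasEnoughRootsOfUnity F ℂ,
      Nat.card_eq_fintype_card, card_units_C]
  · rw [if_neg hc]
    have hc' : (c : F) ≠ 1 := fun h => hc (Units.ext h)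
    obtain ⟨χ, hχ⟩ := MulChar.exists_apply_ne_one_of_hasEnoughRootsOfUnity F ℂ hc'
    refine eq_zero_of_mul_eq_self_left hχ ?_
    simp only [Finset.mul_sum, ← MulChar.mul_apply]
    exact Fintype.sum_bijective _ (Group.mulLeft_bijective χ) _ _ fun χ' ↦ rfl

theorem main [Fintype F] [DecidableEq F] (hn : 3 ≤ n) :
    ∃ χ : Fin (Fintype.card F - 1) → (Matrix.SpecialLinearGroup (Fin n) F → ℂ),
      (∀ i, IsIrrCharacter (Matrix.SpecialLinearGroup (Fin n) F) (χ i)) ∧ Function.Injective χ ∧
      ∀ g : Matrix.SpecialLinearGroup (Fin n) F,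
        (Nat.card {v : Fin n → F // v ≠ 0 ∧ (g : Matrix (Fin n) (Fin n) F).mulVec v = v} : ℂ) =
          1 + ∑ i, χ i g := by
  classical
  haveI : Fintype (Matrix.SpecialLinearGroup (Fin n) F) := Fintype.ofFinite _
  haveI : Fintype (MulChar F ℂ) := Fintype.ofFinite _
  have hcard : Fintype.card (MulChar F ℂ) = Fintype.card F - 1 := by
    rw [← Nat.card_eq_fintype_card, MulChar.card_eq_card_units_of_hasEnoughRootsOfUnity F ℂ,
      Nat.card_eq_fintype_card, Fintype.card_units]
  let e : Fin (Fintype.card F - 1) ≃ MulChar F ℂ := (Fintype.equivFinOfCardEq hcard).symm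
  have hπ1 : classInner (piα (n := n) (1 : MulChar F ℂ))
      (fun _ : Matrix.SpecialLinearGroup (Fin n) F => (1 : ℂ)) = 1 := by
    rw [inner_pi]
    have h : (fun p : Matrix.SpecialLinearGroup (Fin n) F × Fˣ =>
        (1 : ℂ) * (1 : MulChar F ℂ) (p.2 : F)) = fun _ => 1 := by
      funext p
      rw [MulChar.one_apply p.2.isUnit, mul_one]
    rw [h]
    exact Pc_inner_one hn
  have h1π : classInner (fun _ : Matrix.SpecialLinearGroup (Fin n) F => (1 : ℂ))
      (piα (n := n) (1 : MulChar F ℂ)) = 1 := by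
    rw [← classInner_conj_symm, hπ1, map_one]
  have hψc : IsCharacter (Matrix.SpecialLinearGroup (Fin n) F)
      (piα (n := n) (1 : MulChar F ℂ) - (fun _ => 1)) := by
    apply isCharacter_of_inner_nat
    · exact isClassFunction_sub (piα_class hn 1) (fun _ _ => rfl)
    · intro χ hχ
      rw [classInner_sub_left]
      by_cases h1 : χ = (fun _ => 1)
      · subst h1
        rw [hπ1, irr_inner_self isIrrCharacter_one]
        exact ⟨0, by simp⟩
      · rw [irr_inner_ne isIrrCharacter_one hχ (Ne.symm h1), sub_zero]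
        exact classInner_nat (piα_char hn 1) (isCharacter_of_irr hχ)
  have hψn : classInner (piα (n := n) (1 : MulChar F ℂ) - (fun _ => 1))
      (piα (n := n) (1 : MulChar F ℂ) - (fun _ => 1)) = 1 := by
    rw [classInner_sub_left, classInner_sub_right, classInner_sub_right, inner_pi_pi hn 1 1, hπ1,
      h1π, irr_inner_self isIrrCharacter_one, if_pos rfl, if_pos rfl]
    norm_num
  have hψirr := isIrrCharacter_of_inner_self_eq_one hψc hψn
  refine ⟨fun i => if e i = 1 then (piα (n := n) (1 : MulChar F ℂ) - (fun _ => 1))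
    else piα (e i), ?_, ?_, ?_⟩
  · intro i
    by_cases h : e i = 1
    · simp only [if_pos h]
      exact hψirr
    · simp only [if_neg h]
      apply isIrrCharacter_of_inner_self_eq_one (piα_char hn (e i))
      rw [inner_pi_pi hn (e i) (e i), if_neg h, if_pos rfl, zero_add]
  · intro i j hij
    simp only at hij
    have key : ∀ k : Fin (Fintype.card F - 1), e k ≠ 1 →
        (piα (n := n) (1 : MulChar F ℂ) - (fun _ => 1)) ≠ piα (e k) := by
      intro k hk hkk
      have h1 : classInner (piα (n := n) (1 : MulChar F ℂ) - (fun _ => 1)) (piα (e k)) =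
          classInner (piα (n := n) (e k)) (piα (e k)) := by rw [hkk]
      rw [inner_pi_pi hn (e k) (e k), if_neg hk, if_pos rfl, zero_add, classInner_sub_left,
        inner_pi_pi hn 1 (e k), if_pos rfl, if_neg hk, if_neg (fun h => hk h.symm)] at h1
      obtain ⟨m, hm⟩ := classInner_nat (isCharacter_one (G := Matrix.SpecialLinearGroup (Fin n) F))
        (piα_char hn (e k))
      rw [hm] at h1
      have h5 : ((m + 1 : ℕ) : ℂ) = 0 := by
        push_cast
        linear_combination (-1 : ℂ) * h1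
      exact Nat.succ_ne_zero m (Nat.cast_eq_zero.mp h5)
    by_cases hi : e i = 1 <;> by_cases hj : e j = 1
    · exact e.injective (hi.trans hj.symm)
    · rw [if_pos hi, if_neg hj] at hij
      exact absurd hij (key j hj)
    · rw [if_neg hi, if_pos hj] at hij
      exact absurd hij.symm (key i hi)
    · rw [if_neg hi, if_neg hj] at hij
      have h1 : classInner (piα (n := n) (e i)) (piα (e j)) =
          classInner (piα (n := n) (e i)) (piα (e i)) := by rw [hij]
      rw [inner_pi_pi hn (e i) (e j), inner_pi_pi hn (e i) (e i), if_neg hi, if_neg hi, if_pos rfl,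
        zero_add, zero_add] at h1
      by_contra hne
      have h6 : e i ≠ e j := fun h => hne (e.injective h)
      rw [if_neg h6] at h1
      exact zero_ne_one h1
  · intro g
    have h1 : ∀ i, (if e i = 1 then (piα (n := n) (1 : MulChar F ℂ) - (fun _ => 1))
        else piα (e i)) g = piα (e i) g - (if e i = 1 then 1 else 0) := by
      intro i
      by_cases h : e i = 1
      · rw [if_pos h, if_pos h, h]
        rfl
      · rw [if_neg h, if_neg h, sub_zero]
    rw [Finset.sum_congr rfl (fun i _ => h1 i), Finset.sum_sub_distrib,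
      Equiv.sum_comp e (fun α => piα α g),
      Equiv.sum_comp e (fun α : MulChar F ℂ => if α = 1 then (1 : ℂ) else 0),
      Finset.sum_ite_eq' Finset.univ (1 : MulChar F ℂ), if_pos (Finset.mem_univ _)]
    have h2 : ∑ α : MulChar F ℂ, piα α g = Pc (g, (1 : Fˣ)) := by
      unfold piα
      rw [← Finset.mul_sum, Finset.sum_comm]
      have h3 : ∀ c : Fˣ, ∑ α : MulChar F ℂ, conj (α (c : F)) * Pc (g, c) =
          (if c = 1 then ((Fintype.card F : ℂ) - 1) else 0) * Pc (g, c) := by
        intro c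
        rw [← Finset.sum_mul, ← map_sum, sum_mulChar]
        by_cases hc : c = 1
        · rw [if_pos hc, map_sub, Complex.conj_natCast, map_one]
        · rw [if_neg hc, map_zero]
      rw [Finset.sum_congr rfl (fun c _ => h3 c)]
      simp only [ite_mul, zero_mul]
      rw [Finset.sum_ite_eq' Finset.univ (1 : Fˣ), if_pos (Finset.mem_univ _), ← mul_assoc,
        inv_mul_cancel₀ Q_ne, one_mul]
    rw [h2]
    have h4 : Pc (g, (1 : Fˣ)) = (Nat.card {v : Fin n → F //
        v ≠ 0 ∧ (g : Matrix (Fin n) (Fin n) F).mulVec v = v} : ℂ) := by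
      unfold Pc
      rw [card_fixed, ← Nat.card_eq_finsetCard]
      congr 1
      apply Nat.card_congr
      exact Equiv.subtypeEquivRight (fun v => by simp [Pf, mv])
    rw [h4]
    ring

end Aux

/-- Let F be a finite field with q elements and n ≥ 3. The permutation character of SL_n(F) on the non-zero vectors of F^n (the function sending a matrix to the number of non-zero vectors it fixes) is the sum of the principal character and q − 1 pairwise distinct irreducible complex characters. -/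
theorem result {F : Type*} [Field F] [Fintype F] [DecidableEq F] (n : ℕ) (hn : 3 ≤ n) :
    ∃ χ : Fin (Fintype.card F - 1) → (Matrix.SpecialLinearGroup (Fin n) F → ℂ),
      (∀ i, Cfsg.IsIrrCharacter (Matrix.SpecialLinearGroup (Fin n) F) (χ i)) ∧ Function.Injective χ ∧
      ∀ g : Matrix.SpecialLinearGroup (Fin n) F,
        (Nat.card {v : Fin n → F // v ≠ 0 ∧ (g : Matrix (Fin n) (Fin n) F).mulVec v = v} : ℂ) = 1 + ∑ i, χ i g := by
  exact main hn

end Cfsg.Agent.S2336
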