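import Cfsg.Statements.S2352
-- import your own Cfsg.Agent.* helpers here

set_option autoImplicit false
open Cfsg

namespace Cfsg.Agent.S2352

section Aux

theorem exists_perm (w : FreeGroup ℕ) (hw : w ≠ 1) :
    ∃ (S : Type) (_ : Fintype S) (_ : DecidableEq S) (f : ℕ → Equiv.Perm S),
      FreeGroup.lift f w ≠ 1 := by
  classical
  obtain ⟨L, hL⟩ : ∃ L : List (ℕ × Bool), FreeGroup.mk L = w := ⟨w.toWord, FreeGroup.mk_toWord⟩
  let Sset : Set (FreeGroup ℕ) :=
    Set.range (fun k : Fin (L.length + 1) => FreeGroup.mk (L.drop k))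
  have hfin : Finite Sset := Set.finite_range _
  letI : Fintype Sset := Fintype.ofFinite _
  let e : ∀ i : ℕ, {s : Sset // FreeGroup.of i * s.1 ∈ Sset} ≃
      {s : Sset // (FreeGroup.of i)⁻¹ * s.1 ∈ Sset} := fun i =>
    { toFun := fun s => ⟨⟨FreeGroup.of i * s.1.1, s.2⟩, by
        show (FreeGroup.of i)⁻¹ * (FreeGroup.of i * s.1.1) ∈ Sset
        rw [inv_mul_cancel_left]
        exact s.1.2⟩
      invFun := fun t => ⟨⟨(FreeGroup.of i)⁻¹ * t.1.1, t.2⟩, by
        show FreeGroup.of i * ((FreeGroup.of i)⁻¹ * t.1.1) ∈ Sset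
        rw [mul_inv_cancel_left]
        exact t.1.2⟩
      left_inv := fun s => by
        apply Subtype.ext
        apply Subtype.ext
        show (FreeGroup.of i)⁻¹ * (FreeGroup.of i * s.1.1) = s.1.1
        rw [inv_mul_cancel_left]
      right_inv := fun t => by
        apply Subtype.ext
        apply Subtype.ext
        show FreeGroup.of i * ((FreeGroup.of i)⁻¹ * t.1.1) = t.1.1
        rw [mul_inv_cancel_left] }
  let f : ℕ → Equiv.Perm Sset := fun i => (e i).extendSubtype
  have hf : ∀ i (s : Sset) (hs : FreeGroup.of i * s.1 ∈ Sset),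
      f i s = ⟨FreeGroup.of i * s.1, hs⟩ := by
    intro i s hs
    show (e i).extendSubtype s = _
    rw [Equiv.extendSubtype_apply_of_mem (e i) s hs]
    rfl
  have h1 : (1 : FreeGroup ℕ) ∈ Sset := by
    refine ⟨Fin.last _, ?_⟩
    show FreeGroup.mk (L.drop L.length) = 1
    rw [List.drop_length, FreeGroup.one_eq_mk]
  have key : ∀ L' : List (ℕ × Bool), (∀ k ≤ L'.length, FreeGroup.mk (L'.drop k) ∈ Sset) →
      ∀ hm : FreeGroup.mk L' ∈ Sset,
        FreeGroup.lift f (FreeGroup.mk L') ⟨1, h1⟩ = ⟨FreeGroup.mk L', hm⟩ := by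
    intro L'
    induction L' with
    | nil =>
      intro _ hm
      apply Subtype.ext
      have h0 : FreeGroup.mk ([] : List (ℕ × Bool)) = 1 := FreeGroup.one_eq_mk.symm
      have e0 : FreeGroup.lift f (FreeGroup.mk ([] : List (ℕ × Bool))) = 1 := by
        rw [h0, map_one]
      rw [e0]
      exact h0.symm
    | cons a L'' ih =>
      intro hsuf hm
      obtain ⟨i, b⟩ := a
      have hm'' : FreeGroup.mk L'' ∈ Sset := hsuf 1 (by simp)
      have ih' := ih (fun k hk => hsuf (k + 1) (by simpa using hk)) hm''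
      have hmk : FreeGroup.mk ((i, b) :: L'') = FreeGroup.mk [(i, b)] * FreeGroup.mk L'' := by
        rw [FreeGroup.mul_mk]
        rfl
      cases b with
      | true =>
        have hprod : FreeGroup.mk ((i, true) :: L'') = FreeGroup.of i * FreeGroup.mk L'' := hmk
        have hm2 : FreeGroup.of i * FreeGroup.mk L'' ∈ Sset := hprod ▸ hm
        calc FreeGroup.lift f (FreeGroup.mk ((i, true) :: L'')) ⟨1, h1⟩
            = (f i * FreeGroup.lift f (FreeGroup.mk L'')) ⟨1, h1⟩ := by
              rw [hprod, map_mul, FreeGroup.lift_apply_of]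
          _ = f i (FreeGroup.lift f (FreeGroup.mk L'') ⟨1, h1⟩) := rfl
          _ = f i ⟨FreeGroup.mk L'', hm''⟩ := by rw [ih']
          _ = ⟨FreeGroup.of i * FreeGroup.mk L'', hm2⟩ := hf i _ hm2
          _ = ⟨FreeGroup.mk ((i, true) :: L''), hm⟩ := Subtype.ext hprod.symm
      | false =>
        have e1 : FreeGroup.mk [(i, false)] = (FreeGroup.of i)⁻¹ := by
          rw [FreeGroup.of, FreeGroup.inv_mk]
          rfl
        have hprod : FreeGroup.mk ((i, false) :: L'') =
            (FreeGroup.of i)⁻¹ * FreeGroup.mk L'' := by rw [hmk, e1]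
        have hm2 : (FreeGroup.of i)⁻¹ * FreeGroup.mk L'' ∈ Sset := hprod ▸ hm
        have hback : FreeGroup.of i * ((FreeGroup.of i)⁻¹ * FreeGroup.mk L'') ∈ Sset := by
          rw [mul_inv_cancel_left]
          exact hm''
        have hfi : f i ⟨(FreeGroup.of i)⁻¹ * FreeGroup.mk L'', hm2⟩ =
            ⟨FreeGroup.mk L'', hm''⟩ := by
          rw [hf i _ hback]
          exact Subtype.ext (mul_inv_cancel_left _ _)
        calc FreeGroup.lift f (FreeGroup.mk ((i, false) :: L'')) ⟨1, h1⟩
            = ((f i)⁻¹ * FreeGroup.lift f (FreeGroup.mk L'')) ⟨1, h1⟩ := by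
              rw [hprod, map_mul, map_inv, FreeGroup.lift_apply_of]
          _ = (f i)⁻¹ (FreeGroup.lift f (FreeGroup.mk L'') ⟨1, h1⟩) := rfl
          _ = (f i)⁻¹ ⟨FreeGroup.mk L'', hm''⟩ := by rw [ih']
          _ = ⟨(FreeGroup.of i)⁻¹ * FreeGroup.mk L'', hm2⟩ := by
              rw [← hfi]
              exact (f i).symm_apply_apply _
          _ = ⟨FreeGroup.mk ((i, false) :: L''), hm⟩ := Subtype.ext hprod.symm
  have hsuf : ∀ k ≤ L.length, FreeGroup.mk (L.drop k) ∈ Sset :=
    fun k hk => ⟨⟨k, by omega⟩, rfl⟩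
  have hmL : FreeGroup.mk L ∈ Sset := hsuf 0 (Nat.zero_le _)
  have hkey := key L hsuf hmL
  refine ⟨Sset, inferInstance, inferInstance, f, ?_⟩
  intro h
  have h' : FreeGroup.lift f (FreeGroup.mk L) = 1 := by
    rw [hL]
    exact h
  rw [h'] at hkey
  have h2 : (1 : FreeGroup ℕ) = FreeGroup.mk L := congrArg Subtype.val hkey
  exact hw (hL ▸ h2.symm)

theorem main (w : FreeGroup ℕ) (hw : w ≠ 1) :
    ∃ N : ℕ, ∀ n : ℕ, N ≤ n → ∃ f : ℕ → alternatingGroup (Fin n), FreeGroup.lift f w ≠ 1 := by
  classical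
  obtain ⟨S, hS, hD, f, hf⟩ := exists_perm w hw
  refine ⟨2 * Fintype.card S, fun n hn => ?_⟩
  have hcard : Fintype.card (S ⊕ S) ≤ Fintype.card (Fin n) := by
    rw [Fintype.card_sum, Fintype.card_fin]
    omega
  obtain ⟨e⟩ := Function.Embedding.nonempty_of_card_le hcard
  let Ψ : Equiv.Perm S →* Equiv.Perm (Fin n) :=
    (Equiv.Perm.viaEmbeddingHom e).comp ((Equiv.Perm.sumCongrHom S S).comp
      (MonoidHom.prod (MonoidHom.id _) (MonoidHom.id _)))
  have hΨinj : Function.Injective Ψ := by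
    refine (Equiv.Perm.viaEmbeddingHom_injective e).comp
      (Equiv.Perm.sumCongrHom_injective.comp ?_)
    intro a b hab
    exact congrArg Prod.fst hab
  have hΨeven : ∀ σ, Ψ σ ∈ alternatingGroup (Fin n) := by
    intro σ
    rw [Equiv.Perm.mem_alternatingGroup]
    show Equiv.Perm.sign (Equiv.Perm.viaEmbedding (Equiv.Perm.sumCongr σ σ) e) = 1
    rw [Equiv.Perm.viaEmbedding, Equiv.Perm.sign_extendDomain, Equiv.Perm.sign_sumCongr,
      Int.units_mul_self]
  refine ⟨fun i => ⟨Ψ (f i), hΨeven _⟩, ?_⟩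
  intro h
  apply hf
  apply hΨinj
  rw [map_one]
  have hcomp : (alternatingGroup (Fin n)).subtype.comp
      (FreeGroup.lift (fun i => (⟨Ψ (f i), hΨeven _⟩ : alternatingGroup (Fin n)))) =
      Ψ.comp (FreeGroup.lift f) := by
    apply FreeGroup.ext_hom
    intro i
    simp only [MonoidHom.comp_apply, FreeGroup.lift_apply_of]
    rfl
  have h3 := DFunLike.congr_fun hcomp w
  simp only [MonoidHom.comp_apply] at h3
  rw [← h3, h]
  rfl

end Aux

/-- A non-trivial law holds in only finitely many alternating groups: for every non-trivial element w of the free group on countably many generators there is N such that for all n ≥ N some substitution of elements of the alternating group of degree n into w is not the identity. -/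
theorem result (w : FreeGroup ℕ) (hw : w ≠ 1) :
    ∃ N : ℕ, ∀ n : ℕ, N ≤ n → ∃ f : ℕ → alternatingGroup (Fin n), FreeGroup.lift f w ≠ 1 := by
  exact main w hw

end Cfsg.Agent.S2352
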