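import Cfsg.Statements.S2360
import Mathlib
import Cfsg.Agent.Lib_helper8_HermWitt
import Cfsg.Agent.Lib_helper4_SU
import Cfsg.Agent.Lib_helper4_Transv
import Cfsg.Agent.Lib_helper8_Transv
import Cfsg.Agent.S2677
import Cfsg.Agent.S0284
import Cfsg.Agent.S0754

set_option autoImplicit false
open Cfsg

namespace Cfsg.Agent.S2360

section Aux
open Matrix Cfsg.Agent.Lib_helper4_Herm Cfsg.Agent.Lib_helper4_GU Cfsg.Agent.Lib_helper4_SUCenter
  Cfsg.Agent.Lib_helper8_HermWitt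

variable {K : Type*} [Field K] [Fintype K] {q n : ℕ}

/-- The involution `y ↦ -y + 2 h(y, v) v`. -/
def R (q : ℕ) (v : Fin n → K) : Matrix (Fin n) (Fin n) K :=
  (2 : K) • vecMulVec v (fun j => v j ^ q) - 1

omit [Fintype K] in
theorem hdot (v x : Fin n → K) : (fun j => v j ^ q) ⬝ᵥ x = Cfsg.hermForm n K q x v := by
  unfold Cfsg.hermForm dotProduct
  refine Finset.sum_congr rfl fun i _ => ?_
  rw [mul_comm]

omit [Fintype K] in
theorem R_mulVec (v x : Fin n → K) : R q v *ᵥ x = (2 * Cfsg.hermForm n K q x v) • v - x := by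
  unfold R
  rw [sub_mulVec, one_mulVec, smul_mulVec, vecMulVec_mulVec, hdot, op_smul_eq_smul, smul_smul]

theorem two_frob (hK : Fintype.card K = q ^ 2) : (2 : K) ^ q = 2 := by
  rw [← one_add_one_eq_two, frob_add hK, one_pow]

theorem R_pres (hK : Fintype.card K = q ^ 2) (v : Fin n → K) (hv : Cfsg.hermForm n K q v v = 1) :
    Cfsg.Agent.S2644.Pres q (R q v) := by
  intro x y
  rw [R_mulVec, R_mulVec]
  simp only [herm_sub_left, herm_sub_right hK, herm_smul_left, herm_smul_right, mul_pow,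
    two_frob hK, herm_conj hK, hv]
  ring

omit [Fintype K] in
theorem R_det (v : Fin 3 → K) (hv : Cfsg.hermForm 3 K q v v = 1) : (R q v).det = 1 := by
  have e : R q v = -(1 + vecMulVec ((-2 : K) • v) (fun j => v j ^ q)) := by
    ext i j
    simp only [R, Matrix.sub_apply, Matrix.smul_apply, vecMulVec_apply, Matrix.neg_apply,
      Matrix.add_apply, Pi.smul_apply, smul_eq_mul]
    ring
  rw [e, Matrix.det_neg, Fintype.card_fin, Cfsg.Agent.Lib_helper4_Transv.det_one_add_vecMulVec,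
    hdot, herm_smul_left, hv]
  norm_num

omit [Fintype K] in
theorem R_sq (v : Fin n → K) (hv : Cfsg.hermForm n K q v v = 1) : R q v * R q v = 1 := by
  apply Matrix.ext_of_mulVec_single
  intro j
  have hL : (R q v * R q v) *ᵥ Pi.single j 1 = R q v *ᵥ (R q v *ᵥ Pi.single j 1) :=
    (mulVec_mulVec _ _ _).symm
  rw [hL, R_mulVec, R_mulVec, one_mulVec, herm_sub_left, herm_smul_left, hv]
  ext i
  simp only [Pi.sub_apply, Pi.smul_apply, smul_eq_mul]
  ring

omit [Fintype K] in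
theorem R_ne_one (h2 : (2 : K) ≠ 0) (v : Fin 3 → K) (hv : Cfsg.hermForm 3 K q v v = 1) :
    R q v ≠ 1 := by
  intro h
  have h1 := congrArg Matrix.trace h
  unfold R at h1
  rw [Matrix.trace_sub, Matrix.trace_smul, Matrix.trace_vecMulVec, Matrix.trace_one,
    Fintype.card_fin] at h1
  have h3 : v ⬝ᵥ (fun j => v j ^ q) = Cfsg.hermForm 3 K q v v := by
    unfold Cfsg.hermForm dotProduct; rfl
  rw [h3, hv] at h1
  have h4 : (2 : K) * 2 = 0 := by
    simp only [smul_eq_mul, mul_one] at h1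
    push_cast at h1
    linear_combination -h1
  rcases mul_eq_zero.mp h4 with h | h <;> exact h2 h

theorem R_smul (v : Fin n → K) (c : K) (hc : c ^ (q + 1) = 1) : R q (c • v) = R q v := by
  ext i j
  simp only [R, Matrix.sub_apply, Matrix.smul_apply, vecMulVec_apply, Pi.smul_apply, smul_eq_mul]
  rw [mul_pow]
  have hc' : c * c ^ q = 1 := by rw [← pow_succ']; exact hc
  linear_combination (2 * v i * v j ^ q) * hc'

theorem R_eq (hK : Fintype.card K = q ^ 2) (h2 : (2 : K) ≠ 0) (v v' : Fin n → K)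
    (hv : Cfsg.hermForm n K q v v = 1) (hv' : Cfsg.hermForm n K q v' v' = 1)
    (h : R q v = R q v') : ∃ c : K, c ^ (q + 1) = 1 ∧ v' = c • v := by
  have h1 := congrArg (fun M => M *ᵥ v) h
  simp only [R_mulVec, hv, mul_one] at h1
  have h3 : v = Cfsg.hermForm n K q v v' • v' := by
    have h4 : (2 : K) • v = (2 : K) • (Cfsg.hermForm n K q v v' • v') := by
      rw [smul_smul, two_smul]
      have h5 : (2 : K) • v - v = v := by rw [two_smul, add_sub_cancel_right]
      rw [h5] at h1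
      exact eq_sub_iff_add_eq.mp h1
    exact smul_right_injective _ h2 h4
  set d := Cfsg.hermForm n K q v v' with hd
  have hd1 : d * d ^ q * Cfsg.hermForm n K q v' v' = 1 := by
    have h5 := hv
    rw [h3, herm_smul_left, herm_smul_right] at h5
    rw [← h5]; ring
  have hd0 : d ≠ 0 := by
    rintro h0
    rw [h0, zero_mul, zero_mul] at hd1
    exact zero_ne_one hd1
  refine ⟨d⁻¹, ?_, ?_⟩
  · rw [hv', mul_one, ← pow_succ'] at hd1
    rw [inv_pow, hd1, inv_one]
  · rw [h3, smul_smul, inv_mul_cancel₀ hd0, one_smul]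

omit [Fintype K] in
theorem R_conj (M : Matrix (Fin n) (Fin n) K) (hM : Cfsg.Agent.S2644.Pres q M) (v : Fin n → K) :
    M * R q v = R q (M *ᵥ v) * M := by
  apply Matrix.ext_of_mulVec_single
  intro j
  have hL : (M * R q v) *ᵥ Pi.single j 1 = M *ᵥ (R q v *ᵥ Pi.single j 1) :=
    (mulVec_mulVec _ _ _).symm
  have hR : (R q (M *ᵥ v) * M) *ᵥ Pi.single j 1 = R q (M *ᵥ v) *ᵥ (M *ᵥ Pi.single j 1) :=
    (mulVec_mulVec _ _ _).symm
  rw [hL, hR, R_mulVec, R_mulVec, hM, mulVec_sub, mulVec_smul]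

theorem rank_one_decomp {ι : Type} [Fintype ι] [DecidableEq ι] {F : Type*} [Field F]
    (N : Matrix ι ι F) (hr : N.rank = 1) : ∃ a φ : ι → F, a ≠ 0 ∧ N = vecMulVec a φ := by
  have hr' : Module.finrank F (LinearMap.range N.mulVecLin) = 1 := hr
  obtain ⟨⟨x, hxr⟩, hx0, hxs⟩ := finrank_eq_one_iff'.mp hr'
  have hx : x ≠ 0 := by
    rintro rfl
    exact hx0 rfl
  have hcol : ∀ j : ι, ∃ c : F, c • x = N *ᵥ Pi.single j 1 := by
    intro j
    obtain ⟨c, hc⟩ := hxs ⟨N *ᵥ Pi.single j 1, ⟨Pi.single j 1, rfl⟩⟩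
    exact ⟨c, congrArg Subtype.val hc⟩
  choose φ hφ using hcol
  refine ⟨x, φ, hx, ?_⟩
  ext i j
  have := congrFun (hφ j) i
  rw [Matrix.mulVec_single_one] at this
  simp only [Pi.smul_apply, smul_eq_mul] at this
  rw [vecMulVec_apply, mul_comm]
  exact this.symm

theorem inv_form (hK : Fintype.card K = q ^ 2) (h2 : (2 : K) ≠ 0) (X : Matrix (Fin 3) (Fin 3) K)
    (hX2 : X * X = 1) (hdet : X.det = 1) (hX1 : X ≠ 1) (hp : Cfsg.Agent.S2644.Pres q X) :
    ∃ v : Fin 3 → K, Cfsg.hermForm 3 K q v v = 1 ∧ X = R q v := by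
  have hq : q ≠ 0 := Nat.pos_iff_ne_zero.mp (q_pos hK)
  have hmul : (X - 1) * (X + 1) = 0 := by
    rw [Matrix.sub_mul, Matrix.mul_add, Matrix.mul_one, Matrix.one_mul, hX2]; abel
  have hle : (X - 1).rank + (X + 1).rank ≤ 3 := by
    have := Matrix.rank_add_rank_le_card_of_mul_eq_zero hmul
    simpa using this
  have hge : 3 ≤ (X - 1).rank + (X + 1).rank := by
    have htop : LinearMap.range (X - 1).mulVecLin ⊔ LinearMap.range (X + 1).mulVecLin = ⊤ := by
      rw [eq_top_iff]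
      intro u _
      have hu : u = (X - 1).mulVecLin ((-2⁻¹ : K) • u) + (X + 1).mulVecLin ((2⁻¹ : K) • u) := by
        simp only [Matrix.mulVecLin_apply, sub_mulVec, add_mulVec, one_mulVec, mulVec_smul]
        ext i
        simp only [Pi.add_apply, Pi.sub_apply, Pi.smul_apply, smul_eq_mul]
        field_simp
        ring
      rw [hu]
      exact Submodule.add_mem_sup ⟨_, rfl⟩ ⟨_, rfl⟩
    have := Submodule.finrank_add_le_finrank_add_finrank (LinearMap.range (X - 1).mulVecLin)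
      (LinearMap.range (X + 1).mulVecLin)
    rw [htop, finrank_top, Module.finrank_fin_fun] at this
    exact this
  have hm0 : (X - 1).rank ≠ 0 :=
    Cfsg.Agent.Lib_helper8_Transv.rank_ne_zero (sub_ne_zero.mpr hX1)
  have hp0 : (X + 1).rank ≠ 0 := by
    apply Cfsg.Agent.Lib_helper8_Transv.rank_ne_zero
    intro h0
    have hX : X = -1 := eq_neg_of_add_eq_zero_left h0
    rw [hX, Matrix.det_neg, Fintype.card_fin, Matrix.det_one] at hdet
    apply h2
    linear_combination -hdet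
  have hm1 : (X - 1).rank ≠ 1 := by
    intro h1
    obtain ⟨a, φ, ha, hN⟩ := rank_one_decomp _ h1
    have hsq : (X - 1) * (X - 1) = (-2 : K) • (X - 1) := by
      have e : (X - 1) * (X - 1) = (X - 1) * (X + 1) - (2 : K) • (X - 1) := by
        rw [Matrix.mul_sub, Matrix.mul_add, Matrix.mul_one, two_smul]; abel
      rw [e, hmul, zero_sub, neg_smul]
    rw [hN, vecMulVec_mul_vecMulVec, Matrix.vecMulVec_smul] at hsq
    have hN0 : vecMulVec a φ ≠ 0 := by rw [← hN]; exact sub_ne_zero.mpr hX1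
    have hφa : φ ⬝ᵥ a = -2 := by
      by_contra hne
      apply hN0
      have h3 : (φ ⬝ᵥ a + 2) • vecMulVec a φ = 0 := by
        rw [add_smul, hsq, neg_smul, neg_add_cancel]
      rcases smul_eq_zero.mp h3 with h | h
      · exact absurd (eq_neg_of_add_eq_zero_left h) hne
      · exact h
    have hX : X = 1 + vecMulVec a φ := by rw [← hN]; abel
    rw [hX, Cfsg.Agent.Lib_helper4_Transv.det_one_add_vecMulVec, hφa] at hdet
    apply h2
    linear_combination -hdet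
  have hp1 : (X + 1).rank = 1 := by omega
  obtain ⟨a, φ, ha, hN⟩ := rank_one_decomp _ hp1
  have hN0 : X + 1 ≠ 0 := by
    intro h0
    rw [h0, Matrix.rank_zero] at hp1
    exact zero_ne_one hp1
  have hsq : (X + 1) * (X + 1) = (2 : K) • (X + 1) := by
    rw [Matrix.add_mul, Matrix.mul_add, Matrix.mul_one, Matrix.one_mul, hX2, two_smul]; abel
  rw [hN, vecMulVec_mul_vecMulVec, Matrix.vecMulVec_smul] at hsq
  have hφa : φ ⬝ᵥ a = 2 := by
    by_contra hne
    apply hN0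
    rw [hN]
    have h3 : (φ ⬝ᵥ a - 2) • vecMulVec a φ = 0 := by rw [sub_smul, hsq, sub_self]
    rcases smul_eq_zero.mp h3 with h | h
    · exact absurd (sub_eq_zero.mp h) hne
    · exact h
  have hXu : ∀ u, X *ᵥ u = (φ ⬝ᵥ u) • a - u := by
    intro u
    have hX : X = vecMulVec a φ - 1 := by rw [← hN]; abel
    rw [hX, sub_mulVec, one_mulVec, vecMulVec_mulVec, op_smul_eq_smul]
  set ν := Cfsg.hermForm 3 K q a a with hν
  have hE : ∀ v, (φ ⬝ᵥ v) ^ q * ν = 2 * Cfsg.hermForm 3 K q a v := by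
    intro v
    have h := hp a v
    rw [hXu, hXu, hφa] at h
    simp only [herm_sub_left, herm_sub_right hK, herm_smul_left, herm_smul_right] at h
    linear_combination h
  have hν0 : ν ≠ 0 := by
    intro h0
    obtain ⟨i, hi⟩ : ∃ i, a i ≠ 0 := by
      by_contra hne
      push Not at hne
      exact ha (funext hne)
    have h := hE (Pi.single i 1)
    rw [h0, mul_zero, herm_single_right hq] at h
    rcases mul_eq_zero.mp h.symm with h' | h'
    · exact h2 h'
    · exact hi h'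
  have hνq : ν ^ q = ν := herm_conj hK a a
  have hφ : ∀ v, φ ⬝ᵥ v = 2 * Cfsg.hermForm 3 K q v a / ν := by
    intro v
    have h : ((φ ⬝ᵥ v) ^ q * ν) ^ q = (2 * Cfsg.hermForm 3 K q a v) ^ q := by rw [hE v]
    rw [mul_pow, frob_frob hK, hνq, mul_pow, two_frob hK, herm_conj hK] at h
    rw [eq_div_iff hν0, h]
  have hfix : (ν⁻¹) ^ q = ν⁻¹ := by rw [inv_pow, hνq]
  obtain ⟨μ, hμ⟩ := Cfsg.Agent.S2677.norm_surj hK _ (inv_ne_zero hν0) hfix
  have hμ' : μ * μ ^ q = ν⁻¹ := by rw [← pow_succ']; exact hμ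
  refine ⟨μ • a, ?_, ?_⟩
  · rw [herm_smul_left, herm_smul_right, ← mul_assoc, hμ', inv_mul_cancel₀ hν0]
  · apply Matrix.ext_of_mulVec_single
    intro j
    rw [hXu, R_mulVec, hφ, herm_smul_right, smul_smul]
    congr 2
    rw [div_eq_mul_inv, ← hμ']; ring

/-- The involution of `SU₃` attached to a unit vector. -/
def rS (hK : Fintype.card K = q ^ 2) (v : Fin 3 → K) (hv : Cfsg.hermForm 3 K q v v = 1) :
    ↥(Cfsg.SU 3 K q) :=
  ⟨⟨R q v, R_det v hv⟩, (mem_SU_iff _).mpr (R_pres hK v hv)⟩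

theorem rS_sq (hK : Fintype.card K = q ^ 2) (v : Fin 3 → K) (hv : Cfsg.hermForm 3 K q v v = 1) :
    rS hK v hv * rS hK v hv = 1 := by
  apply Subtype.ext; apply Subtype.ext
  exact R_sq v hv

theorem rS_ne_one (hK : Fintype.card K = q ^ 2) (h2 : (2 : K) ≠ 0) (v : Fin 3 → K)
    (hv : Cfsg.hermForm 3 K q v v = 1) : rS hK v hv ≠ 1 := by
  intro h
  apply R_ne_one h2 v hv
  have := congrArg (fun z : ↥(Cfsg.SU 3 K q) =>
    ((z.1 : Matrix.SpecialLinearGroup (Fin 3) K) : Matrix (Fin 3) (Fin 3) K)) h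
  exact this

theorem exists_rS (hK : Fintype.card K = q ^ 2) (h2 : (2 : K) ≠ 0) (x : ↥(Cfsg.SU 3 K q))
    (hx1 : x ≠ 1) (hx2 : x * x = 1) :
    ∃ (v : Fin 3 → K) (hv : Cfsg.hermForm 3 K q v v = 1), x = rS hK v hv := by
  have hX2 : (x.1 : Matrix (Fin 3) (Fin 3) K) * (x.1 : Matrix (Fin 3) (Fin 3) K) = 1 := by
    have := congrArg (fun z : ↥(Cfsg.SU 3 K q) =>
      ((z.1 : Matrix.SpecialLinearGroup (Fin 3) K) : Matrix (Fin 3) (Fin 3) K)) hx2
    exact this
  have hX1 : (x.1 : Matrix (Fin 3) (Fin 3) K) ≠ 1 := by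
    intro h0
    exact hx1 (Subtype.ext (Subtype.ext h0))
  obtain ⟨v, hv, hX⟩ := inv_form hK h2 _ hX2 x.1.2 hX1 ((mem_SU_iff _).mp x.2)
  exact ⟨v, hv, Subtype.ext (Subtype.ext hX)⟩

omit [Fintype K] in
theorem unit_ne_zero (v : Fin n → K) (hv : Cfsg.hermForm n K q v v = 1) : v ≠ 0 := by
  rintro rfl
  rw [herm_zero_left] at hv
  exact zero_ne_one hv

theorem conj_rS (hK : Fintype.card K = q ^ 2) (v w : Fin 3 → K)
    (hv : Cfsg.hermForm 3 K q v v = 1) (hw : Cfsg.hermForm 3 K q w w = 1) :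
    ∃ g : ↥(Cfsg.SU 3 K q), g * rS hK v hv * g⁻¹ = rS hK w hw := by
  have hli : ∀ z : Fin 3 → K, z ≠ 0 → LinearIndependent K (fun _ : Fin 1 => z) := by
    intro z hz
    rw [Fintype.linearIndependent_iff]
    intro g hg i
    rw [Fin.sum_univ_one] at hg
    have h0 : g 0 = 0 := (smul_eq_zero.mp hg).resolve_right hz
    rw [Fin.fin_one_eq_zero i]; exact h0
  obtain ⟨M0, hM0, hM0v⟩ := witt_family hK (fun _ : Fin 1 => v) (fun _ => w)
    (hli v (unit_ne_zero v hv)) (hli w (unit_ne_zero w hw)) (fun _ _ => by rw [hw, hv])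
  have hM0v' : M0 *ᵥ v = w := hM0v 0
  have hdet0 : M0.det ^ (q + 1) = 1 := Cfsg.Agent.Lib_helper4_SU.det_pow_of_preserves hK M0 hM0
  have hdetne : M0.det ≠ 0 := by
    intro h0
    rw [h0, zero_pow (by omega)] at hdet0
    exact zero_ne_one hdet0
  set δ := (M0.det)⁻¹ with hδ
  have hδn : δ ^ (q + 1) = 1 := by rw [hδ, inv_pow, hdet0, inv_one]
  set k := Cfsg.unitaryTransvection 3 q w (δ - 1) with hk
  have hkp : Cfsg.Agent.S2644.Pres q k := by
    intro x y
    rw [hk, herm_transvection hK, hw, frob_sub hK, one_pow]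
    have h1 : δ ^ q * δ = 1 := by rw [← pow_succ]; exact hδn
    linear_combination (Cfsg.hermForm 3 K q x w * Cfsg.hermForm 3 K q w y) * h1
  have hkdet : k.det = δ := by
    rw [hk]; unfold Cfsg.unitaryTransvection
    rw [← Matrix.smul_vecMulVec, Cfsg.Agent.Lib_helper4_Transv.det_one_add_vecMulVec, hdot,
      herm_smul_left, hw]
    ring
  have hkw : k *ᵥ w = δ • w := by
    rw [hk, unitaryTransvection_mulVec, hw, mul_one, sub_smul, one_smul]; abel
  have hdet : (k * M0).det = 1 := by rw [Matrix.det_mul, hkdet, hδ, inv_mul_cancel₀ hdetne]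
  let g : ↥(Cfsg.SU 3 K q) := ⟨⟨k * M0, hdet⟩, (mem_SU_iff _).mpr (hkp.mul hM0)⟩
  refine ⟨g, ?_⟩
  rw [mul_inv_eq_iff_eq_mul]
  apply Subtype.ext; apply Subtype.ext
  show (k * M0) * R q v = R q w * (k * M0)
  rw [R_conj _ (hkp.mul hM0) v, ← mulVec_mulVec, hM0v', hkw, R_smul w δ hδn]

theorem orth_of_commute (hK : Fintype.card K = q ^ 2) (h2 : (2 : K) ≠ 0) (v w : Fin 3 → K)
    (hv : Cfsg.hermForm 3 K q v v = 1) (hw : Cfsg.hermForm 3 K q w w = 1)
    (hne : rS hK v hv ≠ rS hK w hw) (hc : Commute (rS hK v hv) (rS hK w hw)) :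
    Cfsg.hermForm 3 K q v w = 0 := by
  have hm : R q v * R q w = R q w * R q v := by
    have := congrArg (fun z : ↥(Cfsg.SU 3 K q) =>
      ((z.1 : Matrix.SpecialLinearGroup (Fin 3) K) : Matrix (Fin 3) (Fin 3) K)) hc.eq
    exact this
  have h1 : R q (R q w *ᵥ v) = R q v := by
    have h3 := R_conj (R q w) (R_pres hK w hw) v
    calc R q (R q w *ᵥ v) = R q (R q w *ᵥ v) * (R q w * R q w) := by
          rw [R_sq w hw, Matrix.mul_one]
      _ = (R q w * R q v) * R q w := by rw [← Matrix.mul_assoc, ← h3]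
      _ = (R q v * R q w) * R q w := by rw [hm]
      _ = R q v := by rw [Matrix.mul_assoc, R_sq w hw, Matrix.mul_one]
  have hu : Cfsg.hermForm 3 K q (R q w *ᵥ v) (R q w *ᵥ v) = 1 := by rw [R_pres hK w hw, hv]
  obtain ⟨c, hc1, hc2⟩ := R_eq hK h2 v (R q w *ᵥ v) hv hu h1.symm
  rw [R_mulVec] at hc2
  by_contra hvw
  apply hne
  have h5 : (2 * Cfsg.hermForm 3 K q v w) • w = (c + 1) • v := by
    rw [add_smul, one_smul, ← hc2]; abel
  have hw' : w = ((c + 1) / (2 * Cfsg.hermForm 3 K q v w)) • v := by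
    rw [div_eq_inv_mul, ← smul_smul, ← h5, smul_smul, inv_mul_cancel₀ (mul_ne_zero h2 hvw),
      one_smul]
  have h6 : Cfsg.hermForm 3 K q (((c + 1) / (2 * Cfsg.hermForm 3 K q v w)) • v)
      (((c + 1) / (2 * Cfsg.hermForm 3 K q v w)) • v) = 1 := by rw [← hw']; exact hw
  rw [herm_smul_left, herm_smul_right, hv, mul_one, ← pow_succ'] at h6
  apply Subtype.ext; apply Subtype.ext
  show R q v = R q w
  exact ((congrArg (R q) hw').trans (R_smul v _ h6)).symm

theorem R_mul_of_orthonormal (hK : Fintype.card K = q ^ 2) (v w z : Fin 3 → K)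
    (hv : Cfsg.hermForm 3 K q v v = 1) (hw : Cfsg.hermForm 3 K q w w = 1)
    (hz : Cfsg.hermForm 3 K q z z = 1) (hvw : Cfsg.hermForm 3 K q v w = 0)
    (hvz : Cfsg.hermForm 3 K q v z = 0) (hwz : Cfsg.hermForm 3 K q w z = 0) :
    R q v * R q w = R q z := by
  have hq : q ≠ 0 := Nat.pos_iff_ne_zero.mp (q_pos hK)
  have hwv : Cfsg.hermForm 3 K q w v = 0 := by rw [← herm_conj hK v w, hvw, zero_pow hq]
  have hzv : Cfsg.hermForm 3 K q z v = 0 := by rw [← herm_conj hK v z, hvz, zero_pow hq]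
  have hzw : Cfsg.hermForm 3 K q z w = 0 := by rw [← herm_conj hK w z, hwz, zero_pow hq]
  set G : Matrix (Fin 3) (Fin 3) K := Matrix.of (fun i j => ![v, w, z] j i) with hG
  set Gs : Matrix (Fin 3) (Fin 3) K := Matrix.of (fun i j => (![v, w, z] i j) ^ q) with hGs
  have h1 : Gs * G = 1 := by
    ext i j
    rw [Matrix.mul_apply, Matrix.one_apply]
    have h3 : ∑ l, Gs i l * G l j = Cfsg.hermForm 3 K q (![v, w, z] j) (![v, w, z] i) := by
      unfold Cfsg.hermForm
      refine Finset.sum_congr rfl fun l _ => ?_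
      simp only [hG, hGs, Matrix.of_apply]; rw [mul_comm]
    rw [h3]
    fin_cases i <;> fin_cases j <;> simp [hv, hw, hz, hvw, hvz, hwz, hwv, hzv, hzw]
  have h2 : G * Gs = 1 := mul_eq_one_comm.mp h1
  have hcomp : vecMulVec v (fun j => v j ^ q) + vecMulVec w (fun j => w j ^ q)
      + vecMulVec z (fun j => z j ^ q) = 1 := by
    rw [← h2]
    ext i j
    rw [Matrix.mul_apply, Fin.sum_univ_three]
    simp [hG, hGs, vecMulVec_apply]
  have hAB : vecMulVec v (fun j => v j ^ q) * vecMulVec w (fun j => w j ^ q) = 0 := by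
    rw [vecMulVec_mul_vecMulVec, hdot, hwv, zero_smul]
    ext i j
    simp [vecMulVec_apply]
  have hC : vecMulVec z (fun j => z j ^ q)
      = 1 - vecMulVec v (fun j => v j ^ q) - vecMulVec w (fun j => w j ^ q) := by
    rw [← hcomp]; abel
  unfold R
  rw [hC]
  generalize vecMulVec v (fun j => v j ^ q) = A at hAB ⊢
  generalize vecMulVec w (fun j => w j ^ q) = B at hAB ⊢
  have h5 : ((2 : K) • A - 1) * ((2 : K) • B - 1) = (4 : K) • (A * B) - (2 : K) • A - (2 : K) • B + 1 := by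
    rw [Matrix.sub_mul, Matrix.mul_sub, Matrix.mul_sub, Matrix.smul_mul, Matrix.mul_smul,
      Matrix.mul_one, Matrix.one_mul, Matrix.mul_one, smul_smul]
    norm_num
    abel
  rw [h5, hAB, smul_zero]
  module

theorem card_invol_mul (hK : Fintype.card K = q ^ 2) (h2 : (2 : K) ≠ 0) :
    Nat.card {x : ↥(Cfsg.SU 3 K q) // x ≠ 1 ∧ x * x = 1} * (q + 1) = q ^ 2 * (q ^ 3 + 1) := by
  classical
  have hU := Cfsg.Agent.S0284.result hK 3
  rw [if_neg (by decide)] at hU
  let f : {v : Fin 3 → K // Cfsg.hermForm 3 K q v v = 1} →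
      {x : ↥(Cfsg.SU 3 K q) // x ≠ 1 ∧ x * x = 1} :=
    fun v => ⟨rS hK v.1 v.2, rS_ne_one hK h2 v.1 v.2, rS_sq hK v.1 v.2⟩
  have hfib : ∀ x, Nat.card {v // f v = x} = q + 1 := by
    intro x
    obtain ⟨v0, hv0, hx⟩ := exists_rS hK h2 x.1 x.2.1 x.2.2
    have hC := Cfsg.Agent.S0754.result hK (1 : K) one_ne_zero (one_pow q)
    rw [← hC]
    have hmem : ∀ c : {c : K // c ^ (q + 1) = 1}, Cfsg.hermForm 3 K q (c.1 • v0) (c.1 • v0) = 1 := by
      intro c
      rw [herm_smul_left, herm_smul_right, ← mul_assoc, ← pow_succ', c.2, one_mul, hv0]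
    have hfc : ∀ c : {c : K // c ^ (q + 1) = 1}, f ⟨c.1 • v0, hmem c⟩ = x := by
      intro c
      apply Subtype.ext
      show rS hK (c.1 • v0) (hmem c) = x.1
      rw [hx]
      apply Subtype.ext; apply Subtype.ext
      exact R_smul v0 c.1 c.2
    refine (Nat.card_congr (Equiv.ofBijective
      (fun c : {c : K // c ^ (q + 1) = 1} => (⟨⟨c.1 • v0, hmem c⟩, hfc c⟩ : {v // f v = x}))
      ⟨?_, ?_⟩)).symm
    · intro c c' hcc
      have h1 : c.1 • v0 = c'.1 • v0 :=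
        congrArg (fun z : {v // f v = x} => (z.1.1 : Fin 3 → K)) hcc
      apply Subtype.ext
      have h3 : (c.1 - c'.1) • v0 = 0 := by rw [sub_smul, h1, sub_self]
      exact sub_eq_zero.mp ((smul_eq_zero.mp h3).resolve_right (unit_ne_zero v0 hv0))
    · rintro ⟨⟨v, hv⟩, hvx⟩
      have h1 : R q v0 = R q v := by
        have h3 := congrArg (fun z : {x : ↥(Cfsg.SU 3 K q) // x ≠ 1 ∧ x * x = 1} =>
          ((z.1.1 : Matrix.SpecialLinearGroup (Fin 3) K) : Matrix (Fin 3) (Fin 3) K)) hvx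
        have h4 := congrArg (fun z : ↥(Cfsg.SU 3 K q) =>
          ((z.1 : Matrix.SpecialLinearGroup (Fin 3) K) : Matrix (Fin 3) (Fin 3) K)) hx
        exact (h3.trans h4).symm
      obtain ⟨c, hc, hvc⟩ := R_eq hK h2 v0 v hv0 hv h1
      refine ⟨⟨c, hc⟩, ?_⟩
      apply Subtype.ext; apply Subtype.ext
      exact hvc.symm
  haveI : Finite ↥(Cfsg.SU 3 K q) := Finite.of_injective
    (fun z : ↥(Cfsg.SU 3 K q) => ((z.1 : Matrix.SpecialLinearGroup (Fin 3) K) : Matrix (Fin 3) (Fin 3) K))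
    (fun a b hab => Subtype.ext (Subtype.ext hab))
  haveI : Fintype {x : ↥(Cfsg.SU 3 K q) // x ≠ 1 ∧ x * x = 1} := Fintype.ofFinite _
  rw [Nat.card_congr (Equiv.sigmaFiberEquiv f).symm, Nat.card_sigma,
    Finset.sum_congr rfl (fun x _ => hfib x), Finset.sum_const, Finset.card_univ, smul_eq_mul,
    ← Nat.card_eq_fintype_card] at hU
  rw [hU]

theorem cube_fact (q : ℕ) (hq : 1 ≤ q) : q ^ 3 + 1 = (q ^ 2 - q + 1) * (q + 1) := by
  have hle : q ≤ q ^ 2 := by nlinarith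
  zify [hle]
  ring

theorem card_invol (hK : Fintype.card K = q ^ 2) (h2 : (2 : K) ≠ 0) :
    Nat.card {x : ↥(Cfsg.SU 3 K q) // x ≠ 1 ∧ x * x = 1} = q ^ 2 * (q ^ 2 - q + 1) := by
  have h1 := card_invol_mul hK h2
  rw [cube_fact q (q_pos hK), ← mul_assoc] at h1
  exact Nat.eq_of_mul_eq_mul_right (by omega) h1

theorem card_cent (hK : Fintype.card K = q ^ 2) (h2 : (2 : K) ≠ 0) (t : ↥(Cfsg.SU 3 K q))
    (ht : t ≠ 1) (ht2 : t * t = 1) :
    Nat.card ↥(Subgroup.centralizer ({t} : Set ↥(Cfsg.SU 3 K q))) = q * (q + 1) * (q ^ 2 - 1) := by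
  have hq1 := q_pos hK
  have h1 := Subgroup.card_mul_index (MulAction.stabilizer (ConjAct ↥(Cfsg.SU 3 K q)) t)
  rw [MulAction.index_stabilizer, ← Subgroup.nat_card_centralizer_nat_card_stabilizer] at h1
  have horb : MulAction.orbit (ConjAct ↥(Cfsg.SU 3 K q)) t = {x | x ≠ 1 ∧ x * x = 1} := by
    ext x
    rw [ConjAct.mem_orbit_conjAct]
    constructor
    · intro h
      obtain ⟨g, hg⟩ := isConj_iff.mp h
      rw [← hg] at ht ht2
      constructor
      · rintro rfl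
        apply ht
        rw [mul_one, mul_inv_cancel]
      · have h3 : g * x * g⁻¹ * (g * x * g⁻¹) = g * (x * x) * g⁻¹ := by group
        rw [h3] at ht2
        have h4 : x * x = g⁻¹ * (g * (x * x) * g⁻¹) * g := by group
        rw [h4, ht2]; group
    · rintro ⟨hx1, hx2⟩
      obtain ⟨v, hv, rfl⟩ := exists_rS hK h2 t ht ht2
      obtain ⟨w, hw, rfl⟩ := exists_rS hK h2 x hx1 hx2
      obtain ⟨g, hg⟩ := conj_rS hK w v hw hv
      exact isConj_iff.mpr ⟨g, hg⟩
  rw [horb, ← Nat.card_coe_set_eq] at h1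
  have h3 : Nat.card ↥{x : ↥(Cfsg.SU 3 K q) | x ≠ 1 ∧ x * x = 1} = q ^ 2 * (q ^ 2 - q + 1) :=
    card_invol hK h2
  rw [h3] at h1
  have hSU := Cfsg.Agent.Lib_helper4_SU.card_SU_mul (n := 3) hK (by norm_num)
  rw [Cfsg.Agent.Lib_helper4_GU.card_GU hK 3] at hSU
  have hprod : ∏ i ∈ Finset.range 3, (if Even i then q ^ (i + 1) + 1 else q ^ (i + 1) - 1)
      = (q + 1) * (q ^ 2 - 1) * (q ^ 3 + 1) := by
    rw [Finset.prod_range_succ, Finset.prod_range_succ, Finset.prod_range_one]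
    simp
  rw [hprod, cube_fact q hq1] at hSU
  have hcc : Nat.card (ConjAct ↥(Cfsg.SU 3 K q)) = Nat.card ↥(Cfsg.SU 3 K q) := rfl
  rw [hcc] at h1
  have h33 : 3 * (3 - 1) / 2 = 3 := by norm_num
  rw [h33] at hSU
  generalize q ^ 2 - q + 1 = A at h1 hSU
  generalize q ^ 2 - 1 = B at hSU ⊢
  have hA : 0 < A := by
    rcases Nat.eq_zero_or_pos A with h0 | h0
    · exfalso
      rw [h0] at hSU
      have hpos : 0 < (q + 1) * Nat.card ↥(Cfsg.SU 3 K q) :=
        Nat.mul_pos (by omega) Nat.card_pos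
      rw [hSU] at hpos
      simp at hpos
    · exact h0
  apply Nat.eq_of_mul_eq_mul_right (show 0 < (q + 1) * (q ^ 2 * A) from
    Nat.mul_pos (by omega) (Nat.mul_pos (by positivity) hA))
  calc Nat.card ↥(Subgroup.centralizer ({t} : Set ↥(Cfsg.SU 3 K q))) * ((q + 1) * (q ^ 2 * A))
      = (q + 1) * (Nat.card ↥(Subgroup.centralizer ({t} : Set ↥(Cfsg.SU 3 K q))) * (q ^ 2 * A)) := by
        ring
    _ = (q + 1) * Nat.card ↥(Cfsg.SU 3 K q) := by rw [h1]
    _ = q ^ 3 * ((q + 1) * B * (A * (q + 1))) := hSU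
    _ = q * (q + 1) * B * ((q + 1) * (q ^ 2 * A)) := by ring

theorem part4 (hK : Fintype.card K = q ^ 2) (h2 : (2 : K) ≠ 0) (t x : ↥(Cfsg.SU 3 K q))
    (ht : t ≠ 1) (ht2 : t * t = 1) (hx : x ≠ 1) (hx2 : x * x = 1) (hxt : x ≠ t)
    (hc : Commute t x) :
    Nat.card {y : ↥(Cfsg.SU 3 K q) // y ≠ 1 ∧ y * y = 1 ∧ y ≠ t ∧ y ≠ x ∧ Commute t y ∧ Commute x y}
      = 1 := by
  rw [Nat.card_eq_one_iff_unique]
  constructor
  · constructor
    have key : ∀ y : {y : ↥(Cfsg.SU 3 K q) // y ≠ 1 ∧ y * y = 1 ∧ y ≠ t ∧ y ≠ x ∧ Commute t y ∧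
        Commute x y}, y.1 = t * x := by
      rintro ⟨y, hy1, hy2, hyt, hyx, hty, hxy⟩
      obtain ⟨v, hv, rfl⟩ := exists_rS hK h2 t ht ht2
      obtain ⟨w, hw, rfl⟩ := exists_rS hK h2 x hx hx2
      obtain ⟨z, hz, rfl⟩ := exists_rS hK h2 y hy1 hy2
      have hvw := orth_of_commute hK h2 v w hv hw (Ne.symm hxt) hc
      have hvz := orth_of_commute hK h2 v z hv hz (Ne.symm hyt) hty
      have hwz := orth_of_commute hK h2 w z hw hz (Ne.symm hyx) hxy
      apply Subtype.ext; apply Subtype.ext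
      exact (R_mul_of_orthonormal hK v w z hv hw hz hvw hvz hwz).symm
    intro y y'
    exact Subtype.ext ((key y).trans (key y').symm)
  · have hti : t⁻¹ = t := inv_eq_of_mul_eq_one_right ht2
    refine ⟨⟨t * x, ?_, ?_, ?_, ?_, ?_, ?_⟩⟩
    · intro h
      apply hxt
      have h3 : x = t⁻¹ := eq_inv_of_mul_eq_one_right h
      rw [h3, hti]
    · calc t * x * (t * x) = t * (x * t) * x := by group
        _ = t * (t * x) * x := by rw [hc.eq]
        _ = (t * t) * (x * x) := by group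
        _ = 1 := by rw [ht2, hx2, one_mul]
    · intro h
      apply hx
      exact mul_left_cancel (a := t) (by rw [h, mul_one])
    · intro h
      apply ht
      exact mul_right_cancel (b := x) (by rw [h, one_mul])
    · exact (Commute.refl t).mul_right hc
    · exact hc.symm.mul_right (Commute.refl x)

theorem main (hq : Odd q) (hK : Fintype.card K = q ^ 2) (t : ↥(Cfsg.SU 3 K q)) (ht : t ≠ 1)
    (ht2 : t * t = 1) :
    (∀ x : ↥(Cfsg.SU 3 K q), x ≠ 1 → x * x = 1 → ∃ g : ↥(Cfsg.SU 3 K q), g * t * g⁻¹ = x) ∧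
    Nat.card {x : ↥(Cfsg.SU 3 K q) // x ≠ 1 ∧ x * x = 1} = q ^ 2 * (q ^ 2 - q + 1) ∧
    Nat.card ↥(Subgroup.centralizer ({t} : Set ↥(Cfsg.SU 3 K q))) = q * (q + 1) * (q ^ 2 - 1) ∧
    ∀ x : ↥(Cfsg.SU 3 K q), x ≠ 1 → x * x = 1 → x ≠ t → Commute t x →
      Nat.card {y : ↥(Cfsg.SU 3 K q) // y ≠ 1 ∧ y * y = 1 ∧ y ≠ t ∧ y ≠ x ∧ Commute t y ∧ Commute x y}
        = 1 := by
  have hchar : ringChar K ≠ 2 := by
    intro h
    have h1 := FiniteField.even_card_iff_char_two.mp h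
    rw [hK] at h1
    have h3 : Odd (q ^ 2) := hq.pow
    rw [Nat.odd_iff] at h3
    omega
  have h2 : (2 : K) ≠ 0 := Ring.two_ne_zero hchar
  refine ⟨?_, card_invol hK h2, card_cent hK h2 t ht ht2, ?_⟩
  · intro x hx hx2
    obtain ⟨v, hv, rfl⟩ := exists_rS hK h2 t ht ht2
    obtain ⟨w, hw, rfl⟩ := exists_rS hK h2 x hx hx2
    exact conj_rS hK v w hv hw
  · intro x hx hx2 hxt hc
    exact part4 hK h2 t x ht ht2 hx hx2 hxt hc

end Aux

/-- Let q be odd, F the field with q² elements and S = SU_3(F) (determinant-one isometries of the standard Hermitian form). Then all involutions of S are conjugate; there are exactly q²(q²−q+1) of them; the centralizer of an involution has order q(q+1)(q²−1), the order of the full unitary group of degree 2; and for two distinct commuting involutions t and x there is exactly one further involution commuting with both. -/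
theorem result {F : Type*} [Field F] [Fintype F] {q : ℕ} (hq : Odd q)
    (hF : Fintype.card F = q ^ 2) (t : ↥(Cfsg.SU 3 F q)) (ht : t ≠ 1) (ht2 : t * t = 1) :
    (∀ x : ↥(Cfsg.SU 3 F q), x ≠ 1 → x * x = 1 → ∃ g : ↥(Cfsg.SU 3 F q), g * t * g⁻¹ = x) ∧
    Nat.card {x : ↥(Cfsg.SU 3 F q) // x ≠ 1 ∧ x * x = 1} = q ^ 2 * (q ^ 2 - q + 1) ∧
    Nat.card ↥(Subgroup.centralizer ({t} : Set ↥(Cfsg.SU 3 F q))) = q * (q + 1) * (q ^ 2 - 1) ∧
    ∀ x : ↥(Cfsg.SU 3 F q), x ≠ 1 → x * x = 1 → x ≠ t → Commute t x →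
      Nat.card {y : ↥(Cfsg.SU 3 F q) // y ≠ 1 ∧ y * y = 1 ∧ y ≠ t ∧ y ≠ x ∧ Commute t y ∧ Commute x y} = 1 := by
  exact main hq hF t ht ht2

end Cfsg.Agent.S2360
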