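import Cfsg.Statements.S2466
import Cfsg.Agent.Lib_helper8_AltSpec

set_option autoImplicit false
open Cfsg

namespace Cfsg.Agent.S2466

/-- Adjacency of odd primes in the prime graph of the alternating groups: let r ≠ s be odd primes at most n. The alternating group of degree n has an element of order r·s if and only if r + s ≤ n. -/
theorem result (n r s : ℕ) (hr : r.Prime) (hs : s.Prime) (hr2 : r ≠ 2) (hs2 : s ≠ 2) (hrs : r ≠ s) (hrn : r ≤ n) (hsn : s ≤ n) :
    (r * s ∈ Set.range (orderOf : alternatingGroup (Fin n) → ℕ)) ↔ r + s ≤ n := by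
  classical
  rw [Cfsg.Agent.Lib_helper8_AltSpec.mem_range_iff]
  have hr3 : 3 ≤ r := by
    have := hr.two_le
    omega
  have hs3 : 3 ≤ s := by
    have := hs.two_le
    omega
  have hco : Nat.Coprime r s := (Nat.coprime_primes hr hs).2 hrs
  constructor
  · rintro ⟨m, hm2, hsum, hev, hlcm⟩
    obtain ⟨a, ha, hra⟩ := Cfsg.Agent.Lib_helper8_AltSpec.exists_dvd_of_prime_dvd_lcm hr m
      (by rw [hlcm]; exact dvd_mul_right r s)
    obtain ⟨b, hb, hsb⟩ := Cfsg.Agent.Lib_helper8_AltSpec.exists_dvd_of_prime_dvd_lcm hs m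
      (by rw [hlcm]; exact dvd_mul_left s r)
    have ha2 := hm2 a ha
    have hb2 := hm2 b hb
    have hra' : r ≤ a := Nat.le_of_dvd (by omega) hra
    have hsb' : s ≤ b := Nat.le_of_dvd (by omega) hsb
    by_cases hsa : s ∣ a
    · have h1 : r * s ∣ a := hco.mul_dvd_of_dvd_of_dvd hra hsa
      have h2 : r * s ≤ a := Nat.le_of_dvd (by omega) h1
      have h3 : a ≤ m.sum := Multiset.le_sum_of_mem ha
      have h4 : r + s ≤ r * s := by nlinarith
      omega
    · have hne : b ≠ a := by
        rintro rfl
        exact hsa hsb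
      have hb' : b ∈ m.erase a := (Multiset.mem_erase_of_ne hne).2 hb
      have h1 : m.sum = a + (m.erase a).sum := by
        conv_lhs => rw [← Multiset.cons_erase ha]
        rw [Multiset.sum_cons]
      have h2 : b ≤ (m.erase a).sum := Multiset.le_sum_of_mem hb'
      omega
  · intro h
    refine ⟨r ::ₘ s ::ₘ 0, ?_, ?_, ?_, ?_⟩
    · intro a ha
      simp only [Multiset.mem_cons, Multiset.notMem_zero, or_false] at ha
      rcases ha with rfl | rfl <;> omega
    · simp only [Multiset.sum_cons, Multiset.sum_zero]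
      omega
    · simp only [Multiset.sum_cons, Multiset.sum_zero, Multiset.card_cons, Multiset.card_zero]
      have h1 := hr.odd_of_ne_two hr2
      have h2 := hs.odd_of_ne_two hs2
      rw [Nat.even_iff]
      rw [Nat.odd_iff] at h1 h2
      omega
    · simp only [Multiset.lcm_cons, Multiset.lcm_zero]
      show Nat.lcm r (Nat.lcm s 1) = r * s
      rw [Nat.lcm_one_right, hco.lcm_eq_mul]

end Cfsg.Agent.S2466
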