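import Cfsg.Statements.S2467
import Cfsg.Agent.Lib_helper8_AltSpec

set_option autoImplicit false
open Cfsg

namespace Cfsg.Agent.S2467

/-- Adjacency of 2 and an odd prime in the prime graph of the alternating groups: let r be an odd prime at most n, with n ≥ 4. The alternating group of degree n has an element of order 2r if and only if r + 4 ≤ n. -/
theorem result (n r : ℕ) (hn : 4 ≤ n) (hr : r.Prime) (hr2 : r ≠ 2) (hrn : r ≤ n) :
    (2 * r ∈ Set.range (orderOf : alternatingGroup (Fin n) → ℕ)) ↔ r + 4 ≤ n := by
  classical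
  rw [Cfsg.Agent.Lib_helper8_AltSpec.mem_range_iff]
  have hr3 : 3 ≤ r := by
    have := hr.two_le
    omega
  have hrodd : r % 2 = 1 := Nat.odd_iff.1 (hr.odd_of_ne_two hr2)
  constructor
  · rintro ⟨m, hm2, hsum, hev, hlcm⟩
    rw [Nat.even_iff] at hev
    obtain ⟨a, ha, hra⟩ := Cfsg.Agent.Lib_helper8_AltSpec.exists_dvd_of_prime_dvd_lcm hr m
      (by rw [hlcm]; exact dvd_mul_left r 2)
    obtain ⟨b, hb, h2b⟩ := Cfsg.Agent.Lib_helper8_AltSpec.exists_dvd_of_prime_dvd_lcm
      Nat.prime_two m (by rw [hlcm]; exact dvd_mul_right 2 r)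
    have ha2 := hm2 a ha
    have hb2 := hm2 b hb
    have hra' : r ≤ a := Nat.le_of_dvd (by omega) hra
    by_contra hcon
    have hm : m = a ::ₘ m.erase a := (Multiset.cons_erase ha).symm
    have h1 : m.sum = a + (m.erase a).sum := by
      conv_lhs => rw [hm]
      rw [Multiset.sum_cons]
    have hc1 : Multiset.card m = Multiset.card (m.erase a) + 1 := by
      conv_lhs => rw [hm]
      rw [Multiset.card_cons]
    have hm2' : ∀ c ∈ m.erase a, 2 ≤ c := fun c hc => hm2 c (Multiset.mem_of_mem_erase hc)
    rcases Multiset.empty_or_exists_mem (m.erase a) with h0 | ⟨c, hc⟩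
    · rw [h0] at hm h1 hc1
      rw [hm] at hb
      simp only [Multiset.mem_cons, Multiset.notMem_zero, or_false] at hb
      subst hb
      simp only [Multiset.sum_zero, Multiset.card_zero] at h1 hc1
      obtain ⟨t, rfl⟩ := h2b
      omega
    · have hc2 := hm2' c hc
      have hm' : m.erase a = c ::ₘ (m.erase a).erase c := (Multiset.cons_erase hc).symm
      have h1' : (m.erase a).sum = c + ((m.erase a).erase c).sum := by
        conv_lhs => rw [hm']
        rw [Multiset.sum_cons]
      rcases Multiset.empty_or_exists_mem ((m.erase a).erase c) with h0 | ⟨d, hd⟩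
      · rw [h0] at hm' h1'
        have hc1' : Multiset.card (m.erase a) = 1 := by
          rw [hm']; simp
        simp only [Multiset.sum_zero] at h1'
        have har : a = r := by
          obtain ⟨t, rfl⟩ := hra
          rcases t with _ | _ | t
          · omega
          · omega
          · exfalso
            have : r * (t + 1 + 1) = r * t + 2 * r := by ring
            have : 0 ≤ r * t := Nat.zero_le _
            omega
        rw [hm, hm'] at hb
        simp only [Multiset.mem_cons, Multiset.notMem_zero, or_false] at hb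
        rcases hb with rfl | rfl
        · obtain ⟨t, rfl⟩ := h2b
          omega
        · obtain ⟨t, rfl⟩ := h2b
          omega
      · have hd2 := hm2' d (Multiset.mem_of_mem_erase hd)
        have h2 : d ≤ ((m.erase a).erase c).sum := Multiset.le_sum_of_mem hd
        omega
  · intro h
    refine ⟨r ::ₘ 2 ::ₘ 2 ::ₘ 0, ?_, ?_, ?_, ?_⟩
    · intro a ha
      simp only [Multiset.mem_cons, Multiset.notMem_zero, or_false] at ha
      rcases ha with rfl | rfl | rfl <;> omega
    · simp only [Multiset.sum_cons, Multiset.sum_zero]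
      omega
    · simp only [Multiset.sum_cons, Multiset.sum_zero, Multiset.card_cons, Multiset.card_zero]
      rw [Nat.even_iff]
      omega
    · simp only [Multiset.lcm_cons, Multiset.lcm_zero]
      show Nat.lcm r (Nat.lcm 2 (Nat.lcm 2 1)) = 2 * r
      have hco : Nat.Coprime r 2 := (Nat.coprime_primes hr Nat.prime_two).2 hr2
      have h22 : Nat.lcm 2 (Nat.lcm 2 1) = 2 := by decide
      rw [h22, hco.lcm_eq_mul, mul_comm]

end Cfsg.Agent.S2467
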