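import Cfsg.Statements.S2471
import Cfsg.Agent.Lib_helper8_Unipotent

set_option autoImplicit false
open Cfsg

namespace Cfsg.Agent.S2471

section Aux
open Matrix

variable {F : Type*} [Field F] [Fintype F]

theorem main (p : ℕ) [Fact p.Prime] [CharP F p] (hp : p ≠ 2)
    (g : Matrix.ProjectiveSpecialLinearGroup (Fin 2) F) : orderOf g ≠ 2 * p := by
  classical
  intro hord
  have hpp : p.Prime := Fact.out
  obtain ⟨A, rfl⟩ := QuotientGroup.mk_surjective g
  obtain ⟨M, hM⟩ : ∃ M : Matrix (Fin 2) (Fin 2) F, M = (A : Matrix (Fin 2) (Fin 2) F) := ⟨_, rfl⟩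
  have hdet : M.det = 1 := by rw [hM]; exact A.2
  have hcen : ∀ k : ℕ, (QuotientGroup.mk A : ProjectiveSpecialLinearGroup (Fin 2) F) ^ k = 1 ↔
      ∃ c : F, c ^ 2 = 1 ∧ M ^ k = c • (1 : Matrix (Fin 2) (Fin 2) F) := by
    intro k
    rw [← QuotientGroup.mk_pow, QuotientGroup.eq_one_iff, Matrix.SpecialLinearGroup.mem_center_iff]
    constructor
    · rintro ⟨c, hc, hcA⟩
      refine ⟨c, by simpa using hc, ?_⟩
      rw [hM, ← Matrix.SpecialLinearGroup.coe_pow, ← hcA, Matrix.smul_one_eq_diagonal,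
        ← Matrix.scalar_apply]
    · rintro ⟨c, hc, hcA⟩
      refine ⟨c, by simpa using hc, ?_⟩
      rw [Matrix.SpecialLinearGroup.coe_pow, ← hM, hcA, Matrix.smul_one_eq_diagonal,
        ← Matrix.scalar_apply]
  -- Cayley–Hamilton
  obtain ⟨t, ht⟩ : ∃ t : F, t = M 0 0 + M 1 1 := ⟨_, rfl⟩
  have hCH : M ^ 2 = t • M - 1 := by
    rw [Matrix.det_fin_two] at hdet
    rw [pow_two]
    ext i j
    fin_cases i <;> fin_cases j <;>
      simp [Matrix.mul_apply, Fin.sum_univ_two, ht] <;>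
      first | linear_combination hdet | linear_combination (-1 : F) * hdet | ring
  have h2p : (QuotientGroup.mk A : ProjectiveSpecialLinearGroup (Fin 2) F) ^ (2 * p) = 1 := by
    rw [← hord]; exact pow_orderOf_eq_one _
  obtain ⟨c, hc, hMc⟩ := (hcen (2 * p)).1 h2p
  obtain ⟨j, hj⟩ := hpp.odd_of_ne_two hp
  have hcp : c ^ p = c := by
    rw [hj, pow_succ, pow_mul, hc, one_pow, one_mul]
  obtain ⟨N, hN⟩ : ∃ N : Matrix (Fin 2) (Fin 2) F, N = M ^ 2 - c • 1 := ⟨_, rfl⟩
  have hNp : N ^ p = 0 := by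
    rw [hN, sub_pow_char_of_commute (p := p) ((Commute.one_right _).smul_right c), ← pow_mul,
      hMc, smul_pow, one_pow, hcp, sub_self]
  have hN2 : N ^ 2 = 0 :=
    Cfsg.Agent.Lib_helper8_Unipotent.nilp_pow_card N ⟨p, hNp⟩
  have hfin : ∀ k : ℕ, (QuotientGroup.mk A : ProjectiveSpecialLinearGroup (Fin 2) F) ^ k = 1 →
      k = 2 ∨ k = p → False := by
    intro k hk hk2
    have hdvd := orderOf_dvd_of_pow_eq_one hk
    rw [hord] at hdvd
    rcases hk2 with rfl | rfl
    · have := Nat.le_of_dvd (by norm_num) hdvd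
      have := hpp.two_le
      omega
    · have := Nat.le_of_dvd hpp.pos hdvd
      have := hpp.two_le
      omega
  by_cases ht0 : t = 0
  · -- N scalar
    have hN' : N = (-(1 + c)) • (1 : Matrix (Fin 2) (Fin 2) F) := by
      rw [hN, hCH, ht0, zero_smul, zero_sub, neg_smul, add_smul, one_smul, neg_add, sub_eq_add_neg]
    have h1 : (-(1 + c)) ^ 2 = 0 := by
      have h2 := hN2
      rw [hN', smul_pow, one_pow] at h2
      have h3 := congrFun (congrFun h2 0) 0
      simpa using h3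
    have h4 : -(1 + c) = 0 := by
      have := pow_eq_zero_iff (n := 2) (by norm_num) |>.1 h1
      exact this
    have h5 : M ^ 2 = c • 1 := by
      have h6 : N = 0 := by rw [hN', h4, zero_smul]
      rw [hN] at h6
      exact sub_eq_zero.1 h6
    exact hfin 2 ((hcen 2).2 ⟨c, hc, h5⟩) (Or.inl rfl)
  · -- M = s • 1 + t⁻¹ • N
    have hM' : M = ((1 + c) * t⁻¹) • (1 : Matrix (Fin 2) (Fin 2) F) + t⁻¹ • N := by
      have h1 : t⁻¹ • N = M - ((1 + c) * t⁻¹) • (1 : Matrix (Fin 2) (Fin 2) F) := by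
        rw [hN, hCH, smul_sub, smul_sub, smul_smul, inv_mul_cancel₀ ht0, one_smul, smul_smul,
          sub_sub, ← add_smul]
        congr 2
        ring
      rw [h1]
      abel
    have hcomm : Commute (((1 + c) * t⁻¹) • (1 : Matrix (Fin 2) (Fin 2) F)) (t⁻¹ • N) :=
      ((Commute.one_left _).smul_left _)
    have hNp' : (t⁻¹ • N) ^ p = 0 := by rw [smul_pow, hNp, smul_zero]
    have hMp : M ^ p = (((1 + c) * t⁻¹) ^ p) • (1 : Matrix (Fin 2) (Fin 2) F) := by
      conv_lhs => rw [hM']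
      rw [add_pow_char_of_commute (p := p) hcomm, hNp', add_zero, smul_pow, one_pow]
    have hs2 : (((1 + c) * t⁻¹) ^ p) ^ 2 = 1 := by
      have h1 : (M ^ p).det = 1 := by rw [Matrix.det_pow, hdet, one_pow]
      rw [hMp, Matrix.det_smul, Matrix.det_one, mul_one, Fintype.card_fin] at h1
      exact h1
    exact hfin p ((hcen p).2 ⟨_, hs2, hMp⟩) (Or.inr rfl)

end Aux

/-- In PSL(2,q) with q odd, the characteristic p is isolated from 2 in the prime graph: for F a finite field of odd characteristic p with at least 5 elements, PSL(2,F) has no element of order 2p. -/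
theorem result {F : Type*} [Field F] [Fintype F] (p : ℕ) [Fact p.Prime] [CharP F p] (hp : p ≠ 2) (h5 : 5 ≤ Fintype.card F) (g : Matrix.ProjectiveSpecialLinearGroup (Fin 2) F) :
    orderOf g ≠ 2 * p := by
  exact main p hp g

end Cfsg.Agent.S2471
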