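import Cfsg.Statements.S2505
import Mathlib

set_option autoImplicit false
open Cfsg

namespace Cfsg.Agent.S2505

section Aux
open Equiv

def g : ℕ → ℕ
  | 0 => 1
  | 1 => 1
  | 2 => 2
  | 3 => 3
  | 4 => 4
  | (n + 5) => 3 * g (n + 2)

theorem g_succ (n : ℕ) : g (n + 5) = 3 * g (n + 2) := by rw [g]

theorem g_three_mul (k : ℕ) : g (3 * k) = 3 ^ k := by
  induction k with
  | zero => rfl
  | succ k ih =>
    rcases Nat.eq_zero_or_pos k with rfl | hk
    · rfl
    · obtain ⟨j, rfl⟩ : ∃ j, k = j + 1 := ⟨k - 1, by omega⟩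
      have e : 3 * (j + 1 + 1) = (3 * j + 1) + 5 := by ring
      have e2 : 3 * j + 1 + 2 = 3 * (j + 1) := by ring
      rw [e, g_succ, e2, ih, pow_succ]; ring

theorem g_three_mul_add_one (k : ℕ) (hk : 1 ≤ k) : g (3 * k + 1) = 4 * 3 ^ (k - 1) := by
  induction k with
  | zero => omega
  | succ k ih =>
    rcases Nat.eq_zero_or_pos k with rfl | hk'
    · rfl
    · have e : 3 * (k + 1) + 1 = (3 * k - 1) + 5 := by omega
      have e2 : 3 * k - 1 + 2 = 3 * k + 1 := by omega
      rw [e, g_succ, e2, ih hk']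
      obtain ⟨j, rfl⟩ : ∃ j, k = j + 1 := ⟨k - 1, by omega⟩
      simp only [Nat.add_sub_cancel]
      rw [pow_succ]; ring

theorem g_three_mul_add_two (k : ℕ) : g (3 * k + 2) = 2 * 3 ^ k := by
  induction k with
  | zero => rfl
  | succ k ih =>
    have e : 3 * (k + 1) + 2 = 3 * k + 5 := by ring
    rw [e, g_succ, ih, pow_succ]; ring

theorem g_pos : ∀ n, 1 ≤ g n := by
  intro n
  induction n using Nat.strong_induction_on with
  | _ n ih =>
    rcases Nat.lt_or_ge n 5 with h | h
    · interval_cases n <;> decide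
    · obtain ⟨k, rfl⟩ : ∃ k, n = k + 5 := ⟨n - 5, by omega⟩
      rw [g_succ]
      have := ih (k + 2) (by omega)
      omega

theorem g_Q : ∀ n, 5 ≤ n → ∀ r, r ≤ 4 → (n - r) * g r ≤ g n := by
  intro n
  induction n using Nat.strong_induction_on with
  | _ n ih =>
    intro hn r hr
    rcases Nat.lt_or_ge n 9 with h | h
    · interval_cases n <;> interval_cases r <;> decide
    · obtain ⟨k, rfl⟩ : ∃ k, n = k + 5 := ⟨n - 5, by omega⟩
      rw [g_succ]
      have h1 := ih (k + 2) (by omega) (by omega) r hr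
      have h2 : k + 5 - r ≤ 3 * (k + 2 - r) := by omega
      calc (k + 5 - r) * g r ≤ 3 * (k + 2 - r) * g r := Nat.mul_le_mul_right _ h2
        _ = 3 * ((k + 2 - r) * g r) := by ring
        _ ≤ 3 * g (k + 2) := Nat.mul_le_mul_left _ h1

theorem g_P : ∀ n s, 1 ≤ s → s ≤ n → s * g (n - s) ≤ g n := by
  intro n
  induction n using Nat.strong_induction_on with
  | _ n ih =>
    intro s hs hsn
    rcases Nat.lt_or_ge n 5 with h | h
    · interval_cases n <;> interval_cases s <;> decide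
    · rcases Nat.lt_or_ge (n - s) 5 with h' | h'
      · have := g_Q n h (n - s) (by omega)
        have e : n - (n - s) = s := by omega
        rwa [e] at this
      · obtain ⟨k, rfl⟩ : ∃ k, n = k + 5 := ⟨n - 5, by omega⟩
        obtain ⟨j, hj⟩ : ∃ j, k + 5 - s = j + 5 := ⟨k + 5 - s - 5, by omega⟩
        rw [hj, g_succ, g_succ]
        have h1 := ih (k + 2) (by omega) s hs (by omega)
        have e : k + 2 - s = j + 2 := by omega
        rw [e] at h1
        calc s * (3 * g (j + 2)) = 3 * (s * g (j + 2)) := by ring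
          _ ≤ 3 * g (k + 2) := Nat.mul_le_mul_left _ h1

theorem abel_bound : ∀ (n : ℕ) (α : Type) [Fintype α] [DecidableEq α], Fintype.card α = n →
    ∀ A : Subgroup (Perm α), IsMulCommutative A → Nat.card A ≤ g n := by
  intro n
  induction n using Nat.strong_induction_on with
  | _ n ih =>
    intro α _ _ hcard A hA
    classical
    rcases isEmpty_or_nonempty α with hα | ⟨⟨x⟩⟩
    · have : Subsingleton (Perm α) := ⟨fun a b => Equiv.ext fun y => (hα.false y).elim⟩
      have h1 : Nat.card A ≤ 1 := Finite.card_le_one_iff_subsingleton.mpr inferInstance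
      exact h1.trans (g_pos n)
    · have hcomm : ∀ a b : A, a * b = b * a := fun a b => hA.is_comm.comm a b
      have hsm : ∀ (a : A) (y : α), a • y = (a : Perm α) y := fun a y => rfl
      have hinv : ∀ (a : A) (y : α), (a : Perm α) y ∉ MulAction.orbit A x ↔
          y ∉ MulAction.orbit A x := by
        intro a y
        rw [← hsm a y]
        constructor
        · intro h hy
          apply h
          rw [MulAction.mem_orbit_iff] at hy ⊢
          obtain ⟨b, hb⟩ := hy
          exact ⟨a * b, by rw [mul_smul, hb]⟩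
        · intro h hy
          apply h
          rw [MulAction.mem_orbit_iff] at hy ⊢
          obtain ⟨b, hb⟩ := hy
          exact ⟨a⁻¹ * b, by rw [mul_smul, hb, inv_smul_smul]⟩
      let ψ : MulAction.stabilizer A x →* Perm {y : α // y ∉ MulAction.orbit A x} :=
        { toFun := fun a => Perm.subtypePerm ((a : A) : Perm α) (hinv a)
          map_one' := by ext y; rfl
          map_mul' := fun a b => by ext y; rfl }
      have hψ : Function.Injective ψ := by
        rw [injective_iff_map_eq_one]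
        intro a ha
        apply Subtype.ext
        apply Subtype.ext
        ext y
        by_cases hy : y ∈ MulAction.orbit A x
        · rw [MulAction.mem_orbit_iff] at hy
          obtain ⟨b, rfl⟩ := hy
          have hax : (a : A) • x = x := a.2
          show ((a : A) : Perm α) (b • x) = b • x
          rw [← hsm, ← mul_smul, hcomm, mul_smul, hax]
        · have h1 := congrArg (fun σ : Perm {y : α // y ∉ MulAction.orbit A x} =>
            ((σ ⟨y, hy⟩ : {y : α // y ∉ MulAction.orbit A x}) : α)) ha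
          exact h1
      have hrc : IsMulCommutative ψ.range := by
        refine ⟨⟨?_⟩⟩
        rintro ⟨_, a, rfl⟩ ⟨_, b, rfl⟩
        apply Subtype.ext
        show ψ a * ψ b = ψ b * ψ a
        rw [← map_mul, ← map_mul]
        congr 1
        apply Subtype.ext
        exact hcomm a b
      have hs1 : 1 ≤ Nat.card (MulAction.orbit A x) := Nat.card_pos_iff.mpr
        ⟨⟨⟨x, MulAction.mem_orbit_self x⟩⟩, inferInstance⟩
      have hβ : Fintype.card {y : α // y ∉ MulAction.orbit A x} =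
          n - Nat.card (MulAction.orbit A x) := by
        rw [Fintype.card_subtype_compl, hcard, Nat.card_eq_fintype_card]
      have hsn : Nat.card (MulAction.orbit A x) ≤ n := by
        rw [← hcard, Nat.card_eq_fintype_card]
        exact Fintype.card_subtype_le _
      have hIH := ih (n - Nat.card (MulAction.orbit A x)) (by omega)
        {y : α // y ∉ MulAction.orbit A x} hβ ψ.range hrc
      have hcr : Nat.card ψ.range = Nat.card (MulAction.stabilizer A x) :=
        (Nat.card_congr (MonoidHom.ofInjective hψ).toEquiv).symm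
      have hos : Nat.card (MulAction.orbit A x) * Nat.card (MulAction.stabilizer A x) = Nat.card A := by
        rw [← Nat.card_prod]
        exact Nat.card_congr (MulAction.orbitProdStabilizerEquivGroup A x)
      rw [← hos, ← hcr]
      exact (Nat.mul_le_mul_left _ hIH).trans (g_P n _ hs1 hsn)

/-- existence of abelian subgroups of prescribed order -/
def Ab (α : Type) (c : ℕ) : Prop :=
  ∃ A : Subgroup (Perm α), IsMulCommutative A ∧ Nat.card A = c

theorem Ab_congr {α β : Type} (e : α ≃ β) {c : ℕ} (h : Ab α c) : Ab β c := by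
  obtain ⟨A, hA, hc⟩ := h
  refine ⟨A.map (e.permCongrHom).toMonoidHom, ⟨⟨?_⟩⟩, ?_⟩
  · rintro ⟨_, a, ha, rfl⟩ ⟨_, b, hb, rfl⟩
    apply Subtype.ext
    show (e.permCongrHom).toMonoidHom a * (e.permCongrHom).toMonoidHom b =
      (e.permCongrHom).toMonoidHom b * (e.permCongrHom).toMonoidHom a
    rw [← map_mul, ← map_mul]
    congr 1
    exact congrArg Subtype.val (hA.is_comm.comm ⟨a, ha⟩ ⟨b, hb⟩)
  · rw [Subgroup.card_map_of_injective (e.permCongrHom).injective, hc]

theorem Ab_sum {α β : Type} {c d : ℕ} (h : Ab α c) (h' : Ab β d) : Ab (α ⊕ β) (c * d) := by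
  obtain ⟨A, hA, hc⟩ := h
  obtain ⟨B, hB, hd⟩ := h'
  refine ⟨(A.prod B).map (Perm.sumCongrHom α β), ⟨⟨?_⟩⟩, ?_⟩
  · rintro ⟨_, ⟨a, b⟩, ⟨ha, hb⟩, rfl⟩ ⟨_, ⟨a', b'⟩, ⟨ha', hb'⟩, rfl⟩
    apply Subtype.ext
    show Perm.sumCongrHom α β (a, b) * Perm.sumCongrHom α β (a', b') =
      Perm.sumCongrHom α β (a', b') * Perm.sumCongrHom α β (a, b)
    rw [← map_mul, ← map_mul]
    congr 1
    have h1 : a * a' = a' * a := congrArg Subtype.val (hA.is_comm.comm ⟨a, ha⟩ ⟨a', ha'⟩)
    have h2 : b * b' = b' * b := congrArg Subtype.val (hB.is_comm.comm ⟨b, hb⟩ ⟨b', hb'⟩)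
    exact Prod.ext h1 h2
  · rw [Subgroup.card_map_of_injective Perm.sumCongrHom_injective,
      Nat.card_congr (Subgroup.prodEquiv A B).toEquiv, Nat.card_prod, hc, hd]

theorem Ab_zpowers {α : Type} (σ : Perm α) (c : ℕ) (h : orderOf σ = c) : Ab α c := by
  refine ⟨Subgroup.zpowers σ, ⟨⟨?_⟩⟩, ?_⟩
  · rintro ⟨_, i, rfl⟩ ⟨_, j, rfl⟩
    apply Subtype.ext
    show σ ^ i * σ ^ j = σ ^ j * σ ^ i
    rw [← zpow_add, ← zpow_add, add_comm]
  · rw [Nat.card_zpowers, h]

theorem Ab_three : Ab (Fin 3) 3 := by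
  haveI : Fact (Nat.Prime 3) := ⟨by norm_num⟩
  exact Ab_zpowers (finRotate 3) 3 (orderOf_eq_prime (by decide) (by decide))

theorem Ab_two : Ab (Fin 2) 2 := by
  haveI : Fact (Nat.Prime 2) := ⟨by norm_num⟩
  exact Ab_zpowers (finRotate 2) 2 (orderOf_eq_prime (by decide) (by decide))

theorem Ab_four : Ab (Fin 4) 4 := by
  haveI : Fact (Nat.Prime 2) := ⟨by norm_num⟩
  exact Ab_zpowers (finRotate 4) 4 (orderOf_eq_prime_pow (p := 2) (n := 1) (by decide) (by decide))

theorem Ab_zero : Ab (Fin 0) 1 := by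
  refine ⟨⊥, ⟨⟨?_⟩⟩, Subgroup.card_bot⟩
  rintro ⟨a, ha⟩ ⟨b, hb⟩
  rw [Subgroup.mem_bot] at ha hb
  subst ha; subst hb; rfl

theorem Ab_three_mul (k : ℕ) : Ab (Fin (3 * k)) (3 ^ k) := by
  induction k with
  | zero => exact Ab_zero
  | succ k ih =>
    have h := Ab_congr finSumFinEquiv (Ab_sum ih Ab_three)
    have e : 3 * k + 3 = 3 * (k + 1) := by ring
    rw [← pow_succ] at h
    exact Ab_congr (finCongr e) h

theorem main (k : ℕ) (hk : 1 ≤ k) :
    IsGreatest {c : ℕ | ∃ A : Subgroup (Equiv.Perm (Fin (3 * k))), IsMulCommutative A ∧ Nat.card A = c} (3 ^ k) ∧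
    IsGreatest {c : ℕ | ∃ A : Subgroup (Equiv.Perm (Fin (3 * k + 1))), IsMulCommutative A ∧ Nat.card A = c}
      (4 * 3 ^ (k - 1)) ∧
    IsGreatest {c : ℕ | ∃ A : Subgroup (Equiv.Perm (Fin (3 * k + 2))), IsMulCommutative A ∧ Nat.card A = c}
      (2 * 3 ^ k) := by
  refine ⟨⟨Ab_three_mul k, ?_⟩, ⟨?_, ?_⟩, ⟨?_, ?_⟩⟩
  · rintro c ⟨A, hA, rfl⟩
    have := abel_bound (3 * k) (Fin (3 * k)) (Fintype.card_fin _) A hA
    rwa [g_three_mul] at this
  · obtain ⟨j, rfl⟩ : ∃ j, k = j + 1 := ⟨k - 1, by omega⟩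
    have h := Ab_congr finSumFinEquiv (Ab_sum (Ab_three_mul j) Ab_four)
    have e : 3 * j + 4 = 3 * (j + 1) + 1 := by ring
    have h' : Ab (Fin (3 * (j + 1) + 1)) (3 ^ j * 4) := Ab_congr (finCongr e) h
    simp only [Nat.add_sub_cancel]
    have e2 : 4 * 3 ^ j = 3 ^ j * 4 := Nat.mul_comm _ _
    show Ab (Fin (3 * (j + 1) + 1)) (4 * 3 ^ j)
    rw [e2]
    exact h'
  · rintro c ⟨A, hA, rfl⟩
    have := abel_bound (3 * k + 1) (Fin (3 * k + 1)) (Fintype.card_fin _) A hA
    rwa [g_three_mul_add_one k hk] at this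
  · have h : Ab (Fin (3 * k + 2)) (3 ^ k * 2) := Ab_congr finSumFinEquiv (Ab_sum (Ab_three_mul k) Ab_two)
    have e2 : 2 * 3 ^ k = 3 ^ k * 2 := Nat.mul_comm _ _
    show Ab (Fin (3 * k + 2)) (2 * 3 ^ k)
    rw [e2]
    exact h
  · rintro c ⟨A, hA, rfl⟩
    have := abel_bound (3 * k + 2) (Fin (3 * k + 2)) (Fintype.card_fin _) A hA
    rwa [g_three_mul_add_two] at this

end Aux

/-- The largest order of an abelian subgroup of the symmetric group of degree n is 3^k when n = 3k, 4·3^(k−1) when n = 3k + 1, and 2·3^k when n = 3k + 2, for every k ≥ 1. -/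
theorem result (k : ℕ) (hk : 1 ≤ k) :
    IsGreatest {c : ℕ | ∃ A : Subgroup (Equiv.Perm (Fin (3 * k))), IsMulCommutative A ∧ Nat.card A = c} (3 ^ k) ∧
    IsGreatest {c : ℕ | ∃ A : Subgroup (Equiv.Perm (Fin (3 * k + 1))), IsMulCommutative A ∧ Nat.card A = c}
      (4 * 3 ^ (k - 1)) ∧
    IsGreatest {c : ℕ | ∃ A : Subgroup (Equiv.Perm (Fin (3 * k + 2))), IsMulCommutative A ∧ Nat.card A = c}
      (2 * 3 ^ k) := by
  exact main k hk

end Cfsg.Agent.S2505
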