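import Cfsg.Statements.S2514
-- import your own Cfsg.Agent.* helpers here

set_option autoImplicit false
open Cfsg

namespace Cfsg.Agent.S2514

section Aux

theorem dvd_closed {X : Type*} [Group X] [Finite X] {n d : ℕ}
    (hn : n ∈ Set.range (orderOf : X → ℕ)) (hd : d ∣ n) :
    d ∈ Set.range (orderOf : X → ℕ) := by
  obtain ⟨x, rfl⟩ := hn
  obtain ⟨e, he⟩ := hd
  have hpos : 0 < orderOf x := orderOf_pos x
  have he0 : e ≠ 0 := by
    rintro rfl
    rw [Nat.mul_zero] at he
    omega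
  refine ⟨x ^ e, ?_⟩
  rw [orderOf_pow_of_dvd he0 ⟨d, by rw [he, mul_comm]⟩, he]
  exact Nat.mul_div_cancel _ (Nat.pos_of_ne_zero he0)

theorem exists_max {X : Type*} [Group X] [Finite X] {n : ℕ}
    (hn : n ∈ Set.range (orderOf : X → ℕ)) :
    ∃ m, n ∣ m ∧ m ∈ {n : ℕ | n ∈ Set.range (orderOf : X → ℕ) ∧
      ∀ m ∈ Set.range (orderOf : X → ℕ), n ∣ m → m = n} := by
  classical
  have hfin : (Set.range (orderOf : X → ℕ)).Finite := Set.finite_range _
  have hfin' : ({m | m ∈ Set.range (orderOf : X → ℕ) ∧ n ∣ m}).Finite :=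
    hfin.subset (fun m hm => hm.1)
  have hne : hfin'.toFinset.Nonempty := ⟨n, by
    rw [Set.Finite.mem_toFinset]
    exact ⟨hn, dvd_rfl⟩⟩
  obtain ⟨m, hm, hmax⟩ := hfin'.toFinset.exists_max_image id hne
  have hm' : m ∈ Set.range (orderOf : X → ℕ) ∧ n ∣ m := by
    rw [Set.Finite.mem_toFinset] at hm
    exact hm
  refine ⟨m, hm'.2, hm'.1, ?_⟩
  intro m' hm'r hmm'
  have h1 : m' ≤ m := by
    have : m' ∈ hfin'.toFinset := by
      rw [Set.Finite.mem_toFinset]
      exact ⟨hm'r, hm'.2.trans hmm'⟩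
    simpa using hmax m' this
  have h2 : m ≤ m' := by
    obtain ⟨x, rfl⟩ := hm'r
    exact Nat.le_of_dvd (orderOf_pos x) hmm'
  omega

theorem pi_pow_eq_one_iff {X : Type*} [Group X] {ι : Type*} (f : ι → X) (n : ℕ) :
    f ^ n = 1 ↔ ∀ i, f i ^ n = 1 := by
  constructor
  · intro h i
    have := congrFun h i
    simpa using this
  · intro h
    funext i
    simpa using h i

theorem main {G H : Type*} [Group G] [Finite G] [Group H] [Finite H] (j : ℕ)
    (hsub : {n : ℕ | n ∈ Set.range (orderOf : H → ℕ) ∧ ∀ m ∈ Set.range (orderOf : H → ℕ), n ∣ m → m = n} ⊆ {n : ℕ | n ∈ Set.range (orderOf : G → ℕ) ∧ ∀ m ∈ Set.range (orderOf : G → ℕ), n ∣ m → m = n})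
    (hfew : ({n : ℕ | n ∈ Set.range (orderOf : G → ℕ) ∧ ∀ m ∈ Set.range (orderOf : G → ℕ), n ∣ m → m = n} \ {n : ℕ | n ∈ Set.range (orderOf : H → ℕ) ∧ ∀ m ∈ Set.range (orderOf : H → ℕ), n ∣ m → m = n}).ncard < j + 1) :
    Set.range (orderOf : (Fin (j + 1) → G) → ℕ) = Set.range (orderOf : (Fin j → G) × H → ℕ) := by
  classical
  have hHG : ∀ n, n ∈ Set.range (orderOf : H → ℕ) → n ∈ Set.range (orderOf : G → ℕ) := by
    intro n hn
    obtain ⟨m, hnm, hm⟩ := exists_max hn
    exact dvd_closed (hsub hm).1 hnm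
  apply Set.eq_of_subset_of_subset
  · rintro _ ⟨f, rfl⟩
    have hex : ∀ i, ∃ m, orderOf (f i) ∣ m ∧ m ∈ {n : ℕ | n ∈ Set.range (orderOf : G → ℕ) ∧
        ∀ m ∈ Set.range (orderOf : G → ℕ), n ∣ m → m = n} := fun i => exists_max ⟨f i, rfl⟩
    choose m hm1 hm2 using hex
    by_cases hcase : ∃ i, m i ∈ {n : ℕ | n ∈ Set.range (orderOf : H → ℕ) ∧
        ∀ m ∈ Set.range (orderOf : H → ℕ), n ∣ m → m = n}
    · obtain ⟨i0, hi0⟩ := hcase
      obtain ⟨h, hh⟩ := dvd_closed hi0.1 (hm1 i0)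
      refine ⟨(fun l => f (i0.succAbove l), h), ?_⟩
      rw [orderOf_eq_orderOf_iff]
      intro n
      rw [pi_pow_eq_one_iff f, Prod.ext_iff]
      have e1 : ((fun l => f (i0.succAbove l), h) ^ n).1 = (fun l => f (i0.succAbove l)) ^ n := rfl
      have e2 : ((fun l => f (i0.succAbove l), h) ^ n).2 = h ^ n := rfl
      rw [e1, e2]
      have e3 : ((1 : (Fin j → G) × H)).1 = 1 := rfl
      have e4 : ((1 : (Fin j → G) × H)).2 = 1 := rfl
      rw [e3, e4, pi_pow_eq_one_iff, ← orderOf_dvd_iff_pow_eq_one (x := h), hh,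
        orderOf_dvd_iff_pow_eq_one, Fin.forall_iff_succAbove i0]
      exact and_comm
    · push Not at hcase
      have hmaps : ∀ i ∈ (Set.univ : Set (Fin (j + 1))), m i ∈
          ({n : ℕ | n ∈ Set.range (orderOf : G → ℕ) ∧ ∀ m ∈ Set.range (orderOf : G → ℕ), n ∣ m → m = n} \ {n : ℕ | n ∈ Set.range (orderOf : H → ℕ) ∧ ∀ m ∈ Set.range (orderOf : H → ℕ), n ∣ m → m = n}) :=
        fun i _ => ⟨hm2 i, hcase i⟩
      have hcard : ({n : ℕ | n ∈ Set.range (orderOf : G → ℕ) ∧ ∀ m ∈ Set.range (orderOf : G → ℕ), n ∣ m → m = n} \ {n : ℕ | n ∈ Set.range (orderOf : H → ℕ) ∧ ∀ m ∈ Set.range (orderOf : H → ℕ), n ∣ m → m = n}).ncard <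
          (Set.univ : Set (Fin (j + 1))).ncard := by
        rw [Set.ncard_univ, Nat.card_fin]
        exact hfew
      have hfinG : (Set.range (orderOf : G → ℕ)).Finite := Set.finite_range _
      obtain ⟨a, -, b, -, hab, hmab⟩ := Set.exists_ne_map_eq_of_ncard_lt_of_maps_to hcard hmaps
        (hfinG.subset (fun x hx => hx.1.1))
      have hlcm : Nat.lcm (orderOf (f a)) (orderOf (f b)) ∣ m a :=
        Nat.lcm_dvd (hm1 a) (hmab ▸ hm1 b)
      obtain ⟨g0, hg0⟩ := dvd_closed (hm2 a).1 hlcm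
      refine ⟨(fun l => (Function.update (Function.update f a g0) b 1) (b.succAbove l), 1), ?_⟩
      rw [orderOf_eq_orderOf_iff]
      intro n
      rw [pi_pow_eq_one_iff f, Prod.ext_iff]
      have e1 : ((fun l => (Function.update (Function.update f a g0) b 1) (b.succAbove l),
          (1 : H)) ^ n).1 =
          (fun l => (Function.update (Function.update f a g0) b 1) (b.succAbove l)) ^ n := rfl
      have e2 : ((fun l => (Function.update (Function.update f a g0) b 1) (b.succAbove l),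
          (1 : H)) ^ n).2 = 1 ^ n := rfl
      rw [e1, e2]
      have e3 : ((1 : (Fin j → G) × H)).1 = 1 := rfl
      have e4 : ((1 : (Fin j → G) × H)).2 = 1 := rfl
      rw [e3, e4, pi_pow_eq_one_iff, one_pow]
      simp only [and_true]
      have key : (∀ l, (Function.update (Function.update f a g0) b 1) l ^ n = 1) ↔
          ∀ l, f l ^ n = 1 := by
        have hg0n : g0 ^ n = 1 ↔ f a ^ n = 1 ∧ f b ^ n = 1 := by
          rw [← orderOf_dvd_iff_pow_eq_one, hg0, ← orderOf_dvd_iff_pow_eq_one,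
            ← orderOf_dvd_iff_pow_eq_one]
          exact Nat.lcm_dvd_iff
        constructor
        · intro hF l
          have ha := hF a
          rw [Function.update_of_ne hab, Function.update_self] at ha
          by_cases hla : l = a
          · rw [hla]; exact (hg0n.1 ha).1
          by_cases hlb : l = b
          · rw [hlb]; exact (hg0n.1 ha).2
          have := hF l
          rwa [Function.update_of_ne hlb, Function.update_of_ne hla] at this
        · intro hf l
          by_cases hlb : l = b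
          · rw [hlb, Function.update_self, one_pow]
          rw [Function.update_of_ne hlb]
          by_cases hla : l = a
          · rw [hla, Function.update_self]; exact hg0n.2 ⟨hf a, hf b⟩
          rw [Function.update_of_ne hla]; exact hf l
      rw [← key, Fin.forall_iff_succAbove b, Function.update_self, one_pow]
      simp only [true_and]
  · rintro _ ⟨⟨f', h⟩, rfl⟩
    obtain ⟨g0, hg0⟩ := hHG _ ⟨h, rfl⟩
    refine ⟨Fin.cons g0 f', ?_⟩
    rw [orderOf_eq_orderOf_iff]
    intro n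
    rw [pi_pow_eq_one_iff, Prod.ext_iff]
    have e1 : (((f', h) : (Fin j → G) × H) ^ n).1 = f' ^ n := rfl
    have e2 : (((f', h) : (Fin j → G) × H) ^ n).2 = h ^ n := rfl
    have e3 : ((1 : (Fin j → G) × H)).1 = 1 := rfl
    have e4 : ((1 : (Fin j → G) × H)).2 = 1 := rfl
    rw [e1, e2, e3, e4, pi_pow_eq_one_iff, Fin.forall_fin_succ, Fin.cons_zero,
      ← orderOf_dvd_iff_pow_eq_one (x := h), ← hg0, orderOf_dvd_iff_pow_eq_one]
    simp only [Fin.cons_succ]
    exact and_comm

end Aux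

/-- For a finite group X write μ(X) for the set of element orders of X that are maximal under divisibility. Let G and H be finite groups and k ≥ 1 such that μ(H) ⊆ μ(G) and μ(G) has fewer than k elements outside μ(H). Then the direct product of k copies of G has the same set of element orders as the direct product of k − 1 copies of G with H. -/
theorem result {G H : Type*} [Group G] [Finite G] [Group H] [Finite H] (k : ℕ) (hk : 1 ≤ k)
    (hsub : {n : ℕ | n ∈ Set.range (orderOf : H → ℕ) ∧ ∀ m ∈ Set.range (orderOf : H → ℕ), n ∣ m → m = n} ⊆ {n : ℕ | n ∈ Set.range (orderOf : G → ℕ) ∧ ∀ m ∈ Set.range (orderOf : G → ℕ), n ∣ m → m = n})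
    (hfew : ({n : ℕ | n ∈ Set.range (orderOf : G → ℕ) ∧ ∀ m ∈ Set.range (orderOf : G → ℕ), n ∣ m → m = n} \ {n : ℕ | n ∈ Set.range (orderOf : H → ℕ) ∧ ∀ m ∈ Set.range (orderOf : H → ℕ), n ∣ m → m = n}).ncard < k) :
    Set.range (orderOf : (Fin k → G) → ℕ) = Set.range (orderOf : (Fin (k - 1) → G) × H → ℕ) := by
  obtain ⟨j, rfl⟩ : ∃ j, k = j + 1 := ⟨k - 1, by omega⟩
  exact main j hsub hfew

end Cfsg.Agent.S2514
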