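import Cfsg.Statements.S2516
-- import your own Cfsg.Agent.* helpers here

set_option autoImplicit false
open Cfsg

namespace Cfsg.Agent.S2516

section Aux

variable {F : Type*} [Field F] (p : ℕ) [Fact p.Prime] [CharP F p] {V : Type*} [AddCommGroup V]
  [Module F V] {G : Type*} [Group G] [Finite G] (ρ : Representation F G V)

theorem pow_eq (φ : G →* MulAut (Multiplicative V))
    (hφ : ∀ h v, φ h (Multiplicative.ofAdd v) = Multiplicative.ofAdd (ρ h v))
    (v : V) (g : G) (n : ℕ) :
    (⟨Multiplicative.ofAdd v, g⟩ : Multiplicative V ⋊[φ] G) ^ n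
      = ⟨Multiplicative.ofAdd (∑ i ∈ Finset.range n, ((ρ g) ^ i) v), g ^ n⟩ := by
  induction n with
  | zero =>
    apply SemidirectProduct.ext
    · simp
    · simp
  | succ n ih =>
    rw [pow_succ, ih]
    apply SemidirectProduct.ext
    · rw [SemidirectProduct.mul_left]
      show Multiplicative.ofAdd (∑ i ∈ Finset.range n, ((ρ g) ^ i) v) *
        φ (g ^ n) (Multiplicative.ofAdd v) = _
      rw [hφ, Finset.sum_range_succ, map_pow]
      rfl
    · rw [SemidirectProduct.mul_right]
      show g ^ n * g = g ^ (n + 1)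
      rw [pow_succ]

theorem main (φ : G →* MulAut (Multiplicative V))
    (hφ : ∀ h v, φ h (Multiplicative.ofAdd v) = Multiplicative.ofAdd (ρ h v)) (g : G) :
    (∃ x : Multiplicative V ⋊[φ] G, x.right = g ∧ orderOf x = p * orderOf g) ↔
      ¬ (minpoly F (ρ g) ∣ ∑ i ∈ Finset.range (orderOf g), (Polynomial.X : Polynomial F) ^ i) := by
  classical
  have hp := (Fact.out : p.Prime)
  have hk : 0 < orderOf g := orderOf_pos g
  obtain ⟨k, hkdef⟩ : ∃ k, k = orderOf g := ⟨_, rfl⟩
  rw [← hkdef] at hk ⊢
  rw [minpoly.dvd_iff]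
  have haeval : Polynomial.aeval (ρ g) (∑ i ∈ Finset.range k, (Polynomial.X : Polynomial F) ^ i)
      = ∑ i ∈ Finset.range k, (ρ g) ^ i := by
    simp [map_sum]
  rw [haeval]
  have hxk : ∀ v : V, (⟨Multiplicative.ofAdd v, g⟩ : Multiplicative V ⋊[φ] G) ^ k
      = SemidirectProduct.inl (Multiplicative.ofAdd ((∑ i ∈ Finset.range k, (ρ g) ^ i) v)) := by
    intro v
    rw [pow_eq ρ φ hφ, hkdef, pow_orderOf_eq_one, LinearMap.sum_apply]
    rfl
  have hdvd : ∀ v : V, orderOf (⟨Multiplicative.ofAdd v, g⟩ : Multiplicative V ⋊[φ] G) ∣ p * k := by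
    intro v
    apply orderOf_dvd_of_pow_eq_one
    rw [mul_comm, pow_mul, hxk, ← map_pow, ← ofAdd_nsmul]
    have h0 : p • ((∑ i ∈ Finset.range k, (ρ g) ^ i) v) = 0 := by
      rw [← Nat.cast_smul_eq_nsmul F, CharP.cast_eq_zero, zero_smul]
    rw [h0]
    simp
  have hdvd2 : ∀ v : V, k ∣ orderOf (⟨Multiplicative.ofAdd v, g⟩ : Multiplicative V ⋊[φ] G) := by
    intro v
    rw [hkdef]
    exact orderOf_map_dvd (SemidirectProduct.rightHom (φ := φ))
      (⟨Multiplicative.ofAdd v, g⟩ : Multiplicative V ⋊[φ] G)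
  have hiff : ∀ v : V, orderOf (⟨Multiplicative.ofAdd v, g⟩ : Multiplicative V ⋊[φ] G) = p * k ↔
      (∑ i ∈ Finset.range k, (ρ g) ^ i) v ≠ 0 := by
    intro v
    constructor
    · intro h h0
      have h1 := hxk v
      rw [h0] at h1
      have h2 : (⟨Multiplicative.ofAdd v, g⟩ : Multiplicative V ⋊[φ] G) ^ k = 1 := by
        rw [h1]; simp
      have h3 := orderOf_dvd_of_pow_eq_one h2
      rw [h] at h3
      have h4 := Nat.le_of_dvd hk h3
      have h5 : 2 * k ≤ p * k := Nat.mul_le_mul_right k hp.two_le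
      omega
    · intro h
      obtain ⟨d, hd⟩ := hdvd2 v
      have h1 := hdvd v
      rw [hd, mul_comm p k] at h1
      have h2 : d ∣ p := Nat.dvd_of_mul_dvd_mul_left hk h1
      rcases (Nat.dvd_prime hp).1 h2 with h3 | h3
      · exfalso
        rw [h3, mul_one] at hd
        have h4 := pow_orderOf_eq_one (⟨Multiplicative.ofAdd v, g⟩ : Multiplicative V ⋊[φ] G)
        rw [hd, hxk] at h4
        have h5 := congrArg SemidirectProduct.left h4
        rw [SemidirectProduct.left_inl, SemidirectProduct.one_left] at h5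
        exact h (Multiplicative.ofAdd.injective h5)
      · rw [hd, h3, mul_comm]
  constructor
  · rintro ⟨x, hxg, hx⟩ h0
    have hx' : x = ⟨Multiplicative.ofAdd (Multiplicative.toAdd x.left), g⟩ := by
      apply SemidirectProduct.ext
      · simp
      · exact hxg
    rw [hx'] at hx
    have h1 := (hiff _).1 hx
    rw [h0] at h1
    simp at h1
  · intro h
    obtain ⟨v, hv⟩ : ∃ v, (∑ i ∈ Finset.range k, (ρ g) ^ i) v ≠ 0 := by
      by_contra hcon
      push_neg at hcon
      exact h (LinearMap.ext hcon)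
    exact ⟨⟨Multiplicative.ofAdd v, g⟩, rfl, (hiff v).2 hv⟩

end Aux

/-- Let F be a field of characteristic p > 0, V a non-zero finite-dimensional F-vector space, G a finite group and ρ a representation of G on V; form the semidirect product V ⋊ G. For g ∈ G of order k, the coset Vg contains an element of order pk if and only if the minimal polynomial of ρ(g) does not divide 1 + X + ⋯ + X^(k−1). -/
theorem result {F : Type*} [Field F] (p : ℕ) [Fact p.Prime] [CharP F p] {V : Type*} [AddCommGroup V] [Module F V] [FiniteDimensional F V] [Nontrivial V]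
    {G : Type*} [Group G] [Finite G] (ρ : Representation F G V) (g : G) :
    (∃ x : Multiplicative V ⋊[(MulAutMultiplicative V).symm.toMonoidHom.comp
        ((DistribMulAction.toAddAut ((V →ₗ[F] V)ˣ) V).comp ρ.asGroupHom)] G,
        x.right = g ∧ orderOf x = p * orderOf g) ↔
      ¬ (minpoly F (ρ g) ∣ ∑ i ∈ Finset.range (orderOf g), (Polynomial.X : Polynomial F) ^ i) := by
  exact main p ρ _ (fun h v => rfl) g

end Cfsg.Agent.S2516
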