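import Cfsg.Statements.S2521
-- import your own Cfsg.Agent.* helpers here

set_option autoImplicit false
open Cfsg

namespace Cfsg.Agent.S2521

/-- Let B be a finite group that is the semidirect product of a nilpotent normal subgroup U by an abelian subgroup T (U ∩ T = 1, UT = B), and let t ∈ T have centralizer exactly T. Then every element of the coset tU is conjugate to t in B: for each u ∈ U there is b ∈ B with b t b⁻¹ = t u. -/
theorem result {B : Type*} [Group B] [Finite B] (U T : Subgroup B) [U.Normal] (hU : Group.IsNilpotent ↥U) (hT : IsMulCommutative ↥T)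
    (hcompl : Subgroup.IsComplement' U T) (t : B) (ht : t ∈ T) (hreg : Subgroup.centralizer ({t} : Set B) = T) (u : B) (hu : u ∈ U) :
    ∃ b : B, b * t * b⁻¹ = t * u := by
  classical
  have hdisj : Disjoint U T := hcompl.disjoint
  -- the map v ↦ t⁻¹ v t v⁻¹ on U
  let f : U → U := fun v => ⟨t⁻¹ * v * t * (v : B)⁻¹, by
    have h1 : t⁻¹ * (v : B) * t ∈ U := by
      have := ‹U.Normal›.conj_mem (v : B) v.2 t⁻¹
      simpa using this
    exact U.mul_mem h1 (U.inv_mem v.2)⟩
  have hinj : Function.Injective f := by
    intro v w hvw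
    have h : t⁻¹ * (v : B) * t * (v : B)⁻¹ = t⁻¹ * (w : B) * t * (w : B)⁻¹ := congrArg Subtype.val hvw
    have hc : (w : B)⁻¹ * v ∈ Subgroup.centralizer ({t} : Set B) := by
      rw [Subgroup.mem_centralizer_iff]
      intro x hx
      rw [Set.mem_singleton_iff] at hx
      subst hx
      have h2 : (v : B) * x * (v : B)⁻¹ = (w : B) * x * (w : B)⁻¹ := by
        have := congrArg (fun z => x * z) h
        simpa [mul_assoc] using this
      have h3 : x = (v : B)⁻¹ * ((w : B) * x * (w : B)⁻¹) * v := by rw [← h2]; group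
      calc x * ((w : B)⁻¹ * v) = (w : B)⁻¹ * v * ((v : B)⁻¹ * ((w : B) * x * (w : B)⁻¹) * v) := by group
        _ = (w : B)⁻¹ * v * x := by rw [← h3]
    rw [hreg] at hc
    have hU' : (w : B)⁻¹ * v ∈ U := U.mul_mem (U.inv_mem w.2) v.2
    have h1 : (w : B)⁻¹ * v = 1 := by
      have := Subgroup.disjoint_def.mp hdisj hU' hc
      exact this
    apply Subtype.ext
    have : (v : B) = w := by
      have := congrArg (fun z => (w : B) * z) h1
      simpa using this
    exact this
  have hsurj : Function.Surjective f := Finite.injective_iff_surjective.mp hinj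
  obtain ⟨v, hv⟩ := hsurj ⟨u, hu⟩
  have hv' : t⁻¹ * (v : B) * t * (v : B)⁻¹ = u := congrArg Subtype.val hv
  refine ⟨(v : B), ?_⟩
  rw [← hv']; group

end Cfsg.Agent.S2521
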