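import Cfsg.Statements.S2907
import Cfsg.Agent.S0095

set_option autoImplicit false
open Cfsg

namespace Cfsg.Agent.S2907

/-- Let X be a finite semi-extraspecial p-group and x an element of X outside the centre. Then the index of C_X(x) in X equals the order of Z(X), and the commutators [x, y], y ∈ X, form exactly the centre Z(X). -/
theorem result {X : Type*} [Group X] [Finite X] {p : ℕ} [Fact p.Prime] (hX : Cfsg.IsSemiExtraspecial p X) (x : X) (hx : x ∉ Subgroup.center X) : (Subgroup.centralizer ({x} : Set X)).index = Nat.card ↥(Subgroup.center X) ∧ {z : X | ∃ y : X, z = x * y * x⁻¹ * y⁻¹} = (Subgroup.center X : Set X) := by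
  obtain ⟨⟨hP, hfrat, hcomm⟩, hsemi⟩ := hX
  have hcl : ∀ a b : X, a * b * a⁻¹ * b⁻¹ ∈ Subgroup.center X := by
    intro a b
    rw [← hcomm]
    show a * b * a⁻¹ * b⁻¹ ∈ ⁅(⊤ : Subgroup X), ⊤⁆
    exact Subgroup.commutator_mem_commutator (Subgroup.mem_top a) (Subgroup.mem_top b)
  have hsurj : (Cfsg.Agent.S0095.commHom hcl x).range = ⊤ := by
    by_contra hne
    obtain ⟨M, hM, hIM⟩ := (eq_top_or_exists_le_coatom _).resolve_left hne
    have hYle : M.map (Subgroup.center X).subtype ≤ Subgroup.center X :=
      Subgroup.map_subtype_le M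
    have hYsub : (M.map (Subgroup.center X).subtype).subgroupOf (Subgroup.center X) = M :=
      Subgroup.comap_map_eq_self_of_injective (Subgroup.center X).subtype_injective M
    obtain ⟨hYn, hE⟩ := hsemi _ hYle (by rw [hYsub]; exact hM)
    haveI := hYn
    obtain ⟨⟨-, -, hcommQ⟩, -⟩ := hE
    have hxc : QuotientGroup.mk' (M.map (Subgroup.center X).subtype) x ∈
        Subgroup.center (X ⧸ M.map (Subgroup.center X).subtype) := by
      rw [Subgroup.mem_center_iff]
      intro g
      obtain ⟨y, rfl⟩ := QuotientGroup.mk'_surjective _ g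
      have h1 : x * y * x⁻¹ * y⁻¹ ∈ M.map (Subgroup.center X).subtype :=
        Subgroup.mem_map.mpr ⟨Cfsg.Agent.S0095.commHom hcl x y,
          hIM (MonoidHom.mem_range.mpr ⟨y, rfl⟩), rfl⟩
      have h2 : QuotientGroup.mk' (M.map (Subgroup.center X).subtype)
          (x * y * x⁻¹ * y⁻¹) = 1 := (QuotientGroup.eq_one_iff _).mpr h1
      rw [map_mul, map_mul, map_mul, map_inv, map_inv] at h2
      have h3 := mul_inv_eq_iff_eq_mul.mp (mul_inv_eq_one.mp h2)
      exact h3.symm
    rw [← hcommQ] at hxc
    have h4 : commutator (X ⧸ M.map (Subgroup.center X).subtype) =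
        (Subgroup.center X).map (QuotientGroup.mk' (M.map (Subgroup.center X).subtype)) := by
      have e1 : (commutator X).map (QuotientGroup.mk' (M.map (Subgroup.center X).subtype)) =
          commutator (X ⧸ M.map (Subgroup.center X).subtype) := by
        show Subgroup.map _ ⁅(⊤ : Subgroup X), ⊤⁆ =
          ⁅(⊤ : Subgroup (X ⧸ M.map (Subgroup.center X).subtype)), ⊤⁆
        rw [Subgroup.map_commutator,
          Subgroup.map_top_of_surjective _ (QuotientGroup.mk'_surjective _)]
      rw [← e1, hcomm]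
    rw [h4] at hxc
    obtain ⟨z, hz, hzx⟩ := hxc
    have h5 : z⁻¹ * x ∈ M.map (Subgroup.center X).subtype := QuotientGroup.eq.mp hzx
    have h6 : x = z * (z⁻¹ * x) := by group
    apply hx
    rw [h6]
    exact mul_mem hz (hYle h5)
  constructor
  · have h1 := Subgroup.index_ker (Cfsg.Agent.S0095.commHom hcl x)
    rw [hsurj, Subgroup.card_top] at h1
    rw [← h1]
    congr 1
    ext g
    rw [MonoidHom.mem_ker, Cfsg.Agent.S0095.commHom_eq_one_iff,
      Subgroup.mem_centralizer_singleton_iff]
    exact eq_comm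
  · ext z
    constructor
    · rintro ⟨y, rfl⟩
      exact hcl x y
    · intro hz
      have h1 : (⟨z, hz⟩ : Subgroup.center X) ∈ (Cfsg.Agent.S0095.commHom hcl x).range := by
        rw [hsurj]; exact Subgroup.mem_top _
      obtain ⟨y, hy⟩ := h1
      have h2 : x * y * x⁻¹ * y⁻¹ = z := congrArg Subtype.val hy
      exact ⟨y, h2.symm⟩

end Cfsg.Agent.S2907
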