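import Cfsg.Statements.S2908
import Cfsg.Agent.Lib_helper7_Comm
import Cfsg.Agent.Lib_helper1_Coprime

set_option autoImplicit false
open Cfsg

namespace Cfsg.Agent.S2908

/-- Let P be a p-subgroup of a finite group, normalized by a p-subgroup A and by a subgroup B of order prime to p that commutes elementwise with A. If [P, B] ≤ [P, A], then B centralizes P. -/
theorem result {G : Type*} [Group G] [Finite G] {p : ℕ} [Fact p.Prime] (P A B : Subgroup G) (hP : IsPGroup p ↥P) (hA : IsPGroup p ↥A) (hB : ¬ p ∣ Nat.card ↥B) (hnA : A ≤ Subgroup.normalizer (P : Set G)) (hnB : B ≤ Subgroup.normalizer (P : Set G)) (hAB : ⁅A, B⁆ = ⊥) (hcomm : ⁅P, B⁆ ≤ ⁅P, A⁆) : ⁅P, B⁆ = ⊥ := by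
  classical
  have hp : p.Prime := Fact.out
  have hXP : ⁅P, B⁆ ≤ P := Cfsg.Agent.Lib_helper1_Coprime.commutator_le_of_normalizes B P hnB
  obtain ⟨n, hn⟩ := (IsPGroup.iff_card).mp hP
  have hcop : (Nat.card B).Coprime (Nat.card P) := by
    rw [hn]
    exact Nat.Coprime.pow_right n ((Nat.Prime.coprime_iff_not_dvd hp).mpr hB).symm
  have hnilP : Group.IsNilpotent P := hP.isNilpotent
  have hsolv : Group.IsSolvable P := inferInstance
  have h1 : ⁅⁅P, B⁆, B⁆ = ⁅P, B⁆ :=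
    Cfsg.Agent.Lib_helper1_Coprime.commutator_commutator_eq B P hnB hcop (Or.inr hsolv)
  -- `A` and `B` centralize each other
  have hAcB : A ≤ Subgroup.centralizer (B : Set G) :=
    Subgroup.commutator_eq_bot_iff_le_centralizer.mp hAB
  have hBcA : B ≤ Subgroup.centralizer (A : Set G) := by
    rw [Subgroup.commutator_comm] at hAB
    exact Subgroup.commutator_eq_bot_iff_le_centralizer.mp hAB
  have hAnB : A ≤ Subgroup.normalizer (B : Set G) := hAcB.trans (Subgroup.centralizer_le_normalizer _)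
  have hBnA : B ≤ Subgroup.normalizer (A : Set G) := hBcA.trans (Subgroup.centralizer_le_normalizer _)
  -- normalizers of `X = ⁅P, B⁆`
  have hPX : P ≤ Subgroup.normalizer ((⁅P, B⁆ : Subgroup G) : Set G) :=
    Cfsg.Agent.Lib_helper1_Coprime.normalizer_commutator_left B P
  have hAX : A ≤ Subgroup.normalizer ((⁅P, B⁆ : Subgroup G) : Set G) := fun a ha =>
    Cfsg.Agent.Lib_helper7_Comm.mem_normalizer_commutator P B a (hnA ha) (hAnB ha)
  have hBX : B ≤ Subgroup.normalizer ((⁅P, B⁆ : Subgroup G) : Set G) :=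
    Cfsg.Agent.Lib_helper1_Coprime.normalizer_commutator_right B P hnB
  have hLX : P ⊔ A ≤ Subgroup.normalizer ((⁅P, B⁆ : Subgroup G) : Set G) := sup_le hPX hAX
  have hLN : P ⊔ A ≤ Subgroup.normalizer ((⁅⁅P, B⁆, P ⊔ A⁆ : Subgroup G) : Set G) :=
    Cfsg.Agent.Lib_helper1_Coprime.normalizer_commutator_right (P ⊔ A) ⁅P, B⁆ hLX
  have hBN : B ≤ Subgroup.normalizer ((⁅⁅P, B⁆, P ⊔ A⁆ : Subgroup G) : Set G) := fun b hb =>
    Cfsg.Agent.Lib_helper7_Comm.mem_normalizer_commutator ⁅P, B⁆ (P ⊔ A) b (hBX hb)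
      (Cfsg.Agent.Lib_helper7_Comm.mem_normalizer_sup P A b (hnB hb) (hBnA hb))
  have h3 : ⁅⁅P, A⁆, B⁆ ≤ ⁅⁅P, B⁆, P ⊔ A⁆ := by
    apply Cfsg.Agent.Lib_helper7_Comm.three_subgroups_rel _ P A B (le_sup_left.trans hLN)
      (le_sup_right.trans hLN) hBN
    · rw [hAB, Subgroup.commutator_bot_left]
      exact bot_le
    · rw [Subgroup.commutator_comm B P]
      exact Subgroup.commutator_mono le_rfl le_sup_right
  have h4 : ⁅P, B⁆ ≤ ⁅⁅P, B⁆, P ⊔ A⁆ := by
    calc ⁅P, B⁆ = ⁅⁅P, B⁆, B⁆ := h1.symm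
      _ ≤ ⁅⁅P, A⁆, B⁆ := Subgroup.commutator_mono hcomm le_rfl
      _ ≤ ⁅⁅P, B⁆, P ⊔ A⁆ := h3
  have hLp : IsPGroup p ↥(P ⊔ A) := by
    rw [sup_comm]
    exact IsPGroup.to_sup_of_normal_right' hA hP hnA
  have hnilL : Group.IsNilpotent ↥(P ⊔ A) := hLp.isNilpotent
  exact Cfsg.Agent.Lib_helper7_Comm.eq_bot_of_le_commutator (P ⊔ A) ⁅P, B⁆ (hXP.trans le_sup_left) h4

end Cfsg.Agent.S2908
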