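import Cfsg.Statements.S2910
import Cfsg.Agent.Lib_helper7_OddOmega

set_option autoImplicit false
open Cfsg

namespace Cfsg.Agent.S2910

/-- Let p be an odd prime dividing the order of the finite group G and P a Sylow p-subgroup of G. If Ω₁(P) (generated by the elements of order dividing p) is contained in the centre of G, then G has a normal p-complement. In particular, if G is quasisimple then Ω₁(P) is not central in G. -/
theorem result {G : Type*} [Group G] [Finite G] {p : ℕ} [Fact p.Prime] (hp : p ≠ 2) (hdiv : p ∣ Nat.card G) (P : Sylow p G) (hZ : Cfsg.omegaOne p (P : Subgroup G) ≤ Subgroup.center G) : Cfsg.HasNormalPComplement p G ∧ ¬ Cfsg.IsQuasisimple G := by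
  have hp' : p.Prime := Fact.out
  have hnpc := Cfsg.Agent.Lib_helper7_OddOmega.npc_of_omega_central hp P hZ
  refine ⟨Cfsg.Agent.Lib_helper1_Frobenius.hasNormalPComplement_of_npc hnpc, ?_⟩
  rintro ⟨hperf, -⟩
  obtain ⟨N, hN, hc, k, hk⟩ := hnpc
  haveI := hN
  have hcardq : Nat.card (G ⧸ N) = p ^ k := by rw [← Subgroup.index_eq_card]; exact hk
  have hk0 : k ≠ 0 := by
    rintro rfl
    rw [pow_zero] at hk
    have hNtop : N = ⊤ := Subgroup.index_eq_one.mp hk
    rw [hNtop, Subgroup.card_top] at hc
    exact (Nat.Prime.coprime_iff_not_dvd hp').mp hc.symm hdiv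
  haveI : Nontrivial (G ⧸ N) := by
    rw [← Finite.one_lt_card_iff_nontrivial, hcardq]
    exact Nat.one_lt_pow hk0 hp'.one_lt
  have hpq : IsPGroup p (G ⧸ N) := IsPGroup.of_card hcardq
  haveI := hpq.isNilpotent
  haveI : Group.IsPerfect G := hperf
  exact Group.IsPerfect.not_isSolvable (G ⧸ N) inferInstance

end Cfsg.Agent.S2910
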