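import Cfsg.Statements.S2923
import Cfsg.Agent.Lib_helper7_Stab

set_option autoImplicit false
open Cfsg

namespace Cfsg.Agent.S2923

/-- Let p be a prime and X a finite group of characteristic p, that is C_X(O_p(X)) ≤ O_p(X). Then every subnormal subgroup of X has characteristic p. -/
theorem result {X : Type*} [Group X] [Finite X] {p : ℕ} [Fact p.Prime] (hX : Subgroup.centralizer (Cfsg.pCore p X : Set X) ≤ Cfsg.pCore p X) (Y : Subgroup X) (hY : Y.IsSubnormal) : Subgroup.centralizer (Cfsg.pCore p ↥Y : Set ↥Y) ≤ Cfsg.pCore p ↥Y := by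
  rw [Cfsg.Agent.Lib_helper7_Stab.charP_iff]
  induction hY with
  | top =>
    apply Cfsg.Agent.Lib_helper7_Stab.charP_of_normalized ⊤ (Cfsg.pCore p X) Cfsg.Agent.Lib_helper7_Stab.isPGroup_pCore
    · intro l _
      rw [Subgroup.mem_normalizer_iff]
      intro h
      simp
    · intro l _
      have hn : (Cfsg.pCore p X).Normal := inferInstance
      rw [Subgroup.normalizer_eq_top_iff.mpr hn]
      exact Subgroup.mem_top l
    · exact inf_le_right.trans hX
  | step H K h_le hSubn hN ih =>
    apply Cfsg.Agent.Lib_helper7_Stab.charP_of_normalized H (Cfsg.Agent.Lib_helper7_Stab.pCoreIn p K) (Cfsg.Agent.Lib_helper7_Stab.isPGroup_pCoreIn K)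
    · exact (Cfsg.Agent.Lib_helper7_Stab.pCoreIn_le K).trans ((Subgroup.normal_subgroupOf_iff_le_normalizer h_le).1 hN)
    · exact h_le.trans (Cfsg.Agent.Lib_helper7_Stab.le_normalizer_pCoreIn K)
    · exact (inf_le_inf_right _ h_le).trans ih

end Cfsg.Agent.S2923
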