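import Cfsg.Statements.S2925
import Cfsg.Agent.Lib_helper7_SylSubn

set_option autoImplicit false
open Cfsg

namespace Cfsg.Agent.S2925

/-- Let K be a component of the finite group X and T a Sylow 2-subgroup of X. If some abelian normal subgroup Y of T does not normalize K, then K ⧸ Z(K) has abelian Sylow 2-subgroups. -/
theorem result {X : Type*} [Group X] [Finite X] (K : Subgroup X) (hK : Cfsg.IsComponent K) (T : Sylow 2 X) (Y : Subgroup X) (hYT : Y ≤ (T : Subgroup X)) (hYn : (Y.subgroupOf (T : Subgroup X)).Normal) (hYab : IsMulCommutative ↥Y) (hnot : ¬ Y ≤ Subgroup.normalizer (K : Set X)) (P : Sylow 2 (↥K ⧸ Subgroup.center ↥K)) : IsMulCommutative ↥(P : Subgroup (↥K ⧸ Subgroup.center ↥K)) := by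
  classical
  obtain ⟨y, hyY, hyN⟩ : ∃ y ∈ Y, y ∉ Subgroup.normalizer (K : Set X) := by
    by_contra hcon
    push_neg at hcon
    exact hnot hcon
  have hK' : Cfsg.IsComponent (K.map (MulAut.conj y).toMonoidHom) :=
    Cfsg.Agent.Lib_helper2_Comp.comp_map_equiv hK (MulAut.conj y)
  have hcomm : ∀ k ∈ K, ∀ l ∈ K.map (MulAut.conj y).toMonoidHom, k * l = l * k := by
    rcases Cfsg.Agent.Lib_helper2_Comp.comp_eq_or_comm hK hK' with h | h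
    · exfalso
      apply hyN
      apply Cfsg.Agent.Lib_helper7_Sylow.mem_normalizer_of_conj_le
      rw [← h]
    · exact h
  have hcen : ∀ s₁ ∈ (T : Subgroup X) ⊓ K, ∀ s₂ ∈ (T : Subgroup X) ⊓ K, ∀ k ∈ K,
      (s₁⁻¹ * s₂⁻¹ * s₁ * s₂) * k = k * (s₁⁻¹ * s₂⁻¹ * s₁ * s₂) := by
    intro s₁ hs₁ s₂ hs₂ k hk
    have hc : ∀ s ∈ (T : Subgroup X) ⊓ K, s * y * s⁻¹ * y⁻¹ ∈ Y := by
      intro s hs
      have h1 : s * y * s⁻¹ ∈ Y := by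
        have := hYn.conj_mem ⟨y, hYT hyY⟩ (Subgroup.mem_subgroupOf.mpr hyY) ⟨s, hs.1⟩
        exact Subgroup.mem_subgroupOf.mp this
      exact Y.mul_mem h1 (Y.inv_mem hyY)
    have hab : (s₁ * y * s₁⁻¹ * y⁻¹) * (s₂ * y * s₂⁻¹ * y⁻¹)
        = (s₂ * y * s₂⁻¹ * y⁻¹) * (s₁ * y * s₁⁻¹ * y⁻¹) := by
      have := hYab.is_comm.comm (⟨_, hc s₁ hs₁⟩ : ↥Y) ⟨_, hc s₂ hs₂⟩
      exact congrArg Subtype.val this
    have hl : ∀ s ∈ (T : Subgroup X) ⊓ K, y * s⁻¹ * y⁻¹ ∈ K.map (MulAut.conj y).toMonoidHom := by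
      intro s hs
      exact ⟨s⁻¹, K.inv_mem hs.2, rfl⟩
    obtain ⟨l₁, hl₁⟩ : ∃ l, l = y * s₁⁻¹ * y⁻¹ := ⟨_, rfl⟩
    obtain ⟨l₂, hl₂⟩ : ∃ l, l = y * s₂⁻¹ * y⁻¹ := ⟨_, rfl⟩
    have hl₁K : l₁ ∈ K.map (MulAut.conj y).toMonoidHom := by rw [hl₁]; exact hl s₁ hs₁
    have hl₂K : l₂ ∈ K.map (MulAut.conj y).toMonoidHom := by rw [hl₂]; exact hl s₂ hs₂
    have e1 : s₂ * l₁ = l₁ * s₂ := hcomm s₂ hs₂.2 l₁ hl₁K
    have e2 : s₁ * l₂ = l₂ * s₁ := hcomm s₁ hs₁.2 l₂ hl₂K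
    have hab' : s₁ * l₁ * s₂ * l₂ = s₂ * l₂ * s₁ * l₁ := by
      calc s₁ * l₁ * s₂ * l₂ = (s₁ * y * s₁⁻¹ * y⁻¹) * (s₂ * y * s₂⁻¹ * y⁻¹) := by
            rw [hl₁, hl₂]; group
        _ = (s₂ * y * s₂⁻¹ * y⁻¹) * (s₁ * y * s₁⁻¹ * y⁻¹) := hab
        _ = s₂ * l₂ * s₁ * l₁ := by rw [hl₁, hl₂]; group
    have hd : s₁⁻¹ * s₂⁻¹ * s₁ * s₂ = l₂ * l₁ * l₂⁻¹ * l₁⁻¹ := by
      calc s₁⁻¹ * s₂⁻¹ * s₁ * s₂ = s₁⁻¹ * s₂⁻¹ * (s₁ * (s₂ * l₁) * l₂) * l₂⁻¹ * l₁⁻¹ := by group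
        _ = s₁⁻¹ * s₂⁻¹ * (s₁ * l₁ * s₂ * l₂) * l₂⁻¹ * l₁⁻¹ := by rw [e1]; group
        _ = s₁⁻¹ * s₂⁻¹ * (s₂ * l₂ * s₁ * l₁) * l₂⁻¹ * l₁⁻¹ := by rw [hab']
        _ = s₁⁻¹ * s₂⁻¹ * (s₂ * (l₂ * s₁) * l₁) * l₂⁻¹ * l₁⁻¹ := by group
        _ = s₁⁻¹ * s₂⁻¹ * (s₂ * (s₁ * l₂) * l₁) * l₂⁻¹ * l₁⁻¹ := by rw [e2]
        _ = l₂ * l₁ * l₂⁻¹ * l₁⁻¹ := by group
    have hdK : l₂ * l₁ * l₂⁻¹ * l₁⁻¹ ∈ K.map (MulAut.conj y).toMonoidHom :=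
      Subgroup.mul_mem _ (Subgroup.mul_mem _ (Subgroup.mul_mem _ hl₂K hl₁K) (Subgroup.inv_mem _ hl₂K))
        (Subgroup.inv_mem _ hl₁K)
    rw [hd]
    exact (hcomm k hk _ hdK).symm
  have hSKp : IsPGroup 2 ↥(((T : Subgroup X) ⊓ K).subgroupOf K) :=
    (T.isPGroup'.to_le inf_le_left).comap_subtype
  have hidx : ¬ 2 ∣ (((T : Subgroup X) ⊓ K).subgroupOf K).index :=
    Cfsg.Agent.Lib_helper7_SylSubn.sylow_inf_subnormal T K hK.1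
  have hSbp : IsPGroup 2 ↥((((T : Subgroup X) ⊓ K).subgroupOf K).map
      (QuotientGroup.mk' (Subgroup.center ↥K))) := hSKp.map _
  have hSbidx : ¬ 2 ∣ ((((T : Subgroup X) ⊓ K).subgroupOf K).map
      (QuotientGroup.mk' (Subgroup.center ↥K))).index := by
    intro h
    exact hidx (h.trans (Subgroup.index_map_dvd _ (QuotientGroup.mk'_surjective _)))
  obtain ⟨x, -, hx⟩ := Cfsg.Agent.Lib_helper7_Sylow.exists_conj_le_sylow 2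
    (hSbp.toSylow hSbidx) (P : Subgroup (↥K ⧸ Subgroup.center ↥K)) P.isPGroup'
  have hcommS : ∀ u ∈ (((T : Subgroup X) ⊓ K).subgroupOf K).map
      (QuotientGroup.mk' (Subgroup.center ↥K)), ∀ v ∈ (((T : Subgroup X) ⊓ K).subgroupOf K).map
      (QuotientGroup.mk' (Subgroup.center ↥K)), u * v = v * u := by
    rintro _ ⟨s₁, hs₁, rfl⟩ _ ⟨s₂, hs₂, rfl⟩
    have hs₁ : (s₁ : X) ∈ (T : Subgroup X) ⊓ K := Subgroup.mem_subgroupOf.mp hs₁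
    have hs₂ : (s₂ : X) ∈ (T : Subgroup X) ⊓ K := Subgroup.mem_subgroupOf.mp hs₂
    show ((s₁ * s₂ : ↥K) : ↥K ⧸ Subgroup.center ↥K) = ((s₂ * s₁ : ↥K) : ↥K ⧸ Subgroup.center ↥K)
    symm
    rw [QuotientGroup.eq, Subgroup.mem_center_iff]
    intro g
    apply Subtype.ext
    have := hcen s₁ hs₁ s₂ hs₂ g g.2
    show (g : X) * (((s₂ : X) * (s₁ : X))⁻¹ * ((s₁ : X) * (s₂ : X)))
      = (((s₂ : X) * (s₁ : X))⁻¹ * ((s₁ : X) * (s₂ : X))) * (g : X)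
    have e : ((s₂ : X) * (s₁ : X))⁻¹ * ((s₁ : X) * (s₂ : X))
        = (s₁ : X)⁻¹ * (s₂ : X)⁻¹ * (s₁ : X) * (s₂ : X) := by group
    rw [e, this]
  refine ⟨⟨fun a b => Subtype.ext ?_⟩⟩
  have ha := hx a a.2
  have hb := hx b b.2
  have ha' : x * (a : ↥K ⧸ Subgroup.center ↥K) * x⁻¹ ∈ (((T : Subgroup X) ⊓ K).subgroupOf K).map
      (QuotientGroup.mk' (Subgroup.center ↥K)) := (IsPGroup.mem_toSylow hSbp hSbidx).mp ha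
  have hb' : x * (b : ↥K ⧸ Subgroup.center ↥K) * x⁻¹ ∈ (((T : Subgroup X) ⊓ K).subgroupOf K).map
      (QuotientGroup.mk' (Subgroup.center ↥K)) := (IsPGroup.mem_toSylow hSbp hSbidx).mp hb
  have h := hcommS _ ha' _ hb'
  show (a : ↥K ⧸ Subgroup.center ↥K) * b = b * a
  calc (a : ↥K ⧸ Subgroup.center ↥K) * b = x⁻¹ * ((x * a * x⁻¹) * (x * b * x⁻¹)) * x := by group
    _ = x⁻¹ * ((x * b * x⁻¹) * (x * a * x⁻¹)) * x := by rw [h]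
    _ = b * a := by group

end Cfsg.Agent.S2925
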