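import Cfsg.Statements.S2940
import Cfsg.Agent.Lib_helper7_SE2

set_option autoImplicit false
open Cfsg

namespace Cfsg.Agent.S2940

/-- Let S be a Sylow p-subgroup of the finite group G and G₁, G₂ subgroups containing S with G = G₁G₂. Then for every g ∈ G there is a Sylow p-subgroup U of G with S ∩ S^g ≤ U ≤ G₁ ∩ G₂^g (conjugates taken as X^g = g⁻¹Xg). -/
theorem result {G : Type*} [Group G] [Finite G] {p : ℕ} [Fact p.Prime] (S : Sylow p G) (G₁ G₂ : Subgroup G) (h1 : (S : Subgroup G) ≤ G₁) (h2 : (S : Subgroup G) ≤ G₂) (hfact : ∀ g : G, ∃ g₁ ∈ G₁, ∃ g₂ ∈ G₂, g = g₁ * g₂) (g : G) : ∃ U : Sylow p G, (S : Subgroup G) ⊓ Cfsg.subgroupConjRight g (S : Subgroup G) ≤ (U : Subgroup G) ∧ (U : Subgroup G) ≤ G₁ ⊓ Cfsg.subgroupConjRight g G₂ := by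
  obtain ⟨h₁, hh₁, h₂, hh₂, hg⟩ := hfact g⁻¹
  set L := G₁ ⊓ Cfsg.subgroupConjRight g G₂ with hL
  have hS'L : ((h₁ • S : Sylow p G) : Subgroup G) ≤ L := by
    rw [Sylow.coe_subgroup_smul]
    rintro _ ⟨s, hs, rfl⟩
    refine ⟨G₁.mul_mem (G₁.mul_mem hh₁ (h1 hs)) (G₁.inv_mem hh₁), ?_⟩
    refine ⟨h₂⁻¹ * s * h₂, G₂.mul_mem (G₂.mul_mem (G₂.inv_mem hh₂) (h2 hs)) hh₂, ?_⟩
    show g⁻¹ * (h₂⁻¹ * s * h₂) * g⁻¹⁻¹ = h₁ * s * h₁⁻¹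
    rw [hg]; group
  have hDL : (S : Subgroup G) ⊓ Cfsg.subgroupConjRight g (S : Subgroup G) ≤ L :=
    inf_le_inf h1 (Subgroup.map_mono h2)
  obtain ⟨w, hwL, hw⟩ := Cfsg.Agent.Lib_helper7_SE2.exists_conj_le_of_le (h₁ • S) L hS'L _
    (S.isPGroup'.to_le inf_le_left) hDL
  refine ⟨w⁻¹ • (h₁ • S), ?_, ?_⟩
  · intro d hd
    rw [Sylow.coe_subgroup_smul]
    exact ⟨w * d * w⁻¹, hw d hd, by show w⁻¹ * (w * d * w⁻¹) * w⁻¹⁻¹ = d; group⟩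
  · rw [Sylow.coe_subgroup_smul]
    rintro _ ⟨s, hs, rfl⟩
    exact L.mul_mem (L.mul_mem (L.inv_mem hwL) (hS'L hs)) (by rw [inv_inv]; exact hwL)

end Cfsg.Agent.S2940
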