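import Cfsg.Statements.S2958
-- import your own Cfsg.Agent.* helpers here

set_option autoImplicit false
open Cfsg

namespace Cfsg.Agent.S2958

/-- Let X, A, B be subgroups of a group G such that G is generated by the conjugates of X and every conjugate of X is contained in A or in B. Then A = G or B = G. -/
theorem result {G : Type*} [Group G] (X A B : Subgroup G) (hgen : (⨆ g : G, X.map (MulAut.conj g).toMonoidHom) = ⊤) (hcover : ∀ g : G, X.map (MulAut.conj g).toMonoidHom ≤ A ∨ X.map (MulAut.conj g).toMonoidHom ≤ B) : A = ⊤ ∨ B = ⊤ := by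
  have hmm : ∀ (a g : G), (X.map (MulAut.conj g).toMonoidHom).map (MulAut.conj a).toMonoidHom =
      X.map (MulAut.conj (a * g)).toMonoidHom := by
    intro a g
    rw [Subgroup.map_map]
    congr 1
    ext x
    simp [mul_assoc]
  by_cases hA : A = ⊤
  · exact Or.inl hA
  right
  have hex : ∃ g₀ : G, ¬ X.map (MulAut.conj g₀).toMonoidHom ≤ A := by
    by_contra hcon
    push Not at hcon
    apply hA
    rw [eq_top_iff, ← hgen]
    exact iSup_le hcon
  obtain ⟨g₀, hg₀⟩ := hex
  let B₁ : Subgroup G := ⨆ g : {g : G // ¬ X.map (MulAut.conj g).toMonoidHom ≤ A},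
    X.map (MulAut.conj (g : G)).toMonoidHom
  have hB₁B : B₁ ≤ B := by
    apply iSup_le
    rintro ⟨g, hg⟩
    rcases hcover g with h | h
    · exact absurd h hg
    · exact h
  have hmem : ∀ g : G, ¬ X.map (MulAut.conj g).toMonoidHom ≤ A →
      X.map (MulAut.conj g).toMonoidHom ≤ B₁ := by
    intro g hg
    exact le_iSup (fun g : {g : G // ¬ X.map (MulAut.conj g).toMonoidHom ≤ A} =>
      X.map (MulAut.conj (g : G)).toMonoidHom) ⟨g, hg⟩
  have hAnorm : ∀ a ∈ A, B₁.map (MulAut.conj a).toMonoidHom ≤ B₁ := by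
    intro a ha
    show (⨆ g : {g : G // ¬ X.map (MulAut.conj g).toMonoidHom ≤ A},
      X.map (MulAut.conj (g : G)).toMonoidHom).map (MulAut.conj a).toMonoidHom ≤ B₁
    rw [Subgroup.map_iSup]
    apply iSup_le
    rintro ⟨g, hg⟩
    rw [hmm]
    apply hmem
    intro hcon
    apply hg
    intro x hx
    have h1 : a * x * a⁻¹ ∈ X.map (MulAut.conj (a * g)).toMonoidHom := by
      rw [← hmm]
      exact ⟨x, hx, by simp⟩
    have h2 := hcon h1
    have h3 := A.mul_mem (A.mul_mem (A.inv_mem ha) h2) ha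
    simpa [mul_assoc] using h3
  have hAN : A ≤ Subgroup.normalizer (B₁ : Set G) := by
    intro a ha
    rw [Subgroup.mem_normalizer_iff]
    intro y
    constructor
    · intro hy
      exact hAnorm a ha ⟨y, hy, by simp⟩
    · intro hy
      have h5 : (MulAut.conj a⁻¹).toMonoidHom (a * y * a⁻¹) ∈ B₁ :=
        hAnorm a⁻¹ (A.inv_mem ha) (Subgroup.mem_map_of_mem _ hy)
      simpa [mul_assoc] using h5
  have hall : ∀ h : G, X.map (MulAut.conj h).toMonoidHom ≤ Subgroup.normalizer (B₁ : Set G) := by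
    intro h
    by_cases hh : X.map (MulAut.conj h).toMonoidHom ≤ A
    · exact hh.trans hAN
    · exact (hmem h hh).trans Subgroup.le_normalizer
  have hNtop : Subgroup.normalizer (B₁ : Set G) = ⊤ := by
    rw [eq_top_iff, ← hgen]
    exact iSup_le hall
  have hB₁n : B₁.Normal := Subgroup.normalizer_eq_top_iff.mp hNtop
  have hallB : ∀ h : G, X.map (MulAut.conj h).toMonoidHom ≤ B₁ := by
    intro h
    have h1 : X.map (MulAut.conj h).toMonoidHom =
        (X.map (MulAut.conj g₀).toMonoidHom).map (MulAut.conj (h * g₀⁻¹)).toMonoidHom := by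
      rw [hmm]; simp
    rw [h1]
    rintro _ ⟨y, hy, rfl⟩
    have hy' := hmem g₀ hg₀ hy
    exact hB₁n.conj_mem y hy' (h * g₀⁻¹)
  rw [eq_top_iff, ← hgen]
  exact (iSup_le hallB).trans hB₁B

end Cfsg.Agent.S2958
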