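import Cfsg.Statements.S2963
import Mathlib

set_option autoImplicit false
open Cfsg

namespace Cfsg.Agent.S2963

/-- Let n be odd. If the symmetric group of degree n is a minimal parabolic group for the prime 2, that is, a Sylow 2-subgroup is not normal and lies in exactly one maximal subgroup, then n = 2^m + 1 for some natural number m. -/
theorem result (n : ℕ) (hn : Odd n) (h : Cfsg.IsPMinimal 2 (Equiv.Perm (Fin n))) : ∃ m : ℕ, n = 2 ^ m + 1 := by
  classical
  haveI : Fact (Nat.Prime 2) := ⟨Nat.prime_two⟩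
  obtain ⟨S⟩ : Nonempty (Sylow 2 (Equiv.Perm (Fin n))) := inferInstance
  obtain ⟨hnn, M₀, ⟨hM₀, hSM⟩, huniq⟩ := h S
  have hA : ∀ K : Subgroup (Equiv.Perm (Fin n)), K ≠ ⊤ →
      (S : Subgroup (Equiv.Perm (Fin n))) ≤ K → K ≤ M₀ := by
    intro K hK hSK
    rcases eq_top_or_exists_le_coatom K with h1 | ⟨M, hM, hKM⟩
    · exact absurd h1 hK
    · have h2 := huniq M ⟨hM, hSK.trans hKM⟩
      rw [← h2]; exact hKM
  have hfix : (MulAction.fixedPoints (S : Subgroup (Equiv.Perm (Fin n))) (Fin n)).Nonempty := by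
    apply IsPGroup.nonempty_fixed_point_of_prime_not_dvd_card S.isPGroup'
    rw [Nat.card_eq_fintype_card, Fintype.card_fin]
    intro h2
    exact (Nat.not_even_iff_odd.mpr hn) (even_iff_two_dvd.mpr h2)
  obtain ⟨x, hx⟩ := hfix
  have hx' : ∀ g ∈ (S : Subgroup (Equiv.Perm (Fin n))), g x = x := fun g hg => hx ⟨g, hg⟩
  have hSbot : (S : Subgroup (Equiv.Perm (Fin n))) ≠ ⊥ := by
    intro hb; apply hnn; rw [hb]; infer_instance
  obtain ⟨⟨g, hg⟩, hg0⟩ := (Subgroup.ne_bot_iff_exists_ne_one).mp hSbot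
  have hg1 : g ≠ 1 := fun h0 => hg0 (Subtype.ext h0)
  obtain ⟨y, hy⟩ : ∃ y, g y ≠ y := by
    by_contra hall
    push Not at hall
    exact hg1 (Equiv.ext hall)
  have hyx : y ≠ x := by rintro rfl; exact hy (hx' g hg)
  set O : Set (Fin n) := {w | ∃ s ∈ (S : Subgroup (Equiv.Perm (Fin n))), s y = w} with hO
  have hyO : y ∈ O := ⟨1, Subgroup.one_mem _, rfl⟩
  have hxO : x ∉ O := by
    rintro ⟨s, hs, hsy⟩
    have h1 : s⁻¹ x = y := by rw [← hsy]; simp
    rw [hx' s⁻¹ (Subgroup.inv_mem _ hs)] at h1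
    exact hyx h1.symm
  have hSO : ∀ s ∈ (S : Subgroup (Equiv.Perm (Fin n))), ∀ w, s w ∈ O ↔ w ∈ O := by
    intro s hs w
    constructor
    · rintro ⟨t, ht, hty⟩
      exact ⟨s⁻¹ * t, Subgroup.mul_mem _ (Subgroup.inv_mem _ hs) ht, by
        rw [Equiv.Perm.mul_apply, hty]; simp⟩
    · rintro ⟨t, ht, rfl⟩
      exact ⟨s * t, Subgroup.mul_mem _ hs ht, rfl⟩
  by_cases hall : ∀ z, z ≠ x → z ∈ O
  · have hOeq : O = {x}ᶜ := by
      ext w
      constructor
      · intro hw hwx
        rw [Set.mem_singleton_iff] at hwx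
        exact hxO (hwx ▸ hw)
      · intro hw
        exact hall w hw
    have hOorb : O = MulAction.orbit (S : Subgroup (Equiv.Perm (Fin n))) y := by
      ext w
      constructor
      · rintro ⟨s, hs, rfl⟩; exact ⟨⟨s, hs⟩, rfl⟩
      · rintro ⟨⟨s, hs⟩, rfl⟩; exact ⟨s, hs, rfl⟩
    obtain ⟨m, hm⟩ := IsPGroup.card_orbit S.isPGroup' y
    refine ⟨m, ?_⟩
    have h1 : O.ncard = 2 ^ m := by rw [← Nat.card_coe_set_eq, hOorb]; exact hm
    have h2 := Set.ncard_add_ncard_compl ({x} : Set (Fin n))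
    rw [Set.ncard_singleton, ← hOeq, h1, Nat.card_eq_fintype_card, Fintype.card_fin] at h2
    omega
  · exfalso
    push Not at hall
    obtain ⟨z, hzx, hzO⟩ := hall
    have hK1 : MulAction.stabilizer (Equiv.Perm (Fin n)) x ≤ M₀ := by
      apply hA
      · intro htop
        have h1 : Equiv.swap x z ∈ MulAction.stabilizer (Equiv.Perm (Fin n)) x := by
          rw [htop]; exact Subgroup.mem_top _
        rw [MulAction.mem_stabilizer_iff, Equiv.Perm.smul_def, Equiv.swap_apply_left] at h1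
        exact hzx h1
      · intro s hs
        rw [MulAction.mem_stabilizer_iff]
        exact hx' s hs
    let K₂ : Subgroup (Equiv.Perm (Fin n)) :=
      { carrier := {σ | ∀ w, σ w ∈ O ↔ w ∈ O}
        mul_mem' := fun {a b} ha hb w => by rw [Equiv.Perm.mul_apply, ha, hb]
        one_mem' := fun w => Iff.rfl
        inv_mem' := fun {a} ha w => by rw [← ha (a⁻¹ w)]; simp }
    have hK2 : K₂ ≤ M₀ := by
      apply hA
      · intro htop
        have h1 : Equiv.swap y z ∈ K₂ := by rw [htop]; exact Subgroup.mem_top _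
        have h2 := (h1 y).2 hyO
        rw [Equiv.swap_apply_left] at h2
        exact hzO h2
      · intro s hs
        exact hSO s hs
    have hsw : Equiv.swap x z ∈ M₀ := by
      apply hK2
      intro w
      show Equiv.swap x z w ∈ O ↔ w ∈ O
      by_cases hwx : w = x
      · rw [hwx, Equiv.swap_apply_left]
        exact ⟨fun h0 => absurd h0 hzO, fun h0 => absurd h0 hxO⟩
      · by_cases hwz : w = z
        · rw [hwz, Equiv.swap_apply_right]
          exact ⟨fun h0 => absurd h0 hxO, fun h0 => absurd h0 hzO⟩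
        · rw [Equiv.swap_apply_of_ne_of_ne hwx hwz]
    have hsw2 : ∀ w, w ≠ x → Equiv.swap x w ∈ M₀ := by
      intro w hwx
      by_cases hwz : w = z
      · rw [hwz]; exact hsw
      · have h1 : Equiv.swap z w ∈ M₀ := by
          apply hK1
          rw [MulAction.mem_stabilizer_iff, Equiv.Perm.smul_def]
          exact Equiv.swap_apply_of_ne_of_ne hzx.symm hwx.symm
        have h2 := Equiv.swap_apply_apply (Equiv.swap z w) x z
        rw [Equiv.swap_apply_left, Equiv.swap_apply_of_ne_of_ne hzx.symm hwx.symm] at h2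
        rw [h2]
        exact M₀.mul_mem (M₀.mul_mem h1 hsw) (M₀.inv_mem h1)
    apply hM₀.1
    rw [eq_top_iff]
    intro σ _
    by_cases hσ : σ x = x
    · exact hK1 (by rw [MulAction.mem_stabilizer_iff]; exact hσ)
    · have h1 : Equiv.swap x (σ x) * σ ∈ M₀ := by
        apply hK1
        rw [MulAction.mem_stabilizer_iff, Equiv.Perm.smul_def, Equiv.Perm.mul_apply,
          Equiv.swap_apply_right]
      have h2 : σ = Equiv.swap x (σ x) * (Equiv.swap x (σ x) * σ) := by
        rw [← mul_assoc, Equiv.swap_mul_self, one_mul]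
      rw [h2]
      exact M₀.mul_mem (hsw2 _ hσ) h1

end Cfsg.Agent.S2963
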