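import Cfsg.Statements.S2998
import Cfsg.Agent.Lib_helper7_Sylow

set_option autoImplicit false
open Cfsg

namespace Cfsg.Agent.S2998

/-- Let G be a finite group, p a prime, P a Sylow p-subgroup of G and x ∈ P an element such that N_G(R) ≤ C_G(x) for every nontrivial subgroup R of P. Then P ≤ C_G(x); every G-conjugate of x lying in P equals x (so g ∈ C_G(x) whenever g x g⁻¹ ∈ P); and for every normal subgroup N of G, the image of x in G ⧸ N has the same property with respect to the image of P: the normalizer of every nontrivial subgroup of the image of P centralizes the image of x. -/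
theorem result {G : Type*} [Group G] [Finite G] {p : ℕ} [Fact p.Prime] (P : Sylow p G) (x : G) (hxP : x ∈ (P : Subgroup G)) (hlc : ∀ R : Subgroup G, R ≤ (P : Subgroup G) → R ≠ ⊥ → Subgroup.normalizer (R : Set G) ≤ Subgroup.centralizer ({x} : Set G)) : (P : Subgroup G) ≤ Subgroup.centralizer ({x} : Set G) ∧ (∀ g : G, g * x * g⁻¹ ∈ (P : Subgroup G) → g * x * g⁻¹ = x) ∧ ∀ (N : Subgroup G) [N.Normal], ∀ R : Subgroup (G ⧸ N), R ≤ (P : Subgroup G).map (QuotientGroup.mk' N) → R ≠ ⊥ → Subgroup.normalizer (R : Set (G ⧸ N)) ≤ Subgroup.centralizer ({(QuotientGroup.mk x : G ⧸ N)} : Set (G ⧸ N)) := by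
  classical
  have hPC : (P : Subgroup G) ≤ Subgroup.centralizer ({x} : Set G) := by
    by_cases hP1 : (P : Subgroup G) = ⊥
    · rw [hP1]; exact bot_le
    · exact Subgroup.le_normalizer.trans (hlc P le_rfl hP1)
  have hP1' : x ≠ 1 → (P : Subgroup G) ≠ ⊥ := by
    intro hx1 h
    rw [h, Subgroup.mem_bot] at hxP
    exact hx1 hxP
  refine ⟨hPC, ?_, ?_⟩
  · intro g hg
    by_cases hx1 : x = 1
    · subst hx1; simp
    have hy1 : g * x * g⁻¹ ≠ 1 := by
      intro h
      apply hx1
      have h2 : x = g⁻¹ * (g * x * g⁻¹) * g := by group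
      rw [h2, h]; simp
    have hCyx : Subgroup.centralizer ({g * x * g⁻¹} : Set G) ≤
        Subgroup.centralizer ({x} : Set G) := by
      have hR1 : Subgroup.zpowers (g * x * g⁻¹) ≠ ⊥ := by
        rw [Ne, Subgroup.zpowers_eq_bot]; exact hy1
      have hRP : Subgroup.zpowers (g * x * g⁻¹) ≤ (P : Subgroup G) := by
        rw [Subgroup.zpowers_le]; exact hg
      refine le_trans ?_ (hlc _ hRP hR1)
      intro c hc
      have hcy : (g * x * g⁻¹) * c = c * (g * x * g⁻¹) :=
        Subgroup.mem_centralizer_iff.mp hc _ rfl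
      have hcz : ∀ h ∈ Subgroup.zpowers (g * x * g⁻¹), c * h * c⁻¹ = h := by
        intro h hh
        have hle : Subgroup.zpowers (g * x * g⁻¹) ≤ Subgroup.centralizer ({c} : Set G) := by
          rw [Subgroup.zpowers_le, Subgroup.mem_centralizer_iff]
          intro h' hh'
          rw [Set.mem_singleton_iff] at hh'
          subst hh'
          exact hcy.symm
        have := Subgroup.mem_centralizer_iff.mp (hle hh) c rfl
        rw [this]; simp
      rw [Subgroup.mem_normalizer_iff]
      intro h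
      constructor
      · intro hh
        rw [hcz h hh]; exact hh
      · intro hh
        have h3 := hcz _ hh
        have h4 : h = c * h * c⁻¹ := by
          have h7 : c⁻¹ * (c * (c * h * c⁻¹) * c⁻¹) * c = c⁻¹ * (c * h * c⁻¹) * c := by rw [h3]
          have e1 : c⁻¹ * (c * (c * h * c⁻¹) * c⁻¹) * c = c * h * c⁻¹ := by group
          have e2 : c⁻¹ * (c * h * c⁻¹) * c = h := by group
          rw [e1, e2] at h7; exact h7.symm
        rw [h4]; exact hh
    have hgN : g ∈ Subgroup.normalizer
        ((Subgroup.centralizer ({x} : Set G) : Subgroup G) : Set G) := by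
      apply Cfsg.Agent.Lib_helper7_Sylow.mem_normalizer_of_conj_le
      rintro _ ⟨c, hc, rfl⟩
      apply hCyx
      rw [Subgroup.mem_centralizer_iff]
      intro h hh
      rw [Set.mem_singleton_iff] at hh
      subst hh
      have hcx : x * c = c * x := Subgroup.mem_centralizer_iff.mp hc x rfl
      show g * x * g⁻¹ * (g * c * g⁻¹) = g * c * g⁻¹ * (g * x * g⁻¹)
      have e1 : g * x * g⁻¹ * (g * c * g⁻¹) = g * (x * c) * g⁻¹ := by group
      have e2 : g * c * g⁻¹ * (g * x * g⁻¹) = g * (c * x) * g⁻¹ := by group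
      rw [e1, e2, hcx]
    have hxCP : x ∈ Subgroup.centralizer ((P : Subgroup G) : Set G) := by
      rw [Subgroup.mem_centralizer_iff]
      intro t ht
      exact (Subgroup.mem_centralizer_iff.mp (hPC ht) x rfl).symm
    have hyCP : (g⁻¹)⁻¹ * x * g⁻¹ ∈ Subgroup.centralizer ((P : Subgroup G) : Set G) := by
      rw [Subgroup.mem_centralizer_iff]
      intro t ht
      have h1 : g⁻¹ * t * g ∈ Subgroup.centralizer ({x} : Set G) :=
        (Subgroup.mem_normalizer_iff''.mp hgN t).mp (hPC ht)
      have h2 : x * (g⁻¹ * t * g) = g⁻¹ * t * g * x := Subgroup.mem_centralizer_iff.mp h1 x rfl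
      have e1 : t * ((g⁻¹)⁻¹ * x * g⁻¹) = g * (g⁻¹ * t * g * x) * g⁻¹ := by group
      have e2 : (g⁻¹)⁻¹ * x * g⁻¹ * t = g * (x * (g⁻¹ * t * g)) * g⁻¹ := by group
      rw [e1, e2, h2]
    obtain ⟨n, hn, hnx⟩ := Sylow.conj_eq_normalizer_conj_of_mem_centralizer P x g⁻¹ hxCP hyCP
    have hnC : n ∈ Subgroup.centralizer ({x} : Set G) := hlc P le_rfl (hP1' hx1) hn
    have h3 : x * n = n * x := Subgroup.mem_centralizer_iff.mp hnC x rfl
    have h4 : g * x * g⁻¹ = n⁻¹ * x * n := by simpa using hnx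
    rw [h4, mul_assoc, h3]; group
  · intro N _ R hRP hR1 gb hgb
    obtain ⟨g, rfl⟩ := QuotientGroup.mk_surjective gb
    have hR₀P : (P : Subgroup G) ⊓ R.comap (QuotientGroup.mk' N) ≤ (P : Subgroup G) := inf_le_left
    have hR₀1 : (P : Subgroup G) ⊓ R.comap (QuotientGroup.mk' N) ≠ ⊥ := by
      intro h
      apply hR1
      rw [eq_bot_iff]
      intro r hr
      obtain ⟨t, ht, rfl⟩ := hRP hr
      have : t ∈ (P : Subgroup G) ⊓ R.comap (QuotientGroup.mk' N) :=
        Subgroup.mem_inf.mpr ⟨ht, hr⟩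
      rw [h, Subgroup.mem_bot] at this
      rw [this]; simp
    have hD : IsPGroup p ↥(((P : Subgroup G) ⊓ R.comap (QuotientGroup.mk' N)).map
        (MulAut.conj g).toMonoidHom) := (P.isPGroup'.to_le inf_le_left).map _
    have hDR : ∀ d ∈ ((P : Subgroup G) ⊓ R.comap (QuotientGroup.mk' N)).map
        (MulAut.conj g).toMonoidHom, (QuotientGroup.mk' N) d ∈ R := by
      rintro _ ⟨t, ht, rfl⟩
      have htR : (QuotientGroup.mk' N) t ∈ R := (Subgroup.mem_inf.mp ht).2
      have := (Subgroup.mem_normalizer_iff.mp hgb _).mp htR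
      simpa using this
    have hDL : ((P : Subgroup G) ⊓ R.comap (QuotientGroup.mk' N)).map
        (MulAut.conj g).toMonoidHom ≤ (P : Subgroup G) ⊔ N := by
      intro d hd
      obtain ⟨t', ht', htd⟩ := hRP (hDR d hd)
      have hmem : t'⁻¹ * d ∈ N := by
        rw [← QuotientGroup.eq_one_iff, QuotientGroup.mk_mul, QuotientGroup.mk_inv]
        have : (QuotientGroup.mk t' : G ⧸ N) = QuotientGroup.mk d := htd
        rw [this]; simp
      have : d = t' * (t'⁻¹ * d) := by group
      rw [this]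
      exact Subgroup.mul_mem_sup ht' hmem
    obtain ⟨n, hn, hnD⟩ :=
      Cfsg.Agent.Lib_helper7_Sylow.exists_conj_le_of_le_sup P N _ hD hDL
    have hngN : n * g ∈ Subgroup.normalizer
        (((P : Subgroup G) ⊓ R.comap (QuotientGroup.mk' N) : Subgroup G) : Set G) := by
      apply Cfsg.Agent.Lib_helper7_Sylow.mem_normalizer_of_conj_le
      rintro _ ⟨t, ht, rfl⟩
      have hd : g * t * g⁻¹ ∈ ((P : Subgroup G) ⊓ R.comap (QuotientGroup.mk' N)).map
          (MulAut.conj g).toMonoidHom := ⟨t, ht, rfl⟩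
      have e : (MulAut.conj (n * g)).toMonoidHom t = n * (g * t * g⁻¹) * n⁻¹ := by
        show n * g * t * (n * g)⁻¹ = n * (g * t * g⁻¹) * n⁻¹
        group
      rw [e]
      refine Subgroup.mem_inf.mpr ⟨hnD _ hd, ?_⟩
      show (QuotientGroup.mk' N) (n * (g * t * g⁻¹) * n⁻¹) ∈ R
      have hn1 : (QuotientGroup.mk' N) n = 1 := by
        rw [QuotientGroup.mk'_apply, QuotientGroup.eq_one_iff]; exact hn
      have := hDR _ hd
      rw [map_mul, map_mul, map_inv, hn1]
      simpa using this
    have hngC := hlc _ hR₀P hR₀1 hngN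
    have hcomm : x * (n * g) = n * g * x := Subgroup.mem_centralizer_iff.mp hngC x rfl
    rw [Subgroup.mem_centralizer_iff]
    intro h hh
    rw [Set.mem_singleton_iff] at hh
    subst hh
    have hn1 : (QuotientGroup.mk n : G ⧸ N) = 1 := by
      rw [QuotientGroup.eq_one_iff]; exact hn
    have h5 := congrArg (QuotientGroup.mk : G → G ⧸ N) hcomm
    simp only [QuotientGroup.mk_mul, hn1, one_mul] at h5
    exact h5

end Cfsg.Agent.S2998
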