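import Cfsg.Statements.S3006
import Cfsg.Agent.Lib_helper7_CD

set_option autoImplicit false
open scoped Pointwise
open Cfsg

namespace Cfsg.Agent.S3006

/-- Let P be a finite p-group, Q a centrally large subgroup of P (|Q|·|Z(Q)| maximal among subgroups of P) and A an abelian subgroup of P of largest order. Then QA = AQ is a centrally large subgroup of P, C_{QA}(Q ∩ A) = Z(Q)·A, and the subgroup generated by all centrally large subgroups of P contains C_P(Z(J(P))), where J(P) is generated by the abelian subgroups of largest order. -/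
theorem result {p : ℕ} [Fact p.Prime] (P : Type*) [Group P] [Finite P] (hP : IsPGroup p P) (Q A : Subgroup P) (hQ : Cfsg.IsCentrallyLarge Q) (hA : A ∈ Cfsg.maxAbelianSubgroups P) : ((Q ⊔ A : Subgroup P) : Set P) = (Q : Set P) * (A : Set P) ∧ Cfsg.IsCentrallyLarge (Q ⊔ A) ∧ (Q ⊔ A) ⊓ Subgroup.centralizer ((Q ⊓ A : Subgroup P) : Set P) = (Q ⊓ Subgroup.centralizer (Q : Set P)) ⊔ A ∧ (((Q ⊓ Subgroup.centralizer (Q : Set P)) ⊔ A : Subgroup P) : Set P) = ((Q ⊓ Subgroup.centralizer (Q : Set P)) : Set P) * (A : Set P) ∧ Subgroup.centralizer ((Cfsg.thompsonSubgroupA P ⊓ Subgroup.centralizer (Cfsg.thompsonSubgroupA P : Set P) : Subgroup P) : Set P) ≤ Cfsg.centrallyLargeJoin P := by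
  obtain ⟨r1, r2, r3, r4⟩ := Cfsg.Agent.Lib_helper7_CD.cl_sup_maxAbelian Q A hQ hA
  have hAA : A ≤ Subgroup.centralizer (A : Set P) :=
    Cfsg.Agent.Lib_helper7_CD.le_centralizer_of_isMulCommutative A hA.1
  have hAD : A ≤ Subgroup.centralizer ((Q ⊓ A : Subgroup P) : Set P) :=
    hAA.trans (Subgroup.centralizer_le (SetLike.coe_subset_coe.mpr inf_le_right))
  have hZD : Q ⊓ Subgroup.centralizer (Q : Set P) ≤
      Subgroup.centralizer ((Q ⊓ A : Subgroup P) : Set P) :=
    inf_le_right.trans (Subgroup.centralizer_le (SetLike.coe_subset_coe.mpr inf_le_left))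
  have hQZ : Q ≤ Subgroup.centralizer
      ((Q ⊓ Subgroup.centralizer (Q : Set P) : Subgroup P) : Set P) :=
    Subgroup.le_centralizer_iff.mp inf_le_right
  -- the key claim
  have claim : ∀ x ∈ Q ⊔ A, x ∈ Subgroup.centralizer ((Q ⊓ A : Subgroup P) : Set P) →
      x ∈ ((Q ⊓ Subgroup.centralizer (Q : Set P) : Subgroup P) : Set P) * (A : Set P) := by
    intro x hx hxc
    have hx' : x ∈ ((Q ⊔ A : Subgroup P) : Set P) := hx
    rw [r1] at hx'
    obtain ⟨q, hq, a, ha, rfl⟩ := hx'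
    have hq : q ∈ Q := hq
    have ha : a ∈ A := ha
    have hqc : q ∈ Subgroup.centralizer ((Q ⊓ A : Subgroup P) : Set P) := by
      have h1 : q = (q * a) * a⁻¹ := by group
      rw [h1]
      exact Subgroup.mul_mem _ hxc (Subgroup.inv_mem _ (hAD ha))
    have hq1 : q ∈ Subgroup.centralizer (((Q ⊓ A) ⊔ (Q ⊓ Subgroup.centralizer (Q : Set P)) :
        Subgroup P) : Set P) := by
      rw [Cfsg.Agent.Lib_helper7_CD.centralizer_sup]
      exact Subgroup.mem_inf.mpr ⟨hqc, hQZ hq⟩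
    have hq2 := Cfsg.Agent.Lib_helper7_CD.maxAbelian_centralizer_le _ r3 hq1
    have hq3 : q ∈ (((Q ⊓ A) ⊔ (Q ⊓ Subgroup.centralizer (Q : Set P)) : Subgroup P) : Set P) := hq2
    rw [r4] at hq3
    obtain ⟨d, hd, z, hz, rfl⟩ := hq3
    have hd : d ∈ Q ⊓ A := hd
    have hz : z ∈ Q ⊓ Subgroup.centralizer (Q : Set P) := hz
    have hdz : d * z = z * d :=
      Subgroup.mem_centralizer_iff.mp (Subgroup.mem_inf.mp hz).2 d (Subgroup.mem_inf.mp hd).1
    refine ⟨z, hz, d * a, A.mul_mem (Subgroup.mem_inf.mp hd).2 ha, ?_⟩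
    show z * (d * a) = d * z * a
    rw [hdz, mul_assoc]
  have hge : (Q ⊓ Subgroup.centralizer (Q : Set P)) ⊔ A ≤
      (Q ⊔ A) ⊓ Subgroup.centralizer ((Q ⊓ A : Subgroup P) : Set P) :=
    sup_le (le_inf (inf_le_left.trans le_sup_left) hZD) (le_inf le_sup_right hAD)
  refine ⟨r1, r2, ?_, ?_, ?_⟩
  · apply le_antisymm
    · intro x hx
      obtain ⟨hx1, hx2⟩ := Subgroup.mem_inf.mp hx
      exact Cfsg.Agent.Lib_helper7_CD.mul_subset_sup _ _ (claim x hx1 hx2)
    · exact hge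
  · apply Set.Subset.antisymm
    · intro x hx
      have hx' := hge hx
      obtain ⟨hx1, hx2⟩ := Subgroup.mem_inf.mp hx'
      exact claim x hx1 hx2
    · exact Cfsg.Agent.Lib_helper7_CD.mul_subset_sup (Q ⊓ Subgroup.centralizer (Q : Set P)) A
  · exact Cfsg.Agent.Lib_helper7_CD.centralizer_center_thompson_le _
      Cfsg.Agent.Lib_helper7_CD.cl_clJoin Cfsg.Agent.Lib_helper7_CD.thompson_le_clJoin

end Cfsg.Agent.S3006
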