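import Cfsg.Statements.S3007
import Cfsg.Agent.Lib_helper7_CD

set_option autoImplicit false
open Cfsg

namespace Cfsg.Agent.S3007

/-- Let P be a finite p-group and Q, R minimal centrally large subgroups of P (centrally large: |Q|·|Z(Q)| maximal among subgroups of P; minimal among such under inclusion). Then Q = (Q ∩ R)·Z(Q), the derived subgroups [Q, Q] and [R, R] coincide, |Q| = |R| and |Z(Q)| = |Z(R)|; and if Q is abelian then the minimal centrally large subgroups of P are exactly the abelian subgroups of P of largest order. -/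
theorem result {p : ℕ} [Fact p.Prime] (P : Type*) [Group P] [Finite P] (hP : IsPGroup p P) (Q R : Subgroup P) (hQ : Cfsg.IsMinimalCentrallyLarge Q) (hR : Cfsg.IsMinimalCentrallyLarge R) : (Q ⊓ R) ⊔ (Q ⊓ Subgroup.centralizer (Q : Set P)) = Q ∧ ⁅Q, Q⁆ = ⁅R, R⁆ ∧ Nat.card ↥Q = Nat.card ↥R ∧ Nat.card ↥(Q ⊓ Subgroup.centralizer (Q : Set P)) = Nat.card ↥(R ⊓ Subgroup.centralizer (R : Set P)) ∧ (IsMulCommutative ↥Q → ∀ X : Subgroup P, Cfsg.IsMinimalCentrallyLarge X ↔ X ∈ Cfsg.maxAbelianSubgroups P) := by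
  obtain ⟨hQ1, hQ2⟩ := (Cfsg.Agent.Lib_helper7_CD.cl_iff Q).mp hQ.1
  obtain ⟨hR1, hR2⟩ := (Cfsg.Agent.Lib_helper7_CD.cl_iff R).mp hR.1
  refine ⟨?_, ?_, ?_, ?_, ?_⟩
  · rw [inf_eq_right.mpr hQ2]
    exact (Cfsg.Agent.Lib_helper7_CD.mcl_decomp Q R hQ hR.1).1
  · exact le_antisymm (Cfsg.Agent.Lib_helper7_CD.mcl_commutator_le Q R hQ hR.1)
      (Cfsg.Agent.Lib_helper7_CD.mcl_commutator_le R Q hR hQ.1)
  · exact (Cfsg.Agent.Lib_helper7_CD.mcl_card Q R hQ hR).1
  · rw [inf_eq_right.mpr hQ2, inf_eq_right.mpr hR2]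
    exact (Cfsg.Agent.Lib_helper7_CD.mcl_card Q R hQ hR).2
  · intro hQab X
    have hQle : Q ≤ Subgroup.centralizer (Q : Set P) :=
      Cfsg.Agent.Lib_helper7_CD.le_centralizer_of_isMulCommutative Q hQab
    have hCQ : Subgroup.centralizer (Q : Set P) = Q := le_antisymm hQ2 hQle
    have hMQ : Cfsg.maxCentralizerProduct P = Nat.card Q * Nat.card Q := by
      rw [← hQ1]
      unfold Cfsg.Agent.Lib_helper7_CD.cdm
      rw [hCQ]
    have hbound : ∀ B : Subgroup P, IsMulCommutative ↥B → Nat.card B ≤ Nat.card Q := by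
      intro B hB
      have hBle : B ≤ Subgroup.centralizer (B : Set P) :=
        Cfsg.Agent.Lib_helper7_CD.le_centralizer_of_isMulCommutative B hB
      have h1 := Cfsg.Agent.Lib_helper7_CD.cdm_le_max B
      rw [hMQ] at h1
      unfold Cfsg.Agent.Lib_helper7_CD.cdm at h1
      have h2 : Nat.card B * Nat.card B ≤ Nat.card Q * Nat.card Q :=
        (Nat.mul_le_mul_left _ (Subgroup.card_le_of_le hBle)).trans h1
      exact Nat.mul_self_le_mul_self_iff.mp h2
    constructor
    · intro hX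
      obtain ⟨hX1, hX2⟩ := (Cfsg.Agent.Lib_helper7_CD.cl_iff X).mp hX.1
      obtain ⟨c1, c2⟩ := Cfsg.Agent.Lib_helper7_CD.mcl_card X Q hX hQ
      rw [hCQ] at c2
      have hCX : Subgroup.centralizer (X : Set P) = X :=
        Subgroup.eq_of_le_of_card_ge hX2 (by rw [c2, c1])
      have hXab : IsMulCommutative ↥X :=
        Cfsg.Agent.Lib_helper7_CD.isMulCommutative_of_le_centralizer X hCX.ge
      exact ⟨hXab, fun B hB => by rw [c1]; exact hbound B hB⟩
    · intro hX
      have hcard : Nat.card X = Nat.card Q := le_antisymm (hbound X hX.1) (hX.2 Q hQab)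
      have hXle : X ≤ Subgroup.centralizer (X : Set P) :=
        Cfsg.Agent.Lib_helper7_CD.le_centralizer_of_isMulCommutative X hX.1
      have hCX : Subgroup.centralizer (X : Set P) ≤ X :=
        Cfsg.Agent.Lib_helper7_CD.maxAbelian_centralizer_le X hX
      have hCXeq : Subgroup.centralizer (X : Set P) = X := le_antisymm hCX hXle
      have hXcdm : Cfsg.Agent.Lib_helper7_CD.cdm X = Cfsg.maxCentralizerProduct P := by
        rw [hMQ]
        unfold Cfsg.Agent.Lib_helper7_CD.cdm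
        rw [hCXeq, hcard]
      refine ⟨(Cfsg.Agent.Lib_helper7_CD.cl_iff X).mpr ⟨hXcdm, hCX⟩, fun R' hR'X hR'cl => ?_⟩
      obtain ⟨hR'1, hR'2⟩ := (Cfsg.Agent.Lib_helper7_CD.cl_iff R').mp hR'cl
      apply Subgroup.eq_of_le_of_card_ge hR'X
      rw [hcard]
      have h1 : Nat.card Q * Nat.card Q ≤ Nat.card R' * Nat.card R' := by
        rw [← hMQ, ← hR'1]
        unfold Cfsg.Agent.Lib_helper7_CD.cdm
        exact Nat.mul_le_mul_left _ (Subgroup.card_le_of_le hR'2)
      exact Nat.mul_self_le_mul_self_iff.mp h1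

end Cfsg.Agent.S3007
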