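import Cfsg.Statements.S3012
import Cfsg.Agent.Lib_helper7_Stab

set_option autoImplicit false
open Cfsg

namespace Cfsg.Agent.S3012

/-- Let G be a finite group, V a nontrivial elementary abelian 2-subgroup of G satisfying the Sidki pair condition (every odd-order element inverted by an element of V commutes with a nontrivial element of V), and K a normal subgroup of G with V ∩ K = 1. Then the image of V in G/K satisfies the Sidki pair condition in G/K. -/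
theorem result {G : Type*} [Group G] [Finite G] (V K : Subgroup G) [K.Normal] (hV : Cfsg.IsElementaryAbelian 2 V) (hV1 : V ≠ ⊥) (hS : Cfsg.IsSidkiPair V) (hVK : V ⊓ K = ⊥) : Cfsg.IsSidkiPair (V.map (QuotientGroup.mk' K)) := by
  intro hb vb hvb hodd hinvb
  obtain ⟨v, hv, rfl⟩ := hvb
  obtain ⟨h₀, rfl⟩ := QuotientGroup.mk_surjective hb
  have hv2 : v * v = 1 := by
    have := hV.2 v hv
    rwa [pow_two] at this
  have hvinv : v⁻¹ = v := inv_eq_of_mul_eq_one_right hv2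
  -- the element `y` with image `h̄²`, inverted by `v`
  have hyinv : v * (h₀ * v * h₀⁻¹ * v⁻¹) * v⁻¹ = (h₀ * v * h₀⁻¹ * v⁻¹)⁻¹ := by
    rw [hvinv]
    have e1 : v * (h₀ * v * h₀⁻¹ * v) * v = v * h₀ * v * h₀⁻¹ * (v * v) := by group
    have e2 : (h₀ * v * h₀⁻¹ * v)⁻¹ = v⁻¹ * h₀ * v⁻¹ * h₀⁻¹ := by group
    rw [e1, e2, hv2, hvinv, mul_one]
  have hy0 : orderOf (h₀ * v * h₀⁻¹ * v⁻¹) ≠ 0 := (orderOf_pos _).ne'
  obtain ⟨a, ha⟩ := Cfsg.Agent.Lib_helper7_Stab.exists_odd_pow _ hy0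
  have hinv' : v * (h₀ * v * h₀⁻¹ * v⁻¹) ^ (2 ^ a) * v⁻¹ =
      ((h₀ * v * h₀⁻¹ * v⁻¹) ^ (2 ^ a))⁻¹ := by
    rw [← conj_pow, hyinv, inv_pow]
  obtain ⟨w, hwV, hw1, hwc⟩ := hS _ v hv ha hinv'
  refine ⟨QuotientGroup.mk' K w, ⟨w, hwV, rfl⟩, ?_, ?_⟩
  · intro h1
    apply hw1
    have hwK : w ∈ K := by
      rw [QuotientGroup.mk'_apply, QuotientGroup.eq_one_iff] at h1
      exact h1
    have : w ∈ V ⊓ K := Subgroup.mem_inf.mpr ⟨hwV, hwK⟩
    rw [hVK, Subgroup.mem_bot] at this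
    exact this
  · -- image of `y` is `h̄ ^ 2`
    have himg : (QuotientGroup.mk' K) (h₀ * v * h₀⁻¹ * v⁻¹) =
        ((QuotientGroup.mk' K) h₀) ^ 2 := by
      have e1 : (QuotientGroup.mk' K) (h₀ * v * h₀⁻¹ * v⁻¹) =
          (QuotientGroup.mk' K) h₀ *
            ((QuotientGroup.mk' K) v * (QuotientGroup.mk' K) h₀ * ((QuotientGroup.mk' K) v)⁻¹)⁻¹ := by
        simp only [map_mul, map_inv]
        group
      rw [e1]
      have e2 : (QuotientGroup.mk' K) v * (QuotientGroup.mk' K) h₀ * ((QuotientGroup.mk' K) v)⁻¹ =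
          ((QuotientGroup.mk' K) h₀)⁻¹ := hinvb
      rw [e2, inv_inv, pow_two]
    have hcomm1 : Commute ((QuotientGroup.mk' K) w)
        (((QuotientGroup.mk' K) h₀) ^ (2 * 2 ^ a)) := by
      have h2 : (QuotientGroup.mk' K) (w * (h₀ * v * h₀⁻¹ * v⁻¹) ^ (2 ^ a)) =
          (QuotientGroup.mk' K) ((h₀ * v * h₀⁻¹ * v⁻¹) ^ (2 ^ a) * w) := by rw [hwc]
      rw [map_mul, map_mul, map_pow, himg, ← pow_mul] at h2
      exact h2
    have hcop : (2 * 2 ^ a).Coprime (orderOf ((QuotientGroup.mk' K) h₀)) := by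
      have h2 : Nat.Coprime 2 (orderOf ((QuotientGroup.mk' K) h₀)) := by
        rw [Nat.coprime_two_left]
        exact hodd
      exact Nat.Coprime.mul_left h2 (Nat.Coprime.pow_left a h2)
    exact (Cfsg.Agent.Lib_helper7_Stab.commute_of_commute_pow _ _ _ hcop hcomm1).eq

end Cfsg.Agent.S3012
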