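import Cfsg.Statements.S3013
-- import your own Cfsg.Agent.* helpers here

set_option autoImplicit false
open Cfsg

namespace Cfsg.Agent.S3013

/-- Let G be a finite group and V a nontrivial elementary abelian 2-subgroup of G satisfying the Sidki pair condition. Let v ∈ V and let x be an element of odd order inverted by v, and put C = C_G(v) ∩ C_G(x), the centralizer of the dihedral subgroup generated by v and x. Then C ∩ V is nontrivial and satisfies the Sidki pair condition inside C: every odd-order element of C inverted by an element of C ∩ V commutes with a nontrivial element of C ∩ V. -/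
theorem result {G : Type*} [Group G] [Finite G] (V : Subgroup G) (hV : Cfsg.IsElementaryAbelian 2 V) (hV1 : V ≠ ⊥) (hS : Cfsg.IsSidkiPair V) (v x : G) (hv : v ∈ V) (hx : Odd (orderOf x)) (hinv : v * x * v⁻¹ = x⁻¹) (C : Subgroup G) (hC : C = Subgroup.centralizer ({v} : Set G) ⊓ Subgroup.centralizer ({x} : Set G)) : C ⊓ V ≠ ⊥ ∧ Cfsg.IsSidkiPair ((C ⊓ V).subgroupOf C) := by
  have hVc : ∀ a ∈ V, ∀ b ∈ V, a * b = b * a := by
    intro a ha b hb
    have h1 := hV.1.is_comm.comm (⟨a, ha⟩ : V) ⟨b, hb⟩
    exact congrArg Subtype.val h1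
  have hmemC : ∀ c : G, c ∈ C ↔ v * c = c * v ∧ x * c = c * x := by
    intro c
    rw [hC, Subgroup.mem_inf, Subgroup.mem_centralizer_iff, Subgroup.mem_centralizer_iff]
    simp
  -- odd order commutation trick
  have hodd_comm : ∀ w y : G, Odd (orderOf y) → w * (y * y) = (y * y) * w → w * y = y * w := by
    intro w y hy hw
    obtain ⟨k, hk⟩ := hy
    have h1 : Commute w (y * y) := hw
    have h2 : Commute w ((y * y) ^ (k + 1)) := h1.pow_right (k + 1)
    have h3 : (y * y) ^ (k + 1) = y := by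
      rw [← pow_two, ← pow_mul]
      have : 2 * (k + 1) = orderOf y + 1 := by omega
      rw [this, pow_succ, pow_orderOf_eq_one, one_mul]
    rw [h3] at h2
    exact h2
  have key : ∀ h u : G, h ∈ C → u ∈ C → u ∈ V → Odd (orderOf h) → u * h * u⁻¹ = h⁻¹ →
      ∃ w ∈ V, w ≠ 1 ∧ w ∈ C ∧ w * h = h * w := by
    intro h u hhC huC huV hho hinvh
    obtain ⟨hvh, hxh⟩ := (hmemC h).mp hhC
    obtain ⟨hvu, hxu⟩ := (hmemC u).mp huC
    have hcomm : Commute x h := hxh
    have hoddxh : Odd (orderOf (x * h)) := by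
      have hdvd := hcomm.orderOf_mul_dvd_lcm
      have hl : Odd (Nat.lcm (orderOf x) (orderOf h)) := by
        rw [Nat.odd_iff, ← Nat.not_even_iff]
        intro he
        have h2 : 2 ∣ Nat.lcm (orderOf x) (orderOf h) := even_iff_two_dvd.mp he
        have hx2 : ¬ 2 ∣ orderOf x := by
          intro hh; exact (Nat.not_even_iff_odd.mpr hx) (even_iff_two_dvd.mpr hh)
        have hh2 : ¬ 2 ∣ orderOf h := by
          intro hh; exact (Nat.not_even_iff_odd.mpr hho) (even_iff_two_dvd.mpr hh)
        have hc1 : Nat.Coprime (orderOf x) 2 := (Nat.Prime.coprime_iff_not_dvd Nat.prime_two).mpr hx2 |>.symm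
        have hc2 : Nat.Coprime (orderOf h) 2 := (Nat.Prime.coprime_iff_not_dvd Nat.prime_two).mpr hh2 |>.symm
        have hc3 : Nat.Coprime (orderOf x * orderOf h) 2 := Nat.Coprime.mul_left hc1 hc2
        have hc4 : Nat.Coprime (Nat.lcm (orderOf x) (orderOf h)) 2 :=
          Nat.Coprime.coprime_dvd_left (Nat.lcm_dvd_mul _ _) hc3
        have := Nat.eq_one_of_dvd_coprimes hc4 h2 (dvd_refl 2)
        omega
      exact Odd.of_dvd_nat hl hdvd
    have hinvxh : (u * v) * (x * h) * (u * v)⁻¹ = (x * h)⁻¹ := by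
      have e1 : (u * v) * (x * h) * (u * v)⁻¹ = u * ((v * x * v⁻¹) * (v * h * v⁻¹)) * u⁻¹ := by group
      have e2 : v * h * v⁻¹ = h := by rw [hvh]; group
      rw [e1, hinv, e2]
      have e3 : u * (x⁻¹ * h) * u⁻¹ = (u * x * u⁻¹)⁻¹ * (u * h * u⁻¹) := by group
      have e4 : u * x * u⁻¹ = x := by
        have : x * u = u * x := hxu
        rw [← this]; group
      rw [e3, e4, hinvh, mul_inv_rev]
      have : x⁻¹ * h⁻¹ = (h * x)⁻¹ := by group
      rw [this, ← hcomm.eq]
      group
    obtain ⟨w, hwV, hw1, hwc⟩ := hS (x * h) (u * v) (V.mul_mem huV hv) hoddxh hinvxh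
    have hwv : w * v = v * w := hVc w hwV v hv
    -- w commutes with x⁻¹ * h
    have hwc2 : w * (x⁻¹ * h) = (x⁻¹ * h) * w := by
      have e1 : x⁻¹ * h = v * (x * h) * v⁻¹ := by
        have : v * (x * h) * v⁻¹ = (v * x * v⁻¹) * (v * h * v⁻¹) := by group
        rw [this, hinv]
        have e2 : v * h * v⁻¹ = h := by rw [hvh]; group
        rw [e2]
      rw [e1]
      have e3 : w * (v * (x * h) * v⁻¹) = v * (w * (x * h)) * v⁻¹ := by
        have : w * (v * (x * h) * v⁻¹) = (w * v) * (x * h) * v⁻¹ := by group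
        rw [this, hwv]; group
      have e4 : v * (x * h) * v⁻¹ * w = v * ((x * h) * w) * v⁻¹ := by
        have hwv' : v⁻¹ * w = w * v⁻¹ := by
          have : v⁻¹ * w = v⁻¹ * (w * v) * v⁻¹ := by group
          rw [this, hwv]; group
        have : v * (x * h) * v⁻¹ * w = v * (x * h) * (v⁻¹ * w) := by group
        rw [this, hwv']; group
      rw [e3, e4, hwc]
    have hwxx : w * (x * x) = (x * x) * w := by
      have e1 : x * x = (x * h) * (x⁻¹ * h)⁻¹ := by
        have : (x * h) * (x⁻¹ * h)⁻¹ = x * (h * h⁻¹) * x := by group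
        rw [this]; simp
      have h1 : Commute w (x * h) := hwc
      have h2 : Commute w (x⁻¹ * h) := hwc2
      have h3 : Commute w ((x * h) * (x⁻¹ * h)⁻¹) := h1.mul_right h2.inv_right
      rw [e1]
      exact h3
    have hwx : w * x = x * w := hodd_comm w x hx hwxx
    have hwh : w * h = h * w := by
      have h1 : Commute w (x * h) := hwc
      have h2 : Commute w x := hwx
      have h3 : Commute w (x⁻¹ * (x * h)) := h2.inv_right.mul_right h1
      have e : x⁻¹ * (x * h) = h := by group
      rw [e] at h3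
      exact h3
    refine ⟨w, hwV, hw1, ?_, hwh⟩
    rw [hmemC]
    exact ⟨hwv.symm, hwx.symm⟩
  constructor
  · obtain ⟨w, hwV, hw1, hwc⟩ := hS x v hv hx hinv
    intro hbot
    apply hw1
    have hwC : w ∈ C := by
      rw [hmemC]
      exact ⟨hVc v hv w hwV, hwc.symm⟩
    have : w ∈ C ⊓ V := Subgroup.mem_inf.mpr ⟨hwC, hwV⟩
    rw [hbot, Subgroup.mem_bot] at this
    exact this
  · intro h u hu hho hinvh
    rw [Subgroup.mem_subgroupOf] at hu
    have huV : (u : G) ∈ V := (Subgroup.mem_inf.mp hu).2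
    have hho' : Odd (orderOf (h : G)) := by rwa [Subgroup.orderOf_coe]
    have hinvh' : (u : G) * (h : G) * (u : G)⁻¹ = (h : G)⁻¹ := by
      have := congrArg Subtype.val hinvh
      simpa using this
    obtain ⟨w, hwV, hw1, hwC, hwh⟩ := key (h : G) (u : G) h.2 u.2 huV hho' hinvh'
    refine ⟨⟨w, hwC⟩, ?_, ?_, ?_⟩
    · rw [Subgroup.mem_subgroupOf]
      exact Subgroup.mem_inf.mpr ⟨hwC, hwV⟩
    · intro h1
      apply hw1
      have := congrArg Subtype.val h1
      simpa using this
    · apply Subtype.ext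
      simpa using hwh

end Cfsg.Agent.S3013
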