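import Cfsg.Statements.S3014
import Cfsg.Agent.Lib_helper1_Basic

set_option autoImplicit false
open Cfsg

namespace Cfsg.Agent.S3014

theorem transfer_eq_one_of {G : Type*} [Group G] {A : Type*} [CommGroup A] (M : Subgroup G)
    [M.FiniteIndex] (ϕ : M →* A) (x : G)
    (h : ∀ (a : G) (k : ℕ) (hk : a⁻¹ * x ^ k * a ∈ M), ϕ ⟨a⁻¹ * x ^ k * a, hk⟩ = 1) :
    MonoidHom.transfer ϕ x = 1 := by
  classical
  haveI : Fintype (Quotient (MulAction.orbitRel (Subgroup.zpowers x) (G ⧸ M))) :=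
    Fintype.ofFinite _
  rw [MonoidHom.transfer_eq_prod_quotient_orbitRel_zpowers_quot]
  exact Finset.prod_eq_one (fun q _ => h _ _ _)

theorem transfer_eval {G : Type*} [Group G] {A : Type*} [CommGroup A] (M : Subgroup G)
    [M.FiniteIndex] (ϕ : M →* A) (x : G) (hxM : x ∈ M)
    (hx : ∀ (a : G) (k : ℕ) (hk : a⁻¹ * x ^ k * a ∈ M), a ∉ M → ϕ ⟨a⁻¹ * x ^ k * a, hk⟩ = 1) :
    MonoidHom.transfer ϕ x = ϕ ⟨x, hxM⟩ := by
  classical
  haveI : Fintype (Quotient (MulAction.orbitRel (Subgroup.zpowers x) (G ⧸ M))) :=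
    Fintype.ofFinite _
  rw [MonoidHom.transfer_eq_prod_quotient_orbitRel_zpowers_quot]
  obtain ⟨q0, hq0⟩ : ∃ q0 : Quotient (MulAction.orbitRel (Subgroup.zpowers x) (G ⧸ M)),
      q0 = Quotient.mk _ ((1 : G) : G ⧸ M) := ⟨_, rfl⟩
  have hgen : ∀ (a : G) (k : ℕ) (h : a⁻¹ * x ^ k * a ∈ M), a ∈ M →
      ϕ ⟨a⁻¹ * x ^ k * a, h⟩ = ϕ ⟨x, hxM⟩ ^ k := by
    intro a k h ha
    have h1 : (⟨a⁻¹ * x ^ k * a, h⟩ : M) = (⟨a, ha⟩ : M)⁻¹ * ⟨x, hxM⟩ ^ k * ⟨a, ha⟩ :=
      Subtype.ext rfl
    rw [h1, map_mul, map_mul, map_inv, map_pow]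
    rw [mul_comm, ← mul_assoc, mul_inv_cancel, one_mul]
  rw [Finset.prod_eq_single q0]
  · have hout : q0.out = ((1 : G) : G ⧸ M) := by
      have h0 : (Quotient.mk (MulAction.orbitRel (Subgroup.zpowers x) (G ⧸ M)) q0.out) =
          Quotient.mk _ ((1 : G) : G ⧸ M) := by
        rw [Quotient.out_eq, hq0]
      have h1 : q0.out ∈ MulAction.orbit (Subgroup.zpowers x) ((1 : G) : G ⧸ M) :=
        Quotient.exact h0
      obtain ⟨⟨z, hz⟩, hz2⟩ := h1
      have hzM : z ∈ M := by
        obtain ⟨i, hi⟩ := hz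
        rw [← hi]; exact M.zpow_mem hxM i
      have hz3 : (⟨z, hz⟩ : Subgroup.zpowers x) • (((1 : G) : G ⧸ M)) = q0.out := hz2
      rw [← hz3]
      show z • (((1 : G) : G ⧸ M)) = ((1 : G) : G ⧸ M)
      rw [MulAction.Quotient.smul_mk, QuotientGroup.eq]
      simpa using hzM
    have ha : q0.out.out ∈ M := by
      have h2 := QuotientGroup.out_eq' q0.out
      have h3 : ((q0.out.out : G) : G ⧸ M) = ((1 : G) : G ⧸ M) := h2.trans hout
      have h4 := QuotientGroup.eq.mp h3
      simpa using h4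
    have hk : Function.minimalPeriod (x • ·) q0.out = 1 := by
      rw [Function.minimalPeriod_eq_one_iff_isFixedPt]
      show x • q0.out = q0.out
      rw [hout, MulAction.Quotient.smul_mk, QuotientGroup.eq]
      simpa using hxM
    rw [hgen _ _ _ ha, hk, pow_one]
  · intro q _ hq
    apply hx
    intro ha
    apply hq
    have h2 := QuotientGroup.out_eq' q.out
    have h3 : q.out = ((1 : G) : G ⧸ M) := by
      rw [← h2, QuotientGroup.eq]; simpa using ha
    rw [hq0, ← h3, Quotient.out_eq]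
  · intro h; exact absurd (Finset.mem_univ _) h


/-- Let G be a finite group and H ≤ M ≤ G subgroups such that for every g ∈ G the subgroup generated by H and g H g⁻¹ meets M exactly in H. If H is a maximal subgroup of M and M is a maximal subgroup of G, then the normal closure of H in G meets M exactly in H. -/
theorem result {G : Type*} [Group G] [Finite G] (H M : Subgroup G) (hHM : H ≤ M) (hcl : ∀ g : G, (H ⊔ H.map (MulAut.conj g).toMonoidHom) ⊓ M = H) (hmaxH : IsCoatom (H.subgroupOf M)) (hmaxM : IsCoatom M) : Subgroup.normalClosure (H : Set G) ⊓ M = H := by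
  apply le_antisymm _ (le_inf Subgroup.le_normalClosure hHM)
  by_cases hHn : H.Normal
  · rw [Subgroup.normalClosure_eq_self H]; exact inf_le_left
  have hHnM : ∀ m ∈ M, ∀ h ∈ H, m * h * m⁻¹ ∈ H := by
    intro m hm h hh
    have h1 : m * h * m⁻¹ ∈ (H ⊔ H.map (MulAut.conj m).toMonoidHom) ⊓ M := by
      refine Subgroup.mem_inf.mpr ⟨Subgroup.mem_sup_right ?_, ?_⟩
      · exact ⟨h, hh, rfl⟩
      · exact M.mul_mem (M.mul_mem hm (hHM hh)) (M.inv_mem hm)
    rw [hcl m] at h1; exact h1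
  have hMnorm : M ≤ Subgroup.normalizer (H : Set G) := fun m hm =>
    Cfsg.Agent.Lib_helper1_Basic.mem_normalizer_of_conj_le H m (hHnM m hm)
  have hnormM : Subgroup.normalizer (H : Set G) ≤ M := by
    by_contra hnot
    apply hHn
    rw [← Subgroup.normalizer_eq_top_iff]
    apply hmaxM.2
    exact lt_of_le_of_ne hMnorm (fun h => hnot h.ge)
  have hco : ∀ K : Subgroup G, H ≤ K → K ≤ M → (∃ d ∈ K, d ∉ H) → M ≤ K := by
    intro K hHK hKM ⟨d, hdK, hdH⟩
    have hlt : H.subgroupOf M < K.subgroupOf M := by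
      refine lt_of_le_of_ne (fun y hy => ?_) (fun heq => ?_)
      · exact Subgroup.mem_subgroupOf.mpr (hHK (Subgroup.mem_subgroupOf.mp hy))
      · apply hdH
        have h1 : (⟨d, hKM hdK⟩ : M) ∈ K.subgroupOf M := Subgroup.mem_subgroupOf.mpr hdK
        rw [← heq] at h1
        exact Subgroup.mem_subgroupOf.mp h1
    have htop := hmaxH.2 _ hlt
    exact Subgroup.subgroupOf_eq_top.mp htop
  by_cases hA : ∃ g : G, g ∉ M ∧ ¬ (M ⊓ M.map (MulAut.conj g).toMonoidHom ≤ H)
  · obtain ⟨g, hgM, hD⟩ := hA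
    obtain ⟨D, hDdef⟩ : ∃ D, D = M ⊓ M.map (MulAut.conj g).toMonoidHom := ⟨_, rfl⟩
    obtain ⟨L, hLdef⟩ : ∃ L, L = H ⊔ H.map (MulAut.conj g).toMonoidHom := ⟨_, rfl⟩
    rw [← hDdef] at hD
    have hLM : L ⊓ M = H := by rw [hLdef]; exact hcl g
    have hHL : H ≤ L := by rw [hLdef]; exact le_sup_left
    have hDM : D ≤ M := by rw [hDdef]; exact inf_le_left
    obtain ⟨d, hdD, hdH⟩ := SetLike.not_le_iff_exists.mp hD
    have hDL : D ≤ Subgroup.normalizer (L : Set G) := by
      intro e he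
      apply Cfsg.Agent.Lib_helper1_Basic.mem_normalizer_of_conj_le
      have he' : e ∈ M ⊓ M.map (MulAut.conj g).toMonoidHom := by rw [← hDdef]; exact he
      obtain ⟨heM, heMg⟩ := Subgroup.mem_inf.mp he'
      have hmap : L.map (MulAut.conj e).toMonoidHom ≤ L := by
        rw [hLdef, Subgroup.map_sup]
        apply sup_le
        · rintro _ ⟨h, hh, rfl⟩
          exact Subgroup.mem_sup_left (hHnM e heM h hh)
        · rintro _ ⟨_, ⟨h, hh, rfl⟩, rfl⟩
          obtain ⟨m, hm, hme⟩ := heMg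
          apply Subgroup.mem_sup_right
          refine ⟨m * h * m⁻¹, hHnM m hm h hh, ?_⟩
          rw [← hme]
          simp only [MulEquiv.coe_toMonoidHom, MulAut.conj_apply]
          group
      intro l hl
      exact hmap ⟨l, hl, rfl⟩
    have hMle : M ≤ H ⊔ D := hco (H ⊔ D) le_sup_left (sup_le hHM hDM)
      ⟨d, Subgroup.mem_sup_right hdD, hdH⟩
    have hMLD : M ≤ L ⊔ D := hMle.trans (sup_le_sup_right hHL D)
    by_cases hle : L ⊔ D ≤ M
    · exfalso
      have hLleM : L ≤ M := le_sup_left.trans hle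
      have hLH : L = H := by rw [← hLM]; exact (inf_eq_left.mpr hLleM).symm
      apply hgM
      apply hnormM
      apply Cfsg.Agent.Lib_helper1_Basic.mem_normalizer_of_conj_le
      intro h hh
      have h1 : g * h * g⁻¹ ∈ L := by
        rw [hLdef]; exact Subgroup.mem_sup_right ⟨h, hh, rfl⟩
      rw [hLH] at h1; exact h1
    · have htop : L ⊔ D = ⊤ := hmaxM.2 _ (lt_of_le_not_ge hMLD hle)
      haveI hLn : L.Normal := by
        rw [← Subgroup.normalizer_eq_top_iff, eq_top_iff, ← htop]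
        exact sup_le Subgroup.le_normalizer hDL
      have h1 : Subgroup.normalClosure (H : Set G) ≤ L :=
        Subgroup.normalClosure_le_normal (fun h hh => hHL hh)
      calc Subgroup.normalClosure (H : Set G) ⊓ M ≤ L ⊓ M := inf_le_inf_right M h1
        _ = H := hLM
  · have hB : ∀ g : G, g ∉ M → M ⊓ M.map (MulAut.conj g).toMonoidHom ≤ H := by
      intro g hg
      by_contra hnot
      exact hA ⟨g, hg, hnot⟩
    haveI hH'n : (H.subgroupOf M).Normal := by
      constructor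
      intro n hn m
      rw [Subgroup.mem_subgroupOf] at hn ⊢
      exact hHnM m m.2 n hn
    have hcomm : ∀ a b : M, (a * b)⁻¹ * (b * a) ∈ H.subgroupOf M := by
      intro a b
      by_cases ha : a ∈ H.subgroupOf M
      · have h1 : (a * b)⁻¹ * (b * a) = (b⁻¹ * a⁻¹ * b⁻¹⁻¹) * a := by group
        rw [h1]
        exact (H.subgroupOf M).mul_mem
          (hH'n.conj_mem a⁻¹ ((H.subgroupOf M).inv_mem ha) b⁻¹) ha
      · have htop : H.subgroupOf M ⊔ Subgroup.zpowers a = ⊤ := by
          apply hmaxH.2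
          refine lt_of_le_of_ne le_sup_left (fun heq => ha ?_)
          rw [heq]
          exact Subgroup.mem_sup_right (Subgroup.mem_zpowers a)
        have hb : b ∈ ((H.subgroupOf M ⊔ Subgroup.zpowers a : Subgroup M) : Set M) := by
          rw [htop]; exact Set.mem_univ b
        rw [Subgroup.normal_mul] at hb
        obtain ⟨h, hh, z, hz, hzb⟩ := Set.mem_mul.mp hb
        obtain ⟨i, hi⟩ := hz
        have hza : z * a = a * z := by
          rw [← hi]; exact ((Commute.refl a).zpow_left i).eq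
        have h1 : (a * b)⁻¹ * (b * a) = z⁻¹ * (h⁻¹ * (a⁻¹ * h * a⁻¹⁻¹)) * z⁻¹⁻¹ := by
          have h2 : (a * b)⁻¹ * (b * a) = z⁻¹ * h⁻¹ * a⁻¹ * (h * (z * a)) := by
            rw [← hzb]; group
          rw [h2, hza]; group
        rw [h1]
        apply hH'n.conj_mem
        exact (H.subgroupOf M).mul_mem ((H.subgroupOf M).inv_mem hh) (hH'n.conj_mem h hh a⁻¹)
    letI : CommGroup (M ⧸ H.subgroupOf M) :=
      { (QuotientGroup.Quotient.group (H.subgroupOf M)) with
        mul_comm := by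
          intro u v
          refine QuotientGroup.induction_on u (fun a => ?_)
          refine QuotientGroup.induction_on v (fun b => ?_)
          rw [← QuotientGroup.mk_mul, ← QuotientGroup.mk_mul, QuotientGroup.eq]
          exact hcomm a b }
    obtain ⟨ϕ, hϕ⟩ : ∃ ϕ : M →* M ⧸ H.subgroupOf M, ϕ = QuotientGroup.mk' (H.subgroupOf M) :=
      ⟨_, rfl⟩
    have hϕ1 : ∀ m : M, ϕ m = 1 ↔ (m : G) ∈ H := by
      intro m; rw [hϕ]; exact (QuotientGroup.eq_one_iff m).trans Subgroup.mem_subgroupOf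
    have hVH : ∀ h ∈ H, MonoidHom.transfer ϕ h = 1 := by
      intro h hh
      apply transfer_eq_one_of M ϕ h
      intro a k hk
      rw [hϕ1]
      have h1 : a⁻¹ * h ^ k * a ∈ (H ⊔ H.map (MulAut.conj a⁻¹).toMonoidHom) ⊓ M := by
        refine Subgroup.mem_inf.mpr ⟨Subgroup.mem_sup_right ⟨h ^ k, H.pow_mem hh k, ?_⟩, hk⟩
        simp
      rw [hcl a⁻¹] at h1; exact h1
    have hVM : ∀ x ∈ M, x ∉ H → MonoidHom.transfer ϕ x ≠ 1 := by
      intro x hxM hxH
      rw [transfer_eval M ϕ x hxM]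
      · intro h1; exact hxH ((hϕ1 ⟨x, hxM⟩).mp h1)
      · intro a k hk ha
        rw [hϕ1]
        apply hB a⁻¹ (fun h => ha (by simpa using M.inv_mem h))
        refine Subgroup.mem_inf.mpr ⟨hk, ⟨x ^ k, M.pow_mem hxM k, ?_⟩⟩
        simp
    have h1 : Subgroup.normalClosure (H : Set G) ≤ (MonoidHom.transfer ϕ).ker :=
      Subgroup.normalClosure_le_normal (fun h hh => MonoidHom.mem_ker.mpr (hVH h hh))
    intro y hy
    obtain ⟨hy1, hy2⟩ := Subgroup.mem_inf.mp hy
    by_contra hyH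
    exact hVM y hy2 hyH (MonoidHom.mem_ker.mp (h1 hy1))

end Cfsg.Agent.S3014
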