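import Cfsg.Statements.S3020
import Cfsg.Agent.Lib_helper1_Fitting
import Cfsg.Agent.Lib_helper6_PEltCount

set_option autoImplicit false
open Cfsg

namespace Cfsg.Agent.S3020



/-- Let G be a finite group, p a prime and H an abelian p-subgroup of G that is extremely closed (for every g, the subgroup generated by H and g H g⁻¹ meets N_G(H) exactly in H). Then for every g ∈ G, the subgroup T generated by H and g H g⁻¹ is the product of H with O_{p'}(T), and H meets O_{p'}(T) trivially; that is, O_{p'}(T) is a normal p-complement of H in T. -/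
theorem result {G : Type*} [Group G] [Finite G] {p : ℕ} [Fact p.Prime] (H : Subgroup G) (hHp : IsPGroup p H) (hHab : IsMulCommutative H) (hcl : Cfsg.IsExtremelyClosed H) (g : G) (T : Subgroup G) (hT : T = H ⊔ H.map (MulAut.conj g).toMonoidHom) : H ⊔ (Cfsg.pPrimeCore p ↥T).map T.subtype = T ∧ H ⊓ (Cfsg.pPrimeCore p ↥T).map T.subtype = ⊥ := by
  have hHT : H ≤ T := by rw [hT]; exact le_sup_left
  have hcl' : T ⊓ Subgroup.normalizer (H : Set G) = H := by rw [hT]; exact hcl g
  have hH'p : IsPGroup p (H.subgroupOf T) := hHp.comap_subtype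
  have hnorm : ∀ x : T, x ∈ Subgroup.normalizer ((H.subgroupOf T : Subgroup T) : Set T) →
      x ∈ H.subgroupOf T := by
    intro x hx
    rw [Subgroup.mem_normalizer_iff] at hx
    have hxN : (x : G) ∈ Subgroup.normalizer (H : Set G) := by
      rw [Subgroup.mem_normalizer_iff]
      intro d
      constructor
      · intro hd
        have h1 := (hx ⟨d, hHT hd⟩).mp (Subgroup.mem_subgroupOf.mpr hd)
        exact Subgroup.mem_subgroupOf.mp h1
      · intro hd
        have hdT : d ∈ T := by
          have h2 : (x : G)⁻¹ * ((x : G) * d * (x : G)⁻¹) * (x : G) ∈ T :=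
            T.mul_mem (T.mul_mem (T.inv_mem x.2) (hHT hd)) x.2
          have e : (x : G)⁻¹ * ((x : G) * d * (x : G)⁻¹) * (x : G) = d := by group
          rwa [e] at h2
        have h1 := (hx ⟨d, hdT⟩).mpr (Subgroup.mem_subgroupOf.mpr hd)
        exact Subgroup.mem_subgroupOf.mp h1
    have h3 : (x : G) ∈ T ⊓ Subgroup.normalizer (H : Set G) := ⟨x.2, hxN⟩
    rw [hcl'] at h3
    exact Subgroup.mem_subgroupOf.mpr h3
  obtain ⟨P, hP⟩ := hH'p.exists_le_sylow
  have hPeq : H.subgroupOf T = (P : Subgroup T) := by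
    by_contra hne
    obtain ⟨x, hxP, hxN, hxH⟩ := Cfsg.Agent.Lib_helper6_PEltCount.exists_mem_normalizer_not_mem p
      (P : Subgroup T) (H.subgroupOf T) P.isPGroup' hP hne
    exact hxH (hnorm x hxN)
  have hcoe : (P : Set T) = ((H.subgroupOf T : Subgroup T) : Set T) := by rw [hPeq]; rfl
  have hPc : Subgroup.normalizer (P : Set T) ≤ Subgroup.centralizer (P : Set T) := by
    intro y hy
    rw [hcoe] at hy ⊢
    have hyH := hnorm y hy
    rw [Subgroup.mem_centralizer_iff]
    intro h hh
    have hh' : (h : G) ∈ H := Subgroup.mem_subgroupOf.mp hh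
    have h1 := mul_comm' (⟨(h : G), hh'⟩ : H) ⟨(y : G), Subgroup.mem_subgroupOf.mp hyH⟩
    have h2 : (h : G) * (y : G) = (y : G) * (h : G) := congrArg Subtype.val h1
    exact Subtype.ext h2
  have hcompl := MonoidHom.ker_transferSylow_isComplement' P hPc
  have hKcop : (Nat.card (MonoidHom.transferSylow P hPc).ker).Coprime p := by
    have h1 : (P : Subgroup T).index = Nat.card (MonoidHom.transferSylow P hPc).ker :=
      hcompl.index_eq_card
    rw [← h1]
    exact ((Nat.Prime.coprime_iff_not_dvd (Fact.out : p.Prime)).mpr P.not_dvd_index).symm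
  have hKO : (MonoidHom.transferSylow P hPc).ker ≤ Cfsg.pPrimeCore p ↥T :=
    Cfsg.Agent.Lib_helper1_Fitting.le_pPrimeCore p _ inferInstance hKcop
  have hOcop : (Nat.card (Cfsg.pPrimeCore p ↥T)).Coprime p :=
    Cfsg.Agent.Lib_helper1_Fitting.pPrimeCore_coprime p
  have hsup : H.subgroupOf T ⊔ Cfsg.pPrimeCore p ↥T = ⊤ := by
    rw [eq_top_iff, ← hcompl.sup_eq_top, hPeq]
    exact sup_le (hKO.trans le_sup_right) le_sup_left
  have hinf : H.subgroupOf T ⊓ Cfsg.pPrimeCore p ↥T = ⊥ := by
    obtain ⟨k, hk⟩ := IsPGroup.iff_card.mp hH'p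
    apply Disjoint.eq_bot
    apply Subgroup.disjoint_of_coprime_natCard
    rw [hk]
    exact Nat.Coprime.pow_left k hOcop.symm
  have hmapH : (H.subgroupOf T).map T.subtype = H := Subgroup.map_subgroupOf_eq_of_le hHT
  constructor
  · rw [← hmapH, ← Subgroup.map_sup, hsup, ← MonoidHom.range_eq_map, Subgroup.range_subtype]
  · rw [← hmapH, ← Subgroup.map_inf _ _ _ T.subtype_injective, hinf, Subgroup.map_bot]

end Cfsg.Agent.S3020
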