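import Cfsg.Statements.S3021
import Cfsg.Agent.Lib_helper7_Sylow

set_option autoImplicit false
open Cfsg

namespace Cfsg.Agent.S3021

/-- Let G be a finite group, p a prime and H a p-subgroup of G that is extremely closed (for every g, the subgroup generated by H and g H g⁻¹ meets N_G(H) exactly in H). Then every p-subgroup Q of G containing H has N_G(Q) ≤ N_G(H); in particular every Sylow p-subgroup P of G containing H normalizes H, and H is strongly closed in P with respect to G. -/
theorem result {G : Type*} [Group G] [Finite G] {p : ℕ} [Fact p.Prime] (H : Subgroup G) (hHp : IsPGroup p H) (hcl : Cfsg.IsExtremelyClosed H) : (∀ Q : Subgroup G, IsPGroup p Q → H ≤ Q → Subgroup.normalizer (Q : Set G) ≤ Subgroup.normalizer (H : Set G)) ∧ ∀ P : Sylow p G, H ≤ (P : Subgroup G) → (P : Subgroup G) ≤ Subgroup.normalizer (H : Set G) ∧ Cfsg.IsStronglyClosed H (P : Subgroup G) := by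
  have key : ∀ Q : Subgroup G, IsPGroup p Q → H ≤ Q →
      Subgroup.normalizer (Q : Set G) ≤ Subgroup.normalizer (H : Set G) := by
    intro Q hQ hHQ n hn
    apply Cfsg.Agent.Lib_helper7_Sylow.mem_normalizer_of_conj_le
    have hH'Q : H.map (MulAut.conj n).toMonoidHom ≤ Q := by
      rintro _ ⟨h, hh, rfl⟩
      exact (Subgroup.mem_normalizer_iff.mp hn h).mp (hHQ hh)
    have hTQ : H ⊔ H.map (MulAut.conj n).toMonoidHom ≤ Q := sup_le hHQ hH'Q
    have hT : IsPGroup p ↥(H ⊔ H.map (MulAut.conj n).toMonoidHom) := hQ.to_le hTQ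
    by_contra hcon
    have hlt : H < H ⊔ H.map (MulAut.conj n).toMonoidHom := by
      refine lt_of_le_of_ne le_sup_left ?_
      intro heq
      apply hcon
      exact le_sup_right.trans heq.ge
    obtain ⟨t, htT, htN, htH⟩ :=
      Cfsg.Agent.Lib_helper7_Sylow.exists_mem_normalizer_not_mem hT hlt
    exact htH ((hcl n).le (Subgroup.mem_inf.mpr ⟨htT, htN⟩))
  refine ⟨key, fun P hHP => ?_⟩
  have hPN : (P : Subgroup G) ≤ Subgroup.normalizer (H : Set G) :=
    Subgroup.le_normalizer.trans (key P P.isPGroup' hHP)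
  refine ⟨hPN, hHP, fun x hx g hg => ?_⟩
  apply (hcl g).le
  refine Subgroup.mem_inf.mpr ⟨?_, hPN hg⟩
  apply (le_sup_right : H.map (MulAut.conj g).toMonoidHom ≤ _)
  exact ⟨x, hx, rfl⟩

end Cfsg.Agent.S3021
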