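import Cfsg.Statements.S3027
import Cfsg.Agent.Lib_helper7_LeastSupp

set_option autoImplicit false
open Cfsg

namespace Cfsg.Agent.S3027

/-- Let G be a finite group and D a normal subgroup of G such that G/D is perfect (that is, G = G′D). Then among the subnormal subgroups B of G with BD = G there is a least one, and it is normal in G. -/
theorem result {G : Type*} [Group G] [Finite G] (D : Subgroup G) [D.Normal] (hperf : ⁅(⊤ : Subgroup G), (⊤ : Subgroup G)⁆ ⊔ D = ⊤) :
    ∃ B : Subgroup G, B.Normal ∧ B ⊔ D = ⊤ ∧ ∀ B' : Subgroup G, B'.IsSubnormal → B' ⊔ D = ⊤ → B ≤ B' := by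
  obtain ⟨B, hB⟩ := Cfsg.Agent.Lib_helper7_LeastSupp.exists_leastSupp D hperf
  exact ⟨B, hB.1, hB.2.1, hB.2.2⟩

end Cfsg.Agent.S3027
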