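import Cfsg.Statements.S3058
import Cfsg.Agent.Lib_helper7_SEGen
import Cfsg.Agent.Lib_helper7_SylGraph

set_option autoImplicit false
open Cfsg

namespace Cfsg.Agent.S3058

/-- Let p be a prime and G a finite group whose Sylow p-subgroups are not chain-connected through nontrivial intersections (so G has a strongly p-embedded subgroup). If N and M are normal subgroups of G whose orders are both divisible by p, then the order of N ∩ M is divisible by p. Consequently, among the normal subgroups of G whose order is divisible by p there is a smallest one (the intersection of all of them). -/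
theorem result {G : Type*} [Group G] [Finite G]
    (p : ℕ) [Fact p.Prime] (hG : ¬ Cfsg.IsSylowChainConnected p G)
    (N M : Subgroup G) [N.Normal] [M.Normal] (hN : p ∣ Nat.card N) (hM : p ∣ Nat.card M) :
    p ∣ Nat.card ↥(N ⊓ M) := by
  classical
  obtain ⟨H, hHtop, hpH, hE⟩ := Cfsg.Agent.Lib_helper7_SylGraph.not_connected_iff.mp hG
  have hNf := Cfsg.Agent.Lib_helper7_SE2.nform_of_eform hE
  have hp : p.Prime := Fact.out
  obtain ⟨P, hPH⟩ := Cfsg.Agent.Lib_helper7_SE2.exists_sylow_le hNf hpH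
  by_contra hdvd
  have hcop : (Nat.card ↥(N ⊓ M)).Coprime p := by
    rw [Nat.coprime_comm, hp.coprime_iff_not_dvd]; exact hdvd
  -- elements of order p of N and M inside P
  have hex : ∀ (L : Subgroup G) [L.Normal], p ∣ Nat.card L →
      ∃ x ∈ L, x ∈ (P : Subgroup G) ∧ orderOf x = p := by
    intro L hL hpL
    obtain ⟨x₀, hx₀L, hox₀⟩ := Cfsg.Agent.Lib_helper7_SE2.exists_orderOf_eq L hpL
    obtain ⟨w, -, hw⟩ := Cfsg.Agent.Lib_helper7_SE2.exists_conj_le_of_le P ⊤ le_top
      (Subgroup.zpowers x₀) (Cfsg.Agent.Lib_helper7_SE2.isPGroup_zpowers x₀ hox₀) le_top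
    refine ⟨w * x₀ * w⁻¹, hL.conj_mem x₀ hx₀L w, hw x₀ (Subgroup.mem_zpowers x₀), ?_⟩
    rw [Cfsg.Agent.Lib_helper7_Sylow.orderOf_conj']
    exact hox₀
  obtain ⟨x, hxN, hxP, hox⟩ := hex N hN
  obtain ⟨y, hyM, hyP, hoy⟩ := hex M hM
  have hNorm : (N ⊓ M).Normal := inferInstance
  -- elements of P in N ⊓ M are trivial
  have htriv : ∀ c : G, c ∈ (P : Subgroup G) → c ∈ N ⊓ M → c = 1 := by
    intro c hcP hcD
    obtain ⟨k, hk⟩ := (P.isPGroup'.to_le (le_refl _)) ⟨c, hcP⟩
    have h1 : c ^ p ^ k = 1 := congrArg Subtype.val hk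
    have h2 : orderOf c ∣ Nat.card ↥(N ⊓ M) := by
      have := orderOf_dvd_natCard (⟨c, hcD⟩ : ↥(N ⊓ M))
      rwa [Subgroup.orderOf_mk] at this
    have h3 : orderOf c ∣ p ^ k := orderOf_dvd_of_pow_eq_one h1
    have h4 : orderOf c = 1 := Nat.eq_one_of_dvd_coprimes (Nat.Coprime.pow_right k hcop) h2 h3
    exact orderOf_eq_one_iff.mp h4
  have hxy : x * y = y * x := by
    have hc : x * y * x⁻¹ * y⁻¹ = 1 := by
      apply htriv
      · exact Subgroup.mul_mem _ (Subgroup.mul_mem _ (Subgroup.mul_mem _ hxP hyP)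
          (Subgroup.inv_mem _ hxP)) (Subgroup.inv_mem _ hyP)
      · refine Subgroup.mem_inf.mpr ⟨?_, ?_⟩
        · have h1 : x * y * x⁻¹ * y⁻¹ = x * (y * x⁻¹ * y⁻¹) := by group
          rw [h1]
          exact N.mul_mem hxN (Subgroup.Normal.conj_mem inferInstance _ (N.inv_mem hxN) y)
        · exact M.mul_mem (Subgroup.Normal.conj_mem inferInstance _ hyM x) (M.inv_mem hyM)
    calc x * y = x * y * x⁻¹ * y⁻¹ * (y * x) := by group
      _ = y * x := by rw [hc, one_mul]
  have hyx : y ∉ Subgroup.zpowers x := by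
    intro h
    have hyN : y ∈ N := (Subgroup.zpowers_le.mpr hxN) h
    have h1 := htriv y hyP (Subgroup.mem_inf.mpr ⟨hyN, hyM⟩)
    rw [h1, orderOf_one] at hoy
    exact hp.one_lt.ne hoy
  have hDH : N ⊓ M ≤ H := by
    apply Cfsg.Agent.Lib_helper7_SEGen.le_of_pair hE x y (hPH hxP) (hPH hyP) hxy hox
      (by rw [← hoy]; exact pow_orderOf_eq_one y) hyx _ _ _ hcop
    · rw [Subgroup.normalizer_eq_top]; exact Subgroup.mem_top x
    · rw [Subgroup.normalizer_eq_top]; exact Subgroup.mem_top y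
  have hNH : N ≤ H := by
    intro n hn
    have h1 : n * y * n⁻¹ ∈ H := by
      have e : n * y * n⁻¹ = (n * y * n⁻¹ * y⁻¹) * y := by group
      rw [e]
      refine H.mul_mem (hDH (Subgroup.mem_inf.mpr ⟨?_, ?_⟩)) (hPH hyP)
      · have e2 : n * y * n⁻¹ * y⁻¹ = n * (y * n⁻¹ * y⁻¹) := by group
        rw [e2]
        exact N.mul_mem hn (Subgroup.Normal.conj_mem inferInstance _ (N.inv_mem hn) y)
      · exact M.mul_mem (Subgroup.Normal.conj_mem inferInstance _ hyM n) (M.inv_mem hyM)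
    have h2 : n⁻¹ ∈ H := by
      apply hE n⁻¹ y (hPH hyP) hoy
      rw [inv_inv]
      exact h1
    simpa using H.inv_mem h2
  apply hHtop
  rw [eq_top_iff]
  intro g _
  have h2 : g⁻¹ ∈ H := by
    apply hE g⁻¹ x (hPH hxP) hox
    rw [inv_inv]
    exact hNH (Subgroup.Normal.conj_mem inferInstance _ hxN g)
  simpa using H.inv_mem h2

end Cfsg.Agent.S3058
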