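import Cfsg.Statements.S3059
import Cfsg.Agent.Lib_helper7_SE

set_option autoImplicit false
open Cfsg

namespace Cfsg.Agent.S3059

/-- Let p be a prime and H a strongly p-embedded subgroup of the finite group G in the classical sense: H is proper, p divides the order of H, and H ∩ gHg⁻¹ has order prime to p for every g outside H. Then for every normal subgroup N of G of order divisible by p, G = H · O^p(N), where O^p(N) is the subgroup generated by the elements of N of order prime to p. -/
theorem result {G : Type*} [Group G] [Finite G]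
    (p : ℕ) [Fact p.Prime] (H : Subgroup G) (hH : H ≠ ⊤) (hpH : p ∣ Nat.card H)
    (hse : ∀ g : G, g ∉ H → ¬ p ∣ Nat.card ↥(H ⊓ H.map (MulAut.conj g).toMonoidHom))
    (N : Subgroup G) [N.Normal] (hN : p ∣ Nat.card N) :
    H ⊔ Subgroup.closure {g : G | g ∈ N ∧ (orderOf g).Coprime p} = ⊤ := by
  classical
  obtain ⟨S⟩ : Nonempty (Sylow p H) := inferInstance
  obtain ⟨P, hP⟩ := Cfsg.Agent.Lib_helper7_SE.sylow_of_sylow H hpH hse S
  have hPH : (P : Subgroup G) ≤ H := by
    rw [hP]
    rintro _ ⟨x, _, rfl⟩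
    exact x.2
  obtain ⟨Q⟩ : Nonempty (Sylow p N) := inferInstance
  have hQp : IsPGroup p ((Q : Subgroup N).map N.subtype) := Q.isPGroup'.map _
  obtain ⟨P', hP'⟩ := hQp.exists_le_sylow
  obtain ⟨g, hg⟩ := MulAction.exists_smul_eq G P' P
  obtain ⟨Q₂, hQ₂⟩ := Cfsg.Agent.Lib_helper7_Sylow.exists_sylow_conj N Q g
  have hRH : (Q₂ : Subgroup N).map N.subtype ≤ H := by
    rw [hQ₂]
    rintro _ ⟨y, hy, rfl⟩
    apply hPH
    rw [← hg, Sylow.coe_subgroup_smul]
    have := Subgroup.smul_mem_pointwise_smul _ (MulAut.conj g) (P' : Subgroup G) (hP' hy)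
    simpa [MulAut.smul_def, MulAut.conj_apply] using this
  have hRp : IsPGroup p ((Q₂ : Subgroup N).map N.subtype) := Q₂.isPGroup'.map _
  have hR1 : (Q₂ : Subgroup N).map N.subtype ≠ ⊥ := by
    intro h
    have := (Subgroup.map_eq_bot_iff_of_injective _ N.subtype_injective).mp h
    exact Q₂.ne_bot_of_dvd_card hN this
  have hNR := Cfsg.Agent.Lib_helper7_SE.normalizer_le H hse _ hRH hRp hR1
  have hFr := Sylow.normalizer_sup_eq_top Q₂
  have hNle : N ≤ H ⊔ Subgroup.closure {g : G | g ∈ N ∧ (orderOf g).Coprime p} := by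
    intro n hn
    obtain ⟨s, hs, x, hx, hsx⟩ :=
      Cfsg.Agent.Lib_helper7_Sylow.exists_mul_pResidual p Q₂ ⟨n, hn⟩
    have hn' : n = (s : G) * (x : G) := by
      have := congrArg Subtype.val hsx
      simpa using this
    rw [hn']
    apply Subgroup.mul_mem_sup
    · exact hRH ⟨s, hs, rfl⟩
    · have hmap : (Cfsg.pResidual p N).map N.subtype ≤
          Subgroup.closure {g : G | g ∈ N ∧ (orderOf g).Coprime p} := by
        unfold Cfsg.pResidual
        rw [MonoidHom.map_closure]
        apply Subgroup.closure_mono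
        rintro _ ⟨y, hy, rfl⟩
        refine ⟨y.2, ?_⟩
        have hy' : (orderOf y).Coprime p := hy
        show (orderOf (y : G)).Coprime p
        rwa [Subgroup.orderOf_coe]
      exact hmap ⟨x, hx, rfl⟩
  rw [eq_top_iff, ← hFr]
  apply sup_le
  · exact hNR.trans le_sup_left
  · exact hNle

end Cfsg.Agent.S3059
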