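import Cfsg.Statements.S3064
import Cfsg.Agent.Lib_helper1_Basic
import Cfsg.Agent.Lib_helper5_FrobKer

set_option autoImplicit false
open Cfsg

namespace Cfsg.Agent.S3064

theorem isPGroup_zpowers {G : Type*} [Group G] {p : ℕ} [hp : Fact p.Prime] (w : G) (k : ℕ)
    (h : w ^ (p ^ k) = 1) : IsPGroup p (Subgroup.zpowers w) := by
  obtain ⟨j, _, hj⟩ := (Nat.dvd_prime_pow hp.out).mp (orderOf_dvd_of_pow_eq_one h)
  exact IsPGroup.of_card (n := j) (by rw [Nat.card_zpowers, hj])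

theorem iso_in_pgroup {G : Type*} [Group G] [Finite G] {p : ℕ} [Fact p.Prime] (S : Sylow p G)
    (x : G) (hU : ∀ g : G, g⁻¹ * x * g ∈ S → g⁻¹ * x * g = x)
    (T : Subgroup G) (hT : IsPGroup p T) (hxT : x ∈ T) (g : G) (hg : g⁻¹ * x * g ∈ T) :
    g⁻¹ * x * g = x := by
  obtain ⟨S1, hS1⟩ := hT.exists_le_sylow
  obtain ⟨c, hc⟩ := MulAction.exists_smul_eq G S S1
  have h1 : c⁻¹ * x * c ∈ S :=
    (Cfsg.Agent.Lib_helper1_Basic.mem_sylow_smul S c x).mp (by rw [hc]; exact hS1 hxT)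
  have h2 : c⁻¹ * x * c = x := hU c h1
  have h3 : c⁻¹ * (g⁻¹ * x * g) * c ∈ S :=
    (Cfsg.Agent.Lib_helper1_Basic.mem_sylow_smul S c _).mp (by rw [hc]; exact hS1 hg)
  have h4 : (g * c)⁻¹ * x * (g * c) = x := hU (g * c) (by
    have h5 : (g * c)⁻¹ * x * (g * c) = c⁻¹ * (g⁻¹ * x * g) * c := by group
    rw [h5]; exact h3)
  calc g⁻¹ * x * g = c * ((g * c)⁻¹ * x * (g * c)) * c⁻¹ := by group
    _ = c * x * c⁻¹ := by rw [h4]
    _ = c * (c⁻¹ * x * c) * c⁻¹ := by rw [h2]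
    _ = x := by group

theorem decomp {G : Type*} [Group G] [Finite G] {p : ℕ} [hp : Fact p.Prime] (k : G) :
    ∃ u t : G, k = u * t ∧ (∃ a : ℕ, u ^ (p ^ a) = 1) ∧ (∃ m : ℕ, ¬ p ∣ m ∧ t ^ m = 1) ∧
      u ∈ Subgroup.zpowers k ∧ t ∈ Subgroup.zpowers k := by
  have hn0 : orderOf k ≠ 0 := (orderOf_pos k).ne'
  obtain ⟨a, m, hpm, hn⟩ := Nat.exists_eq_pow_mul_and_not_dvd hn0 p hp.out.ne_one
  have hcop : Nat.Coprime (p ^ a) m :=
    Nat.Coprime.pow_left a ((Nat.Prime.coprime_iff_not_dvd hp.out).mpr hpm)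
  have hbz := Int.gcd_eq_gcd_ab ((p ^ a : ℕ) : ℤ) (m : ℤ)
  have hg : Int.gcd ((p ^ a : ℕ) : ℤ) (m : ℤ) = 1 := by
    rw [Int.gcd_natCast_natCast]; exact hcop
  rw [hg] at hbz
  obtain ⟨r, hr⟩ : ∃ r, r = Int.gcdA ((p ^ a : ℕ) : ℤ) (m : ℤ) := ⟨_, rfl⟩
  obtain ⟨s, hs⟩ : ∃ s, s = Int.gcdB ((p ^ a : ℕ) : ℤ) (m : ℤ) := ⟨_, rfl⟩
  rw [← hr, ← hs] at hbz
  refine ⟨k ^ ((m : ℤ) * s), k ^ (((p ^ a : ℕ) : ℤ) * r), ?_, ⟨a, ?_⟩, ⟨m, hpm, ?_⟩,
    ⟨_, rfl⟩, ⟨_, rfl⟩⟩
  · rw [← zpow_add]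
    have h1 : (m : ℤ) * s + ((p ^ a : ℕ) : ℤ) * r = 1 := by
      have h2 := hbz
      push_cast at h2 ⊢
      linarith
    rw [h1, zpow_one]
  · rw [← zpow_natCast, ← zpow_mul]
    have h1 : (m : ℤ) * s * ((p ^ a : ℕ) : ℤ) = ((orderOf k : ℕ) : ℤ) * s := by
      rw [hn]; push_cast; ring
    rw [h1, zpow_mul, zpow_natCast, pow_orderOf_eq_one, one_zpow]
  · rw [← zpow_natCast, ← zpow_mul]
    have h1 : ((p ^ a : ℕ) : ℤ) * r * (m : ℤ) = ((orderOf k : ℕ) : ℤ) * r := by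
      rw [hn]; push_cast; ring
    rw [h1, zpow_mul, zpow_natCast, pow_orderOf_eq_one, one_zpow]

theorem main.{u} {p : ℕ} [hp : Fact p.Prime] : ∀ (n : ℕ) (G : Type u) [Group G] [Finite G],
    Nat.card G = n → ∀ (S : Sylow p G) (x : G), x ∈ S →
    (∀ g : G, g⁻¹ * x * g ∈ S → g⁻¹ * x * g = x) →
    (∀ H : Subgroup G, (Nat.card H).Coprime p → (∀ h ∈ H, x * h * x⁻¹ ∈ H) →
      ∀ h ∈ H, x * h = h * x) →
    ∀ g : G, x * g = g * x := by
  intro n
  induction n using Nat.strong_induction_on with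
  | _ n ih =>
  intro G _ _ hn S x hx hU hb
  by_contra hnc
  simp only [not_forall] at hnc
  obtain ⟨g0, hg0⟩ := hnc
  obtain ⟨k0, hk0⟩ : ∃ k, x ^ (p ^ k) = 1 := by
    obtain ⟨k, hk⟩ := S.isPGroup' ⟨x, hx⟩
    exact ⟨k, congrArg Subtype.val hk⟩
  have step1 : ∀ H : Subgroup G, H ≠ ⊤ → x ∈ H → ∀ h ∈ H, x * h = h * x := by
    intro H hHtop hxH h hh
    have hcard : Nat.card H < n := by
      rw [← hn]
      by_contra hle
      rw [not_lt] at hle
      exact hHtop (Subgroup.eq_top_of_le_card H hle)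
    have hQ0 : IsPGroup p ((S : Subgroup G).comap H.subtype) := S.isPGroup'.comap_subtype
    obtain ⟨SH, hSH⟩ := hQ0.exists_le_sylow
    have hxSH : (⟨x, hxH⟩ : H) ∈ SH := hSH (Subgroup.mem_comap.mpr hx)
    have hTp : IsPGroup p ((SH : Subgroup H).map H.subtype) := SH.isPGroup'.map H.subtype
    have hxT : x ∈ (SH : Subgroup H).map H.subtype := ⟨⟨x, hxH⟩, hxSH, rfl⟩
    have hres := ih _ hcard H rfl SH ⟨x, hxH⟩ hxSH ?_ ?_ ⟨h, hh⟩
    · exact congrArg Subtype.val hres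
    · intro g hg
      apply Subtype.ext
      have h1 := iso_in_pgroup S x hU _ hTp hxT (g : G) ⟨_, hg, rfl⟩
      exact h1
    · intro K hK hKn k hk
      apply Subtype.ext
      have h1 := hb (K.map H.subtype) ?_ ?_ (k : G) ⟨k, hk, rfl⟩
      · exact h1
      · rw [Subgroup.card_map_of_injective H.subtype_injective]; exact hK
      · rintro _ ⟨k', hk', rfl⟩
        exact ⟨_, hKn k' hk', rfl⟩
  obtain ⟨M, hMdef⟩ : ∃ M : Subgroup G, M = Subgroup.centralizer ({x} : Set G) := ⟨_, rfl⟩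
  have hMmem : ∀ m : G, m ∈ M ↔ x * m = m * x := by
    intro m
    rw [hMdef, Subgroup.mem_centralizer_iff]
    simp only [Set.mem_singleton_iff, forall_eq]
  have hxM : x ∈ M := (hMmem x).mpr rfl
  have hg0M : g0 ∉ M := fun h => hg0 ((hMmem g0).mp h)
  have hZM : Subgroup.center G ≤ M := by
    intro z hz
    rw [hMmem]
    exact (Subgroup.mem_center_iff.mp hz x)
  have hxS : ∀ s ∈ (S : Subgroup G), x * s = s * x := by
    intro s hs
    have h1 := hU s ((S : Subgroup G).mul_mem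
      ((S : Subgroup G).mul_mem ((S : Subgroup G).inv_mem hs) hx) hs)
    calc x * s = s * (s⁻¹ * x * s) := by group
      _ = s * x := by rw [h1]
  have claim2 : ∀ g : G, g ∉ M → ∀ u ∈ M, g⁻¹ * u * g ∈ M → u ∈ Subgroup.center G := by
    intro g hg u hu hgu
    by_contra huZ
    obtain ⟨C, hCdef⟩ : ∃ C : Subgroup G, C = Subgroup.centralizer ({u} : Set G) := ⟨_, rfl⟩
    have hCmem : ∀ m : G, m ∈ C ↔ u * m = m * u := by
      intro m
      rw [hCdef, Subgroup.mem_centralizer_iff]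
      simp only [Set.mem_singleton_iff, forall_eq]
    have hCtop : C ≠ ⊤ := by
      intro h
      apply huZ
      rw [Subgroup.mem_center_iff]
      intro w
      have h1 : w ∈ C := by rw [h]; exact Subgroup.mem_top w
      exact ((hCmem w).mp h1).symm
    have hxC : x ∈ C := (hCmem x).mpr ((hMmem u).mp hu).symm
    have hyC : g * x * g⁻¹ ∈ C := by
      rw [hCmem]
      have h1 := (hMmem _).mp hgu
      calc u * (g * x * g⁻¹) = g * ((g⁻¹ * u * g) * x) * g⁻¹ := by group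
        _ = g * (x * (g⁻¹ * u * g)) * g⁻¹ := by rw [h1]
        _ = g * x * g⁻¹ * u := by group
    have hcomm : x * (g * x * g⁻¹) = (g * x * g⁻¹) * x := step1 C hCtop hxC _ hyC
    have hyk : (g * x * g⁻¹) ^ (p ^ k0) = 1 := by rw [conj_pow, hk0]; group
    have hT : IsPGroup p ((Subgroup.zpowers x ⊔ Subgroup.zpowers (g * x * g⁻¹) : Subgroup G)) := by
      apply IsPGroup.to_sup_of_normal_right' (isPGroup_zpowers x k0 hk0)
        (isPGroup_zpowers _ k0 hyk)
      rw [Subgroup.zpowers_le]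
      apply Subgroup.centralizer_le_normalizer
      rw [Subgroup.mem_centralizer_iff]
      intro w hw
      obtain ⟨i, hi⟩ := hw
      rw [← hi]
      exact ((Commute.zpow_left (show Commute (g * x * g⁻¹) x from hcomm.symm) i).eq)
    have h5 := iso_in_pgroup S x hU _ hT (Subgroup.mem_sup_left (Subgroup.mem_zpowers x)) g⁻¹ (by
      have h6 : g⁻¹⁻¹ * x * g⁻¹ = g * x * g⁻¹ := by group
      rw [h6]; exact Subgroup.mem_sup_right (Subgroup.mem_zpowers _))
    apply hg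
    rw [hMmem]
    calc x * g = (g⁻¹⁻¹ * x * g⁻¹) * g := by rw [h5]
      _ = g * x := by group
  obtain ⟨π, hπ⟩ : ∃ π : G →* G ⧸ Subgroup.center G, π = QuotientGroup.mk' (Subgroup.center G) :=
    ⟨_, rfl⟩
  have hπs : Function.Surjective π := hπ ▸ QuotientGroup.mk'_surjective _
  have hπker : ∀ g : G, π g = 1 ↔ g ∈ Subgroup.center G := by
    intro g; rw [hπ]; exact QuotientGroup.eq_one_iff g
  have hmemM : ∀ w : G, π w ∈ M.map π ↔ w ∈ M := by
    intro w
    rw [← Subgroup.mem_comap, Subgroup.comap_map_eq, hπ, QuotientGroup.ker_mk',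
      sup_eq_left.mpr hZM]
  have hFrob : IsFrobeniusComplement (M.map π) := by
    refine ⟨?_, ?_, ?_⟩
    · intro hbot
      have h1 : π x ∈ M.map π := Subgroup.mem_map_of_mem π hxM
      rw [hbot, Subgroup.mem_bot, hπker] at h1
      exact hg0 ((Subgroup.mem_center_iff.mp h1 g0).symm)
    · intro htop
      apply hg0M
      rw [← hmemM, htop]; exact Subgroup.mem_top _
    · intro gb hgb
      obtain ⟨g, rfl⟩ := hπs gb
      have hgM : g ∉ M := fun h => hgb ((hmemM g).mpr h)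
      rw [eq_bot_iff]
      intro wb hwb
      obtain ⟨hw1, hw2⟩ := Subgroup.mem_inf.mp hwb
      obtain ⟨w, rfl⟩ := hπs wb
      rw [Cfsg.Agent.Lib_helper1_Basic.mem_conj_smul] at hw2
      have hw3 : π (g⁻¹ * w * g) ∈ M.map π := by
        rw [map_mul, map_mul, map_inv]; exact hw2
      rw [Subgroup.mem_bot, hπker]
      exact claim2 g hgM w ((hmemM w).mp hw1) ((hmemM _).mp hw3)
  obtain ⟨Kb, -, hKbn, hKc⟩ := Cfsg.Agent.Lib_helper5_FrobKer.frobenius_kernel (M.map π) hFrob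
  haveI := hKbn
  obtain ⟨K, hKdef⟩ : ∃ K : Subgroup G, K = Kb.comap π := ⟨_, rfl⟩
  haveI hKn : K.Normal := by rw [hKdef]; infer_instance
  have hKM : ∀ w ∈ K, w ∈ M → w ∈ Subgroup.center G := by
    intro w hwK hwM
    rw [← hπker]
    have h1 : π w ∈ Kb ⊓ M.map π :=
      Subgroup.mem_inf.mpr ⟨by rw [hKdef] at hwK; exact hwK, (hmemM w).mpr hwM⟩
    rw [hKc.disjoint.eq_bot] at h1
    exact h1
  have hpK : ∀ u ∈ K, ∀ j : ℕ, u ^ (p ^ j) = 1 → u ∈ Subgroup.center G := by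
    intro u hu j huj
    obtain ⟨S1, hS1⟩ := (isPGroup_zpowers u j huj).exists_le_sylow
    obtain ⟨c, hc⟩ := MulAction.exists_smul_eq G S S1
    have h1 : c⁻¹ * u * c ∈ S :=
      (Cfsg.Agent.Lib_helper1_Basic.mem_sylow_smul S c u).mp (by
        rw [hc]; exact hS1 (Subgroup.mem_zpowers u))
    have h2 : c⁻¹ * u * c ∈ M := (hMmem _).mpr (hxS _ h1)
    have h3 : c⁻¹ * u * c ∈ K := by
      have h7 := hKn.conj_mem u hu c⁻¹
      rwa [inv_inv] at h7
    have h4 := hKM _ h3 h2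
    have h5 : u = c⁻¹ * u * c := by
      have h6 := Subgroup.mem_center_iff.mp h4 c
      calc u = c * (c⁻¹ * u * c) * c⁻¹ := by group
        _ = (c⁻¹ * u * c) * c * c⁻¹ := by rw [h6]
        _ = c⁻¹ * u * c := by group
    rw [h5]; exact h4
  obtain ⟨P⟩ : Nonempty (Sylow p K) := inferInstance
  have hPcent : ∀ w ∈ (P : Subgroup K), ∀ v : K, w * v = v * w := by
    intro w hw v
    obtain ⟨j, hj⟩ := P.isPGroup' ⟨w, hw⟩
    have h0 : w ^ (p ^ j) = 1 := congrArg Subtype.val hj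
    have h1 : (w : G) ^ (p ^ j) = 1 := congrArg Subtype.val h0
    have h2 := hpK (w : G) w.2 j h1
    apply Subtype.ext
    exact (Subgroup.mem_center_iff.mp h2 (v : G)).symm
  have hP : Subgroup.normalizer ((P : Subgroup K) : Set K) ≤
      Subgroup.centralizer ((P : Subgroup K) : Set K) := by
    intro v _
    rw [Subgroup.mem_centralizer_iff]
    intro w hw
    exact hPcent w hw v
  obtain ⟨T, hTdef⟩ : ∃ T : Subgroup K, T = (MonoidHom.transferSylow P hP).ker := ⟨_, rfl⟩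
  have hTc : Subgroup.IsComplement' T (P : Subgroup K) := by
    rw [hTdef]; exact MonoidHom.ker_transferSylow_isComplement' P hP
  have hTcard : ¬ p ∣ Nat.card T := by
    rw [← hTc.index_eq_card]; exact P.not_dvd_index
  have hTmem : ∀ (t : K) (m : ℕ), ¬ p ∣ m → t ^ m = 1 → t ∈ T := by
    intro t m hm htm
    rw [hTdef, MonoidHom.mem_ker]
    obtain ⟨j, hj⟩ := P.isPGroup' (MonoidHom.transferSylow P hP t)
    have h1 : (MonoidHom.transferSylow P hP t) ^ m = 1 := by rw [← map_pow, htm, map_one]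
    have h2 : orderOf (MonoidHom.transferSylow P hP t) ∣ Nat.gcd m (p ^ j) :=
      Nat.dvd_gcd (orderOf_dvd_of_pow_eq_one h1) (orderOf_dvd_of_pow_eq_one hj)
    have h3 : Nat.gcd m (p ^ j) = 1 :=
      Nat.Coprime.pow_right j ((Nat.Prime.coprime_iff_not_dvd hp.out).mpr hm).symm
    rw [h3, Nat.dvd_one] at h2
    exact orderOf_eq_one_iff.mp h2
  have hTx : ∀ t ∈ T.map K.subtype, x * t = t * x := by
    apply hb (T.map K.subtype)
    · rw [Subgroup.card_map_of_injective K.subtype_injective]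
      exact ((Nat.Prime.coprime_iff_not_dvd hp.out).mpr hTcard).symm
    · rintro _ ⟨t, ht, rfl⟩
      have h1 : x * (t : G) * x⁻¹ ∈ K := hKn.conj_mem _ t.2 x
      refine ⟨⟨x * (t : G) * x⁻¹, h1⟩, ?_, rfl⟩
      apply hTmem _ (Nat.card T) hTcard
      apply Subtype.ext
      have h2 : (t : K) ^ Nat.card T = 1 := by
        have h4 := pow_card_eq_one' (G := T) (x := ⟨t, ht⟩)
        exact congrArg Subtype.val h4
      have h3 : ((t : K) : G) ^ Nat.card T = 1 := congrArg Subtype.val h2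
      show (x * (t : G) * x⁻¹) ^ Nat.card T = 1
      rw [conj_pow, h3]; group
  have hKleM : ∀ k ∈ K, x * k = k * x := by
    intro k hk
    obtain ⟨u, t, hkut, ⟨a, hua⟩, ⟨m, hm, htm⟩, huz, htz⟩ := decomp (p := p) k
    have huK : u ∈ K := (Subgroup.zpowers_le.mpr hk) huz
    have htK : t ∈ K := (Subgroup.zpowers_le.mpr hk) htz
    have huc := hpK u huK a hua
    have htT : (⟨t, htK⟩ : K) ∈ T := hTmem ⟨t, htK⟩ m hm (Subtype.ext htm)
    have htx : x * t = t * x := hTx t ⟨⟨t, htK⟩, htT, rfl⟩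
    have hux : x * u = u * x := (Subgroup.mem_center_iff.mp huc x)
    rw [hkut, ← mul_assoc, hux, mul_assoc, htx, mul_assoc]
  apply hFrob.2.1
  rw [eq_top_iff, ← hKc.sup_eq_top]
  apply sup_le _ le_rfl
  intro kb hkb
  obtain ⟨k, rfl⟩ := hπs kb
  have hkK : k ∈ K := by rw [hKdef]; exact hkb
  exact (hmemM k).mpr ((hMmem k).mpr (hKleM k hkK))


/-- Let S be a Sylow p-subgroup of the finite group G and x an element of S such that (i) x is the only G-conjugate of x lying in S, and (ii) x centralizes every subgroup of order prime to p that it normalizes. Then x lies in the centre of G. -/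
theorem result {G : Type*} [Group G] [Finite G] {p : ℕ} [Fact p.Prime]
    (S : Sylow p G) (x : G) (hx : x ∈ S)
    (hU : ∀ g : G, g⁻¹ * x * g ∈ S → g⁻¹ * x * g = x)
    (hb : ∀ H : Subgroup G, (Nat.card H).Coprime p → (∀ h ∈ H, x * h * x⁻¹ ∈ H) → ∀ h ∈ H, x * h = h * x) :
    x ∈ Subgroup.center G := by
  rw [Subgroup.mem_center_iff]
  intro g
  exact (main _ G rfl S x hx hU hb g).symm

end Cfsg.Agent.S3064
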