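import Cfsg.Statements.S3799
import Cfsg.Agent.Lib_helper7_HH125
import Cfsg.Agent.Lib_helper7_FratCent
import Cfsg.Agent.Lib_helper1_PGroup

set_option autoImplicit false
open Cfsg

namespace Cfsg.Agent.S3799

universe u

open scoped commutatorElement

structure Heis (n p : ℕ) where
  a : Fin n → ZMod p
  b : Fin n → ZMod p
  c : ZMod p

theorem Heis.ext2 {n p : ℕ} {x y : Heis n p} (ha : x.a = y.a) (hb : x.b = y.b)
    (hc : x.c = y.c) : x = y := by
  cases x; cases y; simp_all

instance heisGroup (n p : ℕ) : Group (Heis n p) where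
  mul x y := ⟨x.a + y.a, x.b + y.b, x.c + y.c + dotProduct x.a y.b⟩
  one := ⟨0, 0, 0⟩
  inv x := ⟨-x.a, -x.b, -x.c + dotProduct x.a x.b⟩
  mul_assoc x y z := by
    apply Heis.ext2
    · show x.a + y.a + z.a = x.a + (y.a + z.a)
      exact add_assoc _ _ _
    · show x.b + y.b + z.b = x.b + (y.b + z.b)
      exact add_assoc _ _ _
    · show x.c + y.c + dotProduct x.a y.b + z.c + dotProduct (x.a + y.a) z.b =
        x.c + (y.c + z.c + dotProduct y.a z.b) + dotProduct x.a (y.b + z.b)
      rw [add_dotProduct, dotProduct_add]; ring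
  one_mul x := by
    apply Heis.ext2
    · show 0 + x.a = x.a
      exact zero_add _
    · show 0 + x.b = x.b
      exact zero_add _
    · show 0 + x.c + dotProduct (0 : Fin n → ZMod p) x.b = x.c
      rw [zero_dotProduct]; ring
  mul_one x := by
    apply Heis.ext2
    · show x.a + 0 = x.a
      exact add_zero _
    · show x.b + 0 = x.b
      exact add_zero _
    · show x.c + 0 + dotProduct x.a (0 : Fin n → ZMod p) = x.c
      rw [dotProduct_zero]; ring
  inv_mul_cancel x := by
    apply Heis.ext2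
    · show -x.a + x.a = 0
      exact neg_add_cancel _
    · show -x.b + x.b = 0
      exact neg_add_cancel _
    · show -x.c + dotProduct x.a x.b + x.c + dotProduct (-x.a) x.b = 0
      rw [neg_dotProduct]; ring

theorem mul_a {n p : ℕ} (x y : Heis n p) : (x * y).a = x.a + y.a := rfl
theorem mul_b {n p : ℕ} (x y : Heis n p) : (x * y).b = x.b + y.b := rfl
theorem mul_c {n p : ℕ} (x y : Heis n p) : (x * y).c = x.c + y.c + dotProduct x.a y.b := rfl
theorem one_a {n p : ℕ} : (1 : Heis n p).a = 0 := rfl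
theorem one_b {n p : ℕ} : (1 : Heis n p).b = 0 := rfl
theorem one_c {n p : ℕ} : (1 : Heis n p).c = 0 := rfl
theorem inv_a {n p : ℕ} (x : Heis n p) : (x⁻¹).a = -x.a := rfl
theorem inv_b {n p : ℕ} (x : Heis n p) : (x⁻¹).b = -x.b := rfl
theorem inv_c {n p : ℕ} (x : Heis n p) : (x⁻¹).c = -x.c + dotProduct x.a x.b := rfl

theorem pow_a {n p : ℕ} (x : Heis n p) (k : ℕ) : (x ^ k).a = (k : ZMod p) • x.a := by
  induction k with
  | zero => rw [pow_zero, one_a, Nat.cast_zero, zero_smul]
  | succ k ih => rw [pow_succ, mul_a, ih, Nat.cast_succ, add_smul, one_smul]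

theorem pow_b {n p : ℕ} (x : Heis n p) (k : ℕ) : (x ^ k).b = (k : ZMod p) • x.b := by
  induction k with
  | zero => rw [pow_zero, one_b, Nat.cast_zero, zero_smul]
  | succ k ih => rw [pow_succ, mul_b, ih, Nat.cast_succ, add_smul, one_smul]

theorem pow_c {n p : ℕ} (x : Heis n p) (k : ℕ) :
    (x ^ k).c = (k : ZMod p) * x.c + ((k.choose 2 : ℕ) : ZMod p) * dotProduct x.a x.b := by
  induction k with
  | zero => rw [pow_zero, one_c]; simp
  | succ k ih =>
    rw [pow_succ, mul_c, ih, pow_a, smul_dotProduct, smul_eq_mul, Nat.choose_succ_succ,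
      Nat.choose_one_right]
    push_cast
    ring

theorem heis_pow_p {n p : ℕ} [Fact p.Prime] (hp : p ≠ 2) (x : Heis n p) : x ^ p = 1 := by
  have hpp := (Fact.out : p.Prime)
  have h2 : 2 < p := lt_of_le_of_ne hpp.two_le (Ne.symm hp)
  have hch : ((p.choose 2 : ℕ) : ZMod p) = 0 :=
    (ZMod.natCast_eq_zero_iff _ _).mpr (hpp.dvd_choose_self (by norm_num) h2)
  apply Heis.ext2
  · rw [pow_a, ZMod.natCast_self, zero_smul, one_a]
  · rw [pow_b, ZMod.natCast_self, zero_smul, one_b]
  · rw [pow_c, ZMod.natCast_self, hch, one_c]; ring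

theorem mem_center_iff' {n p : ℕ} (x : Heis n p) :
    x ∈ Subgroup.center (Heis n p) ↔ x.a = 0 ∧ x.b = 0 := by
  rw [Subgroup.mem_center_iff]
  constructor
  · intro h
    constructor
    · funext i
      have := congrArg Heis.c (h ⟨0, Pi.single i 1, 0⟩)
      rw [mul_c, mul_c] at this
      simpa using this.symm
    · funext i
      have := congrArg Heis.c (h ⟨Pi.single i 1, 0, 0⟩)
      rw [mul_c, mul_c] at this
      simpa using this
  · rintro ⟨ha, hb⟩ g
    apply Heis.ext2
    · rw [mul_a, mul_a, add_comm]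
    · rw [mul_b, mul_b, add_comm]
    · rw [mul_c, mul_c, ha, hb, zero_dotProduct, dotProduct_zero, add_comm g.c]

def heisEquiv (n p : ℕ) : Heis n p ≃ (Fin n → ZMod p) × (Fin n → ZMod p) × ZMod p where
  toFun x := (x.a, x.b, x.c)
  invFun t := ⟨t.1, t.2.1, t.2.2⟩
  left_inv x := by cases x; rfl
  right_inv t := rfl

theorem card_heis (n p : ℕ) [Fact p.Prime] : Nat.card (Heis n p) = p ^ (1 + 2 * n) := by
  rw [Nat.card_congr (heisEquiv n p), Nat.card_prod, Nat.card_prod, Nat.card_fun, Nat.card_zmod,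
    Nat.card_fin]
  ring

instance heisFinite (n p : ℕ) [Fact p.Prime] : Finite (Heis n p) :=
  Finite.of_equiv _ (heisEquiv n p).symm

theorem card_center (n p : ℕ) [Fact p.Prime] : Nat.card (Subgroup.center (Heis n p)) = p := by
  have e : Subgroup.center (Heis n p) ≃ ZMod p :=
    { toFun := fun x => x.1.c
      invFun := fun c => ⟨⟨0, 0, c⟩, (mem_center_iff' _).mpr ⟨rfl, rfl⟩⟩
      left_inv := by
        rintro ⟨x, hx⟩
        apply Subtype.ext
        obtain ⟨ha, hb⟩ := (mem_center_iff' x).mp hx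
        apply Heis.ext2
        · exact ha.symm
        · exact hb.symm
        · rfl
      right_inv := fun c => rfl }
  rw [Nat.card_congr e, Nat.card_zmod]

theorem comm_eq_center (n p : ℕ) (hn : 1 ≤ n) :
    commutator (Heis n p) = Subgroup.center (Heis n p) := by
  apply le_antisymm
  · rw [commutator_def, Subgroup.commutator_le]
    intro g _ h _
    rw [mem_center_iff', commutatorElement_def]
    constructor
    · rw [mul_a, mul_a, mul_a, inv_a, inv_a]; abel
    · rw [mul_b, mul_b, mul_b, inv_b, inv_b]; abel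
  · intro x hx
    obtain ⟨ha, hb⟩ := (mem_center_iff' x).mp hx
    obtain ⟨i₀⟩ : Nonempty (Fin n) := ⟨⟨0, by omega⟩⟩
    have hx2 : x = ⁅(⟨Pi.single i₀ x.c, 0, 0⟩ : Heis n p), ⟨0, Pi.single i₀ 1, 0⟩⁆ := by
      rw [commutatorElement_def]
      apply Heis.ext2
      · rw [ha, mul_a, mul_a, mul_a, inv_a, inv_a]; simp
      · rw [hb, mul_b, mul_b, mul_b, inv_b, inv_b]; simp
      · simp only [mul_a, mul_b, mul_c, inv_a, inv_b, inv_c]
        simp
    rw [hx2, commutator_def]
    exact Subgroup.commutator_mem_commutator (Subgroup.mem_top _) (Subgroup.mem_top _)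

theorem extraspecial_crit {P : Type*} [Group P] [Finite P] {p : ℕ} [Fact p.Prime]
    (hP : IsPGroup p P) (hcomm : commutator P = Subgroup.center P)
    (hexp : ∀ x : P, x ^ p ∈ Subgroup.center P)
    (hZ : Nat.card (Subgroup.center P) = p) : Cfsg.IsExtraspecial p P := by
  refine ⟨⟨hP, ?_, hcomm⟩, hZ⟩
  apply le_antisymm
  · exact Cfsg.Agent.Lib_helper7_FratCent.frattini_le_of_elementary_quotient _ hcomm.le hexp
  · rw [← hcomm]; exact Cfsg.Agent.Lib_helper1_PGroup.commutator_le_frattini hP

theorem heis_extraspecial (n p : ℕ) [Fact p.Prime] (hp : p ≠ 2) (hn : 1 ≤ n) :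
    Cfsg.IsExtraspecial p (Heis n p) := by
  apply extraspecial_crit (IsPGroup.of_card (card_heis n p)) (comm_eq_center n p hn)
  · intro x; rw [heis_pow_p hp]; exact Subgroup.one_mem _
  · exact card_center n p

theorem extraspecial_equiv {A : Type*} {B : Type*} [Group A] [Group B] (e : A ≃* B) {p : ℕ}
    (h : Cfsg.IsExtraspecial p A) : Cfsg.IsExtraspecial p B := by
  obtain ⟨⟨hP, hΦ, hC⟩, hZ⟩ := h
  have hcen : ∀ x : A, e x ∈ Subgroup.center B ↔ x ∈ Subgroup.center A := by
    intro x
    rw [Subgroup.mem_center_iff, Subgroup.mem_center_iff]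
    constructor
    · intro hx g
      apply e.injective
      rw [map_mul, map_mul]; exact hx (e g)
    · intro hx g
      obtain ⟨g', rfl⟩ := e.surjective g
      rw [← map_mul, ← map_mul, hx g']
  have hcomm : ∀ x : A, e x ∈ commutator B ↔ x ∈ commutator A := by
    intro x
    have hmap : (commutator A).map e.toMonoidHom = commutator B := by
      rw [commutator_def, commutator_def, Subgroup.map_commutator,
        Subgroup.map_top_of_surjective _ e.surjective]
    rw [← hmap]
    constructor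
    · rintro ⟨y, hy, hyx⟩
      have : y = x := e.injective hyx
      rw [← this]; exact hy
    · intro hx; exact ⟨x, hx, rfl⟩
  refine ⟨⟨hP.of_equiv e, ?_, ?_⟩, ?_⟩
  · ext y
    obtain ⟨x, rfl⟩ := e.surjective y
    rw [Cfsg.Agent.Lib_helper7_HH125.mem_frattini_equiv e x, hcen, hΦ]
  · ext y
    obtain ⟨x, rfl⟩ := e.surjective y
    rw [hcomm, hcen, hC]
  · rw [← hZ]
    apply Nat.card_congr
    exact
      { toFun := fun y => ⟨e.symm y.1, (hcen _).mp (by rw [e.apply_symm_apply]; exact y.2)⟩
        invFun := fun x => ⟨e x.1, (hcen _).mpr x.2⟩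
        left_inv := fun y => Subtype.ext (e.apply_symm_apply _)
        right_inv := fun x => Subtype.ext (e.symm_apply_apply _) }

noncomputable def actLin {n p : ℕ} (x : Heis n p) :
    (ZMod p × (Fin n → ZMod p) × ZMod p) →ₗ[ZMod p] (ZMod p × (Fin n → ZMod p) × ZMod p) where
  toFun v := (v.1 + dotProduct x.a v.2.1 + x.c * v.2.2, v.2.1 + v.2.2 • x.b, v.2.2)
  map_add' v w := by
    refine Prod.ext ?_ (Prod.ext ?_ ?_)
    · simp only [Prod.fst_add, Prod.snd_add, dotProduct_add]; ring
    · simp only [Prod.fst_add, Prod.snd_add, add_smul]; abel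
    · simp only [Prod.snd_add]
  map_smul' r v := by
    refine Prod.ext ?_ (Prod.ext ?_ ?_)
    · simp only [Prod.smul_fst, Prod.smul_snd, dotProduct_smul, smul_eq_mul, RingHom.id_apply]
      ring
    · simp only [Prod.smul_fst, Prod.smul_snd, smul_eq_mul, RingHom.id_apply, smul_add, mul_smul]
    · simp only [Prod.smul_snd, smul_eq_mul, RingHom.id_apply]

theorem actLin_apply {n p : ℕ} (x : Heis n p) (v : ZMod p × (Fin n → ZMod p) × ZMod p) :
    actLin x v = (v.1 + dotProduct x.a v.2.1 + x.c * v.2.2, v.2.1 + v.2.2 • x.b, v.2.2) := rfl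

theorem actLin_one {n p : ℕ} : actLin (1 : Heis n p) = LinearMap.id := by
  apply LinearMap.ext; intro v
  rw [actLin_apply, one_a, one_b, one_c]
  simp

theorem actLin_mul {n p : ℕ} (x y : Heis n p) :
    actLin (x * y) = (actLin x).comp (actLin y) := by
  apply LinearMap.ext; intro v
  rw [LinearMap.comp_apply, actLin_apply, actLin_apply, actLin_apply, mul_a, mul_b, mul_c]
  refine Prod.ext ?_ (Prod.ext ?_ ?_)
  · simp only [add_dotProduct, dotProduct_add, dotProduct_smul, smul_eq_mul]; ring
  · simp only [smul_add]; abel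
  · rfl

theorem actLin_inj {n p : ℕ} [Fact p.Prime] :
    Function.Injective (actLin : Heis n p → _) := by
  intro x y h
  apply Heis.ext2
  · funext i
    have := congrArg (fun f => (f ((0 : ZMod p), (Pi.single i (1 : ZMod p) : Fin n → ZMod p),
      (0 : ZMod p))).1) h
    simpa [actLin_apply] using this
  · have := congrArg (fun f => (f ((0 : ZMod p), (0 : Fin n → ZMod p), (1 : ZMod p))).2.1) h
    simpa [actLin_apply] using this
  · have := congrArg (fun f => (f ((0 : ZMod p), (0 : Fin n → ZMod p), (1 : ZMod p))).1) h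
    simpa [actLin_apply] using this

theorem exists_hom (n p : ℕ) [Fact p.Prime] :
    ∃ ψ : Heis n p →* Matrix.GeneralLinearGroup (Fin (n + 2)) (ZMod p),
      Function.Injective ψ := by
  classical
  have hrank : Module.finrank (ZMod p) (ZMod p × (Fin n → ZMod p) × ZMod p) = n + 2 := by
    simp only [Module.finrank_prod, Module.finrank_self, Module.finrank_fin_fun]
    omega
  obtain ⟨bV⟩ : Nonempty (Module.Basis (Fin (n + 2)) (ZMod p)
      (ZMod p × (Fin n → ZMod p) × ZMod p)) := ⟨Module.finBasisOfFinrankEq _ _ hrank⟩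
  obtain ⟨ψ₀, hψ₀⟩ : ∃ ψ₀ : Heis n p →* Matrix (Fin (n + 2)) (Fin (n + 2)) (ZMod p),
      ∀ x, ψ₀ x = LinearMap.toMatrixAlgEquiv bV (actLin x) :=
    ⟨{ toFun := fun x => LinearMap.toMatrixAlgEquiv bV (actLin x)
       map_one' := by
         rw [actLin_one]
         exact map_one (LinearMap.toMatrixAlgEquiv bV)
       map_mul' := by
         intro x y
         rw [actLin_mul]
         exact map_mul (LinearMap.toMatrixAlgEquiv bV) (actLin x) (actLin y) }, fun x => rfl⟩
  refine ⟨ψ₀.toHomUnits, ?_⟩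
  intro x y h
  have h2 := congrArg Units.val h
  rw [MonoidHom.coe_toHomUnits, MonoidHom.coe_toHomUnits, hψ₀, hψ₀] at h2
  exact actLin_inj ((LinearMap.toMatrixAlgEquiv bV).injective h2)


/-- For every odd prime p and every n ≥ 1 there is an extraspecial p-group of order p^(1+2n) and exponent p; concretely, the general linear group of degree n + 2 over the field with p elements contains such a subgroup. -/
theorem result (p : ℕ) [Fact p.Prime] (hp : p ≠ 2) (n : ℕ) (hn : 1 ≤ n) : ∃ E : Subgroup (Matrix.GeneralLinearGroup (Fin (n + 2)) (ZMod p)), Cfsg.IsExtraspecial p ↥E ∧ Nat.card E = p ^ (1 + 2 * n) ∧ ∀ x ∈ E, x ^ p = 1 := by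
  classical
  obtain ⟨ψ, hψ⟩ := exists_hom n p
  refine ⟨ψ.range, ?_, ?_, ?_⟩
  · exact extraspecial_equiv (MonoidHom.ofInjective hψ) (heis_extraspecial n p hp hn)
  · rw [← Nat.card_congr (MonoidHom.ofInjective hψ).toEquiv]
    exact card_heis n p
  · rintro x ⟨h, rfl⟩
    rw [← map_pow, heis_pow_p hp, map_one]

end Cfsg.Agent.S3799
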