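import Cfsg.Statements.S3074
import Cfsg.Agent.S3799

set_option autoImplicit false
open Cfsg

namespace Cfsg.Agent.S3074

universe u

open Cfsg.Agent.S3799

noncomputable def hmat (p : ℕ) (x : Heis 1 p) : Matrix (Fin 3) (Fin 3) (ZMod p) :=
  !![1, x.a 0, x.c; 0, 1, x.b 0; 0, 0, 1]

theorem hmat_det (p : ℕ) (x : Heis 1 p) : (hmat p x).det = 1 := by
  rw [Matrix.det_fin_three]; simp [hmat]

theorem hmat_mul (p : ℕ) (x y : Heis 1 p) : hmat p (x * y) = hmat p x * hmat p y := by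
  ext i j
  fin_cases i <;> fin_cases j <;>
    simp [hmat, Matrix.mul_apply, Fin.sum_univ_three, mul_a, mul_b, mul_c, dotProduct] <;> ring

theorem hmat_one (p : ℕ) : hmat p 1 = 1 := by
  ext i j
  fin_cases i <;> fin_cases j <;> simp [hmat, one_a, one_b, one_c]

noncomputable def thetaSL (p : ℕ) : Heis 1 p →* Matrix.SpecialLinearGroup (Fin 3) (ZMod p) where
  toFun x := ⟨hmat p x, hmat_det p x⟩
  map_one' := by apply Subtype.ext; exact hmat_one p
  map_mul' x y := by apply Subtype.ext; exact hmat_mul p x y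

theorem thetaSL_coe (p : ℕ) (x : Heis 1 p) :
    ((thetaSL p x : Matrix.SpecialLinearGroup (Fin 3) (ZMod p)) :
      Matrix (Fin 3) (Fin 3) (ZMod p)) = hmat p x := rfl

theorem thetaSL_mem (p : ℕ) (x : Heis 1 p) : thetaSL p x ∈ Cfsg.qd p := by
  apply Subgroup.subset_closure
  refine ⟨?_, ?_, ?_⟩ <;> rw [thetaSL_coe] <;> simp [hmat]

theorem thetaSL_inj (p : ℕ) : Function.Injective (thetaSL p) := by
  intro x y h
  have h2 : hmat p x = hmat p y := congrArg Subtype.val h
  apply Heis.ext2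
  · funext i
    fin_cases i
    have := congrFun (congrFun h2 0) 1
    simpa [hmat] using this
  · funext i
    fin_cases i
    have := congrFun (congrFun h2 1) 2
    simpa [hmat] using this
  · have := congrFun (congrFun h2 0) 2
    simpa [hmat] using this

theorem arith (p k : ℕ) (hp : p.Prime)
    (h : p ^ k ∣ (p ^ 3 - p ^ 0) * (p ^ 3 - p ^ 1) * (p ^ 3 - p ^ 2)) : k ≤ 3 := by
  have e1 : p ^ 3 - p ^ 1 = p * (p ^ 2 - 1) := by
    rw [Nat.mul_sub, mul_one, pow_one]; congr 1; ring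
  have e2 : p ^ 3 - p ^ 2 = p ^ 2 * (p - 1) := by
    rw [Nat.mul_sub, mul_one, ← pow_succ]
  have e0 : p ^ 3 - p ^ 0 = p ^ 3 - 1 := by rw [pow_zero]
  rw [e0, e1, e2] at h
  have h' : p ^ k ∣ p ^ 3 * ((p ^ 3 - 1) * (p ^ 2 - 1) * (p - 1)) := by
    have : (p ^ 3 - 1) * (p * (p ^ 2 - 1)) * (p ^ 2 * (p - 1)) =
        p ^ 3 * ((p ^ 3 - 1) * (p ^ 2 - 1) * (p - 1)) := by ring
    rwa [this] at h
  have hnd : ∀ j : ℕ, ¬ p ∣ p ^ (j + 1) - 1 := by
    intro j hj
    have h1 : p ∣ p ^ (j + 1) := dvd_pow_self p (Nat.succ_ne_zero j)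
    have h3 := Nat.dvd_sub h1 hj
    have h4 : 1 ≤ p ^ (j + 1) := Nat.one_le_pow _ _ hp.pos
    have h5 : p ^ (j + 1) - (p ^ (j + 1) - 1) = 1 := by omega
    rw [h5] at h3
    exact hp.one_lt.ne' (Nat.dvd_one.mp h3)
  have hcop : Nat.Coprime (p ^ k) ((p ^ 3 - 1) * (p ^ 2 - 1) * (p - 1)) := by
    apply Nat.Coprime.pow_left
    rw [Nat.Prime.coprime_iff_not_dvd hp]
    intro hd
    rcases (Nat.Prime.dvd_mul hp).mp hd with hd | hd
    · rcases (Nat.Prime.dvd_mul hp).mp hd with hd | hd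
      · exact hnd 2 hd
      · exact hnd 1 hd
    · exact hnd 0 (by simpa using hd)
  have h3 : p ^ k ∣ p ^ 3 := hcop.dvd_of_dvd_mul_right h'
  exact (Nat.pow_dvd_pow_iff_le_right hp.one_lt).mp h3


/-- Let p be an odd prime. A Sylow p-subgroup of Qd(p), the split extension of an elementary abelian group of order p² by SL₂(p) acting naturally, is extraspecial of order p³ and exponent p. -/
theorem result (p : ℕ) [Fact p.Prime] (hp : p ≠ 2) (P : Sylow p ↥(Cfsg.qd p)) :
    Cfsg.IsExtraspecial p ↥P ∧ Nat.card P = p ^ 3 ∧ Monoid.exponent ↥P = p := by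
  classical
  have hpp := (Fact.out : p.Prime)
  obtain ⟨θ, hθ⟩ : ∃ θ : Heis 1 p →* ↥(Cfsg.qd p), Function.Injective θ :=
    ⟨(thetaSL p).codRestrict (Cfsg.qd p) (thetaSL_mem p), by
      intro x y h
      apply thetaSL_inj p
      exact congrArg Subtype.val h⟩
  have hR : Nat.card θ.range = p ^ 3 := by
    rw [← Nat.card_congr (MonoidHom.ofInjective hθ).toEquiv, card_heis 1 p]
  have hcard : ∀ P : Sylow p ↥(Cfsg.qd p), Nat.card P = p ^ 3 := by
    intro P
    have hP3 : p ^ 3 ∣ Nat.card P := by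
      apply P.pow_dvd_card_of_pow_dvd_card
      rw [← hR]; exact Subgroup.card_subgroup_dvd_card _
    obtain ⟨k, hk⟩ := IsPGroup.iff_card.mp P.isPGroup'
    have hk3 : k ≤ 3 := by
      have h1 : Nat.card P ∣ Nat.card (Matrix.GeneralLinearGroup (Fin 3) (ZMod p)) := by
        have hinj : Function.Injective
            ((Matrix.SpecialLinearGroup.toGL).comp
              ((Cfsg.qd p).subtype.comp (P : Subgroup (Cfsg.qd p)).subtype)) := by
          intro x y h
          have h2 := Matrix.SpecialLinearGroup.toGL_injective h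
          exact Subtype.ext (Subtype.ext h2)
        exact Subgroup.card_dvd_of_injective _ hinj
      rw [Matrix.card_GL_field, hk, Fin.prod_univ_three, ZMod.card] at h1
      exact arith p k hpp h1
    rw [hk] at hP3 ⊢
    have hk3' : 3 ≤ k := (Nat.pow_dvd_pow_iff_le_right hpp.one_lt).mp hP3
    rw [le_antisymm hk3 hk3']
  obtain ⟨Q, hQ⟩ := (IsPGroup.of_card hR).exists_le_sylow
  have hRQ : θ.range = (Q : Subgroup (Cfsg.qd p)) :=
    Subgroup.eq_of_le_of_card_ge hQ (by rw [hcard Q, hR])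
  obtain ⟨e⟩ : Nonempty (Heis 1 p ≃* ↥(P : Subgroup (Cfsg.qd p))) :=
    ⟨(MonoidHom.ofInjective hθ).trans ((MulEquiv.subgroupCongr hRQ).trans (Sylow.equiv Q P))⟩
  refine ⟨extraspecial_equiv e (heis_extraspecial 1 p hp le_rfl), hcard P, ?_⟩
  haveI : Nontrivial ↥(P : Subgroup (Cfsg.qd p)) := by
    apply (Finite.one_lt_card_iff_nontrivial).mp
    rw [hcard P]; exact Nat.one_lt_pow (by norm_num) hpp.one_lt
  rw [Monoid.exponent_eq_prime_iff hpp]
  intro g hg
  obtain ⟨h, rfl⟩ := e.surjective g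
  apply orderOf_eq_prime
  · rw [← map_pow, heis_pow_p hp, map_one]
  · exact hg

end Cfsg.Agent.S3074
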