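import Cfsg.Statements.S3155
import Mathlib

set_option autoImplicit false
open Cfsg

namespace Cfsg.Agent.S3155

/-- Let B be the direct product of three cyclic groups of order 4. Then the automorphism of B inverting every element is not the square of any automorphism of B. -/
theorem result {B : Type*} [CommGroup B] [Finite B] (hB : Nonempty (B ≃* Multiplicative (ZMod 4 × ZMod 4 × ZMod 4)))
    (τ : B ≃* B) : τ.trans τ ≠ MulEquiv.inv B := by
  intro hττ
  obtain ⟨e⟩ := hB
  have : Fact (1 < 4) := ⟨by norm_num⟩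
  have hτ2 : ∀ b : B, τ (τ b) = b⁻¹ := by
    intro b
    have := DFunLike.congr_fun hττ b
    simpa using this
  let f : (ZMod 4 × ZMod 4 × ZMod 4) →+ (ZMod 4 × ZMod 4 × ZMod 4) :=
    { toFun := fun v => Multiplicative.toAdd (e (τ (e.symm (Multiplicative.ofAdd v))))
      map_zero' := by simp
      map_add' := by intros; simp }
  have hff : ∀ v, f (f v) = -v := by
    intro v
    show Multiplicative.toAdd (e (τ (e.symm (Multiplicative.ofAdd
      (Multiplicative.toAdd (e (τ (e.symm (Multiplicative.ofAdd v))))))))) = -v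
    rw [ofAdd_toAdd, MulEquiv.symm_apply_apply, hτ2, map_inv, MulEquiv.apply_symm_apply]
    rfl
  let L : (ZMod 4 × ZMod 4 × ZMod 4) →ₗ[ZMod 4] (ZMod 4 × ZMod 4 × ZMod 4) := f.toZModLinearMap 4
  have hLL : L.comp L = (-1 : ZMod 4) • LinearMap.id := by
    apply LinearMap.ext
    intro v
    show f (f v) = (-1 : ZMod 4) • v
    rw [hff, neg_one_smul]
  have hdet := congrArg LinearMap.det hLL
  rw [LinearMap.det_comp, LinearMap.det_smul, LinearMap.det_id] at hdet
  have hrank : Module.finrank (ZMod 4) (ZMod 4 × ZMod 4 × ZMod 4) = 3 := by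
    simp [Module.finrank_prod]
  rw [hrank] at hdet
  have key : ∀ d : ZMod 4, d * d ≠ (-1) ^ 3 * 1 := by decide
  exact key _ hdet

end Cfsg.Agent.S3155
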