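import Cfsg.Statements.S3180
import Cfsg.Agent.Lib_helper9_PGroup

set_option autoImplicit false
open Cfsg

namespace Cfsg.Agent.S3180

open Cfsg.Agent.Lib_helper9_PGroup

/-- Let P be a Sylow p-subgroup of a finite group J and P₁ a subgroup of P that is weakly closed in P with respect to J. If J acts on a set and two points, each fixed by every element of P₁, lie in one J-orbit, then they lie in one orbit of the normalizer of P₁ in J. -/
theorem result {J : Type*} [Group J] [Finite J]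
    {p : ℕ} [Fact p.Prime] (P : Sylow p J) (P₁ : Subgroup J) (hW : Cfsg.IsWeaklyClosed P₁ (P : Subgroup J))
    {Ω : Type*} [MulAction J Ω] (x y : Ω) (hx : ∀ g ∈ P₁, g • x = x) (hy : ∀ g ∈ P₁, g • y = y)
    (hc : ∃ g : J, g • x = y) :
    ∃ g ∈ Subgroup.normalizer (P₁ : Set J), g • x = y := by
  obtain ⟨g, rfl⟩ := hc
  obtain ⟨hle, hwc⟩ := hW
  have hP1 : IsPGroup p P₁ := P.isPGroup'.to_le hle
  have hP2 : IsPGroup p (P₁.map (MulAut.conj g⁻¹).toMonoidHom) := hP1.map _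
  have h1 : P₁ ≤ MulAction.stabilizer J x := fun a ha => hx a ha
  have h2 : P₁.map (MulAut.conj g⁻¹).toMonoidHom ≤ MulAction.stabilizer J x := by
    rintro _ ⟨a, ha, rfl⟩
    rw [MulAction.mem_stabilizer_iff]
    have h3 := hy a ha
    show (g⁻¹ * a * g⁻¹⁻¹) • x = x
    rw [inv_inv, mul_smul, mul_smul, h3, inv_smul_smul]
  obtain ⟨S, hS, hS1, h, hhK, hh⟩ := exists_common_pgroup _ _ _ h1 h2 hP1 hP2
  obtain ⟨k, hk⟩ := exists_conj_le_sylow P S hS
  have e1 : P₁.map (MulAut.conj k).toMonoidHom = P₁ := by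
    apply hwc
    rintro _ ⟨a, ha, rfl⟩
    exact hk a (hS1 ha)
  have e2 : P₁.map (MulAut.conj (k * h * g⁻¹)).toMonoidHom = P₁ := by
    apply hwc
    rintro _ ⟨a, ha, rfl⟩
    have h4 := hk _ (hh _ ⟨a, ha, rfl⟩)
    show (k * h * g⁻¹) * a * (k * h * g⁻¹)⁻¹ ∈ (P : Subgroup J)
    have h5 : (k * h * g⁻¹) * a * (k * h * g⁻¹)⁻¹ = k * (h * (g⁻¹ * a * g⁻¹⁻¹) * h⁻¹) * k⁻¹ := by
      group
    rw [h5]; exact h4
  have n1 : k ∈ Subgroup.normalizer (P₁ : Set J) := Subgroup.mem_normalizer_iff_map_conj_eq.mpr e1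
  have n2 : k * h * g⁻¹ ∈ Subgroup.normalizer (P₁ : Set J) :=
    Subgroup.mem_normalizer_iff_map_conj_eq.mpr e2
  refine ⟨(k * h * g⁻¹)⁻¹ * k, Subgroup.mul_mem _ (Subgroup.inv_mem _ n2) n1, ?_⟩
  have h6 : (k * h * g⁻¹)⁻¹ * k = g * h⁻¹ := by group
  rw [h6, mul_smul]
  congr 1
  rw [inv_smul_eq_iff]; exact (MulAction.mem_stabilizer_iff.mp hhK).symm

end Cfsg.Agent.S3180
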