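import Cfsg.Statements.S3208
import Cfsg.Agent.Lib_helper9_PGroup

set_option autoImplicit false
open Cfsg

namespace Cfsg.Agent.S3208

open Cfsg.Agent.Lib_helper9_PGroup

/-- Let j be an involution of a finite group G, H a subgroup of G, and T a Sylow 2-subgroup of H ∩ C_G(j) containing j such that ⟨j⟩ is a characteristic subgroup of T. Then T is a Sylow 2-subgroup of H. -/
theorem result {G : Type*} [Group G] [Finite G]
    (j : G) (hj : orderOf j = 2) (H T : Subgroup G) (hT : T ≤ H ⊓ Subgroup.centralizer ({j} : Set G)) (h2 : IsPGroup 2 ↥T)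
    (hSyl : ¬ 2 ∣ T.relIndex (H ⊓ Subgroup.centralizer ({j} : Set G))) (hjT : j ∈ T)
    (hchar : ((Subgroup.zpowers j).subgroupOf T).Characteristic) :
    ¬ 2 ∣ T.relIndex H := by
  intro hdvd
  have hTH : T ≤ H := hT.trans inf_le_left
  have hp1 : IsPGroup 2 (T.subgroupOf H) := h2.comap_subtype
  have : Fact (Nat.Prime 2) := ⟨Nat.prime_two⟩
  have hdvd' : 2 ∣ (T.subgroupOf H).index := hdvd
  obtain ⟨x, hxN, hxT, hxp⟩ := (dvd_index_iff_exists _ hp1).mp hdvd'
  have hyT : (x : G) ∉ T := fun h => hxT (Subgroup.mem_subgroupOf.mpr h)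
  have hy2 : (x : G) ^ 2 ∈ T := by
    have := Subgroup.mem_subgroupOf.mp hxp
    simpa using this
  have hyN : ∀ t ∈ T, (x : G) * t * (x : G)⁻¹ ∈ T := by
    intro t ht
    have := (Subgroup.mem_normalizer_iff.mp hxN ⟨t, hTH ht⟩).mp (Subgroup.mem_subgroupOf.mpr ht)
    exact Subgroup.mem_subgroupOf.mp this
  have hyN' : ∀ t ∈ T, (x : G)⁻¹ * t * (x : G) ∈ T := by
    intro t ht
    have h := (Subgroup.mem_normalizer_iff.mp (Subgroup.inv_mem _ hxN) ⟨t, hTH ht⟩).mp
      (Subgroup.mem_subgroupOf.mpr ht)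
    have := Subgroup.mem_subgroupOf.mp h
    simpa using this
  let φ : ↥T ≃* ↥T :=
    { toFun := fun t => ⟨(x:G) * t * (x:G)⁻¹, hyN t t.2⟩
      invFun := fun t => ⟨(x:G)⁻¹ * t * (x:G), hyN' t t.2⟩
      left_inv := fun t => by ext; simp [mul_assoc]
      right_inv := fun t => by ext; simp [mul_assoc]
      map_mul' := fun s t => by ext; simp [mul_assoc] }
  have hφ := hchar.fixed φ
  have hjmem : (⟨j, hjT⟩ : T) ∈ (Subgroup.zpowers j).subgroupOf T :=
    Subgroup.mem_subgroupOf.mpr (Subgroup.mem_zpowers j)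
  rw [← hφ] at hjmem
  have hconj : (x : G) * j * (x : G)⁻¹ ∈ Subgroup.zpowers j := by
    have := Subgroup.mem_comap.mp hjmem
    exact Subgroup.mem_subgroupOf.mp this
  obtain ⟨k, hk⟩ := Subgroup.mem_zpowers_iff.mp hconj
  have hj2 : j ^ 2 = 1 := by rw [← hj]; exact pow_orderOf_eq_one j
  have hj1 : j ≠ 1 := by
    intro h; rw [h, orderOf_one] at hj; omega
  have hcomm : (x : G) * j * (x : G)⁻¹ = j := by
    rcases Int.emod_two_eq_zero_or_one k with h | h
    · have h3 : j ^ k = 1 := by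
        obtain ⟨m, rfl⟩ : ∃ m, k = 2 * m := ⟨k / 2, by omega⟩
        rw [zpow_mul, zpow_ofNat, hj2, one_zpow]
      rw [h3] at hk
      exfalso; apply hj1
      have h4 : j = (x:G)⁻¹ * ((x:G) * j * (x:G)⁻¹) * (x:G) := by group
      rw [h4, ← hk]; group
    · have h3 : j ^ k = j := by
        obtain ⟨m, rfl⟩ : ∃ m, k = 2 * m + 1 := ⟨k / 2, by omega⟩
        rw [zpow_add, zpow_mul, zpow_ofNat, hj2, one_zpow, one_mul, zpow_one]
      rw [← hk, h3]
  have hxK : (x : G) ∈ H ⊓ Subgroup.centralizer ({j} : Set G) := by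
    refine ⟨x.2, Subgroup.mem_centralizer_iff.mpr ?_⟩
    intro g hg
    rw [Set.mem_singleton_iff] at hg; subst hg
    have h5 : (x:G) * g = g * x := by
      calc (x:G) * g = (x:G) * g * (x:G)⁻¹ * x := by group
        _ = g * x := by rw [hcomm]
    exact h5.symm
  apply hSyl
  show 2 ∣ (T.subgroupOf (H ⊓ Subgroup.centralizer ({j} : Set G))).index
  have hp2 : IsPGroup 2 (T.subgroupOf (H ⊓ Subgroup.centralizer ({j} : Set G))) := h2.comap_subtype
  rw [dvd_index_iff_exists _ hp2]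
  refine ⟨⟨x, hxK⟩, ?_, ?_, ?_⟩
  · rw [Subgroup.mem_normalizer_iff]
    intro h
    rw [Subgroup.mem_subgroupOf, Subgroup.mem_subgroupOf]
    constructor
    · intro hh; exact hyN _ hh
    · intro hh
      have := hyN' _ hh
      simpa [mul_assoc] using this
  · intro h; exact hyT (Subgroup.mem_subgroupOf.mp h)
  · rw [Subgroup.mem_subgroupOf]; simpa using hy2

end Cfsg.Agent.S3208
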