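import Cfsg.Statements.S3305
import Mathlib

set_option autoImplicit false
open Cfsg

namespace Cfsg.Agent.S3305

theorem aux_sylow_lift {G : Type*} [Group G] [Finite G] (p : ℕ) [Fact p.Prime] (H : Subgroup G)
    [H.Normal] (Sb : Sylow p (G ⧸ H)) (R : Subgroup G) (hR : IsPGroup p R)
    (hRS : R ≤ (Sb : Subgroup (G ⧸ H)).comap (QuotientGroup.mk' H)) :
    ∃ S₁ : Sylow p G, R ≤ S₁ ∧ (S₁ : Subgroup G).map (QuotientGroup.mk' H) = Sb := by
  have hsurj : Function.Surjective (QuotientGroup.mk' H) := QuotientGroup.mk'_surjective H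
  have hRA : IsPGroup p (R.subgroupOf ((Sb : Subgroup (G ⧸ H)).comap (QuotientGroup.mk' H))) :=
    hR.comap_subtype
  obtain ⟨S₁', hS₁'⟩ := hRA.exists_le_sylow
  have hp1 : IsPGroup p ((S₁' : Subgroup _).map
      ((Sb : Subgroup (G ⧸ H)).comap (QuotientGroup.mk' H)).subtype) := S₁'.isPGroup'.map _
  have hidx : ¬ p ∣ ((S₁' : Subgroup _).map
      ((Sb : Subgroup (G ⧸ H)).comap (QuotientGroup.mk' H)).subtype).index := by
    rw [Subgroup.index_map_subtype]
    intro h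
    rcases (Nat.Prime.dvd_mul (Fact.out)).mp h with h1 | h1
    · exact S₁'.not_dvd_index h1
    · rw [Subgroup.index_comap_of_surjective _ hsurj] at h1
      exact Sb.not_dvd_index h1
  refine ⟨hp1.toSylow hidx, ?_, ?_⟩
  · intro x hx
    show x ∈ (hp1.toSylow hidx : Subgroup G)
    rw [IsPGroup.toSylow_coe]
    exact ⟨⟨x, hRS hx⟩, hS₁' (Subgroup.mem_subgroupOf.mpr hx), rfl⟩
  · rw [IsPGroup.toSylow_coe]
    have h1 : ((S₁' : Subgroup _).map
        ((Sb : Subgroup (G ⧸ H)).comap (QuotientGroup.mk' H)).subtype).map (QuotientGroup.mk' H) ≤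
          Sb := by
      rintro _ ⟨_, ⟨a, -, rfl⟩, rfl⟩
      exact a.2
    have h2 := ((hp1.toSylow hidx).mapSurjective hsurj).is_maximal' Sb.isPGroup' (by
      rw [Sylow.coe_mapSurjective, IsPGroup.toSylow_coe]; exact h1)
    have h3 : ((hp1.toSylow hidx).mapSurjective hsurj : Subgroup (G ⧸ H)) =
        ((S₁' : Subgroup _).map
          ((Sb : Subgroup (G ⧸ H)).comap (QuotientGroup.mk' H)).subtype).map
            (QuotientGroup.mk' H) := by
      rw [Sylow.coe_mapSurjective, IsPGroup.toSylow_coe]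
    exact (h2.trans h3).symm

/-- If any two distinct Sylow 2-subgroups of the finite group G intersect in a cyclic group, then the same holds in every quotient group G/H, H a normal subgroup of G. -/
theorem result {G : Type*} [Group G] [Finite G]
    (hC : ∀ S T : Sylow 2 G, S ≠ T → IsCyclic ↥((S : Subgroup G) ⊓ (T : Subgroup G))) (H : Subgroup G) [H.Normal] :
    ∀ S T : Sylow 2 (G ⧸ H), S ≠ T → IsCyclic ↥((S : Subgroup (G ⧸ H)) ⊓ (T : Subgroup (G ⧸ H))) := by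
  intro Sb Tb hne
  have hsurj : Function.Surjective (QuotientGroup.mk' H) := QuotientGroup.mk'_surjective H
  obtain ⟨D₂⟩ : Nonempty (Sylow 2 (((Sb : Subgroup (G ⧸ H)) ⊓ (Tb : Subgroup (G ⧸ H))).comap
    (QuotientGroup.mk' H))) := inferInstance
  have hD₂ : IsPGroup 2 (D₂.1.map
      (((Sb : Subgroup (G ⧸ H)) ⊓ (Tb : Subgroup (G ⧸ H))).comap (QuotientGroup.mk' H)).subtype) :=
    D₂.isPGroup'.map _
  have hDS : D₂.1.map
      (((Sb : Subgroup (G ⧸ H)) ⊓ (Tb : Subgroup (G ⧸ H))).comap (QuotientGroup.mk' H)).subtype ≤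
        (Sb : Subgroup (G ⧸ H)).comap (QuotientGroup.mk' H) := by
    rintro _ ⟨d, -, rfl⟩
    exact (Subgroup.mem_inf.mp d.2).1
  have hDT : D₂.1.map
      (((Sb : Subgroup (G ⧸ H)) ⊓ (Tb : Subgroup (G ⧸ H))).comap (QuotientGroup.mk' H)).subtype ≤
        (Tb : Subgroup (G ⧸ H)).comap (QuotientGroup.mk' H) := by
    rintro _ ⟨d, -, rfl⟩
    exact (Subgroup.mem_inf.mp d.2).2
  obtain ⟨S₁, hS₁, hS₁π⟩ := aux_sylow_lift 2 H Sb _ hD₂ hDS
  obtain ⟨T₁, hT₁, hT₁π⟩ := aux_sylow_lift 2 H Tb _ hD₂ hDT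
  have hne' : S₁ ≠ T₁ := by
    rintro rfl
    apply hne
    exact Sylow.ext (hS₁π.symm.trans hT₁π)
  have hcyc := hC S₁ T₁ hne'
  have hle : D₂.1.map
      (((Sb : Subgroup (G ⧸ H)) ⊓ (Tb : Subgroup (G ⧸ H))).comap (QuotientGroup.mk' H)).subtype ≤
        (S₁ : Subgroup G) ⊓ (T₁ : Subgroup G) := le_inf hS₁ hT₁
  have hcyc2 : IsCyclic (D₂.1.map
      (((Sb : Subgroup (G ⧸ H)) ⊓ (Tb : Subgroup (G ⧸ H))).comap (QuotientGroup.mk' H)).subtype) := by
    have e := Subgroup.subgroupOfEquivOfLe hle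
    exact isCyclic_of_surjective e e.surjective
  have hcyc3 : IsCyclic D₂.1 := by
    have e := D₂.1.equivMapOfInjective _ (Subgroup.subtype_injective
      (((Sb : Subgroup (G ⧸ H)) ⊓ (Tb : Subgroup (G ⧸ H))).comap (QuotientGroup.mk' H)))
    exact isCyclic_of_surjective e.symm e.symm.surjective
  have hf : Function.Surjective ((QuotientGroup.mk' H).subgroupComap
      ((Sb : Subgroup (G ⧸ H)) ⊓ (Tb : Subgroup (G ⧸ H)))) :=
    (QuotientGroup.mk' H).subgroupComap_surjective_of_surjective _ hsurj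
  have hpg : IsPGroup 2 ((Sb : Subgroup (G ⧸ H)) ⊓ (Tb : Subgroup (G ⧸ H)) : Subgroup (G ⧸ H)) :=
    Sb.isPGroup'.to_le inf_le_left
  have htop := (D₂.mapSurjective hf).is_maximal' (Q := ⊤) (hpg.to_subgroup ⊤) le_top
  rw [Sylow.coe_mapSurjective] at htop
  have hc4 : IsCyclic (D₂.1.map ((QuotientGroup.mk' H).subgroupComap
      ((Sb : Subgroup (G ⧸ H)) ⊓ (Tb : Subgroup (G ⧸ H))))) :=
    isCyclic_of_surjective (((QuotientGroup.mk' H).subgroupComap
      ((Sb : Subgroup (G ⧸ H)) ⊓ (Tb : Subgroup (G ⧸ H)))).subgroupMap D₂.1)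
      (MonoidHom.subgroupMap_surjective _ _)
  rw [← htop] at hc4
  exact isCyclic_of_surjective (Subgroup.topEquiv : (⊤ : Subgroup _) ≃* _) Subgroup.topEquiv.surjective

end Cfsg.Agent.S3305
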