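import Cfsg.Statements.S3349


set_option autoImplicit false
open Cfsg

namespace Cfsg.Agent.S3349

theorem cent_le {Q : Type*} [Group Q] (A : Subgroup Q) (hA : IsMulCommutative A)
    (hmax : ∀ B : Subgroup Q, A ≤ B → IsMulCommutative B → B = A) (x : Q)
    (hx : x ∈ Subgroup.centralizer (A : Set Q)) : x ∈ A := by
  have hAA : ∀ a ∈ A, ∀ a' ∈ A, a * a' = a' * a := by
    intro a ha a' ha'
    have h0 : (⟨a, ha⟩ : A) * ⟨a', ha'⟩ = ⟨a', ha'⟩ * ⟨a, ha⟩ := hA.is_comm.comm _ _
    exact congrArg Subtype.val h0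
  have hcomm : ∀ u ∈ ((A : Set Q) ∪ {x}), ∀ v ∈ ((A : Set Q) ∪ {x}), u * v = v * u := by
    intro u hu v hv
    rcases hu with hu | hu <;> rcases hv with hv | hv
    · exact hAA u hu v hv
    · rw [Set.mem_singleton_iff] at hv; rw [hv]
      exact Subgroup.mem_centralizer_iff.mp hx u hu
    · rw [Set.mem_singleton_iff] at hu; rw [hu]
      exact (Subgroup.mem_centralizer_iff.mp hx v hv).symm
    · rw [Set.mem_singleton_iff] at hu hv; rw [hu, hv]
  have hB : IsMulCommutative ↥(Subgroup.closure ((A : Set Q) ∪ {x})) :=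
    Subgroup.isMulCommutative_closure hcomm
  have hAB : A ≤ Subgroup.closure ((A : Set Q) ∪ {x}) :=
    fun a ha => Subgroup.subset_closure (Or.inl ha)
  have h1 := hmax _ hAB hB
  rw [← h1]
  exact Subgroup.subset_closure (Or.inr rfl)



/-- Let Q be a finite extraspecial p-group and α an automorphism of Q fixing every element of some maximal abelian subgroup of Q. Then the order of α is a power of p. -/
theorem result {Q : Type*} [Group Q] [Finite Q]
    (p : ℕ) [Fact p.Prime] (hQ : Cfsg.IsExtraspecial p Q) (α : MulAut Q)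
    (A : Subgroup Q) (hA : IsMulCommutative A) (hmax : ∀ B : Subgroup Q, A ≤ B → IsMulCommutative B → B = A)
    (hfix : ∀ a ∈ A, α a = a) :
    ∃ k : ℕ, orderOf α = p ^ k := by
  obtain ⟨⟨hP, hfrat, hcomm⟩, hZ⟩ := hQ
  have hpp : p.Prime := Fact.out
  have hcent := cent_le A hA hmax
  have hZA : ∀ z ∈ Subgroup.center Q, z ∈ A := fun z hz => hcent z (by
    rw [Subgroup.mem_centralizer_iff]; intro a _; exact (Subgroup.mem_center_iff.mp hz a))
  have hc : ∀ q : Q, q⁻¹ * α q ∈ A := by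
    intro q
    apply hcent
    rw [Subgroup.mem_centralizer_iff]
    intro a ha
    have h1 : q * a * q⁻¹ * a⁻¹ ∈ Subgroup.center Q := by
      rw [← hcomm]
      show q * a * q⁻¹ * a⁻¹ ∈ ⁅(⊤ : Subgroup Q), ⊤⁆
      exact Subgroup.commutator_mem_commutator (Subgroup.mem_top q) (Subgroup.mem_top a)
    have h2 := hfix _ (hZA _ h1)
    rw [map_mul, map_mul, map_mul, map_inv, map_inv, hfix a ha] at h2
    have h3 : α q * a * (α q)⁻¹ = q * a * q⁻¹ := mul_right_cancel h2
    calc a * (q⁻¹ * α q) = q⁻¹ * (q * a * q⁻¹) * α q := by group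
      _ = q⁻¹ * (α q * a * (α q)⁻¹) * α q := by rw [h3]
      _ = q⁻¹ * α q * a := by group
  have hpow : ∀ (k : ℕ) (q : Q), (α ^ k) q = q * (q⁻¹ * α q) ^ k := by
    intro k
    induction k with
    | zero => intro q; simp
    | succ k ih =>
      intro q
      rw [pow_succ', MulAut.mul_apply, ih, map_mul, map_pow, hfix _ (hc q), pow_succ']
      simp only [← mul_assoc, mul_inv_cancel, one_mul]
  obtain ⟨n, hn⟩ := IsPGroup.iff_card.mp hP
  have h1 : α ^ (p ^ n) = 1 := by
    ext q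
    rw [hpow, ← hn, pow_card_eq_one', mul_one]
    rfl
  obtain ⟨k, -, hk⟩ := (Nat.dvd_prime_pow hpp).mp (orderOf_dvd_of_pow_eq_one h1)
  exact ⟨k, hk⟩

end Cfsg.Agent.S3349
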