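import Cfsg.Statements.S3498
import Cfsg.Agent.Lib_helper5_FrobFix
import Cfsg.Agent.Lib_helper1_Coprime

set_option autoImplicit false
open Cfsg

namespace Cfsg.Agent.S3498

open scoped Pointwise


/-- A maximal subgroup of a finite almost simple group does not have prime order. Here G is almost simple in the sense that it has a non-abelian simple normal subgroup T with trivial centralizer. -/
theorem result {G : Type*} [Group G] [Finite G] (T : Subgroup G) [T.Normal] (hT : IsSimpleGroup T) (hTc : ¬ IsMulCommutative T)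
    (hC : Subgroup.centralizer (T : Set G) = ⊥) (H : Subgroup G) (hmax : IsCoatom H) : ¬ (Nat.card H).Prime := by
  intro hp
  haveI : Fact (Nat.card H).Prime := ⟨hp⟩
  have hHbot : H ≠ ⊥ := by
    intro h
    rw [h, Subgroup.card_bot] at hp
    exact Nat.not_prime_one hp
  have hHtop : H ≠ ⊤ := hmax.1
  haveI hcyc : IsCyclic H := isCyclic_of_prime_card rfl
  have hsub : ∀ K : Subgroup G, K ≤ H → K = ⊥ ∨ K = H := by
    intro K hK
    have hdvd : Nat.card K ∣ Nat.card H := Subgroup.card_dvd_of_le hK
    rcases (Nat.dvd_prime hp).mp hdvd with h1 | h1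
    · left; exact Subgroup.eq_bot_of_card_eq K h1
    · right; exact Subgroup.eq_of_le_of_card_ge hK (le_of_eq h1.symm)
  have hTnotle : ¬ T ≤ H := by
    intro h
    apply hTc
    refine ⟨⟨fun a b => ?_⟩⟩
    have h1 := mul_comm' (⟨a, h a.2⟩ : H) ⟨b, h b.2⟩
    have h2 : (a : G) * (b : G) = (b : G) * (a : G) := congrArg (fun x : H => (x : G)) h1
    exact Subtype.ext h2
  have hnorm : ∀ K : Subgroup G, K.Normal → K = ⊥ ∨ T ≤ K := by
    intro K hK
    haveI := hK
    rcases hT.eq_bot_or_eq_top_of_normal (K.subgroupOf T) inferInstance with h | h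
    · left
      rw [Subgroup.subgroupOf_eq_bot] at h
      have hle : K ≤ Subgroup.centralizer (T : Set G) := by
        intro k hk
        rw [Subgroup.mem_centralizer_iff]
        intro t ht
        exact (Subgroup.commute_of_normal_of_disjoint K T hK inferInstance h k t hk ht).symm.eq
      rw [hC] at hle
      exact le_bot_iff.mp hle
    · right
      exact Subgroup.subgroupOf_eq_top.mp h
  have hnn : ¬ H.Normal := by
    intro h
    rcases hnorm H h with h1 | h1
    · exact hHbot h1
    · exact hTnotle h1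
  have hNH : Subgroup.normalizer (H : Set G) = H := by
    by_contra hne
    have hlt : H < Subgroup.normalizer (H : Set G) :=
      lt_of_le_of_ne Subgroup.le_normalizer (Ne.symm hne)
    exact hnn (Subgroup.normalizer_eq_top_iff.mp (hmax.2 _ hlt))
  have hFrob : IsFrobeniusComplement H := by
    refine ⟨hHbot, hHtop, ?_⟩
    intro g hg
    rcases hsub (H ⊓ MulAut.conj g • H) inf_le_left with h | h
    · exact h
    · exfalso
      have hle : H ≤ MulAut.conj g • H := h.ge.trans inf_le_right
      have heq : H = MulAut.conj g • H :=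
        Subgroup.eq_of_le_of_card_ge hle
          (le_of_eq (Cfsg.Agent.Lib_helper1_Hall.card_conj_smul g H))
      apply hg
      rw [← hNH, Subgroup.mem_normalizer_iff]
      intro x
      constructor
      · intro hx
        have h3 : g * x * g⁻¹ ∈ MulAut.conj g • H := by
          rw [Cfsg.Agent.Lib_helper1_Basic.mem_conj_smul]
          simpa [mul_assoc] using hx
        exact heq.symm.le h3
      · intro hx
        have h3 : g * x * g⁻¹ ∈ MulAut.conj g • H := heq.le hx
        rw [Cfsg.Agent.Lib_helper1_Basic.mem_conj_smul] at h3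
        simpa [mul_assoc] using h3
  obtain ⟨N, hNset, hNn, hNc⟩ := Cfsg.Agent.Lib_helper5_FrobKer.frobenius_kernel H hFrob
  have hNbot : N ≠ ⊥ := by
    intro h
    have h1 := hNc.card_mul_card
    rw [h, Subgroup.card_bot, one_mul] at h1
    exact hHtop ((Subgroup.card_eq_iff_eq_top H).mp h1)
  have hTN : T ≤ N := (hnorm N hNn).resolve_left hNbot
  have hdisj : H ⊓ T = ⊥ := by
    have h1 : N ⊓ H = ⊥ := hNc.disjoint.eq_bot
    rw [eq_bot_iff, ← h1]
    exact le_inf (inf_le_right.trans hTN) inf_le_left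
  have hpT : ¬ Nat.card H ∣ Nat.card T := by
    intro hdvd
    obtain ⟨x, hx⟩ := exists_prime_orderOf_dvd_card' (G := T) (Nat.card H) hdvd
    obtain ⟨g, hg⟩ := Cfsg.Agent.Lib_helper5_FrobFix.le_conj_of_card_dvd H hFrob
      (Subgroup.zpowers (x : G)) (by rw [Nat.card_zpowers, Subgroup.orderOf_coe, hx])
    have hxg : (x : G) ∈ MulAut.conj g • H := hg (Subgroup.mem_zpowers _)
    rw [Cfsg.Agent.Lib_helper1_Basic.mem_conj_smul] at hxg
    have hxT : g⁻¹ * (x : G) * g ∈ T := by
      have h2 := (inferInstance : T.Normal).conj_mem (x : G) x.2 g⁻¹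
      simpa using h2
    have h1 : g⁻¹ * (x : G) * g ∈ H ⊓ T := ⟨hxg, hxT⟩
    rw [hdisj, Subgroup.mem_bot] at h1
    have hx1 : (x : G) = 1 := by
      have h3 : (x : G) = g * (g⁻¹ * (x : G) * g) * g⁻¹ := by group
      rw [h3, h1]; group
    have h4 : orderOf (x : G) = 1 := by rw [hx1, orderOf_one]
    rw [Subgroup.orderOf_coe, hx] at h4
    exact hp.one_lt.ne' h4
  have hcop : (Nat.card H).Coprime (Nat.card T) := (Nat.Prime.coprime_iff_not_dvd hp).mpr hpT
  have hHT : H ≤ Subgroup.normalizer (T : Set G) := by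
    rw [Subgroup.normalizer_eq_top_iff.mpr inferInstance]; exact le_top
  have hTcard : Nat.card T ≠ 1 := by
    intro h
    apply hTnotle
    rw [Subgroup.eq_bot_of_card_eq T h]
    exact bot_le
  obtain ⟨q, hq, hqT⟩ := Nat.exists_prime_and_dvd hTcard
  haveI : Fact q.Prime := ⟨hq⟩
  obtain ⟨Q, hQ⟩ := Cfsg.Agent.Lib_helper1_Coprime.exists_invariant_sylow H T hHT hcop
    (Or.inl (Cfsg.Agent.Lib_helper1_Coprime.isSolvable_of_isMulCommutative H)) q
  have hQ'T : (Q : Subgroup T).map T.subtype ≤ T := Subgroup.map_subtype_le _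
  have hQ'bot : (Q : Subgroup T).map T.subtype ≠ ⊥ := by
    intro h
    rw [Subgroup.map_eq_bot_iff_of_injective _ T.subtype_injective] at h
    exact Sylow.ne_bot_of_dvd_card Q hqT h
  have hcop' : (Nat.card H).Coprime (Nat.card ((Q : Subgroup T).map T.subtype)) :=
    Nat.Coprime.coprime_dvd_right (Subgroup.card_dvd_of_le hQ'T) hcop
  have hsup1 : (Q : Subgroup T).map T.subtype ⊔ H = ⊤ := by
    by_contra hne
    have hle : H ≤ (Q : Subgroup T).map T.subtype ⊔ H := le_sup_right
    rcases eq_or_lt_of_le hle with h | h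
    · have h5 : (Q : Subgroup T).map T.subtype ≤ H := by
        have h6 : (Q : Subgroup T).map T.subtype ≤ (Q : Subgroup T).map T.subtype ⊔ H :=
          le_sup_left
        exact h6.trans h.symm.le
      apply hQ'bot
      rw [eq_bot_iff, ← hdisj]
      exact le_inf h5 hQ'T
    · exact hne (hmax.2 _ h)
  have hsup2 : T ⊔ H = ⊤ := by
    by_contra hne
    have hle : H ≤ T ⊔ H := le_sup_right
    rcases eq_or_lt_of_le hle with h | h
    · apply hTnotle
      have h6 : T ≤ T ⊔ H := le_sup_left
      exact h6.trans h.symm.le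
    · exact hne (hmax.2 _ h)
  have hc1 := (Cfsg.Agent.Lib_helper1_Coprime.card_sup_of_normalizes H
    ((Q : Subgroup T).map T.subtype) hQ hcop').2
  have hc2 := (Cfsg.Agent.Lib_helper1_Coprime.card_sup_of_normalizes H T hHT hcop).2
  rw [Cfsg.Agent.Lib_helper1_Hall.card_subgroupOf_of_le le_sup_left,
    Cfsg.Agent.Lib_helper1_Hall.card_subgroupOf_of_le le_sup_right, hsup1] at hc1
  rw [Cfsg.Agent.Lib_helper1_Hall.card_subgroupOf_of_le le_sup_left,
    Cfsg.Agent.Lib_helper1_Hall.card_subgroupOf_of_le le_sup_right, hsup2] at hc2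
  have hcardQT : Nat.card ((Q : Subgroup T).map T.subtype) = Nat.card T := by
    have h7 : Nat.card ((Q : Subgroup T).map T.subtype) * Nat.card H
        = Nat.card T * Nat.card H := by rw [hc1, hc2]
    exact Nat.eq_of_mul_eq_mul_right hp.pos h7
  have hQcard : Nat.card ((Q : Subgroup T).map T.subtype) = Nat.card (Q : Subgroup T) :=
    Subgroup.card_map_of_injective T.subtype_injective
  have hTq : IsPGroup q T := by
    obtain ⟨n, hn⟩ := IsPGroup.iff_card.mp Q.isPGroup'
    exact IsPGroup.of_card (n := n) (by rw [← hcardQT, hQcard, hn])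
  haveI : Group.IsNilpotent T := hTq.isNilpotent
  exact hTc ⟨⟨IsSimpleGroup.comm_iff_isSolvable.mpr inferInstance⟩⟩

end Cfsg.Agent.S3498
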