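import Cfsg.Statements.S3511
import Mathlib

set_option autoImplicit false
open Cfsg

namespace Cfsg.Agent.S3511

open MulAction

/-- Let a finite group G act faithfully on a set Ω. If every element of G of square-free order has a regular cycle (an orbit of the cyclic group it generates with trivial stabilizer), then every element of G has a regular cycle. -/
theorem result {G : Type*} [Group G] [Finite G] {Ω : Type*} [MulAction G Ω] [FaithfulSMul G Ω]
    (h : ∀ g : G, Squarefree (orderOf g) → ∃ ω : Ω, MulAction.stabilizer (Subgroup.zpowers g) ω = ⊥) (g : G) :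
    ∃ ω : Ω, MulAction.stabilizer (Subgroup.zpowers g) ω = ⊥ := by
  have aux : ∀ (n : ℕ) (g : G), orderOf g = n →
      ∃ ω : Ω, MulAction.stabilizer (Subgroup.zpowers g) ω = ⊥ := by
    intro n
    induction n using Nat.strong_induction_on with
    | _ n ih =>
      intro g hg
      by_cases hsq : Squarefree n
      · exact h g (hg ▸ hsq)
      · rw [Nat.squarefree_iff_prime_squarefree] at hsq
        push Not at hsq
        obtain ⟨p, hp, k, hk⟩ := hsq
        have hn0 : 0 < n := hg ▸ orderOf_pos g
        have hpn : p ∣ orderOf g := by rw [hg, hk]; exact ⟨p * k, by ring⟩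
        have hord : orderOf (g ^ p) = n / p := by
          rw [orderOf_pow_of_dvd hp.ne_zero hpn, hg]
        obtain ⟨ω, hω⟩ := ih (n / p) (Nat.div_lt_self hn0 hp.one_lt) (g ^ p) hord
        refine ⟨ω, ?_⟩
        rw [eq_bot_iff]
        rintro ⟨y, hy⟩ hx
        have hyω : y • ω = ω := hx
        obtain ⟨a, rfl⟩ := Subgroup.mem_zpowers_iff.mp hy
        have hbot : ∀ z : G, ∀ hz : z ∈ Subgroup.zpowers (g ^ p), z • ω = ω → z = 1 := by
          intro z hz hzω
          have h1 : (⟨z, hz⟩ : Subgroup.zpowers (g ^ p)) ∈
              MulAction.stabilizer (Subgroup.zpowers (g ^ p)) ω := hzω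
          rw [hω, Subgroup.mem_bot] at h1
          exact congrArg Subtype.val h1
        have h1 : (g ^ a) ^ p = 1 := by
          apply hbot _ _ _
          · refine Subgroup.mem_zpowers_iff.mpr ⟨a, ?_⟩
            rw [← zpow_natCast, ← zpow_natCast, ← zpow_mul, ← zpow_mul, mul_comm]
          · have h2 : g ^ a ∈ MulAction.stabilizer G ω := hyω
            exact pow_mem h2 p
        rw [← zpow_natCast, ← zpow_mul, ← orderOf_dvd_iff_zpow_eq_one, hg, hk] at h1
        have h2 : ((p : ℤ) * k) ∣ a := by
          have h3 : ((p : ℤ) * ((p : ℤ) * k)) ∣ p * a := by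
            rw [mul_comm (p : ℤ) a]
            have h4 : ((p * p * k : ℕ) : ℤ) = (p : ℤ) * ((p : ℤ) * k) := by push_cast; ring
            rw [← h4]; exact h1
          exact (mul_dvd_mul_iff_left (by exact_mod_cast hp.ne_zero)).mp h3
        obtain ⟨b, rfl⟩ := h2
        have h5 : g ^ ((p : ℤ) * k * b) = 1 := by
          apply hbot _ _ hyω
          refine Subgroup.mem_zpowers_iff.mpr ⟨k * b, ?_⟩
          rw [← zpow_natCast, ← zpow_mul, mul_assoc]
        rw [Subgroup.mem_bot]
        exact Subtype.ext h5
  exact aux _ g rfl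

end Cfsg.Agent.S3511
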