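import Cfsg.Statements.S3524
-- import your own Cfsg.Agent.* helpers here

set_option autoImplicit false
open Cfsg

namespace Cfsg.Agent.S3524

/-- A permutation group with a base is closed at one level above the base size. Let G be a group of permutations of a set Ω and suppose some k points α₁, …, α_k are fixed simultaneously only by the identity of G (a base of size k). Then G is (k+1)-closed: a permutation of Ω that agrees on every (k+1)-tuple of points with some element of G belongs to G. -/
theorem result {Ω : Type*} (G : Subgroup (Equiv.Perm Ω)) (k : ℕ) (α : Fin k → Ω)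
    (hbase : ∀ g ∈ G, (∀ i, g (α i) = α i) → g = 1) (σ : Equiv.Perm Ω)
    (hσ : ∀ t : Fin (k + 1) → Ω, ∃ g ∈ G, ∀ i, σ (t i) = g (t i)) : σ ∈ G := by
  classical
  have key : ∀ x : Ω, ∃ g ∈ G, (∀ i, σ (α i) = g (α i)) ∧ σ x = g x := by
    intro x
    obtain ⟨g, hg, h⟩ := hσ (Fin.snoc α x)
    refine ⟨g, hg, ?_, ?_⟩
    · intro i
      have := h i.castSucc
      simpa using this
    · have := h (Fin.last k)
      simpa using this
  rcases isEmpty_or_nonempty Ω with hΩ | ⟨⟨x₀⟩⟩
  · have : σ = 1 := Subsingleton.elim _ _
    rw [this]; exact G.one_mem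
  · obtain ⟨g₀, hg₀, hb₀, -⟩ := key x₀
    have : σ = g₀ := by
      ext x
      obtain ⟨g, hg, hb, hx⟩ := key x
      have h1 : g₀⁻¹ * g = 1 := by
        apply hbase _ (G.mul_mem (G.inv_mem hg₀) hg)
        intro i
        simp only [Equiv.Perm.mul_apply]
        rw [← hb i, hb₀ i]; simp
      have h2 : g = g₀ := (eq_of_inv_mul_eq_one h1).symm
      rw [hx, h2]
    rw [this]; exact hg₀

end Cfsg.Agent.S3524
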