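import Cfsg.Statements.S3683
import Mathlib

set_option autoImplicit false
open Cfsg

namespace Cfsg.Agent.S3683

/-- Let a finite group G act faithfully and primitively on a set Ω, and suppose the stabilizer of a point a fixes a second point b ≠ a (a suborbit of length 1 other than {a}). Then the stabilizer of a is trivial and G is cyclic of prime order. -/
theorem result {G Ω : Type*} [Group G] [Finite G] [MulAction G Ω] [FaithfulSMul G Ω] [Finite Ω]
    (hprim : MulAction.IsPreprimitive G Ω) (a b : Ω) (hab : a ≠ b) (hfix : ∀ g : G, g • a = a → g • b = b) :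
    MulAction.stabilizer G a = ⊥ ∧ IsCyclic G ∧ (Nat.card G).Prime := by
  classical
  have : Nontrivial Ω := ⟨⟨a, b, hab⟩⟩
  have := hprim
  have hco : IsCoatom (MulAction.stabilizer G a) :=
    MulAction.IsPreprimitive.isCoatom_stabilizer_of_isPreprimitive G a
  have : MulAction.IsPretransitive G Ω := hprim.toIsPretransitive
  obtain ⟨g, hg⟩ := MulAction.exists_smul_eq G a b
  have hle : MulAction.stabilizer G a ≤ MulAction.stabilizer G b := fun x hx => hfix x hx
  have hbne : MulAction.stabilizer G b ≠ ⊤ :=
    (MulAction.IsPreprimitive.isCoatom_stabilizer_of_isPreprimitive G b).1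
  have heq : MulAction.stabilizer G a = MulAction.stabilizer G b := by
    by_contra hne
    exact hbne (hco.2 _ (lt_of_le_of_ne hle hne))
  have hgN : g ∈ Subgroup.normalizer (MulAction.stabilizer G a : Set G) := by
    rw [Subgroup.mem_normalizer_iff]
    intro h
    have h1 : g * h * g⁻¹ ∈ MulAction.stabilizer G a ↔ g * h * g⁻¹ ∈ MulAction.stabilizer G b := by
      rw [heq]
    rw [h1, ← hg, MulAction.mem_stabilizer_iff, MulAction.mem_stabilizer_iff]
    constructor
    · intro hh
      rw [smul_smul, mul_assoc, mul_assoc, inv_mul_cancel, mul_one, mul_smul, hh]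
    · intro hh
      rw [smul_smul, mul_assoc, mul_assoc, inv_mul_cancel, mul_one, mul_smul] at hh
      exact smul_left_cancel g hh
  have hgnot : g ∉ MulAction.stabilizer G a := by
    intro hga
    exact hab (by rw [← hg]; exact (MulAction.mem_stabilizer_iff.mp hga).symm)
  have hN : Subgroup.normalizer (MulAction.stabilizer G a : Set G) = ⊤ := by
    apply hco.2
    exact lt_of_le_of_ne Subgroup.le_normalizer (fun h => hgnot (h ▸ hgN))
  have hnormal : (MulAction.stabilizer G a).Normal := Subgroup.normalizer_eq_top_iff.mp hN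
  have hbot : MulAction.stabilizer G a = ⊥ := by
    rw [eq_bot_iff]
    intro x hx
    rw [Subgroup.mem_bot]
    apply FaithfulSMul.eq_of_smul_eq_smul (α := Ω)
    intro c
    obtain ⟨k, rfl⟩ := MulAction.exists_smul_eq G a c
    rw [one_smul]
    have h2 : k⁻¹ * x * k ∈ MulAction.stabilizer G a := by
      have := hnormal.conj_mem x hx k⁻¹
      simpa using this
    rw [MulAction.mem_stabilizer_iff] at h2
    calc x • k • a = k • ((k⁻¹ * x * k) • a) := by simp [smul_smul, mul_assoc]
      _ = k • a := by rw [h2]
  refine ⟨hbot, ?_⟩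
  rw [hbot] at hco
  have hcard : Nat.card G ≠ 1 := by
    intro h1
    apply hco.1
    rw [eq_comm, ← Subgroup.card_eq_one]
    rw [Subgroup.card_top]; exact h1
  obtain ⟨p, hp, hpd⟩ := Nat.exists_prime_and_dvd hcard
  have : Fact p.Prime := ⟨hp⟩
  obtain ⟨h, hh⟩ := exists_prime_orderOf_dvd_card' p hpd
  have hz : Subgroup.zpowers h = ⊤ := by
    apply hco.2
    rw [bot_lt_iff_ne_bot]
    intro hbot'
    rw [Subgroup.zpowers_eq_bot] at hbot'
    rw [hbot', orderOf_one] at hh
    exact hp.one_lt.ne hh
  constructor
  · exact isCyclic_iff_exists_zpowers_eq_top.mpr ⟨h, hz⟩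
  · have h3 : Nat.card G = orderOf h := by
      rw [← Nat.card_zpowers, hz, Subgroup.card_top]
    rw [h3, hh]; exact hp

end Cfsg.Agent.S3683
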