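import Cfsg.Statements.S3802
import Mathlib

set_option autoImplicit false
open Cfsg

namespace Cfsg.Agent.S3802

open scoped Pointwise

universe u

theorem aux : ∀ (n : ℕ) (G : Type u) [Group G] [Finite G], Nat.card G = n →
    ∀ (M N : Subgroup G), IsCoatom M → N.IsSubnormal → N ≤ M →
    ∀ g : G, ∀ x ∈ N, g * x * g⁻¹ ∈ M := by
  intro n
  induction n using Nat.strong_induction_on with
  | _ n ih =>
    intro G _ _ hcard M N hM hN hNM g x hx
    by_cases hK : Subgroup.normalClosure (N : Set G) ≤ M
    · apply hK
      exact (Subgroup.normalClosure_normal).conj_mem x (Subgroup.subset_normalClosure hx) g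
    · exfalso
      set K := Subgroup.normalClosure (N : Set G) with hKdef
      have hKn : K.Normal := Subgroup.normalClosure_normal
      have hNK : N ≤ K := Subgroup.le_normalClosure
      have hNtop : N ≠ ⊤ := fun h => hM.1 (top_le_iff.mp (h ▸ hNM))
      obtain ⟨L, hLn, hNL, hLtop⟩ := hN.exists_normal_and_le_and_lt_top_of_ne hNtop
      have hKL : K ≤ L := Subgroup.normalClosure_le_normal hNL
      have hKtop : K ≠ ⊤ := (lt_of_le_of_lt hKL hLtop).ne
      have hcardK : Nat.card K < Nat.card G := by
        have hle : Nat.card K ≤ Nat.card G := Subgroup.card_le_card_group K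
        rcases hle.lt_or_eq with h | h
        · exact h
        · exact absurd (Subgroup.eq_top_of_card_eq K h) hKtop
      have hMK : M.subgroupOf K ≠ ⊤ := by
        intro h
        apply hK
        exact Subgroup.subgroupOf_eq_top.mp h
      obtain ⟨M', hM'coatom, hM'le⟩ := (eq_top_or_exists_le_coatom (M.subgroupOf K)).resolve_left hMK
      have hsup : K ⊔ M = ⊤ := by
        apply hM.2
        refine lt_of_le_of_ne le_sup_right ?_
        intro h
        apply hK
        rw [h]
        exact le_sup_left
      have key : ∀ g : G, ∀ x ∈ N, g * x * g⁻¹ ∈ M'.map K.subtype := by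
        intro g x hx
        have hg : g ∈ K ⊔ M := by rw [hsup]; trivial
        obtain ⟨k, hk, m, hm, rfl⟩ := Subgroup.mem_sup_of_normal_left.mp hg
        let N₁ : Subgroup K := (MulAut.conj m • N).subgroupOf K
        have hN₁ : N₁.IsSubnormal := (hN.smul (MulAut.conj m)).subgroupOf
        have hN₁M : N₁ ≤ M' := by
          refine le_trans ?_ hM'le
          intro y hy
          rw [Subgroup.mem_subgroupOf] at hy ⊢
          obtain ⟨s, hs, hs'⟩ := (Subgroup.mem_smul_pointwise_iff_exists _ _ _).mp hy
          rw [← hs']
          show m * s * m⁻¹ ∈ M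
          exact M.mul_mem (M.mul_mem hm (hNM hs)) (M.inv_mem hm)
        have hmx : m * x * m⁻¹ ∈ K := hKn.conj_mem x (hNK hx) m
        have hmem : (⟨m * x * m⁻¹, hmx⟩ : K) ∈ N₁ := by
          rw [Subgroup.mem_subgroupOf]
          exact (Subgroup.mem_smul_pointwise_iff_exists _ _ _).mpr ⟨x, hx, rfl⟩
        have := ih (Nat.card K) (hcard ▸ hcardK) K rfl M' N₁ hM'coatom hN₁ hN₁M ⟨k, hk⟩
          ⟨m * x * m⁻¹, hmx⟩ hmem
        refine ⟨_, this, ?_⟩
        simp only [Subgroup.coe_subtype, Subgroup.coe_mul, Subgroup.coe_inv]
        group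
      have hKle : K ≤ M'.map K.subtype := by
        have hK2 : K = Subgroup.closure (Group.conjugatesOfSet (N : Set G)) := rfl
        intro y0 hy0
        rw [hK2] at hy0
        revert y0
        show Subgroup.closure (Group.conjugatesOfSet (N : Set G)) ≤ M'.map K.subtype
        rw [Subgroup.closure_le]
        intro y hy
        obtain ⟨x, hx, hxy⟩ := Group.mem_conjugatesOfSet_iff.mp hy
        obtain ⟨c, hc⟩ := isConj_iff.mp hxy
        rw [← hc]; exact key c x hx
      apply hM'coatom.1
      rw [eq_top_iff]
      intro y _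
      obtain ⟨z, hz, hzy⟩ := hKle y.2
      have : z = y := Subtype.ext hzy
      rw [← this]; exact hz

/-- Let G be a finite group, M a maximal subgroup of G and N a subnormal subgroup of G contained in M. Then N is contained in every conjugate of M, that is, N lies in the core of M in G. -/
theorem result {G : Type*} [Group G] [Finite G] (M N : Subgroup G) (hM : IsCoatom M) (hN : N.IsSubnormal) (hNM : N ≤ M) :
    N ≤ Subgroup.normalCore M := by
  intro x hx b
  exact aux (Nat.card G) G rfl M N hM hN hNM b x hx

end Cfsg.Agent.S3802
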