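import Cfsg.Statements.S3815
import Mathlib

set_option autoImplicit false
open Cfsg

namespace Cfsg.Agent.S3815

theorem orderOf_conj' {G : Type*} [Group G] (x g : G) : orderOf (x * g * x⁻¹) = orderOf g := by
  have := MulEquiv.orderOf_eq (MulAut.conj x) g
  rwa [MulAut.conj_apply] at this

/-- Let G be a finite group, p a prime and d ∈ G an element of order prime to p. If dg has order prime to p for every element g ∈ G of order prime to p, then d ∈ O_{p'}(G). -/
theorem result {G : Type*} [Group G] [Finite G] {p : ℕ} [Fact p.Prime]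
    (d : G) (hd : (orderOf d).Coprime p)
    (h : ∀ g : G, (orderOf g).Coprime p → (orderOf (d * g)).Coprime p) :
    d ∈ Cfsg.pPrimeCore p G := by
  have hp : p.Prime := Fact.out
  let S : Submonoid G :=
    { carrier := {d : G | (orderOf d).Coprime p ∧ ∀ g : G, (orderOf g).Coprime p → (orderOf (d * g)).Coprime p}
      mul_mem' := by
        rintro a b ⟨ha1, ha2⟩ ⟨hb1, hb2⟩
        refine ⟨ha2 b hb1, fun g hg => ?_⟩
        rw [mul_assoc]
        exact ha2 _ (hb2 g hg)
      one_mem' := by
        refine ⟨by simp, fun g hg => by simpa using hg⟩ }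
  let N : Subgroup G :=
    { S with
      inv_mem' := by
        intro a ha
        have : a⁻¹ = a ^ (orderOf a - 1) := by
          apply inv_eq_of_mul_eq_one_right
          rw [← pow_succ', Nat.sub_add_cancel (orderOf_pos a), pow_orderOf_eq_one]
        show a⁻¹ ∈ S
        rw [this]
        exact S.pow_mem ha _ }
  have hmemN : ∀ a : G, a ∈ N ↔ ((orderOf a).Coprime p ∧ ∀ g : G, (orderOf g).Coprime p → (orderOf (a * g)).Coprime p) := fun a => Iff.rfl
  have hNnormal : N.Normal := by
    constructor
    intro a ha x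
    rw [hmemN] at ha ⊢
    obtain ⟨ha1, ha2⟩ := ha
    refine ⟨by rwa [orderOf_conj'], fun g hg => ?_⟩
    have e : x * a * x⁻¹ * g = x * (a * (x⁻¹ * g * x⁻¹⁻¹)) * x⁻¹ := by group
    rw [e, orderOf_conj']
    apply ha2
    rwa [orderOf_conj']
  have hNcard : (Nat.card N).Coprime p := by
    rw [Nat.coprime_comm, hp.coprime_iff_not_dvd]
    intro hdvd
    obtain ⟨x, hx⟩ := exists_prime_orderOf_dvd_card' p hdvd
    have hx' : orderOf (x : G) = p := by rw [Subgroup.orderOf_coe]; exact hx
    have := ((hmemN _).mp x.2).1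
    rw [hx', Nat.coprime_self] at this
    exact hp.one_lt.ne' this
  have hdN : d ∈ N := (hmemN d).mpr ⟨hd, h⟩
  exact (le_sSup (show N ∈ {N : Subgroup G | N.Normal ∧ (Nat.card N).Coprime p} from ⟨hNnormal, hNcard⟩)) hdN

end Cfsg.Agent.S3815
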