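import Cfsg.Statements.S3820
import Cfsg.Agent.Lib_helper6_Conj

set_option autoImplicit false
open Cfsg Cfsg.Agent.Lib_helper6_Conj

namespace Cfsg.Agent.S3820

/-- Call a subgroup H of G pronormal if H and gHg⁻¹ are conjugate inside ⟨H, gHg⁻¹⟩ for every g ∈ G. Let S ≤ H ≤ G be subgroups of a finite group with S pronormal in G (for instance S a Sylow subgroup). Then H is pronormal in G if and only if H and gHg⁻¹ are conjugate inside ⟨H, gHg⁻¹⟩ for every g ∈ N_G(S). In particular H is pronormal whenever N_G(S) ≤ H. -/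
theorem result {G : Type*} [Group G] [Finite G] (S H : Subgroup G) (hSH : S ≤ H)
    (hS : Cfsg.IsPronormal S) :
    Cfsg.IsPronormal H ↔
      ∀ g ∈ Subgroup.normalizer (S : Set G), ∃ w ∈ H ⊔ H.map (MulAut.conj g).toMonoidHom,
        H.map (MulAut.conj g).toMonoidHom = H.map (MulAut.conj w).toMonoidHom := by
  constructor
  · intro h g _; exact h g
  · intro h g
    obtain ⟨x, hx, hSx⟩ := hS g
    have hn : x⁻¹ * g ∈ Subgroup.normalizer (S : Set G) := by
      rw [mem_normalizer_iff_conjMap, conjMap_mul, hSx, conjMap_inv_conjMap]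
    obtain ⟨w, hw, hHw⟩ := h _ hn
    have hxJ : x ∈ H ⊔ H.map (MulAut.conj g).toMonoidHom :=
      (sup_le_sup hSH (Subgroup.map_mono hSH)) hx
    have hwJ : w ∈ H ⊔ H.map (MulAut.conj g).toMonoidHom := by
      have : H ⊔ H.map (MulAut.conj (x⁻¹ * g)).toMonoidHom ≤
          H ⊔ H.map (MulAut.conj g).toMonoidHom := by
        apply sup_le le_sup_left
        intro y hy
        rw [mem_conjMap] at hy
        have h1 : x * y * x⁻¹ ∈ H.map (MulAut.conj g).toMonoidHom := by
          rw [mem_conjMap]; convert hy using 1; group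
        have h2 := Subgroup.mul_mem _ (Subgroup.mul_mem _ (Subgroup.inv_mem _ hxJ)
          ((le_sup_right : _ ≤ H ⊔ H.map (MulAut.conj g).toMonoidHom) h1)) hxJ
        convert h2 using 1; group
      exact this hw
    refine ⟨x * w, Subgroup.mul_mem _ hxJ hwJ, ?_⟩
    rw [conjMap_mul, ← hHw, ← conjMap_mul, mul_inv_cancel_left]

end Cfsg.Agent.S3820
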