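import Cfsg.Statements.S3821
import Cfsg.Agent.Lib_helper6_Conj

set_option autoImplicit false
open Cfsg Cfsg.Agent.Lib_helper6_Conj

namespace Cfsg.Agent.S3821

theorem map_conj_subtype {G : Type*} [Group G] (A : Subgroup G) (K : Subgroup A) (a : A) :
    (K.map (MulAut.conj a).toMonoidHom).map A.subtype =
      (K.map A.subtype).map (MulAut.conj (a : G)).toMonoidHom := by
  rw [Subgroup.map_map, Subgroup.map_map]
  congr 1

theorem map_subgroupOf {G : Type*} [Group G] (A H : Subgroup G) (hHA : H ≤ A) :
    (H.subgroupOf A).map A.subtype = H := by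
  rw [Subgroup.subgroupOf_map_subtype]
  exact inf_eq_left.mpr hHA

/-- Let A be a normal subgroup of the finite group G and H a subgroup of A. Then H is pronormal in G (H and gHg⁻¹ conjugate inside ⟨H, gHg⁻¹⟩ for every g ∈ G) if and only if H is pronormal in A and G = A · N_G(H). -/
theorem result {G : Type*} [Group G] [Finite G] (A H : Subgroup G) [A.Normal] (hHA : H ≤ A) :
    Cfsg.IsPronormal H ↔ (Cfsg.IsPronormal (H.subgroupOf A) ∧ A ⊔ Subgroup.normalizer (H : Set G) = ⊤) := by
  have hconjA : ∀ g : G, H.map (MulAut.conj g).toMonoidHom ≤ A := by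
    intro g y hy
    rw [mem_conjMap] at hy
    have := ‹A.Normal›.conj_mem _ (hHA hy) g
    simpa [mul_assoc] using this
  -- key translation
  have key : ∀ a : A, (H.subgroupOf A ⊔ (H.subgroupOf A).map (MulAut.conj a).toMonoidHom).map A.subtype
      = H ⊔ H.map (MulAut.conj (a : G)).toMonoidHom := by
    intro a
    rw [Subgroup.map_sup, map_conj_subtype, map_subgroupOf A H hHA]
  constructor
  · intro h
    refine ⟨?_, ?_⟩
    · intro a
      obtain ⟨x, hx, hHx⟩ := h (a : G)
      rw [← key a] at hx
      obtain ⟨x', hx', rfl⟩ := hx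
      refine ⟨x', hx', ?_⟩
      apply Subgroup.map_injective A.subtype_injective
      rw [map_conj_subtype, map_conj_subtype, map_subgroupOf A H hHA]
      exact hHx
    · rw [eq_top_iff]
      intro g _
      obtain ⟨x, hx, hHx⟩ := h g
      have hxA : x ∈ A := (sup_le hHA (hconjA g)) hx
      have hn : x⁻¹ * g ∈ Subgroup.normalizer (H : Set G) := by
        rw [mem_normalizer_iff_conjMap, conjMap_mul, hHx, conjMap_inv_conjMap]
      have : g = x * (x⁻¹ * g) := by group
      rw [this]
      exact Subgroup.mul_mem _ (Subgroup.mem_sup_left hxA) (Subgroup.mem_sup_right hn)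
  · rintro ⟨hp, htop⟩ g
    have hg : g ∈ A ⊔ Subgroup.normalizer (H : Set G) := by rw [htop]; trivial
    rw [Subgroup.mem_sup_of_normal_left] at hg
    obtain ⟨a, ha, n, hn, rfl⟩ := hg
    rw [mem_normalizer_iff_conjMap] at hn
    have e1 : H.map (MulAut.conj (a * n)).toMonoidHom = H.map (MulAut.conj a).toMonoidHom := by
      rw [conjMap_mul, hn]
    rw [e1]
    obtain ⟨x', hx', hHx'⟩ := hp ⟨a, ha⟩
    refine ⟨(x' : G), ?_, ?_⟩
    · rw [← key ⟨a, ha⟩]
      exact ⟨x', hx', rfl⟩
    · have := congrArg (Subgroup.map A.subtype) hHx'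
      rw [map_conj_subtype, map_conj_subtype, map_subgroupOf A H hHA] at this
      exact this

end Cfsg.Agent.S3821
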