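import Cfsg.Statements.S3825


set_option autoImplicit false
open Cfsg

namespace Cfsg.Agent.S3825



/-- Let U be a subgroup of a finite group H and w an involution of H normalizing U and commuting with exactly two elements of U, the identity and y. If V is a non-cyclic elementary abelian 2-subgroup of U containing y which is normal in U and invariant under w, then V is a Sylow 2-subgroup of U, V has order 4, and U/V is abelian. -/
theorem result {H : Type*} [Group H] [Finite H] (U : Subgroup H) (w : H) (hw : orderOf w = 2)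
    (hwU : w ∈ Subgroup.normalizer (U : Set H)) (y : H) (hy : y ≠ 1) (hyU : y ∈ U)
    (hfix : ∀ u ∈ U, w * u * w⁻¹ = u ↔ (u = 1 ∨ u = y))
    (V : Subgroup H) (hVU : V ≤ U) (hVn : (V.subgroupOf U).Normal) (hVw : ∀ v ∈ V, w * v * w⁻¹ ∈ V)
    (hVe : Cfsg.IsElementaryAbelian 2 V) (hVc : ¬ IsCyclic ↥V) (hyV : y ∈ V) :
    ¬ 2 ∣ V.relIndex U ∧ Nat.card ↥V = 4 ∧ ⁅U, U⁆ ≤ V := by
  classical
  have hw2 : w * w = 1 := by
    have h := pow_orderOf_eq_one w
    rw [hw, pow_two] at h
    exact h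
  have hwinv : w⁻¹ = w := inv_eq_of_mul_eq_one_left hw2
  have hcU : ∀ u ∈ U, w * u * w⁻¹ ∈ U := fun u hu =>
    (Subgroup.mem_normalizer_iff.mp hwU u).mp hu
  have hcc : ∀ u : H, w * (w * u * w⁻¹) * w⁻¹ = u := by
    intro u
    rw [hwinv]
    calc w * (w * u * w) * w = (w * w) * u * (w * w) := by group
      _ = u := by rw [hw2, one_mul, mul_one]
  have hcmul : ∀ a b : H, w * (a * b) * w⁻¹ = (w * a * w⁻¹) * (w * b * w⁻¹) := by
    intro a b
    group
  have hVcomm : ∀ a ∈ V, ∀ b ∈ V, a * b = b * a := by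
    intro a ha b hb
    have h1 := isMulCommutative_iff.mp hVe.1 (⟨a, ha⟩ : V) ⟨b, hb⟩
    exact congrArg Subtype.val h1
  have hV2 : ∀ a ∈ V, a * a = 1 := by
    intro a ha
    have h := hVe.2 a ha
    rwa [pow_two] at h
  have hVinv : ∀ a ∈ V, a⁻¹ = a := fun a ha => inv_eq_of_mul_eq_one_left (hV2 a ha)
  have hfixV : ∀ v ∈ V, w * v * w⁻¹ = v → v = 1 ∨ v = y := fun v hv h => (hfix v (hVU hv)).mp h
  -- fixed products
  have hprod : ∀ v ∈ V, v * (w * v * w⁻¹) = 1 ∨ v * (w * v * w⁻¹) = y := by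
    intro v hv
    apply hfixV _ (V.mul_mem hv (hVw v hv))
    rw [hcmul, hcc]
    exact (hVcomm _ hv _ (hVw v hv)).symm
  have hprod1 : ∀ v ∈ V, v * (w * v * w⁻¹) = 1 → v = 1 ∨ v = y := by
    intro v hv h
    apply hfixV v hv
    have h1 : w * v * w⁻¹ = v⁻¹ := (inv_eq_of_mul_eq_one_right h).symm
    rw [h1, hVinv v hv]
  obtain ⟨v₀, hv₀V, hv₀1, hv₀y⟩ : ∃ v₀ ∈ V, v₀ ≠ 1 ∧ v₀ ≠ y := by
    by_contra hno
    push Not at hno
    apply hVc
    rw [isCyclic_iff_exists_zpowers_eq_top]
    refine ⟨⟨y, hyV⟩, (Subgroup.eq_top_iff' _).mpr ?_⟩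
    intro v
    by_cases hv1 : v.1 = 1
    · have : v = 1 := Subtype.ext hv1
      rw [this]
      exact one_mem _
    · have hvy : v = ⟨y, hyV⟩ := Subtype.ext (hno v.1 v.2 hv1)
      rw [hvy]
      exact Subgroup.mem_zpowers _
  have hv₀ : v₀ * (w * v₀ * w⁻¹) = y := by
    rcases hprod v₀ hv₀V with h | h
    · rcases hprod1 v₀ hv₀V h with h1 | h1
      · exact absurd h1 hv₀1
      · exact absurd h1 hv₀y
    · exact h
  have hcv₀ : w * v₀ * w⁻¹ = v₀ * y := by
    have h1 : w * v₀ * w⁻¹ = v₀⁻¹ * y := by rw [← hv₀]; group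
    rw [h1, hVinv v₀ hv₀V]
  have hyy : y * y = 1 := hV2 y hyV
  -- key: fixed-point-freeness modulo V
  have hF : ∀ u ∈ U, u⁻¹ * (w * u * w⁻¹) ∈ V → u ∈ V := by
    intro u hu hv
    have hcu : w * u * w⁻¹ = u * (u⁻¹ * (w * u * w⁻¹)) := by group
    have h1 : (u⁻¹ * (w * u * w⁻¹)) * (w * (u⁻¹ * (w * u * w⁻¹)) * w⁻¹) = 1 := by
      have h2 : w * (u⁻¹ * (w * u * w⁻¹)) * w⁻¹ = (w * u * w⁻¹)⁻¹ * u := by
        rw [hcmul, hcc]
        group
      rw [h2]
      group
    rcases hprod1 _ hv h1 with h3 | h3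
    · have h4 : w * u * w⁻¹ = u := by
        rw [hcu, h3, mul_one]
      rcases (hfix u hu).mp h4 with h5 | h5
      · rw [h5]; exact V.one_mem
      · rw [h5]; exact hyV
    · have h4 : w * u * w⁻¹ = u * y := by
        rw [hcu, h3]
      have h5 : w * (u * v₀) * w⁻¹ = u * v₀ := by
        rw [hcmul, h4, hcv₀]
        calc u * y * (v₀ * y) = u * (y * v₀) * y := by group
          _ = u * (v₀ * y) * y := by rw [hVcomm y hyV v₀ hv₀V]
          _ = u * v₀ * (y * y) := by group
          _ = u * v₀ := by rw [hyy, mul_one]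
      have h6 : u * v₀ ∈ V := by
        rcases (hfix (u * v₀) (U.mul_mem hu (hVU hv₀V))).mp h5 with h7 | h7
        · rw [h7]; exact V.one_mem
        · rw [h7]; exact hyV
      have e : u = (u * v₀) * v₀⁻¹ := by group
      rw [e]
      exact V.mul_mem h6 (V.inv_mem hv₀V)
  -- the order of V
  have hcard : Nat.card ↥V = 4 := by
    have hsub : (V : Set H) ⊆ {1, y, v₀, v₀ * y} := by
      intro v hv
      have hv' : v ∈ V := hv
      rcases hprod v hv' with h | h
      · rcases hprod1 v hv' h with h1 | h1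
        · rw [h1]; simp
        · rw [h1]; simp
      · have hvv₀ : (v * v₀) * (w * (v * v₀) * w⁻¹) = 1 := by
          rw [hcmul]
          calc v * v₀ * (w * v * w⁻¹ * (w * v₀ * w⁻¹))
              = v * (v₀ * (w * v * w⁻¹)) * (w * v₀ * w⁻¹) := by group
            _ = v * ((w * v * w⁻¹) * v₀) * (w * v₀ * w⁻¹) := by
                rw [hVcomm v₀ hv₀V _ (hVw v hv')]
            _ = (v * (w * v * w⁻¹)) * (v₀ * (w * v₀ * w⁻¹)) := by group
            _ = 1 := by rw [h, hv₀, hyy]
        rcases hprod1 _ (V.mul_mem hv' hv₀V) hvv₀ with h1 | h1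
        · have e : v = v₀ := by
            have e1 : v = (v * v₀) * v₀⁻¹ := by group
            rw [e1, h1, one_mul, hVinv v₀ hv₀V]
          rw [e]; simp
        · have e : v = v₀ * y := by
            have e1 : v = (v * v₀) * v₀⁻¹ := by group
            rw [e1, h1, hVinv v₀ hv₀V]
            exact hVcomm y hyV v₀ hv₀V
          rw [e]; simp
    have hle : Nat.card ↥V ≤ 4 := by
      have h1 : Nat.card ↥V = (V : Set H).ncard := (Nat.card_coe_set_eq (V : Set H))
      rw [h1]
      have h2 := Set.ncard_le_ncard hsub (Set.toFinite _)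
      have h3 : ({1, y, v₀, v₀ * y} : Set H).ncard ≤ 4 := by
        have a1 := Set.ncard_insert_le (1 : H) {y, v₀, v₀ * y}
        have a2 := Set.ncard_insert_le y {v₀, v₀ * y}
        have a3 := Set.ncard_insert_le v₀ {v₀ * y}
        have a4 := Set.ncard_singleton (v₀ * y)
        omega
      omega
    have hpg : IsPGroup 2 ↥V := by
      intro v
      refine ⟨1, ?_⟩
      apply Subtype.ext
      have := hVe.2 v.1 v.2
      simpa using this
    obtain ⟨k, hk⟩ := IsPGroup.iff_card.mp hpg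
    have hk2 : 2 ≤ k := by
      by_contra hlt
      apply hVc
      have hk' : k = 0 ∨ k = 1 := by omega
      rcases hk' with rfl | rfl
      · rw [pow_zero] at hk
        haveI : Subsingleton ↥V := (Nat.card_eq_one_iff_unique.mp hk).1
        infer_instance
      · rw [pow_one] at hk
        exact isCyclic_of_prime_card hk
    have h4 : 2 ^ 2 ≤ 2 ^ k := Nat.pow_le_pow_right (by norm_num) hk2
    rw [hk] at hle ⊢
    omega
  -- the quotient
  haveI := hVn
  let cU : ↥U →* ↥U :=
    { toFun := fun u => ⟨w * u.1 * w⁻¹, hcU u.1 u.2⟩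
      map_one' := by
        apply Subtype.ext
        simp
      map_mul' := by
        intro a b
        apply Subtype.ext
        exact hcmul a.1 b.1 }
  have hle : V.subgroupOf U ≤ (V.subgroupOf U).comap cU := by
    intro u hu
    rw [Subgroup.mem_comap, Subgroup.mem_subgroupOf]
    exact hVw u.1 (Subgroup.mem_subgroupOf.mp hu)
  let cbar : (↥U ⧸ V.subgroupOf U) →* (↥U ⧸ V.subgroupOf U) :=
    QuotientGroup.map _ _ cU hle
  have hcbar : ∀ u : ↥U, cbar (u : ↥U ⧸ V.subgroupOf U) = ((cU u : ↥U) : ↥U ⧸ V.subgroupOf U) :=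
    fun u => rfl
  have hcbar2 : ∀ q, cbar (cbar q) = q := by
    intro q
    induction q using QuotientGroup.induction_on with
    | H u =>
      rw [hcbar, hcbar]
      have e : cU (cU u) = u := Subtype.ext (hcc u.1)
      rw [e]
  have hfpf : ∀ q, cbar q = q → q = 1 := by
    intro q
    induction q using QuotientGroup.induction_on with
    | H u =>
      intro h
      rw [hcbar] at h
      have h1 := QuotientGroup.eq.mp h.symm
      rw [Subgroup.mem_subgroupOf] at h1
      have h2 : u.1 ∈ V := hF u.1 u.2 h1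
      exact (QuotientGroup.eq_one_iff u).mpr (Subgroup.mem_subgroupOf.mpr h2)
  have hinj : Function.Injective (fun q : ↥U ⧸ V.subgroupOf U => q⁻¹ * cbar q) := by
    intro a b hab
    have hab' : a⁻¹ * cbar a = b⁻¹ * cbar b := hab
    have h1 : cbar (b * a⁻¹) = b * a⁻¹ := by
      rw [map_mul, map_inv]
      have e : cbar b = b * (a⁻¹ * cbar a) := by rw [hab']; group
      rw [e]
      group
    have h2 := hfpf _ h1
    have h3 : b = a := mul_inv_eq_one.mp h2
    exact h3.symm
  have hsurj := Finite.surjective_of_injective hinj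
  have hinvert : ∀ q, cbar q = q⁻¹ := by
    intro q
    obtain ⟨a, ha⟩ := hsurj q
    have ha' : a⁻¹ * cbar a = q := ha
    rw [← ha', map_mul, map_inv, hcbar2]
    group
  have hQcomm : ∀ a b : ↥U ⧸ V.subgroupOf U, a * b = b * a := by
    intro a b
    have h1 : cbar (a * b) = cbar a * cbar b := map_mul _ _ _
    rw [hinvert, hinvert, hinvert, mul_inv_rev] at h1
    have h2 : (b⁻¹ * a⁻¹)⁻¹ = (a⁻¹ * b⁻¹)⁻¹ := by rw [h1]
    simpa using h2
  refine ⟨?_, hcard, ?_⟩
  · intro hdvd
    have hidx : V.relIndex U = Nat.card (↥U ⧸ V.subgroupOf U) := Subgroup.index_eq_card _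
    rw [hidx] at hdvd
    obtain ⟨q, hq⟩ := exists_prime_orderOf_dvd_card' 2 hdvd
    have hq2 : q * q = 1 := by
      have h := pow_orderOf_eq_one q
      rw [hq, pow_two] at h
      exact h
    have hqinv : q⁻¹ = q := inv_eq_of_mul_eq_one_left hq2
    have h1 : cbar q = q := by rw [hinvert, hqinv]
    have h2 := hfpf q h1
    rw [h2, orderOf_one] at hq
    omega
  · rw [Subgroup.commutator_le]
    intro g₁ hg₁ g₂ hg₂
    have h1 : (((⟨g₁, hg₁⟩ * ⟨g₂, hg₂⟩ * ⟨g₁, hg₁⟩⁻¹ * ⟨g₂, hg₂⟩⁻¹ : ↥U) : ↥U) :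
        ↥U ⧸ V.subgroupOf U) = 1 := by
      rw [QuotientGroup.mk_mul, QuotientGroup.mk_mul, QuotientGroup.mk_mul, QuotientGroup.mk_inv,
        QuotientGroup.mk_inv, hQcomm (⟨g₁, hg₁⟩ : ↥U) (⟨g₂, hg₂⟩ : ↥U)]
      group
    have h2 := (QuotientGroup.eq_one_iff _).mp h1
    rw [Subgroup.mem_subgroupOf] at h2
    rw [commutatorElement_def]
    exact h2

end Cfsg.Agent.S3825
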