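import Cfsg.Statements.S3838
import Cfsg.Agent.Lib_helper1_Frobenius
import Cfsg.Agent.Lib_helper1_Primitive
import Cfsg.Agent.Lib_helper1_Hall
import Cfsg.Agent.Lib_helper1_Coprime
import Cfsg.Agent.Lib_helper5_PSolv2
import Cfsg.Agent.Lib_helper5_PParts
import Cfsg.Agent.Lib_helper5_AutP2
import Cfsg.Agent.Lib_helper1_Basic

set_option autoImplicit false
open Cfsg

namespace Cfsg.Agent.S3838

universe u

open scoped Pointwise commutatorElement

theorem burnside_quot {M : Type u} [Group M] [Finite M] {p : ℕ} [Fact p.Prime] (P : Sylow p M)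
    (Q : Subgroup M) [hQn : Q.Normal] (hQP : Q ≤ (P : Subgroup M))
    (hcomm : ∀ u ∈ (P : Subgroup M), ∀ v ∈ (P : Subgroup M), u * v * u⁻¹ * v⁻¹ ∈ Q)
    (hF1 : ∀ g ∈ Subgroup.normalizer ((P : Subgroup M) : Set M), (orderOf g).Coprime p →
      ∀ u ∈ (P : Subgroup M), g * u * g⁻¹ * u⁻¹ ∈ Q) :
    Cfsg.Agent.Lib_helper1_Frobenius.NPC p (M ⧸ Q) := by
  have hp : p.Prime := Fact.out
  have hPb : ((P.mapSurjective (QuotientGroup.mk'_surjective Q) : Sylow p (M ⧸ Q)) :
      Subgroup (M ⧸ Q)) = (P : Subgroup M).map (QuotientGroup.mk' Q) :=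
    Sylow.coe_mapSurjective _ P
  have hNC : Subgroup.normalizer (((P.mapSurjective (QuotientGroup.mk'_surjective Q) :
      Sylow p (M ⧸ Q)) : Subgroup (M ⧸ Q)) : Set (M ⧸ Q)) ≤
      Subgroup.centralizer (((P.mapSurjective (QuotientGroup.mk'_surjective Q) :
      Sylow p (M ⧸ Q)) : Subgroup (M ⧸ Q)) : Set (M ⧸ Q)) := by
    intro xb hxb
    obtain ⟨x, rfl⟩ := QuotientGroup.mk'_surjective Q xb
    have hxN : x ∈ Subgroup.normalizer ((P : Subgroup M) : Set M) := by
      apply Subgroup.mem_normalizer_fintype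
      intro u hu
      have h1 : QuotientGroup.mk' Q (x * u * x⁻¹) ∈
          ((P.mapSurjective (QuotientGroup.mk'_surjective Q) : Sylow p (M ⧸ Q)) :
            Subgroup (M ⧸ Q)) := by
        rw [map_mul, map_mul, map_inv]
        exact (Subgroup.mem_normalizer_iff.mp hxb _).mp
          (by rw [hPb]; exact Subgroup.mem_map_of_mem _ hu)
      rw [hPb] at h1
      obtain ⟨v, hv, hveq⟩ := h1
      have h2 : v⁻¹ * (x * u * x⁻¹) ∈ Q := by
        have h3 : ((v : M) : M ⧸ Q) = ((x * u * x⁻¹ : M) : M ⧸ Q) := hveq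
        exact QuotientGroup.eq.mp h3
      have h3 : x * u * x⁻¹ = v * (v⁻¹ * (x * u * x⁻¹)) := by group
      rw [h3]
      exact Subgroup.mul_mem _ hv (hQP h2)
    have key : ∀ y : M, (∀ u ∈ (P : Subgroup M), y * u * y⁻¹ * u⁻¹ ∈ Q) →
        QuotientGroup.mk' Q y ∈ Subgroup.centralizer
          (((P.mapSurjective (QuotientGroup.mk'_surjective Q) : Sylow p (M ⧸ Q)) :
            Subgroup (M ⧸ Q)) : Set (M ⧸ Q)) := by
      intro y hy
      rw [Subgroup.mem_centralizer_iff]
      intro h hh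
      rw [SetLike.mem_coe, hPb] at hh
      obtain ⟨u, hu, rfl⟩ := hh
      rw [← map_mul, ← map_mul]
      have h4 := hy u hu
      have h5 : (u * y)⁻¹ * (y * u) = y⁻¹ * (u⁻¹ * (y * u * y⁻¹ * u⁻¹) * u⁻¹⁻¹) * y⁻¹⁻¹ := by
        group
      have h6 : (u * y)⁻¹ * (y * u) ∈ Q := by
        rw [h5]
        exact hQn.conj_mem _ (hQn.conj_mem _ h4 u⁻¹) y⁻¹
      exact QuotientGroup.eq.mpr h6
    obtain ⟨e, m', hm', hxo⟩ := Nat.exists_eq_pow_mul_and_not_dvd (orderOf_pos x).ne' p hp.ne_one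
    have hcop : (p ^ e).Coprime m' :=
      Nat.Coprime.pow_left e ((Nat.Prime.coprime_iff_not_dvd hp).mpr hm')
    have hmem := Cfsg.Agent.Lib_helper5_PParts.mem_of_pow_mem_of_coprime
      ((Subgroup.centralizer (((P.mapSurjective (QuotientGroup.mk'_surjective Q) :
        Sylow p (M ⧸ Q)) : Subgroup (M ⧸ Q)) : Set (M ⧸ Q))).comap (QuotientGroup.mk' Q))
      x (p ^ e) m' hcop (by
        apply key
        have ho : (orderOf (x ^ p ^ e)).Coprime p := by
          have h1 : (x ^ p ^ e) ^ m' = 1 := by rw [← pow_mul, ← hxo, pow_orderOf_eq_one]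
          exact Nat.Coprime.coprime_dvd_left (orderOf_dvd_of_pow_eq_one h1)
            ((Nat.Prime.coprime_iff_not_dvd hp).mpr hm').symm
        exact hF1 _ (Subgroup.pow_mem _ hxN _) ho) (by
        apply key
        have h1 : (x ^ m') ^ p ^ e = 1 := by
          rw [← pow_mul, mul_comm, ← hxo, pow_orderOf_eq_one]
        obtain ⟨j, -, hj⟩ := (Nat.dvd_prime_pow hp).mp (orderOf_dvd_of_pow_eq_one h1)
        have hzP : x ^ m' ∈ (P : Subgroup M) :=
          Cfsg.Agent.Lib_helper5_AutP2.mem_sylow_of_mem_normalizer P _ ⟨j, hj⟩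
            (Subgroup.pow_mem _ hxN _)
        intro u hu
        exact hcomm _ hzP u hu)
    exact hmem
  have hcompl := MonoidHom.ker_transferSylow_isComplement'
    (P.mapSurjective (QuotientGroup.mk'_surjective Q) : Sylow p (M ⧸ Q)) hNC
  refine ⟨(MonoidHom.transferSylow
    (P.mapSurjective (QuotientGroup.mk'_surjective Q) : Sylow p (M ⧸ Q)) hNC).ker,
    MonoidHom.normal_ker _, ?_, ?_⟩
  · rw [← hcompl.index_eq_card]
    exact ((Nat.Prime.coprime_iff_not_dvd hp).mpr (Sylow.not_dvd_index _)).symm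
  · obtain ⟨k, hk⟩ := IsPGroup.iff_card.mp
      (P.mapSurjective (QuotientGroup.mk'_surjective Q) : Sylow p (M ⧸ Q)).2
    exact ⟨k, by rw [hcompl.symm.index_eq_card, hk]⟩

theorem tate_aux {M : Type u} [Group M] [Finite M] {p : ℕ} [Fact p.Prime] (P : Sylow p M)
    (Q : Subgroup M) [hQn : Q.Normal] (hQP : Q ≤ (P : Subgroup M))
    (hfr : ∀ R : Subgroup M, R ≤ (P : Subgroup M) → (P : Subgroup M) ≤ Q ⊔ R →
      R = (P : Subgroup M))
    (hq : Cfsg.Agent.Lib_helper1_Frobenius.NPC p (M ⧸ Q)) :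
    Cfsg.Agent.Lib_helper1_Frobenius.NPC p M := by
  have hp : p.Prime := Fact.out
  obtain ⟨Kb, hKn, hKc, k, hKi⟩ := hq
  have hQp : IsPGroup p Q := P.2.to_le hQP
  obtain ⟨b, hb⟩ := IsPGroup.iff_card.mp hQp
  obtain ⟨H₀, hH₀card, hH₀map, hdisj⟩ :=
    Cfsg.Agent.Lib_helper5_PSolv2.exists_lift Q b hb Kb (Nat.card Kb) hKc rfl
  have hconj : ∀ x : M, MulAut.conj x • H₀ ≤ Q ⊔ H₀ := by
    intro x z hz
    rw [Cfsg.Agent.Lib_helper1_Basic.mem_conj_smul] at hz
    have h1 : QuotientGroup.mk' Q z ∈ Kb := by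
      have h2 : QuotientGroup.mk' Q (x⁻¹ * z * x) ∈ Kb := by
        rw [← hH₀map]; exact Subgroup.mem_map_of_mem _ hz
      have h3 : QuotientGroup.mk' Q z = QuotientGroup.mk' Q x *
          QuotientGroup.mk' Q (x⁻¹ * z * x) * (QuotientGroup.mk' Q x)⁻¹ := by
        rw [← map_inv, ← map_mul, ← map_mul]; congr 1; group
      rw [h3]; exact hKn.conj_mem _ h2 _
    rw [← hH₀map] at h1
    obtain ⟨h, hh, hheq⟩ := h1
    have h4 : h⁻¹ * z ∈ Q := by
      have h3 : ((h : M) : M ⧸ Q) = ((z : M) : M ⧸ Q) := hheq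
      exact QuotientGroup.eq.mp h3
    have h5 : z = (h * (h⁻¹ * z) * h⁻¹) * h := by group
    rw [h5]
    exact Subgroup.mul_mem _ (Subgroup.mem_sup_left (hQn.conj_mem _ h4 h))
      (Subgroup.mem_sup_right hh)
  have hfrat : ∀ x : M, ∃ a ∈ Q, a⁻¹ * x ∈ Subgroup.normalizer (H₀ : Set M) := by
    intro x
    obtain ⟨a, ha, hax⟩ := Cfsg.Agent.Lib_helper1_Primitive.sz_conj_rel Q H₀ (MulAut.conj x • H₀)
      (by rw [Subgroup.normalizer_eq_top]; exact le_top) (hconj x)
      (Cfsg.Agent.Lib_helper1_Hall.card_conj_smul x H₀)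
      (by rw [hb, hH₀card]; exact Nat.Coprime.pow_left b hKc.symm)
      (Or.inl (by haveI := hQp.isNilpotent; infer_instance))
    refine ⟨a, ha, ?_⟩
    apply Cfsg.Agent.Lib_helper1_Coprime.mem_normalizer_of_conj_smul_eq
    rw [map_mul, mul_smul, ← hax, ← mul_smul, ← map_mul, inv_mul_cancel, map_one, one_smul]
  have hPN : (P : Subgroup M) ≤ Subgroup.normalizer (H₀ : Set M) := by
    have hR := hfr ((P : Subgroup M) ⊓ Subgroup.normalizer (H₀ : Set M)) inf_le_left (by
      intro u hu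
      obtain ⟨a, ha, han⟩ := hfrat u
      have h1 : u = a * (a⁻¹ * u) := by group
      rw [h1]
      exact Subgroup.mul_mem _ (Subgroup.mem_sup_left ha) (Subgroup.mem_sup_right
        ⟨Subgroup.mul_mem _ (Subgroup.inv_mem _ (hQP ha)) hu, han⟩))
    rw [← hR]; exact inf_le_right
  have hH₀n : H₀.Normal := by
    rw [← Subgroup.normalizer_eq_top_iff, eq_top_iff]
    intro x _
    obtain ⟨a, ha, han⟩ := hfrat x
    have h1 : x = a * (a⁻¹ * x) := by group
    rw [h1]
    exact Subgroup.mul_mem _ (hPN (hQP ha)) han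
  refine ⟨H₀, hH₀n, by rw [hH₀card]; exact hKc, b + k, ?_⟩
  have h1 : Nat.card M = Nat.card (M ⧸ Q) * Nat.card Q :=
    Subgroup.card_eq_card_quotient_mul_card_subgroup Q
  have h2 : Nat.card (M ⧸ Q) = Nat.card Kb * p ^ k := by
    rw [← hKi]; exact (Subgroup.card_mul_index Kb).symm
  have h3 := Subgroup.card_mul_index H₀
  rw [hH₀card, h1, h2, hb] at h3
  have hpos : 0 < Nat.card Kb := Nat.card_pos
  have h4 : Nat.card Kb * H₀.index = Nat.card Kb * p ^ (b + k) := by rw [h3, pow_add]; ring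
  exact Nat.eq_of_mul_eq_mul_left hpos h4



/-- Let G be a finite group with Sylow p-subgroup P such that N_G(P) has a normal p-complement. Then N_G(Q) has a normal p-complement for every subgroup Q with [P, P] ≤ Q ≤ Φ(P). -/
theorem result {G : Type*} [Group G] [Finite G] {p : ℕ} [Fact p.Prime] (P : Sylow p G) (hN : Cfsg.HasNormalPComplement p ↥(Subgroup.normalizer ((P : Subgroup G) : Set G))) (Q : Subgroup G) (h1 : (commutator ↥(P : Subgroup G)).map (P : Subgroup G).subtype ≤ Q) (h2 : Q ≤ (frattini ↥(P : Subgroup G)).map (P : Subgroup G).subtype) : Cfsg.HasNormalPComplement p ↥(Subgroup.normalizer (Q : Set G)) := by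
  have hp : p.Prime := Fact.out
  have hQP : Q ≤ (P : Subgroup G) := h2.trans (Subgroup.map_subtype_le _)
  have hcommQ : ∀ u ∈ (P : Subgroup G), ∀ v ∈ (P : Subgroup G), u * v * u⁻¹ * v⁻¹ ∈ Q := by
    intro u hu v hv
    apply h1
    refine ⟨⁅(⟨u, hu⟩ : (P : Subgroup G)), ⟨v, hv⟩⁆, ?_, rfl⟩
    rw [SetLike.mem_coe, commutator_def]
    exact Subgroup.commutator_mem_commutator (Subgroup.mem_top _) (Subgroup.mem_top _)
  have hPM : (P : Subgroup G) ≤ Subgroup.normalizer (Q : Set G) := by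
    intro u hu
    apply Subgroup.mem_normalizer_fintype
    intro q hq
    have h3 : u * q * u⁻¹ = (u * q * u⁻¹ * q⁻¹) * q := by group
    rw [h3]
    exact Q.mul_mem (hcommQ u hu q (hQP hq)) hq
  have hF1 : ∀ g ∈ Subgroup.normalizer ((P : Subgroup G) : Set G), (orderOf g).Coprime p →
      ∀ u ∈ (P : Subgroup G), g * u = u * g := by
    intro g hg hgo u hu
    have hfrob := Cfsg.Agent.Lib_helper1_Frobenius.frobHyp_of_npc
      (Cfsg.Agent.Lib_helper1_Frobenius.npc_of_hasNormalPComplement hN)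
    have h3 := hfrob ((P : Subgroup G).subgroupOf (Subgroup.normalizer ((P : Subgroup G) : Set G)))
      P.2.comap_subtype ⟨g, hg⟩ (by
        rw [Subgroup.normalizer_eq_top (H := (P : Subgroup G).subgroupOf
          (Subgroup.normalizer ((P : Subgroup G) : Set G)))]
        trivial)
      (by rw [Subgroup.orderOf_mk]; exact hgo)
    rw [Subgroup.mem_centralizer_iff] at h3
    have h4 := h3 ⟨u, Subgroup.le_normalizer hu⟩ (Subgroup.mem_subgroupOf.mpr hu)
    exact (congrArg Subtype.val h4).symm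
  have hQP' : Q.subgroupOf (Subgroup.normalizer (Q : Set G)) ≤
      ((P.subtype hPM : Sylow p (Subgroup.normalizer (Q : Set G))) :
        Subgroup (Subgroup.normalizer (Q : Set G))) := by
    rw [Sylow.coe_subtype]
    intro x hx
    exact Subgroup.mem_subgroupOf.mpr (hQP (Subgroup.mem_subgroupOf.mp hx))
  have hB := burnside_quot (P.subtype hPM) (Q.subgroupOf (Subgroup.normalizer (Q : Set G))) hQP'
    (by
      rw [Sylow.coe_subtype]
      intro u hu v hv
      rw [Subgroup.mem_subgroupOf] at hu hv ⊢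
      exact hcommQ _ hu _ hv) (by
      intro g hg hgo u hu
      rw [Sylow.coe_subtype] at hg hu
      have hgN : (g : G) ∈ Subgroup.normalizer ((P : Subgroup G) : Set G) := by
        apply Subgroup.mem_normalizer_fintype
        intro v hv
        have h3 := (Subgroup.mem_normalizer_iff.mp hg ⟨v, hPM hv⟩).mp
          (Subgroup.mem_subgroupOf.mpr hv)
        exact Subgroup.mem_subgroupOf.mp h3
      have h5 := hF1 g hgN (by rw [Subgroup.orderOf_coe]; exact hgo) u
        (Subgroup.mem_subgroupOf.mp hu)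
      rw [Subgroup.mem_subgroupOf]
      show (g : G) * (u : G) * (g : G)⁻¹ * (u : G)⁻¹ ∈ Q
      rw [h5]
      simp)
  have hT := tate_aux (P.subtype hPM) (Q.subgroupOf (Subgroup.normalizer (Q : Set G))) hQP' (by
    intro R hRP hPR
    rw [Sylow.coe_subtype] at hRP hPR ⊢
    apply le_antisymm hRP
    -- Frattini argument inside P
    have htop : ((R.map (Subgroup.normalizer (Q : Set G)).subtype).subgroupOf (P : Subgroup G)) ⊔
        frattini ↥(P : Subgroup G) = ⊤ := by
      rw [eq_top_iff]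
      intro u _
      have hu' : (⟨(u : G), hPM u.2⟩ : Subgroup.normalizer (Q : Set G)) ∈
          (P : Subgroup G).subgroupOf (Subgroup.normalizer (Q : Set G)) :=
        Subgroup.mem_subgroupOf.mpr u.2
      have h3 := hPR hu'
      have h4 : (⟨(u : G), hPM u.2⟩ : Subgroup.normalizer (Q : Set G)) ∈
          ((Q.subgroupOf (Subgroup.normalizer (Q : Set G)) ⊔ R :
            Subgroup (Subgroup.normalizer (Q : Set G))) :
            Set (Subgroup.normalizer (Q : Set G))) := h3
      rw [Subgroup.normal_mul] at h4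
      obtain ⟨a, ha, r, hr, har⟩ := Set.mem_mul.mp h4
      have haQ : (a : G) ∈ Q := Subgroup.mem_subgroupOf.mp ha
      have hrP : (r : G) ∈ (P : Subgroup G) := Subgroup.mem_subgroupOf.mp (hRP hr)
      have hu_eq : u = (⟨(a : G), hQP haQ⟩ : (P : Subgroup G)) * ⟨(r : G), hrP⟩ := by
        apply Subtype.ext
        have := congrArg Subtype.val har
        exact this.symm
      rw [hu_eq]
      refine Subgroup.mul_mem _ (Subgroup.mem_sup_right ?_) (Subgroup.mem_sup_left ?_)
      · obtain ⟨f, hf, hfa⟩ := h2 haQ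
        have : f = (⟨(a : G), hQP haQ⟩ : (P : Subgroup G)) := Subtype.ext hfa
        rw [← this]
        exact hf
      · rw [Subgroup.mem_subgroupOf]
        exact ⟨r, hr, rfl⟩
    have hRtop := frattini_nongenerating htop
    intro u hu
    have huP : (u : G) ∈ (P : Subgroup G) := Subgroup.mem_subgroupOf.mp hu
    have h3 : (⟨(u : G), huP⟩ : (P : Subgroup G)) ∈
        (R.map (Subgroup.normalizer (Q : Set G)).subtype).subgroupOf (P : Subgroup G) := by
      rw [hRtop]; trivial
    rw [Subgroup.mem_subgroupOf] at h3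
    obtain ⟨r, hr, hru⟩ := h3
    have : r = u := Subtype.ext hru
    rw [← this]
    exact hr) hB
  exact Cfsg.Agent.Lib_helper1_Frobenius.hasNormalPComplement_of_npc hT

end Cfsg.Agent.S3838
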