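import Cfsg.Statements.S3858
import Cfsg.Agent.Lib_helper1_AlmostSimple

set_option autoImplicit false
open Cfsg

namespace Cfsg.Agent.S3858

/-- Let G be a finite group with a normal non-abelian simple subgroup T whose centralizer is trivial (G almost simple with socle T), r a prime and R a Sylow r-subgroup of G meeting T nontrivially. Then R lies in exactly one maximal subgroup of G if and only if G has exactly one conjugacy class of maximal subgroups whose index is prime to r. -/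
theorem result {G : Type*} [Group G] [Finite G] (T : Subgroup G) [T.Normal] (hT : IsSimpleGroup T) (hna : ¬ IsMulCommutative T)
    (hC : Subgroup.centralizer (T : Set G) = ⊥) {r : ℕ} [Fact r.Prime] (R : Sylow r G) (hR0 : (R : Subgroup G) ⊓ T ≠ ⊥) :
    (∃! M : Subgroup G, IsCoatom M ∧ (R : Subgroup G) ≤ M) ↔
      ((∃ M : Subgroup G, IsCoatom M ∧ ¬ r ∣ M.index) ∧
        ∀ M₁ M₂ : Subgroup G, IsCoatom M₁ → ¬ r ∣ M₁.index → IsCoatom M₂ → ¬ r ∣ M₂.index → ∃ g : G, M₂ = M₁.map (MulAut.conj g).toMonoidHom) := by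
  classical
  have hr : r.Prime := Fact.out
  have hmem : ∀ (A : Subgroup G) (g x : G),
      x ∈ A.map (MulAut.conj g).toMonoidHom ↔ g⁻¹ * x * g ∈ A :=
    fun A g x => Cfsg.Agent.Lib_helper7_Sylow.mem_map_conj A g x
  have hco : ∀ (M : Subgroup G) (g : G), IsCoatom M →
      IsCoatom (M.map (MulAut.conj g).toMonoidHom) := by
    intro M g hM
    exact (OrderIso.isCoatom_iff (MulEquiv.mapSubgroup (MulAut.conj g)) M).mpr hM
  have hidx : ∀ (M : Subgroup G), (R : Subgroup G) ≤ M → ¬ r ∣ M.index :=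
    fun M hRM hd => R.not_dvd_index (dvd_trans hd (Subgroup.index_dvd_of_le hRM))
  constructor
  · rintro ⟨M, ⟨hMc, hRM⟩, huM⟩
    refine ⟨⟨M, hMc, hidx M hRM⟩, ?_⟩
    have conjM : ∀ M₁ : Subgroup G, IsCoatom M₁ → ¬ r ∣ M₁.index →
        ∃ a : G, M₁.map (MulAut.conj a).toMonoidHom = M := by
      intro M₁ h1 h1i
      obtain ⟨g, hg⟩ := Lib_helper1_AlmostSimple.exists_conj_le R M₁ h1i
      refine ⟨g⁻¹, huM _ ⟨hco M₁ g⁻¹ h1, ?_⟩⟩
      intro x hx
      rw [hmem, inv_inv]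
      exact hg x hx
    intro M₁ M₂ h1 h1i h2 h2i
    obtain ⟨a₁, e₁⟩ := conjM M₁ h1 h1i
    obtain ⟨a₂, e₂⟩ := conjM M₂ h2 h2i
    refine ⟨a₂⁻¹ * a₁, ?_⟩
    ext x
    rw [hmem]
    have h3 : x ∈ M₂ ↔ a₂ * x * a₂⁻¹ ∈ M₂.map (MulAut.conj a₂).toMonoidHom := by
      rw [hmem]
      have e : a₂⁻¹ * (a₂ * x * a₂⁻¹) * a₂ = x := by group
      rw [e]
    rw [h3, e₂, ← e₁, hmem]
    have e : a₁⁻¹ * (a₂ * x * a₂⁻¹) * a₁ = (a₂⁻¹ * a₁)⁻¹ * x * (a₂⁻¹ * a₁) := by group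
    rw [e]
  · rintro ⟨⟨M₀, hM₀, hM₀i⟩, hconj⟩
    have hX : Subgroup.normalizer (((R : Subgroup G) ⊓ T : Subgroup G) : Set G) ≠ ⊤ :=
      Lib_helper1_AlmostSimple.normalizer_ne_top T hT hna R hR0
    obtain ⟨M₁, hM₁, hXM₁⟩ := (eq_top_or_exists_le_coatom _).resolve_left hX
    have hNX : Subgroup.normalizer ((R : Subgroup G) : Set G) ≤ M₁ :=
      (Lib_helper1_AlmostSimple.le_normalizer_inf T R).trans hXM₁
    have hRM₁ : (R : Subgroup G) ≤ M₁ := Subgroup.le_normalizer.trans hNX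
    refine ⟨M₁, ⟨hM₁, hRM₁⟩, ?_⟩
    rintro M ⟨hM, hRM⟩
    obtain ⟨g, hg⟩ := hconj M₁ M hM₁ (hidx M₁ hRM₁) hM (hidx M hRM)
    have hD : IsPGroup r ((R : Subgroup G).map (MulAut.conj g⁻¹).toMonoidHom) :=
      R.isPGroup'.map _
    have hDM : (R : Subgroup G).map (MulAut.conj g⁻¹).toMonoidHom ≤ M₁ := by
      rintro _ ⟨x, hx, rfl⟩
      have h4 : x ∈ M₁.map (MulAut.conj g).toMonoidHom := by rw [← hg]; exact hRM hx
      rw [hmem] at h4
      show g⁻¹ * x * g⁻¹⁻¹ ∈ M₁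
      rw [inv_inv]; exact h4
    obtain ⟨w, hw, hwD⟩ := Cfsg.Agent.Lib_helper7_SE2.exists_conj_le_of_le R M₁ hRM₁ _ hD hDM
    have hn : w * g⁻¹ ∈ Subgroup.normalizer ((R : Subgroup G) : Set G) := by
      apply Lib_helper1_Basic.mem_normalizer_of_conj_le
      intro x hx
      have h5 := hwD (g⁻¹ * x * g) ⟨x, hx, by simp⟩
      have e : w * g⁻¹ * x * (w * g⁻¹)⁻¹ = w * (g⁻¹ * x * g) * w⁻¹ := by group
      rw [e]; exact h5
    have hgM : g ∈ M₁ := by
      have h6 : w⁻¹ * (w * g⁻¹) ∈ M₁ := M₁.mul_mem (M₁.inv_mem hw) (hNX hn)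
      rw [inv_mul_cancel_left] at h6
      have := M₁.inv_mem h6
      rwa [inv_inv] at this
    rw [hg]
    ext x
    rw [hmem]
    constructor
    · intro h7
      have := M₁.mul_mem (M₁.mul_mem hgM h7) (M₁.inv_mem hgM)
      have e : g * (g⁻¹ * x * g) * g⁻¹ = x := by group
      rwa [e] at this
    · intro h7
      exact M₁.mul_mem (M₁.mul_mem (M₁.inv_mem hgM) h7) hgM

end Cfsg.Agent.S3858
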