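import Cfsg.Statements.S3859
import Cfsg.Agent.Lib_helper1_AlmostSimple

set_option autoImplicit false
open Cfsg

namespace Cfsg.Agent.S3859

/-- Let G be a finite group with a normal non-abelian simple subgroup T whose centralizer is trivial (G almost simple with socle T), r a prime and R a Sylow r-subgroup of G meeting T nontrivially. If R lies in exactly one maximal subgroup of G, then G/T is an r-group. -/
theorem result {G : Type*} [Group G] [Finite G] (T : Subgroup G) [T.Normal] (hT : IsSimpleGroup T) (hna : ¬ IsMulCommutative T)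
    (hC : Subgroup.centralizer (T : Set G) = ⊥) {r : ℕ} [Fact r.Prime] (R : Sylow r G) (hR0 : (R : Subgroup G) ⊓ T ≠ ⊥)
    (huniq : ∃! M : Subgroup G, IsCoatom M ∧ (R : Subgroup G) ≤ M) : IsPGroup r (G ⧸ T) := by
  classical
  obtain ⟨M, ⟨hMc, hRM⟩, huM⟩ := huniq
  have hX : Subgroup.normalizer (((R : Subgroup G) ⊓ T : Subgroup G) : Set G) ≠ ⊤ :=
    Lib_helper1_AlmostSimple.normalizer_ne_top T hT hna R hR0
  have key : ∀ Y : Subgroup G, Y ≠ ⊤ → (R : Subgroup G) ≤ Y → Y ≤ M := by
    intro Y hY hRY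
    obtain ⟨M', hM', hYM'⟩ := (eq_top_or_exists_le_coatom Y).resolve_left hY
    have := huM M' ⟨hM', hRY.trans hYM'⟩
    rw [← this]; exact hYM'
  have hXM : Subgroup.normalizer (((R : Subgroup G) ⊓ T : Subgroup G) : Set G) ≤ M :=
    key _ hX (Subgroup.le_normalizer.trans (Lib_helper1_AlmostSimple.le_normalizer_inf T R))
  have hRT : (R : Subgroup G) ⊔ T = ⊤ := by
    by_contra hne
    have hTM : T ≤ M := le_sup_right.trans (key _ hne le_sup_left)
    have : (⊤ : Subgroup G) ≤ M := by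
      rw [← Lib_helper1_AlmostSimple.frattini T R]; exact sup_le hXM hTM
    exact hMc.1 (top_le_iff.mp this)
  intro q
  obtain ⟨g, rfl⟩ := QuotientGroup.mk_surjective q
  have hg : g ∈ (R : Subgroup G) ⊔ T := by rw [hRT]; trivial
  rw [Subgroup.mem_sup_of_normal_right] at hg
  obtain ⟨x, hx, t, ht, rfl⟩ := hg
  obtain ⟨k, hk⟩ := R.isPGroup' ⟨x, hx⟩
  refine ⟨k, ?_⟩
  have hxk : x ^ r ^ k = 1 := congrArg Subtype.val hk
  have e : ((x * t : G) : G ⧸ T) = (x : G ⧸ T) := by
    rw [QuotientGroup.eq]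
    have : (x * t)⁻¹ * x = t⁻¹ := by group
    rw [this]; exact T.inv_mem ht
  rw [e, ← QuotientGroup.mk_pow, hxk]; rfl

end Cfsg.Agent.S3859
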