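import Cfsg.Statements.S3862
import Cfsg.Agent.Lib_helper1_Frobenius
import Cfsg.Agent.Lib_helper1_PGroup
import Cfsg.Agent.Lib_helper5_Fitting

set_option autoImplicit false
open Cfsg

namespace Cfsg.Agent.S3862

theorem conj_pow_eq {G : Type*} [Group G] (a x y : G) (hy : a * x * a⁻¹ = y * x)
    (hc : a * y = y * a) : ∀ k : ℕ, a ^ k * x * (a ^ k)⁻¹ = y ^ k * x := by
  intro k
  induction k with
  | zero => simp
  | succ k ih =>
    have e : a ^ (k + 1) * x * (a ^ (k + 1))⁻¹ = a * (a ^ k * x * (a ^ k)⁻¹) * a⁻¹ := by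
      rw [pow_succ']; group
    have hc' : a * y ^ k = y ^ k * a := (Commute.pow_right (show Commute a y from hc) k).eq
    rw [e, ih, pow_succ]
    calc a * (y ^ k * x) * a⁻¹ = (a * y ^ k) * x * a⁻¹ := by group
      _ = y ^ k * (a * x * a⁻¹) := by rw [hc']; group
      _ = y ^ k * y * x := by rw [hy]; group

theorem cent_aux {G : Type*} [Group G] [Finite G]
    (h : ∀ x : G, (∃ j : ℕ, orderOf x = 2 ^ j) → IsConj x x⁻¹ → x ∈ Subgroup.center G)
    (a : G) (ha : (orderOf a).Coprime 2) :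
    ∀ (n : ℕ) (Q : Subgroup G), Nat.card Q = n → IsPGroup 2 Q →
      a ∈ Subgroup.normalizer (Q : Set G) → a ∈ Subgroup.centralizer (Q : Set G) := by
  intro n
  induction n using Nat.strong_induction_on with
  | _ n ih =>
    intro Q hn hQ haQ
    have haQ' : ∀ x ∈ Q, a * x * a⁻¹ ∈ Q := fun x hx =>
      (Subgroup.mem_normalizer_iff.mp haQ x).mp hx
    have h2el : ∀ y ∈ Q, ∃ j : ℕ, orderOf y = 2 ^ j := by
      intro y hy
      obtain ⟨k, hk⟩ := hQ ⟨y, hy⟩
      have h1 : y ^ 2 ^ k = 1 := congrArg Subtype.val hk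
      obtain ⟨j, -, hj⟩ := (Nat.dvd_prime_pow Nat.prime_two).mp (orderOf_dvd_of_pow_eq_one h1)
      exact ⟨j, hj⟩
    -- a centralizes all squares
    have hsq : ∀ x ∈ Q, a * x ^ 2 = x ^ 2 * a := by
      rcases eq_top_or_exists_le_coatom (⊥ : Subgroup ↥Q) with hbt | ⟨M, hM, -⟩
      · intro x hx
        have h1 : (⟨x, hx⟩ : ↥Q) ∈ (⊥ : Subgroup ↥Q) := by rw [hbt]; trivial
        rw [Subgroup.mem_bot] at h1
        have h2 : x = 1 := congrArg Subtype.val h1
        rw [h2]; simp
      · have hQ' : IsPGroup 2 ↥Q := hQ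
        have hS_le : Subgroup.closure {z : G | ∃ x ∈ Q, z = x ^ 2} ≤ M.map Q.subtype := by
          rw [Subgroup.closure_le]
          rintro z ⟨x, hx, rfl⟩
          exact ⟨⟨x, hx⟩ ^ 2, Cfsg.Agent.Lib_helper1_PGroup.pow_p_mem_coatom hQ' M hM ⟨x, hx⟩, rfl⟩
        have hSQ : Subgroup.closure {z : G | ∃ x ∈ Q, z = x ^ 2} ≤ Q :=
          hS_le.trans (Subgroup.map_subtype_le M)
        have hcard : Nat.card (Subgroup.closure {z : G | ∃ x ∈ Q, z = x ^ 2}) < n := by
          have h1 := Subgroup.card_le_of_le hS_le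
          rw [Subgroup.card_map_of_injective Q.subtype_injective] at h1
          have h2 := Cfsg.Agent.Lib_helper5_Fitting.card_lt_of_lt_top (lt_top_iff_ne_top.mpr hM.1)
          omega
        have haS : a ∈ Subgroup.normalizer
            ((Subgroup.closure {z : G | ∃ x ∈ Q, z = x ^ 2} : Subgroup G) : Set G) := by
          apply Subgroup.mem_normalizer_fintype
          have hle : Subgroup.closure {z : G | ∃ x ∈ Q, z = x ^ 2} ≤
              (Subgroup.closure {z : G | ∃ x ∈ Q, z = x ^ 2}).comap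
                (MulAut.conj a).toMonoidHom := by
            rw [Subgroup.closure_le]
            rintro z ⟨x, hx, rfl⟩
            show (MulAut.conj a) (x ^ 2) ∈
              Subgroup.closure {z : G | ∃ x ∈ Q, z = x ^ 2}
            rw [MulAut.conj_apply]
            apply Subgroup.subset_closure
            refine ⟨a * x * a⁻¹, haQ' x hx, ?_⟩
            rw [conj_pow]
          intro s hs
          exact hle hs
        have hcent := ih _ hcard _ rfl (hQ.to_le hSQ) haS
        intro x hx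
        rw [Subgroup.mem_centralizer_iff] at hcent
        exact (hcent (x ^ 2) (Subgroup.subset_closure ⟨x, hx, rfl⟩)).symm
    rw [Subgroup.mem_centralizer_iff]
    intro x hx
    have hyQ : a * x * a⁻¹ * x⁻¹ ∈ Q := Q.mul_mem (haQ' x hx) (Q.inv_mem hx)
    have hyx : a * x * a⁻¹ = (a * x * a⁻¹ * x⁻¹) * x := by group
    have h1 : (a * x * a⁻¹ * x⁻¹ * x) ^ 2 = x ^ 2 := by
      rw [← hyx, conj_pow]
      rw [hsq x hx]; group
    have h2 : x * (a * x * a⁻¹ * x⁻¹) * x⁻¹ = (a * x * a⁻¹ * x⁻¹)⁻¹ := by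
      generalize a * x * a⁻¹ * x⁻¹ = y at h1
      rw [pow_two, pow_two] at h1
      have h3 : y * x * y = x := by
        have : y * x * y * x = x * x := by rw [← h1]; group
        exact mul_right_cancel this
      calc x * y * x⁻¹ = y⁻¹ * (y * x * y) * x⁻¹ := by group
        _ = y⁻¹ := by rw [h3]; group
    have hycen := h _ (h2el _ hyQ) (isConj_iff.mpr ⟨x, h2⟩)
    have hc : a * (a * x * a⁻¹ * x⁻¹) = (a * x * a⁻¹ * x⁻¹) * a :=
      (Subgroup.mem_center_iff.mp hycen a)
    have h4 := conj_pow_eq a x _ hyx hc (orderOf a)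
    rw [pow_orderOf_eq_one] at h4
    simp only [one_mul, inv_one, mul_one] at h4
    have h5 : (a * x * a⁻¹ * x⁻¹) ^ orderOf a = 1 := by
      have : (a * x * a⁻¹ * x⁻¹) ^ orderOf a * x = 1 * x := by rw [one_mul]; exact h4.symm
      exact mul_right_cancel this
    obtain ⟨j, hj⟩ := h2el _ hyQ
    have h6 : (a * x * a⁻¹ * x⁻¹) ^ 2 ^ j = 1 := by rw [← hj]; exact pow_orderOf_eq_one _
    have h7 := pow_gcd_eq_one.mpr ⟨h5, h6⟩
    rw [Nat.Coprime.gcd_eq_one (Nat.Coprime.pow_right j ha), pow_one] at h7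
    have h8 : a * x * a⁻¹ = x := by
      rw [hyx, h7, one_mul]
    calc x * a = (a * x * a⁻¹) * a := by rw [h8]
      _ = a * x := by group



/-- If every 2-element of the finite group G that is conjugate to its inverse lies in the centre of G, then G has a normal 2-complement. -/
theorem result {G : Type*} [Group G] [Finite G] (h : ∀ x : G, (∃ j : ℕ, orderOf x = 2 ^ j) → IsConj x x⁻¹ → x ∈ Subgroup.center G) : Cfsg.HasNormalPComplement 2 G := by
  apply Cfsg.Agent.Lib_helper1_Frobenius.hasNormalPComplement_of_npc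
  apply Cfsg.Agent.Lib_helper1_Frobenius.frobenius
  intro Q hQ g hg hgo
  exact cent_aux h g hgo _ Q rfl hQ hg

end Cfsg.Agent.S3862
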