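import Cfsg.Statements.S3863
import Cfsg.Agent.Lib_helper5_Real

set_option autoImplicit false
open Cfsg Cfsg.Agent.Lib_helper5_Real

namespace Cfsg.Agent.S3863

/-- Let x be an element of the finite group G that is conjugate to its inverse. Then some 2-element conjugates x to its inverse; if the conjugacy class of x has odd size then x ^ 2 = 1; and x lies in, and is conjugate to its inverse inside, every normal subgroup of odd index. -/
theorem result {G : Type*} [Group G] [Finite G] (x : G) (hx : IsConj x x⁻¹) : (∃ t : G, (∃ j : ℕ, orderOf t = 2 ^ j) ∧ t * x * t⁻¹ = x⁻¹) ∧ (Odd (Subgroup.centralizer ({x} : Set G)).index → x ^ 2 = 1) ∧ ∀ (N : Subgroup G) [N.Normal], Odd N.index → ∃ hxN : x ∈ N, IsConj (⟨x, hxN⟩ : N) (⟨x, hxN⟩ : N)⁻¹ := by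
  obtain ⟨g, hg⟩ := isConj_iff.mp hx
  obtain ⟨t, ⟨j, hj⟩, ht⟩ := exists_two_elt_inverting hg
  refine ⟨⟨t, ⟨j, hj⟩, ht⟩, fun hodd => sq_eq_one_of_real_of_odd_index hx hodd, ?_⟩
  intro N _ hN
  have hcard : Odd (Nat.card (G ⧸ N)) := hN
  have hxbar : IsConj (QuotientGroup.mk' N x) (QuotientGroup.mk' N x)⁻¹ := by
    rw [isConj_iff]
    refine ⟨QuotientGroup.mk' N g, ?_⟩
    rw [← map_inv, ← map_mul, ← map_mul, hg, map_inv]
  have hx1 := eq_one_of_real_of_odd_card hcard hxbar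
  have hxN : x ∈ N := (QuotientGroup.eq_one_iff x).mp hx1
  have htN : t ∈ N := by
    rw [← QuotientGroup.eq_one_iff, ← orderOf_eq_one_iff]
    have h1 : orderOf (t : G ⧸ N) ∣ 2 ^ j := by
      rw [← hj]
      exact orderOf_map_dvd (QuotientGroup.mk' N) t
    have h2 : orderOf (t : G ⧸ N) ∣ Nat.card (G ⧸ N) := orderOf_dvd_natCard _
    have h3 : Nat.Coprime (2 ^ j) (Nat.card (G ⧸ N)) :=
      Nat.Coprime.pow_left j (Nat.coprime_two_left.mpr hcard)
    exact Nat.eq_one_of_dvd_coprimes h3 h1 h2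
  refine ⟨hxN, ?_⟩
  rw [isConj_iff]
  refine ⟨⟨t, htN⟩, ?_⟩
  apply Subtype.ext
  simpa using ht

end Cfsg.Agent.S3863
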