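import Cfsg.Statements.S3866
import Cfsg.Agent.Lib_helper5_Basic

set_option autoImplicit false
open Cfsg

namespace Cfsg.Agent.S3866

open Cfsg.Agent.Lib_helper5_Basic in
/-- Let A be an abelian normal subgroup of a finite group G and x ∈ G with G = ⟨x⟩A. Then a ↦ [x, a] is a homomorphism of A onto the derived subgroup G′ with kernel C_A(x); in particular |G′| · |C_A(x)| = |A|. -/
theorem result {G : Type*} [Group G] [Finite G] (A : Subgroup G) [A.Normal] (hA : IsMulCommutative A) (x : G) (hgen : A ⊔ Subgroup.zpowers x = ⊤) : (∀ a ∈ A, x * a * x⁻¹ * a⁻¹ ∈ commutator G) ∧ (∀ c ∈ commutator G, ∃ a ∈ A, x * a * x⁻¹ * a⁻¹ = c) ∧ (∀ a ∈ A, ∀ b ∈ A, x * (a * b) * x⁻¹ * (a * b)⁻¹ = (x * a * x⁻¹ * a⁻¹) * (x * b * x⁻¹ * b⁻¹)) ∧ Nat.card (commutator G) * Nat.card ↥(A ⊓ Subgroup.centralizer ({x} : Set G)) = Nat.card A := by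
  have hAnorm : A.Normal := inferInstance
  have hAn : ∀ a ∈ A, x * a * x⁻¹ ∈ A := fun a ha => hAnorm.conj_mem a ha x
  have hAn' : ∀ a ∈ A, x⁻¹ * a * x ∈ A := fun a ha => by simpa using hAnorm.conj_mem a ha x⁻¹
  have hcomm : ∀ a ∈ A, ∀ b ∈ A, a * b = b * a := by
    intro a ha b hb
    have := hA.is_comm.comm ⟨a, ha⟩ ⟨b, hb⟩
    exact congrArg Subtype.val this
  have h1 : ∀ a ∈ A, x * a * x⁻¹ * a⁻¹ ∈ commutator G := by
    intro a _
    rw [commutator_def, ← commutatorElement_def]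
    exact Subgroup.commutator_mem_commutator (Subgroup.mem_top _) (Subgroup.mem_top _)
  have h3 : ∀ a ∈ A, ∀ b ∈ A, x * (a * b) * x⁻¹ * (a * b)⁻¹ = (x * a * x⁻¹ * a⁻¹) * (x * b * x⁻¹ * b⁻¹) := by
    intro a ha b hb
    have hc := hcomm (x * b * x⁻¹ * b⁻¹) (A.mul_mem (hAn b hb) (A.inv_mem hb)) a⁻¹ (A.inv_mem ha)
    calc x * (a * b) * x⁻¹ * (a * b)⁻¹ = x * a * x⁻¹ * ((x * b * x⁻¹ * b⁻¹) * a⁻¹) := by group
      _ = x * a * x⁻¹ * (a⁻¹ * (x * b * x⁻¹ * b⁻¹)) := by rw [hc]
      _ = _ := by group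
  let θ : A →* G := MonoidHom.mk' (fun a => x * (a : G) * x⁻¹ * (a : G)⁻¹) (fun a b => h3 a a.2 b b.2)
  have hθ : ∀ a : A, θ a = x * (a : G) * x⁻¹ * (a : G)⁻¹ := fun a => rfl
  have hDA : θ.range ≤ A := by
    rintro _ ⟨a, rfl⟩
    exact A.mul_mem (hAn a a.2) (A.inv_mem a.2)
  have hS : Subgroup.closure ((A : Set G) ∪ {x}) = ⊤ := by
    rw [Subgroup.closure_union, Subgroup.closure_eq, ← Subgroup.zpowers_eq_closure, hgen]
  have hDn : θ.range.Normal := by
    apply normal_of_gens ((A : Set G) ∪ {x}) hS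
    intro s hs
    rcases hs with hs | hs
    · rw [Subgroup.mem_normalizer_iff]
      intro h
      constructor
      · intro hh
        have : s * h * s⁻¹ = h := by rw [hcomm s hs h (hDA hh)]; group
        rw [this]; exact hh
      · intro hh
        have hhA : h ∈ A := by
          have := A.mul_mem (A.mul_mem (A.inv_mem hs) (hDA hh)) hs
          simpa [mul_assoc] using this
        have : s * h * s⁻¹ = h := by rw [hcomm s hs h hhA]; group
        rwa [this] at hh
    · rw [Set.mem_singleton_iff] at hs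
      subst hs
      rw [Subgroup.mem_normalizer_iff]
      intro h
      constructor
      · rintro ⟨a, rfl⟩
        refine ⟨⟨s * a * s⁻¹, hAn a a.2⟩, ?_⟩
        rw [hθ, hθ]
        show s * (s * a * s⁻¹) * s⁻¹ * (s * (a : G) * s⁻¹)⁻¹ = s * (s * a * s⁻¹ * (a : G)⁻¹) * s⁻¹
        group
      · rintro ⟨a, ha⟩
        refine ⟨⟨s⁻¹ * a * s, hAn' a a.2⟩, ?_⟩
        rw [hθ] at ha ⊢
        show s * (s⁻¹ * a * s) * s⁻¹ * (s⁻¹ * (a : G) * s)⁻¹ = h
        have : h = s⁻¹ * (s * h * s⁻¹) * s := by group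
        rw [this, ← ha]
        group
  have hle : commutator G ≤ θ.range := by
    apply commutator_le_of_gens ((A : Set G) ∪ {x}) hS
    intro s hs t ht
    rcases hs with hs | hs <;> rcases ht with ht | ht
    · have : s * t * s⁻¹ * t⁻¹ = 1 := by rw [hcomm s hs t ht]; group
      rw [this]; exact Subgroup.one_mem _
    · rw [Set.mem_singleton_iff] at ht
      subst ht
      have : s * t * s⁻¹ * t⁻¹ = (t * s * t⁻¹ * s⁻¹)⁻¹ := by group
      rw [this]
      exact Subgroup.inv_mem _ ⟨⟨s, hs⟩, rfl⟩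
    · rw [Set.mem_singleton_iff] at hs
      subst hs
      exact ⟨⟨t, ht⟩, rfl⟩
    · rw [Set.mem_singleton_iff] at hs ht
      rw [hs, ht]
      have : x * x * x⁻¹ * x⁻¹ = 1 := by group
      rw [this]; exact Subgroup.one_mem _
  have hge : θ.range ≤ commutator G := by
    rintro _ ⟨a, rfl⟩
    exact h1 a a.2
  have hD : θ.range = commutator G := le_antisymm hge hle
  refine ⟨h1, ?_, h3, ?_⟩
  · intro c hc
    rw [← hD] at hc
    obtain ⟨a, rfl⟩ := hc
    exact ⟨a, a.2, rfl⟩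
  · have hc := Subgroup.card_mul_index θ.ker
    rw [Subgroup.index_ker, hD] at hc
    have hker : θ.ker = (A ⊓ Subgroup.centralizer ({x} : Set G)).subgroupOf A := by
      ext a
      rw [MonoidHom.mem_ker, Subgroup.mem_subgroupOf, Subgroup.mem_inf, Subgroup.mem_centralizer_iff, hθ]
      constructor
      · intro h
        refine ⟨a.2, ?_⟩
        intro y hy
        rw [Set.mem_singleton_iff] at hy
        subst hy
        calc y * (a : G) = (y * a * y⁻¹ * (a : G)⁻¹) * (a * y) := by group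
          _ = a * y := by rw [h, one_mul]
      · rintro ⟨_, h⟩
        have := h x rfl
        rw [this]; group
    rw [hker, Nat.card_congr (Subgroup.subgroupOfEquivOfLe inf_le_left).toEquiv, mul_comm] at hc
    exact hc

end Cfsg.Agent.S3866
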