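import Cfsg.Statements.S3867
import Cfsg.Agent.Lib_helper1_ProdCard
import Cfsg.Agent.Lib_helper1_Basic
import Cfsg.Agent.Lib_helper7_SE2

set_option autoImplicit false
open Cfsg
open scoped Pointwise

namespace Cfsg.Agent.S3867

/-- Let M and N be nontrivial normal subgroups of the finite group G with M ⊓ N trivial, and let p be a prime. Writing n(X) for the number of Sylow p-subgroups of a group X, one has n(G) · n(G/MN) = n(G/M) · n(G/N). -/
theorem result {G : Type*} [Group G] [Finite G] (p : ℕ) [Fact p.Prime] (M N : Subgroup G) [M.Normal] [N.Normal] (hM : M ≠ ⊥) (hN : N ≠ ⊥) (hMN : M ⊓ N = ⊥) : Nat.card (Sylow p G) * Nat.card (Sylow p (G ⧸ (M ⊔ N))) = Nat.card (Sylow p (G ⧸ M)) * Nat.card (Sylow p (G ⧸ N)) := by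
  classical
  obtain ⟨P⟩ : Nonempty (Sylow p G) := inferInstance
  have L1 : ∀ (X K : Subgroup G) [K.Normal] (g : G), (∀ x ∈ X, g * x * g⁻¹ ∈ X ⊔ K) →
      g ∈ Subgroup.normalizer ((X ⊔ K : Subgroup G) : Set G) := by
    intro X K hK g hg
    apply Lib_helper1_Basic.mem_normalizer_of_conj_le
    intro y hy
    have hy' : y ∈ ((X ⊔ K : Subgroup G) : Set G) := hy
    rw [Subgroup.mul_normal] at hy'
    obtain ⟨a, ha, k, hk, rfl⟩ := Set.mem_mul.mp hy'
    have e : g * (a * k) * g⁻¹ = (g * a * g⁻¹) * (g * k * g⁻¹) := by group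
    rw [e]
    exact Subgroup.mul_mem _ (hg a ha) (Subgroup.mem_sup_right (hK.conj_mem k hk g))
  have hQ : ∀ (K : Subgroup G) [K.Normal], Nat.card (Sylow p (G ⧸ K)) =
      (Subgroup.normalizer (((P : Subgroup G) ⊔ K : Subgroup G) : Set G)).index := by
    intro K _
    have hs := QuotientGroup.mk'_surjective K
    have h1 : Nat.card (Sylow p (G ⧸ K)) = (Subgroup.normalizer
        (((P : Subgroup G).map (QuotientGroup.mk' K) : Subgroup (G ⧸ K)) : Set (G ⧸ K))).index :=
      Sylow.card_eq_index_normalizer (P.mapSurjective hs)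
    rw [h1, ← Subgroup.index_comap_of_surjective _ hs,
      Subgroup.comap_normalizer_eq_of_surjective _ hs, Subgroup.comap_map_eq,
      QuotientGroup.ker_mk']
  have h0 : Nat.card (Sylow p G) = (Subgroup.normalizer ((P : Subgroup G) : Set G)).index :=
    Sylow.card_eq_index_normalizer P
  rw [h0, hQ (M ⊔ N), hQ M, hQ N]
  obtain ⟨A, hA⟩ : ∃ A, A = Subgroup.normalizer ((P : Subgroup G) : Set G) := ⟨_, rfl⟩
  obtain ⟨B, hB⟩ : ∃ B, B = Subgroup.normalizer (((P : Subgroup G) ⊔ M : Subgroup G) : Set G) :=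
    ⟨_, rfl⟩
  obtain ⟨C, hC⟩ : ∃ C, C = Subgroup.normalizer (((P : Subgroup G) ⊔ N : Subgroup G) : Set G) :=
    ⟨_, rfl⟩
  obtain ⟨D, hD⟩ : ∃ D, D = Subgroup.normalizer
      (((P : Subgroup G) ⊔ (M ⊔ N) : Subgroup G) : Set G) := ⟨_, rfl⟩
  rw [← hA, ← hB, ← hC, ← hD]
  have hAB : A ≤ B := by
    rw [hA, hB]; intro g hg
    exact L1 _ M g (fun x hx =>
      Subgroup.mem_sup_left ((Subgroup.mem_normalizer_iff.mp hg x).mp hx))
  have hAC : A ≤ C := by
    rw [hA, hC]; intro g hg
    exact L1 _ N g (fun x hx =>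
      Subgroup.mem_sup_left ((Subgroup.mem_normalizer_iff.mp hg x).mp hx))
  have hBD : B ≤ D := by
    rw [hB, hD]; intro g hg
    have := L1 ((P : Subgroup G) ⊔ M) N g (fun x hx =>
      Subgroup.mem_sup_left ((Subgroup.mem_normalizer_iff.mp hg x).mp hx))
    rwa [sup_assoc] at this
  have hCD : C ≤ D := by
    rw [hC, hD]; intro g hg
    have := L1 ((P : Subgroup G) ⊔ N) M g (fun x hx =>
      Subgroup.mem_sup_left ((Subgroup.mem_normalizer_iff.mp hg x).mp hx))
    rwa [sup_assoc, sup_comm N M] at this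
  have hT : ((P : Subgroup G) ⊔ M) ⊓ ((P : Subgroup G) ⊔ N) = (P : Subgroup G) := by
    obtain ⟨n, hn⟩ := P.2.exists_card_eq
    have hpow : ∀ (K : Subgroup G) [K.Normal] (y : G), y ∈ (P : Subgroup G) ⊔ K →
        y ^ (p ^ n) ∈ K := by
      intro K hK y hy
      have hy' : y ∈ (((P : Subgroup G) ⊔ K : Subgroup G) : Set G) := hy
      rw [Subgroup.mul_normal] at hy'
      obtain ⟨a, ha, k, hk, rfl⟩ := Set.mem_mul.mp hy'
      have h1 : ((a * k : G) : G ⧸ K) = (a : G ⧸ K) := by
        rw [QuotientGroup.mk_mul, (QuotientGroup.eq_one_iff k).mpr hk, mul_one]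
      have h2 : a ^ (p ^ n) = 1 := by
        have h3 : (⟨a, ha⟩ : (P : Subgroup G)) ^ Nat.card (P : Subgroup G) = 1 :=
          pow_card_eq_one'
        rw [hn] at h3
        exact congrArg Subtype.val h3
      apply (QuotientGroup.eq_one_iff _).mp
      rw [QuotientGroup.mk_pow, h1, ← QuotientGroup.mk_pow, h2]; rfl
    have hTp : IsPGroup p ↥(((P : Subgroup G) ⊔ M) ⊓ ((P : Subgroup G) ⊔ N)) := by
      intro y
      refine ⟨n, Subtype.ext ?_⟩
      have h1 := hpow M y.1 y.2.1
      have h2 := hpow N y.1 y.2.2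
      have h3 : (y : G) ^ p ^ n ∈ M ⊓ N := ⟨h1, h2⟩
      rw [hMN, Subgroup.mem_bot] at h3
      exact h3
    exact P.is_maximal' hTp (le_inf le_sup_left le_sup_left)
  have hinf : B ⊓ C = A := by
    apply le_antisymm
    · rintro g ⟨hgB, hgC⟩
      rw [hA]
      apply Lib_helper1_Basic.mem_normalizer_of_conj_le
      intro x hx
      rw [← hT]
      have hgB' : g ∈ Subgroup.normalizer (((P : Subgroup G) ⊔ M : Subgroup G) : Set G) := by
        rw [← hB]; exact hgB
      have hgC' : g ∈ Subgroup.normalizer (((P : Subgroup G) ⊔ N : Subgroup G) : Set G) := by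
        rw [← hC]; exact hgC
      exact ⟨(Subgroup.mem_normalizer_iff.mp hgB' x).mp (Subgroup.mem_sup_left hx),
        (Subgroup.mem_normalizer_iff.mp hgC' x).mp (Subgroup.mem_sup_left hx)⟩
    · exact le_inf hAB hAC
  have hmul : (B : Set G) * (C : Set G) = (D : Set G) := by
    apply Set.Subset.antisymm
    · rintro _ ⟨b, hb, c, hc, rfl⟩
      exact D.mul_mem (hBD hb) (hCD hc)
    · intro g hg
      have hg' : g ∈ Subgroup.normalizer
          (((P : Subgroup G) ⊔ (M ⊔ N) : Subgroup G) : Set G) := by rw [← hD]; exact hg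
      have hDL : (P : Subgroup G).map (MulAut.conj g).toMonoidHom ≤
          (P : Subgroup G) ⊔ (M ⊔ N) := by
        rintro _ ⟨x, hx, rfl⟩
        exact (Subgroup.mem_normalizer_iff.mp hg' x).mp (Subgroup.mem_sup_left hx)
      obtain ⟨w, hw, hwP⟩ := Lib_helper7_SE2.exists_conj_le_of_le P _ le_sup_left _
        (P.2.map _) hDL
      have hu : w * g ∈ A := by
        rw [hA]
        apply Lib_helper1_Basic.mem_normalizer_of_conj_le
        intro x hx
        have h1 := hwP _ ⟨x, hx, rfl⟩
        have e : w * g * x * (w * g)⁻¹ = w * (g * x * g⁻¹) * w⁻¹ := by group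
        rw [e]; exact h1
      have hw' : w⁻¹ ∈ (((P : Subgroup G) ⊔ (M ⊔ N) : Subgroup G) : Set G) :=
        Subgroup.inv_mem _ hw
      rw [Subgroup.mul_normal] at hw'
      obtain ⟨a, ha, k, hk, hak⟩ := Set.mem_mul.mp hw'
      have hk' : k ∈ ((M ⊔ N : Subgroup G) : Set G) := hk
      rw [Subgroup.mul_normal] at hk'
      obtain ⟨m, hm, n, hn, rfl⟩ := Set.mem_mul.mp hk'
      have e : g = (a * m) * (n * (w * g)) := by
        calc g = w⁻¹ * (w * g) := by group
          _ = a * (m * n) * (w * g) := by rw [hak]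
          _ = (a * m) * (n * (w * g)) := by group
      rw [e]
      refine Set.mul_mem_mul ?_ ?_
      · have h1 : a * m ∈ (P : Subgroup G) ⊔ M :=
          Subgroup.mul_mem _ (Subgroup.mem_sup_left ha) (Subgroup.mem_sup_right hm)
        show a * m ∈ B
        rw [hB]; exact Subgroup.le_normalizer h1
      · show n * (w * g) ∈ C
        have h1 : n ∈ (P : Subgroup G) ⊔ N := Subgroup.mem_sup_right hn
        have h2 : n ∈ C := by rw [hC]; exact Subgroup.le_normalizer h1
        exact C.mul_mem h2 (hAC hu)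
  have hprod := Lib_helper1_ProdCard.card_mul_set B C
  rw [hmul, hinf] at hprod
  have hprod' : Nat.card D * Nat.card A = Nat.card B * Nat.card C := hprod
  have iA := Subgroup.card_mul_index A
  have iB := Subgroup.card_mul_index B
  have iC := Subgroup.card_mul_index C
  have iD := Subgroup.card_mul_index D
  have e1 : (Nat.card A * Nat.card D) * (A.index * D.index) =
      (Nat.card A * Nat.card D) * (B.index * C.index) := by
    calc (Nat.card A * Nat.card D) * (A.index * D.index)
        = (Nat.card A * A.index) * (Nat.card D * D.index) := by ring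
      _ = (Nat.card B * B.index) * (Nat.card C * C.index) := by rw [iA, iD, iB, iC]
      _ = (Nat.card B * Nat.card C) * (B.index * C.index) := by ring
      _ = (Nat.card A * Nat.card D) * (B.index * C.index) := by
          rw [← hprod', mul_comm (Nat.card D)]
  exact Nat.eq_of_mul_eq_mul_left (Nat.mul_pos Nat.card_pos Nat.card_pos) e1

end Cfsg.Agent.S3867
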