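import Cfsg.Statements.S3879


set_option autoImplicit false
open Cfsg

namespace Cfsg.Agent.S3879

theorem nt_key (p m r j : ℕ) [hp : Fact p.Prime] (hp2 : p ≠ 2) (hr : 1 ≤ r)
    (hrp : p ∣ r - 1) : p ^ m ∣ (r - 1) * j ↔ p ^ m ∣ r ^ j - 1 := by
  rcases Nat.eq_or_lt_of_le hr with h1 | h1
  · rw [← h1]; simp
  rcases Nat.eq_zero_or_pos j with hj | hj
  · rw [hj]; simp
  have hodd : Odd p := hp.out.odd_of_ne_two hp2
  have hr1 : r - 1 ≠ 0 := by omega
  have hrj : r ^ j - 1 ≠ 0 := by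
    have : 1 < r ^ j := Nat.one_lt_pow hj.ne' h1
    omega
  have hpr : ¬ p ∣ r := by
    intro h
    have h2 : p ∣ r - (r - 1) := Nat.dvd_sub h hrp
    have h3 : r - (r - 1) = 1 := by omega
    rw [h3] at h2
    exact hp.out.one_lt.ne' (Nat.dvd_one.mp h2)
  have hlte := padicValNat.pow_sub_pow hodd h1 hrp hpr hj.ne'
  rw [one_pow] at hlte
  rw [padicValNat_dvd_iff_le (mul_ne_zero hr1 hj.ne'), padicValNat_dvd_iff_le hrj, hlte,
    padicValNat.mul hr1 hj.ne']

def kappa {G : Type*} [Group G] (N : Subgroup G) (b : G)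
    (hb : ∀ h : G, b * h * b⁻¹ * h⁻¹ ∈ N) : Subgroup.centralizer (N : Set G) →* G where
  toFun g := b * (g : G) * b⁻¹ * (g : G)⁻¹
  map_one' := by simp
  map_mul' g h := by
    have hcw : Commute (g : G) (b * (h : G) * b⁻¹ * (h : G)⁻¹) :=
      (Subgroup.mem_centralizer_iff.mp g.2 _ (hb h)).symm
    show b * ((g : G) * (h : G)) * b⁻¹ * ((g : G) * (h : G))⁻¹ =
      (b * (g : G) * b⁻¹ * (g : G)⁻¹) * (b * (h : G) * b⁻¹ * (h : G)⁻¹)
    calc b * ((g : G) * (h : G)) * b⁻¹ * ((g : G) * (h : G))⁻¹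
        = (b * (g : G) * b⁻¹) * ((b * (h : G) * b⁻¹ * (h : G)⁻¹) * (g : G)⁻¹) := by group
      _ = (b * (g : G) * b⁻¹) * ((g : G)⁻¹ * (b * (h : G) * b⁻¹ * (h : G)⁻¹)) := by
          rw [← hcw.inv_left.eq]
      _ = _ := by group



/-- Let p be an odd prime and G a finite metacyclic p-group (G has a cyclic normal subgroup with cyclic quotient). Then the index of the center of G is the square of the order of the derived subgroup: |G : Z(G)| = |G'|². -/
theorem result {G : Type*} [Group G] [Finite G] {p : ℕ} [Fact p.Prime] (hp : p ≠ 2) (hG : IsPGroup p G) (hmc : Cfsg.IsMetacyclic G) : (Subgroup.center G).index = Nat.card ↥(commutator G) ^ 2 := by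
  obtain ⟨N, hNn, hNc, hQc⟩ := hmc
  haveI := hNn
  obtain ⟨a', ha'⟩ := hNc.exists_generator
  obtain ⟨b', hb'⟩ := hQc.exists_generator
  obtain ⟨b, rfl⟩ := QuotientGroup.mk_surjective b'
  obtain ⟨a, haN, haa⟩ : ∃ a : G, a ∈ N ∧ a = (a' : G) := ⟨a', a'.2, rfl⟩
  have hNpow : ∀ n ∈ N, ∃ i : ℕ, n = a ^ i := by
    intro n hn
    have h1 := ha' ⟨n, hn⟩
    rw [← mem_powers_iff_mem_zpowers] at h1
    obtain ⟨i, hi⟩ := h1
    have h2 : (a' : G) ^ i = n := by
      have := congrArg Subtype.val hi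
      simpa using this
    exact ⟨i, by rw [haa, h2]⟩
  have hdec : ∀ g : G, ∃ i j : ℕ, g = a ^ i * b ^ j := by
    intro g
    have h1 := hb' (QuotientGroup.mk g)
    rw [← mem_powers_iff_mem_zpowers] at h1
    obtain ⟨j, hj⟩ := h1
    have hj' : (QuotientGroup.mk b : G ⧸ N) ^ j = QuotientGroup.mk g := hj
    have h2 : g * (b ^ j)⁻¹ ∈ N :=
      (QuotientGroup.eq_one_iff _).mp (by
        rw [QuotientGroup.mk_mul, QuotientGroup.mk_inv, QuotientGroup.mk_pow, hj',
          mul_inv_cancel])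
    obtain ⟨i, hi⟩ := hNpow _ h2
    exact ⟨i, j, by rw [← hi]; group⟩
  obtain ⟨r₀, hr₀⟩ := hNpow (b * a * b⁻¹) (hNn.conj_mem a haN b)
  obtain ⟨r, hr1, hr⟩ : ∃ r : ℕ, 1 ≤ r ∧ b * a * b⁻¹ = a ^ r :=
    ⟨r₀ + orderOf a, by have := orderOf_pos a; omega,
      by rw [pow_add, pow_orderOf_eq_one, mul_one, hr₀]⟩
  have hconjpow : ∀ j : ℕ, b ^ j * a * (b ^ j)⁻¹ = a ^ (r ^ j) := by
    intro j
    induction j with
    | zero => simp
    | succ j ih =>
      have h1 : b ^ (j + 1) * a * (b ^ (j + 1))⁻¹ = b * (b ^ j * a * (b ^ j)⁻¹) * b⁻¹ := by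
        rw [pow_succ']; group
      rw [h1, ih, ← conj_pow, hr, ← pow_mul, ← pow_succ']
  obtain ⟨c, hc⟩ : ∃ c : G, c = b * a * b⁻¹ * a⁻¹ := ⟨_, rfl⟩
  have hca : c = a ^ (r - 1) := by
    have h3 : a ^ r = a ^ (r - 1) * a := by
      rw [← pow_succ]; congr 1; omega
    rw [hc, hr, h3, mul_inv_cancel_right]
  have hcN : c ∈ N := by rw [hca]; exact N.pow_mem haN _
  have hcj : ∀ j : ℕ, c ^ j = 1 ↔ orderOf a ∣ (r - 1) * j := by
    intro j
    rw [hca, ← pow_mul, orderOf_dvd_iff_pow_eq_one]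
  have hAmem : ∀ g : G, g ∈ Subgroup.centralizer (N : Set G) ↔ g * a = a * g := by
    intro g
    constructor
    · intro hg
      exact (Subgroup.mem_centralizer_iff.mp hg a haN).symm
    · intro hg
      rw [Subgroup.mem_centralizer_iff]
      intro n hn
      obtain ⟨i, rfl⟩ := hNpow n hn
      have hc' : Commute g a := hg
      exact (hc'.pow_right i).eq.symm
  have hbj : ∀ j : ℕ, b ^ j ∈ Subgroup.centralizer (N : Set G) ↔ orderOf a ∣ r ^ j - 1 := by
    intro j
    rw [hAmem]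
    have h1 : b ^ j * a = a * b ^ j ↔ a ^ (r ^ j) = a ^ 1 := by
      rw [← hconjpow j, pow_one]
      constructor
      · intro h; rw [h]; group
      · intro h
        calc b ^ j * a = (b ^ j * a * (b ^ j)⁻¹) * b ^ j := by group
          _ = a * b ^ j := by rw [h]
    have hge : 1 ≤ r ^ j := Nat.one_le_pow _ _ (by omega)
    rw [h1, pow_eq_pow_iff_modEq, Nat.ModEq.comm, Nat.modEq_iff_dvd' hge]
  have hgenA : ∀ x : G ⧸ Subgroup.centralizer (N : Set G),
      x ∈ Subgroup.zpowers (QuotientGroup.mk b : G ⧸ Subgroup.centralizer (N : Set G)) := by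
    intro x
    obtain ⟨g, rfl⟩ := QuotientGroup.mk_surjective x
    obtain ⟨i, j, rfl⟩ := hdec g
    have h2 : (QuotientGroup.mk a : G ⧸ Subgroup.centralizer (N : Set G)) = 1 :=
      (QuotientGroup.eq_one_iff a).mpr ((hAmem a).mpr rfl)
    have h1 : (QuotientGroup.mk (a ^ i * b ^ j) : G ⧸ Subgroup.centralizer (N : Set G)) =
        (QuotientGroup.mk b) ^ j := by
      rw [QuotientGroup.mk_mul, QuotientGroup.mk_pow, QuotientGroup.mk_pow, h2, one_pow,
        one_mul]
    rw [h1]
    exact Subgroup.pow_mem _ (Subgroup.mem_zpowers _) j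
  have hAidx : (Subgroup.centralizer (N : Set G)).index =
      orderOf (QuotientGroup.mk b : G ⧸ Subgroup.centralizer (N : Set G)) := by
    rw [Subgroup.index_eq_card, orderOf_eq_card_of_forall_mem_zpowers hgenA]
  have hsj : ∀ j : ℕ, orderOf (QuotientGroup.mk b : G ⧸ Subgroup.centralizer (N : Set G)) ∣ j ↔
      orderOf a ∣ r ^ j - 1 := by
    intro j
    rw [orderOf_dvd_iff_pow_eq_one, ← QuotientGroup.mk_pow, QuotientGroup.eq_one_iff, hbj]
  have hoj : ∀ j : ℕ, orderOf c ∣ j ↔ orderOf a ∣ (r - 1) * j := by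
    intro j
    rw [orderOf_dvd_iff_pow_eq_one, hcj]
  obtain ⟨m, hm⟩ := (IsPGroup.iff_orderOf.mp hG) a
  have hso : orderOf (QuotientGroup.mk b : G ⧸ Subgroup.centralizer (N : Set G)) = orderOf c := by
    by_cases hm0 : m = 0
    · have h1 : orderOf a = 1 := by rw [hm, hm0, pow_zero]
      apply Nat.dvd_antisymm
      · rw [hsj, h1]; exact one_dvd _
      · rw [hoj, h1]; exact one_dvd _
    · have hrp : p ∣ r - 1 := by
        obtain ⟨t, ht⟩ := (IsPGroup.iff_orderOf.mp
          (hG.to_quotient (Subgroup.centralizer (N : Set G)))) (QuotientGroup.mk b)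
        have h1 : orderOf a ∣ r ^ (p ^ t) - 1 := (hsj _).mp (by rw [ht])
        have h2 : p ∣ r ^ (p ^ t) - 1 := dvd_trans (by rw [hm]; exact dvd_pow_self p hm0) h1
        have h3 : ((r ^ (p ^ t) - 1 : ℕ) : ZMod p) = 0 := (ZMod.natCast_eq_zero_iff _ _).mpr h2
        have hge : 1 ≤ r ^ (p ^ t) := Nat.one_le_pow _ _ (by omega)
        rw [Nat.cast_sub hge, Nat.cast_pow, ZMod.pow_card_pow, Nat.cast_one] at h3
        have h4 : ((r - 1 : ℕ) : ZMod p) = 0 := by
          rw [Nat.cast_sub hr1, Nat.cast_one]; exact h3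
        exact (ZMod.natCast_eq_zero_iff _ _).mp h4
      apply Nat.dvd_antisymm
      · apply (hsj _).mpr
        rw [hm]
        apply (nt_key p m r _ hp hr1 hrp).mp
        rw [← hm]
        exact (hoj _).mp dvd_rfl
      · apply (hoj _).mpr
        rw [hm]
        apply (nt_key p m r _ hp hr1 hrp).mpr
        rw [← hm]
        exact (hsj _).mp dvd_rfl
  have hcomm : commutator G = Subgroup.zpowers c := by
    have hKn : (Subgroup.zpowers c).Normal := by
      constructor
      intro n hn g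
      obtain ⟨k, rfl⟩ := Subgroup.mem_zpowers_iff.mp hn
      obtain ⟨s, hs⟩ := hNpow (g * a * g⁻¹) (hNn.conj_mem a haN g)
      have h1 : g * c * g⁻¹ = c ^ s := by
        rw [hca, ← conj_pow, hs, ← pow_mul, ← pow_mul, mul_comm]
      rw [← conj_zpow, h1]
      exact Subgroup.zpow_mem _ (Subgroup.pow_mem _ (Subgroup.mem_zpowers c) s) k
    apply le_antisymm
    · haveI := hKn
      rw [← Subgroup.Normal.quotient_commutative_iff_commutator_le]
      have hcab : Commute (QuotientGroup.mk a : G ⧸ Subgroup.zpowers c) (QuotientGroup.mk b) := by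
        have h1 : (QuotientGroup.mk (b * a * b⁻¹ * a⁻¹) : G ⧸ Subgroup.zpowers c) = 1 :=
          (QuotientGroup.eq_one_iff _).mpr (hc ▸ Subgroup.mem_zpowers c)
        rw [QuotientGroup.mk_mul, QuotientGroup.mk_mul, QuotientGroup.mk_mul,
          QuotientGroup.mk_inv, QuotientGroup.mk_inv] at h1
        have h2 := mul_inv_eq_iff_eq_mul.mp (mul_inv_eq_one.mp h1)
        exact h2.symm
      refine ⟨⟨fun u v => ?_⟩⟩
      obtain ⟨g, rfl⟩ := QuotientGroup.mk_surjective u
      obtain ⟨h, rfl⟩ := QuotientGroup.mk_surjective v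
      obtain ⟨i, j, rfl⟩ := hdec g
      obtain ⟨k, l, rfl⟩ := hdec h
      rw [QuotientGroup.mk_mul, QuotientGroup.mk_mul, QuotientGroup.mk_pow, QuotientGroup.mk_pow,
        QuotientGroup.mk_pow, QuotientGroup.mk_pow]
      have e1 := ((Commute.refl (QuotientGroup.mk a : G ⧸ Subgroup.zpowers c)).pow_pow i k).mul_right
        (hcab.pow_pow i l)
      have e2 := (hcab.symm.pow_pow j k).mul_right
        ((Commute.refl (QuotientGroup.mk b : G ⧸ Subgroup.zpowers c)).pow_pow j l)
      exact (e1.mul_left e2).eq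
    · rw [Subgroup.zpowers_le, hc]
      exact Subgroup.commutator_mem_commutator (Subgroup.mem_top b) (Subgroup.mem_top a)
  have hcardc : Nat.card (commutator G) = orderOf c := by rw [hcomm, Nat.card_zpowers]
  have hb : ∀ h : G, b * h * b⁻¹ * h⁻¹ ∈ N := by
    intro h
    apply (Subgroup.zpowers_le.mpr hcN)
    rw [← hcomm]
    exact Subgroup.commutator_mem_commutator (Subgroup.mem_top b) (Subgroup.mem_top h)
  have hker : (kappa N b hb).ker =
      (Subgroup.center G).subgroupOf (Subgroup.centralizer (N : Set G)) := by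
    ext g
    rw [MonoidHom.mem_ker, Subgroup.mem_subgroupOf, Subgroup.mem_center_iff]
    constructor
    · intro hg h
      have hg' : b * (g : G) * b⁻¹ * (g : G)⁻¹ = 1 := hg
      have h1 : b * (g : G) = (g : G) * b := mul_inv_eq_iff_eq_mul.mp (mul_inv_eq_one.mp hg')
      have h2 : (g : G) * a = a * (g : G) := (hAmem g).mp g.2
      obtain ⟨i, j, rfl⟩ := hdec h
      have c1 : Commute (g : G) a := h2
      have c2 : Commute (g : G) b := h1.symm
      exact ((c1.pow_right i).mul_right (c2.pow_right j)).eq.symm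
    · intro hg
      show b * (g : G) * b⁻¹ * (g : G)⁻¹ = 1
      rw [hg b]; group
  have hrange : (kappa N b hb).range = Subgroup.zpowers c := by
    apply le_antisymm
    · rintro _ ⟨g, rfl⟩
      rw [← hcomm]
      exact Subgroup.commutator_mem_commutator (Subgroup.mem_top b) (Subgroup.mem_top (g : G))
    · rw [Subgroup.zpowers_le]
      exact ⟨⟨a, (hAmem a).mpr rfl⟩, hc.symm⟩
  have hrel : (Subgroup.center G).relIndex (Subgroup.centralizer (N : Set G)) = orderOf c := by
    show ((Subgroup.center G).subgroupOf (Subgroup.centralizer (N : Set G))).index = orderOf c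
    rw [← hker, Subgroup.index_ker, hrange, Nat.card_zpowers]
  have hZA : Subgroup.center G ≤ Subgroup.centralizer (N : Set G) := by
    intro z hz
    rw [hAmem]
    exact (Subgroup.mem_center_iff.mp hz a).symm
  rw [← Subgroup.relIndex_mul_index hZA, hrel, hAidx, hso, hcardc, sq]

end Cfsg.Agent.S3879
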