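import Cfsg.Statements.S3909
import Cfsg.Agent.Lib_helper9_PGroup
import Cfsg.Agent.Lib_helper9_GroupFusion

set_option autoImplicit false
open Cfsg

namespace Cfsg.Agent.S3909

/-- Let G be a finite group in which any two abelian subgroups of the same order are conjugate. Let M be a normal subgroup of G. If M contains an element of the same order as a ∈ G, then a ∈ M; and if M is elementary abelian of order p^t with p prime and t ≥ 2, then M is the unique Sylow p-subgroup of G. -/
theorem result {G : Type*} [Group G] [Finite G] (hB : ∀ A B : Subgroup G, IsMulCommutative ↥A → IsMulCommutative ↥B → Nat.card ↥A = Nat.card ↥B → ∃ g : G, B = A.map (MulAut.conj g).toMonoidHom) (M : Subgroup G) [M.Normal] :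
    (∀ a : G, (∃ m ∈ M, orderOf m = orderOf a) → a ∈ M) ∧
    ∀ (p t : ℕ) [Fact p.Prime], 2 ≤ t → Nat.card ↥M = p ^ t → Cfsg.IsElementaryAbelian p M → ∀ P : Sylow p G, (P : Subgroup G) = M := by
  -- an abelian subgroup conjugate into M lies in M
  have key : ∀ A B : Subgroup G, IsMulCommutative ↥A → IsMulCommutative ↥B →
      Nat.card ↥A = Nat.card ↥B → A ≤ M → B ≤ M := by
    intro A B hA hB' hcard hAM
    obtain ⟨g, rfl⟩ := hB A B hA hB' hcard
    rintro _ ⟨x, hx, rfl⟩
    simp only [MulEquiv.coe_toMonoidHom, MulAut.conj_apply]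
    exact (inferInstance : M.Normal).conj_mem x (hAM hx) g
  constructor
  · rintro a ⟨m, hm, hord⟩
    have h1 := key (Subgroup.zpowers m) (Subgroup.zpowers a) inferInstance inferInstance
      (by rw [Nat.card_zpowers, Nat.card_zpowers, hord]) (Subgroup.zpowers_le.mpr hm)
    exact h1 (Subgroup.mem_zpowers a)
  · intro p t hp ht hcard hel P
    have hpp := hp.out
    have hMp : IsPGroup p M := IsPGroup.of_card hcard
    have hnd : ¬ p ∣ M.index := by
      intro hdvd
      obtain ⟨x, -, hxM, hxp⟩ := (Cfsg.Agent.Lib_helper9_PGroup.dvd_index_iff_exists M hMp).mp hdvd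
      have hx2 : x ^ p ^ 2 = 1 := by
        rw [pow_two, pow_mul]; exact hel.2 _ hxp
      obtain ⟨j, hj2, hj⟩ := (Nat.dvd_prime_pow hpp).mp (orderOf_dvd_of_pow_eq_one hx2)
      have hdvd' : p ^ j ∣ Nat.card M := by
        rw [hcard]; exact pow_dvd_pow p (le_trans hj2 ht)
      obtain ⟨K, hK⟩ := Sylow.exists_subgroup_card_pow_prime p hdvd'
      have hKc : IsMulCommutative (K.map M.subtype) := by
        refine ⟨⟨fun a b => ?_⟩⟩
        obtain ⟨a, ⟨a', ha', rfl⟩⟩ := a
        obtain ⟨b, ⟨b', hb', rfl⟩⟩ := b
        apply Subtype.ext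
        have := hel.1.is_comm.comm a' b'
        have h2 : (a' : G) * b' = b' * a' := congrArg Subtype.val this
        exact h2
      have h1 := key (K.map M.subtype) (Subgroup.zpowers x) hKc inferInstance
        (by rw [Subgroup.card_map_of_injective M.subtype_injective, hK, Nat.card_zpowers, hj])
        (Subgroup.map_subtype_le K)
      exact hxM (h1 (Subgroup.mem_zpowers x))
    have hle : M ≤ (P : Subgroup G) := Cfsg.Agent.Lib_helper9_GroupFusion.normal_le_sylow P M hMp
    symm
    apply Subgroup.eq_of_le_of_card_ge hle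
    rw [Sylow.card_eq_multiplicity, hcard, ← Subgroup.card_mul_index M, hcard,
      Nat.factorization_mul (pow_pos hpp.pos t).ne' Subgroup.index_ne_zero_of_finite]
    simp [Nat.factorization_eq_zero_of_not_dvd hnd, hpp.factorization_self]

end Cfsg.Agent.S3909
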