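import Cfsg.Statements.S3910
import Cfsg.Agent.Lib_helper5_Class
import Cfsg.Agent.Lib_helper5_PParts

set_option autoImplicit false
open Cfsg

namespace Cfsg.Agent.S3910

/-- A finite nilpotent group in which any two abelian subgroups of the same order are conjugate is cyclic. -/
theorem result {G : Type*} [Group G] [Finite G] (hB : ∀ A B : Subgroup G, IsMulCommutative ↥A → IsMulCommutative ↥B → Nat.card ↥A = Nat.card ↥B → ∃ g : G, B = A.map (MulAut.conj g).toMonoidHom) (hnil : Group.IsNilpotent G) : IsCyclic G := by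
  have hnc : NormalizerCondition G := Group.normalizerCondition_of_isNilpotent
  -- elements of different Sylow subgroups commute
  have hcomm : ∀ (p q : ℕ) [Fact p.Prime] [Fact q.Prime], p ≠ q → ∀ (P : Sylow p G) (Q : Sylow q G),
      ∀ x ∈ (P : Subgroup G), ∀ y ∈ (Q : Subgroup G), x * y = y * x := by
    intro p q _ _ hne P Q x hx y hy
    have hPn : (P : Subgroup G).Normal := Sylow.normal_of_normalizerCondition hnc P
    have hQn : (Q : Subgroup G).Normal := Sylow.normal_of_normalizerCondition hnc Q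
    have hdis : Disjoint (P : Subgroup G) (Q : Subgroup G) :=
      IsPGroup.disjoint_of_ne p q hne _ _ P.2 Q.2
    exact Subgroup.commute_of_normal_of_disjoint _ _ hPn hQn hdis x y hx hy
  -- an element of maximal order
  obtain ⟨x, -, hmax⟩ := Set.exists_max_image (Set.univ : Set G) orderOf Set.finite_univ
    ⟨1, trivial⟩
  have hdvd : ∀ y : G, orderOf y ∣ orderOf x := by
    intro y
    by_contra hnd
    rw [← Nat.factorization_prime_le_iff_dvd (orderOf_pos y).ne' (orderOf_pos x).ne'] at hnd
    push Not at hnd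
    obtain ⟨p, hp, hlt⟩ := hnd
    haveI : Fact p.Prime := ⟨hp⟩
    set a := (orderOf y).factorization p with ha
    set b := (orderOf x).factorization p with hb
    have hya : p ^ a ∣ orderOf y := Nat.ordProj_dvd _ _
    have hxb : p ^ b ∣ orderOf x := Nat.ordProj_dvd _ _
    set y' := y ^ (orderOf y / p ^ a) with hy'
    set x' := x ^ (p ^ b) with hx'
    have hoy : orderOf y' = p ^ a := orderOf_pow_orderOf_div (orderOf_pos y).ne' hya
    have hox : orderOf x' = orderOf x / p ^ b :=
      orderOf_pow_of_dvd (pow_pos hp.pos b).ne' hxb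
    have hcop : (orderOf x').Coprime p := by
      rw [hox]
      exact (Nat.coprime_ordCompl hp (orderOf_pos x).ne').symm
    have hc : x' ∈ Subgroup.centralizer ({y'} : Set G) := by
      apply Cfsg.Agent.Lib_helper5_PParts.mem_of_prime_power_parts p _ _ x' hcop
      rintro z ⟨q, c, hq, hqp, hz⟩
      haveI : Fact q.Prime := ⟨hq⟩
      obtain ⟨Q, hQ⟩ := Cfsg.Agent.Lib_helper6_Sylow.pElem_mem_sylow (p := q) (x := z) ⟨c, hz⟩
      obtain ⟨P, hP⟩ := Cfsg.Agent.Lib_helper6_Sylow.pElem_mem_sylow (p := p) (x := y') ⟨a, hoy⟩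
      rw [Subgroup.mem_centralizer_iff]
      intro w hw
      rw [Set.mem_singleton_iff] at hw
      subst hw
      exact hcomm p q (Ne.symm hqp) P Q _ hP z hQ
    have hcm : Commute y' x' := by
      rw [Subgroup.mem_centralizer_iff] at hc
      exact hc y' rfl
    have hord : orderOf (y' * x') = p ^ a * (orderOf x / p ^ b) := by
      rw [hcm.orderOf_mul_eq_mul_orderOf_of_coprime (by rw [hoy]; exact Nat.Coprime.pow_left a hcop.symm),
        hoy, hox]
    have h1 := hmax (y' * x') trivial
    rw [hord] at h1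
    have h2 : p ^ b * (orderOf x / p ^ b) = orderOf x := Nat.mul_div_cancel' hxb
    have h3 : p ^ b < p ^ a := Nat.pow_lt_pow_right hp.one_lt hlt
    have h4 : 0 < orderOf x / p ^ b :=
      Nat.div_pos (Nat.le_of_dvd (orderOf_pos x) hxb) (pow_pos hp.pos b)
    nlinarith
  -- every element lies in a conjugate of ⟨x⟩
  have hconj : ∀ g : G, ∃ h : G, h⁻¹ * g * h ∈ Subgroup.zpowers x := by
    intro g
    have hd := hdvd g
    have ho : orderOf (x ^ (orderOf x / orderOf g)) = orderOf g :=
      orderOf_pow_orderOf_div (orderOf_pos x).ne' hd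
    obtain ⟨h, hh⟩ := hB (Subgroup.zpowers (x ^ (orderOf x / orderOf g))) (Subgroup.zpowers g)
      inferInstance inferInstance (by rw [Nat.card_zpowers, Nat.card_zpowers, ho])
    have hg : g ∈ (Subgroup.zpowers (x ^ (orderOf x / orderOf g))).map (MulAut.conj h).toMonoidHom := by
      rw [← hh]; exact Subgroup.mem_zpowers g
    obtain ⟨c, hc, hcg⟩ := hg
    refine ⟨h, ?_⟩
    rw [← hcg]
    simp only [MulEquiv.coe_toMonoidHom, MulAut.conj_apply]
    have : h⁻¹ * (h * c * h⁻¹) * h = c := by group
    rw [this]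
    exact (Subgroup.zpowers_le.mpr (Subgroup.pow_mem _ (Subgroup.mem_zpowers x) _)) hc
  haveI : Subsingleton (G ⧸ Subgroup.zpowers x) :=
    Cfsg.Agent.Lib_helper5_Class.subsingleton_of_forall_fixed (G := G)
      (Ω := G ⧸ Subgroup.zpowers x) inferInstance (by
        intro g
        obtain ⟨h, hh⟩ := hconj g
        refine ⟨(h : G ⧸ Subgroup.zpowers x), ?_⟩
        rw [MulAction.Quotient.smul_mk, smul_eq_mul, QuotientGroup.eq]
        have : (g * h)⁻¹ * h = (h⁻¹ * g * h)⁻¹ := by group
        rw [this]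
        exact Subgroup.inv_mem _ hh)
  rw [isCyclic_iff_exists_zpowers_eq_top]
  refine ⟨x, ?_⟩
  rw [eq_top_iff]
  intro g _
  have h1 : ((g : G) : G ⧸ Subgroup.zpowers x) = ((1 : G) : G ⧸ Subgroup.zpowers x) :=
    Subsingleton.elim _ _
  have h2 := QuotientGroup.eq.mp h1
  rw [mul_one] at h2
  exact (Subgroup.inv_mem_iff _).mp h2

end Cfsg.Agent.S3910
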