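import Cfsg.Statements.S3917
import Mathlib

set_option autoImplicit false
open Cfsg

namespace Cfsg.Agent.S3917

/-- Say that a group has self-centralizing non-cyclic subgroups when every non-cyclic subgroup H satisfies C_G(H) ≤ H. A finite abelian group with self-centralizing non-cyclic subgroups is cyclic or elementary abelian of order p² for a prime p. -/
theorem result {G : Type*} [CommGroup G] [Finite G] (hX : (∀ H : Subgroup G, ¬ IsCyclic ↥H → Subgroup.centralizer (H : Set G) ≤ H)) :
    IsCyclic G ∨ ∃ p : ℕ, p.Prime ∧ Nat.card G = p ^ 2 ∧ Monoid.exponent G = p := by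
  by_cases hcyc : IsCyclic G
  · exact Or.inl hcyc
  right
  -- every non-cyclic subgroup is everything
  have htop : ∀ H : Subgroup G, ¬ IsCyclic ↥H → H = ⊤ := by
    intro H hH
    rw [eq_top_iff]
    refine le_trans ?_ (hX H hH)
    intro x _
    rw [Subgroup.mem_centralizer_iff]
    intro y _
    exact mul_comm y x
  set e := Monoid.exponent G with he
  have he0 : 0 < e := Nat.pos_of_ne_zero Monoid.exponent_ne_zero_of_finite
  have hedvd : e ∣ Nat.card G := Group.exponent_dvd_nat_card
  have hcardpos : 0 < Nat.card G := Nat.card_pos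
  have hene : e ≠ Nat.card G := fun h => hcyc (IsCyclic.iff_exponent_eq_card.mpr h)
  have helt : e < Nat.card G := lt_of_le_of_ne (Nat.le_of_dvd hcardpos hedvd) hene
  -- kernels of power maps
  have hK : ∀ m : ℕ, 0 < m → m < e → Nat.card (powMonoidHom m : G →* G).ker ≤ m := by
    intro m hm0 hme
    by_cases hc : IsCyclic (powMonoidHom m : G →* G).ker
    · have h1 : Monoid.exponent (powMonoidHom m : G →* G).ker = Nat.card (powMonoidHom m : G →* G).ker :=
        IsCyclic.exponent_eq_card
      have h2 : Monoid.exponent (powMonoidHom m : G →* G).ker ∣ m := by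
        apply Monoid.exponent_dvd_of_forall_pow_eq_one
        intro x
        have := x.2
        rw [MonoidHom.mem_ker, powMonoidHom_apply] at this
        exact Subtype.ext (by simpa using this)
      rw [h1] at h2
      exact Nat.le_of_dvd hm0 h2
    · exfalso
      have h1 := htop _ hc
      have h2 : e ∣ m := by
        apply Monoid.exponent_dvd_of_forall_pow_eq_one
        intro x
        have : x ∈ (powMonoidHom m : G →* G).ker := by rw [h1]; trivial
        rwa [MonoidHom.mem_ker, powMonoidHom_apply] at this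
      have := Nat.le_of_dvd hm0 h2
      omega
  have he1 : e ≠ 1 := by
    intro h1
    have : Subsingleton G := Monoid.exp_eq_one_iff.mp h1
    have : Nat.card G = 1 := Nat.card_eq_one_iff_unique.mpr ⟨this, ⟨1⟩⟩
    omega
  set p := e.minFac with hp
  have hpp : p.Prime := Nat.minFac_prime he1
  have hpe : p ∣ e := Nat.minFac_dvd e
  obtain ⟨d, hd⟩ := hpe
  have hd0 : 0 < d := by
    rcases Nat.eq_zero_or_pos d with h | h
    · rw [h, mul_zero] at hd; omega
    · exact h
  have hep : e = p := by
    by_contra hne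
    have hd2 : 2 ≤ d := by
      by_contra hlt
      have : d = 1 := by omega
      rw [this, mul_one] at hd
      exact hne hd
    have hp2 := hpp.two_le
    have hpe' : p < e := by nlinarith
    have hde : d < e := by nlinarith
    have h1 := Subgroup.card_mul_index (powMonoidHom p : G →* G).ker
    rw [Subgroup.index_ker] at h1
    have h2 : (powMonoidHom p : G →* G).range ≤ (powMonoidHom d : G →* G).ker := by
      rintro _ ⟨x, rfl⟩
      rw [MonoidHom.mem_ker, powMonoidHom_apply, powMonoidHom_apply, ← pow_mul, ← hd]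
      exact Monoid.pow_exponent_eq_one x
    have h3 : Nat.card (powMonoidHom p : G →* G).range ≤ Nat.card (powMonoidHom d : G →* G).ker :=
      Nat.le_of_dvd Nat.card_pos (Subgroup.card_dvd_of_le h2)
    have h4 := hK p hpp.pos hpe'
    have h5 := hK d hd0 hde
    have : Nat.card G ≤ p * d := by
      rw [← h1]
      exact Nat.mul_le_mul h4 (le_trans h3 h5)
    omega
  -- now exponent is p
  have hexp : ∀ x : G, x ^ p = 1 := fun x => hep ▸ Monoid.pow_exponent_eq_one x
  have hnt : Nontrivial G := by
    rw [← Finite.one_lt_card_iff_nontrivial]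
    omega
  have hord : ∀ x : G, x ≠ 1 → orderOf x = p := fun x hx =>
    (Monoid.exponent_eq_prime_iff hpp).mp (by rw [← he]; exact hep) x hx
  obtain ⟨a, ha⟩ := exists_ne (1 : G)
  have hb : ∃ b : G, b ∉ Subgroup.zpowers a := by
    by_contra hall
    rw [not_exists] at hall
    apply hcyc
    exact ⟨a, fun x => by_contra fun hx => hall x hx⟩
  obtain ⟨b, hb⟩ := hb
  have hb1 : b ≠ 1 := fun h => hb (h ▸ Subgroup.one_mem _)
  have hHtop : Subgroup.zpowers a ⊔ Subgroup.zpowers b = ⊤ := by
    apply htop
    intro hc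
    have h1 : Monoid.exponent ↥(Subgroup.zpowers a ⊔ Subgroup.zpowers b) =
        Nat.card ↥(Subgroup.zpowers a ⊔ Subgroup.zpowers b) := IsCyclic.exponent_eq_card
    have h2 : Monoid.exponent ↥(Subgroup.zpowers a ⊔ Subgroup.zpowers b) ∣ p := by
      apply Monoid.exponent_dvd_of_forall_pow_eq_one
      intro x
      exact Subtype.ext (by simpa using hexp x)
    rw [h1] at h2
    have h3 : Nat.card ↥(Subgroup.zpowers a ⊔ Subgroup.zpowers b) ≤ Nat.card (Subgroup.zpowers a) := by
      rw [Nat.card_zpowers, hord a ha]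
      exact Nat.le_of_dvd hpp.pos h2
    have h4 := Subgroup.eq_of_le_of_card_ge (le_sup_left : Subgroup.zpowers a ≤ Subgroup.zpowers a ⊔ Subgroup.zpowers b) h3
    apply hb
    rw [h4]
    exact Subgroup.mem_sup_right (Subgroup.mem_zpowers b)
  have hle : Nat.card G ≤ p * p := by
    have hsurj : Function.Surjective (fun x : Subgroup.zpowers a × Subgroup.zpowers b => (x.1 : G) * (x.2 : G)) := by
      intro g
      have hg : g ∈ Subgroup.zpowers a ⊔ Subgroup.zpowers b := by rw [hHtop]; trivial
      obtain ⟨y, hy, z, hz, hyz⟩ := Subgroup.mem_sup.mp hg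
      exact ⟨(⟨y, hy⟩, ⟨z, hz⟩), hyz⟩
    have := Nat.card_le_card_of_surjective _ hsurj
    rwa [Nat.card_prod, Nat.card_zpowers, Nat.card_zpowers, hord a ha, hord b hb1] at this
  have hpg : IsPGroup p G := fun g => ⟨1, by rw [pow_one]; exact hexp g⟩
  have : Fact p.Prime := ⟨hpp⟩
  obtain ⟨k, hk⟩ := IsPGroup.iff_card.mp hpg
  refine ⟨p, hpp, ?_, hep⟩
  have hp2 := hpp.two_le
  have hk2 : k = 2 := by
    have h1 : p ^ 1 < p ^ k := by rw [pow_one, ← hk, ← hep]; exact helt
    have h2 : p ^ k ≤ p ^ 2 := by rw [← hk, pow_two]; exact hle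
    have h3 := (Nat.pow_lt_pow_iff_right hpp.one_lt).mp h1
    have h4 := (Nat.pow_le_pow_iff_right hpp.one_lt).mp h2
    omega
  rw [hk, hk2]

end Cfsg.Agent.S3917
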