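import Cfsg.Statements.S3920
import Cfsg.Agent.Lib_helper2_DihGrp

set_option autoImplicit false
open Cfsg

namespace Cfsg.Agent.S3920

open Cfsg.Agent.Lib_helper2_DihGrp

/-- Say that a group has self-centralizing non-cyclic subgroups when every non-cyclic subgroup H satisfies C_G(H) ≤ H. For n ≥ 3, the dihedral group of order 2n has self-centralizing non-cyclic subgroups if and only if n is odd or a power of 2. -/
theorem result (n : ℕ) (hn : 3 ≤ n) : (∀ H : Subgroup (DihedralGroup n), ¬ IsCyclic ↥H → Subgroup.centralizer (H : Set (DihedralGroup n)) ≤ H) ↔ (Odd n ∨ ∃ k : ℕ, n = 2 ^ k) := by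
  exact S3920_main n hn

end Cfsg.Agent.S3920
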