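import Cfsg.Statements.S3939
import Cfsg.Agent.Lib_helper5_Fitting
import Cfsg.Agent.Lib_helper5_Baer
import Cfsg.Agent.Lib_helper5_PParts
import Cfsg.Agent.Lib_helper3_Faithful
import Cfsg.Agent.Lib_helper6_Sylow
import Cfsg.Agent.Lib_helper6_PCore

set_option autoImplicit false
open Cfsg

namespace Cfsg.Agent.S3939

universe u

/-- the hypothesis -/
def Hyp {G : Type*} [Group G] (g : G) : Prop :=
  ∀ x : G, Group.IsNilpotent ↥(Subgroup.closure ({x, g} : Set G))

theorem nilp_of_le {G : Type*} [Group G] {A B : Subgroup G} (h : A ≤ B)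
    (hB : Group.IsNilpotent B) : Group.IsNilpotent A := by
  haveI := hB
  haveI : Group.IsNilpotent (A.subgroupOf B) := inferInstance
  exact Group.nilpotent_of_mulEquiv (Subgroup.subgroupOfEquivOfLe h)

theorem hyp_pow {G : Type*} [Group G] (g : G) (h : Hyp g) (k : ℕ) : Hyp (g ^ k) := by
  intro x
  apply nilp_of_le _ (h x)
  rw [Subgroup.closure_le]
  intro y hy
  rcases hy with hy | hy
  · rw [hy]; exact Subgroup.subset_closure (Set.mem_insert x {g})
  · rw [Set.mem_singleton_iff] at hy
    rw [hy]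
    exact Subgroup.pow_mem (Subgroup.closure ({x, g} : Set G))
      (Subgroup.subset_closure (Set.mem_insert_of_mem x (Set.mem_singleton g))) k

theorem hyp_map {G G' : Type*} [Group G] [Group G'] (f : G →* G') (hf : Function.Surjective f)
    (g : G) (h : Hyp g) : Hyp (f g) := by
  intro x'
  obtain ⟨x, rfl⟩ := hf x'
  have e : Subgroup.closure ({f x, f g} : Set G') = (Subgroup.closure ({x, g} : Set G)).map f := by
    rw [MonoidHom.map_closure]
    congr 1
    exact (Set.image_pair f x g).symm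
  rw [e]
  haveI := h x
  exact Group.nilpotent_of_surjective (f.subgroupMap _) (f.subgroupMap_surjective _)

theorem commute_of_nilpotent {N : Type*} [Group N] [Finite N] [Group.IsNilpotent N] {p q : ℕ}
    [Fact p.Prime] [Fact q.Prime] (hpq : p ≠ q) (u w : N) (hu : ∃ k : ℕ, orderOf u = p ^ k)
    (hw : ∃ k : ℕ, orderOf w = q ^ k) : Commute u w := by
  obtain ⟨P, hP⟩ := Cfsg.Agent.Lib_helper6_Sylow.pElem_mem_sylow hu
  obtain ⟨Q, hQ⟩ := Cfsg.Agent.Lib_helper6_Sylow.pElem_mem_sylow hw
  exact Subgroup.commute_of_normal_of_disjoint _ _ inferInstance inferInstance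
    (IsPGroup.disjoint_of_ne p q hpq _ _ P.2 Q.2) u w hP hQ

theorem commute_coprime {G : Type*} [Group G] [Finite G] {p : ℕ} [Fact p.Prime] (y : G)
    (hy : ∃ j : ℕ, orderOf y = p ^ j) (h : Hyp y) :
    ∀ x : G, (orderOf x).Coprime p → x * y = y * x := by
  obtain ⟨j, hj⟩ := hy
  have key := Cfsg.Agent.Lib_helper5_PParts.mem_of_prime_power_parts p
    (Subgroup.centralizer ({y} : Set G)) (by
      rintro x ⟨q, b, hq, hqp, hxo⟩
      haveI : Fact q.Prime := ⟨hq⟩
      haveI := h x
      have hxm : x ∈ Subgroup.closure ({x, y} : Set G) :=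
        Subgroup.subset_closure (Set.mem_insert _ _)
      have hym : y ∈ Subgroup.closure ({x, y} : Set G) :=
        Subgroup.subset_closure (Set.mem_insert_of_mem _ rfl)
      have hc : Commute (⟨x, hxm⟩ : Subgroup.closure ({x, y} : Set G)) ⟨y, hym⟩ :=
        commute_of_nilpotent hqp _ _ ⟨b, by rw [Subgroup.orderOf_mk, hxo]⟩
          ⟨j, by rw [Subgroup.orderOf_mk, hj]⟩
      rw [Subgroup.mem_centralizer_iff]
      intro z hz
      rw [Set.mem_singleton_iff] at hz
      rw [hz]
      exact (congrArg Subtype.val hc.eq).symm)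
  intro x hx
  have h1 := key x hx
  rw [Subgroup.mem_centralizer_iff] at h1
  exact (h1 y rfl).symm

theorem exists_normal_pgroup {G : Type u} [Group G] [Finite G] {p : ℕ} [Fact p.Prime] (y : G)
    (hy : ∃ j : ℕ, orderOf y = p ^ j) (h : Hyp y) :
    ∃ D : Subgroup G, D.Normal ∧ IsPGroup p D ∧ y ∈ D ∧
      ∀ d ∈ D, ∀ x : G, (orderOf x).Coprime p → x * d = d * x := by
  have hyF : y ∈ Cfsg.fittingSubgroup G := by
    rw [Cfsg.Agent.Lib_helper5_Baer.mem_fitting_iff_eng]
    intro x
    haveI := h x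
    have hxm : x ∈ Subgroup.closure ({x, y} : Set G) :=
      Subgroup.subset_closure (Set.mem_insert _ _)
    have hym : y ∈ Subgroup.closure ({x, y} : Set G) :=
      Subgroup.subset_closure (Set.mem_insert_of_mem _ rfl)
    have htop : (⊤ : Subgroup (Subgroup.closure ({x, y} : Set G))) ≤
        Cfsg.fittingSubgroup (Subgroup.closure ({x, y} : Set G)) :=
      Cfsg.Agent.Lib_helper5_Fitting.le_fitting inferInstance
        (Group.nilpotent_of_mulEquiv Subgroup.topEquiv.symm)
    obtain ⟨n, hn⟩ := Cfsg.Agent.Lib_helper5_Baer.eng_of_mem_fitting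
      (⟨y, hym⟩ : Subgroup.closure ({x, y} : Set G)) (htop (Subgroup.mem_top _)) ⟨x, hxm⟩
    refine ⟨n, ?_⟩
    have h1 := Cfsg.Agent.Lib_helper5_Baer.map_eng (Subgroup.closure ({x, y} : Set G)).subtype
      ⟨y, hym⟩ ⟨x, hxm⟩ n
    rw [hn] at h1
    simpa using h1.symm
  haveI hFn : (Cfsg.fittingSubgroup G).Normal :=
    Cfsg.Agent.Lib_helper6_PCore.fittingSubgroup_normal
  haveI hFnil : Group.IsNilpotent (Cfsg.fittingSubgroup G) :=
    Cfsg.Agent.Lib_helper5_Fitting.fitting_isNilpotent
  obtain ⟨j, hj⟩ := hy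
  obtain ⟨Q, hQ⟩ := Cfsg.Agent.Lib_helper6_Sylow.pElem_mem_sylow
    (x := (⟨y, hyF⟩ : Cfsg.fittingSubgroup G)) ⟨j, by rw [Subgroup.orderOf_mk, hj]⟩
  haveI : (Q : Subgroup (Cfsg.fittingSubgroup G)).Characteristic :=
    Sylow.characteristic_of_normal Q inferInstance
  haveI hD0n : ((Q : Subgroup (Cfsg.fittingSubgroup G)).map
      (Cfsg.fittingSubgroup G).subtype).Normal := ConjAct.normal_of_characteristic_of_normal
  have hD0p : IsPGroup p ((Q : Subgroup (Cfsg.fittingSubgroup G)).map
      (Cfsg.fittingSubgroup G).subtype) := Q.2.map _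
  haveI hCn : (Subgroup.centralizer {x : G | (orderOf x).Coprime p}).Normal := by
    constructor
    intro c hc g
    rw [Subgroup.mem_centralizer_iff] at hc ⊢
    intro s hs
    have hs' : g⁻¹ * s * g ∈ {x : G | (orderOf x).Coprime p} := by
      show (orderOf (g⁻¹ * s * g)).Coprime p
      have h1 := orderOf_injective (MulAut.conj g⁻¹).toMonoidHom (MulAut.conj g⁻¹).injective s
      have h2 : (MulAut.conj g⁻¹).toMonoidHom s = g⁻¹ * s * g := by
        simp
      rw [h2] at h1
      rw [h1]; exact hs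
    have h3 := hc _ hs'
    calc s * (g * c * g⁻¹) = g * ((g⁻¹ * s * g) * c) * g⁻¹ := by group
      _ = g * (c * (g⁻¹ * s * g)) * g⁻¹ := by rw [h3]
      _ = g * c * g⁻¹ * s := by group
  refine ⟨(Q : Subgroup (Cfsg.fittingSubgroup G)).map (Cfsg.fittingSubgroup G).subtype ⊓
    Subgroup.centralizer {x : G | (orderOf x).Coprime p}, inferInstance,
    hD0p.to_le inf_le_left, ⟨⟨⟨y, hyF⟩, hQ, rfl⟩, ?_⟩, ?_⟩
  · show y ∈ Subgroup.centralizer {x : G | (orderOf x).Coprime p}
    rw [Subgroup.mem_centralizer_iff]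
    intro x hx
    exact commute_coprime y ⟨j, hj⟩ h x hx
  · intro d hd x hx
    have h1 : d ∈ Subgroup.centralizer {x : G | (orderOf x).Coprime p} := hd.2
    rw [Subgroup.mem_centralizer_iff] at h1
    exact h1 x hx

theorem center_ne_bot {G : Type u} [Group G] [Finite G] {p : ℕ} [Fact p.Prime] (y : G)
    (hy1 : y ≠ 1) (hy : ∃ j : ℕ, orderOf y = p ^ j) (h : Hyp y) : Subgroup.center G ≠ ⊥ := by
  have hp : p.Prime := Fact.out
  obtain ⟨D, hDn, hDp, hyD, hDc⟩ := exists_normal_pgroup y hy h
  obtain ⟨P, hDP⟩ := hDp.exists_le_sylow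
  haveI : (D.subgroupOf (P : Subgroup G)).Normal :=
    (Subgroup.normal_subgroupOf_iff hDP).mpr (fun d k hd _ => hDn.conj_mem d hd k)
  have hne : D.subgroupOf (P : Subgroup G) ≠ ⊥ := by
    intro hb
    have h1 : (⟨y, hDP hyD⟩ : (P : Subgroup G)) ∈ D.subgroupOf (P : Subgroup G) :=
      Subgroup.mem_subgroupOf.mpr hyD
    rw [hb, Subgroup.mem_bot] at h1
    exact hy1 (congrArg Subtype.val h1)
  obtain ⟨z, hzD, hzc, hz1⟩ :=
    Cfsg.Agent.Lib_helper3_Faithful.exists_center_mem_of_normal P.2 (D.subgroupOf (P : Subgroup G)) hne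
  have hzD' : (z : G) ∈ D := Subgroup.mem_subgroupOf.mp hzD
  have htop : Subgroup.centralizer ({(z : G)} : Set G) = ⊤ := by
    apply Cfsg.Agent.Lib_helper5_PParts.eq_top_of_forall_sylow_le
    intro q hq
    by_cases hqp : q = p
    · subst hqp
      refine ⟨P, fun x hx => ?_⟩
      rw [Subgroup.mem_centralizer_iff]
      intro w hw
      rw [Set.mem_singleton_iff] at hw
      rw [hw]
      have := Subgroup.mem_center_iff.mp hzc ⟨x, hx⟩
      exact (congrArg Subtype.val this).symm
    · obtain ⟨Q⟩ : Nonempty (Sylow q G) := inferInstance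
      refine ⟨Q, fun x hx => ?_⟩
      rw [Subgroup.mem_centralizer_iff]
      intro w hw
      rw [Set.mem_singleton_iff] at hw
      rw [hw]
      obtain ⟨k, hk⟩ := Q.2 ⟨x, hx⟩
      have h1 : x ^ q ^ k = 1 := congrArg Subtype.val hk
      have h2 : (orderOf x).Coprime p := by
        apply Nat.Coprime.coprime_dvd_left (orderOf_dvd_of_pow_eq_one h1)
        apply Nat.Coprime.pow_left
        exact (Nat.coprime_primes hq.out hp).mpr hqp
      exact (hDc _ hzD' x h2).symm
  intro hbot
  apply hz1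
  have h1 : (z : G) ∈ Subgroup.center G := by
    rw [Subgroup.mem_center_iff]
    intro g
    have h2 : g ∈ Subgroup.centralizer ({(z : G)} : Set G) := by rw [htop]; trivial
    rw [Subgroup.mem_centralizer_iff] at h2
    exact (h2 _ rfl).symm
  rw [hbot, Subgroup.mem_bot] at h1
  exact Subtype.ext h1

theorem mem_ucs_aux : ∀ (n : ℕ) (G : Type u) [Group G] [Finite G], Nat.card G = n →
    ∀ g : G, Hyp g → ∃ m, g ∈ Subgroup.upperCentralSeries G m := by
  intro n
  induction n using Nat.strong_induction_on with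
  | _ n ih =>
    intro G _ _ hn g hg
    by_cases hg1 : g = 1
    · exact ⟨0, hg1 ▸ Subgroup.one_mem _⟩
    have ho1 : orderOf g ≠ 1 := fun h => hg1 (orderOf_eq_one_iff.mp h)
    have hpr := Nat.minFac_prime ho1
    haveI : Fact (orderOf g).minFac.Prime := ⟨hpr⟩
    have hyo : orderOf (g ^ (orderOf g / (orderOf g).minFac)) = (orderOf g).minFac :=
      orderOf_pow_orderOf_div (orderOf_pos g).ne' (Nat.minFac_dvd _)
    have hy1 : g ^ (orderOf g / (orderOf g).minFac) ≠ 1 := by
      intro h1
      rw [h1, orderOf_one] at hyo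
      exact hpr.one_lt.ne hyo
    have hcen := center_ne_bot (p := (orderOf g).minFac) _ hy1 ⟨1, by rw [hyo, pow_one]⟩
      (hyp_pow g hg _)
    have hlt : Nat.card (G ⧸ Subgroup.center G) < n := by
      have h1 := Subgroup.card_eq_card_quotient_mul_card_subgroup (Subgroup.center G)
      have h2 : 1 < Nat.card (Subgroup.center G) := by
        rw [Subgroup.one_lt_card_iff_ne_bot]
        exact hcen
      have h3 : 0 < Nat.card (G ⧸ Subgroup.center G) := Nat.card_pos
      rw [hn] at h1
      nlinarith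
    obtain ⟨m, hm⟩ := ih _ hlt (G ⧸ Subgroup.center G) rfl
      (QuotientGroup.mk' (Subgroup.center G) g)
      (hyp_map _ (QuotientGroup.mk'_surjective _) g hg)
    refine ⟨m + 1, ?_⟩
    rw [← Subgroup.comap_upperCentralSeries_quotient_center]
    exact hm

theorem ucs_subgroup {G : Type*} [Group G] (H : Subgroup G) :
    ∀ n : ℕ, ∀ z : H, (z : G) ∈ Subgroup.upperCentralSeries G n →
      z ∈ Subgroup.upperCentralSeries H n := by
  intro n
  induction n with
  | zero =>
    intro z hz
    rw [Subgroup.upperCentralSeries_zero, Subgroup.mem_bot] at hz ⊢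
    exact Subtype.ext hz
  | succ n ih =>
    intro z hz
    rw [Subgroup.mem_upperCentralSeries_succ_iff] at hz ⊢
    intro y
    apply ih
    exact hz y

theorem hyp_of_mem {G : Type*} [Group G] (g : G) (n : ℕ)
    (hg : g ∈ Subgroup.upperCentralSeries G n) : Hyp g := by
  intro x
  have hxm : x ∈ Subgroup.closure ({x, g} : Set G) :=
    Subgroup.subset_closure (Set.mem_insert _ _)
  have hgm : g ∈ Subgroup.closure ({x, g} : Set G) :=
    Subgroup.subset_closure (Set.mem_insert_of_mem _ rfl)
  have hgZ := ucs_subgroup (Subgroup.closure ({x, g} : Set G)) n ⟨g, hgm⟩ hg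
  -- every element is a power of x modulo Z_n
  have hpow : ∀ h : Subgroup.closure ({x, g} : Set G),
      QuotientGroup.mk' (Subgroup.upperCentralSeries (Subgroup.closure ({x, g} : Set G)) n) h ∈
        Subgroup.zpowers (QuotientGroup.mk'
          (Subgroup.upperCentralSeries (Subgroup.closure ({x, g} : Set G)) n) ⟨x, hxm⟩) := by
    have hle : Subgroup.closure ({x, g} : Set G) ≤
        ((Subgroup.zpowers (QuotientGroup.mk'
          (Subgroup.upperCentralSeries (Subgroup.closure ({x, g} : Set G)) n) ⟨x, hxm⟩)).comap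
          (QuotientGroup.mk'
            (Subgroup.upperCentralSeries (Subgroup.closure ({x, g} : Set G)) n))).map
          (Subgroup.closure ({x, g} : Set G)).subtype := by
      rw [Subgroup.closure_le]
      intro y hy
      rcases hy with rfl | hy
      · exact ⟨⟨y, hxm⟩, Subgroup.mem_zpowers _, rfl⟩
      · rw [Set.mem_singleton_iff] at hy
        subst hy
        refine ⟨⟨y, hgm⟩, ?_, rfl⟩
        rw [SetLike.mem_coe, Subgroup.mem_comap]
        have : QuotientGroup.mk'
            (Subgroup.upperCentralSeries (Subgroup.closure ({x, y} : Set G)) n) ⟨y, hgm⟩ = 1 :=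
          (QuotientGroup.eq_one_iff _).mpr hgZ
        rw [this]
        exact Subgroup.one_mem _
    intro h
    obtain ⟨k, hk, hkh⟩ := hle h.2
    have : k = h := Subtype.ext hkh
    rw [← this]
    exact hk
  refine ⟨⟨n + 1, ?_⟩⟩
  rw [eq_top_iff]
  intro h _
  rw [Subgroup.mem_upperCentralSeries_succ_iff]
  intro k
  rw [← QuotientGroup.eq_one_iff, commutatorElement_def]
  obtain ⟨i, hi⟩ := Subgroup.mem_zpowers_iff.mp (hpow h)
  obtain ⟨j, hj⟩ := Subgroup.mem_zpowers_iff.mp (hpow k)
  have e : ((h * k * h⁻¹ * k⁻¹ : Subgroup.closure ({x, g} : Set G)) :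
      Subgroup.closure ({x, g} : Set G) ⧸
        Subgroup.upperCentralSeries (Subgroup.closure ({x, g} : Set G)) n) =
      QuotientGroup.mk' _ h * QuotientGroup.mk' _ k * (QuotientGroup.mk' _ h)⁻¹ *
        (QuotientGroup.mk' _ k)⁻¹ := rfl
  rw [e, ← hi, ← hj]
  have hc : Commute ((QuotientGroup.mk'
      (Subgroup.upperCentralSeries (Subgroup.closure ({x, g} : Set G)) n) ⟨x, hxm⟩) ^ i)
      ((QuotientGroup.mk'
      (Subgroup.upperCentralSeries (Subgroup.closure ({x, g} : Set G)) n) ⟨x, hxm⟩) ^ j) :=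
    (Commute.refl _).zpow_zpow i j
  rw [hc.eq]
  group



/-- In a finite group G the set of elements g such that the subgroup generated by g and x is nilpotent for every x ∈ G is exactly the hypercenter of G (the last term of the upper central series). -/
theorem result {G : Type*} [Group G] [Finite G] (g : G) :
    (∀ x : G, Group.IsNilpotent ↥(Subgroup.closure ({x, g} : Set G))) ↔ g ∈ ⨆ n : ℕ, Subgroup.upperCentralSeries G n := by
  have hdir : Directed (· ≤ ·) (fun n : ℕ => Subgroup.upperCentralSeries G n) :=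
    Monotone.directed_le (Subgroup.upperCentralSeries_mono G)
  rw [Subgroup.mem_iSup_of_directed hdir]
  constructor
  · intro h
    exact mem_ucs_aux _ G rfl g h
  · rintro ⟨n, hn⟩
    exact hyp_of_mem g n hn

end Cfsg.Agent.S3939
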