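import Cfsg.Statements.S3949

set_option autoImplicit false
open Cfsg

namespace Cfsg.Agent.S3949

/-- Let G be a finite group and α an automorphism of G of order 2 such that the elements g·α(g)⁻¹ generate G. Let j be a positive integer such that 2^j divides the order of no element inverted by α. Then the set of values of the j-th iterate of the map c ↦ c·α(c)⁻¹ is exactly the set of elements of odd order inverted by α. -/
theorem result {G : Type*} [Group G] [Finite G] (α : MulAut G) (hα : orderOf α = 2) (hG : Subgroup.closure (Set.range (fun c : G => c * (α c)⁻¹)) = ⊤)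
    (j : ℕ) (hj : ∀ g : G, α g = g⁻¹ → ¬ 2 ^ j ∣ orderOf g) :
    Set.range ((fun c : G => c * (α c)⁻¹)^[j]) = {g : G | Odd (orderOf g) ∧ α g = g⁻¹} := by
  have hαα : ∀ c : G, α (α c) = c := by
    intro c
    have h1 : α ^ 2 = 1 := by rw [← hα]; exact pow_orderOf_eq_one α
    have h2 : (α ^ 2) c = c := by rw [h1]; rfl
    rwa [pow_two, MulAut.mul_apply] at h2
  set φ : G → G := fun c => c * (α c)⁻¹ with hφ
  have hφinv : ∀ c : G, α (φ c) = (φ c)⁻¹ := by
    intro c
    simp only [hφ, map_mul, map_inv, hαα, mul_inv_rev, inv_inv]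
  have hφsq : ∀ x : G, α x = x⁻¹ → φ x = x ^ 2 := by
    intro x hx
    simp only [hφ, hx, inv_inv, pow_two]
  have hpowinv : ∀ (x : G) (n : ℕ), α x = x⁻¹ → α (x ^ n) = (x ^ n)⁻¹ := by
    intro x n hx
    rw [map_pow, hx, inv_pow]
  have hiter : ∀ (i : ℕ) (c : G), φ^[i + 1] c = (φ c) ^ 2 ^ i := by
    intro i
    induction i with
    | zero => intro c; simp
    | succ i ih =>
      intro c
      rw [Function.iterate_succ_apply', ih, hφsq _ (hpowinv _ _ (hφinv c)), ← pow_mul, ← pow_succ]
  have hj0 : j ≠ 0 := by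
    rintro rfl
    exact hj 1 (by simp) (by simp)
  obtain ⟨i, rfl⟩ := Nat.exists_eq_succ_of_ne_zero hj0
  ext g
  simp only [Set.mem_range, Set.mem_ofPred_eq]
  constructor
  · rintro ⟨c, rfl⟩
    rw [hiter]
    refine ⟨?_, hpowinv _ _ (hφinv c)⟩
    -- order of (φ c)^(2^i) is odd
    have hnd := hj (φ c) (hφinv c)
    obtain ⟨a, m, hm, hn⟩ := Nat.exists_eq_pow_mul_and_not_dvd (orderOf_pos (φ c)).ne' 2
      (by norm_num)
    have ha : a ≤ i := by
      by_contra hlt
      push Not at hlt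
      apply hnd
      rw [hn]
      exact Dvd.dvd.mul_right (pow_dvd_pow 2 hlt) m
    have h1 : orderOf ((φ c) ^ 2 ^ i) ∣ m := by
      apply orderOf_dvd_of_pow_eq_one
      rw [← pow_mul]
      apply orderOf_dvd_iff_pow_eq_one.mp
      rw [hn]
      obtain ⟨d, rfl⟩ := Nat.exists_eq_add_of_le ha
      rw [pow_add]
      exact ⟨2 ^ d, by ring⟩
    have hmodd : Odd m := Nat.odd_iff.mpr (by omega)
    exact Odd.of_dvd_nat hmodd h1
  · rintro ⟨hodd, hinv⟩
    -- g = h ^ (2 ^ (i+1)) with h a power of g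
    have hcop : Nat.Coprime (2 ^ (i + 1)) (orderOf g) :=
      Nat.Coprime.pow_left _ (Nat.coprime_two_left.mpr hodd)
    obtain ⟨m, hm⟩ := exists_pow_eq_self_of_coprime hcop
    refine ⟨g ^ m, ?_⟩
    rw [hiter, hφsq _ (hpowinv g m hinv), ← pow_mul, ← pow_succ', ← pow_mul, mul_comm, pow_mul]
    exact hm

end Cfsg.Agent.S3949
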