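import Cfsg.Statements.S3982
import Cfsg.Agent.Lib_helper5_PiHall
import Cfsg.Agent.Lib_helper3_Faithful
import Cfsg.Agent.Lib_helper2_SE
import Cfsg.Agent.Lib_helper1_Basic

set_option autoImplicit false
open Cfsg

namespace Cfsg.Agent.S3982

theorem conj_pow_odd {G : Type*} [Group G] (y u : G) (hyu : y * u * y⁻¹ = u⁻¹) :
    ∀ j : ℕ, y ^ (2 * j + 1) * u * (y ^ (2 * j + 1))⁻¹ = u⁻¹ := by
  intro j
  induction j with
  | zero => simpa using hyu
  | succ j ih =>
    have e : y ^ (2 * (j + 1) + 1) * u * (y ^ (2 * (j + 1) + 1))⁻¹ =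
        y * (y * (y ^ (2 * j + 1) * u * (y ^ (2 * j + 1))⁻¹) * y⁻¹) * y⁻¹ := by
      have : 2 * (j + 1) + 1 = (2 * j + 1) + 1 + 1 := by ring
      rw [this, pow_succ' y (2 * j + 1 + 1), pow_succ' y (2 * j + 1)]
      group
    rw [e, ih]
    have e2 : y * u⁻¹ * y⁻¹ = (y * u * y⁻¹)⁻¹ := by group
    rw [e2, hyu, inv_inv, hyu]

theorem key {G : Type*} [Group G] [Finite G] (p : ℕ) [Fact p.Prime] (hp2 : p ≠ 2)
    (hC : ∀ g : G, g ≠ 1 → (∃ k : ℕ, orderOf g = p ^ k) →
      Odd (Nat.card ↥(Subgroup.centralizer ({g} : Set G))))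
    (R : Subgroup G) (n : ℕ) (hn : Nat.card R = p ^ n) (hn0 : n ≠ 0)
    (hev : Even (Nat.card ↥(Subgroup.normalizer (R : Set G))))
    (hdvd : p ^ (n + 1) ∣ Nat.card G) :
    ∃ (T : Subgroup G) (m : ℕ), Nat.card T = p ^ m ∧ n < m ∧
      Even (Nat.card ↥(Subgroup.normalizer (T : Set G))) := by
  have hp : p.Prime := Fact.out
  obtain ⟨K, hK, hRK⟩ := Sylow.exists_subgroup_card_pow_succ hdvd hn
  have hKp : IsPGroup p K := IsPGroup.of_card hK
  have hRp : IsPGroup p R := IsPGroup.of_card hn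
  have hnorm : (R.subgroupOf K).Normal := by
    apply Subgroup.normal_of_index_eq_minFac_card
    rw [hK, hp.pow_minFac (Nat.succ_ne_zero n)]
    have h1 := Cfsg.Agent.Lib_helper5_PiHall.card_mul_relIndex_of_le hRK
    rw [hn, hK, pow_succ] at h1
    exact Nat.eq_of_mul_eq_mul_left (pow_pos hp.pos n) h1
  have hne : R.subgroupOf K ≠ ⊥ := by
    intro h
    have h1 : R = ⊥ := by
      rw [eq_bot_iff]
      intro x hx
      have h2 : (⟨x, hRK hx⟩ : K) ∈ R.subgroupOf K := Subgroup.mem_subgroupOf.mpr hx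
      rw [h, Subgroup.mem_bot] at h2
      rw [Subgroup.mem_bot]
      exact congrArg Subtype.val h2
    rw [h1, Subgroup.card_bot] at hn
    exact hn0 ((Nat.pow_eq_one.mp hn.symm).resolve_left hp.one_lt.ne')
  obtain ⟨z, hzR, hzc, hz1⟩ :=
    Cfsg.Agent.Lib_helper3_Faithful.exists_center_mem_of_normal hKp (R.subgroupOf K) hne
  obtain ⟨u, huK⟩ := z
  have huR : u ∈ R := Subgroup.mem_subgroupOf.mp hzR
  have hu1 : u ≠ 1 := fun h => hz1 (Subtype.ext h)
  have hucomm : ∀ k ∈ K, k * u = u * k := by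
    intro k hk
    have := Subgroup.mem_center_iff.mp hzc ⟨k, hk⟩
    exact congrArg Subtype.val this
  have hpel : ∀ w ∈ R, ∃ k : ℕ, orderOf w = p ^ k := by
    intro w hw
    obtain ⟨k, hk⟩ := hRp ⟨w, hw⟩
    have h1 : w ^ p ^ k = 1 := congrArg Subtype.val hk
    obtain ⟨j, -, hj⟩ := (Nat.dvd_prime_pow hp).mp (orderOf_dvd_of_pow_eq_one h1)
    exact ⟨j, hj⟩
  -- an involution in the normalizer
  obtain ⟨t', ht'⟩ := exists_prime_orderOf_dvd_card' 2 (even_iff_two_dvd.mp hev)
  obtain ⟨t, htN⟩ := t'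
  have hto : orderOf t = 2 := by rw [← ht', Subgroup.orderOf_mk]
  have ht2 : t * t = 1 := by
    have := pow_orderOf_eq_one t
    rw [hto, pow_two] at this
    exact this
  have hti : t⁻¹ = t := inv_eq_of_mul_eq_one_left ht2
  have htR : ∀ x ∈ R, t * x * t⁻¹ ∈ R := fun x hx => (Subgroup.mem_normalizer_iff.mp htN x).mp hx
  -- t inverts R
  have hinv : t * u * t⁻¹ = u⁻¹ := by
    let φ : R → R := fun x => ⟨(x : G)⁻¹ * (t * x * t⁻¹), R.mul_mem (R.inv_mem x.2) (htR x x.2)⟩
    have hφ : Function.Injective φ := by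
      intro x y hxy
      have h1 : (x : G)⁻¹ * (t * x * t⁻¹) = (y : G)⁻¹ * (t * y * t⁻¹) := congrArg Subtype.val hxy
      have h2 : t * ((y : G) * (x : G)⁻¹) * t⁻¹ = (y : G) * (x : G)⁻¹ := by
        have e1 : t * ((y : G) * (x : G)⁻¹) * t⁻¹ = (t * y * t⁻¹) * (t * x * t⁻¹)⁻¹ := by group
        have e2 : t * (y : G) * t⁻¹ = y * ((x : G)⁻¹ * (t * x * t⁻¹)) := by
          rw [h1]; group
        rw [e1, e2]; group
      by_contra hne
      have hw1 : (y : G) * (x : G)⁻¹ ≠ 1 := by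
        intro h
        apply hne
        apply Subtype.ext
        exact (mul_inv_eq_one.mp h).symm
      have hodd := hC _ hw1 (hpel _ (R.mul_mem y.2 (R.inv_mem x.2)))
      have htc : t ∈ Subgroup.centralizer ({(y : G) * (x : G)⁻¹} : Set G) := by
        rw [Subgroup.mem_centralizer_iff]
        intro h hh
        rw [Set.mem_singleton_iff] at hh
        rw [hh]
        exact (mul_inv_eq_iff_eq_mul.mp h2).symm
      have hdv := Subgroup.orderOf_dvd_natCard _ htc
      rw [hto] at hdv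
      exact (Nat.not_even_iff_odd.mpr hodd) (even_iff_two_dvd.mpr hdv)
    obtain ⟨x, hx⟩ := (Finite.surjective_of_injective hφ) ⟨u, huR⟩
    have hx' : (x : G)⁻¹ * (t * x * t⁻¹) = u := congrArg Subtype.val hx
    rw [← hx']
    have e1 : t * ((x : G)⁻¹ * (t * x * t⁻¹)) * t⁻¹ = t * (x : G)⁻¹ * t * x * (t⁻¹ * t⁻¹) := by
      group
    have e2 : ((x : G)⁻¹ * (t * x * t⁻¹))⁻¹ = t * (x : G)⁻¹ * t⁻¹ * x := by group
    rw [e1, e2, hti, ht2, mul_one]
  -- the centralizer of u
  have hKC : K ≤ Subgroup.centralizer ({u} : Set G) := by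
    intro k hk
    rw [Subgroup.mem_centralizer_iff]
    intro h hh
    rw [Set.mem_singleton_iff] at hh
    rw [hh]
    exact (hucomm k hk).symm
  have hCodd := hC u hu1 (hpel u huR)
  obtain ⟨Q, hQ⟩ := (hKp.comap_subtype (K := Subgroup.centralizer ({u} : Set G))).exists_le_sylow
  obtain ⟨m, hm⟩ := IsPGroup.iff_card.mp Q.2
  have hT1card : Nat.card ((Q : Subgroup (Subgroup.centralizer ({u} : Set G))).map
      (Subgroup.centralizer ({u} : Set G)).subtype) = p ^ m := by
    rw [Subgroup.card_map_of_injective (Subgroup.subtype_injective _), hm]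
  have hKT1 : K ≤ (Q : Subgroup (Subgroup.centralizer ({u} : Set G))).map
      (Subgroup.centralizer ({u} : Set G)).subtype := by
    intro k hk
    exact ⟨⟨k, hKC hk⟩, hQ (Subgroup.mem_subgroupOf.mpr hk), rfl⟩
  have hnm : n < m := by
    have h1 := Subgroup.card_dvd_of_le hKT1
    rw [hK, hT1card] at h1
    have := (Nat.pow_dvd_pow_iff_le_right hp.one_lt).mp h1
    omega
  have hT1C : (Q : Subgroup (Subgroup.centralizer ({u} : Set G))).map
      (Subgroup.centralizer ({u} : Set G)).subtype ≤ Subgroup.centralizer ({u} : Set G) :=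
    Subgroup.map_subtype_le _
  have hT1p : IsPGroup p ((Q : Subgroup (Subgroup.centralizer ({u} : Set G))).map
      (Subgroup.centralizer ({u} : Set G)).subtype) := IsPGroup.of_card hT1card
  have htC : ∀ c ∈ Subgroup.centralizer ({u} : Set G),
      t * c * t⁻¹ ∈ Subgroup.centralizer ({u} : Set G) := by
    intro c hc
    rw [Subgroup.mem_centralizer_iff] at hc ⊢
    intro h hh
    rw [Set.mem_singleton_iff] at hh
    rw [hh]
    have h1 : u * c = c * u := hc u rfl
    have h2 : t⁻¹ * u * t = u⁻¹ := by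
      have := hinv
      rw [hti] at this ⊢
      exact this
    have h3 : t * u⁻¹ * t⁻¹ = u := by
      have : t * u⁻¹ * t⁻¹ = (t * u * t⁻¹)⁻¹ := by group
      rw [this, hinv, inv_inv]
    have h1' : c * u⁻¹ = u⁻¹ * c := by
      have : c * u⁻¹ = u⁻¹ * (u * c) * u⁻¹ := by group
      rw [this, h1]; group
    calc u * (t * c * t⁻¹) = (t * u⁻¹ * t⁻¹) * (t * c * t⁻¹) := by rw [h3]
      _ = t * (u⁻¹ * c) * t⁻¹ := by group
      _ = t * (c * u⁻¹) * t⁻¹ := by rw [h1']
      _ = t * c * (t⁻¹ * u * t) * t⁻¹ := by rw [h2]; group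
      _ = t * c * t⁻¹ * u := by group
  have hR'p : IsPGroup p (((Q : Subgroup (Subgroup.centralizer ({u} : Set G))).map
      (Subgroup.centralizer ({u} : Set G)).subtype).map (MulAut.conj t).toMonoidHom) :=
    hT1p.map _
  have hR'C : ((Q : Subgroup (Subgroup.centralizer ({u} : Set G))).map
      (Subgroup.centralizer ({u} : Set G)).subtype).map (MulAut.conj t).toMonoidHom ≤
      Subgroup.centralizer ({u} : Set G) := by
    rintro _ ⟨c, hc, rfl⟩
    exact htC c (hT1C hc)
  obtain ⟨k, hkC, hk⟩ := Cfsg.Agent.Lib_helper2_SE.exists_conj_le_sylow_of_le Q hR'p hR'C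
  refine ⟨_, m, hT1card, hnm, ?_⟩
  have hyN : k * t ∈ Subgroup.normalizer (((Q : Subgroup (Subgroup.centralizer ({u} : Set G))).map
      (Subgroup.centralizer ({u} : Set G)).subtype : Subgroup G) : Set G) := by
    apply Subgroup.mem_normalizer_fintype
    intro x hx
    have h1 := hk (t * x * t⁻¹) ⟨x, hx, rfl⟩
    have e : k * t * x * (k * t)⁻¹ = k * (t * x * t⁻¹) * k⁻¹ := by group
    rw [e]
    exact h1
  have hku : k * u = u * k := by
    rw [Subgroup.mem_centralizer_iff] at hkC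
    exact (hkC u rfl).symm
  have hyu : (k * t) * u * (k * t)⁻¹ = u⁻¹ := by
    have e : (k * t) * u * (k * t)⁻¹ = k * (t * u * t⁻¹) * k⁻¹ := by group
    rw [e, hinv]
    have : k * u⁻¹ = u⁻¹ * k := by
      have : k * u⁻¹ = u⁻¹ * (u * k) * u⁻¹ := by group
      rw [this, ← hku]; group
    rw [this]; group
  have hpow : ∀ j : ℕ, (k * t) ^ (2 * j + 1) * u * ((k * t) ^ (2 * j + 1))⁻¹ = u⁻¹ :=
    conj_pow_odd (k * t) u hyu
  have hev2 : Even (orderOf (k * t)) := by
    by_contra hodd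
    rw [Nat.not_even_iff_odd] at hodd
    obtain ⟨j, hj⟩ := hodd
    have h1 := hpow j
    rw [← hj, pow_orderOf_eq_one] at h1
    simp only [one_mul, inv_one, mul_one] at h1
    have h2 : u ^ 2 = 1 := by
      rw [pow_two]
      nth_rewrite 1 [h1]
      exact inv_mul_cancel u
    obtain ⟨i, hi⟩ := hpel u huR
    have h3 : orderOf u ∣ 2 := orderOf_dvd_of_pow_eq_one h2
    rw [hi] at h3
    have hi0 : i ≠ 0 := by
      rintro rfl
      rw [pow_zero, orderOf_eq_one_iff] at hi
      exact hu1 hi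
    have h4 : p ∣ 2 := (dvd_pow_self p hi0).trans h3
    exact hp2 ((Nat.prime_dvd_prime_iff_eq hp Nat.prime_two).mp h4)
  have hdv := Subgroup.orderOf_dvd_natCard _ hyN
  exact even_iff_two_dvd.mpr ((even_iff_two_dvd.mp hev2).trans hdv)

theorem aux {G : Type*} [Group G] [Finite G] (p : ℕ) [Fact p.Prime] (hp2 : p ≠ 2)
    (hC : ∀ g : G, g ≠ 1 → (∃ k : ℕ, orderOf g = p ^ k) →
      Odd (Nat.card ↥(Subgroup.centralizer ({g} : Set G)))) :
    ∀ (d : ℕ) (R : Subgroup G) (n : ℕ), Nat.card R = p ^ n → n ≠ 0 →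
      Even (Nat.card ↥(Subgroup.normalizer (R : Set G))) → Nat.card G - Nat.card R = d →
      ∃ T : Subgroup G, Nat.card T = p ^ (Nat.card G).factorization p ∧
        Even (Nat.card ↥(Subgroup.normalizer (T : Set G))) := by
  have hp : p.Prime := Fact.out
  intro d
  induction d using Nat.strong_induction_on with
  | _ d ih =>
    intro R n hn hn0 hev hd
    by_cases hdvd : p ^ (n + 1) ∣ Nat.card G
    · obtain ⟨T, m, hT, hnm, hTev⟩ := key p hp2 hC R n hn hn0 hev hdvd
      have h1 : Nat.card R < Nat.card T := by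
        rw [hn, hT]
        exact Nat.pow_lt_pow_right hp.one_lt hnm
      have h2 : Nat.card T ≤ Nat.card G := Subgroup.card_le_card_group T
      exact ih (Nat.card G - Nat.card T) (by omega) T m hT (by omega) hTev rfl
    · refine ⟨R, ?_, hev⟩
      rw [hn]
      congr 1
      have h1 : p ^ n ∣ Nat.card G := hn ▸ Subgroup.card_subgroup_dvd_card R
      have h2 := (hp.pow_dvd_iff_le_factorization Nat.card_pos.ne').mp h1
      have h3 : ¬ (n + 1 ≤ (Nat.card G).factorization p) := fun h =>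
        hdvd ((hp.pow_dvd_iff_le_factorization Nat.card_pos.ne').mpr h)
      omega



/-- Let p be an odd prime and G a finite group of even order divisible by p in which the centralizer of every non-identity p-element has odd order. If some nontrivial p-subgroup of G has a normalizer of even order, then the normalizer of every Sylow p-subgroup of G has even order. -/
theorem result {G : Type*} [Group G] [Finite G] (p : ℕ) [Fact p.Prime] (hp2 : p ≠ 2) (hpG : p ∣ Nat.card G) (h2G : 2 ∣ Nat.card G) (hC : ∀ g : G, g ≠ 1 → (∃ k : ℕ, orderOf g = p ^ k) → Odd (Nat.card ↥(Subgroup.centralizer ({g} : Set G)))) (Q : Subgroup G) (hQ : IsPGroup p ↥Q) (hQ1 : Q ≠ ⊥) (hev : Even (Nat.card ↥(Subgroup.normalizer (Q : Set G)))) (P : Sylow p G) : Even (Nat.card ↥(Subgroup.normalizer ((P : Subgroup G) : Set G))) := by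
  have hp : p.Prime := Fact.out
  obtain ⟨n, hn⟩ := IsPGroup.iff_card.mp hQ
  have hn0 : n ≠ 0 := by
    rintro rfl
    rw [pow_zero, Subgroup.card_eq_one] at hn
    exact hQ1 hn
  obtain ⟨T, hT, hTev⟩ := aux p hp2 hC _ Q n hn hn0 hev rfl
  obtain ⟨g, hg⟩ := MulAction.exists_smul_eq G (Sylow.ofCard T hT) P
  obtain ⟨y', hy'⟩ := exists_prime_orderOf_dvd_card' 2 (even_iff_two_dvd.mp hTev)
  obtain ⟨y, hyN⟩ := y'
  have hyo : orderOf y = 2 := by rw [← hy', Subgroup.orderOf_mk]
  have hmem : g * y * g⁻¹ ∈ Subgroup.normalizer ((P : Subgroup G) : Set G) := by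
    rw [← hg, Subgroup.mem_normalizer_iff]
    intro z
    rw [Cfsg.Agent.Lib_helper1_Basic.mem_sylow_smul, Cfsg.Agent.Lib_helper1_Basic.mem_sylow_smul,
      Sylow.coe_ofCard]
    have e : g⁻¹ * (g * y * g⁻¹ * z * (g * y * g⁻¹)⁻¹) * g = y * (g⁻¹ * z * g) * y⁻¹ := by group
    rw [e]
    exact Subgroup.mem_normalizer_iff.mp hyN _
  have ho : orderOf (g * y * g⁻¹) = 2 := by
    rw [← hyo]
    exact orderOf_injective (MulAut.conj g).toMonoidHom (MulAut.conj g).injective y
  have hdv := Subgroup.orderOf_dvd_natCard _ hmem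
  rw [ho] at hdv
  exact even_iff_two_dvd.mpr hdv

end Cfsg.Agent.S3982
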