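import Cfsg.Statements.S3983
import Cfsg.Agent.Lib_helper5_TI
import Cfsg.Agent.Lib_helper1_Basic

set_option autoImplicit false
open scoped Pointwise
open Cfsg

namespace Cfsg.Agent.S3983

/-- Let P be a Sylow p-subgroup of the finite group G that meets each conjugate g P g⁻¹ with g outside N_G(P) trivially, and let U be a subgroup of G of order divisible by p. Then a Sylow p-subgroup Q of U has the same property inside U: Q meets each conjugate u Q u⁻¹ with u ∈ U outside N_U(Q) trivially. -/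
theorem result {G : Type*} [Group G] [Finite G] (p : ℕ) [Fact p.Prime] (P : Sylow p G) (hTI : ∀ g : G, g ∉ Subgroup.normalizer ((P : Subgroup G) : Set G) → (P : Subgroup G) ⊓ (MulAut.conj g • (P : Subgroup G)) = ⊥) (U : Subgroup G) (hU : p ∣ Nat.card ↥U) (Q : Sylow p ↥U) : ∀ u : ↥U, u ∉ Subgroup.normalizer ((Q : Subgroup ↥U) : Set ↥U) → (Q : Subgroup ↥U) ⊓ (MulAut.conj u • (Q : Subgroup ↥U)) = ⊥ := by
  rw [Cfsg.Agent.Lib_helper5_TI.ti_iff] at hTI ⊢
  obtain ⟨P', hP'⟩ := (Q.2.map U.subtype).exists_le_sylow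
  have hTI' := Cfsg.Agent.Lib_helper5_TI.ti_sylow_conj P hTI P'
  have hQeq : (P' : Subgroup G).subgroupOf U = Q := by
    apply Q.is_maximal' P'.2.comap_subtype
    intro y hy
    exact Subgroup.mem_subgroupOf.mpr (hP' ⟨y, hy, rfl⟩)
  intro u y hy huy hy1
  have hyP : (y : G) ∈ (P' : Subgroup G) := hP' ⟨y, hy, rfl⟩
  have huyP : (u : G)⁻¹ * (y : G) * (u : G) ∈ (P' : Subgroup G) := hP' ⟨_, huy, rfl⟩
  have huN := hTI' (u : G) (y : G) hyP huyP (fun h => hy1 (Subtype.ext h))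
  apply Cfsg.Agent.Lib_helper1_Basic.mem_normalizer_of_conj_le
  intro m hm
  rw [← hQeq, Subgroup.mem_subgroupOf]
  have hmP : (m : G) ∈ (P' : Subgroup G) := hP' ⟨m, hm, rfl⟩
  exact (Subgroup.mem_normalizer_iff.mp huN _).mp hmP

end Cfsg.Agent.S3983
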