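import Cfsg.Statements.S3984
import Cfsg.Agent.Lib_helper5_TI
import Cfsg.Agent.Lib_helper5_Basic
import Cfsg.Agent.Lib_helper1_Basic
import Cfsg.Agent.Lib_helper7_Sylow

set_option autoImplicit false
open scoped Pointwise
open Cfsg

namespace Cfsg.Agent.S3984

/-- Let P be a Sylow p-subgroup of the finite group G that meets each conjugate g P g⁻¹ with g outside N_G(P) trivially, and let N be a normal subgroup of G of order prime to p. Then every Sylow p-subgroup Q of G ⧸ N meets each conjugate x Q x⁻¹ with x outside its normalizer trivially. -/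
theorem result {G : Type*} [Group G] [Finite G] (p : ℕ) [Fact p.Prime] (P : Sylow p G) (hTI : ∀ g : G, g ∉ Subgroup.normalizer ((P : Subgroup G) : Set G) → (P : Subgroup G) ⊓ (MulAut.conj g • (P : Subgroup G)) = ⊥) (N : Subgroup G) [N.Normal] (hN : (Nat.card ↥N).Coprime p) (Q : Sylow p (G ⧸ N)) : ∀ x : G ⧸ N, x ∉ Subgroup.normalizer ((Q : Subgroup (G ⧸ N)) : Set (G ⧸ N)) → (Q : Subgroup (G ⧸ N)) ⊓ (MulAut.conj x • (Q : Subgroup (G ⧸ N))) = ⊥ := by
  rw [Cfsg.Agent.Lib_helper5_TI.ti_iff] at hTI ⊢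
  let Pb : Sylow p (G ⧸ N) := P.mapSurjective (QuotientGroup.mk'_surjective N)
  have hPb : (Pb : Subgroup (G ⧸ N)) = (P : Subgroup G).map (QuotientGroup.mk' N) :=
    Sylow.coe_mapSurjective _ _
  apply Cfsg.Agent.Lib_helper5_TI.ti_sylow_conj Pb ?_ Q
  intro gb xb hxb hgx hx1
  rw [hPb] at hxb hgx
  obtain ⟨x, hxP, rfl⟩ := hxb
  obtain ⟨g, rfl⟩ := QuotientGroup.mk'_surjective N gb
  have h1 : g⁻¹ * x * g ∈ (P : Subgroup G) ⊔ N := by
    obtain ⟨y, hy, hyeq⟩ := hgx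
    have h2 : QuotientGroup.mk' N y = QuotientGroup.mk' N (g⁻¹ * x * g) := by
      rw [hyeq, map_mul, map_mul, map_inv]
    have h3 : y⁻¹ * (g⁻¹ * x * g) ∈ N := QuotientGroup.eq.mp h2
    have h4 : g⁻¹ * x * g = y * (y⁻¹ * (g⁻¹ * x * g)) := by group
    rw [h4]
    exact Subgroup.mul_mem _ (Subgroup.mem_sup_left hy) (Subgroup.mem_sup_right h3)
  have hD : IsPGroup p (Subgroup.zpowers (g⁻¹ * x * g)) := by
    obtain ⟨k, hk⟩ := Cfsg.Agent.Lib_helper6_Sylow.pElem_of_mem_sylow P hxP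
    apply IsPGroup.of_card (n := k)
    rw [Nat.card_zpowers]
    have := Cfsg.Agent.Lib_helper5_Basic.orderOf_conj' g⁻¹ x
    rw [inv_inv] at this
    rw [this, hk]
  obtain ⟨n, hn, hconj⟩ := Cfsg.Agent.Lib_helper7_Sylow.exists_conj_le_of_le_sup P N _ hD
    (Subgroup.zpowers_le.mpr h1)
  have h2 := hconj _ (Subgroup.mem_zpowers _)
  have h3 := hTI (g * n⁻¹) x hxP (by
    have : (g * n⁻¹)⁻¹ * x * (g * n⁻¹) = n * (g⁻¹ * x * g) * n⁻¹ := by group
    rw [this]; exact h2) (fun h => hx1 (by rw [h, map_one]))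
  have h4 : QuotientGroup.mk' N (g * n⁻¹) = QuotientGroup.mk' N g := by
    rw [map_mul, map_inv]
    have : QuotientGroup.mk' N n = 1 := (QuotientGroup.eq_one_iff n).mpr hn
    rw [this, inv_one, mul_one]
  rw [← h4]
  apply Cfsg.Agent.Lib_helper1_Basic.mem_normalizer_of_conj_le
  intro m hm
  rw [hPb] at hm ⊢
  obtain ⟨y, hy, rfl⟩ := hm
  refine ⟨(g * n⁻¹) * y * (g * n⁻¹)⁻¹, (Subgroup.mem_normalizer_iff.mp h3 y).mp hy, ?_⟩
  rw [map_mul, map_mul, map_inv]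

end Cfsg.Agent.S3984
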