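import Cfsg.Statements.S3985
import Cfsg.Agent.Lib_helper5_TI
import Cfsg.Agent.Lib_helper5_AutP2
import Cfsg.Agent.Lib_helper1_Basic
import Cfsg.Agent.Lib_helper6_Cyclic

set_option autoImplicit false
open scoped Pointwise
open Cfsg

namespace Cfsg.Agent.S3985

/-- Let P be a cyclic Sylow p-subgroup of the finite group G. Then P meets each conjugate g P g⁻¹ with g outside N_G(P) trivially if and only if P is weakly self-centralizing: C_G(x) = C_G(P) for every non-identity x ∈ P. -/
theorem result {G : Type*} [Group G] [Finite G] (p : ℕ) [Fact p.Prime] (P : Sylow p G) (hcyc : IsCyclic ↥(P : Subgroup G)) : (∀ g : G, g ∉ Subgroup.normalizer ((P : Subgroup G) : Set G) → (P : Subgroup G) ⊓ (MulAut.conj g • (P : Subgroup G)) = ⊥) ↔ ∀ x : G, x ∈ (P : Subgroup G) → x ≠ 1 → Subgroup.centralizer ({x} : Set G) = Subgroup.centralizer ((P : Subgroup G) : Set G) := by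
  have hp := Fact.out (p := p.Prime)
  haveI := hcyc
  have hab : IsMulCommutative (P : Subgroup G) := IsCyclic.isMulCommutative
  have hcomm : ∀ a ∈ (P : Subgroup G), ∀ b ∈ (P : Subgroup G), a * b = b * a := by
    intro a ha b hb
    exact congrArg Subtype.val (hab.is_comm.comm (⟨a, ha⟩ : (P : Subgroup G)) ⟨b, hb⟩)
  rw [Cfsg.Agent.Lib_helper5_TI.ti_iff]
  constructor
  · intro hTI x hx hx1
    apply le_antisymm
    · intro c hc
      rw [Subgroup.mem_centralizer_iff] at hc
      have hcx : x * c = c * x := hc x rfl
      have hcN : c ∈ Subgroup.normalizer ((P : Subgroup G) : Set G) := by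
        apply hTI c x hx _ hx1
        have : c⁻¹ * x * c = x := by rw [mul_assoc, hcx]; group
        rw [this]; exact hx
      have key := Cfsg.Agent.Lib_helper5_AutP2.centralizes_of_omega P hab c hcN (by
        intro y hy hyp
        have hyx : y ∈ Subgroup.zpowers x := by
          apply Cfsg.Agent.Lib_helper6_Cyclic.mem_zpowers_of_orderOf_dvd (P : Subgroup G) hy hx
          obtain ⟨k, hk⟩ := Cfsg.Agent.Lib_helper6_Sylow.pElem_of_mem_sylow P hx
          have hk0 : k ≠ 0 := by
            rintro rfl
            rw [pow_zero, orderOf_eq_one_iff] at hk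
            exact hx1 hk
          rw [hk]
          exact dvd_trans (orderOf_dvd_of_pow_eq_one hyp) (dvd_pow_self p hk0)
        obtain ⟨j, rfl⟩ := Subgroup.mem_zpowers_iff.mp hyx
        have h1 : Commute c x := hcx.symm
        have h2 : Commute c (x ^ j) := h1.zpow_right j
        rw [h2.eq]; group)
      rw [Subgroup.mem_centralizer_iff]
      intro y hy
      have := key y hy
      calc y * c = (c * y * c⁻¹) * c := by rw [this]
        _ = c * y := by group
    · intro c hc
      rw [Subgroup.mem_centralizer_iff] at hc ⊢
      intro y hy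
      rw [Set.mem_singleton_iff] at hy
      subst hy
      exact hc y hx
  · intro h g x hx hgx hx1
    have hPC : (P : Subgroup G) ≤ Subgroup.centralizer ((P : Subgroup G) : Set G) := by
      intro a ha
      rw [Subgroup.mem_centralizer_iff]
      intro b hb
      exact hcomm b hb a ha
    have hgx1 : g⁻¹ * x * g ≠ 1 := by
      intro h1
      apply hx1
      have : x = g * (g⁻¹ * x * g) * g⁻¹ := by group
      rw [this, h1]; group
    have h1 := h x hx hx1
    have h2 := h _ hgx hgx1
    -- g normalizes C(P)
    have hgC : ∀ m ∈ Subgroup.centralizer ((P : Subgroup G) : Set G),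
        g⁻¹ * m * g ∈ Subgroup.centralizer ((P : Subgroup G) : Set G) := by
      intro m hm
      rw [← h1] at hm
      rw [← h2]
      rw [Subgroup.mem_centralizer_iff] at hm ⊢
      intro y hy
      rw [Set.mem_singleton_iff] at hy
      subst hy
      have := hm x rfl
      calc g⁻¹ * x * g * (g⁻¹ * m * g) = g⁻¹ * (x * m) * g := by group
        _ = g⁻¹ * (m * x) * g := by rw [this]
        _ = g⁻¹ * m * g * (g⁻¹ * x * g) := by group
    have hginvN : g⁻¹ ∈ Subgroup.normalizer
        ((Subgroup.centralizer ((P : Subgroup G) : Set G) : Subgroup G) : Set G) := by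
      apply Cfsg.Agent.Lib_helper1_Basic.mem_normalizer_of_conj_le
      intro m hm
      have := hgC m hm
      rwa [inv_inv]
    have hgN := Subgroup.inv_mem _ hginvN
    rw [inv_inv] at hgN
    -- the conjugate of P lies in C(P), hence in P
    set D : Subgroup G := (P : Subgroup G).map (MulAut.conj g).toMonoidHom with hD
    have hDp : IsPGroup p D := P.2.map _
    have hDC : D ≤ Subgroup.centralizer ((P : Subgroup G) : Set G) := by
      rintro _ ⟨y, hy, rfl⟩
      have := (Subgroup.mem_normalizer_iff.mp hgN y).mp (hPC hy)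
      simpa using this
    have hDN : D ≤ Subgroup.normalizer ((P : Subgroup G) : Set G) :=
      le_trans hDC (Subgroup.centralizer_le_normalizer _)
    have hsup : IsPGroup p ((P : Subgroup G) ⊔ D : Subgroup G) :=
      IsPGroup.to_sup_of_normal_left' P.2 hDp hDN
    have heq := P.is_maximal' hsup le_sup_left
    have hDP : D ≤ (P : Subgroup G) := by
      calc D ≤ (P : Subgroup G) ⊔ D := le_sup_right
        _ = P := heq
    apply Cfsg.Agent.Lib_helper1_Basic.mem_normalizer_of_conj_le
    intro m hm
    apply hDP
    exact ⟨m, hm, by simp⟩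

end Cfsg.Agent.S3985
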