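import Cfsg.Statements.S3986
import Cfsg.Agent.Lib_helper5_PParts
import Cfsg.Agent.Lib_helper6_Sylow

set_option autoImplicit false
open Cfsg Cfsg.Agent.Lib_helper5_PParts Cfsg.Agent.Lib_helper6_Sylow

namespace Cfsg.Agent.S3986

/-- Let p be a prime and G a finite group. Then some Sylow p-subgroup of G is a direct factor of G (it is normal and has a normal complement) if and only if every element of p-power order commutes with every element whose order is a power of a prime other than p. -/
theorem result {G : Type*} [Group G] [Finite G] (p : ℕ) [Fact p.Prime] : (∃ (P : Sylow p G) (K : Subgroup G), (P : Subgroup G).Normal ∧ K.Normal ∧ (P : Subgroup G) ⊓ K = ⊥ ∧ (P : Subgroup G) ⊔ K = ⊤) ↔ ∀ x y : G, (∃ a : ℕ, orderOf x = p ^ a) → (∃ q b : ℕ, q.Prime ∧ q ≠ p ∧ orderOf y = q ^ b) → x * y = y * x := by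
  constructor
  · rintro ⟨P, K, hPn, hKn, hinf, hsup⟩ x y hx ⟨q, b, hq, hqp, hy⟩
    haveI := hPn
    haveI := hKn
    -- x ∈ P
    have hxP : x ∈ (P : Subgroup G) := by
      obtain ⟨Q, hQ⟩ := pElem_mem_sylow (p := p) hx
      obtain ⟨c, hc⟩ := MulAction.exists_smul_eq G P Q
      rw [Sylow.smul_eq_of_normal] at hc
      rw [hc]; exact hQ
    -- index of K is the order of P
    have hidx : K.index = Nat.card (P : Subgroup G) := by
      have h1 : K.relIndex ((P : Subgroup G) ⊔ K) = K.relIndex (P : Subgroup G) :=
        Subgroup.relIndex_sup_right (P : Subgroup G) K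
      rw [hsup, Subgroup.relIndex_top_right, ← Subgroup.inf_relIndex_left, hinf,
        Subgroup.relIndex_bot_left] at h1
      exact h1
    -- y ∈ K
    have hyK : y ∈ K := by
      rw [← QuotientGroup.eq_one_iff, ← orderOf_eq_one_iff]
      have h1 : orderOf (y : G ⧸ K) ∣ q ^ b := by
        rw [← hy]; exact orderOf_map_dvd (QuotientGroup.mk' K) y
      have h2 : orderOf (y : G ⧸ K) ∣ Nat.card (G ⧸ K) := orderOf_dvd_natCard _
      have h3 : Nat.card (G ⧸ K) = K.index := rfl
      obtain ⟨k, hk⟩ := IsPGroup.iff_card.mp P.2
      rw [h3, hidx, hk] at h2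
      have hcop : Nat.Coprime (q ^ b) (p ^ k) :=
        Nat.Coprime.pow _ _ ((Nat.coprime_primes hq (Fact.out)).mpr hqp)
      exact Nat.eq_one_of_dvd_coprimes hcop h1 h2
    exact (Subgroup.commute_of_normal_of_disjoint _ _ hPn hKn (disjoint_iff.mpr hinf) x y hxP hyK).eq
  · intro h
    obtain ⟨P⟩ : Nonempty (Sylow p G) := inferInstance
    -- elements of order prime to p centralize P
    have hcent : ∀ y : G, (orderOf y).Coprime p → y ∈ Subgroup.centralizer ((P : Subgroup G) : Set G) := by
      apply mem_of_prime_power_parts p
      intro y hy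
      rw [Subgroup.mem_centralizer_iff]
      intro x hx
      exact h x y (pElem_of_mem_sylow P hx) hy
    -- P is normal
    have hPn : (P : Subgroup G).Normal := by
      rw [← Subgroup.normalizer_eq_top_iff]
      apply eq_top_of_forall_sylow_le
      intro q _
      by_cases hqp : q = p
      · subst hqp
        exact ⟨P, Subgroup.le_normalizer⟩
      · obtain ⟨Q⟩ : Nonempty (Sylow q G) := inferInstance
        refine ⟨Q, ?_⟩
        intro y hy
        apply Subgroup.centralizer_le_normalizer
        apply hcent
        obtain ⟨b, hb⟩ := pElem_of_mem_sylow Q hy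
        rw [hb]
        exact Nat.Coprime.pow_left _ ((Nat.coprime_primes (Fact.out) (Fact.out)).mpr hqp)
    haveI := hPn
    obtain ⟨H, hH⟩ := Subgroup.exists_right_complement'_of_coprime P.card_coprime_index
    have hHcent : H ≤ Subgroup.centralizer ((P : Subgroup G) : Set G) := by
      intro y hy
      apply hcent
      have h1 : orderOf y ∣ Nat.card H := by
        have := orderOf_dvd_natCard (⟨y, hy⟩ : H)
        rwa [Subgroup.orderOf_mk] at this
      have h2 : Nat.card H = (P : Subgroup G).index := hH.symm.index_eq_card.symm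
      rw [h2] at h1
      have h3 : ((P : Subgroup G).index).Coprime p := by
        rw [Nat.coprime_comm, Nat.Prime.coprime_iff_not_dvd Fact.out]
        exact P.not_dvd_index
      exact Nat.Coprime.coprime_dvd_left h1 h3
    have hHn : H.Normal := by
      rw [← Subgroup.normalizer_eq_top_iff, eq_top_iff, ← hH.sup_eq_top]
      apply sup_le
      · intro x hx
        rw [Subgroup.mem_normalizer_iff]
        intro y
        constructor
        · intro hy
          have h1 : x * y = y * x := (Subgroup.mem_centralizer_iff.mp (hHcent hy)) x hx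
          rw [h1, mul_inv_cancel_right]; exact hy
        · intro hy
          have h1 := (Subgroup.mem_centralizer_iff.mp (hHcent hy)) x hx
          have h2 : x * y * x⁻¹ = y := by
            apply mul_left_cancel (a := x)
            rw [h1]; group
          rw [← h2]; exact hy
      · exact Subgroup.le_normalizer
    exact ⟨P, H, hPn, hHn, disjoint_iff.mp hH.disjoint, hH.sup_eq_top⟩

end Cfsg.Agent.S3986
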