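import Cfsg.Statements.S4013
import Mathlib

set_option autoImplicit false
open Cfsg

namespace Cfsg.Agent.S4013

theorem arith (p a n m : ℕ) (hp : p.Prime) (hnm : n < m) (h : p ^ a + p ^ n = p ^ m) :
    p = 2 ∧ m = n + 1 := by
  obtain ⟨d, rfl⟩ : ∃ d, m = n + d + 1 := ⟨m - n - 1, by omega⟩
  have hp2 := hp.two_le
  have hpn : 0 < p ^ n := pow_pos hp.pos n
  -- p^a = p^n (p^(d+1) - 1)
  have han : n ≤ a := by
    by_contra hlt
    rw [not_le] at hlt
    -- p^(a) + p^n = p^(n+d+1); divide by p^a: 1 + p^(n-a) = p^(n+d+1-a), p | 1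
    obtain ⟨e, rfl⟩ : ∃ e, n = a + e + 1 := ⟨n - a - 1, by omega⟩
    have h1 : p ^ a * (1 + p ^ (e + 1)) = p ^ a * p ^ (e + 1 + d + 1) := by
      rw [← pow_add]; ring_nf; ring_nf at h; linarith
    have h2 : 1 + p ^ (e + 1) = p ^ (e + 1 + d + 1) := Nat.eq_of_mul_eq_mul_left (pow_pos hp.pos a) h1
    have h3 : p ∣ 1 := by
      have hd1 : p ∣ p ^ (e + 1) := dvd_pow_self p (by omega)
      have hd2 : p ∣ p ^ (e + 1 + d + 1) := dvd_pow_self p (by omega)
      have : p ∣ 1 + p ^ (e + 1) := h2 ▸ hd2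
      exact (Nat.dvd_add_left hd1).mp this
    exact hp.one_lt.ne' (Nat.dvd_one.mp h3)
  obtain ⟨b, rfl⟩ : ∃ b, a = n + b := ⟨a - n, by omega⟩
  have h1 : p ^ n * (p ^ b + 1) = p ^ n * p ^ (d + 1) := by
    rw [← pow_add]; ring_nf; ring_nf at h; linarith
  have h2 : p ^ b + 1 = p ^ (d + 1) := Nat.eq_of_mul_eq_mul_left hpn h1
  have hb : b = 0 := by
    by_contra hb
    have hd1 : p ∣ p ^ b := dvd_pow_self p hb
    have hd2 : p ∣ p ^ (d + 1) := dvd_pow_self p (by omega)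
    have : p ∣ p ^ b + 1 := h2 ▸ hd2
    have h3 : p ∣ 1 := (Nat.dvd_add_right hd1).mp this
    exact hp.one_lt.ne' (Nat.dvd_one.mp h3)
  subst hb
  simp only [pow_zero] at h2
  -- 2 = p^(d+1)
  have hp' : p ∣ 2 := by
    have : p ∣ p ^ (d + 1) := dvd_pow_self p (by omega)
    rw [← h2] at this; exact this
  have hp2' : p = 2 := (Nat.prime_dvd_prime_iff_eq hp Nat.prime_two).mp hp'
  subst hp2'
  refine ⟨rfl, ?_⟩
  have hd : d = 0 := by
    by_contra hd
    have : 2 ^ (d + 1) ≥ 2 ^ 2 := Nat.pow_le_pow_right (by norm_num) (by omega)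
    omega
  omega

theorem result {G : Type*} [Group G] [Finite G] (p : ℕ) [Fact p.Prime] (hG : IsPGroup p G) (N M : Subgroup G) [N.Normal] [M.Normal] (hNM : N < M) (g : G) (hgM : g ∈ M) (hgN : g ∉ N) (hcl : {h : G | IsConj g h} = (M : Set G) \ (N : Set G)) : p = 2 ∧ N.relIndex M = 2 := by
  have hp : p.Prime := Fact.out
  -- class size is a power of p
  have horb : {h : G | IsConj g h} = MulAction.orbit (ConjAct G) g := by
    ext h
    rw [Set.mem_ofPred_eq, ConjAct.mem_orbit_conjAct, isConj_comm]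
  have hG' : IsPGroup p (ConjAct G) := hG
  obtain ⟨a, ha⟩ := hG'.card_orbit g
  rw [← horb, hcl] at ha
  obtain ⟨n, hn⟩ := IsPGroup.iff_card.mp (hG.to_subgroup N)
  obtain ⟨m, hm⟩ := IsPGroup.iff_card.mp (hG.to_subgroup M)
  have hsub : (N : Set G) ⊆ (M : Set G) := hNM.le
  have hcardN : (N : Set G).ncard = p ^ n := by
    rw [← hn]; exact (Nat.card_coe_set_eq _).symm
  have hcardM : (M : Set G).ncard = p ^ m := by
    rw [← hm]; exact (Nat.card_coe_set_eq _).symm
  have hdiff : ((M : Set G) \ (N : Set G)).ncard + (N : Set G).ncard = (M : Set G).ncard :=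
    Set.ncard_sdiff_add_ncard_of_subset hsub
  have ha' : ((M : Set G) \ (N : Set G)).ncard = p ^ a := by
    rw [← ha]; exact (Nat.card_coe_set_eq _).symm
  rw [ha', hcardN, hcardM] at hdiff
  have hlt : n < m := by
    have h1 : (N : Set G).ncard < (M : Set G).ncard := by
      apply Set.ncard_lt_ncard _ (Set.toFinite _)
      exact hNM
    rw [hcardN, hcardM] at h1
    exact (Nat.pow_lt_pow_iff_right hp.one_lt).mp h1
  obtain ⟨hp2, hmn⟩ := arith p a n m hp hlt hdiff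
  refine ⟨hp2, ?_⟩
  have hrel : Nat.card N * N.relIndex M = Nat.card M := by
    have := Subgroup.relIndex_mul_relIndex ⊥ N M bot_le hNM.le
    rwa [Subgroup.relIndex_bot_left, Subgroup.relIndex_bot_left] at this
  rw [hn, hm, hmn, hp2, pow_succ] at hrel
  exact Nat.eq_of_mul_eq_mul_left (pow_pos (by norm_num) n) hrel

end Cfsg.Agent.S4013
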