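import Cfsg.Statements.S4034
import Cfsg.Agent.Lib_helper5_PRegClass3

set_option autoImplicit false
open Cfsg

namespace Cfsg.Agent.S4034

/-- Let G be a finite group and p a prime. Every conjugacy class of p-regular elements of G (elements of order prime to p) has p-power size if and only if G has an abelian p-complement, i.e. an abelian subgroup of order prime to p and p-power index. -/
theorem result {G : Type*} [Group G] [Finite G] {p : ℕ} (hp : p.Prime) :
    (∀ x : G, (orderOf x).Coprime p → ∃ k : ℕ, (ConjClasses.mk x).carrier.ncard = p ^ k) ↔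
    (∃ H : Subgroup G, IsMulCommutative H ∧ ¬ p ∣ Nat.card H ∧ ∃ k : ℕ, H.index = p ^ k) := by
  haveI := Fact.mk hp
  constructor
  · intro h
    have hyp : Cfsg.Agent.Lib_helper5_PRegClass.Hyp p G := fun x hx => by
      obtain ⟨k, hk⟩ := h x hx
      exact ⟨k, by rw [← Cfsg.Agent.Lib_helper5_Class.carrier_ncard, hk]⟩
    obtain ⟨m, a, hcard, hm⟩ := Cfsg.Agent.Lib_helper5_PSolv.card_decomp G p
    obtain ⟨H, hH, hHc⟩ :=
      Cfsg.Agent.Lib_helper5_PRegClass2.abelian_pcomp_aux _ G rfl hyp m a hcard hm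
    refine ⟨H, ⟨⟨fun u v => Subtype.ext (hHc u u.2 v v.2)⟩⟩, ?_, a,
      Cfsg.Agent.Lib_helper5_PSolv.index_pcomp H m a hcard hH⟩
    rw [hH]
    exact fun hd => (Nat.Prime.coprime_iff_not_dvd hp).mp hm.symm hd
  · rintro ⟨H, hHc, -, k, hk⟩ x hx
    have hyp := Cfsg.Agent.Lib_helper5_PRegClass3.hyp_of_abelian_pcomp H
      (fun u hu v hv => congrArg Subtype.val (hHc.is_comm.comm ⟨u, hu⟩ ⟨v, hv⟩)) k hk
    obtain ⟨j, hj⟩ := hyp x hx
    exact ⟨j, by rw [Cfsg.Agent.Lib_helper5_Class.carrier_ncard, hj]⟩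

end Cfsg.Agent.S4034
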