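import Cfsg.Statements.S4035
import Cfsg.Agent.Lib_helper5_Class

set_option autoImplicit false
open Cfsg

namespace Cfsg.Agent.S4035

open Cfsg.Agent.Lib_helper5_Class

/-- Let G be a finite group and p a prime such that p divides the size of no conjugacy class of p-regular elements (elements of order prime to p). Then G is the internal direct product of a Sylow p-subgroup P and a normal subgroup H of order prime to p: P is normal, P ⊓ H = 1 and PH = G. -/
theorem result {G : Type*} [Group G] [Finite G] {p : ℕ} [Fact p.Prime]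
    (h : ∀ x : G, (orderOf x).Coprime p → ¬ p ∣ (ConjClasses.mk x).carrier.ncard) (P : Sylow p G) :
    (P : Subgroup G).Normal ∧ ∃ H : Subgroup G, H.Normal ∧ ¬ p ∣ Nat.card H ∧
      (P : Subgroup G) ⊓ H = ⊥ ∧ (P : Subgroup G) ⊔ H = ⊤ := by
  have hp := Fact.out (p := p.Prime)
  have h' : ∀ x : G, (orderOf x).Coprime p → ¬ p ∣ (Subgroup.centralizer ({x} : Set G)).index := by
    intro x hx
    rw [← carrier_ncard]; exact h x hx
  -- every element normalizes a Sylow p-subgroup
  have hfix : ∀ g : G, ∃ Q : Sylow p G, g • Q = Q := by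
    intro g
    obtain ⟨k, m, hm, hn⟩ := Nat.exists_eq_pow_mul_and_not_dvd (orderOf_pos g).ne' p hp.ne_one
    have hv : (orderOf (g ^ p ^ k)).Coprime p := by
      have h1 : orderOf (g ^ p ^ k) ∣ m := by
        apply orderOf_dvd_of_pow_eq_one
        rw [← pow_mul, ← hn, pow_orderOf_eq_one]
      have h2 : m.Coprime p := ((Nat.Prime.coprime_iff_not_dvd hp).mpr hm).symm
      exact Nat.Coprime.coprime_dvd_left h1 h2
    have hu : ∃ j : ℕ, orderOf (g ^ m) = p ^ j := by
      have h1 : orderOf (g ^ m) ∣ p ^ k := by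
        apply orderOf_dvd_of_pow_eq_one
        rw [← pow_mul, mul_comm, ← hn, pow_orderOf_eq_one]
      obtain ⟨j, -, hj⟩ := (Nat.dvd_prime_pow hp).mp h1
      exact ⟨j, hj⟩
    have huC : g ^ m ∈ Subgroup.centralizer ({g ^ p ^ k} : Set G) := by
      rw [Subgroup.mem_centralizer_iff]
      intro y hy
      rw [Set.mem_singleton_iff] at hy
      subst hy
      rw [← pow_add, ← pow_add, add_comm]
    obtain ⟨Q, hQC, huQ⟩ := exists_sylow_le_of_mem _ (h' _ hv) (g ^ m) huC hu
    refine ⟨Q, ?_⟩
    rw [Sylow.smul_eq_iff_mem_normalizer]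
    have hc : Nat.Coprime m (p ^ k) :=
      Nat.Coprime.pow_right k ((Nat.Prime.coprime_iff_not_dvd hp).mpr hm).symm
    apply mem_of_pow_mem_of_coprime' _ g hc
    · exact Subgroup.le_normalizer huQ
    · apply Subgroup.centralizer_le_normalizer
      rw [Subgroup.mem_centralizer_iff]
      intro y hy
      have := hQC hy
      rw [Subgroup.mem_centralizer_iff] at this
      exact (this _ rfl).symm
  haveI : Subsingleton (Sylow p G) :=
    subsingleton_of_forall_fixed (G := G) (Ω := Sylow p G) inferInstance hfix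
  haveI hPn : (P : Subgroup G).Normal := Sylow.normal_of_subsingleton P
  refine ⟨hPn, ?_⟩
  obtain ⟨H, hH⟩ := Subgroup.exists_right_complement'_of_coprime (N := (P : Subgroup G))
    (Sylow.card_coprime_index P)
  have hcardH : Nat.card H = (P : Subgroup G).index := (hH.symm.index_eq_card).symm
  have hndvd : ¬ p ∣ Nat.card H := by
    rw [hcardH]; exact Sylow.not_dvd_index P
  have hHC : ∀ x ∈ H, ∀ y ∈ (P : Subgroup G), x * y = y * x := by
    intro x hx y hy
    have hox : (orderOf x).Coprime p := by
      have h1 : orderOf x ∣ Nat.card H := by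
        have := orderOf_dvd_natCard (⟨x, hx⟩ : H)
        rwa [Subgroup.orderOf_mk] at this
      exact Nat.Coprime.coprime_dvd_left h1 ((Nat.Prime.coprime_iff_not_dvd hp).mpr hndvd).symm
    obtain ⟨Q, hQC, -⟩ := exists_sylow_le_of_mem _ (h' _ hox) 1 (Subgroup.one_mem _)
      ⟨0, by simp⟩
    have hQP : Q = P := Subsingleton.elim _ _
    have := hQC (hQP ▸ hy)
    rw [Subgroup.mem_centralizer_iff] at this
    exact this _ rfl
  have hHn : H.Normal := by
    rw [← Subgroup.normalizer_eq_top_iff]
    apply top_le_iff.mp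
    rw [← hH.sup_eq_top]
    apply sup_le
    · intro y hy
      apply Subgroup.centralizer_le_normalizer
      rw [Subgroup.mem_centralizer_iff]
      intro x hx
      exact hHC x hx y hy
    · exact Subgroup.le_normalizer
  exact ⟨H, hHn, hndvd, disjoint_iff.mp hH.disjoint, hH.sup_eq_top⟩

end Cfsg.Agent.S4035
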