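import Cfsg.Statements.S4036


set_option autoImplicit false
open Cfsg

namespace Cfsg.Agent.S4036

theorem exists_fixed {P : Type*} [CommGroup P] [Finite P] {p : ℕ} [Fact p.Prime]
    (hP : IsPGroup p P) (g : MulAut P) (hg : orderOf g = p) (W : Subgroup P)
    (hW : ∀ w ∈ W, g w ∈ W) (hne : W ≠ ⊥) : ∃ w ∈ W, w ≠ 1 ∧ g w = w := by
  have hp : p.Prime := Fact.out
  have hpow : ∀ k : ℕ, ∀ w ∈ W, (g ^ k) w ∈ W := by
    intro k
    induction k with
    | zero => intro w hw; simpa using hw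
    | succ k ih =>
      intro w hw
      rw [pow_succ, MulAut.mul_apply]
      exact ih _ (hW w hw)
  have hfin : IsOfFinOrder g := by
    rw [← orderOf_pos_iff, hg]; exact hp.pos
  have hmem : ∀ h ∈ Subgroup.zpowers g, ∀ w ∈ W, h w ∈ W := by
    intro h hh w hw
    rw [← hfin.mem_powers_iff_mem_zpowers, Submonoid.mem_powers_iff] at hh
    obtain ⟨k, rfl⟩ := hh
    exact hpow k w hw
  letI act : MulAction ↥(Subgroup.zpowers g) ↥W :=
    { smul := fun h w => ⟨h.1 w.1, hmem h.1 h.2 w.1 w.2⟩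
      one_smul := fun w => Subtype.ext rfl
      mul_smul := fun h₁ h₂ w => Subtype.ext rfl }
  have hHp : IsPGroup p ↥(Subgroup.zpowers g) := by
    apply IsPGroup.of_card (n := 1)
    rw [Nat.card_zpowers, hg, pow_one]
  have hdvd : p ∣ Nat.card ↥W := by
    obtain ⟨k, hk⟩ := IsPGroup.iff_card.mp (hP.to_subgroup W)
    rw [hk]
    apply dvd_pow_self
    rintro rfl
    rw [pow_zero] at hk
    exact hne (Subgroup.card_eq_one.mp hk)
  have h1 : (1 : ↥W) ∈ MulAction.fixedPoints ↥(Subgroup.zpowers g) ↥W := by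
    intro h
    apply Subtype.ext
    show h.1 (1 : P) = 1
    exact map_one _
  obtain ⟨b, hb, hb1⟩ := hHp.exists_fixed_point_of_prime_dvd_card_of_fixed_point ↥W hdvd h1
  refine ⟨b.1, b.2, fun h => hb1 (Subtype.ext h.symm), ?_⟩
  have h2 := hb ⟨g, Subgroup.mem_zpowers g⟩
  exact congrArg Subtype.val h2

/-- the norm map of a finite group of automorphisms of an abelian group -/
noncomputable def nu {P : Type*} [CommGroup P] (K : Subgroup (MulAut P)) (N : Subgroup ↥K)
    [Fintype ↥N] : P →* P :=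
  ∏ n : ↥N, ((n : ↥K) : MulAut P).toMonoidHom

theorem nu_apply {P : Type*} [CommGroup P] (K : Subgroup (MulAut P)) (N : Subgroup ↥K)
    [Fintype ↥N] (v : P) : nu K N v = ∏ n : ↥N, ((n : ↥K) : MulAut P) v := by
  unfold nu
  rw [MonoidHom.finsetProd_apply]
  rfl

theorem nu_comp {P : Type*} [CommGroup P] (K : Subgroup (MulAut P)) (N : Subgroup ↥K)
    [Fintype ↥N] (m : ↥N) (v : P) : nu K N (((m : ↥K) : MulAut P) v) = nu K N v := by
  rw [nu_apply, nu_apply]
  apply Fintype.prod_equiv (Equiv.mulRight m)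
  intro n
  rfl

/-- the commutator `[P, N]` -/
def commPN {P : Type*} [CommGroup P] (K : Subgroup (MulAut P)) (N : Subgroup ↥K) : Subgroup P :=
  Subgroup.closure {w | ∃ n : ↥N, ∃ u : P, w = ((n : ↥K) : MulAut P) u * u⁻¹}

theorem commPN_le_ker {P : Type*} [CommGroup P] (K : Subgroup (MulAut P)) (N : Subgroup ↥K)
    [Fintype ↥N] : commPN K N ≤ (nu K N).ker := by
  unfold commPN
  rw [Subgroup.closure_le]
  rintro w ⟨n, u, rfl⟩
  show _ ∈ (nu K N).ker
  rw [MonoidHom.mem_ker, map_mul, map_inv, nu_comp, mul_inv_cancel]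

theorem commPN_inv {P : Type*} [CommGroup P] (K : Subgroup (MulAut P)) (N : Subgroup ↥K)
    [hN : N.Normal] (k : MulAut P) (hk : k ∈ K) : ∀ w ∈ commPN K N, k w ∈ commPN K N := by
  have hle : commPN K N ≤ (commPN K N).comap k.toMonoidHom := by
    unfold commPN
    rw [Subgroup.closure_le]
    rintro w ⟨n, u, rfl⟩
    show k (((n : ↥K) : MulAut P) u * u⁻¹) ∈ Subgroup.closure _
    apply Subgroup.subset_closure
    refine ⟨⟨(⟨k, hk⟩ : ↥K) * n * (⟨k, hk⟩ : ↥K)⁻¹, hN.conj_mem n.1 n.2 ⟨k, hk⟩⟩, k u, ?_⟩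
    rw [map_mul, map_inv]
    congr 1
    show k (((n : ↥K) : MulAut P) u) = (k * ((n : ↥K) : MulAut P) * k⁻¹) (k u)
    rw [MulAut.mul_apply, MulAut.mul_apply, MulAut.inv_apply_self]
  intro w hw
  exact hle hw


/-- Let P be a finite abelian p-group and K a group of automorphisms of P (a subgroup of Aut P) whose order is divisible by p. If all non-identity elements of K have the same fixed-point subgroup on P, then K has no non-trivial normal subgroup of order prime to p. -/
theorem result {P : Type*} [CommGroup P] [Finite P] {p : ℕ}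
    [Fact p.Prime] (hP : IsPGroup p P) (K : Subgroup (MulAut P)) (hK : p ∣ Nat.card K)
    (hfix : ∀ x y : MulAut P, x ∈ K → y ∈ K → x ≠ 1 → y ≠ 1 → ∀ v : P, x v = v ↔ y v = v) :
    ∀ N : Subgroup ↥K, N.Normal → ¬ p ∣ Nat.card N → N = ⊥ := by
  intro N hNn hNp
  classical
  haveI := hNn
  haveI : Fintype ↥N := Fintype.ofFinite _
  have hp : p.Prime := Fact.out
  obtain ⟨x, hx⟩ := exists_prime_orderOf_dvd_card' p hK
  have hg : orderOf (x : MulAut P) = p := by rw [Subgroup.orderOf_coe]; exact hx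
  have hg1 : (x : MulAut P) ≠ 1 := by
    intro h
    rw [h, orderOf_one] at hg
    exact hp.one_lt.ne hg
  -- every element of `N` fixes the fixed points of `g`
  have hNfix : ∀ n : ↥N, ∀ w : P, (x : MulAut P) w = w → ((n : ↥K) : MulAut P) w = w := by
    intro n w hw
    by_cases hn : ((n : ↥K) : MulAut P) = 1
    · rw [hn]; rfl
    · exact (hfix _ _ x.2 (n : ↥K).2 hg1 hn w).mp hw
  have hWbot : commPN K N = ⊥ := by
    by_contra hne
    obtain ⟨w, hwW, hw1, hwg⟩ := exists_fixed hP (x : MulAut P) hg (commPN K N)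
      (commPN_inv K N _ x.2) hne
    have h1 : nu K N w = 1 := (MonoidHom.mem_ker).mp (commPN_le_ker K N hwW)
    rw [nu_apply, Finset.prod_congr rfl (fun n _ => hNfix n w hwg), Finset.prod_const,
      Finset.card_univ, ← Nat.card_eq_fintype_card] at h1
    have h2 : orderOf w ∣ Nat.card ↥N := orderOf_dvd_of_pow_eq_one h1
    obtain ⟨k, hk⟩ := hP w
    obtain ⟨j, -, hj⟩ := (Nat.dvd_prime_pow hp).mp (orderOf_dvd_of_pow_eq_one hk)
    rcases Nat.eq_zero_or_pos j with h0 | h0
    · rw [h0, pow_zero] at hj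
      exact hw1 (orderOf_eq_one_iff.mp hj)
    · apply hNp
      rw [hj] at h2
      exact (dvd_pow_self p h0.ne').trans h2
  rw [Subgroup.eq_bot_iff_forall]
  intro n hn
  apply Subtype.ext
  apply MulEquiv.ext
  intro u
  have h1 : ((n : MulAut P)) u * u⁻¹ ∈ commPN K N :=
    Subgroup.subset_closure ⟨⟨n, hn⟩, u, rfl⟩
  rw [hWbot, Subgroup.mem_bot] at h1
  show (n : MulAut P) u = u
  exact mul_inv_eq_one.mp h1

end Cfsg.Agent.S4036
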