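import Cfsg.Statements.S4043
import Cfsg.Agent.Lib_helper5_PAct
import Cfsg.Agent.Lib_helper5_Class
import Cfsg.Agent.Lib_helper1_Coprime
import Cfsg.Agent.Lib_helper1_Basic
import Cfsg.Agent.Lib_helper6_Conj

set_option autoImplicit false
open Cfsg

namespace Cfsg.Agent.S4043

open Cfsg.Agent.Lib_helper6_Conj

theorem key {G : Type*} [Group G] [Finite G] {p : ℕ} [Fact p.Prime] (N : Subgroup G) [N.Normal]
    (A : Subgroup G) (hA : A.IsComplement' N) (hAp : Cfsg.HasNormalPComplement p A) :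
    ∃ K' P' : Subgroup G, K' ≤ A ∧ P' ≤ A ∧ IsPGroup p P' ∧
      A ≤ Subgroup.normalizer (K' : Set G) ∧
      (∀ a ∈ A, ∃ k ∈ K', ∃ b ∈ P', a = k * b) ∧
      Nat.card K' * p ^ (N.index).factorization p = N.index ∧ ¬ p ∣ Nat.card K' ∧
      (∀ a ∈ A, a ^ Nat.card K' = 1 → a ∈ K') := by
  have hp := Fact.out (p := p.Prime)
  obtain ⟨P, K, hKn, hK⟩ := hAp
  have hcK : Nat.card (K.map A.subtype) = Nat.card K :=
    Subgroup.card_map_of_injective A.subtype_injective
  have hnp : ¬ p ∣ Nat.card K := by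
    rw [← hK.index_eq_card]; exact Sylow.not_dvd_index P
  refine ⟨K.map A.subtype, (P : Subgroup A).map A.subtype, Subgroup.map_subtype_le _,
    Subgroup.map_subtype_le _, P.2.map _, ?_, ?_, ?_, ?_, ?_⟩
  · intro a ha
    apply Cfsg.Agent.Lib_helper1_Basic.mem_normalizer_of_conj_le
    rintro _ ⟨k, hk, rfl⟩
    exact ⟨⟨a, ha⟩ * k * ⟨a, ha⟩⁻¹, hKn.conj_mem k hk ⟨a, ha⟩, rfl⟩
  · intro a ha
    have h1 : (⟨a, ha⟩ : A) ∈ ((K ⊔ (P : Subgroup A) : Subgroup A) : Set A) := by
      rw [hK.sup_eq_top]; trivial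
    rw [Subgroup.normal_mul] at h1
    obtain ⟨k, hk, b, hb, hkb⟩ := Set.mem_mul.mp h1
    refine ⟨k, ⟨k, hk, rfl⟩, b, ⟨b, hb, rfl⟩, ?_⟩
    have := congrArg Subtype.val hkb
    exact this.symm
  · rw [hcK, hA.index_eq_card, ← Sylow.card_eq_multiplicity P]
    exact hK.card_mul_card
  · rw [hcK]; exact hnp
  · intro a ha ham
    rw [hcK] at ham
    have hcop : Nat.Coprime (Nat.card K) K.index := by
      rw [hK.symm.index_eq_card, Sylow.card_eq_multiplicity]
      exact Nat.Coprime.pow_right _ ((Nat.Prime.coprime_iff_not_dvd hp).mpr hnp).symm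
    have h1 : (⟨a, ha⟩ : A) ∈ K := by
      apply Cfsg.Agent.Lib_helper5_Class.mem_of_pow_mem_of_coprime' K _ hcop
      · have : (⟨a, ha⟩ : A) ^ Nat.card K = 1 := by
          apply Subtype.ext
          rw [Subgroup.coe_pow]
          exact ham
        rw [this]; exact K.one_mem
      · exact Subgroup.pow_index_mem K _
    exact ⟨⟨a, ha⟩, h1, rfl⟩

/-- Let G be a finite group that is the semidirect product of a normal p-subgroup N by a subgroup A, and also of N by a subgroup A₁, where p is a prime and A and A₁ both have normal p-complements. If C_N(A) = C_N(A₁) = 1, then A₁ is conjugate to A by an element of N. -/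
theorem result {G : Type*} [Group G] [Finite G] {p : ℕ}
    [Fact p.Prime] (N : Subgroup G) [N.Normal] (hN : IsPGroup p N) (A A₁ : Subgroup G)
    (hA : A.IsComplement' N) (hA₁ : A₁.IsComplement' N)
    (hAp : Cfsg.HasNormalPComplement p A) (hA₁p : Cfsg.HasNormalPComplement p A₁)
    (hC : ∀ n : G, n ∈ N → (∀ a : G, a ∈ A → a * n * a⁻¹ = n) → n = 1)
    (hC₁ : ∀ n : G, n ∈ N → (∀ a : G, a ∈ A₁ → a * n * a⁻¹ = n) → n = 1) :
    ∃ n : G, n ∈ N ∧ A₁ = A.map (MulAut.conj n).toMonoidHom := by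
  have hp := Fact.out (p := p.Prime)
  obtain ⟨K', P', hK'A, hP'A, hP', hAK', hdec, hcard, hnp, hmem⟩ := key N A hA hAp
  obtain ⟨K₁', P₁', hK₁'A, hP₁'A, hP₁', hAK₁', hdec₁, hcard₁, hnp₁, hmem₁⟩ := key N A₁ hA₁ hA₁p
  have hcardeq : Nat.card K₁' = Nat.card K' := by
    have h1 : Nat.card K₁' * p ^ (N.index).factorization p
        = Nat.card K' * p ^ (N.index).factorization p := by rw [hcard, hcard₁]
    exact Nat.eq_of_mul_eq_mul_right (pow_pos hp.pos _) h1
  have hAN : A ⊓ N = ⊥ := disjoint_iff.mp hA.disjoint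
  have hA₁N : A₁ ⊓ N = ⊥ := disjoint_iff.mp hA₁.disjoint
  -- every element of K₁' is in N K'
  have hY : ∀ g ∈ K₁', ∃ n ∈ N, ∃ a ∈ K', g = n * a := by
    intro g hg
    have h1 : g ∈ ((N ⊔ A : Subgroup G) : Set G) := by
      rw [sup_comm, hA.sup_eq_top]; trivial
    rw [Subgroup.normal_mul] at h1
    obtain ⟨n, hn, a, ha, hna⟩ := Set.mem_mul.mp h1
    have hgm : g ^ Nat.card K' = 1 := by
      rw [← hcardeq]
      have := pow_card_eq_one' (G := K₁') (x := ⟨g, hg⟩)
      have h2 := congrArg Subtype.val this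
      rwa [Subgroup.coe_pow] at h2
    have h2 : ((n * a : G) : G ⧸ N) = (a : G ⧸ N) := by
      rw [QuotientGroup.mk_mul, (QuotientGroup.eq_one_iff n).mpr hn, one_mul]
    have h3 : (((n * a) ^ Nat.card K' : G) : G ⧸ N) = ((a ^ Nat.card K' : G) : G ⧸ N) := by
      rw [QuotientGroup.mk_pow, h2, QuotientGroup.mk_pow]
    have h4 := QuotientGroup.eq.mp h3
    rw [hna, hgm, inv_one, one_mul] at h4
    have h5 : a ^ Nat.card K' ∈ A ⊓ N := ⟨A.pow_mem ha _, h4⟩
    rw [hAN, Subgroup.mem_bot] at h5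
    exact ⟨n, hn, a, hmem a ha h5, hna.symm⟩
  -- Glauberman
  have hnormN : K₁' ≤ Subgroup.normalizer (N : Set G) := by
    rw [Subgroup.normalizer_eq_top_iff.mpr inferInstance]; exact le_top
  have hcop : (Nat.card K₁').Coprime (Nat.card N) := by
    obtain ⟨j, hj⟩ := IsPGroup.iff_card.mp hN
    rw [hj]
    exact Nat.Coprime.pow_right j ((Nat.Prime.coprime_iff_not_dvd hp).mpr hnp₁).symm
  have hsolvN : Group.IsSolvable N := by
    haveI := hN.isNilpotent
    infer_instance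
  obtain ⟨n, hnN, hfix⟩ := Cfsg.Agent.Lib_helper1_Coprime.coprime_fixed_point (X := G ⧸ K')
    K₁' N hnormN hcop (Or.inr hsolvN) ((1 : G) : G ⧸ K') (by
      intro g hg
      obtain ⟨n, hn, a, ha, hna⟩ := hY g hg
      refine ⟨n, hn, ?_⟩
      rw [MulAction.Quotient.smul_mk, MulAction.Quotient.smul_mk, smul_eq_mul, smul_eq_mul,
        mul_one, mul_one, QuotientGroup.eq, hna]
      have : (n * a)⁻¹ * n = a⁻¹ := by group
      rw [this]; exact K'.inv_mem ha)
  have hK₁le : K₁' ≤ K'.map (MulAut.conj n).toMonoidHom := by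
    intro g hg
    rw [mem_conjMap]
    have h1 := hfix g hg
    rw [MulAction.Quotient.smul_mk, MulAction.Quotient.smul_mk, smul_eq_mul, smul_eq_mul,
      mul_one, QuotientGroup.eq] at h1
    have h2 := K'.inv_mem h1
    have : ((g * n)⁻¹ * n)⁻¹ = n⁻¹ * g * n := by group
    rwa [this] at h2
  have hK₁eq : K₁' = K'.map (MulAut.conj n).toMonoidHom := by
    apply Subgroup.eq_of_le_of_card_ge hK₁le
    rw [card_conjMap, hcardeq]
  refine ⟨n, hnN, ?_⟩
  -- the normalizer of K₁' is A₁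
  have hnorm : Subgroup.normalizer (K₁' : Set G) ≤ A₁ := by
    intro g hg
    have h1 : g ∈ ((N ⊔ A₁ : Subgroup G) : Set G) := by
      rw [sup_comm, hA₁.sup_eq_top]; trivial
    rw [Subgroup.normal_mul] at h1
    obtain ⟨n₁, hn₁, a₁, ha₁, hna⟩ := Set.mem_mul.mp h1
    have hn₁norm : n₁ ∈ Subgroup.normalizer (K₁' : Set G) := by
      have : n₁ = g * a₁⁻¹ := by rw [← hna]; group
      rw [this]
      exact Subgroup.mul_mem _ hg (Subgroup.inv_mem _ (hAK₁' ha₁))
    set D : Subgroup G := N ⊓ Subgroup.normalizer (K₁' : Set G) with hD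
    by_cases hDbot : D = ⊥
    · have : n₁ ∈ D := ⟨hn₁, hn₁norm⟩
      rw [hDbot, Subgroup.mem_bot] at this
      rw [← hna, this, one_mul]; exact ha₁
    · exfalso
      have hPD : P₁' ≤ Subgroup.normalizer (D : Set G) := by
        intro b hb
        apply Cfsg.Agent.Lib_helper1_Basic.mem_normalizer_of_conj_le
        intro d hd
        refine ⟨(inferInstance : N.Normal).conj_mem d hd.1 b, ?_⟩
        have hb' := hAK₁' (hP₁'A hb)
        exact Subgroup.mul_mem _ (Subgroup.mul_mem _ hb' hd.2) (Subgroup.inv_mem _ hb')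
      obtain ⟨d, hdD, hd1, hdfix⟩ := Cfsg.Agent.Lib_helper5_PAct.exists_fixed_of_pgroup P₁' D hP₁'
        (hN.to_le inf_le_left) hPD hDbot
      apply hd1
      apply hC₁ d hdD.1
      intro a ha
      obtain ⟨k, hk, b, hb, rfl⟩ := hdec₁ a ha
      have hkd : k * d * k⁻¹ * d⁻¹ = 1 := by
        have h2 : k * d * k⁻¹ * d⁻¹ ∈ A₁ ⊓ N := by
          constructor
          · have h3 : d * k⁻¹ * d⁻¹ ∈ K₁' :=
              (Subgroup.mem_normalizer_iff.mp hdD.2 _).mp (K₁'.inv_mem hk)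
            have : k * d * k⁻¹ * d⁻¹ = k * (d * k⁻¹ * d⁻¹) := by group
            rw [this]
            exact hK₁'A (K₁'.mul_mem hk h3)
          · exact N.mul_mem ((inferInstance : N.Normal).conj_mem d hdD.1 k) (N.inv_mem hdD.1)
        rw [hA₁N, Subgroup.mem_bot] at h2
        exact h2
      have hkd' : k * d * k⁻¹ = d := by
        have := congrArg (· * d) hkd
        simpa using this
      have : k * b * d * (k * b)⁻¹ = k * (b * d * b⁻¹) * k⁻¹ := by group
      rw [this, hdfix b hb, hkd']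
  symm
  apply Subgroup.eq_of_le_of_card_ge
  · refine le_trans ?_ hnorm
    rintro _ ⟨a, ha, rfl⟩
    apply Cfsg.Agent.Lib_helper1_Basic.mem_normalizer_of_conj_le
    intro m hm
    rw [hK₁eq, mem_conjMap] at hm ⊢
    have h1 := (Subgroup.mem_normalizer_iff.mp (hAK' ha) _).mp hm
    have : n⁻¹ * ((MulAut.conj n).toMonoidHom a * m * ((MulAut.conj n).toMonoidHom a)⁻¹) * n
        = a * (n⁻¹ * m * n) * a⁻¹ := by
      simp only [MulEquiv.coe_toMonoidHom, MulAut.conj_apply]
      group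
    rw [this]; exact h1
  · rw [card_conjMap, ← hA.index_eq_card, ← hA₁.index_eq_card]

end Cfsg.Agent.S4043
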