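import Cfsg.Statements.S4050
import Cfsg.Agent.Lib_helper5_PiElt

set_option autoImplicit false
open Cfsg

namespace Cfsg.Agent.S4050

open Cfsg.Agent.Lib_helper5_PiElt

universe u

theorem forward {G : Type u} [Group G] [Finite G] (π : Set ℕ) (T : Subgroup G)
    (hT : ∀ x : G, x ∈ T ↔ IsPiElt π x) :
    (∃ (n : ℕ) (H : Fin (n + 1) → Subgroup G), H 0 = ⊥ ∧ H (Fin.last n) = ⊤ ∧ Monotone H ∧
      (∀ i, (H i).Normal) ∧
      ∀ i : Fin n, (∀ q : ℕ, q.Prime → q ∣ (H i.castSucc).relIndex (H i.succ) → q ∈ π) ∨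
        (∀ q : ℕ, q.Prime → q ∣ (H i.castSucc).relIndex (H i.succ) → q ∉ π)) ∧
     (∀ H : Subgroup G, H ≠ ⊥ → (∀ p : ℕ, p.Prime → p ∣ Nat.card ↥H → p ∉ π) →
        ∀ p : ℕ, p.Prime → p ∣ (Subgroup.centralizer (H : Set G)).relIndex
          (Subgroup.normalizer (H : Set G)) → p ∉ π) := by
  haveI hTn : T.Normal := by
    constructor
    intro g hg c
    rw [hT] at hg ⊢
    exact piElt_conj hg c
  have hTcard : IsPiNat π (Nat.card T) := by
    apply piNat_card_of_forall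
    intro z
    exact (piElt_coe z).mp ((hT z).mp z.2)
  have hTidx : IsPiNat πᶜ T.index := by
    intro p hp hd hpπ
    haveI : Fact p.Prime := ⟨hp⟩
    rw [Subgroup.index_eq_card] at hd
    obtain ⟨z, hz⟩ := exists_prime_orderOf_dvd_card' p hd
    have hzπ : IsPiElt π z := by
      intro q hq hqd
      rw [hz] at hqd
      rw [(Nat.prime_dvd_prime_iff_eq hq hp).mp hqd]; exact hpπ
    obtain ⟨g, hg, hgz⟩ := exists_piElt_lift π (QuotientGroup.mk' T)
      (QuotientGroup.mk'_surjective T) hzπ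
    have h2 : z = 1 := by
      rw [← hgz]
      exact (QuotientGroup.eq_one_iff g).mpr ((hT g).mpr hg)
    rw [h2, orderOf_one] at hz
    exact hp.ne_one hz.symm
  refine ⟨⟨2, ![⊥, T, ⊤], rfl, rfl, ?_, ?_, ?_⟩, ?_⟩
  · rw [Fin.monotone_iff_le_succ]
    intro i
    fin_cases i
    · exact bot_le
    · exact le_top
  · intro i
    fin_cases i
    · show (⊥ : Subgroup G).Normal
      infer_instance
    · exact hTn
    · show (⊤ : Subgroup G).Normal
      infer_instance
  · intro i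
    fin_cases i
    · left
      show ∀ q : ℕ, q.Prime → q ∣ (⊥ : Subgroup G).relIndex T → q ∈ π
      rw [Subgroup.relIndex_bot_left]
      exact hTcard
    · right
      show ∀ q : ℕ, q.Prime → q ∣ T.relIndex ⊤ → q ∉ π
      rw [Subgroup.relIndex_top_right]
      exact hTidx
  · intro H hHne hHpi
    apply hhom_of_cent
    intro y hyN hy
    rw [Subgroup.mem_centralizer_iff]
    intro h hh
    have hc1 : y * h * y⁻¹ * h⁻¹ ∈ H :=
      mul_mem ((Subgroup.mem_normalizer_iff.mp hyN h).mp hh) (inv_mem hh)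
    have hc2 : y * h * y⁻¹ * h⁻¹ ∈ T := by
      have h1 : y ∈ T := (hT y).mpr hy
      have h2 : h * y⁻¹ * h⁻¹ ∈ T := hTn.conj_mem _ (inv_mem h1) h
      have h3 := mul_mem h1 h2
      have h4 : y * (h * y⁻¹ * h⁻¹) = y * h * y⁻¹ * h⁻¹ := by group
      rw [h4] at h3; exact h3
    have hc3 : y * h * y⁻¹ * h⁻¹ = 1 := by
      have h5 : (⟨y * h * y⁻¹ * h⁻¹, hc1⟩ : H) = 1 := by
        apply eq_one_of_piElt_of_pow (π := π) _ hHpi pow_card_eq_one'
        rw [← piElt_coe]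
        exact (hT _).mp hc2
      exact congrArg Subtype.val h5
    have h6 : y * h = h * y := by
      have h7 := hc3
      rw [mul_inv_eq_one, mul_inv_eq_iff_eq_mul] at h7
      exact h7
    exact h6.symm

theorem step {G : Type u} [Group G] [Finite G] (π : Set ℕ) (A M : Subgroup G)
    [hAn : A.Normal]
    (hrel : IsPiNat π (A.relIndex M) ∨ IsPiNat πᶜ (A.relIndex M))
    (hhom' : ∀ H : Subgroup G, H ≠ ⊥ → IsPiNat πᶜ (Nat.card H) →
      ∀ y ∈ Subgroup.normalizer (H : Set G), IsPiElt π y →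
        y ∈ Subgroup.centralizer (H : Set G))
    (S : Subgroup G) (hS : ∀ x : G, x ∈ S ↔ (x ∈ A ∧ IsPiElt π x)) :
    ∃ S' : Subgroup G, ∀ x : G, x ∈ S' ↔ (x ∈ M ∧ IsPiElt π x) := by
  have hhomM : ∀ H' : Subgroup ↥M, H' ≠ ⊥ → IsPiNat πᶜ (Nat.card H') →
      ∀ y ∈ Subgroup.normalizer (H' : Set ↥M), IsPiElt π y →
        y ∈ Subgroup.centralizer (H' : Set ↥M) := by
    intro H' hH'ne hH'pi y hyN hy
    have h1 : H'.map M.subtype ≠ ⊥ := by
      rw [Ne, Subgroup.map_eq_bot_iff_of_injective _ M.subtype_injective]; exact hH'ne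
    have h2 : IsPiNat πᶜ (Nat.card (H'.map M.subtype)) := by
      rw [Subgroup.card_map_of_injective M.subtype_injective]; exact hH'pi
    have h3 : (y : G) ∈ Subgroup.normalizer ((H'.map M.subtype : Subgroup G) : Set G) :=
      Subgroup.le_normalizer_map M.subtype (Subgroup.mem_map_of_mem _ hyN)
    have h4 := hhom' _ h1 h2 _ h3 ((piElt_coe y).mpr hy)
    rw [Subgroup.mem_centralizer_iff]
    intro h hh
    apply Subtype.ext
    exact Subgroup.mem_centralizer_iff.mp h4 (h : G) (Subgroup.mem_map_of_mem _ hh)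
  haveI : (A.subgroupOf M).Normal := inferInstance
  have hK : ∃ L : Subgroup ↥(A.subgroupOf M), ∀ x : ↥(A.subgroupOf M),
      x ∈ L ↔ IsPiElt π x := by
    refine ⟨(S.subgroupOf M).subgroupOf (A.subgroupOf M), fun x => ?_⟩
    rw [Subgroup.mem_subgroupOf, Subgroup.mem_subgroupOf, hS]
    constructor
    · rintro ⟨_, h⟩
      exact (piElt_coe x).mp ((piElt_coe (x : ↥M)).mp h)
    · intro h
      exact ⟨Subgroup.mem_subgroupOf.mp x.2,
        (piElt_coe (x : ↥M)).mpr ((piElt_coe x).mpr h)⟩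
  have hQ : ∃ L : Subgroup (↥M ⧸ A.subgroupOf M), ∀ x : ↥M ⧸ A.subgroupOf M,
      x ∈ L ↔ IsPiElt π x := by
    have hcard : Nat.card (↥M ⧸ A.subgroupOf M) = A.relIndex M :=
      (Subgroup.index_eq_card _).symm
    rcases hrel with h | h
    · refine ⟨⊤, fun x => ⟨fun _ => ?_, fun _ => Subgroup.mem_top x⟩⟩
      exact piElt_of_card (by rw [hcard]; exact h) x
    · refine ⟨⊥, fun x => ?_⟩
      rw [Subgroup.mem_bot]
      constructor
      · rintro rfl; exact piElt_one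
      · intro hx
        exact eq_one_of_piElt_of_pow hx (by rw [← hcard] at h; exact h) pow_card_eq_one'
  obtain ⟨S', hS'⟩ := core hhomM (A.subgroupOf M) hK hQ
  refine ⟨S'.map M.subtype, fun x => ?_⟩
  constructor
  · rintro ⟨s, hs, rfl⟩
    exact ⟨s.2, (piElt_coe s).mpr ((hS' s).mp hs)⟩
  · rintro ⟨hx, hxπ⟩
    exact ⟨⟨x, hx⟩, (hS' _).mpr ((piElt_coe (⟨x, hx⟩ : M)).mp hxπ), rfl⟩

theorem backward {G : Type u} [Group G] [Finite G] (π : Set ℕ)
    (n : ℕ) (H : Fin (n + 1) → Subgroup G) (h0 : H 0 = ⊥) (hlast : H (Fin.last n) = ⊤)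
    (hnorm : ∀ i, (H i).Normal)
    (hchain : ∀ i : Fin n,
      (∀ q : ℕ, q.Prime → q ∣ (H i.castSucc).relIndex (H i.succ) → q ∈ π) ∨
        (∀ q : ℕ, q.Prime → q ∣ (H i.castSucc).relIndex (H i.succ) → q ∉ π))
    (hhom' : ∀ H : Subgroup G, H ≠ ⊥ → IsPiNat πᶜ (Nat.card H) →
      ∀ y ∈ Subgroup.normalizer (H : Set G), IsPiElt π y →
        y ∈ Subgroup.centralizer (H : Set G)) :
    ∃ S : Subgroup G, ∀ x : G, x ∈ S ↔ IsPiElt π x := by
  have key : ∀ i : ℕ, ∀ hi : i < n + 1, ∃ S : Subgroup G,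
      ∀ x : G, x ∈ S ↔ (x ∈ H ⟨i, hi⟩ ∧ IsPiElt π x) := by
    intro i
    induction i with
    | zero =>
      intro hi
      refine ⟨⊥, fun x => ?_⟩
      have h00 : H ⟨0, hi⟩ = ⊥ := h0
      rw [h00, Subgroup.mem_bot]
      constructor
      · rintro rfl; exact ⟨rfl, piElt_one⟩
      · rintro ⟨h, _⟩; exact h
    | succ i ih =>
      intro hi
      have hi' : i < n + 1 := by omega
      obtain ⟨S, hS⟩ := ih hi'
      have hin : i < n := by omega
      have hrel := hchain ⟨i, hin⟩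
      exact step π (H ⟨i, hi'⟩) (H ⟨i + 1, hi⟩) (hAn := hnorm _) hrel hhom' S hS
  obtain ⟨S, hS⟩ := key n (by omega)
  refine ⟨S, fun x => ?_⟩
  rw [hS]
  have hl : H ⟨n, by omega⟩ = ⊤ := hlast
  rw [hl]
  exact ⟨fun h => h.2, fun h => ⟨Subgroup.mem_top x, h⟩⟩



/-- Let π be a set of primes and G a finite group. The π-elements of G (elements whose order is divisible only by primes of π) form a subgroup if and only if G is π-separable (it has a chain of normal subgroups from 1 to G with each successive index divisible only by primes in π or only by primes outside π) and N_G(H)/C_G(H) is a π'-group for every nontrivial π'-subgroup H of G. -/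
theorem result {G : Type*} [Group G] [Finite G] (π : Set ℕ)
    (hπ : ∀ p ∈ π, p.Prime) :
    (∃ K : Subgroup G, ∀ x : G, x ∈ K ↔ ∀ p : ℕ, p.Prime → p ∣ orderOf x → p ∈ π) ↔
    ((∃ (n : ℕ) (H : Fin (n + 1) → Subgroup G), H 0 = ⊥ ∧ H (Fin.last n) = ⊤ ∧ Monotone H ∧ (∀ i, (H i).Normal) ∧
      ∀ i : Fin n, (∀ q : ℕ, q.Prime → q ∣ (H i.castSucc).relIndex (H i.succ) → q ∈ π) ∨
        (∀ q : ℕ, q.Prime → q ∣ (H i.castSucc).relIndex (H i.succ) → q ∉ π)) ∧
     (∀ H : Subgroup G, H ≠ ⊥ → (∀ p : ℕ, p.Prime → p ∣ Nat.card ↥H → p ∉ π) →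
        ∀ p : ℕ, p.Prime → p ∣ (Subgroup.centralizer (H : Set G)).relIndex (Subgroup.normalizer (H : Set G)) → p ∉ π)) := by
  constructor
  · rintro ⟨T, hT⟩
    exact forward π T hT
  · rintro ⟨⟨n, H, h0, hlast, hmono, hnorm, hchain⟩, hhom⟩
    exact backward π n H h0 hlast hnorm hchain
      (fun H hH hHpi y hyN hy => cent_of_hhom H (hhom H hH hHpi) y hyN hy)

end Cfsg.Agent.S4050
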