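import Cfsg.Statements.S4056
import Cfsg.Agent.Lib_helper5_Omega
import Cfsg.Agent.Lib_helper1_PGroup

set_option autoImplicit false
open Cfsg

namespace Cfsg.Agent.S4056

/-- central elements of order at most two -/
def omegaCenter (P : Type*) [Group P] : Subgroup P where
  carrier := {a | a ∈ Subgroup.center P ∧ a ^ 2 = 1}
  one_mem' := ⟨Subgroup.one_mem _, one_pow 2⟩
  mul_mem' := by
    rintro a b ⟨ha, ha2⟩ ⟨hb, hb2⟩
    refine ⟨Subgroup.mul_mem _ ha hb, ?_⟩
    have hab : Commute a b := Subgroup.mem_center_iff.mp hb a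
    rw [hab.mul_pow, ha2, hb2, one_mul]
  inv_mem' := by
    rintro a ⟨ha, ha2⟩
    exact ⟨Subgroup.inv_mem _ ha, by rw [inv_pow, ha2, inv_one]⟩

theorem mem_omegaCenter {P : Type*} [Group P] (a : P) :
    a ∈ omegaCenter P ↔ a ∈ Subgroup.center P ∧ a ^ 2 = 1 := Iff.rfl

instance omegaCenter_normal {P : Type*} [Group P] : (omegaCenter P).Normal := by
  constructor
  rintro a ⟨ha, ha2⟩ g
  have h1 : g * a * g⁻¹ = a := by
    have h2 := Subgroup.mem_center_iff.mp ha g
    rw [h2]; group
  rw [h1]; exact ⟨ha, ha2⟩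


/-- In a finite 2-group of nilpotency class at most 2 and exponent dividing 4, the Frattini subgroup lies in the centre and is elementary abelian. -/
theorem result {P : Type*} [Group P] [Finite P] (hP : IsPGroup 2 P)
    (hcl : Group.nilpotencyClass P ≤ 2) (hexp : Monoid.exponent P ∣ 4) :
    frattini P ≤ Subgroup.center P ∧ Cfsg.IsElementaryAbelian 2 (frattini P) := by
  haveI : Fact (Nat.Prime 2) := ⟨Nat.prime_two⟩
  haveI := hP.isNilpotent
  have huc : Subgroup.upperCentralSeries P 2 = ⊤ :=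
    Subgroup.upperCentralSeries_eq_top_iff_nilpotencyClass_le.mpr hcl
  have hcen : ∀ x y : P, x * y * x⁻¹ * y⁻¹ ∈ Subgroup.center P := by
    intro x y
    have h1 : x ∈ Subgroup.upperCentralSeries P (1 + 1) := by rw [huc]; trivial
    rw [Subgroup.mem_upperCentralSeries_succ_iff] at h1
    have h2 := h1 y
    rwa [Subgroup.upperCentralSeries_one] at h2
  have h4 : ∀ x : P, x ^ 4 = 1 := Monoid.exponent_dvd_iff_forall_pow_eq_one.mp hexp
  have hc2 : ∀ x y : P, (x * y * x⁻¹ * y⁻¹) ^ 2 = 1 := by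
    intro x y
    have hc := hcen x y
    rw [Subgroup.mem_center_iff] at hc
    have f := Cfsg.Agent.Lib_helper5_Omega.class_two_mul_pow x y _ rfl (hc x).symm (hc y).symm 4
    rw [h4, h4, h4] at f
    have hs : (∑ i ∈ Finset.range 4, i) = 6 := by decide
    rw [hs] at f
    have hc6 : (x * y * x⁻¹ * y⁻¹) ^ 6 = 1 := by simpa using f.symm
    have e : (x * y * x⁻¹ * y⁻¹) ^ 2 =
        (x * y * x⁻¹ * y⁻¹) ^ 6 * ((x * y * x⁻¹ * y⁻¹) ^ 4)⁻¹ := by group
    rw [e, hc6, h4]; simp
  have hsq : ∀ x : P, x ^ 2 ∈ omegaCenter P := by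
    intro x
    refine ⟨?_, by rw [← pow_mul]; exact h4 x⟩
    rw [Subgroup.mem_center_iff]
    intro y
    have hc := hcen x y
    rw [Subgroup.mem_center_iff] at hc
    have f1 := Cfsg.Agent.Lib_helper5_Omega.class_two_pow_mul x y _ rfl (hc x).symm 2
    rw [hc2, one_mul] at f1
    exact f1.symm
  have hfr : frattini P ≤ omegaCenter P := by
    have hbot : frattini (P ⧸ omegaCenter P) = ⊥ := by
      apply Cfsg.Agent.Lib_helper1_PGroup.frattini_eq_bot_of_elementary (p := 2)
      · intro a b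
        induction a using QuotientGroup.induction_on with
        | _ a =>
        induction b using QuotientGroup.induction_on with
        | _ b =>
        rw [← QuotientGroup.mk_mul, ← QuotientGroup.mk_mul, QuotientGroup.eq]
        have e : (a * b)⁻¹ * (b * a) = b⁻¹ * a⁻¹ * b⁻¹⁻¹ * a⁻¹⁻¹ := by group
        rw [e]
        exact ⟨hcen _ _, hc2 _ _⟩
      · intro y
        induction y using QuotientGroup.induction_on with
        | _ y =>
        rw [← QuotientGroup.mk_pow, QuotientGroup.eq_one_iff]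
        exact hsq y
    have h := frattini_le_comap_frattini_of_surjective
      (QuotientGroup.mk'_surjective (omegaCenter P))
    rw [hbot] at h
    intro x hx
    have h1 := h hx
    rw [Subgroup.mem_comap, Subgroup.mem_bot] at h1
    exact (QuotientGroup.eq_one_iff x).mp h1
  refine ⟨fun x hx => (hfr hx).1, ⟨⟨⟨fun a b => ?_⟩⟩, fun a ha => (hfr ha).2⟩⟩
  exact Subtype.ext (Subgroup.mem_center_iff.mp (hfr b.2).1 a.1)

end Cfsg.Agent.S4056
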