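import Cfsg.Statements.S4065


set_option autoImplicit false
open Cfsg

namespace Cfsg.Agent.S4065


theorem sq_one_char_two {F : Type*} [Field F] [CharP F 2] (a : F) (h : a ^ 2 = 1) : a = 1 := by
  have h2 : (2 : F) = 0 := by
    have h0 := CharP.cast_eq_zero F 2
    exact_mod_cast h0
  have h3 : (a - 1) ^ 2 = 0 := by linear_combination h - (a - 1) * h2
  have h4 := (pow_eq_zero_iff (two_ne_zero)).mp h3
  exact sub_eq_zero.mp h4

theorem cross {F : Type*} [Field F] (u1 u2 u3 p1 p2 p3 q1 q2 q3 : F)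
    (hu : ¬ (u1 = 0 ∧ u2 = 0 ∧ u3 = 0))
    (hp12 : u1 * p2 = u2 * p1) (hp13 : u1 * p3 = u3 * p1) (hp23 : u2 * p3 = u3 * p2)
    (hq12 : u1 * q2 = u2 * q1) (hq13 : u1 * q3 = u3 * q1) (hq23 : u2 * q3 = u3 * q2) :
    p1 * q2 = q1 * p2 ∧ p1 * q3 = q1 * p3 ∧ p2 * q3 = q2 * p3 := by
  by_cases h1 : u1 = 0
  · by_cases h2 : u2 = 0
    · have h3 : u3 ≠ 0 := fun h3 => hu ⟨h1, h2, h3⟩
      have hk := mul_ne_zero h3 h3
      refine ⟨mul_left_cancel₀ hk ?_, mul_left_cancel₀ hk ?_, mul_left_cancel₀ hk ?_⟩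
      · linear_combination -(u3 * q2) * hp13 - (u1 * p3) * hq23 + (u3 * p2) * hq13 +
          (u1 * q3) * hp23
      · linear_combination -(u3 * q3) * hp13 + (u3 * p3) * hq13
      · linear_combination -(u3 * q3) * hp23 + (u3 * p3) * hq23
    · have hk := mul_ne_zero h2 h2
      refine ⟨mul_left_cancel₀ hk ?_, mul_left_cancel₀ hk ?_, mul_left_cancel₀ hk ?_⟩
      · linear_combination -(u2 * q2) * hp12 + (u2 * p2) * hq12
      · linear_combination -(u2 * q3) * hp12 + (u1 * p2) * hq23 + (u2 * p3) * hq12 -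
          (u1 * q2) * hp23
      · linear_combination (u2 * p2) * hq23 - (u2 * q2) * hp23
  · have hk := mul_ne_zero h1 h1
    refine ⟨mul_left_cancel₀ hk ?_, mul_left_cancel₀ hk ?_, mul_left_cancel₀ hk ?_⟩
    · linear_combination (u1 * p1) * hq12 - (u1 * q1) * hp12
    · linear_combination (u1 * p1) * hq13 - (u1 * q1) * hp13
    · linear_combination (u1 * q3) * hp12 + (u2 * p1) * hq13 - (u1 * p3) * hq12 -
        (u2 * q1) * hp13

theorem mat_comm {F : Type*} [Field F] (A B C : Matrix (Fin 2) (Fin 2) F)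
    (hA : ¬ (A 0 1 = 0 ∧ A 1 0 = 0 ∧ A 0 0 - A 1 1 = 0))
    (hAB : A * B = B * A) (hAC : A * C = C * A) : B * C = C * B := by
  have b1 := congrFun (congrFun hAB 0) 0
  have b2 := congrFun (congrFun hAB 0) 1
  have b3 := congrFun (congrFun hAB 1) 0
  have c1 := congrFun (congrFun hAC 0) 0
  have c2 := congrFun (congrFun hAC 0) 1
  have c3 := congrFun (congrFun hAC 1) 0
  simp only [Matrix.mul_apply, Fin.sum_univ_two] at b1 b2 b3 c1 c2 c3
  obtain ⟨k1, k2, k3⟩ := cross (A 0 1) (A 1 0) (A 0 0 - A 1 1) (B 0 1) (B 1 0) (B 0 0 - B 1 1)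
    (C 0 1) (C 1 0) (C 0 0 - C 1 1) hA
    (by linear_combination b1) (by linear_combination (-1 : F) * b2) (by linear_combination b3)
    (by linear_combination c1) (by linear_combination (-1 : F) * c2) (by linear_combination c3)
  ext i j
  fin_cases i <;> fin_cases j
  · simp only [Fin.zero_eta, Fin.mk_one, Matrix.mul_apply, Fin.sum_univ_two]
    linear_combination k1
  · simp only [Fin.zero_eta, Fin.mk_one, Matrix.mul_apply, Fin.sum_univ_two]
    linear_combination (-1 : F) * k2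
  · simp only [Fin.zero_eta, Fin.mk_one, Matrix.mul_apply, Fin.sum_univ_two]
    linear_combination k3
  · simp only [Fin.zero_eta, Fin.mk_one, Matrix.mul_apply, Fin.sum_univ_two]
    linear_combination (-1 : F) * k1

theorem sl_comm {F : Type*} [Field F] [CharP F 2] (a b c : Matrix.SpecialLinearGroup (Fin 2) F)
    (ha : a ≠ 1) (hab : a * b = b * a) (hac : a * c = c * a) : b * c = c * b := by
  have hA : ¬ ((a : Matrix (Fin 2) (Fin 2) F) 0 1 = 0 ∧ (a : Matrix (Fin 2) (Fin 2) F) 1 0 = 0 ∧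
      (a : Matrix (Fin 2) (Fin 2) F) 0 0 - (a : Matrix (Fin 2) (Fin 2) F) 1 1 = 0) := by
    rintro ⟨h1, h2, h3⟩
    apply ha
    have hdet := a.2
    rw [Matrix.det_fin_two, h1, h2] at hdet
    have h4 : (a : Matrix (Fin 2) (Fin 2) F) 0 0 = (a : Matrix (Fin 2) (Fin 2) F) 1 1 :=
      sub_eq_zero.mp h3
    have h5 : (a : Matrix (Fin 2) (Fin 2) F) 0 0 = 1 := by
      apply sq_one_char_two
      rw [← h4] at hdet
      linear_combination hdet
    have h6 : (a : Matrix (Fin 2) (Fin 2) F) 1 1 = 1 := by rw [← h4, h5]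
    ext i j
    fin_cases i <;> fin_cases j <;> simp [h1, h2, h5, h6]
  have hAB : (a : Matrix (Fin 2) (Fin 2) F) * b = b * a := by
    have h0 := congrArg (fun s : Matrix.SpecialLinearGroup (Fin 2) F =>
      (s : Matrix (Fin 2) (Fin 2) F)) hab
    simpa using h0
  have hAC : (a : Matrix (Fin 2) (Fin 2) F) * c = c * a := by
    have h0 := congrArg (fun s : Matrix.SpecialLinearGroup (Fin 2) F =>
      (s : Matrix (Fin 2) (Fin 2) F)) hac
    simpa using h0
  have h7 := mat_comm _ _ _ hA hAB hAC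
  apply Subtype.ext
  simpa using h7

theorem center_bot {F : Type*} [Field F] [CharP F 2] :
    Subgroup.center (Matrix.SpecialLinearGroup (Fin 2) F) = ⊥ := by
  rw [eq_bot_iff]
  intro z hz
  obtain ⟨r, hr, hrz⟩ := Matrix.SpecialLinearGroup.mem_center_iff.mp hz
  rw [Fintype.card_fin] at hr
  have hr1 : r = 1 := sq_one_char_two r hr
  rw [Subgroup.mem_bot]
  apply Subtype.ext
  rw [← hrz, hr1]
  simp

theorem psl_comm {F : Type*} [Field F] [CharP F 2]
    (a b c : Matrix.ProjectiveSpecialLinearGroup (Fin 2) F)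
    (ha : a ≠ 1) (hab : a * b = b * a) (hac : a * c = c * a) : b * c = c * b := by
  obtain ⟨a', rfl⟩ := QuotientGroup.mk_surjective a
  obtain ⟨b', rfl⟩ := QuotientGroup.mk_surjective b
  obtain ⟨c', rfl⟩ := QuotientGroup.mk_surjective c
  have hinj : ∀ s t : Matrix.SpecialLinearGroup (Fin 2) F,
      (QuotientGroup.mk s : Matrix.ProjectiveSpecialLinearGroup (Fin 2) F) = QuotientGroup.mk t →
      s = t := by
    intro s t hst
    have h0 := QuotientGroup.eq.mp hst
    rw [center_bot, Subgroup.mem_bot] at h0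
    exact inv_mul_eq_one.mp h0
  have ha' : a' ≠ 1 := by
    rintro rfl
    exact ha rfl
  have hab' : a' * b' = b' * a' := hinj _ _ hab
  have hac' : a' * c' = c' * a' := hinj _ _ hac
  have h1 := sl_comm a' b' c' ha' hab' hac'
  show (QuotientGroup.mk (b' * c') : Matrix.ProjectiveSpecialLinearGroup (Fin 2) F) =
    QuotientGroup.mk (c' * b')
  rw [h1]



/-- Let F be a finite field with 2ⁿ elements, n ≥ 2. In PSL₂(F) the centralizer of every element meets each of its conjugates by elements outside its normalizer trivially. -/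
theorem result (n : ℕ) (hn : 2 ≤ n)
    (x : Matrix.ProjectiveSpecialLinearGroup (Fin 2) (GaloisField 2 n)) :
    Cfsg.IsTISubset (Subgroup.centralizer ({x} : Set (Matrix.ProjectiveSpecialLinearGroup (Fin 2) (GaloisField 2 n))) :
      Set (Matrix.ProjectiveSpecialLinearGroup (Fin 2) (GaloisField 2 n))) := by
  intro g hg y hy hgy
  by_contra hy1
  apply hg
  have hy' : y ∈ Subgroup.centralizer
      ({x} : Set (Matrix.ProjectiveSpecialLinearGroup (Fin 2) (GaloisField 2 n))) := hy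
  have hxy : x * y = y * x := Subgroup.mem_centralizer_iff.mp hy' x rfl
  have hgy' : g * y * g⁻¹ ∈ Subgroup.centralizer
      ({x} : Set (Matrix.ProjectiveSpecialLinearGroup (Fin 2) (GaloisField 2 n))) := hgy
  have hxw : x * (g * y * g⁻¹) = (g * y * g⁻¹) * x := Subgroup.mem_centralizer_iff.mp hgy' x rfl
  have hw1 : g * y * g⁻¹ ≠ 1 := by
    intro h
    apply hy1
    have e : y = g⁻¹ * (g * y * g⁻¹) * g := by group
    rw [e, h]
    group
  rw [Subgroup.mem_normalizer_iff]
  intro m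
  rw [Subgroup.mem_centralizer_iff, Subgroup.mem_centralizer_iff]
  simp only [Set.mem_singleton_iff, forall_eq]
  by_cases hx1 : x = 1
  · subst hx1
    simp
  constructor
  · intro hm
    -- m commutes with y (CA at x)
    have h1 : y * m = m * y := psl_comm x y m hx1 hxy hm
    -- g m g⁻¹ commutes with w
    have h2 : (g * y * g⁻¹) * (g * m * g⁻¹) = (g * m * g⁻¹) * (g * y * g⁻¹) := by
      calc (g * y * g⁻¹) * (g * m * g⁻¹) = g * (y * m) * g⁻¹ := by group
        _ = g * (m * y) * g⁻¹ := by rw [h1]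
        _ = (g * m * g⁻¹) * (g * y * g⁻¹) := by group
    exact psl_comm (g * y * g⁻¹) x (g * m * g⁻¹) hw1 hxw.symm h2
  · intro hm
    have h1 : (g * y * g⁻¹) * (g * m * g⁻¹) = (g * m * g⁻¹) * (g * y * g⁻¹) :=
      psl_comm x (g * y * g⁻¹) (g * m * g⁻¹) hx1 hxw hm
    have h2 : y * m = m * y := by
      have e1 : y * m = g⁻¹ * ((g * y * g⁻¹) * (g * m * g⁻¹)) * g := by group
      have e2 : m * y = g⁻¹ * ((g * m * g⁻¹) * (g * y * g⁻¹)) * g := by group
      rw [e1, e2, h1]
    exact psl_comm y x m hy1 hxy.symm h2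

end Cfsg.Agent.S4065
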