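import Cfsg.Statements.S4066
import Cfsg.Agent.Lib_helper5_PAct
import Cfsg.Agent.Lib_helper5_Basic
import Cfsg.Agent.Lib_helper6_Sylow
import Cfsg.Agent.Lib_helper1_Basic

set_option autoImplicit false
open Cfsg

namespace Cfsg.Agent.S4066

/-- Let G be a finite group in which the centralizer of every element meets each of its conjugates by elements outside its normalizer trivially. Then any two distinct Sylow p-subgroups of G, for any prime p, intersect trivially. -/
theorem result {G : Type*} [Group G] [Finite G] (hTI : ∀ x : G, Cfsg.IsTISubset (Subgroup.centralizer ({x} : Set G) : Set G))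
    {p : ℕ} [Fact p.Prime] (P Q : Sylow p G) (hPQ : P ≠ Q) : (P : Subgroup G) ⊓ (Q : Subgroup G) = ⊥ := by
  by_contra hne
  obtain ⟨d, hd, hd1⟩ : ∃ d, d ∈ (P : Subgroup G) ⊓ (Q : Subgroup G) ∧ d ≠ 1 := by
    by_contra hc
    push Not at hc
    exact hne ((Subgroup.eq_bot_iff_forall _).mpr hc)
  haveI : Nontrivial (P : Subgroup G) := ⟨⟨⟨d, hd.1⟩, 1, fun h => hd1 (congrArg Subtype.val h)⟩⟩
  haveI := P.2.center_nontrivial
  obtain ⟨⟨z, hzc⟩, hz1⟩ := exists_ne (1 : Subgroup.center (P : Subgroup G))
  have hz1' : (z : G) ≠ 1 := by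
    intro h
    apply hz1
    apply Subtype.ext; apply Subtype.ext
    exact h
  set C : Subgroup G := Subgroup.centralizer ({(z : G)} : Set G) with hC
  have hmemC : ∀ x : G, x ∈ C ↔ (z : G) * x = x * z := by
    intro x
    rw [hC, Subgroup.mem_centralizer_iff]
    constructor
    · intro h; exact h _ rfl
    · intro h y hy
      rw [Set.mem_singleton_iff] at hy; subst hy; exact h
  have hPC : (P : Subgroup G) ≤ C := by
    intro x hx
    rw [hmemC]
    have := (Subgroup.mem_center_iff.mp hzc) ⟨x, hx⟩
    exact (congrArg Subtype.val this).symm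
  -- elements of C commute with their C-conjugates
  have h3 : ∀ y ∈ C, ∀ c ∈ C, (c * y * c⁻¹) * y = y * (c * y * c⁻¹) := by
    intro y hy c hc
    have hcN : c ∈ Subgroup.normalizer (Subgroup.centralizer ({y} : Set G) : Set G) := by
      by_contra hcN
      have hz2 : (z : G) ∈ Subgroup.centralizer ({y} : Set G) := by
        rw [Subgroup.mem_centralizer_iff]
        intro h hh
        rw [Set.mem_singleton_iff] at hh; subst hh
        exact ((hmemC h).mp hy).symm
      have hcz : c * (z : G) * c⁻¹ = z := by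
        rw [← (hmemC c).mp hc]; group
      exact hz1' (hTI y c hcN z hz2 (by rw [hcz]; exact hz2))
    have hyy : y ∈ Subgroup.centralizer ({y} : Set G) := by
      rw [Subgroup.mem_centralizer_iff]
      intro h hh
      rw [Set.mem_singleton_iff] at hh; subst hh; rfl
    have := (Subgroup.mem_normalizer_iff.mp hcN y).mp hyy
    rw [Subgroup.mem_centralizer_iff] at this
    exact (this y rfl).symm
  -- Q ≤ C
  obtain ⟨g, hg⟩ := MulAction.exists_smul_eq G P Q
  have hmemQ : ∀ x : G, x ∈ (Q : Subgroup G) ↔ g⁻¹ * x * g ∈ (P : Subgroup G) := by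
    intro x
    rw [← hg]; exact Cfsg.Agent.Lib_helper6_Sylow.mem_smul_sylow P g x
  have hgN : g ∈ Subgroup.normalizer (C : Set G) := by
    by_contra hgN
    have h1 : g⁻¹ * d * g ∈ C := hPC ((hmemQ d).mp hd.2)
    have h2 : g * (g⁻¹ * d * g) * g⁻¹ ∈ C := by
      have : g * (g⁻¹ * d * g) * g⁻¹ = d := by group
      rw [this]; exact hPC hd.1
    have h3' := hTI z g hgN _ h1 h2
    apply hd1
    have : d = g * (g⁻¹ * d * g) * g⁻¹ := by group
    rw [this, h3']; group
  have hQC : (Q : Subgroup G) ≤ C := by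
    intro q hq
    have h1 : g⁻¹ * q * g ∈ C := hPC ((hmemQ q).mp hq)
    have h2 := (Subgroup.mem_normalizer_iff.mp hgN _).mp h1
    have : g * (g⁻¹ * q * g) * g⁻¹ = q := by group
    rwa [this] at h2
  -- Q ≤ P
  have hQP : (Q : Subgroup G) ≤ P := by
    intro q hq
    obtain ⟨k, hk⟩ := Cfsg.Agent.Lib_helper6_Sylow.pElem_of_mem_sylow Q hq
    set s : Set G := {x | ∃ c ∈ C, x = c * q * c⁻¹} with hs
    have hqC := hQC hq
    have hA : IsPGroup p (Subgroup.closure s) := by
      apply Cfsg.Agent.Lib_helper5_PAct.isPGroup_closure_of_commute'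
      · rintro x ⟨c, hc, rfl⟩ y ⟨c', hc', rfl⟩
        have h4 := h3 (c * q * c⁻¹) (C.mul_mem (C.mul_mem hc hqC) (C.inv_mem hc)) (c' * c⁻¹)
          (C.mul_mem hc' (C.inv_mem hc))
        have h5 : c' * c⁻¹ * (c * q * c⁻¹) * (c' * c⁻¹)⁻¹ = c' * q * c'⁻¹ := by group
        rw [h5] at h4
        exact h4.symm
      · rintro x ⟨c, hc, rfl⟩
        exact ⟨k, by rw [Cfsg.Agent.Lib_helper5_Basic.orderOf_conj', hk]⟩
    have hPA : (P : Subgroup G) ≤ Subgroup.normalizer ((Subgroup.closure s : Subgroup G) : Set G) := by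
      intro x hx
      apply Cfsg.Agent.Lib_helper1_Basic.mem_normalizer_of_conj_le
      intro m hm
      have hle : Subgroup.closure s ≤ (Subgroup.closure s).comap (MulAut.conj x).toMonoidHom := by
        rw [Subgroup.closure_le]
        rintro _ ⟨c, hc, rfl⟩
        rw [SetLike.mem_coe, Subgroup.mem_comap]
        apply Subgroup.subset_closure
        refine ⟨x * c, C.mul_mem (hPC hx) hc, ?_⟩
        simp only [MulEquiv.coe_toMonoidHom, MulAut.conj_apply]
        group
      have := hle hm
      rw [Subgroup.mem_comap] at this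
      simpa using this
    have hsup : IsPGroup p ((P : Subgroup G) ⊔ Subgroup.closure s : Subgroup G) :=
      IsPGroup.to_sup_of_normal_right' P.2 hA hPA
    have heq := P.is_maximal' hsup le_sup_left
    have hle : Subgroup.closure s ≤ (P : Subgroup G) := by
      calc Subgroup.closure s ≤ (P : Subgroup G) ⊔ Subgroup.closure s := le_sup_right
        _ = P := heq
    apply hle
    apply Subgroup.subset_closure
    exact ⟨1, C.one_mem, by group⟩
  apply hPQ
  have hcard : Nat.card P = Nat.card Q := by
    rw [Sylow.card_eq_multiplicity, Sylow.card_eq_multiplicity]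
  have : (Q : Subgroup G) = P := Subgroup.eq_of_le_of_card_ge hQP hcard.le
  exact (Sylow.ext this).symm

end Cfsg.Agent.S4066
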