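import Cfsg.Statements.S4072
import Cfsg.Agent.Lib_helper1_PGroup
import Cfsg.Agent.Lib_helper6_PEltCount
import Cfsg.Agent.Lib_helper7_CoprimeGen

set_option autoImplicit false
open Cfsg

namespace Cfsg.Agent.S4072

/-- every subgroup with a noncommuting pair is self-normalizing -/
def SN (G : Type*) [Group G] : Prop :=
  ∀ H : Subgroup G, (∃ x ∈ H, ∃ y ∈ H, x * y ≠ y * x) → Subgroup.normalizer (H : Set G) ≤ H

theorem mna {T : Type*} [Group T] [Finite T] {p : ℕ} [Fact p.Prime] (hT : IsPGroup p T)
    (hmin : ∀ H : Subgroup T, H ≠ ⊤ → ∀ x ∈ H, ∀ y ∈ H, x * y = y * x)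
    (a b : T) (hab : a * b ≠ b * a) :
    (a * b * a⁻¹ * b⁻¹) ^ p = 1 ∧
      ∀ g h : T, g * h * g⁻¹ * h⁻¹ ∈ Subgroup.zpowers (a * b * a⁻¹ * b⁻¹) := by
  obtain ⟨c, hc⟩ : ∃ c, c = a * b * a⁻¹ * b⁻¹ := ⟨_, rfl⟩
  rw [← hc]
  have hprop : ∀ x : T, Subgroup.zpowers x ⊔ frattini T ≠ ⊤ := by
    intro x htop
    have h1 : Subgroup.zpowers x = ⊤ := frattini_nongenerating htop
    apply hab
    have ha : a ∈ Subgroup.zpowers x := h1 ▸ Subgroup.mem_top a
    have hb : b ∈ Subgroup.zpowers x := h1 ▸ Subgroup.mem_top b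
    obtain ⟨i, hi⟩ := ha
    obtain ⟨j, hj⟩ := hb
    rw [← hi, ← hj]
    exact ((Commute.refl x).zpow_zpow i j).eq
  have hcF : c ∈ frattini T := by
    apply Cfsg.Agent.Lib_helper1_PGroup.commutator_le_frattini hT
    rw [hc]
    exact Subgroup.commutator_mem_commutator (Subgroup.mem_top a) (Subgroup.mem_top b)
  have hca : c * a = a * c :=
    hmin _ (hprop a) c (Subgroup.mem_sup_right hcF) a
      (Subgroup.mem_sup_left (Subgroup.mem_zpowers a))
  have hcb : c * b = b * c :=
    hmin _ (hprop b) c (Subgroup.mem_sup_right hcF) b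
      (Subgroup.mem_sup_left (Subgroup.mem_zpowers b))
  have hapb : a ^ p * b = b * a ^ p :=
    hmin _ (hprop b) (a ^ p)
      (Subgroup.mem_sup_right (Cfsg.Agent.Lib_helper1_PGroup.pow_p_mem_frattini hT a)) b
      (Subgroup.mem_sup_left (Subgroup.mem_zpowers b))
  have hrel : a * b = c * b * a := by rw [hc]; group
  have hpow : ∀ k : ℕ, a ^ k * b = c ^ k * b * a ^ k := by
    intro k
    induction k with
    | zero => simp
    | succ k ih =>
      have hck : a ^ k * c = c * a ^ k :=
        ((Commute.pow_right (show Commute c a from hca) k).eq).symm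
      calc a ^ (k + 1) * b = a ^ k * (a * b) := by rw [pow_succ, mul_assoc]
        _ = a ^ k * (c * b * a) := by rw [hrel]
        _ = (a ^ k * c) * b * a := by simp only [mul_assoc]
        _ = c * (a ^ k * b) * a := by rw [hck]; simp only [mul_assoc]
        _ = c * (c ^ k * b * a ^ k) * a := by rw [ih]
        _ = c ^ (k + 1) * b * a ^ (k + 1) := by
          rw [pow_succ' c k, pow_succ a k]; simp only [mul_assoc]
  constructor
  · have h2 := hpow p
    rw [hapb] at h2
    have h3 : c ^ p * (b * a ^ p) = 1 * (b * a ^ p) := by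
      rw [one_mul, ← mul_assoc]; exact h2.symm
    exact mul_right_cancel h3
  · have hcl : Subgroup.closure ({a, b} : Set T) = ⊤ := by
      by_contra hne
      exact hab (hmin _ hne a (Subgroup.subset_closure (by simp)) b
        (Subgroup.subset_closure (by simp)))
    have hcent : ∀ g : T, Commute c g := by
      intro g
      have hg : g ∈ Subgroup.closure ({a, b} : Set T) := hcl ▸ Subgroup.mem_top g
      induction hg using Subgroup.closure_induction with
      | mem x hx =>
        simp only [Set.mem_insert_iff, Set.mem_singleton_iff] at hx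
        rcases hx with hx | hx
        · rw [hx]; exact hca
        · rw [hx]; exact hcb
      | one => exact Commute.one_right c
      | mul x y _ _ hx hy => exact hx.mul_right hy
      | inv x _ hx => exact hx.inv_right
    haveI hn : (Subgroup.zpowers c).Normal := by
      constructor
      intro n hn g
      obtain ⟨i, hi⟩ := hn
      have h1 : g * c ^ i * g⁻¹ = c ^ i := by
        have h2 := ((hcent g).zpow_left i).eq
        rw [← h2]; group
      rw [← hi]
      show g * c ^ i * g⁻¹ ∈ Subgroup.zpowers c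
      rw [h1]; exact ⟨i, rfl⟩
    obtain ⟨π, hπ⟩ : ∃ π : T →* T ⧸ Subgroup.zpowers c, π = QuotientGroup.mk' (Subgroup.zpowers c) :=
      ⟨_, rfl⟩
    have hker : ∀ t : T, π t = 1 → t ∈ Subgroup.zpowers c := by
      intro t ht
      rw [hπ] at ht
      exact (QuotientGroup.eq_one_iff t).mp ht
    have hπab : Commute (π a) (π b) := by
      have h1 : (b * a)⁻¹ * (a * b) = c := by
        rw [hrel, mul_assoc c b a, (hcent (b * a)).eq, inv_mul_cancel_left]
      have h2 : π (b * a) = π (a * b) := by
        rw [hπ]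
        exact QuotientGroup.eq.mpr (h1 ▸ Subgroup.mem_zpowers c)
      show π a * π b = π b * π a
      rw [← map_mul, ← map_mul, h2]
    have h1 : ∀ g : T, Commute (π g) (π a) ∧ Commute (π g) (π b) := by
      intro g
      have hg : g ∈ Subgroup.closure ({a, b} : Set T) := hcl ▸ Subgroup.mem_top g
      induction hg using Subgroup.closure_induction with
      | mem x hx =>
        simp only [Set.mem_insert_iff, Set.mem_singleton_iff] at hx
        rcases hx with hx | hx
        · rw [hx]; exact ⟨Commute.refl _, hπab⟩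
        · rw [hx]; exact ⟨hπab.symm, Commute.refl _⟩
      | one => rw [map_one]; exact ⟨Commute.one_left _, Commute.one_left _⟩
      | mul x y _ _ hx hy =>
        rw [map_mul]; exact ⟨hx.1.mul_left hy.1, hx.2.mul_left hy.2⟩
      | inv x _ hx => rw [map_inv]; exact ⟨hx.1.inv_left, hx.2.inv_left⟩
    have h2 : ∀ g h : T, Commute (π g) (π h) := by
      intro g h
      have hh : h ∈ Subgroup.closure ({a, b} : Set T) := hcl ▸ Subgroup.mem_top h
      induction hh using Subgroup.closure_induction with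
      | mem x hx =>
        simp only [Set.mem_insert_iff, Set.mem_singleton_iff] at hx
        rcases hx with hx | hx
        · rw [hx]; exact (h1 g).1
        · rw [hx]; exact (h1 g).2
      | one => rw [map_one]; exact Commute.one_right _
      | mul x y _ _ hx hy => rw [map_mul]; exact hx.mul_right hy
      | inv x _ hx => rw [map_inv]; exact hx.inv_right
    intro g h
    apply hker
    simp only [map_mul, map_inv]
    rw [(h2 g h).eq]
    group

theorem burnside_contra {Q : Type*} [Group Q] [Finite Q] [hQ : IsSimpleGroup Q]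
    (hns : ¬ Group.IsSolvable Q) {p : ℕ} [Fact p.Prime] (P : Sylow p Q)
    (hne : (P : Subgroup Q) ≠ ⊥)
    (hcomm : ∀ x ∈ (P : Subgroup Q), ∀ y ∈ (P : Subgroup Q), x * y = y * x)
    (hnorm : Subgroup.normalizer ((P : Subgroup Q) : Set Q) ≤ P) : False := by
  have hP : Subgroup.normalizer ((P : Subgroup Q) : Set Q) ≤
      Subgroup.centralizer ((P : Subgroup Q) : Set Q) := by
    intro g hg
    have hgP := hnorm hg
    rw [Subgroup.mem_centralizer_iff]
    intro y hy
    exact hcomm y hy g hgP
  have hcompl := MonoidHom.ker_transferSylow_isComplement' P hP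
  have hK : (MonoidHom.transferSylow P hP).ker.Normal := inferInstance
  rcases hQ.eq_bot_or_eq_top_of_normal _ hK with h | h
  · rw [h] at hcompl
    have hPtop : (P : Subgroup Q) = ⊤ := Subgroup.isComplement'_bot_left.mp hcompl
    apply hns
    apply Group.isSolvable_of_comm
    intro x y
    exact hcomm x (hPtop ▸ Subgroup.mem_top x) y (hPtop ▸ Subgroup.mem_top y)
  · rw [h] at hcompl
    exact hne (Subgroup.isComplement'_top_left.mp hcompl)

theorem solvable_of_comm_normal {G : Type*} [Group G] (N : Subgroup G) [N.Normal]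
    (hN : ∀ x ∈ N, ∀ y ∈ N, x * y = y * x) (hq : Group.IsSolvable (G ⧸ N)) : Group.IsSolvable G := by
  haveI : Group.IsSolvable N := Group.isSolvable_of_comm (fun a b => Subtype.ext (hN a.1 a.2 b.1 b.2))
  exact Group.isSolvable_of_ker_le_range N.subtype (QuotientGroup.mk' N)
    (le_of_eq (by rw [QuotientGroup.ker_mk', Subgroup.range_subtype]))

/-- normalizers in the quotient -/
theorem normalizer_map_le {G : Type*} [Group G] (N : Subgroup G) [N.Normal] (hS : SN G)
    (H : Subgroup G) (hH : ∃ x ∈ H ⊔ N, ∃ y ∈ H ⊔ N, x * y ≠ y * x) :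
    Subgroup.normalizer ((H.map (QuotientGroup.mk' N) : Subgroup (G ⧸ N)) : Set (G ⧸ N)) ≤
      H.map (QuotientGroup.mk' N) := by
  have hmem : ∀ h : G, h ∈ H ⊔ N ↔ QuotientGroup.mk' N h ∈ H.map (QuotientGroup.mk' N) := by
    intro h
    rw [← Subgroup.mem_comap, Subgroup.comap_map_eq, QuotientGroup.ker_mk']
  intro gb hgb
  obtain ⟨g, rfl⟩ := QuotientGroup.mk'_surjective N gb
  have hg : g ∈ Subgroup.normalizer ((H ⊔ N : Subgroup G) : Set G) := by
    rw [Subgroup.mem_normalizer_iff]
    intro h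
    rw [hmem, hmem, map_mul, map_mul, map_inv]
    exact (Subgroup.mem_normalizer_iff.mp hgb) _
  exact (hmem g).mp (hS _ hH hg)

theorem quot_prop {G : Type*} [Group G] (N : Subgroup G) [N.Normal] (hS : SN G) :
    SN (G ⧸ N) := by
  intro Hb hHb
  obtain ⟨xb, hxb, yb, hyb, hxy⟩ := hHb
  obtain ⟨x, rfl⟩ := QuotientGroup.mk'_surjective N xb
  obtain ⟨y, rfl⟩ := QuotientGroup.mk'_surjective N yb
  have hmap : (Hb.comap (QuotientGroup.mk' N)).map (QuotientGroup.mk' N) = Hb :=
    Subgroup.map_comap_eq_self_of_surjective (QuotientGroup.mk'_surjective N) Hb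
  have h1 := normalizer_map_le N hS (Hb.comap (QuotientGroup.mk' N))
    ⟨x, Subgroup.mem_sup_left (Subgroup.mem_comap.mpr hxb), y,
      Subgroup.mem_sup_left (Subgroup.mem_comap.mpr hyb), fun h => hxy (by
        rw [← map_mul, ← map_mul, h])⟩
  rw [hmap] at h1
  exact h1

theorem main.{u} : ∀ (n : ℕ) (G : Type u) [Group G] [Finite G], Nat.card G = n → SN G →
    Group.IsSolvable G ∨ IsSimpleGroup G := by
  intro n
  induction n using Nat.strong_induction_on with
  | _ n ih =>
  intro G _ _ hn hS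
  by_cases hsimp : IsSimpleGroup G
  · exact Or.inr hsimp
  left
  by_cases htriv : Subsingleton G
  · exact Group.isSolvable_of_comm (fun a b => Subsingleton.elim _ _)
  haveI : Nontrivial G := not_subsingleton_iff_nontrivial.mp htriv
  have hex : ∃ N : Subgroup G, N.Normal ∧ N ≠ ⊥ ∧ N ≠ ⊤ := by
    by_contra hno
    apply hsimp
    refine ⟨fun H hH => ?_⟩
    by_contra h2
    rw [not_or] at h2
    exact hno ⟨H, hH, h2.1, h2.2⟩
  obtain ⟨N, hNn, hNbot, hNtop⟩ := hex
  haveI := hNn
  have hnormal_top : ∀ K : Subgroup G, K.Normal → (∃ x ∈ K, ∃ y ∈ K, x * y ≠ y * x) →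
      K = ⊤ := by
    intro K hK hpair
    have h1 := hS K hpair
    rw [eq_top_iff]
    intro g _
    apply h1
    rw [Subgroup.normalizer_eq_top_iff.mpr hK]
    exact Subgroup.mem_top g
  have hNab : ∀ x ∈ N, ∀ y ∈ N, x * y = y * x := by
    intro x hx y hy
    by_contra hxy
    exact hNtop (hnormal_top N hNn ⟨x, hx, y, hy, hxy⟩)
  by_contra hGns
  have hSq : SN (G ⧸ N) := quot_prop N hS
  have hcardq : Nat.card (G ⧸ N) < n := by
    have h1 := Subgroup.card_eq_card_quotient_mul_card_subgroup N
    have h2 : 1 < Nat.card N := by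
      have h4 := Nat.card_pos (α := N)
      have h5 : Nat.card N ≠ 1 := fun h => hNbot (Subgroup.eq_bot_of_card_eq N h)
      omega
    have h3 : 0 < Nat.card (G ⧸ N) := Nat.card_pos
    rw [← hn, h1]
    nlinarith
  have hq := ih _ hcardq (G ⧸ N) rfl hSq
  have hqns : ¬ Group.IsSolvable (G ⧸ N) := fun h => hGns (solvable_of_comm_normal N hNab h)
  haveI hqs : IsSimpleGroup (G ⧸ N) := hq.resolve_left hqns
  have hperf : commutator G = ⊤ := by
    by_contra hne
    have hcab : ∀ x ∈ commutator G, ∀ y ∈ commutator G, x * y = y * x := by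
      intro x hx y hy
      by_contra hxy
      exact hne (hnormal_top _ inferInstance ⟨x, hx, y, hy, hxy⟩)
    apply hGns
    have hsolv : Group.IsSolvable (G ⧸ commutator G) :=
      Group.isSolvable_of_comm (G := Abelianization G) (fun a b => mul_comm a b)
    exact solvable_of_comm_normal (commutator G) hcab hsolv
  obtain ⟨π, hπ⟩ : ∃ π : G →* G ⧸ N, π = QuotientGroup.mk' N := ⟨_, rfl⟩
  have hπs : Function.Surjective π := hπ ▸ QuotientGroup.mk'_surjective N
  have hπker : ∀ g : G, π g = 1 ↔ g ∈ N := by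
    intro g; rw [hπ]; exact QuotientGroup.eq_one_iff g
  have hNcent : ∀ n ∈ N, ∀ g : G, g * n = n * g := by
    have hCn : (Subgroup.centralizer (N : Set G)).Normal := Subgroup.normal_centralizer
    have hCmap : ((Subgroup.centralizer (N : Set G)).map π).Normal :=
      Subgroup.Normal.map hCn π hπs
    rcases hqs.eq_bot_or_eq_top_of_normal _ hCmap with hbot | htop
    · exfalso
      have hCN : ∀ g : G, (∀ n ∈ N, n * g = g * n) → g ∈ N := by
        intro g hg
        have h1 : π g ∈ (Subgroup.centralizer (N : Set G)).map π :=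
          Subgroup.mem_map_of_mem π (Subgroup.mem_centralizer_iff.mpr hg)
        rw [hbot, Subgroup.mem_bot] at h1
        exact (hπker g).mp h1
      have hcyc : ∀ x : G, x ∉ N →
          Subgroup.normalizer ((Subgroup.zpowers (π x) : Subgroup (G ⧸ N)) : Set (G ⧸ N)) ≤
            Subgroup.zpowers (π x) := by
        intro x hx
        have hpair : ∃ u ∈ Subgroup.zpowers x ⊔ N, ∃ v ∈ Subgroup.zpowers x ⊔ N,
            u * v ≠ v * u := by
          by_contra hno
          apply hx
          apply hCN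
          intro n hn
          by_contra hne
          exact hno ⟨n, Subgroup.mem_sup_right hn, x,
            Subgroup.mem_sup_left (Subgroup.mem_zpowers x), hne⟩
        have h1 := normalizer_map_le N hS (Subgroup.zpowers x) hpair
        rw [← hπ, MonoidHom.map_zpowers] at h1
        exact h1
      have hcard1 : Nat.card (G ⧸ N) ≠ 1 := by
        intro h1
        have : Subsingleton (G ⧸ N) := (Nat.card_eq_one_iff_unique.mp h1).1
        exact not_subsingleton (G ⧸ N) this
      obtain ⟨p, hp, hpd⟩ := Nat.exists_prime_and_dvd hcard1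
      haveI : Fact p.Prime := ⟨hp⟩
      obtain ⟨P⟩ : Nonempty (Sylow p (G ⧸ N)) := inferInstance
      have hPne : (P : Subgroup (G ⧸ N)) ≠ ⊥ := P.ne_bot_of_dvd_card hpd
      haveI : Nontrivial (P : Subgroup (G ⧸ N)) := (Subgroup.nontrivial_iff_ne_bot _).mpr hPne
      haveI := P.isPGroup'.center_nontrivial
      obtain ⟨zc, hzc⟩ := exists_ne (1 : Subgroup.center (P : Subgroup (G ⧸ N)))
      obtain ⟨xb, hxb⟩ : ∃ xb : G ⧸ N, xb = ((zc : (P : Subgroup (G ⧸ N))) : G ⧸ N) := ⟨_, rfl⟩
      have hxbP : xb ∈ (P : Subgroup (G ⧸ N)) := hxb ▸ (zc : (P : Subgroup (G ⧸ N))).2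
      have hxb1 : xb ≠ 1 := by
        intro h1
        apply hzc
        apply Subtype.ext
        apply Subtype.ext
        rw [← hxb]; exact h1
      have hxbc : ∀ y ∈ (P : Subgroup (G ⧸ N)), y * xb = xb * y := by
        intro y hy
        have h1 := (Subgroup.mem_center_iff.mp zc.2) ⟨y, hy⟩
        have h2 := congrArg Subtype.val h1
        rw [hxb]; exact h2
      obtain ⟨x, hx⟩ := hπs xb
      have hxN : x ∉ N := fun h => hxb1 (hx ▸ (hπker x).mpr h)
      have hself := hcyc x hxN
      rw [hx] at hself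
      have hPle : ∀ y ∈ (P : Subgroup (G ⧸ N)), y ∈ Subgroup.zpowers xb := by
        intro y hy
        apply hself
        apply Subgroup.centralizer_le_normalizer
        rw [Subgroup.mem_centralizer_iff]
        intro h hh
        obtain ⟨i, hi⟩ := hh
        rw [← hi]
        exact ((Commute.zpow_left (show Commute xb y from (hxbc y hy).symm) i).eq)
      have hPeq : (P : Subgroup (G ⧸ N)) = Subgroup.zpowers xb :=
        le_antisymm hPle ((Subgroup.zpowers_le).mpr hxbP)
      apply burnside_contra hqns P hPne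
      · intro u hu v hv
        obtain ⟨i, hi⟩ := hPle u hu
        obtain ⟨j, hj⟩ := hPle v hv
        rw [← hi, ← hj]
        exact ((Commute.refl xb).zpow_zpow i j).eq
      · rw [hPeq]; exact hself
    · intro n hn g
      have h1 : π g ∈ (Subgroup.centralizer (N : Set G)).map π := htop ▸ Subgroup.mem_top _
      obtain ⟨c, hc, hcg⟩ := Subgroup.mem_map.mp h1
      have h2 : c⁻¹ * g ∈ N := by
        rw [← hπker, map_mul, map_inv, hcg, inv_mul_cancel]
      have h3 : n * c = c * n := (Subgroup.mem_centralizer_iff.mp hc) n hn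
      have h4 : (c⁻¹ * g) * n = n * (c⁻¹ * g) := hNab _ h2 n hn
      calc g * n = c * ((c⁻¹ * g) * n) := by group
        _ = c * (n * (c⁻¹ * g)) := by rw [h4]
        _ = (c * n) * (c⁻¹ * g) := by group
        _ = (n * c) * (c⁻¹ * g) := by rw [h3]
        _ = n * g := by group
  have hcardN : Nat.card N ≠ 1 := fun h => hNbot (Subgroup.eq_bot_of_card_eq N h)
  obtain ⟨p, hp, hpd⟩ := Nat.exists_prime_and_dvd hcardN
  haveI : Fact p.Prime := ⟨hp⟩
  obtain ⟨zN, hzN⟩ := exists_prime_orderOf_dvd_card' (G := N) p hpd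
  obtain ⟨z, hz⟩ : ∃ z : G, z = (zN : G) := ⟨_, rfl⟩
  have hzmem : z ∈ N := hz ▸ zN.2
  have hzord : orderOf z = p := by rw [hz, Subgroup.orderOf_coe]; exact hzN
  have hz1 : z ≠ 1 := by
    intro h; rw [h, orderOf_one] at hzord; exact hp.one_lt.ne hzord
  have hzp : IsPGroup p (Subgroup.zpowers z) := by
    apply IsPGroup.of_card (n := 1)
    rw [Nat.card_zpowers, hzord, pow_one]
  obtain ⟨S, hSz⟩ := hzp.exists_le_sylow
  have hzS : z ∈ (S : Subgroup G) := hSz (Subgroup.mem_zpowers z)
  have key : ∀ (k : ℕ) (g₀ : G), g₀⁻¹ * z ^ k * g₀ ∈ (S : Subgroup G) →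
      g₀⁻¹ * z ^ k * g₀ = z ^ k := by
    intro k g₀ _
    have h1 : g₀ * z ^ k = z ^ k * g₀ := hNcent (z ^ k) (N.pow_mem hzmem k) g₀
    rw [mul_assoc, ← h1, inv_mul_cancel_left]
  have hT := MonoidHom.transfer_eq_pow
    (Abelianization.of : (S : Subgroup G) →* Abelianization (S : Subgroup G)) z key
  have hT1 : MonoidHom.transfer
      (Abelianization.of : (S : Subgroup G) →* Abelianization (S : Subgroup G)) z = 1 := by
    have h1 := Abelianization.commutator_subset_ker (MonoidHom.transfer
      (Abelianization.of : (S : Subgroup G) →* Abelianization (S : Subgroup G)))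
    rw [hperf] at h1
    exact MonoidHom.mem_ker.mp (h1 (Subgroup.mem_top z))
  rw [hT1] at hT
  obtain ⟨zS, hzSdef⟩ : ∃ zS : (S : Subgroup G), zS = ⟨z, hzS⟩ := ⟨_, rfl⟩
  have hzScomm : zS ∈ commutator (S : Subgroup G) := by
    apply Cfsg.Agent.Lib_helper7_CoprimeGen.mem_of_pow_mem _ zS (S : Subgroup G).index
    · have h1 : orderOf zS = p := by
        rw [hzSdef, Subgroup.orderOf_mk]; exact hzord
      rw [h1]
      exact ((Nat.Prime.coprime_iff_not_dvd hp).mpr S.not_dvd_index).symm
    · rw [← Abelianization.ker_of, MonoidHom.mem_ker, hzSdef]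
      exact hT.symm
  have hSnc : ∃ a ∈ (S : Subgroup G), ∃ b ∈ (S : Subgroup G), a * b ≠ b * a := by
    by_contra hno
    have hall : ∀ a ∈ (S : Subgroup G), ∀ b ∈ (S : Subgroup G), a * b = b * a := by
      intro a ha b hb
      by_contra hne
      exact hno ⟨a, ha, b, hb, hne⟩
    have hbot : commutator (S : Subgroup G) = ⊥ := by
      rw [eq_bot_iff, commutator_def, Subgroup.commutator_le]
      intro g₁ _ g₂ _
      rw [Subgroup.mem_bot, commutatorElement_eq_one_iff_mul_comm]
      exact Subtype.ext (hall g₁.1 g₁.2 g₂.1 g₂.2)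
    rw [hbot, Subgroup.mem_bot] at hzScomm
    apply hz1
    have h1 := congrArg Subtype.val hzScomm
    rw [hzSdef] at h1
    exact h1
  have hmin : ∀ H : Subgroup (S : Subgroup G), H ≠ ⊤ → ∀ x ∈ H, ∀ y ∈ H, x * y = y * x := by
    intro H hH x hx y hy
    by_contra hxy
    have hle : H.map (S : Subgroup G).subtype ≤ (S : Subgroup G) := by
      rintro _ ⟨w, _, rfl⟩
      exact w.2
    have hne : H.map (S : Subgroup G).subtype ≠ (S : Subgroup G) := by
      intro heq
      apply hH
      rw [eq_top_iff]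
      intro w _
      have hw : (w : G) ∈ H.map (S : Subgroup G).subtype := by rw [heq]; exact w.2
      obtain ⟨w', hw', hww⟩ := hw
      have h1 : w' = w := Subtype.ext hww
      exact h1 ▸ hw'
    obtain ⟨g, hgS, hgn, hgH⟩ := Cfsg.Agent.Lib_helper6_PEltCount.exists_mem_normalizer_not_mem p
      (S : Subgroup G) (H.map (S : Subgroup G).subtype) S.isPGroup' hle hne
    apply hgH
    apply hS _ ⟨(x : G), Subgroup.mem_map_of_mem _ hx, (y : G), Subgroup.mem_map_of_mem _ hy, ?_⟩
      hgn
    intro h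
    exact hxy (Subtype.ext h)
  have hcommN : ∀ a ∈ (S : Subgroup G), ∀ b ∈ (S : Subgroup G), a * b * a⁻¹ * b⁻¹ ∈ N := by
    intro a ha b hb
    by_cases hab : a * b = b * a
    · have h1 : a * b * a⁻¹ * b⁻¹ = 1 := by rw [hab]; group
      rw [h1]; exact N.one_mem
    · have habS : (⟨a, ha⟩ : (S : Subgroup G)) * ⟨b, hb⟩ ≠ ⟨b, hb⟩ * ⟨a, ha⟩ := by
        intro h; exact hab (congrArg Subtype.val h)
      obtain ⟨hcp, hcz⟩ := mna S.isPGroup' hmin ⟨a, ha⟩ ⟨b, hb⟩ habS
      obtain ⟨c, hc⟩ : ∃ c : (S : Subgroup G),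
          c = ⟨a, ha⟩ * ⟨b, hb⟩ * (⟨a, ha⟩)⁻¹ * (⟨b, hb⟩)⁻¹ := ⟨_, rfl⟩
      rw [← hc] at hcp hcz
      have hcomm_le : commutator (S : Subgroup G) ≤ Subgroup.zpowers c := by
        rw [commutator_def, Subgroup.commutator_le]
        intro g₁ _ g₂ _
        exact hcz g₁ g₂
      have hzSc : zS ∈ Subgroup.zpowers c := hcomm_le hzScomm
      have hc1 : c ≠ 1 := by
        intro h1
        apply habS
        rw [hc] at h1
        have h2 := mul_inv_eq_one.mp h1
        exact mul_inv_eq_iff_eq_mul.mp h2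
      have hcord : orderOf c = p := orderOf_eq_prime hcp hc1
      have hcardc : Nat.card (Subgroup.zpowers c) = p := by rw [Nat.card_zpowers, hcord]
      have hzS1 : zS ≠ 1 := by
        intro h1; apply hz1
        have h2 := congrArg Subtype.val h1
        rw [hzSdef] at h2; exact h2
      have hgen := mem_zpowers_of_prime_card hcardc (g := (⟨zS, hzSc⟩ : Subgroup.zpowers c))
        (g' := ⟨c, Subgroup.mem_zpowers c⟩) (fun h => hzS1 (congrArg Subtype.val h))
      obtain ⟨k, hk⟩ := hgen
      have hk1 : zS ^ k = c := congrArg Subtype.val hk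
      have hk2 : z ^ k = a * b * a⁻¹ * b⁻¹ := by
        have h3 := congrArg Subtype.val hk1
        rw [hzSdef, hc] at h3
        exact h3
      rw [← hk2]
      exact N.zpow_mem hzmem k
  obtain ⟨Sb, hSb⟩ : ∃ Sb : Sylow p (G ⧸ N), (Sb : Subgroup (G ⧸ N)) = (S : Subgroup G).map π :=
    ⟨S.mapSurjective hπs, rfl⟩
  apply burnside_contra hqns Sb
  · rw [hSb]
    intro hbot
    obtain ⟨a, ha, b, hb, hab⟩ := hSnc
    apply hab
    have haN : a ∈ N := (hπker a).mp (by
      have h1 : π a ∈ (S : Subgroup G).map π := Subgroup.mem_map_of_mem π ha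
      rw [hbot, Subgroup.mem_bot] at h1; exact h1)
    have hbN : b ∈ N := (hπker b).mp (by
      have h1 : π b ∈ (S : Subgroup G).map π := Subgroup.mem_map_of_mem π hb
      rw [hbot, Subgroup.mem_bot] at h1; exact h1)
    exact hNab a haN b hbN
  · rw [hSb]
    rintro _ ⟨a, ha, rfl⟩ _ ⟨b, hb, rfl⟩
    have h1 : π (a * b * a⁻¹ * b⁻¹) = 1 := (hπker _).mpr (hcommN a ha b hb)
    simp only [map_mul, map_inv] at h1
    have h2 := mul_inv_eq_one.mp h1
    exact mul_inv_eq_iff_eq_mul.mp h2
  · rw [hSb, hπ]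
    apply normalizer_map_le N hS (S : Subgroup G)
    obtain ⟨a, ha, b, hb, hab⟩ := hSnc
    exact ⟨a, Subgroup.mem_sup_left ha, b, Subgroup.mem_sup_left hb, hab⟩


/-- A finite group in which every non-abelian subgroup is self-normalizing is solvable or simple. -/
theorem result {G : Type*} [Group G] [Finite G] (hS : ∀ H : Subgroup G, ¬ IsMulCommutative H → Subgroup.normalizer (H : Set G) = H) :
    Group.IsSolvable G ∨ IsSimpleGroup G := by
  apply main _ G rfl
  intro H hH
  have hnc : ¬ IsMulCommutative H := by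
    intro hc
    obtain ⟨x, hx, y, hy, hxy⟩ := hH
    exact hxy (congrArg Subtype.val (mul_comm' (⟨x, hx⟩ : H) ⟨y, hy⟩))
  exact (hS H hnc).le

end Cfsg.Agent.S4072
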