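import Cfsg.Statements.S4074
import Cfsg.Agent.Lib_helper2_DihGrp

set_option autoImplicit false
open Cfsg

namespace Cfsg.Agent.S4074

open Cfsg.Agent.Lib_helper2_DihGrp

/-- For n > 2, every non-abelian subgroup of the dihedral group of order 2n is self-normalizing if and only if n = 4 or n is odd. -/
theorem result (n : ℕ) (hn : 2 < n) :
    (∀ H : Subgroup (DihedralGroup n), ¬ IsMulCommutative H → Subgroup.normalizer (H : Set (DihedralGroup n)) = H) ↔
    (n = 4 ∨ Odd n) := by
  exact S4074_main n hn

end Cfsg.Agent.S4074
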