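import Cfsg.Statements.S4075
import Cfsg.Agent.Lib_helper5_Fitting

set_option autoImplicit false
open Cfsg

namespace Cfsg.Agent.S4075

/-- Let G be a finite nilpotent group. Every non-abelian subgroup of G is self-normalizing if and only if G is abelian or G is a minimal non-abelian p-group for some prime p (non-abelian of prime-power order with every proper subgroup abelian). -/
theorem result {G : Type*} [Group G] [Finite G]
    [Group.IsNilpotent G] :
    (∀ H : Subgroup G, ¬ IsMulCommutative H → Subgroup.normalizer (H : Set G) = H) ↔
    (IsMulCommutative G ∨ (IsPrimePow (Nat.card G) ∧ ¬ IsMulCommutative G ∧ ∀ H : Subgroup G, H ≠ ⊤ → IsMulCommutative H)) := by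
  constructor
  · intro h
    by_cases hab : IsMulCommutative G
    · exact Or.inl hab
    right
    have hnc : NormalizerCondition G := Group.normalizerCondition_of_isNilpotent
    have hprop : ∀ H : Subgroup G, H ≠ ⊤ → IsMulCommutative H := by
      intro H hH
      by_contra hna
      have h1 := h H hna
      have h2 := hnc H (lt_top_iff_ne_top.mpr hH)
      rw [h1] at h2
      exact lt_irrefl _ h2
    refine ⟨?_, hab, hprop⟩
    by_contra hpp
    apply hab
    have hsyl : ∀ (p : ℕ) [Fact p.Prime] (P : Sylow p G), (P : Subgroup G) ≠ ⊤ := by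
      intro p hp P hP
      apply hpp
      have hk := P.card_eq_multiplicity
      have hc : Nat.card G = p ^ (Nat.card G).factorization p := by
        rw [← hk]
        have : Nat.card (P : Subgroup G) = Nat.card (⊤ : Subgroup G) := by rw [hP]
        rw [this, Subgroup.card_top]
      rw [isPrimePow_nat_iff]
      refine ⟨p, (Nat.card G).factorization p, hp.out, ?_, hc.symm⟩
      rcases Nat.eq_zero_or_pos ((Nat.card G).factorization p) with h0 | h0
      · exfalso
        rw [h0, pow_zero] at hc
        haveI : Subsingleton G := (Nat.card_eq_one_iff_unique.mp hc).1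
        exact hab ⟨⟨fun a b => Subsingleton.elim _ _⟩⟩
      · exact h0
    have hcomm : ∀ (p q : Nat.Primes) (P : Sylow (p : ℕ) G) (Q : Sylow (q : ℕ) G),
        ∀ x ∈ (P : Subgroup G), ∀ y ∈ (Q : Subgroup G), x * y = y * x := by
      intro p q P Q x hx y hy
      haveI : Fact (p : ℕ).Prime := ⟨p.2⟩
      haveI : Fact (q : ℕ).Prime := ⟨q.2⟩
      haveI hPn : (P : Subgroup G).Normal := Sylow.normal_of_normalizerCondition hnc P
      haveI hQn : (Q : Subgroup G).Normal := Sylow.normal_of_normalizerCondition hnc Q
      by_cases hpq : p = q
      · subst hpq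
        haveI : Subsingleton (Sylow (p : ℕ) G) := (Sylow.unique_of_normal P hPn).instSubsingleton
        have hQP : Q = P := Subsingleton.elim _ _
        rw [hQP] at hy
        have hc := hprop P (hsyl p P)
        exact congrArg Subtype.val (hc.is_comm.comm (⟨x, hx⟩ : (P : Subgroup G)) ⟨y, hy⟩)
      · have hne : (p : ℕ) ≠ q := fun h => hpq (Subtype.ext h)
        have hdis : Disjoint (P : Subgroup G) (Q : Subgroup G) :=
          IsPGroup.disjoint_of_ne (p : ℕ) (q : ℕ) hne _ _ P.2 Q.2
        exact Subgroup.commute_of_normal_of_disjoint _ _ hPn hQn hdis x y hx hy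
    have hall : ∀ x y : G, x * y = y * x := by
      have hcent : ∀ (p : Nat.Primes) (P : Sylow (p : ℕ) G), ∀ x ∈ (P : Subgroup G),
          Subgroup.centralizer ({x} : Set G) = ⊤ := by
        intro p P x hx
        rw [eq_top_iff, ← Cfsg.Agent.Lib_helper5_Fitting.iSup_sylow_eq_top]
        apply iSup_le; intro q; apply iSup_le; intro Q
        intro y hy
        rw [Subgroup.mem_centralizer_iff]
        intro z hz
        rw [Set.mem_singleton_iff] at hz
        subst hz
        exact hcomm p q P Q z hx y hy
      have hcenter : Subgroup.center G = ⊤ := by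
        rw [eq_top_iff, ← Cfsg.Agent.Lib_helper5_Fitting.iSup_sylow_eq_top]
        apply iSup_le; intro p; apply iSup_le; intro P
        intro x hx
        rw [Subgroup.mem_center_iff]
        intro g
        have hg : g ∈ Subgroup.centralizer ({x} : Set G) := by
          rw [hcent p P x hx]; trivial
        rw [Subgroup.mem_centralizer_iff] at hg
        exact (hg x rfl).symm
      intro x y
      have hx : x ∈ Subgroup.center G := by rw [hcenter]; trivial
      exact ((Subgroup.mem_center_iff.mp hx) y).symm
    exact ⟨⟨hall⟩⟩
  · rintro (hab | ⟨hpp, hna, hprop⟩) H hH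
    · exfalso
      apply hH
      exact ⟨⟨fun a b => Subtype.ext (hab.is_comm.comm a.1 b.1)⟩⟩
    · have : H = ⊤ := by
        by_contra hne
        exact hH (hprop H hne)
      rw [this]
      exact Subgroup.normalizer_eq_top_iff.mpr inferInstance

end Cfsg.Agent.S4075
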