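import Cfsg.Statements.S4080
import Cfsg.Agent.Lib_helper2_Zp2

set_option autoImplicit false
open Cfsg

namespace Cfsg.Agent.S4080

open Cfsg.Agent.Lib_helper2_Zp2

/-- Let p > 3 be a prime and L the direct product of two cyclic groups of order p². Every automorphism of L of order p fixes every element of order p of L. -/
theorem result {p : ℕ} [Fact p.Prime] (hp : 3 < p)
    (a : MulAut (Multiplicative (ZMod (p ^ 2) × ZMod (p ^ 2)))) (ha : orderOf a = p)
    (x : Multiplicative (ZMod (p ^ 2) × ZMod (p ^ 2))) (hx : orderOf x = p) : a x = x := by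
  exact S4080_main hp a ha x hx

end Cfsg.Agent.S4080
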