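import Cfsg.Statements.S4084
import Mathlib

set_option autoImplicit false
open Cfsg

namespace Cfsg.Agent.S4084

theorem aux {G H : Type*} [Group G] [Finite G] [Group H] [Finite H] (e : G ≃ H)
    (he : ∀ x y : G, Commute x y ↔ Commute (e x) (e y))
    {p q : ℕ} (hp : p.Prime) (hq : q.Prime) (hpq : p ≠ q) :
    (∃ g : G, orderOf g = p * q) → (∃ h : H, orderOf h = p * q) := by
  rintro ⟨g, hg⟩
  set C := Subgroup.centralizer ({g} : Set G) with hC
  set D := C ⊓ Subgroup.centralizer (C : Set G) with hD
  set C' := Subgroup.centralizer ({e g} : Set H) with hC'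
  set D' := C' ⊓ Subgroup.centralizer (C' : Set H) with hD'
  have memC : ∀ x : G, x ∈ C ↔ Commute g x := by
    intro x
    rw [hC, Subgroup.mem_centralizer_iff]
    simp only [Set.mem_singleton_iff, forall_eq]
    rfl
  have memC' : ∀ y : H, y ∈ C' ↔ Commute (e g) y := by
    intro y
    rw [hC', Subgroup.mem_centralizer_iff]
    simp only [Set.mem_singleton_iff, forall_eq]
    rfl
  have hCC' : ∀ x : G, x ∈ C ↔ e x ∈ C' := by
    intro x
    rw [memC, memC', he]
  have memD : ∀ x : G, x ∈ D ↔ e x ∈ D' := by
    intro x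
    rw [hD, hD', Subgroup.mem_inf, Subgroup.mem_inf, hCC' x]
    apply and_congr_right
    intro _
    rw [Subgroup.mem_centralizer_iff, Subgroup.mem_centralizer_iff]
    constructor
    · intro h c' hc'
      obtain ⟨c, rfl⟩ := e.surjective c'
      have : Commute c x := h c ((hCC' c).mpr hc')
      exact (he c x).mp this
    · intro h c hc
      have : Commute (e c) (e x) := h (e c) ((hCC' c).mp hc)
      exact (he c x).mpr this
  have hcard : Nat.card D = Nat.card D' := by
    apply Nat.card_congr
    exact e.subtypeEquiv memD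
  have hgD : g ∈ D := by
    rw [hD, Subgroup.mem_inf]
    refine ⟨(memC g).mpr (Commute.refl g), ?_⟩
    rw [Subgroup.mem_centralizer_iff]
    intro c hc
    exact ((memC c).mp hc).symm
  have hdvd : p * q ∣ Nat.card D' := by
    rw [← hcard, ← hg]
    exact Subgroup.orderOf_dvd_natCard D hgD
  haveI : Fact p.Prime := ⟨hp⟩
  haveI : Fact q.Prime := ⟨hq⟩
  obtain ⟨u, hu⟩ := exists_prime_orderOf_dvd_card' (G := D') p (Dvd.dvd.trans (Dvd.intro _ rfl) hdvd)
  obtain ⟨v, hv⟩ := exists_prime_orderOf_dvd_card' (G := D') q (Dvd.dvd.trans (Dvd.intro_left _ rfl) hdvd)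
  have hcomm : Commute (u : H) (v : H) := by
    have h1 := (Subgroup.mem_inf.mp u.2).2
    have h2 := (Subgroup.mem_inf.mp v.2).1
    exact (Subgroup.mem_centralizer_iff.mp h1 v h2).symm
  refine ⟨(u : H) * (v : H), ?_⟩
  rw [hcomm.orderOf_mul_eq_mul_orderOf_of_coprime, Subgroup.orderOf_coe, Subgroup.orderOf_coe, hu, hv]
  rw [Subgroup.orderOf_coe, Subgroup.orderOf_coe, hu, hv]
  exact (Nat.coprime_primes hp hq).mpr hpq

/-- Let G and H be finite groups whose commuting graphs are isomorphic: there is a bijection e : G → H with x, y commuting exactly when e(x), e(y) commute. Then G and H have the same prime graph: for distinct primes p, q, G has an element of order pq if and only if H does (and #G = #H, so the prime divisors agree). -/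
theorem result {G H : Type*} [Group G] [Finite G] [Group H] [Finite H] (e : G ≃ H)
    (he : ∀ x y : G, Commute x y ↔ Commute (e x) (e y))
    {p q : ℕ} (hp : p.Prime) (hq : q.Prime) (hpq : p ≠ q) :
    (∃ g : G, orderOf g = p * q) ↔ (∃ h : H, orderOf h = p * q) := by
  constructor
  · exact aux e he hp hq hpq
  · apply aux e.symm _ hp hq hpq
    intro x y
    rw [he (e.symm x) (e.symm y), Equiv.apply_symm_apply, Equiv.apply_symm_apply]

end Cfsg.Agent.S4084
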