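import Cfsg.Statements.S4086
import Cfsg.Agent.Lib_helper6_Cyclic

set_option autoImplicit false
open Cfsg

namespace Cfsg.Agent.S4086

/-- For a finite group G the following are equivalent: every non-identity element has prime-power order; whenever two elements generate a cyclic subgroup, one of them is a power of the other (the enhanced power graph of G coincides with its power graph). -/
theorem result {G : Type*} [Group G] [Finite G] :
    (∀ g : G, g ≠ 1 → IsPrimePow (orderOf g)) ↔
    (∀ x y : G, IsCyclic ↥(Subgroup.closure ({x, y} : Set G)) → (x ∈ Subgroup.zpowers y ∨ y ∈ Subgroup.zpowers x)) := by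
  constructor
  · intro h x y hC
    haveI := hC
    set C := Subgroup.closure ({x, y} : Set G) with hCdef
    have hxC : x ∈ C := Subgroup.subset_closure (by simp)
    have hyC : y ∈ C := Subgroup.subset_closure (by simp)
    by_cases hx1 : x = 1
    · left; rw [hx1]; exact Subgroup.one_mem _
    obtain ⟨z, hz⟩ := hC.exists_generator
    have hz1 : (z : G) ≠ 1 := by
      intro h1
      have hz' : z = 1 := Subtype.ext h1
      have := hz ⟨x, hxC⟩
      rw [hz', Subgroup.zpowers_one_eq_bot, Subgroup.mem_bot] at this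
      exact hx1 (congrArg Subtype.val this)
    obtain ⟨p, k, hp, -, hpk⟩ := (isPrimePow_nat_iff _).mp (h z hz1)
    have hdx : orderOf x ∣ p ^ k := by
      rw [hpk]
      have := orderOf_dvd_of_mem_zpowers (hz ⟨x, hxC⟩)
      rwa [Subgroup.orderOf_mk, ← Subgroup.orderOf_coe z] at this
    have hdy : orderOf y ∣ p ^ k := by
      rw [hpk]
      have := orderOf_dvd_of_mem_zpowers (hz ⟨y, hyC⟩)
      rwa [Subgroup.orderOf_mk, ← Subgroup.orderOf_coe z] at this
    obtain ⟨i, -, hi⟩ := (Nat.dvd_prime_pow hp).mp hdx
    obtain ⟨j, -, hj⟩ := (Nat.dvd_prime_pow hp).mp hdy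
    rcases le_total i j with hij | hij
    · left
      apply Lib_helper6_Cyclic.mem_zpowers_of_orderOf_dvd C hxC hyC
      rw [hi, hj]; exact pow_dvd_pow p hij
    · right
      apply Lib_helper6_Cyclic.mem_zpowers_of_orderOf_dvd C hyC hxC
      rw [hi, hj]; exact pow_dvd_pow p hij
  · intro h g hg
    by_contra hnp
    rw [isPrimePow_iff_unique_prime_dvd] at hnp
    have hn1 : orderOf g ≠ 1 := fun h1 => hg (orderOf_eq_one_iff.mp h1)
    have hn0 : 0 < orderOf g := orderOf_pos g
    obtain ⟨p, hp, hpn⟩ := Nat.exists_prime_and_dvd hn1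
    have : ∃ q : ℕ, q.Prime ∧ q ∣ orderOf g ∧ q ≠ p := by
      by_contra hcon
      push Not at hcon
      exact hnp ⟨p, ⟨hp, hpn⟩, fun q hq => hcon q hq.1 hq.2⟩
    obtain ⟨q, hq, hqn, hqp⟩ := this
    have hordp : orderOf (g ^ (orderOf g / p)) = p := by
      have hne : orderOf g / p ≠ 0 := by
        have := Nat.div_pos (Nat.le_of_dvd hn0 hpn) hp.pos
        omega
      rw [orderOf_pow' g hne, Nat.gcd_eq_right (Nat.div_dvd_of_dvd hpn),
        Nat.div_div_self hpn hn0.ne']
    have hordq : orderOf (g ^ (orderOf g / q)) = q := by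
      have hne : orderOf g / q ≠ 0 := by
        have := Nat.div_pos (Nat.le_of_dvd hn0 hqn) hq.pos
        omega
      rw [orderOf_pow' g hne, Nat.gcd_eq_right (Nat.div_dvd_of_dvd hqn),
        Nat.div_div_self hqn hn0.ne']
    have hle : Subgroup.closure ({g ^ (orderOf g / p), g ^ (orderOf g / q)} : Set G) ≤
        Subgroup.zpowers g := by
      rw [Subgroup.closure_le]
      intro w hw
      rcases hw with rfl | rfl
      · exact Subgroup.pow_mem _ (Subgroup.mem_zpowers g) _
      · exact Subgroup.pow_mem _ (Subgroup.mem_zpowers g) _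
    have hcyc := Subgroup.isCyclic_of_le hle
    rcases h _ _ hcyc with h1 | h1
    · have := orderOf_dvd_of_mem_zpowers h1
      rw [hordp, hordq] at this
      exact hqp ((Nat.prime_dvd_prime_iff_eq hp hq).mp this).symm
    · have := orderOf_dvd_of_mem_zpowers h1
      rw [hordp, hordq] at this
      exact hqp ((Nat.prime_dvd_prime_iff_eq hq hp).mp this)

end Cfsg.Agent.S4086
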