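import Cfsg.Statements.S4093
import Cfsg.Agent.Lib_helper6_ConjClass
import Cfsg.Agent.Lib_helper6_Sylow

set_option autoImplicit false
open scoped BigOperators
open Cfsg

namespace Cfsg.Agent.S4093

/-- Let G be a finite group with a normal subgroup N complementing a Sylow p-subgroup P (a normal p-complement). Then the number of elements of G of p-power order equals the sum over x ∈ P of the index of C_N(x) in N. -/
theorem result {G : Type*} [Group G] [Finite G] (p : ℕ) [Fact p.Prime]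
    (P : Sylow p G) (N : Subgroup G) [N.Normal] (hNP : N.IsComplement' (P : Subgroup G)) :
    Nat.card {g : G // ∃ k : ℕ, orderOf g = p ^ k} =
      ∑ᶠ x : (P : Subgroup G), Nat.card N / Nat.card ↥(N ⊓ Subgroup.centralizer ({(x : G)} : Set G)) := by
  classical
  haveI : Fintype (P : Subgroup G) := Fintype.ofFinite _
  rw [finsum_eq_sum_of_fintype]
  have hsum : ∀ x : (P : Subgroup G),
      Nat.card N / Nat.card ↥(N ⊓ Subgroup.centralizer ({(x : G)} : Set G)) =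
        Nat.card {g : G // ∃ n ∈ N, g = n * (x : G) * n⁻¹} := fun x =>
    (Cfsg.Agent.Lib_helper6_ConjClass.card_conj_orbit N (x : G)).symm
  simp_rw [hsum]
  rw [← Nat.card_sigma]
  symm
  -- claim A
  have hA : ∀ g : G, (∃ k : ℕ, orderOf g = p ^ k) → ∃ n ∈ N, n⁻¹ * g * n ∈ (P : Subgroup G) := by
    intro g hg
    obtain ⟨Q, hQ⟩ := Cfsg.Agent.Lib_helper6_Sylow.pElem_mem_sylow hg
    obtain ⟨c, hc⟩ := Cfsg.Agent.Lib_helper6_Sylow.sylow_conj P Q
    have hgc := (hc g).mp hQ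
    obtain ⟨⟨⟨n, hn⟩, ⟨x0, hx0⟩⟩, hnx, -⟩ := (Subgroup.isComplement'_def.mp hNP).existsUnique c
    simp only at hnx
    refine ⟨n, hn, ?_⟩
    rw [← hnx] at hgc
    have : n⁻¹ * g * n = x0 * ((n * x0)⁻¹ * g * (n * x0)) * x0⁻¹ := by group
    rw [this]
    exact Subgroup.mul_mem _ (Subgroup.mul_mem _ hx0 hgc) (Subgroup.inv_mem _ hx0)
  -- claim B
  have hB : ∀ x y : G, x ∈ (P : Subgroup G) → y ∈ (P : Subgroup G) → ∀ n m : G, n ∈ N → m ∈ N →
      n * x * n⁻¹ = m * y * m⁻¹ → x = y := by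
    intro x y hx hy n m hn hm h
    have h1 : x * y⁻¹ ∈ N := by
      have e : x * y⁻¹ = (n⁻¹ * m) * (y * (n⁻¹ * m)⁻¹ * y⁻¹) := by
        have : x = n⁻¹ * (n * x * n⁻¹) * n := by group
        rw [this, h]; group
      rw [e]
      exact N.mul_mem (N.mul_mem (N.inv_mem hn) hm)
        (Subgroup.Normal.conj_mem inferInstance _ (N.inv_mem (N.mul_mem (N.inv_mem hn) hm)) y)
    have h2 : x * y⁻¹ ∈ (P : Subgroup G) := Subgroup.mul_mem _ hx (Subgroup.inv_mem _ hy)
    have h3 : x * y⁻¹ ∈ N ⊓ (P : Subgroup G) := ⟨h1, h2⟩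
    rw [hNP.disjoint.eq_bot, Subgroup.mem_bot] at h3
    exact mul_inv_eq_one.mp h3
  apply Nat.card_eq_of_bijective
    (fun z : (Σ x : (P : Subgroup G), {g : G // ∃ n ∈ N, g = n * (x : G) * n⁻¹}) =>
      (⟨z.2.1, by
        obtain ⟨n, hn, hg⟩ := z.2.2
        obtain ⟨k, hk⟩ := Cfsg.Agent.Lib_helper6_Sylow.pElem_of_mem_sylow P z.1.2
        refine ⟨k, ?_⟩
        rw [hg, ← hk]
        exact orderOf_injective (MulAut.conj n).toMonoidHom (MulAut.conj n).injective _⟩ :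
        {g : G // ∃ k : ℕ, orderOf g = p ^ k}))
  constructor
  · rintro ⟨x, g, n, hn, hg⟩ ⟨y, g', m, hm, hg'⟩ h
    have hgg : g = g' := congrArg Subtype.val h
    subst hgg
    have hxy : (x : G) = (y : G) := hB x y x.2 y.2 n m hn hm (hg.symm.trans hg')
    have hxy' : x = y := Subtype.ext hxy
    subst hxy'
    rfl
  · rintro ⟨g, hg⟩
    obtain ⟨n, hn, hP⟩ := hA g hg
    refine ⟨⟨⟨n⁻¹ * g * n, hP⟩, ⟨g, n, hn, by group⟩⟩, rfl⟩

end Cfsg.Agent.S4093
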