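import Cfsg.Statements.S4106
import Cfsg.Agent.Lib_helper6_PiClass

set_option autoImplicit false
open Cfsg

namespace Cfsg.Agent.S4106

/-- Let G be a finite group, π a set of primes and m the π-part of the order of G. Then the number of conjugacy classes of G consisting of π-elements (elements whose order is divisible only by primes in π) is at most m. -/
theorem result {G : Type*} [Group G] [Finite G]
    (π : Set ℕ) (hπ : ∀ q ∈ π, q.Prime)
    (m : ℕ) (hm : m ∣ Nat.card G) (hmπ : ∀ q : ℕ, q.Prime → q ∣ m → q ∈ π)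
    (hm' : ∀ q ∈ π, ¬ q ∣ Nat.card G / m) :
    Nat.card {C : ConjClasses G // ∀ q : ℕ, q.Prime → (∃ g : G, ConjClasses.mk g = C ∧ q ∣ orderOf g) → q ∈ π} ≤ m := by
  classical
  let T : Finset ℕ := (Nat.card G).primeFactors.filter (· ∈ π)
  have hT : ∀ q ∈ T, q.Prime := fun q hq => Nat.prime_of_mem_primeFactors (Finset.mem_filter.mp hq).1
  have h1 := Cfsg.Agent.Lib_helper6_PiClass.card_classes_le T hT G
  have hG0 : Nat.card G ≠ 0 := Nat.card_pos.ne'
  have hiff : ∀ C : ConjClasses G,
      (∀ q : ℕ, q.Prime → (∃ g : G, ConjClasses.mk g = C ∧ q ∣ orderOf g) → q ∈ π) ↔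
      (∀ q : ℕ, q.Prime → (∃ g : G, ConjClasses.mk g = C ∧ q ∣ orderOf g) → q ∈ T) := by
    intro C
    constructor
    · intro h q hq hex
      obtain ⟨g, hg, hqd⟩ := hex
      exact Finset.mem_filter.mpr ⟨Nat.mem_primeFactors.mpr
        ⟨hq, dvd_trans hqd (orderOf_dvd_natCard g), hG0⟩, h q hq ⟨g, hg, hqd⟩⟩
    · intro h q hq hex
      exact (Finset.mem_filter.mp (h q hq hex)).2
  have hcard : Nat.card {C : ConjClasses G // ∀ q : ℕ, q.Prime →
      (∃ g : G, ConjClasses.mk g = C ∧ q ∣ orderOf g) → q ∈ π} =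
      Nat.card {C : ConjClasses G // ∀ q : ℕ, q.Prime →
      (∃ g : G, ConjClasses.mk g = C ∧ q ∣ orderOf g) → q ∈ T} :=
    Nat.card_congr (Equiv.subtypeEquivRight hiff)
  rw [hcard]
  refine h1.trans (le_of_eq ?_)
  have hm0 : m ≠ 0 := fun h => hG0 (by rw [h] at hm; exact Nat.eq_zero_of_zero_dvd hm)
  have hmul : Nat.card G = m * (Nat.card G / m) := (Nat.mul_div_cancel' hm).symm
  have hn0 : Nat.card G / m ≠ 0 := fun h => hG0 (by rw [hmul, h, mul_zero])
  have hfac : ∀ q ∈ π, (Nat.card G).factorization q = m.factorization q := by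
    intro q hq
    have h2 : (Nat.card G).factorization q =
        (m * (Nat.card G / m)).factorization q := by rw [← hmul]
    rw [h2, Nat.factorization_mul hm0 hn0, Finsupp.add_apply,
      Nat.factorization_eq_zero_of_not_dvd (hm' q hq), add_zero]
  have hTeq : T = m.primeFactors := by
    ext q
    constructor
    · intro hq
      obtain ⟨hq1, hq2⟩ := Finset.mem_filter.mp hq
      have hqp := Nat.prime_of_mem_primeFactors hq1
      have hqd : q ∣ m * (Nat.card G / m) := by
        rw [← hmul]; exact Nat.dvd_of_mem_primeFactors hq1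
      rcases (Nat.Prime.dvd_mul hqp).mp hqd with h3 | h3
      · exact Nat.mem_primeFactors.mpr ⟨hqp, h3, hm0⟩
      · exact absurd h3 (hm' q hq2)
    · intro hq
      have hqp := Nat.prime_of_mem_primeFactors hq
      have hqd := Nat.dvd_of_mem_primeFactors hq
      exact Finset.mem_filter.mpr ⟨Nat.mem_primeFactors.mpr ⟨hqp, dvd_trans hqd hm, hG0⟩,
        hmπ q hqp hqd⟩
  have h3 : ∏ q ∈ T, q ^ (Nat.card G).factorization q = ∏ q ∈ T, q ^ m.factorization q := by
    apply Finset.prod_congr rfl
    intro q hq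
    rw [hfac q (Finset.mem_filter.mp hq).2]
  rw [h3, hTeq, ← Nat.prod_factorization_eq_prod_primeFactors (fun q e => q ^ e)]
  exact Nat.prod_factorization_pow_eq_self hm0

end Cfsg.Agent.S4106
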