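import Cfsg.Statements.S4116
import Cfsg.Agent.Lib_helper6_FrobCount
import Cfsg.Agent.Lib_helper6_Conj
import Cfsg.Agent.Lib_helper6_Sylow

set_option autoImplicit false
open Cfsg

namespace Cfsg.Agent.S4116


open Cfsg.Agent

theorem mem_of_normalizer {G : Type*} [Group G] [Finite G] (H : Subgroup G)
    (hHall : (Nat.card H).Coprime H.index) (y : G) (hy : y ∈ Subgroup.normalizer (H : Set G))
    (hπ : ∀ q : ℕ, q.Prime → q ∣ orderOf y → q ∣ Nat.card H) : y ∈ H := by
  classical
  have hn : (H.subgroupOf (Subgroup.normalizer (H : Set G))).Normal :=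
    Subgroup.normal_in_normalizer
  have h1 : orderOf (QuotientGroup.mk ⟨y, hy⟩ : Subgroup.normalizer (H : Set G) ⧸
      H.subgroupOf (Subgroup.normalizer (H : Set G))) ∣ orderOf y := by
    apply orderOf_dvd_of_pow_eq_one
    rw [← QuotientGroup.mk_pow]
    have : (⟨y, hy⟩ : Subgroup.normalizer (H : Set G)) ^ orderOf y = 1 := by
      apply Subtype.ext
      simp [pow_orderOf_eq_one]
    rw [this]; rfl
  have h2 : orderOf (QuotientGroup.mk ⟨y, hy⟩ : Subgroup.normalizer (H : Set G) ⧸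
      H.subgroupOf (Subgroup.normalizer (H : Set G))) ∣ H.index := by
    have h3 := orderOf_dvd_natCard (QuotientGroup.mk ⟨y, hy⟩ : Subgroup.normalizer (H : Set G) ⧸
      H.subgroupOf (Subgroup.normalizer (H : Set G)))
    have h4 : Nat.card (Subgroup.normalizer (H : Set G) ⧸
        H.subgroupOf (Subgroup.normalizer (H : Set G))) =
        H.relIndex (Subgroup.normalizer (H : Set G)) := rfl
    rw [h4] at h3
    exact h3.trans (Subgroup.relIndex_dvd_index_of_le Subgroup.le_normalizer)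
  have h5 : orderOf (QuotientGroup.mk ⟨y, hy⟩ : Subgroup.normalizer (H : Set G) ⧸
      H.subgroupOf (Subgroup.normalizer (H : Set G))) = 1 := by
    by_contra hne
    obtain ⟨q, hq, hqd⟩ := Nat.exists_prime_and_dvd hne
    have hq1 : q ∣ Nat.card H := hπ q hq (hqd.trans h1)
    have hq2 : q ∣ H.index := hqd.trans h2
    exact (Nat.Prime.not_coprime_iff_dvd.mpr ⟨q, hq, hq1, hq2⟩) hHall
  rw [orderOf_eq_one_iff] at h5
  have h6 : (⟨y, hy⟩ : Subgroup.normalizer (H : Set G)) ∈
      H.subgroupOf (Subgroup.normalizer (H : Set G)) := (QuotientGroup.eq_one_iff _).mp h5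
  exact Subgroup.mem_subgroupOf.mp h6

theorem pgroup_in_conj {G : Type*} [Group G] [Finite G] (H : Subgroup G)
    (hHall : (Nat.card H).Coprime H.index) (q : ℕ) [Fact q.Prime] (hq : q ∣ Nat.card H)
    (Q : Subgroup G) (hQ : IsPGroup q Q) :
    ∃ g : G, Q ≤ H.map (MulAut.conj g).toMonoidHom := by
  have hqp : q.Prime := Fact.out
  have hnd : ¬ q ∣ H.index := fun h => (Nat.Prime.not_coprime_iff_dvd.mpr ⟨q, hqp, hq, h⟩) hHall
  have S : Sylow q H := default
  obtain ⟨T₀, hT₀⟩ := (S.2.map H.subtype).exists_le_sylow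
  have hcard : Nat.card (T₀ : Subgroup G) ≤ Nat.card ((S : Subgroup H).map H.subtype) := by
    rw [Subgroup.card_map_of_injective H.subtype_injective, Sylow.card_eq_multiplicity,
      Sylow.card_eq_multiplicity]
    have : (Nat.card G).factorization q = (Nat.card H).factorization q := by
      rw [← H.card_mul_index, Nat.factorization_mul Nat.card_pos.ne' Subgroup.index_ne_zero_of_finite,
        Finsupp.add_apply, Nat.factorization_eq_zero_of_not_dvd hnd, add_zero]
    rw [this]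
  have heq : ((S : Subgroup H).map H.subtype) = (T₀ : Subgroup G) :=
    Subgroup.eq_of_le_of_card_ge hT₀ hcard
  have hT₀H : (T₀ : Subgroup G) ≤ H := by
    rw [← heq]; exact Subgroup.map_subtype_le _
  obtain ⟨T₁, hT₁⟩ := hQ.exists_le_sylow
  obtain ⟨g, hg⟩ := MulAction.exists_smul_eq G T₀ T₁
  refine ⟨g, fun x hx => ?_⟩
  rw [Lib_helper6_Conj.mem_conjMap]
  have hx' : x ∈ (T₁ : Subgroup G) := hT₁ hx
  rw [← hg, Lib_helper6_Sylow.mem_smul_sylow] at hx'
  exact hT₀H hx'

/-- Let G be a finite group with a subgroup H whose order is coprime to its index (a Hall subgroup) and which meets each of its conjugates by elements outside N_G(H) trivially. Then every subgroup of G whose order is divisible only by primes dividing the order of H lies in a conjugate of H. -/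
theorem result {G : Type*} [Group G] [Finite G] (H : Subgroup G)
    (hHall : (Nat.card H).Coprime H.index) (hTI : Cfsg.IsTISubset (H : Set G))
    (K : Subgroup G) (hK : ∀ q : ℕ, q.Prime → q ∣ Nat.card K → q ∣ Nat.card H) :
    ∃ g : G, K ≤ H.map (MulAut.conj g).toMonoidHom := by
  classical
  have hmem : ∀ g x : G, x ∈ H.map (MulAut.conj g).toMonoidHom ↔ g⁻¹ * x * g ∈ H :=
    fun g x => Lib_helper6_Conj.mem_conjMap
  have hKπ : ∀ u ∈ K, ∀ q : ℕ, q.Prime → q ∣ orderOf u → q ∣ Nat.card H := by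
    intro u hu q hq hqu
    apply hK q hq
    have := orderOf_dvd_natCard (⟨u, hu⟩ : K)
    rw [Subgroup.orderOf_mk] at this
    exact hqu.trans this
  have F1 : ∀ w x : G, x ∈ H → x ≠ 1 → w * x * w⁻¹ ∈ H →
      w ∈ Subgroup.normalizer (H : Set G) := by
    intro w x hx hx1 hw
    by_contra hnot
    exact hx1 (hTI w hnot x hx hw)
  have hconj1 : ∀ g a : G, a ≠ 1 → g⁻¹ * a * g ≠ 1 := by
    intro g a ha h
    apply ha
    calc a = g * (g⁻¹ * a * g) * g⁻¹ := by group
      _ = 1 := by rw [h]; group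
  have F3 : ∀ g u a : G, u ∈ K → a ≠ 1 → g⁻¹ * a * g ∈ H → g⁻¹ * (u * a * u⁻¹) * g ∈ H →
      g⁻¹ * u * g ∈ H := by
    intro g u a hu ha h1 h2
    apply mem_of_normalizer H hHall
    · apply F1 (g⁻¹ * u * g) (g⁻¹ * a * g) h1 (hconj1 g a ha)
      have : g⁻¹ * u * g * (g⁻¹ * a * g) * (g⁻¹ * u * g)⁻¹ = g⁻¹ * (u * a * u⁻¹) * g := by group
      rw [this]; exact h2
    · intro q hq hqd
      have hord : orderOf (g⁻¹ * u * g) = orderOf u := by
        have := orderOf_injective (MulAut.conj g⁻¹).toMonoidHom (MulAut.conj g⁻¹).injective u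
        simpa using this
      rw [hord] at hqd
      exact hKπ u hu q hq hqd
  have F4 : ∀ g₁ g₂ a : G, a ≠ 1 → g₁⁻¹ * a * g₁ ∈ H → g₂⁻¹ * a * g₂ ∈ H →
      H.map (MulAut.conj g₁).toMonoidHom = H.map (MulAut.conj g₂).toMonoidHom := by
    intro g₁ g₂ a ha h1 h2
    have hw : g₂⁻¹ * g₁ ∈ Subgroup.normalizer (H : Set G) := by
      apply F1 (g₂⁻¹ * g₁) (g₁⁻¹ * a * g₁) h1 (hconj1 g₁ a ha)
      have : g₂⁻¹ * g₁ * (g₁⁻¹ * a * g₁) * (g₂⁻¹ * g₁)⁻¹ = g₂⁻¹ * a * g₂ := by group
      rw [this]; exact h2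
    have e : g₁ = g₂ * (g₂⁻¹ * g₁) := by group
    rw [e, Lib_helper6_Conj.conjMap_mul, Lib_helper6_Conj.mem_normalizer_iff_conjMap.mp hw]
  -- two conjugates meeting K nontrivially are K-conjugate
  have claim1 : ∀ g g' : G, (∃ a ∈ K, a ≠ 1 ∧ g⁻¹ * a * g ∈ H) →
      (∃ b ∈ K, b ≠ 1 ∧ g'⁻¹ * b * g' ∈ H) →
      ∃ u ∈ K, H.map (MulAut.conj g').toMonoidHom = H.map (MulAut.conj (u * g)).toMonoidHom := by
    intro g g' hA hB
    by_contra hcon
    push Not at hcon
    have hsub : ∀ (g : G), (∃ a ∈ K, a ≠ 1 ∧ g⁻¹ * a * g ∈ H) →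
        ∃ A' : Subgroup K, (∀ k : K, k ∈ A' ↔ g⁻¹ * (k : G) * g ∈ H) ∧
          2 * A'.index ≤ Nat.card K ∧
          Nat.card {k : K // k ≠ 1 ∧ ∃ u : K, u⁻¹ * k * u ∈ A'} + A'.index = Nat.card K := by
      intro g hA
      have hA'mem : ∀ k : K, k ∈ (H.map (MulAut.conj g).toMonoidHom).subgroupOf K ↔
          g⁻¹ * (k : G) * g ∈ H := by
        intro k
        rw [Subgroup.mem_subgroupOf, hmem]
      refine ⟨(H.map (MulAut.conj g).toMonoidHom).subgroupOf K, hA'mem, ?_, ?_⟩
      · have h1 : 1 < Nat.card ((H.map (MulAut.conj g).toMonoidHom).subgroupOf K) := by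
          rw [Subgroup.one_lt_card_iff_ne_bot]
          obtain ⟨a, haK, ha1, haH⟩ := hA
          intro hbot
          have : (⟨a, haK⟩ : K) ∈ (H.map (MulAut.conj g).toMonoidHom).subgroupOf K :=
            (hA'mem _).mpr haH
          rw [hbot, Subgroup.mem_bot] at this
          exact ha1 (congrArg Subtype.val this)
        have := ((H.map (MulAut.conj g).toMonoidHom).subgroupOf K).card_mul_index
        nlinarith
      · apply Lib_helper6_FrobCount.card_conj_union
        intro u hu a ha hua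
        by_contra ha1
        apply hu
        rw [hA'mem] at ha hua ⊢
        exact F3 g u a u.2 (fun h => ha1 (Subtype.ext h)) ha (by simpa using hua)
    obtain ⟨A', hA'mem, hA2, cA⟩ := hsub g hA
    obtain ⟨B', hB'mem, hB2, cB⟩ := hsub g' hB
    have hdisj : ∀ k : K, (k ≠ 1 ∧ ∃ u : K, u⁻¹ * k * u ∈ A') →
        ¬ (k ≠ 1 ∧ ∃ u : K, u⁻¹ * k * u ∈ B') := by
      rintro k ⟨hk1, u, hu⟩ ⟨-, u', hu'⟩
      rw [hA'mem] at hu
      rw [hB'mem] at hu'
      have e1 : ((u : G) * g)⁻¹ * (k : G) * ((u : G) * g) ∈ H := by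
        have : ((u : G) * g)⁻¹ * (k : G) * ((u : G) * g) = g⁻¹ * ((u⁻¹ * k * u : K) : G) * g := by
          simp [mul_assoc]
        rw [this]; exact hu
      have e2 : ((u' : G) * g')⁻¹ * (k : G) * ((u' : G) * g') ∈ H := by
        have : ((u' : G) * g')⁻¹ * (k : G) * ((u' : G) * g') =
            g'⁻¹ * ((u'⁻¹ * k * u' : K) : G) * g' := by
          simp [mul_assoc]
        rw [this]; exact hu'
      have hk1' : (k : G) ≠ 1 := fun h => hk1 (Subtype.ext h)
      have e3 := F4 ((u : G) * g) ((u' : G) * g') (k : G) hk1' e1 e2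
      apply hcon ((u' : G)⁻¹ * (u : G)) (K.mul_mem (K.inv_mem u'.2) u.2)
      have e4 : (u' : G)⁻¹ * (u : G) * g = (u' : G)⁻¹ * ((u : G) * g) := by group
      rw [e4, Lib_helper6_Conj.conjMap_mul, e3, ← Lib_helper6_Conj.conjMap_mul]
      congr 3
      group
    have hcount : Nat.card {k : K // k ≠ 1 ∧ ∃ u : K, u⁻¹ * k * u ∈ A'} +
        Nat.card {k : K // k ≠ 1 ∧ ∃ u : K, u⁻¹ * k * u ∈ B'} + 1 ≤ Nat.card K := by
      rw [← Lib_helper6_FrobCount.card_ne_one_add_one (A := K)]
      apply Nat.add_le_add_right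
      rw [← Nat.card_sum]
      apply Nat.card_le_card_of_injective
        (fun s : {k : K // k ≠ 1 ∧ ∃ u : K, u⁻¹ * k * u ∈ A'} ⊕
            {k : K // k ≠ 1 ∧ ∃ u : K, u⁻¹ * k * u ∈ B'} =>
          (match s with
          | Sum.inl k => ⟨k.1, k.2.1⟩
          | Sum.inr k => ⟨k.1, k.2.1⟩ : {k : K // k ≠ 1}))
      rintro (⟨k, hk⟩ | ⟨k, hk⟩) (⟨k', hk'⟩ | ⟨k', hk'⟩) h
      · have h' : k = k' := congrArg Subtype.val h
        subst h'; rfl
      · have h' : k = k' := congrArg Subtype.val h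
        subst h'
        exact absurd hk' (hdisj k hk)
      · have h' : k = k' := congrArg Subtype.val h
        subst h'
        exact absurd hk (hdisj k hk')
      · have h' : k = k' := congrArg Subtype.val h
        subst h'; rfl
    omega
  by_cases hK1 : K = ⊥
  · exact ⟨1, by rw [hK1]; exact bot_le⟩
  have hKcard : Nat.card K ≠ 1 := by
    intro h
    exact hK1 (Subgroup.card_eq_one.mp h)
  have claim2 : ∀ q : ℕ, q.Prime → q ∣ Nat.card K →
      ∃ g : G, (∃ a ∈ K, a ≠ 1 ∧ g⁻¹ * a * g ∈ H) ∧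
        q ^ (Nat.card K).factorization q ∣
          Nat.card (K ⊓ H.map (MulAut.conj g).toMonoidHom : Subgroup G) := by
    intro q hq hqK
    have : Fact q.Prime := ⟨hq⟩
    have Q : Sylow q K := default
    have hQ'K : (Q : Subgroup K).map K.subtype ≤ K := Subgroup.map_subtype_le _
    have hQ'card : Nat.card ((Q : Subgroup K).map K.subtype) = q ^ (Nat.card K).factorization q := by
      rw [Subgroup.card_map_of_injective K.subtype_injective, Sylow.card_eq_multiplicity]
    obtain ⟨g, hg⟩ := pgroup_in_conj H hHall q (hK q hq hqK) _ (Q.2.map K.subtype)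
    refine ⟨g, ?_, ?_⟩
    · have h1 : 1 < Nat.card ((Q : Subgroup K).map K.subtype) := by
        rw [hQ'card]
        exact Nat.one_lt_pow (hq.factorization_pos_of_dvd Nat.card_pos.ne' hqK).ne' hq.one_lt
      rw [Subgroup.one_lt_card_iff_ne_bot] at h1
      obtain ⟨a, ha⟩ := (Subgroup.ne_bot_iff_exists_ne_one.mp h1)
      exact ⟨a.1, hQ'K a.2, fun h => ha (Subtype.ext h), (hmem g a.1).mp (hg a.2)⟩
    · rw [← hQ'card]
      exact Subgroup.card_dvd_of_le (le_inf hQ'K hg)
  obtain ⟨q₀, hq₀, hq₀K⟩ := Nat.exists_prime_and_dvd hKcard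
  obtain ⟨g₀, hA₀, -⟩ := claim2 q₀ hq₀ hq₀K
  refine ⟨g₀, ?_⟩
  have hdiv : Nat.card K ∣ Nat.card (K ⊓ H.map (MulAut.conj g₀).toMonoidHom : Subgroup G) := by
    rw [← Nat.factorization_prime_le_iff_dvd Nat.card_pos.ne' Nat.card_pos.ne']
    intro q hq
    by_cases hqK : q ∣ Nat.card K
    · obtain ⟨g, hA, hdvd⟩ := claim2 q hq hqK
      obtain ⟨u, hu, hL⟩ := claim1 g₀ g hA₀ hA
      have hc : Nat.card (K ⊓ H.map (MulAut.conj g).toMonoidHom : Subgroup G) =
          Nat.card (K ⊓ H.map (MulAut.conj g₀).toMonoidHom : Subgroup G) := by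
        rw [hL, Lib_helper6_Conj.conjMap_mul]
        have : K ⊓ (H.map (MulAut.conj g₀).toMonoidHom).map (MulAut.conj u).toMonoidHom =
            (K ⊓ H.map (MulAut.conj g₀).toMonoidHom).map (MulAut.conj u).toMonoidHom := by
          ext x
          simp only [Subgroup.mem_inf, Lib_helper6_Conj.mem_conjMap]
          constructor
          · rintro ⟨h1, h2⟩
            exact ⟨K.mul_mem (K.mul_mem (K.inv_mem hu) h1) hu, h2⟩
          · rintro ⟨h1, h2⟩
            refine ⟨?_, h2⟩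
            have := K.mul_mem (K.mul_mem hu h1) (K.inv_mem hu)
            simpa [mul_assoc] using this
        rw [this, Lib_helper6_Conj.card_conjMap]
      rw [hc] at hdvd
      exact (hq.pow_dvd_iff_le_factorization Nat.card_pos.ne').mp hdvd
    · rw [Nat.factorization_eq_zero_of_not_dvd hqK]
      exact Nat.zero_le _
  have hle : Nat.card K ≤ Nat.card (K ⊓ H.map (MulAut.conj g₀).toMonoidHom : Subgroup G) :=
    Nat.le_of_dvd Nat.card_pos hdiv
  have heq : K ⊓ H.map (MulAut.conj g₀).toMonoidHom = K :=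
    Subgroup.eq_of_le_of_card_ge inf_le_left hle
  rw [← heq]
  exact inf_le_right

end Cfsg.Agent.S4116
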