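import Cfsg.Statements.S4142
import Cfsg.Agent.Lib_helper6_Quot
import Cfsg.Agent.Lib_helper6_ConjClass

set_option autoImplicit false
open Cfsg

namespace Cfsg.Agent.S4142

theorem key {G : Type*} [Group G] [Finite G] (N : Subgroup G) [N.Normal] (g : G) :
    (∀ n ∈ N, ∃ x : G, x * g * x⁻¹ = g * n) ↔
      Nat.card (Subgroup.centralizer ({g} : Set G)) =
        Nat.card (Subgroup.centralizer ({(QuotientGroup.mk g : G ⧸ N)} : Set (G ⧸ N))) := by
  classical
  set Cb : Subgroup (G ⧸ N) := Subgroup.centralizer ({(QuotientGroup.mk g : G ⧸ N)} : Set (G ⧸ N))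
    with hCb
  set D : Subgroup G := Cb.comap (QuotientGroup.mk' N) with hD
  have hDmem : ∀ x : G, x ∈ D ↔ g⁻¹ * (x * g * x⁻¹) ∈ N := by
    intro x
    rw [hD, Subgroup.mem_comap, hCb, Subgroup.mem_centralizer_iff]
    constructor
    · intro h
      have h1 := h _ (Set.mem_singleton _)
      rw [← QuotientGroup.eq]
      have h2 : (QuotientGroup.mk (x * g * x⁻¹) : G ⧸ N) =
          (QuotientGroup.mk' N x) * (QuotientGroup.mk g) * (QuotientGroup.mk' N x)⁻¹ := rfl
      rw [h2, ← h1]
      simp
    · intro h y hy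
      rw [Set.mem_singleton_iff] at hy
      rw [hy]
      rw [← QuotientGroup.eq] at h
      have h2 : (QuotientGroup.mk (x * g * x⁻¹) : G ⧸ N) =
          (QuotientGroup.mk' N x) * (QuotientGroup.mk g) * (QuotientGroup.mk' N x)⁻¹ := rfl
      rw [h2] at h
      exact (mul_inv_eq_iff_eq_mul.mp h.symm).symm
  have hcardD : Nat.card D = Nat.card Cb * Nat.card N :=
    Cfsg.Agent.Lib_helper6_Quot.card_comap_mk' N Cb
  have hle : Subgroup.centralizer ({g} : Set G) ≤ D := by
    intro x hx
    rw [hDmem]
    rw [Subgroup.mem_centralizer_iff] at hx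
    have := hx g (Set.mem_singleton g)
    have e : x * g * x⁻¹ = g := by rw [← this]; group
    rw [e, inv_mul_cancel]; exact N.one_mem
  have horb := Cfsg.Agent.Lib_helper6_ConjClass.card_conj_orbit_mul D g
  rw [inf_eq_right.mpr hle] at horb
  -- the injection of the orbit into `N`
  let ι : {y : G // ∃ n ∈ D, y = n * g * n⁻¹} → N := fun y =>
    ⟨g⁻¹ * (y : G), by
      obtain ⟨y, x, hx, rfl⟩ := y
      exact (hDmem x).mp hx⟩
  have hι : Function.Injective ι := by
    intro a b hab
    have : g⁻¹ * (a : G) = g⁻¹ * (b : G) := congrArg Subtype.val hab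
    exact Subtype.ext (mul_left_cancel this)
  have hsurj : (∀ n ∈ N, ∃ x : G, x * g * x⁻¹ = g * n) ↔ Function.Surjective ι := by
    constructor
    · intro h n
      obtain ⟨x, hx⟩ := h n n.2
      have hxD : x ∈ D := by
        rw [hDmem, hx, inv_mul_cancel_left]; exact n.2
      refine ⟨⟨g * n, x, hxD, hx.symm⟩, ?_⟩
      apply Subtype.ext
      change g⁻¹ * (g * (n : G)) = n
      rw [inv_mul_cancel_left]
    · intro h n hn
      obtain ⟨⟨y, x, hx, rfl⟩, hy⟩ := h ⟨n, hn⟩
      refine ⟨x, ?_⟩
      have : g⁻¹ * (x * g * x⁻¹) = n := congrArg Subtype.val hy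
      rw [← this, mul_inv_cancel_left]
  have hcard : Function.Surjective ι ↔
      Nat.card {y : G // ∃ n ∈ D, y = n * g * n⁻¹} = Nat.card N := by
    constructor
    · intro h
      exact Nat.card_eq_of_bijective ι ⟨hι, h⟩
    · intro h
      exact (hι.bijective_of_nat_card_le h.ge).2
  rw [hsurj, hcard]
  have hposN : 0 < Nat.card N := Nat.card_pos
  have hposC : 0 < Nat.card (Subgroup.centralizer ({g} : Set G)) := Nat.card_pos
  rw [hcardD] at horb
  constructor
  · intro h
    rw [h] at horb
    have : Nat.card N * Nat.card (Subgroup.centralizer ({g} : Set G)) = Nat.card N * Nat.card Cb := by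
      rw [horb]; ring
    exact Nat.eq_of_mul_eq_mul_left hposN this
  · intro h
    rw [← h] at horb
    have : Nat.card {y : G // ∃ n ∈ D, y = n * g * n⁻¹} * Nat.card (Subgroup.centralizer ({g} : Set G)) =
        Nat.card N * Nat.card (Subgroup.centralizer ({g} : Set G)) := by
      rw [horb]; ring
    exact Nat.eq_of_mul_eq_mul_right hposC this

/-- Let G be a finite group and N a normal subgroup. Then the conjugacy class of every element g outside N is a union of cosets of N (gn is conjugate to g for all n ∈ N) if and only if for every g outside N the centralizer of g in G has the same order as the centralizer of gN in G/N. -/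
theorem result {G : Type*} [Group G] [Finite G] (N : Subgroup G) [N.Normal] :
    (∀ g : G, g ∉ N → ∀ n ∈ N, ∃ x : G, x * g * x⁻¹ = g * n) ↔
      ∀ g : G, g ∉ N → Nat.card (Subgroup.centralizer ({g} : Set G)) =
        Nat.card (Subgroup.centralizer ({(QuotientGroup.mk g : G ⧸ N)} : Set (G ⧸ N))) := by
  constructor
  · intro h g hg
    exact (key N g).mp (h g hg)
  · intro h g hg
    exact (key N g).mpr (h g hg)

end Cfsg.Agent.S4142
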