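import Cfsg.Statements.S4145
import Cfsg.Agent.Lib_helper6_CycSylow
import Cfsg.Agent.Lib_helper6_Sylow2

set_option autoImplicit false
open Cfsg

namespace Cfsg.Agent.S4145

/-- Let G be a finite group with a cyclic Sylow p-subgroup and H a normal subgroup such that p divides both the order of H and the index of H. Then H has a normal p-complement and G is p-solvable. -/
theorem result {G : Type*} [Group G] [Finite G] (p : ℕ) [Fact p.Prime]
    (P : Sylow p G) (hP : IsCyclic (P : Subgroup G)) (H : Subgroup G) [H.Normal] (h1 : p ∣ Nat.card H) (h2 : p ∣ H.index) :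
    Cfsg.HasNormalPComplement p H ∧ Cfsg.IsPSolvable p G := by
  classical
  have hp : p.Prime := Fact.out
  have hHn : H.Normal := inferInstance
  -- a Sylow subgroup of `H` and a Sylow subgroup of `G` above it
  obtain ⟨QH⟩ : Nonempty (Sylow p H) := inferInstance
  have hQHne : (QH : Subgroup H) ≠ ⊥ := QH.ne_bot_of_dvd_card h1
  have hRp : IsPGroup p ((QH : Subgroup H).map H.subtype) := QH.2.map _
  obtain ⟨P', hRP'⟩ := hRp.exists_le_sylow
  have hP'cyc : IsCyclic (P' : Subgroup G) := by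
    obtain ⟨g, hg⟩ := MulAction.exists_smul_eq G P P'
    have e : (P : Subgroup G) ≃* ((g • P : Sylow p G) : Subgroup G) := Sylow.equivSMul P g
    rw [← hg]
    have := hP
    exact isCyclic_of_surjective e e.surjective
  have hab : ∀ x ∈ (P' : Subgroup G), ∀ y ∈ (P' : Subgroup G), x * y = y * x := by
    intro x hx y hy
    have h3 := (@IsCyclic.isMulCommutative (P' : Subgroup G) _ hP'cyc).is_comm.comm ⟨x, hx⟩ ⟨y, hy⟩
    exact congrArg Subtype.val h3
  have hQeq : (QH : Subgroup H).map H.subtype = (P' : Subgroup G) ⊓ H := by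
    apply le_antisymm
    · refine le_inf hRP' ?_
      rintro _ ⟨x, -, rfl⟩
      exact x.2
    · rintro x ⟨hxP, hxH⟩
      have h3 : IsPGroup p (((P' : Subgroup G) ⊓ H).subgroupOf H) :=
        (P'.2.to_le inf_le_left).comap_subtype
      have h4 : (QH : Subgroup H) ≤ ((P' : Subgroup G) ⊓ H).subgroupOf H := by
        intro y hy
        rw [Subgroup.mem_subgroupOf]
        exact ⟨hRP' ⟨y, hy, rfl⟩, y.2⟩
      have h5 := QH.is_maximal' h3 h4
      have h6 : (⟨x, hxH⟩ : H) ∈ ((P' : Subgroup G) ⊓ H).subgroupOf H := by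
        rw [Subgroup.mem_subgroupOf]; exact ⟨hxP, hxH⟩
      rw [h5] at h6
      exact ⟨⟨x, hxH⟩, h6, rfl⟩
  set Q : Subgroup G := (P' : Subgroup G) ⊓ H with hQdef
  have hP'H : ¬ ((P' : Subgroup G) ≤ H) := by
    intro hle
    exact P'.not_dvd_index (dvd_trans h2 (Subgroup.index_dvd_of_le hle))
  have hQne : Q ≠ (P' : Subgroup G) := by
    intro h
    apply hP'H
    rw [← h]; exact inf_le_right
  -- Step 1: elements of `H` normalizing `Q` centralize `Q`
  have step1 : ∀ y ∈ H, (∀ x, x ∈ Q ↔ y * x * y⁻¹ ∈ Q) → ∀ q ∈ Q, y * q = q * y := by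
    intro y hyH hyN q hq
    let S : Subgroup G := Subgroup.centralizer (Q : Set G) ⊓ (H ⊔ (P' : Subgroup G))
    have hP'S : (P' : Subgroup G) ≤ S := by
      refine le_inf ?_ le_sup_right
      intro a ha
      rw [Subgroup.mem_centralizer_iff]
      intro q' hq'
      exact hab q' hq'.1 a ha
    let P₂ : Subgroup G := (P' : Subgroup G).map (MulAut.conj y).toMonoidHom
    have hP₂S : P₂ ≤ S := by
      rintro _ ⟨a, ha, rfl⟩
      refine ⟨?_, ?_⟩
      · show y * a * y⁻¹ ∈ Subgroup.centralizer (Q : Set G)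
        rw [Subgroup.mem_centralizer_iff]
        intro q' hq'
        have h3 : y⁻¹ * q' * y ∈ Q := by
          have h0 : y * (y⁻¹ * q' * y) * y⁻¹ = q' := by group
          exact (hyN (y⁻¹ * q' * y)).mpr (by rw [h0]; exact hq')
        have h4 := hab _ h3.1 a ha
        show q' * (y * a * y⁻¹) = y * a * y⁻¹ * q'
        calc q' * (y * a * y⁻¹) = y * ((y⁻¹ * q' * y) * a) * y⁻¹ := by group
          _ = y * (a * (y⁻¹ * q' * y)) * y⁻¹ := by rw [h4]
          _ = y * a * y⁻¹ * q' := by group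
      · show y * a * y⁻¹ ∈ H ⊔ (P' : Subgroup G)
        exact Subgroup.mul_mem _ (Subgroup.mul_mem _ (Subgroup.mem_sup_left hyH)
          (Subgroup.mem_sup_right ha)) (Subgroup.inv_mem _ (Subgroup.mem_sup_left hyH))
    have hmapP : ((P'.subtype hP'S : Sylow p S) : Subgroup S).map S.subtype = P' := by
      rw [Sylow.coe_subtype, Subgroup.map_subgroupOf_eq_of_le hP'S]
    have hcard : Nat.card P₂ = Nat.card (P'.subtype hP'S : Sylow p S) := by
      have h3 : Nat.card (((P'.subtype hP'S : Sylow p S) : Subgroup S).map S.subtype) =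
          Nat.card (P'.subtype hP'S : Sylow p S) :=
        Subgroup.card_map_of_injective S.subtype_injective
      rw [← h3, hmapP]
      exact Cfsg.Agent.Lib_helper6_Conj.card_conjMap _ y
    obtain ⟨s, hsS, hs⟩ := Cfsg.Agent.Lib_helper6_Sylow2.exists_conj_of_le S (P'.subtype hP'S) P₂
      hP₂S (P'.2.map _) hcard
    rw [hmapP] at hs
    have hzN : ∀ x, x ∈ (P' : Subgroup G) ↔ (s⁻¹ * y) * x * (s⁻¹ * y)⁻¹ ∈ (P' : Subgroup G) := by
      intro x
      have h3 : (s⁻¹ * y) * x * (s⁻¹ * y)⁻¹ = s⁻¹ * (y * x * y⁻¹) * s := by group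
      rw [h3]
      have h4 : y * x * y⁻¹ ∈ P₂ ↔ x ∈ (P' : Subgroup G) := by
        show y * x * y⁻¹ ∈ (P' : Subgroup G).map (MulAut.conj y).toMonoidHom ↔ _
        rw [Cfsg.Agent.Lib_helper6_Conj.mem_conjMap]
        have h0 : y⁻¹ * (y * x * y⁻¹) * y = x := by group
        rw [h0]
      rw [← h4, hs, Cfsg.Agent.Lib_helper6_Conj.mem_conjMap]
    have hzmem : s⁻¹ * y ∈ H ⊔ (P' : Subgroup G) :=
      Subgroup.mul_mem _ (Subgroup.inv_mem _ hsS.2) (Subgroup.mem_sup_left hyH)
    obtain ⟨h, hh, a, ha, hhz⟩ := Subgroup.mem_sup_of_normal_left.mp hzmem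
    have hcomm := Cfsg.Agent.Lib_helper6_CycSylow.commute_of_cyclic P' hP'cyc (s⁻¹ * y) hzN
      (Or.inl ⟨Q, inf_le_left, hQne, fun b hb => by
        refine ⟨Subgroup.mul_mem _ ((hzN b).mp hb) (Subgroup.inv_mem _ hb), ?_⟩
        have hab' : a * b * a⁻¹ = b := by rw [hab a ha b hb]; group
        have h3 : (s⁻¹ * y) * b * (s⁻¹ * y)⁻¹ * b⁻¹ = h * (b * h⁻¹ * b⁻¹) := by
          rw [← hhz]
          calc h * a * b * (h * a)⁻¹ * b⁻¹ = h * (a * b * a⁻¹) * h⁻¹ * b⁻¹ := by group
            _ = h * (b * h⁻¹ * b⁻¹) := by rw [hab']; group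
        rw [h3]
        exact H.mul_mem hh (hHn.conj_mem _ (H.inv_mem hh) b)⟩)
    have h5 := hcomm q hq.1
    have h6 : q * s = s * q := (Subgroup.mem_centralizer_iff.mp hsS.1) q hq
    calc y * q = s * ((s⁻¹ * y) * q) := by group
      _ = s * (q * (s⁻¹ * y)) := by rw [h5]
      _ = (s * q) * (s⁻¹ * y) := by group
      _ = (q * s) * (s⁻¹ * y) := by rw [h6]
      _ = q * y := by group
  -- Burnside's transfer theorem in `H`
  have hNC : Subgroup.normalizer (QH : Set H) ≤ Subgroup.centralizer (QH : Set H) := by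
    intro y hy
    change y ∈ Subgroup.normalizer ((QH : Subgroup H) : Set H) at hy
    rw [Subgroup.mem_normalizer_iff] at hy
    rw [Subgroup.mem_centralizer_iff]
    intro q hq
    have h3 : ∀ x, x ∈ Q ↔ (y : G) * x * (y : G)⁻¹ ∈ Q := by
      intro x
      constructor
      · intro hx
        rw [← hQeq] at hx ⊢
        obtain ⟨x₀, hx₀, rfl⟩ := hx
        exact ⟨y * x₀ * y⁻¹, (hy x₀).mp hx₀, rfl⟩
      · intro hx
        rw [← hQeq] at hx ⊢
        obtain ⟨w, hw, hwx⟩ := hx
        refine ⟨y⁻¹ * w * y, ?_, ?_⟩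
        · have h0 : y * (y⁻¹ * w * y) * y⁻¹ = w := by group
          exact (hy (y⁻¹ * w * y)).mpr (by rw [h0]; exact hw)
        · show (y : G)⁻¹ * (H.subtype w) * (y : G) = x
          rw [hwx]; group
    have h4 := step1 (y : G) y.2 h3 (q : G) (by rw [← hQeq]; exact ⟨q, hq, rfl⟩)
    apply Subtype.ext
    exact h4.symm
  let K₀ : Subgroup H := (MonoidHom.transferSylow QH hNC).ker
  have hK₀c : Subgroup.IsComplement' K₀ (QH : Subgroup H) :=
    MonoidHom.ker_transferSylow_isComplement' QH hNC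
  refine ⟨⟨QH, K₀, inferInstance, hK₀c⟩, ?_⟩
  -- `K` is normal in `G`
  have hK₀cop : Nat.Coprime (Nat.card K₀) K₀.index := by
    rw [hK₀c.symm.index_eq_card, ← hK₀c.index_eq_card]
    exact QH.card_coprime_index.symm
  have hKn : (K₀.map H.subtype).Normal :=
    Cfsg.Agent.Lib_helper6_CycSylow.normal_map_of_coprime H K₀ hK₀cop
  set K : Subgroup G := K₀.map H.subtype with hKdef
  have hKQ : ∀ x ∈ K, x ∈ (P' : Subgroup G) → x = 1 := by
    rintro _ ⟨x₀, hx₀, rfl⟩ hxP
    have h3 : x₀ ∈ (QH : Subgroup H) := by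
      have h0 : (x₀ : G) ∈ (QH : Subgroup H).map H.subtype := by
        rw [hQeq]; exact ⟨hxP, x₀.2⟩
      obtain ⟨w, hw, hwx⟩ := h0
      have h00 : w = x₀ := Subtype.ext hwx
      rw [← h00]; exact hw
    have h4 : x₀ ∈ K₀ ⊓ (QH : Subgroup H) := ⟨hx₀, h3⟩
    rw [hK₀c.disjoint.eq_bot, Subgroup.mem_bot] at h4
    rw [h4]; rfl
  have hdecomp : ∀ h ∈ H, ∃ k ∈ K, ∃ q ∈ Q, h = k * q := by
    intro h hh
    obtain ⟨⟨⟨k, hk⟩, ⟨q, hq⟩⟩, hkq⟩ := hK₀c.2 ⟨h, hh⟩
    refine ⟨k, ⟨k, hk, rfl⟩, q, by rw [← hQeq]; exact ⟨q, hq, rfl⟩, ?_⟩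
    have h0 := congrArg Subtype.val hkq
    exact h0.symm
  -- the centralizer of `H / K`
  have hHKn : (H.map (QuotientGroup.mk' K)).Normal :=
    Subgroup.Normal.map inferInstance _ (QuotientGroup.mk'_surjective K)
  let C : Subgroup G :=
    (Subgroup.centralizer ((H.map (QuotientGroup.mk' K) : Subgroup (G ⧸ K)) : Set (G ⧸ K))).comap
      (QuotientGroup.mk' K)
  have hCn : C.Normal := inferInstance
  have hCmem : ∀ g, g ∈ C ↔ ∀ h ∈ H,
      (QuotientGroup.mk h : G ⧸ K) * QuotientGroup.mk g = QuotientGroup.mk g * QuotientGroup.mk h := by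
    intro g
    show QuotientGroup.mk' K g ∈ Subgroup.centralizer _ ↔ _
    rw [Subgroup.mem_centralizer_iff]
    constructor
    · intro hg h hh
      exact hg _ ⟨h, hh, rfl⟩
    · rintro hg _ ⟨h, hh, rfl⟩
      exact hg h hh
  have hP'C : (P' : Subgroup G) ≤ C := by
    intro a ha
    rw [hCmem]
    intro h hh
    obtain ⟨k, hk, q, hq, rfl⟩ := hdecomp h hh
    have hk1 : (QuotientGroup.mk k : G ⧸ K) = 1 := (QuotientGroup.eq_one_iff k).mpr hk
    rw [QuotientGroup.mk_mul, hk1, one_mul, ← QuotientGroup.mk_mul, ← QuotientGroup.mk_mul,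
      hab q hq.1 a ha]
  -- Burnside's transfer theorem in `C`
  let PC : Sylow p C := P'.subtype hP'C
  have hPCmem : ∀ u : C, u ∈ (PC : Subgroup C) ↔ (u : G) ∈ (P' : Subgroup G) := by
    intro u
    show u ∈ ((P'.subtype hP'C : Sylow p C) : Subgroup C) ↔ _
    rw [Sylow.coe_subtype, Subgroup.mem_subgroupOf]
  have hNC2 : Subgroup.normalizer (PC : Set C) ≤ Subgroup.centralizer (PC : Set C) := by
    intro z hz
    change z ∈ Subgroup.normalizer ((PC : Subgroup C) : Set C) at hz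
    rw [Subgroup.mem_normalizer_iff] at hz
    rw [Subgroup.mem_centralizer_iff]
    intro x hx
    have hzN : ∀ u, u ∈ (P' : Subgroup G) ↔ (z : G) * u * (z : G)⁻¹ ∈ (P' : Subgroup G) := by
      intro u
      constructor
      · intro hu
        have h3 := (hz ⟨u, hP'C hu⟩).mp ((hPCmem _).mpr hu)
        exact (hPCmem _).mp h3
      · intro hu
        have huC : u ∈ C := by
          have h3 : u = (z : G)⁻¹ * ((z : G) * u * (z : G)⁻¹) * (z : G) := by group
          rw [h3]; exact C.mul_mem (C.mul_mem (C.inv_mem z.2) (hP'C hu)) z.2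
        have h3 := (hz ⟨u, huC⟩).mpr ((hPCmem _).mpr hu)
        exact (hPCmem _).mp h3
    obtain ⟨q₀, hq₀, hq₀1⟩ : ∃ q₀ ∈ (QH : Subgroup H), q₀ ≠ 1 := by
      by_contra hcon
      push Not at hcon
      exact hQHne ((Subgroup.eq_bot_iff_forall _).mpr hcon)
    have hqQ : (q₀ : G) ∈ Q := by rw [← hQeq]; exact ⟨q₀, hq₀, rfl⟩
    have hfix : (z : G) * (q₀ : G) * (z : G)⁻¹ = (q₀ : G) := by
      have h3 : (z : G) * (q₀ : G) * (z : G)⁻¹ * (q₀ : G)⁻¹ ∈ K := by
        rw [← QuotientGroup.eq_one_iff]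
        have h4 := (hCmem (z : G)).mp z.2 (q₀ : G) q₀.2
        rw [QuotientGroup.mk_mul, QuotientGroup.mk_mul, QuotientGroup.mk_mul, QuotientGroup.mk_inv,
          QuotientGroup.mk_inv, ← h4]
        group
      have h5 : (z : G) * (q₀ : G) * (z : G)⁻¹ * (q₀ : G)⁻¹ ∈ (P' : Subgroup G) :=
        Subgroup.mul_mem _ ((hzN _).mp hqQ.1) (Subgroup.inv_mem _ hqQ.1)
      exact mul_inv_eq_one.mp (hKQ _ h3 h5)
    have hcomm := Cfsg.Agent.Lib_helper6_CycSylow.commute_of_cyclic P' hP'cyc (z : G) hzN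
      (Or.inr ⟨(q₀ : G), hqQ.1, fun h => hq₀1 (Subtype.ext h), hfix⟩)
    have hxP : (x : G) ∈ (P' : Subgroup G) := (hPCmem x).mp hx
    apply Subtype.ext
    exact (hcomm x hxP).symm
  let L₀ : Subgroup C := (MonoidHom.transferSylow PC hNC2).ker
  have hL₀c : Subgroup.IsComplement' L₀ (PC : Subgroup C) :=
    MonoidHom.ker_transferSylow_isComplement' PC hNC2
  have hL₀cop : Nat.Coprime (Nat.card L₀) L₀.index := by
    rw [hL₀c.symm.index_eq_card, ← hL₀c.index_eq_card]
    exact PC.card_coprime_index.symm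
  have hLn : (L₀.map C.subtype).Normal :=
    Cfsg.Agent.Lib_helper6_CycSylow.normal_map_of_coprime C L₀ hL₀cop
  set L : Subgroup G := L₀.map C.subtype with hLdef
  have hLC : L ≤ C := by
    rintro _ ⟨x, -, rfl⟩
    exact x.2
  refine ⟨3, ![⊥, L, C, ⊤], rfl, rfl, ?_, ?_, ?_⟩
  · rw [Fin.monotone_iff_le_succ]
    intro i
    fin_cases i
    · exact bot_le
    · exact hLC
    · exact le_top
  · intro i
    fin_cases i
    · show (⊥ : Subgroup G).Normal
      infer_instance
    · exact hLn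
    · exact hCn
    · show (⊤ : Subgroup G).Normal
      infer_instance
  · intro i
    fin_cases i
    · right
      show ((⊥ : Subgroup G).relIndex L).Coprime p
      rw [Subgroup.relIndex_bot_left, hLdef, Subgroup.card_map_of_injective C.subtype_injective,
        ← hL₀c.index_eq_card]
      exact ((Nat.Prime.coprime_iff_not_dvd hp).mpr PC.not_dvd_index).symm
    · left
      show ∃ m : ℕ, L.relIndex C = p ^ m
      have h3 : L.relIndex C = L₀.index := by
        rw [Subgroup.relIndex, hLdef]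
        congr 1
        exact Subgroup.comap_map_eq_self_of_injective C.subtype_injective L₀
      rw [h3, hL₀c.symm.index_eq_card]
      exact IsPGroup.iff_card.mp PC.2
    · right
      show (C.relIndex ⊤).Coprime p
      rw [Subgroup.relIndex_top_right]
      have h3 : ¬ p ∣ C.index := fun h => P'.not_dvd_index (dvd_trans h (Subgroup.index_dvd_of_le hP'C))
      exact ((Nat.Prime.coprime_iff_not_dvd hp).mpr h3).symm

end Cfsg.Agent.S4145
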