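import Cfsg.Statements.S4153
import Cfsg.Agent.Lib_helper6_Sylow

set_option autoImplicit false
open Cfsg

namespace Cfsg.Agent.S4153


open Cfsg.Agent in
theorem fiber_bound {G : Type*} [Group G] [Finite G] (p : ℕ) [Fact p.Prime] (N : Subgroup G)
    [N.Normal] (P : Sylow p G) (Pbar : Sylow p (G ⧸ N)) (xb : G ⧸ N)
    (hx : ∃ k : ℕ, orderOf xb = p ^ k) :
    Nat.card (P : Subgroup G) ≤
      Nat.card {g : G // (∃ k : ℕ, orderOf g = p ^ k) ∧ (QuotientGroup.mk g : G ⧸ N) = xb} *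
        Nat.card (Pbar : Subgroup (G ⧸ N)) ∧
    (N ≤ Subgroup.center G → Nat.card (P : Subgroup G) =
      Nat.card {g : G // (∃ k : ℕ, orderOf g = p ^ k) ∧ (QuotientGroup.mk g : G ⧸ N) = xb} *
        Nat.card (Pbar : Subgroup (G ⧸ N))) := by
  classical
  have hp : p.Prime := Fact.out
  obtain ⟨R, hR⟩ := Lib_helper6_Sylow.pElem_mem_sylow hx
  obtain ⟨Q, rfl⟩ := Sylow.mapSurjective_surjective (QuotientGroup.mk'_surjective N) p R
  rw [Sylow.coe_mapSurjective] at hR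
  obtain ⟨y₀, hy₀Q, hy₀⟩ := hR
  have hy₀' : (QuotientGroup.mk y₀ : G ⧸ N) = xb := hy₀
  let K : Subgroup (Q : Subgroup G) := N.subgroupOf (Q : Subgroup G)
  let f' : (Q : Subgroup G) →* G ⧸ N := (QuotientGroup.mk' N).comp (Q : Subgroup G).subtype
  have hker : f'.ker = K := by
    ext n
    rw [MonoidHom.mem_ker]
    show (QuotientGroup.mk (n : G) : G ⧸ N) = 1 ↔ _
    rw [QuotientGroup.eq_one_iff, Subgroup.mem_subgroupOf]
  have hrange : f'.range = (Q : Subgroup G).map (QuotientGroup.mk' N) := by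
    rw [MonoidHom.range_comp, Subgroup.range_subtype]
  have hK : Nat.card K * Nat.card ((Q : Subgroup G).map (QuotientGroup.mk' N)) =
      Nat.card (Q : Subgroup G) := by
    rw [← hrange, ← Subgroup.index_ker, hker]
    exact K.card_mul_index
  have hQP : Nat.card (Q : Subgroup G) = Nat.card (P : Subgroup G) := by
    rw [Sylow.card_eq_multiplicity, Sylow.card_eq_multiplicity]
  have hQP' : Nat.card ((Q : Subgroup G).map (QuotientGroup.mk' N)) =
      Nat.card (Pbar : Subgroup (G ⧸ N)) := by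
    rw [← Sylow.coe_mapSurjective (QuotientGroup.mk'_surjective N),
      Sylow.card_eq_multiplicity, Sylow.card_eq_multiplicity]
  rw [hQP, hQP'] at hK
  let φ : K → {g : G // (∃ k : ℕ, orderOf g = p ^ k) ∧ (QuotientGroup.mk g : G ⧸ N) = xb} :=
    fun n => ⟨y₀ * (n : G), Lib_helper6_Sylow.pElem_of_mem_sylow Q (mul_mem hy₀Q n.1.2), by
      have hn : ((n : (Q : Subgroup G)) : G) ∈ N := Subgroup.mem_subgroupOf.mp n.2
      rw [QuotientGroup.mk_mul, hy₀', (QuotientGroup.eq_one_iff _).mpr hn, mul_one]⟩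
  have hφ : Function.Injective φ := by
    intro n n' h
    have h' : y₀ * ((n : (Q : Subgroup G)) : G) = y₀ * ((n' : (Q : Subgroup G)) : G) :=
      congrArg Subtype.val h
    exact Subtype.ext (Subtype.ext (mul_left_cancel h'))
  refine ⟨?_, ?_⟩
  · rw [← hK]
    exact Nat.mul_le_mul_right _ (Nat.card_le_card_of_injective φ hφ)
  · intro hNZ
    rw [← hK]
    congr 1
    apply Nat.card_eq_of_bijective φ
    refine ⟨hφ, ?_⟩
    rintro ⟨y, ⟨b, hb⟩, hy⟩
    have hnN : y₀⁻¹ * y ∈ N := QuotientGroup.eq.mp (hy₀'.trans hy.symm)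
    have hnZ : y₀⁻¹ * y ∈ Subgroup.center G := hNZ hnN
    obtain ⟨a, ha⟩ := Lib_helper6_Sylow.pElem_of_mem_sylow Q hy₀Q
    have hcomm : Commute y₀⁻¹ y := by
      have h1 := Subgroup.mem_center_iff.mp hnZ y₀
      -- h1 : y₀ * (y₀⁻¹ * y) = y₀⁻¹ * y * y₀
      have h2 : y * y₀ = y₀ * y := by
        calc y * y₀ = y₀ * (y₀⁻¹ * y * y₀) := by group
          _ = y₀ * (y₀ * (y₀⁻¹ * y)) := by rw [h1]
          _ = y₀ * y := by group
      show y₀⁻¹ * y = y * y₀⁻¹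
      calc y₀⁻¹ * y = y₀⁻¹ * (y * y₀) * y₀⁻¹ := by group
        _ = y₀⁻¹ * (y₀ * y) * y₀⁻¹ := by rw [h2]
        _ = y * y₀⁻¹ := by group
    have hpow : (y₀⁻¹ * y) ^ (p ^ (a + b)) = 1 := by
      rw [hcomm.mul_pow, inv_pow, pow_add, pow_mul, ← ha, pow_orderOf_eq_one, one_pow, inv_one,
        one_mul, mul_comm, pow_mul, ← hb, pow_orderOf_eq_one, one_pow]
    obtain ⟨j, -, hj⟩ := (Nat.dvd_prime_pow hp).1 (orderOf_dvd_of_pow_eq_one hpow)
    obtain ⟨Q', hQ'⟩ := Lib_helper6_Sylow.pElem_mem_sylow (p := p) ⟨j, hj⟩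
    obtain ⟨g, hg⟩ := MulAction.exists_smul_eq G Q Q'
    rw [← hg, Lib_helper6_Sylow.mem_smul_sylow] at hQ'
    have hnQ : y₀⁻¹ * y ∈ (Q : Subgroup G) := by
      have h1 := Subgroup.mem_center_iff.mp hnZ g
      have : g⁻¹ * (y₀⁻¹ * y) * g = y₀⁻¹ * y := by
        rw [mul_assoc, ← h1]; group
      rw [this] at hQ'
      exact hQ'
    refine ⟨⟨⟨y₀⁻¹ * y, hnQ⟩, Subgroup.mem_subgroupOf.mpr hnN⟩, ?_⟩
    apply Subtype.ext
    show y₀ * (y₀⁻¹ * y) = y
    group

/-- Let G be a finite group, p a prime, N a normal subgroup, P a Sylow p-subgroup of G and P̄ a Sylow p-subgroup of G/N. Count the elements of p-power order, the identity included. Then (number of such elements of G/N)/#P̄ ≤ (number of such elements of G)/#P, stated as a cross-multiplied inequality, with equality when N is central. -/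
theorem result {G : Type*} [Group G] [Finite G] (p : ℕ) [Fact p.Prime] (N : Subgroup G) [N.Normal]
    (P : Sylow p G) (Pbar : Sylow p (G ⧸ N)) :
    Nat.card {g : (G ⧸ N) // ∃ k : ℕ, orderOf g = p ^ k} * Nat.card (P : Subgroup G) ≤ Nat.card {g : G // ∃ k : ℕ, orderOf g = p ^ k} * Nat.card (Pbar : Subgroup (G ⧸ N)) ∧
    (N ≤ Subgroup.center G → Nat.card {g : (G ⧸ N) // ∃ k : ℕ, orderOf g = p ^ k} * Nat.card (P : Subgroup G) = Nat.card {g : G // ∃ k : ℕ, orderOf g = p ^ k} * Nat.card (Pbar : Subgroup (G ⧸ N))) := by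
  classical
  have hp : p.Prime := Fact.out
  have hquot : ∀ g : G, (∃ k : ℕ, orderOf g = p ^ k) →
      ∃ k : ℕ, orderOf (QuotientGroup.mk g : G ⧸ N) = p ^ k := by
    rintro g ⟨k, hk⟩
    have : (QuotientGroup.mk g : G ⧸ N) ^ (p ^ k) = 1 := by
      rw [← QuotientGroup.mk_pow, ← hk, pow_orderOf_eq_one]; rfl
    obtain ⟨j, -, hj⟩ := (Nat.dvd_prime_pow hp).1 (orderOf_dvd_of_pow_eq_one this)
    exact ⟨j, hj⟩
  let e : {g : G // ∃ k : ℕ, orderOf g = p ^ k} ≃
      Σ b : {g : (G ⧸ N) // ∃ k : ℕ, orderOf g = p ^ k},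
        {g : G // (∃ k : ℕ, orderOf g = p ^ k) ∧ (QuotientGroup.mk g : G ⧸ N) = b.1} :=
    { toFun := fun a => ⟨⟨QuotientGroup.mk a.1, hquot a.1 a.2⟩, ⟨a.1, a.2, rfl⟩⟩
      invFun := fun x => ⟨x.2.1, x.2.2.1⟩
      left_inv := fun a => rfl
      right_inv := by
        rintro ⟨⟨b, hb⟩, ⟨g, hg, h⟩⟩
        dsimp only at h
        subst h
        rfl }
  letI : Fintype {g : (G ⧸ N) // ∃ k : ℕ, orderOf g = p ^ k} := Fintype.ofFinite _
  have hsum : Nat.card {g : G // ∃ k : ℕ, orderOf g = p ^ k} =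
      ∑ b : {g : (G ⧸ N) // ∃ k : ℕ, orderOf g = p ^ k},
        Nat.card {g : G // (∃ k : ℕ, orderOf g = p ^ k) ∧ (QuotientGroup.mk g : G ⧸ N) = b.1} := by
    rw [Nat.card_congr e, Nat.card_sigma]
  have hB : Nat.card {g : (G ⧸ N) // ∃ k : ℕ, orderOf g = p ^ k} * Nat.card (P : Subgroup G) =
      ∑ _b : {g : (G ⧸ N) // ∃ k : ℕ, orderOf g = p ^ k}, Nat.card (P : Subgroup G) := by
    rw [Finset.sum_const, Finset.card_univ, smul_eq_mul, Nat.card_eq_fintype_card]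
  rw [hB, hsum, Finset.sum_mul]
  refine ⟨?_, ?_⟩
  · apply Finset.sum_le_sum
    intro b _
    exact (fiber_bound p N P Pbar b.1 b.2).1
  · intro hNZ
    apply Finset.sum_congr rfl
    intro b _
    exact (fiber_bound p N P Pbar b.1 b.2).2 hNZ

end Cfsg.Agent.S4153
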