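import Cfsg.Statements.S4154
-- import your own Cfsg.Agent.* helpers here

set_option autoImplicit false
open Cfsg

namespace Cfsg.Agent.S4154


theorem uniq {Γ : Type*} [Group Γ] [Finite Γ] (a : MulAut Γ)
    (hccp : ∀ x : Γ, ∃ c g : Γ, a c = c ∧ x = c * (g⁻¹ * a g))
    (c c' g g' : Γ) (hc : a c = c) (hc' : a c' = c')
    (h : c * (g⁻¹ * a g) = c' * (g'⁻¹ * a g')) : c = c' := by
  classical
  let C : Subgroup Γ :=
    { carrier := {x | a x = x}
      mul_mem' := by
        intro x y hx hy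
        simp only [Set.mem_ofPred_eq] at hx hy ⊢
        rw [map_mul, hx, hy]
      one_mem' := by simp
      inv_mem' := by
        intro x hx
        simp only [Set.mem_ofPred_eq] at hx ⊢
        rw [map_inv, hx] }
  have hmemC : ∀ x : Γ, x ∈ C ↔ a x = x := fun x => Iff.rfl
  let f : Γ → Γ := fun h => h * (a h)⁻¹
  have hwd : ∀ x y : Γ, (QuotientGroup.leftRel C).r x y → f x = f y := by
    intro x y hxy
    have hxy' : x⁻¹ * y ∈ C := QuotientGroup.leftRel_apply.mp hxy
    rw [hmemC] at hxy'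
    rw [map_mul, map_inv] at hxy'
    show x * (a x)⁻¹ = y * (a y)⁻¹
    have : a y = a x * (x⁻¹ * y) := by rw [← hxy']; group
    rw [this]; group
  let f' : Γ ⧸ C → Γ := fun q => Quotient.liftOn' q f hwd
  let I : Set Γ := Set.range f'
  have hI : ∀ g : Γ, g⁻¹ * a g ∈ I := by
    intro g
    refine ⟨QuotientGroup.mk g⁻¹, ?_⟩
    show g⁻¹ * (a g⁻¹)⁻¹ = g⁻¹ * a g
    rw [map_inv, inv_inv]
  have hcardI : Nat.card I ≤ C.index := by
    rw [Subgroup.index]
    exact Finite.card_range_le f'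
  let φ : C × I → Γ := fun p => (p.1 : Γ) * (p.2 : Γ)
  have hsurj : Function.Surjective φ := by
    intro x
    obtain ⟨c, g, hc, hx⟩ := hccp x
    exact ⟨(⟨c, hc⟩, ⟨g⁻¹ * a g, hI g⟩), hx.symm⟩
  have hcard : Nat.card (C × I) ≤ Nat.card Γ := by
    rw [Nat.card_prod, ← C.card_mul_index]
    exact Nat.mul_le_mul_left _ hcardI
  have hbij := Function.Surjective.bijective_of_nat_card_le hsurj hcard
  have := hbij.1 (a₁ := (⟨c, hc⟩, ⟨g⁻¹ * a g, hI g⟩)) (a₂ := (⟨c', hc'⟩, ⟨g'⁻¹ * a g', hI g'⟩)) h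
  exact congrArg (fun p : C × I => (p.1 : Γ)) this

/-- Let G be a finite group and α an automorphism of G such that every element of G is the product of an element fixed by α and an element of the form g⁻¹α(g). If N is a normal α-invariant subgroup, then the automorphism ᾱ induced on G/N has the same property, and every coset fixed by ᾱ contains an element fixed by α (so the fixed points of ᾱ are the images of the fixed points of α). -/
theorem result {G : Type*} [Group G] [Finite G] (α : MulAut G)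
    (hccp : ∀ x : G, ∃ c g : G, α c = c ∧ x = c * (g⁻¹ * α g))
    (N : Subgroup G) [N.Normal] (hN : ∀ n ∈ N, α n ∈ N) :
    (∀ x : G, ∃ c g : G, c⁻¹ * α c ∈ N ∧ x⁻¹ * (c * (g⁻¹ * α g)) ∈ N) ∧
    (∀ x : G, x⁻¹ * α x ∈ N → ∃ c : G, α c = c ∧ c⁻¹ * x ∈ N) := by
  classical
  have he : N.map (α : G ≃* G) = N := by
    apply Subgroup.eq_of_le_of_card_ge
    · rintro _ ⟨n, hn, rfl⟩
      exact hN n hn
    · exact le_of_eq (Nat.card_congr (N.equivMapOfInjective (α : G ≃* G).toMonoidHom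
        (α : G ≃* G).injective).toEquiv)
  let ā : MulAut (G ⧸ N) := QuotientGroup.congr N N α he
  have hā : ∀ g : G, ā (QuotientGroup.mk g) = QuotientGroup.mk (α g) := fun g => rfl
  refine ⟨?_, ?_⟩
  · intro x
    obtain ⟨c, g, hc, hx⟩ := hccp x
    refine ⟨c, g, ?_, ?_⟩
    · rw [hc]; simp
    · rw [← hx]; simp
  · intro x hx
    obtain ⟨c, g, hc, hxe⟩ := hccp x
    have hi : (g⁻¹ * α g)⁻¹ * α (g⁻¹ * α g) ∈ N := by
      have : x⁻¹ * α x = (g⁻¹ * α g)⁻¹ * α (g⁻¹ * α g) := by
        rw [hxe, map_mul, hc]; group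
      rw [← this]; exact hx
    have hccp' : ∀ y : G ⧸ N, ∃ c g : G ⧸ N, ā c = c ∧ y = c * (g⁻¹ * ā g) := by
      intro y
      induction y using QuotientGroup.induction_on with
      | H y =>
        obtain ⟨c, g, hc, hy⟩ := hccp y
        refine ⟨QuotientGroup.mk c, QuotientGroup.mk g, ?_, ?_⟩
        · rw [hā, hc]
        · rw [hā, hy]; rfl
    have hfix : ā (QuotientGroup.mk (g⁻¹ * α g)) = QuotientGroup.mk (g⁻¹ * α g) := by
      rw [hā]
      symm
      exact QuotientGroup.eq.mpr hi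
    have h1 : ā (1 : G ⧸ N) = 1 := map_one _
    have key := uniq ā hccp' (QuotientGroup.mk (g⁻¹ * α g)) 1 1 (QuotientGroup.mk g) hfix h1
      (by rw [hā, map_one]; simp)
    have hiN : g⁻¹ * α g ∈ N := (QuotientGroup.eq_one_iff _).mp key
    refine ⟨c, hc, ?_⟩
    rw [hxe]
    simpa using hiN

end Cfsg.Agent.S4154
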