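import Cfsg.Statements.S4156
import Mathlib

set_option autoImplicit false
open Cfsg

namespace Cfsg.Agent.S4156

universe u

noncomputable def sMap (n : ℕ) (F : Type*) [Field F] : (Fin n → F) →ₗ[F] (Fin (n + 1) → F) :=
  LinearMap.pi (fun x : Fin (n + 1) =>
    if h : x.val < n then LinearMap.proj (⟨x.val, h⟩ : Fin n) else 0)

noncomputable def qMap (n : ℕ) (F : Type*) [Field F] : (Fin (n + 1) → F) →ₗ[F] (Fin n → F) :=
  LinearMap.pi (fun i : Fin n =>
    ((LinearMap.proj (Fin.castSucc i) : (Fin (n + 1) → F) →ₗ[F] F) -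
      (LinearMap.proj (Fin.last n) : (Fin (n + 1) → F) →ₗ[F] F)))

theorem sMap_castSucc (n : ℕ) (F : Type*) [Field F] (w : Fin n → F) (i : Fin n) :
    sMap n F w (Fin.castSucc i) = w i := by
  simp [sMap]

theorem sMap_last (n : ℕ) (F : Type*) [Field F] (w : Fin n → F) :
    sMap n F w (Fin.last n) = 0 := by
  simp [sMap]

theorem qMap_apply (n : ℕ) (F : Type*) [Field F] (v : Fin (n + 1) → F) (i : Fin n) :
    qMap n F v i = v (Fin.castSucc i) - v (Fin.last n) := by
  simp [qMap]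

theorem sq (n : ℕ) (F : Type*) [Field F] (v : Fin (n + 1) → F) (x : Fin (n + 1)) :
    sMap n F (qMap n F v) x = v x - v (Fin.last n) := by
  refine Fin.lastCases ?_ (fun i => ?_) x
  · rw [sMap_last, sub_self]
  · rw [sMap_castSucc, qMap_apply]

noncomputable def tMap (n : ℕ) (F : Type*) [Field F] (σ : Equiv.Perm (Fin (n + 1))) :
    (Fin n → F) →ₗ[F] (Fin n → F) :=
  (qMap n F).comp ((LinearMap.funLeft F F (σ⁻¹ : Equiv.Perm (Fin (n + 1)))).comp (sMap n F))

theorem tMap_eq (n : ℕ) (F : Type*) [Field F] (σ : Equiv.Perm (Fin (n + 1))) (w : Fin n → F) :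
    tMap n F σ w = qMap n F (fun x => sMap n F w (σ⁻¹ x)) := rfl

theorem tMap_apply (n : ℕ) (F : Type*) [Field F] (σ : Equiv.Perm (Fin (n + 1))) (w : Fin n → F)
    (j : Fin n) : tMap n F σ w j =
      sMap n F w (σ⁻¹ (Fin.castSucc j)) - sMap n F w (σ⁻¹ (Fin.last n)) := by
  rw [tMap_eq, qMap_apply]

theorem tMap_one (n : ℕ) (F : Type*) [Field F] : tMap n F 1 = LinearMap.id := by
  apply LinearMap.ext; intro w; funext j
  rw [tMap_apply, inv_one, Equiv.Perm.one_apply, Equiv.Perm.one_apply, sMap_castSucc, sMap_last,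
    sub_zero]
  rfl

theorem tMap_mul (n : ℕ) (F : Type*) [Field F] (σ τ : Equiv.Perm (Fin (n + 1))) :
    tMap n F (σ * τ) = (tMap n F σ).comp (tMap n F τ) := by
  apply LinearMap.ext; intro w; funext j
  rw [LinearMap.comp_apply, tMap_apply, tMap_apply]
  have h1 : ∀ y, sMap n F (tMap n F τ w) y =
      sMap n F w (τ⁻¹ y) - sMap n F w (τ⁻¹ (Fin.last n)) := by
    intro y
    rw [tMap_eq, sq]
  rw [h1, h1, mul_inv_rev, Equiv.Perm.mul_apply, Equiv.Perm.mul_apply]
  ring

noncomputable def hHom (n : ℕ) (F : Type*) [Field F] :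
    Equiv.Perm (Fin (n + 1)) →* Matrix (Fin n) (Fin n) F where
  toFun σ := LinearMap.toMatrix' (tMap n F σ)
  map_one' := by rw [tMap_one, LinearMap.toMatrix'_id]
  map_mul' σ τ := by rw [tMap_mul, LinearMap.toMatrix'_comp]

theorem hHom_ne_one (n : ℕ) (hn : 5 ≤ n) (F : Type*) [Field F] :
    ∃ σ : Equiv.Perm (Fin (n + 1)), σ ∈ alternatingGroup (Fin (n + 1)) ∧ σ ≠ 1 ∧
      hHom n F σ ≠ 1 := by
  classical
  obtain ⟨i₀, hi₀⟩ : ∃ i : Fin n, i = ⟨0, by omega⟩ := ⟨_, rfl⟩
  obtain ⟨i₁, hi₁⟩ : ∃ i : Fin n, i = ⟨1, by omega⟩ := ⟨_, rfl⟩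
  obtain ⟨i₂, hi₂⟩ : ∃ i : Fin n, i = ⟨2, by omega⟩ := ⟨_, rfl⟩
  have h01 : Fin.castSucc i₀ ≠ Fin.castSucc i₁ := by
    intro h
    have := congrArg Fin.val h
    simp [hi₀, hi₁] at this
  have h12 : Fin.castSucc i₁ ≠ Fin.castSucc i₂ := by
    intro h
    have := congrArg Fin.val h
    simp [hi₁, hi₂] at this
  have h20 : i₂ ≠ i₀ := by
    intro h
    have := congrArg Fin.val h
    simp [hi₀, hi₂] at this
  obtain ⟨σ, hσ⟩ : ∃ σ : Equiv.Perm (Fin (n + 1)),
      σ = Equiv.swap (Fin.castSucc i₀) (Fin.castSucc i₁) *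
        Equiv.swap (Fin.castSucc i₁) (Fin.castSucc i₂) := ⟨_, rfl⟩
  have hσ2 : σ (Fin.castSucc i₂) = Fin.castSucc i₀ := by
    rw [hσ, Equiv.Perm.mul_apply, Equiv.swap_apply_right, Equiv.swap_apply_right]
  have hσl : σ (Fin.last n) = Fin.last n := by
    rw [hσ, Equiv.Perm.mul_apply,
      Equiv.swap_apply_of_ne_of_ne (Fin.castSucc_lt_last i₁).ne' (Fin.castSucc_lt_last i₂).ne',
      Equiv.swap_apply_of_ne_of_ne (Fin.castSucc_lt_last i₀).ne' (Fin.castSucc_lt_last i₁).ne']
  refine ⟨σ, ?_, ?_, ?_⟩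
  · rw [Equiv.Perm.mem_alternatingGroup, hσ, map_mul, Equiv.Perm.sign_swap h01,
      Equiv.Perm.sign_swap h12]
    rfl
  · intro h
    rw [h, Equiv.Perm.one_apply] at hσ2
    exact h20 (Fin.castSucc_injective n hσ2)
  · intro h
    have hT : tMap n F σ = LinearMap.id := by
      apply LinearMap.toMatrix'.injective
      rw [LinearMap.toMatrix'_id]; exact h
    have h2 : tMap n F σ (Pi.single i₀ (1 : F)) i₀ = (Pi.single i₀ (1 : F) : Fin n → F) i₀ := by
      rw [hT]; rfl
    have e1 : σ⁻¹ (Fin.castSucc i₀) = Fin.castSucc i₂ := by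
      rw [Equiv.Perm.inv_eq_iff_eq]; exact hσ2.symm
    have e2 : σ⁻¹ (Fin.last n) = Fin.last n := by
      rw [Equiv.Perm.inv_eq_iff_eq]; exact hσl.symm
    rw [tMap_apply, e1, e2, sMap_castSucc, sMap_last, Pi.single_eq_of_ne h20,
      Pi.single_eq_same] at h2
    simp at h2


/-- Let n ≥ 5 and F a finite field. Then the projective special linear group PSL_n(F) contains a subgroup isomorphic to the alternating group of degree n + 1. -/
theorem result (n : ℕ) (hn : 5 ≤ n) (F : Type*) [Field F] [Finite F] :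
    ∃ f : alternatingGroup (Fin (n + 1)) →* Matrix.ProjectiveSpecialLinearGroup (Fin n) F, Function.Injective f := by
  classical
  obtain ⟨σ, hσA, hσ1, hσh⟩ := hHom_ne_one n hn F
  haveI hs : IsSimpleGroup (alternatingGroup (Fin (n + 1))) :=
    alternatingGroup.isSimpleGroup (by rw [Nat.card_eq_fintype_card, Fintype.card_fin]; omega)
  have hnc : ¬ ∀ a b : alternatingGroup (Fin (n + 1)), a * b = b * a := by
    intro hc
    have hcen : (⟨σ, hσA⟩ : alternatingGroup (Fin (n + 1))) ∈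
        Subgroup.center (alternatingGroup (Fin (n + 1))) := by
      rw [Subgroup.mem_center_iff]; intro g; exact hc g _
    rw [alternatingGroup.center_eq_bot
      (by rw [Nat.card_eq_fintype_card, Fintype.card_fin]; omega), Subgroup.mem_bot] at hcen
    exact hσ1 (congrArg Subtype.val hcen)
  have hdet : ∀ a : alternatingGroup (Fin (n + 1)),
      (hHom n F (a : Equiv.Perm (Fin (n + 1)))).det = 1 := by
    obtain ⟨δ, hδ⟩ : ∃ δ : alternatingGroup (Fin (n + 1)) →* Fˣ, δ =
      (Matrix.detMonoidHom.comp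
        ((hHom n F).comp (alternatingGroup (Fin (n + 1))).subtype)).toHomUnits := ⟨_, rfl⟩
    rcases hs.eq_bot_or_eq_top_of_normal δ.ker inferInstance with hk | hk
    · exfalso
      apply hnc
      intro a b
      apply (MonoidHom.ker_eq_bot_iff δ).mp hk
      rw [map_mul, map_mul, mul_comm]
    · intro a
      have hmem : a ∈ δ.ker := by rw [hk]; exact Subgroup.mem_top a
      have h1 : δ a = 1 := hmem
      have h2 := congrArg Units.val h1
      rw [hδ, MonoidHom.coe_toHomUnits] at h2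
      exact h2
  obtain ⟨f₄, hf₄def⟩ : ∃ f₄ : alternatingGroup (Fin (n + 1)) →*
      Matrix.SpecialLinearGroup (Fin n) F,
      ∀ a, (f₄ a : Matrix (Fin n) (Fin n) F) = hHom n F (a : Equiv.Perm (Fin (n + 1))) :=
    ⟨{ toFun := fun a => ⟨hHom n F (a : Equiv.Perm (Fin (n + 1))), hdet a⟩
       map_one' := by
         apply Subtype.ext
         exact map_one (hHom n F)
       map_mul' := by
         intro a b
         apply Subtype.ext
         exact map_mul (hHom n F) (a : Equiv.Perm (Fin (n + 1))) (b : Equiv.Perm (Fin (n + 1))) },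
     fun a => rfl⟩
  have hf₄ : Function.Injective f₄ := by
    rw [← MonoidHom.ker_eq_bot_iff]
    rcases hs.eq_bot_or_eq_top_of_normal f₄.ker inferInstance with hk | hk
    · exact hk
    · exfalso
      have hmem : (⟨σ, hσA⟩ : alternatingGroup (Fin (n + 1))) ∈ f₄.ker := by
        rw [hk]; exact Subgroup.mem_top _
      have h1 : f₄ ⟨σ, hσA⟩ = 1 := hmem
      have h2 := congrArg (fun A : Matrix.SpecialLinearGroup (Fin n) F =>
        (A : Matrix (Fin n) (Fin n) F)) h1
      simp only [hf₄def, Matrix.SpecialLinearGroup.coe_one] at h2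
      exact hσh h2
  obtain ⟨f₅, hf₅⟩ : ∃ f₅ : alternatingGroup (Fin (n + 1)) →*
      Matrix.ProjectiveSpecialLinearGroup (Fin n) F, f₅ =
      (QuotientGroup.mk' (Subgroup.center (Matrix.SpecialLinearGroup (Fin n) F))).comp f₄ :=
    ⟨_, rfl⟩
  refine ⟨f₅, ?_⟩
  rw [← MonoidHom.ker_eq_bot_iff]
  rcases hs.eq_bot_or_eq_top_of_normal f₅.ker (MonoidHom.normal_ker f₅) with hk | hk
  · exact hk
  · exfalso
    apply hnc
    intro a b
    apply hf₄
    have ha : f₄ a ∈ Subgroup.center (Matrix.SpecialLinearGroup (Fin n) F) := by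
      have hmem : a ∈ f₅.ker := by
        rw [hk]; exact Subgroup.mem_top a
      rw [MonoidHom.mem_ker, hf₅, MonoidHom.comp_apply] at hmem
      exact (QuotientGroup.eq_one_iff _).mp hmem
    rw [map_mul, map_mul]
    exact (Subgroup.mem_center_iff.mp ha (f₄ b)).symm

end Cfsg.Agent.S4156
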