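import Cfsg.Statements.S4168
import Cfsg.Agent.Lib_helper6_Sylow

set_option autoImplicit false
open Cfsg

namespace Cfsg.Agent.S4168

/-- Let L be a finite quasisimple group (perfect with L/Z(L) simple). Then every prime dividing the order of the centre Z(L) also divides the order of L/Z(L). -/
theorem result {L : Type*} [Group L] [Finite L] (hL : Cfsg.IsQuasisimple L)
    (p : ℕ) (hp : p.Prime) (hdiv : p ∣ Nat.card (Subgroup.center L)) : p ∣ (Subgroup.center L).index := by
  haveI : Fact p.Prime := ⟨hp⟩
  by_contra hnd
  obtain ⟨P⟩ : Nonempty (Sylow p L) := inferInstance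
  -- P ≤ Z(L)
  have hPZ : (P : Subgroup L) ≤ Subgroup.center L := by
    intro x hx
    obtain ⟨k, hk⟩ := Lib_helper6_Sylow.pElem_of_mem_sylow P hx
    have hcop : (Subgroup.center L).index.Coprime (orderOf x) := by
      rw [hk]
      exact Nat.Coprime.pow_right _ ((Nat.Prime.coprime_iff_not_dvd hp).mpr hnd).symm
    obtain ⟨m, hm⟩ := exists_pow_eq_self_of_coprime hcop
    rw [← hm]
    exact Subgroup.pow_mem _ (Subgroup.pow_index_mem _ x) m
  have hP : Subgroup.normalizer ((P : Subgroup L) : Set L) ≤ Subgroup.centralizer (P : Set L) := by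
    intro g _
    rw [Subgroup.mem_centralizer_iff]
    intro h hh
    exact (Subgroup.mem_center_iff.mp (hPZ hh) g).symm
  have hcompl := MonoidHom.ker_transferSylow_isComplement' P hP
  have hker : (MonoidHom.transferSylow P hP).ker = ⊤ := by
    apply top_unique
    have hperf : commutator L = ⊤ := hL.1.commutator_eq_top
    rw [← hperf, commutator_def, Subgroup.commutator_le]
    intro a _ b _
    rw [MonoidHom.mem_ker, map_commutatorElement, commutatorElement_def]
    have hc : ∀ u v : (P : Subgroup L), u * v = v * u := by
      intro u v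
      apply Subtype.ext
      exact (Subgroup.mem_center_iff.mp (hPZ u.2) v).symm
    generalize (MonoidHom.transferSylow P hP) a = u
    generalize (MonoidHom.transferSylow P hP) b = v
    rw [hc u v]
    group
  rw [hker, Subgroup.isComplement'_top_left] at hcompl
  have hne := P.ne_bot_of_dvd_card (hdiv.trans (Subgroup.card_subgroup_dvd_card _))
  exact hne hcompl

end Cfsg.Agent.S4168
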