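import Cfsg.Statements.S4178
-- import your own Cfsg.Agent.* helpers here

set_option autoImplicit false
open Cfsg

namespace Cfsg.Agent.S4178


theorem index_le_of_map {K : Type*} [Group K] (S : Subgroup K) {X : Type*} [Finite X] (f : K → X)
    (hf : ∀ a b : K, f a = f b → a⁻¹ * b ∈ S) : S.index ≤ Nat.card X := by
  unfold Subgroup.index
  apply Nat.card_le_card_of_injective (fun q : K ⧸ S => f (Quotient.out q))
  intro q q' h
  have h1 := hf _ _ h
  rw [← QuotientGroup.eq] at h1
  simpa using h1

theorem natCard_eq_pow_finrank {F V : Type*} [Field F] [Fintype F] [AddCommGroup V] [Module F V]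
    [FiniteDimensional F V] : Nat.card V = Fintype.card F ^ Module.finrank F V := by
  have : Finite V := Module.finite_of_finite F
  let _ : Fintype V := Fintype.ofFinite V
  rw [Nat.card_eq_fintype_card, Module.card_eq_pow_finrank (K := F)]

theorem card_ne_add_one {A : Type*} [Finite A] (a₀ : A) :
    Nat.card {a : A // a ≠ a₀} + 1 = Nat.card A := by
  classical
  have e := Nat.card_congr (Equiv.optionSubtypeNe a₀)
  rw [Finite.card_option] at e
  exact e

/-- Let F be a finite field with q elements, V a non-zero finite-dimensional F-space of dimension d, H a group of invertible linear maps of V, and R the subgroup of H generated by the elements of H that fix some non-zero vector (have eigenvalue 1). Then the index of R in H is at most q^d − 1; and if H leaves invariant some proper non-zero subspace, the index is at most q^(d/2) − 1. -/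
theorem result {F V : Type*} [Field F] [Fintype F] [AddCommGroup V] [Module F V] [FiniteDimensional F V] [Nontrivial V]
    (H : Subgroup (V ≃ₗ[F] V)) :
    (Subgroup.closure {h : ↥H | ∃ v : V, v ≠ 0 ∧ (h : V ≃ₗ[F] V) v = v}).index ≤ Fintype.card F ^ Module.finrank F V - 1 ∧
    ((∃ W : Submodule F V, W ≠ ⊥ ∧ W ≠ ⊤ ∧ ∀ h ∈ H, ∀ w ∈ W, h w ∈ W) →
      ((Subgroup.closure {h : ↥H | ∃ v : V, v ≠ 0 ∧ (h : V ≃ₗ[F] V) v = v}).index : ℝ) ≤ Real.sqrt ((Fintype.card F : ℝ) ^ Module.finrank F V) - 1) := by
  classical
  have hVfin : Finite V := Module.finite_of_finite F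
  have hgen : ∀ (g : ↥H) (u : V), u ≠ 0 → (g : V ≃ₗ[F] V) u = u →
      g ∈ Subgroup.closure {h : ↥H | ∃ v : V, v ≠ 0 ∧ (h : V ≃ₗ[F] V) v = v} :=
    fun g u hu hgu => Subgroup.subset_closure ⟨u, hu, hgu⟩
  have hmulinv : ∀ (a b : ↥H) (u : V), ((a⁻¹ * b : ↥H) : V ≃ₗ[F] V) u =
      (a : V ≃ₗ[F] V).symm ((b : V ≃ₗ[F] V) u) := fun a b u => rfl
  have hq1 : 1 ≤ Fintype.card F := Fintype.card_pos
  refine ⟨?_, ?_⟩
  · obtain ⟨v₀, hv₀⟩ := exists_ne (0 : V)
    have hb := index_le_of_map
      (Subgroup.closure {h : ↥H | ∃ v : V, v ≠ 0 ∧ (h : V ≃ₗ[F] V) v = v})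
      (X := {u : V // u ≠ 0})
      (fun h => ⟨(h : V ≃ₗ[F] V) v₀, by simpa using hv₀⟩) (by
        intro a b hab
        have hab' : (a : V ≃ₗ[F] V) v₀ = (b : V ≃ₗ[F] V) v₀ := congrArg Subtype.val hab
        apply hgen _ v₀ hv₀
        rw [hmulinv, ← hab', LinearEquiv.symm_apply_apply])
    have hc := card_ne_add_one (0 : V)
    rw [natCard_eq_pow_finrank (F := F) (V := V)] at hc
    omega
  · rintro ⟨W, hWbot, hWtop, hWinv⟩
    -- bound via a vector in W
    have hA : (Subgroup.closure {h : ↥H | ∃ v : V, v ≠ 0 ∧ (h : V ≃ₗ[F] V) v = v}).index + 1 ≤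
        Fintype.card F ^ Module.finrank F W := by
      obtain ⟨v, hvW, hv0⟩ := Submodule.exists_mem_ne_zero_of_ne_bot hWbot
      have hb := index_le_of_map
        (Subgroup.closure {h : ↥H | ∃ v : V, v ≠ 0 ∧ (h : V ≃ₗ[F] V) v = v})
        (X := {u : W // u ≠ 0})
        (fun h => ⟨⟨(h : V ≃ₗ[F] V) v, hWinv h h.2 v hvW⟩, by
          intro h0
          have h0' : (h : V ≃ₗ[F] V) v = 0 := congrArg Subtype.val h0
          exact hv0 (by simpa using h0')⟩) (by
          intro a b hab
          have hab' : (a : V ≃ₗ[F] V) v = (b : V ≃ₗ[F] V) v :=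
            congrArg (fun z : {u : W // u ≠ 0} => ((z : W) : V)) hab
          apply hgen _ v hv0
          rw [hmulinv, ← hab', LinearEquiv.symm_apply_apply])
      have hc := card_ne_add_one (0 : W)
      rw [natCard_eq_pow_finrank (F := F) (V := W)] at hc
      omega
    -- bound via a vector outside W
    have hB : (Subgroup.closure {h : ↥H | ∃ v : V, v ≠ 0 ∧ (h : V ≃ₗ[F] V) v = v}).index + 1 ≤
        Fintype.card F ^ Module.finrank F (V ⧸ W) := by
      obtain ⟨v, hvW⟩ : ∃ v : V, v ∉ W := by
        by_contra hall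
        push Not at hall
        exact hWtop (eq_top_iff.mpr (fun x _ => hall x))
      have hQfin : Finite (V ⧸ W) := Module.finite_of_finite F
      have hinvW : ∀ (h : ↥H) (u : V), (h : V ≃ₗ[F] V) u ∈ W → u ∈ W := by
        intro h u hu
        have := hWinv ((h⁻¹ : ↥H) : V ≃ₗ[F] V) (h⁻¹).2 _ hu
        have e : ((h⁻¹ : ↥H) : V ≃ₗ[F] V) ((h : V ≃ₗ[F] V) u) = u :=
          LinearEquiv.symm_apply_apply _ u
        rw [e] at this
        exact this
      have hb := index_le_of_map
        (Subgroup.closure {h : ↥H | ∃ v : V, v ≠ 0 ∧ (h : V ≃ₗ[F] V) v = v})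
        (X := {x : V ⧸ W // x ≠ 0})
        (fun h => ⟨Submodule.Quotient.mk ((h : V ≃ₗ[F] V) v), by
          intro h0
          rw [Submodule.Quotient.mk_eq_zero] at h0
          exact hvW (hinvW h v h0)⟩) (by
          intro a b hab
          have hab' : (Submodule.Quotient.mk ((a : V ≃ₗ[F] V) v) : V ⧸ W) =
              Submodule.Quotient.mk ((b : V ≃ₗ[F] V) v) := congrArg Subtype.val hab
          rw [Submodule.Quotient.eq] at hab'
          -- g = a⁻¹ b satisfies g v - v ∈ W
          have hg : ((a⁻¹ * b : ↥H) : V ≃ₗ[F] V) v - v ∈ W := by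
            apply hinvW a
            rw [map_sub, hmulinv, LinearEquiv.apply_symm_apply]
            have := W.neg_mem hab'
            simpa using this
          by_contra hnot
          -- then g - 1 is injective, hence bijective on W, forcing v ∈ W
          have hinj : ∀ u : V, ((a⁻¹ * b : ↥H) : V ≃ₗ[F] V) u = u → u = 0 := by
            intro u hu
            by_contra hu0
            exact hnot (hgen _ u hu0 hu)
          let T : V →ₗ[F] V := ((a⁻¹ * b : ↥H) : V ≃ₗ[F] V).toLinearMap - LinearMap.id
          have hT : ∀ u : V, T u = ((a⁻¹ * b : ↥H) : V ≃ₗ[F] V) u - u := fun u => rfl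
          have hTW : ∀ x ∈ W, T x ∈ W := by
            intro x hx
            rw [hT]
            exact W.sub_mem (hWinv _ (a⁻¹ * b).2 x hx) hx
          have hTinj : Function.Injective (T.restrict hTW) := by
            intro x y hxy
            have h1 : T (x : V) = T (y : V) := congrArg Subtype.val hxy
            have h2 : T ((x : V) - (y : V)) = 0 := by rw [map_sub, h1, sub_self]
            rw [hT, sub_eq_zero] at h2
            have h3 := hinj _ h2
            exact Subtype.ext (sub_eq_zero.mp h3)
          have hTsurj : Function.Surjective (T.restrict hTW) :=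
            LinearMap.injective_iff_surjective.mp hTinj
          obtain ⟨w₁, hw₁⟩ := hTsurj ⟨T v, by rw [hT]; exact hg⟩
          have h1 : T (w₁ : V) = T v := congrArg Subtype.val hw₁
          have h2 : T (v - (w₁ : V)) = 0 := by rw [map_sub, h1, sub_self]
          rw [hT, sub_eq_zero] at h2
          have h3 := hinj _ h2
          apply hvW
          have : v = (w₁ : V) := sub_eq_zero.mp h3
          rw [this]; exact w₁.2)
      have hc := card_ne_add_one (0 : V ⧸ W)
      rw [natCard_eq_pow_finrank (F := F) (V := V ⧸ W)] at hc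
      omega
    have hdim := Submodule.finrank_quotient_add_finrank W
    have hprod : ((Subgroup.closure {h : ↥H | ∃ v : V, v ≠ 0 ∧ (h : V ≃ₗ[F] V) v = v}).index + 1) ^ 2 ≤
        Fintype.card F ^ Module.finrank F V := by
      rw [← hdim, pow_add, sq]
      exact Nat.mul_le_mul hB hA
    have hreal : (((Subgroup.closure {h : ↥H | ∃ v : V, v ≠ 0 ∧ (h : V ≃ₗ[F] V) v = v}).index : ℝ) + 1) ^ 2 ≤
        (Fintype.card F : ℝ) ^ Module.finrank F V := by
      exact_mod_cast hprod
    have hsq := Real.le_sqrt_of_sq_le hreal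
    linarith

end Cfsg.Agent.S4178
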