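import Cfsg.Statements.S4186
-- import your own Cfsg.Agent.* helpers here

set_option autoImplicit false
open Cfsg

namespace Cfsg.Agent.S4186

/-- Let T and X be subgroups of a group with T a finite 2-group normalizing X but not centralizing it. Then some element of T inverts some non-identity element of X under conjugation. -/
theorem result {G : Type*} [Group G] (T X : Subgroup G) [Finite ↥T] (hT : IsPGroup 2 ↥T) (hTN : T ≤ Subgroup.normalizer (X : Set G)) (hTC : ¬ T ≤ Subgroup.centralizer (X : Set G)) : ∃ t ∈ T, ∃ x ∈ X, x ≠ 1 ∧ t * x * t⁻¹ = x⁻¹ := by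
  -- find s ∈ T, s ∉ C(X), s^2 ∈ C(X)
  have key : ∀ k : ℕ, ∀ t ∈ T, t ^ (2 ^ k) ∈ Subgroup.centralizer (X : Set G) →
      t ∉ Subgroup.centralizer (X : Set G) →
      ∃ s ∈ T, s ∉ Subgroup.centralizer (X : Set G) ∧ s ^ 2 ∈ Subgroup.centralizer (X : Set G) := by
    intro k
    induction k with
    | zero =>
      intro t _ h1 h2
      simp only [pow_zero, pow_one] at h1
      exact absurd h1 h2
    | succ k ih =>
      intro t ht h1 h2
      by_cases h3 : t ^ 2 ∈ Subgroup.centralizer (X : Set G)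
      · exact ⟨t, ht, h2, h3⟩
      · apply ih (t ^ 2) (T.pow_mem ht 2) _ h3
        rw [← pow_mul, ← pow_succ']
        exact h1
  obtain ⟨t, htT, htC⟩ := SetLike.not_le_iff_exists.mp hTC
  obtain ⟨k, hk⟩ := hT ⟨t, htT⟩
  have hk' : t ^ (2 ^ k) = 1 := by
    have := congrArg Subtype.val hk
    simpa using this
  obtain ⟨s, hsT, hsC, hs2⟩ := key k t htT (by rw [hk']; exact Subgroup.one_mem _) htC
  rw [Subgroup.mem_centralizer_iff] at hsC
  push Not at hsC
  obtain ⟨y, hyX, hy⟩ := hsC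
  have hsN := hTN hsT
  rw [Subgroup.mem_normalizer_iff] at hsN
  have hs2' := Subgroup.mem_centralizer_iff.mp hs2 y hyX
  refine ⟨s, hsT, y⁻¹ * (s * y * s⁻¹), X.mul_mem (X.inv_mem hyX) ((hsN y).mp hyX), ?_, ?_⟩
  · intro h
    apply hy
    have h' : s * y * s⁻¹ = y := by
      have := congrArg (fun z => y * z) h
      simpa using this
    calc y * s = s * y * s⁻¹ * s := by rw [h']
      _ = s * y := by group
  · calc s * (y⁻¹ * (s * y * s⁻¹)) * s⁻¹ = s * y⁻¹ * s⁻¹ * (s * s * y) * s⁻¹ * s⁻¹ := by group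
      _ = s * y⁻¹ * s⁻¹ * (y * (s * s)) * s⁻¹ * s⁻¹ := by rw [pow_two] at hs2'; rw [← hs2']
      _ = (y⁻¹ * (s * y * s⁻¹))⁻¹ := by group

end Cfsg.Agent.S4186
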