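import Cfsg.Statements.S4195
-- import your own Cfsg.Agent.* helpers here

set_option autoImplicit false
open Cfsg

namespace Cfsg.Agent.S4195

/-- the subgroup of elements conjugating `x` to `x` or `x⁻¹` -/
def invNormalizer {G : Type*} [Group G] (x : G) : Subgroup G where
  carrier := {h | h * x * h⁻¹ = x ∨ h * x * h⁻¹ = x⁻¹}
  one_mem' := by simp
  mul_mem' := by
    intro a b ha hb
    have e : a * b * x * (a * b)⁻¹ = a * (b * x * b⁻¹) * a⁻¹ := by group
    have e' : a * x⁻¹ * a⁻¹ = (a * x * a⁻¹)⁻¹ := by group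
    simp only [Set.mem_ofPred_eq] at ha hb ⊢
    rw [e]
    rcases hb with hb | hb <;> rcases ha with ha | ha
    · left; rw [hb, ha]
    · right; rw [hb, ha]
    · right; rw [hb, e', ha]
    · left; rw [hb, e', ha, inv_inv]
  inv_mem' := by
    intro a ha
    simp only [Set.mem_ofPred_eq, inv_inv] at ha ⊢
    rcases ha with ha | ha
    · left
      calc a⁻¹ * x * a = a⁻¹ * (a * x * a⁻¹) * a := by rw [ha]
        _ = x := by group
    · right
      calc a⁻¹ * x * a = (a⁻¹ * x⁻¹ * a)⁻¹ := by group
        _ = (a⁻¹ * (a * x * a⁻¹) * a)⁻¹ := by rw [ha]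
        _ = x⁻¹ := by group

/-- if `x` is conjugate to its inverse and `x ≠ x⁻¹` then the centralizer of `x` has even index -/
theorem two_dvd_index_centralizer {G : Type*} [Group G] (x : G) (hne : x ≠ x⁻¹)
    (hreal : IsConj x x⁻¹) : 2 ∣ (Subgroup.centralizer ({x} : Set G)).index := by
  obtain ⟨g, hg⟩ := isConj_iff.mp hreal
  have hCmem : ∀ b : G, b ∈ Subgroup.centralizer ({x} : Set G) ↔ b * x * b⁻¹ = x := by
    intro b
    rw [Subgroup.mem_centralizer_iff]
    simp only [Set.mem_singleton_iff, forall_eq]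
    constructor
    · intro h
      rw [← h]; group
    · intro h
      calc x * b = (b * x * b⁻¹) * b := by rw [h]
        _ = b * x := by group
  have hle : Subgroup.centralizer ({x} : Set G) ≤ invNormalizer x := by
    intro b hb
    exact Or.inl ((hCmem b).mp hb)
  have h2 : (Subgroup.centralizer ({x} : Set G)).relIndex (invNormalizer x) = 2 := by
    rw [Subgroup.relIndex_eq_two_iff]
    refine ⟨g, Or.inr hg, ?_⟩
    intro b hb
    have e : b * g * x * (b * g)⁻¹ = b * (g * x * g⁻¹) * b⁻¹ := by group
    have e' : b * x⁻¹ * b⁻¹ = (b * x * b⁻¹)⁻¹ := by group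
    rw [hCmem, hCmem, e, hg, e']
    rcases hb with hb | hb
    · rw [hb]
      exact Or.inr ⟨rfl, fun h => hne h.symm⟩
    · rw [hb, inv_inv]
      exact Or.inl ⟨rfl, fun h => hne h.symm⟩
  rw [← h2]
  exact Subgroup.relIndex_dvd_index_of_le hle

/-- Let x be a non-identity element of a finite group G whose centralizer contains a Sylow 2-subgroup of G. If x is conjugate to its inverse, then x has order 2. -/
theorem result {G : Type*} [Group G] [Finite G] (x : G) (hx : x ≠ 1) (P : Sylow 2 G) (hP : (P : Subgroup G) ≤ Subgroup.centralizer ({x} : Set G)) (hreal : IsConj x x⁻¹) : orderOf x = 2 := by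
  have hodd : ¬ 2 ∣ (Subgroup.centralizer ({x} : Set G)).index := by
    intro h
    exact P.not_dvd_index (h.trans (Subgroup.index_dvd_of_le hP))
  have hxx : x = x⁻¹ := by
    by_contra hne
    exact hodd (two_dvd_index_centralizer x hne hreal)
  have hx2 : x ^ 2 = 1 := by
    rw [pow_two]
    nth_rewrite 2 [hxx]
    exact mul_inv_cancel x
  exact orderOf_eq_prime hx2 hx

end Cfsg.Agent.S4195
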