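import Cfsg.Statements.S4196
import Cfsg.Agent.Lib_helper6_Sylow
import Cfsg.Agent.S4195

set_option autoImplicit false
open Cfsg

namespace Cfsg.Agent.S4196

/-- A finite group G has elementary abelian Sylow 2-subgroups (commutative with every element squaring to the identity) if and only if every 2-element of G has a Sylow 2-subgroup in its centralizer and is conjugate to its inverse. -/
theorem result {G : Type*} [Group G] [Finite G] (P : Sylow 2 G) :
    (IsMulCommutative (P : Subgroup G) ∧ ∀ x ∈ (P : Subgroup G), x ^ 2 = 1) ↔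
      ∀ x : G, (∃ k : ℕ, orderOf x = 2 ^ k) → (∃ Q : Sylow 2 G, (Q : Subgroup G) ≤ Subgroup.centralizer ({x} : Set G)) ∧ IsConj x x⁻¹ := by
  constructor
  · rintro ⟨hc, he⟩ x hx
    obtain ⟨Q, hxQ⟩ := Lib_helper6_Sylow.pElem_mem_sylow (p := 2) hx
    obtain ⟨g, hg⟩ := Lib_helper6_Sylow.sylow_conj P Q
    have hx2 : x ^ 2 = 1 := by
      have := he _ ((hg x).mp hxQ)
      have e : (g⁻¹ * x * g) ^ 2 = g⁻¹ * x ^ 2 * g := by
        rw [pow_two, pow_two]; group
      rw [e] at this
      calc x ^ 2 = g * (g⁻¹ * x ^ 2 * g) * g⁻¹ := by group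
        _ = 1 := by rw [this]; group
    refine ⟨⟨Q, ?_⟩, ?_⟩
    · intro q hq
      rw [Subgroup.mem_centralizer_iff]
      simp only [Set.mem_singleton_iff, forall_eq]
      have h1 := (hg q).mp hq
      have h2 := (hg x).mp hxQ
      have h3 := setLike_mul_comm (s := (P : Subgroup G)) h1 h2
      calc x * q = g * ((g⁻¹ * x * g) * (g⁻¹ * q * g)) * g⁻¹ := by group
        _ = g * ((g⁻¹ * q * g) * (g⁻¹ * x * g)) * g⁻¹ := by rw [h3]
        _ = q * x := by group
    · have : x⁻¹ = x := by
        rw [inv_eq_iff_mul_eq_one, ← pow_two, hx2]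
      rw [this]
  · intro h
    have he : ∀ x ∈ (P : Subgroup G), x ^ 2 = 1 := by
      intro x hx
      by_cases hx1 : x = 1
      · rw [hx1, one_pow]
      · obtain ⟨⟨Q, hQ⟩, hreal⟩ := h x (Lib_helper6_Sylow.pElem_of_mem_sylow P hx)
        have := S4195.result x hx1 Q hQ hreal
        rw [← this, pow_orderOf_eq_one]
    refine ⟨?_, he⟩
    apply IsMulCommutative.of_setLike_mul_comm
    intro a ha b hb
    have h1 := he a ha
    have h2 := he b hb
    have h3 := he (a * b) (Subgroup.mul_mem _ ha hb)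
    rw [pow_two] at h1 h2 h3
    symm
    calc b * a = (a * a) * (b * a) * (b * b) := by rw [h1, h2]; group
      _ = a * ((a * b) * (a * b)) * b := by group
      _ = a * b := by rw [h3]; group

end Cfsg.Agent.S4196
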