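import Cfsg.Statements.S4230
-- import your own Cfsg.Agent.* helpers here

set_option autoImplicit false
open Cfsg

namespace Cfsg.Agent.S4230

open Polynomial in
theorem eval_cyc_zero_iff (p : ℕ) [Fact p.Prime] (x : ZMod p) (m j : ℕ) (hm : ¬ p ∣ m) :
    (cyclotomic (p ^ j * m) (ZMod p)).eval x = 0 ↔ IsPrimitiveRoot x m := by
  have hne : NeZero ((m : ℕ) : ZMod p) := ⟨by
    rw [Ne, ZMod.natCast_eq_zero_iff]; exact hm⟩
  rcases Nat.eq_zero_or_pos j with hj | hj
  · subst hj
    rw [pow_zero, one_mul]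
    exact isRoot_cyclotomic_iff
  · rw [cyclotomic_mul_prime_pow_eq (ZMod p) hm hj, eval_pow]
    have hpos : p ^ j - p ^ (j - 1) ≠ 0 := by
      have : p ^ (j - 1) < p ^ j :=
        Nat.pow_lt_pow_right (Fact.out : p.Prime).one_lt (by omega)
      omega
    rw [pow_eq_zero_iff hpos]
    exact isRoot_cyclotomic_iff

/-- Let p be an odd prime, q a natural number not divisible by p, and e the multiplicative order of q modulo p. For a natural number f, p divides the value at q of the f-th cyclotomic polynomial if and only if f = e·p^j for some j ≥ 0. -/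
theorem result (p q f : ℕ) (hp : p.Prime) (hp2 : p ≠ 2) (hpq : ¬ p ∣ q) :
    ((p : ℤ) ∣ (Polynomial.cyclotomic f ℤ).eval (q : ℤ)) ↔ ∃ j : ℕ, f = orderOf (q : ZMod p) * p ^ j := by
  haveI : Fact p.Prime := ⟨hp⟩
  have hq0 : (q : ZMod p) ≠ 0 := by
    rw [Ne, ZMod.natCast_eq_zero_iff]; exact hpq
  have hopos : 0 < orderOf (q : ZMod p) := by
    rw [orderOf_pos_iff]
    exact isOfFinOrder_iff_pow_eq_one.mpr ⟨p - 1, by have := hp.one_lt; omega,
      ZMod.pow_card_sub_one_eq_one hq0⟩
  have hodvd : ¬ p ∣ orderOf (q : ZMod p) := by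
    intro h
    have h1 := ZMod.orderOf_dvd_card_sub_one hq0
    have h2 := Nat.le_of_dvd (by have := hp.one_lt; omega) (h.trans h1)
    have := hp.one_lt
    omega
  have hL : ((p : ℤ) ∣ (Polynomial.cyclotomic f ℤ).eval (q : ℤ)) ↔
      (Polynomial.cyclotomic f (ZMod p)).eval (q : ZMod p) = 0 := by
    rw [← ZMod.intCast_zmod_eq_zero_iff_dvd, ← Polynomial.map_cyclotomic_int f (ZMod p)]
    have := Polynomial.eval_intCast_map (Int.castRingHom (ZMod p)) (Polynomial.cyclotomic f ℤ) (q : ℤ)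
    simp only [Int.cast_natCast, eq_intCast] at this
    rw [this]
  rw [hL]
  constructor
  · intro h
    have hf0 : f ≠ 0 := by
      rintro rfl
      simp at h
    obtain ⟨j, m, hm, rfl⟩ := Nat.exists_eq_pow_mul_and_not_dvd hf0 p hp.one_lt.ne'
    have := (eval_cyc_zero_iff p (q : ZMod p) m j hm).mp h
    exact ⟨j, by rw [← this.eq_orderOf, mul_comm]⟩
  · rintro ⟨j, rfl⟩
    rw [mul_comm]
    exact (eval_cyc_zero_iff p (q : ZMod p) _ j hodvd).mpr (IsPrimitiveRoot.orderOf _)

end Cfsg.Agent.S4230
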