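import Cfsg.Statements.S4242
import Cfsg.Agent.Lib_helper1_Frobenius
import Cfsg.Agent.Lib_helper1_MinNonNil
import Cfsg.Agent.Lib_helper1_Fitting
import Cfsg.Agent.Lib_helper2_CN
import Cfsg.Agent.Lib_helper5_PParts

set_option autoImplicit false
open Cfsg

namespace Cfsg.Agent.S4242

open scoped Pointwise
universe u

theorem nil_of_inj {H₁ H₂ : Type*} [Group H₁] [Group H₂] (f : H₁ →* H₂)
    (hf : Function.Injective f) (h : Group.IsNilpotent H₂) : Group.IsNilpotent H₁ := by
  haveI := h
  exact Subgroup.isNilpotent_of_ker_le_center f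
    (by rw [(MonoidHom.ker_eq_bot_iff f).mpr hf]; exact bot_le)

theorem nil_of_le {G : Type*} [Group G] {A B : Subgroup G} (h : A ≤ B)
    (hB : Group.IsNilpotent B) : Group.IsNilpotent A :=
  nil_of_inj (Subgroup.inclusion h) (Subgroup.inclusion_injective h) hB

theorem nil_sup {G : Type*} [Group G] (A B : Subgroup G) (hA : Group.IsNilpotent A)
    (hB : Group.IsNilpotent B) (hc : ∀ a ∈ A, ∀ b ∈ B, a * b = b * a) :
    Group.IsNilpotent ↥(A ⊔ B) := by
  haveI := hA
  haveI := hB
  have hcomm : ∀ (m : A) (n : B), Commute (A.subtype m) (B.subtype n) :=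
    fun m n => hc m.1 m.2 n.1 n.2
  have h1 : Group.IsNilpotent (MonoidHom.noncommCoprod A.subtype B.subtype hcomm).range :=
    Group.nilpotent_of_surjective _ (MonoidHom.rangeRestrict_surjective _)
  have h2 : (MonoidHom.noncommCoprod A.subtype B.subtype hcomm).range = A ⊔ B := by
    rw [MonoidHom.noncommCoprod_range, Subgroup.range_subtype, Subgroup.range_subtype]
  rw [← h2]; exact h1

theorem nil_comm {G : Type*} [Group G] (M : Subgroup G)
    (h : ∀ a ∈ M, ∀ b ∈ M, a * b = b * a) : Group.IsNilpotent M := by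
  apply Subgroup.isNilpotent_of_ker_le_center (1 : M →* Unit)
  intro x _
  rw [Subgroup.mem_center_iff]
  intro y
  exact Subtype.ext (h y.1 y.2 x.1 x.2)

theorem mem_of_coprime_index {G : Type*} [Group G] (N : Subgroup G) [N.Normal] (y : G)
    (hy : (orderOf y).Coprime N.index) : y ∈ N := by
  apply Cfsg.Agent.Lib_helper1_MinNonNil.pow_coprime_mem N y hy
  · rw [pow_orderOf_eq_one]; exact one_mem _
  · exact Subgroup.pow_index_mem N y

theorem card_eq_mul {G : Type*} [Group G] [Finite G] (Z K : Subgroup G) [K.Normal]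
    (hZK : Z ⊓ K = ⊥) (htop : Z ⊔ K = ⊤) : Nat.card G = Nat.card K * Nat.card Z := by
  have h1 := Cfsg.Agent.Lib_helper1_Fitting.card_sup_eq Z K
  rw [htop, Subgroup.card_top] at h1
  rw [h1, ← Subgroup.inf_relIndex_right, inf_comm, hZK, Subgroup.relIndex_bot_left]

theorem idx_dvd {G : Type*} [Group G] [Finite G] (N K : Subgroup G) [K.Normal]
    (hfr : N ⊔ K = ⊤) : N.index ∣ Nat.card ↥K := by
  have h1 := Cfsg.Agent.Lib_helper1_Fitting.card_sup_eq N K
  rw [hfr, Subgroup.card_top] at h1
  have h2 : K.relIndex N ∣ Nat.card ↥N := Subgroup.relIndex_dvd_card K N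
  have h3 := Subgroup.card_mul_index N
  obtain ⟨c, hc⟩ := h2
  have h4 : K.relIndex N * (c * N.index) = K.relIndex N * Nat.card ↥K := by
    rw [← mul_assoc, ← hc, h3, h1, mul_comm]
  have hpos : 0 < K.relIndex N := Nat.pos_of_ne_zero (fun h0 => by
    rw [h0, mul_zero] at h1; exact Nat.card_pos.ne' h1)
  exact Dvd.intro_left c (Nat.eq_of_mul_eq_mul_left hpos h4)

theorem backward {G : Type*} [Group G] [Finite G] (p : ℕ) (hp : p.Prime)
    (Z K : Subgroup G) (hZn : Z.Normal) (hKn : K.Normal) (hZK : Z ⊓ K = ⊥) (hZKtop : Z ⊔ K = ⊤)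
    (hZcard : Nat.card Z = p) (hKmin : ∀ H : Subgroup K, H ≠ ⊤ → Group.IsNilpotent H)
    (hKp : ¬ p ∣ Nat.card K) (M : Subgroup G) (hM : IsCoatom M) (hpM : p ∣ Nat.card M) :
    Group.IsNilpotent M := by
  haveI := hZn
  haveI := hKn
  haveI : Fact p.Prime := ⟨hp⟩
  have hGcard : Nat.card G = Nat.card K * p := by
    rw [card_eq_mul Z K hZK hZKtop, hZcard]
  have hKc : (Nat.card K).Coprime p := ((Nat.Prime.coprime_iff_not_dvd hp).mpr hKp).symm
  have hZidx : Z.index = Nat.card K := by
    have h := Subgroup.card_mul_index Z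
    rw [hZcard, hGcard, mul_comm] at h
    exact Nat.eq_of_mul_eq_mul_right hp.pos h
  obtain ⟨x, hx⟩ := exists_prime_orderOf_dvd_card' p hpM
  have hxo : orderOf (x : G) = p := by rw [Subgroup.orderOf_coe, hx]
  have hxZ : (x : G) ∈ Z := by
    apply mem_of_coprime_index Z
    rw [hxo, hZidx]; exact hKc.symm
  have hx1 : (x : G) ≠ 1 := by
    intro h
    rw [h, orderOf_one] at hxo
    exact hp.one_lt.ne hxo
  have hZM : Z ≤ M := by
    have h1 : Z ⊓ M = Z := by
      apply Subgroup.eq_of_le_of_card_ge inf_le_left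
      rw [hZcard]
      have h2 : Nat.card ↥(Z ⊓ M) ∣ p := by
        rw [← hZcard]; exact Subgroup.card_dvd_of_le inf_le_left
      rcases (Nat.dvd_prime hp).mp h2 with h3 | h3
      · exfalso
        have hbot : Z ⊓ M = ⊥ := Subgroup.eq_bot_of_card_eq _ h3
        have hmem : (x : G) ∈ Z ⊓ M := ⟨hxZ, x.2⟩
        rw [hbot] at hmem
        exact hx1 (Subgroup.mem_bot.mp hmem)
      · exact h3.ge
    rw [← h1]; exact inf_le_right
  have hMle : M ≤ Z ⊔ (M ⊓ K) := by
    intro m hm
    have hmT : m ∈ Z ⊔ K := by rw [hZKtop]; exact Subgroup.mem_top m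
    rw [← SetLike.mem_coe, Subgroup.normal_mul] at hmT
    obtain ⟨z, hz, k, hk, hzk⟩ := Set.mem_mul.mp hmT
    have hkM : k ∈ M := by
      have : k = z⁻¹ * m := by rw [← hzk]; group
      rw [this]; exact M.mul_mem (M.inv_mem (hZM hz)) hm
    rw [← hzk]
    exact Subgroup.mul_mem_sup hz ⟨hkM, hk⟩
  have hMKne : (M ⊓ K).subgroupOf K ≠ ⊤ := by
    intro h
    rw [Subgroup.subgroupOf_eq_top] at h
    have hKM : K ≤ M := le_trans h inf_le_left
    exact hM.1 (eq_top_iff.mpr (hZKtop ▸ sup_le hZM hKM))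
  have hn1 : Group.IsNilpotent ↥((M ⊓ K).subgroupOf K) := hKmin _ hMKne
  have hn2 : Group.IsNilpotent ↥(M ⊓ K) :=
    nil_of_inj (Subgroup.subgroupOfEquivOfLe (inf_le_right : M ⊓ K ≤ K)).symm.toMonoidHom
      (MulEquiv.injective _) hn1
  have hn3 : Group.IsNilpotent Z :=
    IsPGroup.isNilpotent (IsPGroup.of_card (n := 1) (by rw [hZcard, pow_one]))
  have hcomm : ∀ a ∈ Z, ∀ b ∈ M ⊓ K, a * b = b * a := by
    intro a ha b hb
    exact (Subgroup.commute_of_normal_of_disjoint Z K hZn hKn (disjoint_iff.mpr hZK)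
      a b ha hb.2).eq
  exact nil_of_le hMle (nil_sup Z (M ⊓ K) hn3 hn2 hcomm)


/-- Let G be a finite group and p a prime dividing its order. Every maximal subgroup of G of order divisible by p is nilpotent if and only if G is nilpotent, or G is a minimal non-nilpotent group, or G is the internal direct product of a normal subgroup of order p and a normal minimal non-nilpotent subgroup of order prime to p. -/
theorem result {G : Type*} [Group G] [Finite G] (p : ℕ) (hp : p.Prime) (hpG : p ∣ Nat.card G) :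
    (∀ M : Subgroup G, IsCoatom M → p ∣ Nat.card M → Group.IsNilpotent M) ↔
      (Group.IsNilpotent G ∨ Cfsg.IsMinimalNonNilpotent G ∨
        ∃ Z K : Subgroup G, Z.Normal ∧ K.Normal ∧ Z ⊓ K = ⊥ ∧ Z ⊔ K = ⊤ ∧ Nat.card Z = p ∧
          Cfsg.IsMinimalNonNilpotent K ∧ ¬ p ∣ Nat.card K) := by
  classical
  haveI : Fact p.Prime := ⟨hp⟩
  constructor
  · intro H
    by_cases hnil : Group.IsNilpotent G
    · exact Or.inl hnil
    by_cases hmin : Cfsg.IsMinimalNonNilpotent G
    · exact Or.inr (Or.inl hmin)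
    right; right
    have step1 : ∀ L : Subgroup G, L ≠ ⊤ → p ∣ Nat.card L → Group.IsNilpotent L := by
      intro L hL hpL
      rcases eq_top_or_exists_le_coatom L with h | ⟨M, hM, hLM⟩
      · exact absurd h hL
      · exact nil_of_le hLM (H M hM (dvd_trans hpL (Subgroup.card_dvd_of_le hLM)))
    have hex : ∃ L : Subgroup G, L ≠ ⊤ ∧ ¬ Group.IsNilpotent L := by
      by_contra hcon
      push Not at hcon
      exact hmin ⟨hnil, hcon⟩
    obtain ⟨L₀, hL₀, hL₀n⟩ := hex
    obtain ⟨M₀, hM₀, hLM₀⟩ : ∃ M : Subgroup G, IsCoatom M ∧ L₀ ≤ M := by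
      rcases eq_top_or_exists_le_coatom L₀ with h | h
      · exact absurd h hL₀
      · exact h
    have hM₀n : ¬ Group.IsNilpotent M₀ := fun h => hL₀n (nil_of_le hLM₀ h)
    have hM₀p : ¬ p ∣ Nat.card M₀ := fun h => hM₀n (H M₀ hM₀ h)
    have hM₀c : (Nat.card M₀).Coprime p :=
      ((Nat.Prime.coprime_iff_not_dvd hp).mpr hM₀p).symm
    have hF : Cfsg.Agent.Lib_helper1_Frobenius.FrobHyp p G := by
      intro Q hQ g hg hgo
      rw [Subgroup.mem_centralizer_iff]
      intro t ht
      by_cases ht1 : t = 1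
      · rw [ht1]; simp
      obtain ⟨i, hi⟩ : ∃ i, orderOf t = p ^ i := by
        obtain ⟨i, hi⟩ := hQ ⟨t, ht⟩
        have h3 : t ^ (p ^ i) = 1 := by
          have := congrArg Subtype.val hi; simpa using this
        obtain ⟨j, -, hj⟩ := (Nat.dvd_prime_pow hp).mp (orderOf_dvd_of_pow_eq_one h3)
        exact ⟨j, hj⟩
      have hpt : p ∣ orderOf t := by
        rw [hi]
        rcases Nat.eq_zero_or_pos i with h0 | h0
        · exfalso; rw [h0, pow_zero] at hi; exact ht1 (orderOf_eq_one_iff.mp hi)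
        · exact dvd_pow_self p h0.ne'
      obtain ⟨T, hT⟩ : ∃ T : Subgroup G, T = Q ⊔ Subgroup.zpowers g := ⟨_, rfl⟩
      have htT : t ∈ T := by rw [hT]; exact (le_sup_left : Q ≤ Q ⊔ Subgroup.zpowers g) ht
      have hgT : g ∈ T := by
        rw [hT]
        exact (le_sup_right : Subgroup.zpowers g ≤ Q ⊔ Subgroup.zpowers g)
          (Subgroup.mem_zpowers g)
      have hpT : p ∣ Nat.card T := dvd_trans hpt (Subgroup.orderOf_dvd_natCard T htT)
      by_cases hTtop : T = ⊤
      · exfalso
        have hnorm : Subgroup.normalizer (Q : Set G) = ⊤ := by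
          rw [eq_top_iff, ← hTtop, hT]
          exact sup_le Subgroup.le_normalizer (by rw [Subgroup.zpowers_le]; exact hg)
        haveI hQn : Q.Normal := Subgroup.normalizer_eq_top_iff.mp hnorm
        apply hM₀n
        have hmap : ∀ c : G, QuotientGroup.mk' Q c ∈
            Subgroup.zpowers (QuotientGroup.mk' Q g) := by
          intro c
          have h1 : (T.map (QuotientGroup.mk' Q)) = Subgroup.zpowers (QuotientGroup.mk' Q g) := by
            rw [hT, Subgroup.map_sup, QuotientGroup.map_mk'_self, bot_sup_eq,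
              MonoidHom.map_zpowers]
          rw [← h1, hTtop]
          exact Subgroup.mem_map_of_mem _ (Subgroup.mem_top c)
        apply nil_comm
        intro a ha b hb
        obtain ⟨j₁, hj₁⟩ := Subgroup.mem_zpowers_iff.mp (hmap a)
        obtain ⟨j₂, hj₂⟩ := Subgroup.mem_zpowers_iff.mp (hmap b)
        have hcQ : a * b * a⁻¹ * b⁻¹ ∈ Q := by
          rw [← QuotientGroup.eq_one_iff]
          have h2 : QuotientGroup.mk' Q (a * b * a⁻¹ * b⁻¹) = 1 := by
            simp only [map_mul, map_inv]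
            rw [← hj₁, ← hj₂, (Commute.zpow_zpow_self _ j₁ j₂).eq]
            group
          exact h2
        have hcM : a * b * a⁻¹ * b⁻¹ ∈ M₀ :=
          M₀.mul_mem (M₀.mul_mem (M₀.mul_mem ha hb) (M₀.inv_mem ha)) (M₀.inv_mem hb)
        have h1 := Cfsg.Agent.Lib_helper1_Frobenius.eq_one_of_coprime_of_pgroup M₀ Q hM₀c hQ
          hcM hcQ
        have h3 : a * b = (a * b * a⁻¹ * b⁻¹) * (b * a) := by group
        rw [h3, h1, one_mul]
      · have hTn := step1 T hTtop hpT
        have hcop : (orderOf g).Coprime (orderOf t) := by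
          rw [hi]; exact Nat.Coprime.pow_right i hgo
        exact (Cfsg.Agent.Lib_helper2_CN.nilpotent_coprime_comm' T hTn hgT htT hcop).symm
    obtain ⟨K, hKn, hKc, k, hk⟩ := Cfsg.Agent.Lib_helper1_Frobenius.frobenius hF
    haveI := hKn
    have hMK : M₀ ≤ K := by
      intro y hy
      apply Cfsg.Agent.Lib_helper1_Frobenius.mem_of_coprime_of_index K hk y
      exact Nat.Coprime.coprime_dvd_left (Subgroup.orderOf_dvd_natCard M₀ hy) hM₀c
    have hKp : ¬ p ∣ Nat.card K := (Nat.Prime.coprime_iff_not_dvd hp).mp hKc.symm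
    have hKtop : K ≠ ⊤ := by
      intro h
      rw [h, Subgroup.card_top] at hKp
      exact hKp hpG
    have hKM : K = M₀ := by
      rcases eq_or_lt_of_le hMK with h | h
      · exact h.symm
      · exact absurd (hM₀.2 K h) hKtop
    subst hKM
    obtain ⟨x, hx⟩ := exists_prime_orderOf_dvd_card' p hpG
    have hxK : x ∉ K := by
      intro h
      apply hKp
      rw [← hx]; exact Subgroup.orderOf_dvd_natCard K h
    obtain ⟨Z, hZ⟩ : ∃ Z : Subgroup G, Z = Subgroup.zpowers x := ⟨_, rfl⟩
    have hxZ : x ∈ Z := by rw [hZ]; exact Subgroup.mem_zpowers x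
    have hZcard : Nat.card Z = p := by rw [hZ, Nat.card_zpowers, hx]
    have hZK : Z ⊓ K = ⊥ := (Subgroup.disjoint_of_coprime_natCard (by rw [hZcard]; exact hKc.symm)).eq_bot
    have hZKtop : Z ⊔ K = ⊤ := by
      apply hM₀.2
      refine lt_of_le_of_ne le_sup_right ?_
      intro h
      apply hxK
      rw [h]
      exact (le_sup_left : Z ≤ Z ⊔ K) hxZ
    have hGcard : Nat.card G = Nat.card K * p := by
      rw [card_eq_mul Z K hZK hZKtop, hZcard]
    have hZp : IsPGroup p Z := IsPGroup.of_card (n := 1) (by rw [hZcard, pow_one])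
    obtain ⟨P, hP⟩ := hZp.exists_le_sylow
    have hxP : x ∈ (P : Subgroup G) := hP hxZ
    have hcent : Subgroup.centralizer ({x} : Set G) = ⊤ := by
      apply Cfsg.Agent.Lib_helper5_PParts.eq_top_of_forall_sylow_le
      intro q hq
      by_cases hqp : p = q
      · subst hqp
        refine ⟨P, ?_⟩
        have hPcard : Nat.card (P : Subgroup G) ∣ p := by
          have h1 : Nat.card (P : Subgroup G) ∣ Nat.card K * p :=
            hGcard ▸ Subgroup.card_subgroup_dvd_card _
          have h2 : (Nat.card (P : Subgroup G)).Coprime (Nat.card K) := by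
            obtain ⟨n, hn⟩ := IsPGroup.iff_card.mp P.2
            rw [hn]; exact Nat.Coprime.pow_left n hKc.symm
          exact h2.dvd_of_dvd_mul_left h1
        have hPZ : Z = (P : Subgroup G) := by
          apply Subgroup.eq_of_le_of_card_ge hP
          rw [hZcard]; exact Nat.le_of_dvd hp.pos hPcard
        rw [← hPZ]
        intro t ht
        rw [Subgroup.mem_centralizer_singleton_iff]
        rw [hZ] at ht
        obtain ⟨j, rfl⟩ := Subgroup.mem_zpowers_iff.mp ht
        exact (Commute.zpow_self x j).eq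
      · have hqp' : q ≠ p := fun h => hqp h.symm
        have hqpr : q.Prime := hq.out
        obtain ⟨Q₀⟩ : Nonempty (Sylow q G) := inferInstance
        have hsylK : ∀ Q : Sylow q G, (Q : Subgroup G) ≤ K := by
          intro Q y hy
          apply Cfsg.Agent.Lib_helper1_Frobenius.mem_of_coprime_of_index K hk y
          obtain ⟨i, hi⟩ := Q.2 ⟨y, hy⟩
          have h3 : y ^ (q ^ i) = 1 := by
            have := congrArg Subtype.val hi; simpa using this
          exact Nat.Coprime.coprime_dvd_left (orderOf_dvd_of_pow_eq_one h3)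
            (Nat.Coprime.pow_left i ((Nat.coprime_primes hqpr hp).mpr hqp'))
        have hfr : Subgroup.normalizer ((Q₀ : Subgroup G) : Set G) ⊔ K = ⊤ :=
          Sylow.normalizer_sup_eq_top' Q₀ (hsylK Q₀)
        have hidx := idx_dvd _ K hfr
        have hnp : ¬ p ∣ Nat.card (Sylow q G) := by
          rw [Sylow.card_eq_index_normalizer Q₀]
          intro hd
          exact hKp (dvd_trans hd hidx)
        obtain ⟨Q, hQ⟩ := P.2.nonempty_fixed_point_of_prime_not_dvd_card (Sylow q G) hnp
        have hxN : x ∈ Subgroup.normalizer ((Q : Subgroup G) : Set G) := by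
          have h1 : (⟨x, hxP⟩ : ↥(P : Subgroup G)) • Q = Q := hQ ⟨x, hxP⟩
          exact Sylow.smul_eq_iff_mem_normalizer.mp h1
        refine ⟨Q, ?_⟩
        obtain ⟨T, hT⟩ : ∃ T : Subgroup G, T = Z ⊔ (Q : Subgroup G) := ⟨_, rfl⟩
        have hxT : x ∈ T := by
          rw [hT]; exact (le_sup_left : Z ≤ Z ⊔ (Q : Subgroup G)) hxZ
        have hpT : p ∣ Nat.card T := by
          rw [← hx]; exact Subgroup.orderOf_dvd_natCard T hxT
        have hTtop : T ≠ ⊤ := by
          intro hTtop
          have hnorm : Subgroup.normalizer ((Q : Subgroup G) : Set G) = ⊤ := by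
            rw [eq_top_iff, ← hTtop, hT]
            exact sup_le (by rw [hZ, Subgroup.zpowers_le]; exact hxN) Subgroup.le_normalizer
          haveI hQn : (Q : Subgroup G).Normal := Subgroup.normalizer_eq_top_iff.mp hnorm
          have h1 := Cfsg.Agent.Lib_helper1_Fitting.card_sup_eq Z (Q : Subgroup G)
          rw [← hT, hTtop, Subgroup.card_top, hGcard] at h1
          have h2 : (Q : Subgroup G).relIndex Z ∣ p := by
            rw [← hZcard]; exact Subgroup.relIndex_dvd_card _ _
          have h3 : Nat.card K ≤ Nat.card (Q : Subgroup G) := by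
            have h4 : (Q : Subgroup G).relIndex Z ≤ p := Nat.le_of_dvd hp.pos h2
            have h5 : Nat.card K * p ≤ Nat.card (Q : Subgroup G) * p := by
              rw [h1]; exact Nat.mul_le_mul_left _ h4
            exact Nat.le_of_mul_le_mul_right h5 hp.pos
          have h6 : (Q : Subgroup G) = K := Subgroup.eq_of_le_of_card_ge (hsylK Q) h3
          apply hM₀n
          rw [← h6]
          exact IsPGroup.isNilpotent Q.2
        have hTn := step1 T hTtop hpT
        intro t ht
        rw [Subgroup.mem_centralizer_singleton_iff]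
        have htT : t ∈ T := by
          rw [hT]; exact (le_sup_right : (Q : Subgroup G) ≤ Z ⊔ (Q : Subgroup G)) ht
        obtain ⟨i, hi⟩ := Q.2 ⟨t, ht⟩
        have h3 : t ^ (q ^ i) = 1 := by
          have := congrArg Subtype.val hi; simpa using this
        have hcop : (orderOf t).Coprime (orderOf x) := by
          rw [hx]
          exact Nat.Coprime.coprime_dvd_left (orderOf_dvd_of_pow_eq_one h3)
            (Nat.Coprime.pow_left i ((Nat.coprime_primes hqpr hp).mpr hqp'))
        exact Cfsg.Agent.Lib_helper2_CN.nilpotent_coprime_comm' T hTn htT hxT hcop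
    have hxc : ∀ g : G, g * x = x * g := by
      intro g
      have : g ∈ Subgroup.centralizer ({x} : Set G) := by rw [hcent]; exact Subgroup.mem_top g
      exact Subgroup.mem_centralizer_singleton_iff.mp this
    have hzc : ∀ z ∈ Z, ∀ g : G, g * z = z * g := by
      intro z hz g
      rw [hZ] at hz
      obtain ⟨j, rfl⟩ := Subgroup.mem_zpowers_iff.mp hz
      exact (Commute.zpow_right (hxc g) j).eq
    have hZn : Z.Normal := by
      constructor
      intro z hz g
      have : g * z * g⁻¹ = z := by rw [hzc z hz g]; group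
      rw [this]; exact hz
    haveI := hZn
    refine ⟨Z, K, hZn, hKn, hZK, hZKtop, hZcard, ⟨hM₀n, ?_⟩, hKp⟩
    intro L hL
    obtain ⟨L', hL'⟩ : ∃ L' : Subgroup G, L' = L.map K.subtype := ⟨_, rfl⟩
    have hL'K : L' ≤ K := by rw [hL']; exact Subgroup.map_subtype_le L
    obtain ⟨T, hT⟩ : ∃ T : Subgroup G, T = L' ⊔ Z := ⟨_, rfl⟩
    have hxT : x ∈ T := by
      rw [hT]; exact (le_sup_right : Z ≤ L' ⊔ Z) hxZ
    have hpT : p ∣ Nat.card T := by rw [← hx]; exact Subgroup.orderOf_dvd_natCard T hxT
    have hTtop : T ≠ ⊤ := by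
      intro hTtop
      apply hL
      rw [eq_top_iff]
      intro ⟨k', hk'⟩ _
      have hkT : k' ∈ L' ⊔ Z := by rw [← hT, hTtop]; exact Subgroup.mem_top k'
      rw [← SetLike.mem_coe, Subgroup.mul_normal] at hkT
      obtain ⟨l, hl, z, hz, hlz⟩ := Set.mem_mul.mp hkT
      have hzK : z ∈ K := by
        have : z = l⁻¹ * k' := by rw [← hlz]; group
        rw [this]; exact K.mul_mem (K.inv_mem (hL'K hl)) hk'
      have hz1 : z = 1 := by
        have : z ∈ Z ⊓ K := ⟨hz, hzK⟩
        rw [hZK] at this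
        exact Subgroup.mem_bot.mp this
      rw [hz1, mul_one] at hlz
      rw [hL'] at hl
      obtain ⟨l0, hl0, hl0e⟩ := Subgroup.mem_map.mp hl
      have : l0 = ⟨k', hk'⟩ := Subtype.ext (by show (l0 : G) = k'; rw [← hlz]; exact hl0e)
      rw [← this]; exact hl0
    have hTn := step1 T hTtop hpT
    have hL'n : Group.IsNilpotent L' := nil_of_le (by rw [hT]; exact le_sup_left) hTn
    subst hL'
    exact nil_of_inj (Subgroup.equivMapOfInjective L K.subtype K.subtype_injective).toMonoidHom
      (Subgroup.equivMapOfInjective L K.subtype K.subtype_injective).injective hL'n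
  · rintro (hnil | hmin | ⟨Z, K, hZn, hKn, hZK, hZKtop, hZcard, ⟨hKnn, hKmin⟩, hKp⟩)
    · intro M _ _
      haveI := hnil
      infer_instance
    · intro M hM _
      exact hmin.2 M hM.1
    · intro M hM hpM
      exact backward p hp Z K hZn hKn hZK hZKtop hZcard hKmin hKp M hM hpM

end Cfsg.Agent.S4242
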