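import Cfsg.Statements.S4244
-- import your own Cfsg.Agent.* helpers here

set_option autoImplicit false
open Cfsg

namespace Cfsg.Agent.S4244

theorem normal_case {G : Type*} [Group G] [Finite G] (N K : Subgroup G) [N.Normal] :
    (N ⊓ K).relIndex N ∣ K.index := by
  have h1 : (N ⊓ K).relIndex N * N.relIndex (N ⊔ K) = (N ⊓ K).relIndex (N ⊔ K) :=
    Subgroup.relIndex_mul_relIndex _ _ _ inf_le_left le_sup_left
  have h2 : (N ⊓ K).relIndex K * K.relIndex (N ⊔ K) = (N ⊓ K).relIndex (N ⊔ K) :=
    Subgroup.relIndex_mul_relIndex _ _ _ inf_le_right le_sup_right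
  have h3 : N.relIndex (N ⊔ K) = (N ⊓ K).relIndex K := by
    rw [Subgroup.inf_relIndex_right, sup_comm, Subgroup.relIndex_sup_right]
  have h4 : (N ⊓ K).relIndex K ≠ 0 := by
    rw [Subgroup.inf_relIndex_right]
    show (N.subgroupOf K).index ≠ 0
    exact Subgroup.FiniteIndex.index_ne_zero
  have h5 : (N ⊓ K).relIndex N = K.relIndex (N ⊔ K) := by
    rw [h3] at h1
    rw [← h2, mul_comm] at h1
    exact Nat.eq_of_mul_eq_mul_left (Nat.pos_of_ne_zero h4) h1
  rw [h5]
  exact Subgroup.relIndex_dvd_index_of_le le_sup_right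

/-- Let H be a subnormal subgroup of a finite group G. Then for every subgroup K of G the index of H ∩ K in H divides the index of K in G. -/
theorem result {G : Type*} [Group G] [Finite G] (H : Subgroup G) (hH : H.IsSubnormal) (K : Subgroup G) :
    (H ⊓ K).relIndex H ∣ K.index := by
  induction hH generalizing K with
  | top => simp
  | step H M hHM hM hN ih =>
    have h1 := @normal_case M _ _ (H.subgroupOf M) (K.subgroupOf M) hN
    have h2 : (H.subgroupOf M ⊓ K.subgroupOf M).relIndex (H.subgroupOf M) = (H ⊓ K).relIndex H := by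
      have : H.subgroupOf M ⊓ K.subgroupOf M = (H ⊓ K).subgroupOf M := by
        simp only [Subgroup.subgroupOf, Subgroup.comap_inf]
      rw [this, Subgroup.relIndex_subgroupOf hHM]
    have h3 : (K.subgroupOf M).index = (M ⊓ K).relIndex M := by
      rw [Subgroup.inf_relIndex_left]; rfl
    rw [h2, h3] at h1
    exact h1.trans (ih K)

end Cfsg.Agent.S4244
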