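import Cfsg.Statements.S4252
import Cfsg.Agent.Lib_helper6_Conj

set_option autoImplicit false
open Cfsg
open Pointwise

namespace Cfsg.Agent.S4252

/-- Let a finite group G act on a finite set Ω with more than one point, transitively but not regularly, so that no non-identity element of G fixes two distinct points. Then the stabilizer H of any point is a Frobenius complement in G (nontrivial, proper, meeting its other conjugates trivially), and the Frobenius kernel of G with respect to H (the identity together with the elements lying in no conjugate of H) is exactly the set consisting of the identity and the elements fixing no point. -/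
theorem result {G Ω : Type*} [Group G] [Finite G] [Fintype Ω] [MulAction G Ω] (hΩ : 1 < Fintype.card Ω)
    (htrans : ∀ α β : Ω, ∃ g : G, g • α = β) (hnreg : ∃ g : G, g ≠ 1 ∧ ∃ α : Ω, g • α = α)
    (hfix : ∀ g : G, g ≠ 1 → ∀ α β : Ω, g • α = α → g • β = β → α = β) (α : Ω) :
    Cfsg.IsFrobeniusComplement (MulAction.stabilizer G α) ∧
      Cfsg.frobeniusKernel (MulAction.stabilizer G α) = {g : G | g = 1 ∨ ∀ ω : Ω, g • ω ≠ ω} := by
  classical
  have hmem : ∀ g x : G, x ∈ (MulAut.conj g • MulAction.stabilizer G α : Subgroup G) ↔
      x • (g • α) = g • α := by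
    intro g x
    rw [Cfsg.Agent.Lib_helper6_Conj.mem_conj_smul, MulAction.mem_stabilizer_iff, mul_smul, mul_smul,
      inv_smul_eq_iff]
  refine ⟨⟨?_, ?_, ?_⟩, ?_⟩
  · obtain ⟨g, hg1, β, hgβ⟩ := hnreg
    obtain ⟨k, hk⟩ := htrans β α
    intro hbot
    have hmemH : k * g * k⁻¹ ∈ MulAction.stabilizer G α := by
      rw [MulAction.mem_stabilizer_iff, mul_smul, mul_smul, ← hk, inv_smul_smul, hgβ]
    rw [hbot, Subgroup.mem_bot] at hmemH
    apply hg1
    have : g = k⁻¹ * (k * g * k⁻¹) * k := by group
    rw [this, hmemH]; group
  · obtain ⟨β, hβ⟩ := Fintype.exists_ne_of_one_lt_card hΩ α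
    obtain ⟨k, hk⟩ := htrans α β
    intro htop
    have : k ∈ MulAction.stabilizer G α := by rw [htop]; exact Subgroup.mem_top k
    rw [MulAction.mem_stabilizer_iff, hk] at this
    exact hβ this
  · intro g hg
    rw [eq_bot_iff]
    intro x hx
    rw [Subgroup.mem_bot]
    rw [Subgroup.mem_inf] at hx
    obtain ⟨hx1, hx2⟩ := hx
    rw [hmem] at hx2
    rw [MulAction.mem_stabilizer_iff] at hx1
    by_contra hne
    have := hfix x hne α (g • α) hx1 hx2
    apply hg
    rw [MulAction.mem_stabilizer_iff]
    exact this.symm
  · ext x
    simp only [Cfsg.frobeniusKernel, Set.mem_ofPred_eq]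
    constructor
    · rintro (h | h)
      · exact Or.inl h
      · right
        intro ω
        obtain ⟨g, hg⟩ := htrans α ω
        have := h g
        rw [hmem, hg] at this
        exact this
    · rintro (h | h)
      · exact Or.inl h
      · right
        intro g
        rw [hmem]
        exact h (g • α)

end Cfsg.Agent.S4252
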