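import Cfsg.Statements.S4261
import Cfsg.Agent.S0048
import Cfsg.Agent.Lib_helper7_PIrr
import Cfsg.Agent.Lib_helper7_Sylow

set_option autoImplicit false
open Cfsg

namespace Cfsg.Agent.S4261

/-- Let M be a maximal subgroup of a finite solvable group G such that x^[G : M] lies in M for every x in G. Then M is normal in G. -/
theorem result {G : Type*} [Group G] [Finite G] (hG : Group.IsSolvable G) (M : Subgroup G) (hM : IsCoatom M)
    (hexp : ∀ x : G, x ^ M.index ∈ M) : M.Normal := by
  haveI := hG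
  obtain ⟨p, k, hp, hk, hpk⟩ := Cfsg.Agent.S0048.result M hM
  haveI : Fact p.Prime := ⟨Nat.prime_iff.mpr hp⟩
  have hR : Cfsg.pResidual p G ≤ M := by
    unfold Cfsg.pResidual
    rw [Subgroup.closure_le]
    intro g hg
    have hg' : Nat.Coprime (orderOf g) p := hg
    have h1 : g ^ M.index ∈ M := hexp g
    have hcop : Nat.Coprime (orderOf g) (p ^ k) := Nat.Coprime.pow_right k hg'
    have hz : Subgroup.zpowers (g ^ (p ^ k)) = Subgroup.zpowers g := by
      apply Subgroup.eq_of_le_of_card_ge
      · rw [Subgroup.zpowers_le]; exact Subgroup.pow_mem _ (Subgroup.mem_zpowers g) _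
      · rw [Nat.card_zpowers, Nat.card_zpowers, hcop.orderOf_pow]
    have h2 : g ∈ Subgroup.zpowers (g ^ (p ^ k)) := by rw [hz]; exact Subgroup.mem_zpowers g
    rw [← hpk] at h1
    exact (Subgroup.zpowers_le.mpr h1) h2
  haveI hRn : (Cfsg.pResidual p G).Normal :=
    Cfsg.Agent.Lib_helper7_Sylow.pResidual_normal (K := G) p
  have hPG : IsPGroup p (G ⧸ Cfsg.pResidual p G) :=
    Cfsg.Agent.Lib_helper7_Sylow.isPGroup_quotient_pResidual (K := G) p
  haveI : Group.IsNilpotent (G ⧸ Cfsg.pResidual p G) := hPG.isNilpotent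
  have hco : IsCoatom (M.map (QuotientGroup.mk' (Cfsg.pResidual p G))) :=
    Cfsg.Agent.Lib_helper7_PIrr.isCoatom_map_mk _ M hR hM
  have hn : (M.map (QuotientGroup.mk' (Cfsg.pResidual p G))).Normal :=
    Subgroup.NormalizerCondition.normal_of_coatom _ Group.normalizerCondition_of_isNilpotent hco
  have hM' : M = (M.map (QuotientGroup.mk' (Cfsg.pResidual p G))).comap
      (QuotientGroup.mk' (Cfsg.pResidual p G)) := by
    rw [Subgroup.comap_map_eq, QuotientGroup.ker_mk', sup_eq_left.mpr hR]
  rw [hM']; exact hn.comap _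

end Cfsg.Agent.S4261
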