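import Cfsg.Statements.S4263
import Cfsg.Agent.Lib_helper5_Fitting

set_option autoImplicit false
open Cfsg

namespace Cfsg.Agent.S4263

theorem pow_index_mem_of_nilpotent {F : Type*} [Group F] [Finite F] [Group.IsNilpotent F] :
    ∀ (n : ℕ) (D : Subgroup F), D.index = n → ∀ y : F, y ^ D.index ∈ D := by
  intro n
  induction n using Nat.strong_induction_on with
  | _ n ih =>
    intro D hD y
    by_cases hDt : D = ⊤
    · subst hDt; simp
    · have hlt : D < Subgroup.normalizer (D : Set F) :=
        Group.normalizerCondition_of_isNilpotent D (lt_top_iff_ne_top.mpr hDt)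
      obtain ⟨N, hN⟩ : ∃ N, N = Subgroup.normalizer (D : Set F) := ⟨_, rfl⟩
      rw [← hN] at hlt
      have hidx : D.relIndex N * N.index = D.index := Subgroup.relIndex_mul_index hlt.le
      have hrel : D.relIndex N ≠ 1 := by
        intro h
        exact (not_le_of_gt hlt) (Subgroup.relIndex_eq_one.mp h)
      have hDpos : D.index ≠ 0 := Subgroup.index_ne_zero_of_finite
      have hNpos : N.index ≠ 0 := Subgroup.index_ne_zero_of_finite
      have hrpos : D.relIndex N ≠ 0 := by
        intro h; rw [h, zero_mul] at hidx; exact hDpos hidx.symm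
      have hNlt : N.index < D.index := by
        rw [← hidx]
        have h2 : 2 ≤ D.relIndex N := by omega
        nlinarith [Nat.pos_of_ne_zero hNpos]
      have h1 : y ^ N.index ∈ N := ih N.index (hD ▸ hNlt) N rfl y
      have hnorm : (D.subgroupOf N).Normal := by
        rw [hN]; exact Subgroup.normal_in_normalizer
      have h2 : (⟨y ^ N.index, h1⟩ : N) ^ (D.subgroupOf N).index ∈ D.subgroupOf N :=
        Subgroup.pow_index_mem _ _
      rw [← hidx, mul_comm, pow_mul]
      have h3 : (((⟨y ^ N.index, h1⟩ : N) ^ (D.subgroupOf N).index : N) : F) ∈ D :=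
        Subgroup.mem_subgroupOf.mp h2
      exact h3

theorem relIndex_dvd_index_of_normal_right {G : Type*} [Group G] [Finite G] (H F : Subgroup G)
    [F.Normal] : H.relIndex F ∣ H.index := by
  have e1 : H.relIndex (H ⊔ F) = H.relIndex F := by
    have c1 := Cfsg.Agent.Lib_helper5_Fitting.relIndex_mul_card' (le_sup_right : F ≤ H ⊔ F)
    have c2 := Cfsg.Agent.Lib_helper5_Fitting.relIndex_mul_card' (le_sup_left : H ≤ H ⊔ F)
    have c3 := Cfsg.Agent.Lib_helper5_Fitting.relIndex_mul_card' (inf_le_right : F ⊓ H ≤ H)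
    have c4 := Cfsg.Agent.Lib_helper5_Fitting.relIndex_mul_card' (inf_le_right : H ⊓ F ≤ F)
    rw [Subgroup.inf_relIndex_right] at c3 c4
    rw [Subgroup.relIndex_sup_right] at c1
    rw [inf_comm] at c3
    have hpos : 0 < Nat.card H := Nat.card_pos
    have h5 : H.relIndex (H ⊔ F) * Nat.card H = H.relIndex F * Nat.card H := by
      rw [c2, ← c1, ← c4, ← c3]; ring
    exact Nat.eq_of_mul_eq_mul_right hpos h5
  rw [← e1]; exact Subgroup.relIndex_dvd_index_of_le le_sup_left


/-- Let G be a finite group. An element x lies in the Fitting subgroup F(G) if and only if, for every subgroup H of G, the power x^[G : H] lies in H. -/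
theorem result {G : Type*} [Group G] [Finite G] (x : G) :
    x ∈ Cfsg.fittingSubgroup G ↔ ∀ H : Subgroup G, x ^ H.index ∈ H := by
  haveI hFn : (Cfsg.fittingSubgroup G).Normal := Subgroup.normal_of_characteristic _
  constructor
  · intro hx H
    haveI := Cfsg.Agent.Lib_helper5_Fitting.fitting_isNilpotent (G := G)
    have h1 := pow_index_mem_of_nilpotent _ (H.subgroupOf (Cfsg.fittingSubgroup G)) rfl
      (⟨x, hx⟩ : Cfsg.fittingSubgroup G)
    have h2 : x ^ (H.relIndex (Cfsg.fittingSubgroup G)) ∈ H := Subgroup.mem_subgroupOf.mp h1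
    obtain ⟨c, hc⟩ := relIndex_dvd_index_of_normal_right H (Cfsg.fittingSubgroup G)
    rw [hc, pow_mul]
    exact H.pow_mem h2 c
  · intro h
    have key : ∀ (p : ℕ) [Fact p.Prime] (P : Sylow p G),
        x ^ (P : Subgroup G).index ∈ Cfsg.fittingSubgroup G := by
      intro p _ P
      have hK : (P : Subgroup G).normalCore ≤ Cfsg.fittingSubgroup G := by
        apply Cfsg.Agent.Lib_helper5_Fitting.le_fitting (Subgroup.normalCore_normal _)
        have hp : IsPGroup p ((P : Subgroup G).normalCore) :=
          P.isPGroup'.to_le (Subgroup.normalCore_le _)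
        exact hp.isNilpotent
      apply hK
      intro b
      have h1 := h ((P : Subgroup G).comap (MulAut.conj b).toMonoidHom)
      rw [Subgroup.index_comap_of_surjective _ (MulAut.conj b).surjective] at h1
      have h2 : (MulAut.conj b) (x ^ (P : Subgroup G).index) ∈ (P : Subgroup G) :=
        Subgroup.mem_comap.mp h1
      rw [MulAut.conj_apply] at h2
      exact h2
    by_contra hx
    have hne : (QuotientGroup.mk x : G ⧸ Cfsg.fittingSubgroup G) ≠ 1 := by
      rwa [Ne, QuotientGroup.eq_one_iff]
    have hd : orderOf (QuotientGroup.mk x : G ⧸ Cfsg.fittingSubgroup G) ≠ 1 := by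
      rwa [Ne, orderOf_eq_one_iff]
    obtain ⟨r, hr, hrd⟩ := Nat.exists_prime_and_dvd hd
    haveI : Fact r.Prime := ⟨hr⟩
    obtain ⟨P⟩ : Nonempty (Sylow r G) := inferInstance
    have h3 := key r P
    have h1 : (QuotientGroup.mk x : G ⧸ Cfsg.fittingSubgroup G) ^ (P : Subgroup G).index = 1 := by
      rw [← QuotientGroup.mk_pow, QuotientGroup.eq_one_iff]; exact h3
    exact P.not_dvd_index (hrd.trans (orderOf_dvd_of_pow_eq_one h1))

end Cfsg.Agent.S4263
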