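import Cfsg.Statements.S4337
import Cfsg.Agent.Lib_helper6_SmallPerm

set_option autoImplicit false
open Cfsg

namespace Cfsg.Agent.S4337

open Equiv in
theorem two_swaps {n : ℕ} (x1 y1 x2 y2 : Fin n) :
    Group.IsSolvable (Subgroup.closure ({swap x1 y1, swap x2 y2} : Set (Equiv.Perm (Fin n)))) := by
  apply Cfsg.Agent.Lib_helper6_SmallPerm.solvable_of_support ({x1, y1, x2, y2} : Finset (Fin n))
    Finset.card_le_four
  intro σ hσ x hx
  refine Cfsg.Agent.Lib_helper6_SmallPerm.closure_fix
    (({x1, y1, x2, y2} : Finset (Fin n)) : Set (Fin n)) _ ?_ σ hσ x (by simpa using hx)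
  intro g hg x hx
  simp only [Set.mem_insert_iff, Set.mem_singleton_iff] at hg
  simp only [Finset.coe_insert, Finset.coe_singleton, Set.mem_insert_iff,
    Set.mem_singleton_iff, not_or] at hx
  rcases hg with rfl | rfl
  · exact swap_apply_of_ne_of_ne hx.1 hx.2.1
  · exact swap_apply_of_ne_of_ne hx.2.2.1 hx.2.2.2

open Equiv in
theorem core {n : ℕ} (x1 y1 x2 y2 x3 y3 : Fin n)
    (h1 : x1 ∈ ({x2, y2} : Finset (Fin n)) ∨ y1 ∈ ({x2, y2} : Finset (Fin n)))
    (h2 : x3 ∈ (insert x1 (insert y1 {x2, y2}) : Finset (Fin n)) ∨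
      y3 ∈ (insert x1 (insert y1 {x2, y2}) : Finset (Fin n))) :
    Group.IsSolvable (Subgroup.closure
      ({swap x1 y1, swap x2 y2, swap x3 y3} : Set (Equiv.Perm (Fin n)))) := by
  have hS : (insert x3 (insert y3 (insert x1 (insert y1 {x2, y2}))) : Finset (Fin n)).card ≤ 4 := by
    have e1 := Cfsg.Agent.Lib_helper6_SmallPerm.card_insert_insert_le h1
    have e2 := Cfsg.Agent.Lib_helper6_SmallPerm.card_insert_insert_le h2
    have e3 : ({x2, y2} : Finset (Fin n)).card ≤ 2 := Finset.card_le_two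
    omega
  apply Cfsg.Agent.Lib_helper6_SmallPerm.solvable_of_support _ hS
  intro σ hσ x hx
  refine Cfsg.Agent.Lib_helper6_SmallPerm.closure_fix
    ((insert x3 (insert y3 (insert x1 (insert y1 {x2, y2}))) : Finset (Fin n)) : Set (Fin n)) _ ?_
    σ hσ x (by simpa using hx)
  intro g hg x hx
  simp only [Set.mem_insert_iff, Set.mem_singleton_iff] at hg
  simp only [Finset.coe_insert, Finset.coe_singleton, Set.mem_insert_iff,
    Set.mem_singleton_iff, not_or] at hx
  rcases hg with rfl | rfl | rfl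
  · exact swap_apply_of_ne_of_ne hx.2.2.1 hx.2.2.2.1
  · exact swap_apply_of_ne_of_ne hx.2.2.2.2.1 hx.2.2.2.2.2
  · exact swap_apply_of_ne_of_ne hx.1 hx.2.1

theorem central_case {n : ℕ} (a b c : Equiv.Perm (Fin n))
    (hab : Group.IsSolvable (Subgroup.closure ({a, b} : Set (Equiv.Perm (Fin n)))))
    (hca : Commute c a) (hcb : Commute c b) :
    Group.IsSolvable (Subgroup.closure ({a, b, c} : Set (Equiv.Perm (Fin n)))) := by
  apply Cfsg.Agent.Lib_helper6_SmallPerm.solvable_of_le_sup_zpowers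
    (Subgroup.closure ({a, b} : Set (Equiv.Perm (Fin n)))) c
  · intro k hk
    induction hk using Subgroup.closure_induction with
    | mem g hg =>
      rcases hg with rfl | rfl
      · exact hca.symm
      · exact hcb.symm
    | one => exact Commute.one_left c
    | mul _ _ _ _ h1 h2 => exact h1.mul_left h2
    | inv _ _ h => exact h.inv_left
  · rw [Subgroup.closure_le]
    intro g hg
    rcases hg with rfl | rfl | rfl
    · exact Subgroup.mem_sup_left (Subgroup.subset_closure (by simp))
    · exact Subgroup.mem_sup_left (Subgroup.subset_closure (by simp))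
    · exact Subgroup.mem_sup_right (Subgroup.mem_zpowers _)

/-- In a finite symmetric group, any three transpositions generate a solvable subgroup. -/
theorem result (n : ℕ) (a b c : Equiv.Perm (Fin n))
    (ha : a.IsSwap) (hb : b.IsSwap) (hc : c.IsSwap) :
    Group.IsSolvable (Subgroup.closure ({a, b, c} : Set (Equiv.Perm (Fin n)))) := by
  classical
  obtain ⟨x1, y1, h1, rfl⟩ := ha
  obtain ⟨x2, y2, h2, rfl⟩ := hb
  obtain ⟨x3, y3, h3, rfl⟩ := hc
  by_cases hcc : Commute (Equiv.swap x3 y3) (Equiv.swap x1 y1) ∧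
      Commute (Equiv.swap x3 y3) (Equiv.swap x2 y2)
  · exact central_case _ _ _ (two_swaps x1 y1 x2 y2) hcc.1 hcc.2
  by_cases haa : Commute (Equiv.swap x1 y1) (Equiv.swap x2 y2) ∧
      Commute (Equiv.swap x1 y1) (Equiv.swap x3 y3)
  · have := central_case _ _ _ (two_swaps x2 y2 x3 y3) haa.1 haa.2
    rw [Set.pair_comm (Equiv.swap x3 y3) (Equiv.swap x1 y1), Set.insert_comm] at this
    exact this
  by_cases hbb : Commute (Equiv.swap x2 y2) (Equiv.swap x1 y1) ∧
      Commute (Equiv.swap x2 y2) (Equiv.swap x3 y3)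
  · have := central_case _ _ _ (two_swaps x1 y1 x3 y3) hbb.1 hbb.2
    rw [Set.pair_comm (Equiv.swap x3 y3) (Equiv.swap x2 y2)] at this
    exact this
  by_cases hab : Commute (Equiv.swap x1 y1) (Equiv.swap x2 y2)
  · have hac : ¬ Commute (Equiv.swap x1 y1) (Equiv.swap x3 y3) := fun h => haa ⟨hab, h⟩
    have hbc : ¬ Commute (Equiv.swap x2 y2) (Equiv.swap x3 y3) := fun h => hbb ⟨hab.symm, h⟩
    have s1 := Cfsg.Agent.Lib_helper6_SmallPerm.swap_share h1 h3 hac
    have s2 := Cfsg.Agent.Lib_helper6_SmallPerm.swap_share h2 h3 hbc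
    have := core x1 y1 x3 y3 x2 y2
      (by
        clear hcc haa hbb hab hac hbc s2
        rcases s1 with (h | h) | (h | h) <;> simp [h])
      (by
        clear hcc haa hbb hab hac hbc s1
        rcases s2 with (h | h) | (h | h) <;> simp [h])
    rw [Set.pair_comm (Equiv.swap x3 y3) (Equiv.swap x2 y2)] at this
    exact this
  · have s1 := Cfsg.Agent.Lib_helper6_SmallPerm.swap_share h1 h2 hab
    have hc' : ¬ Commute (Equiv.swap x3 y3) (Equiv.swap x1 y1) ∨
        ¬ Commute (Equiv.swap x3 y3) (Equiv.swap x2 y2) := not_and_or.mp hcc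
    apply core x1 y1 x2 y2 x3 y3
    · clear hcc haa hbb hab hc'
      rcases s1 with (h | h) | (h | h) <;> simp [h]
    · rcases hc' with h | h
      · have s2 := Cfsg.Agent.Lib_helper6_SmallPerm.swap_share h3 h1 h
        clear hcc haa hbb hab h s1
        rcases s2 with (h | h) | (h | h) <;> simp [h]
      · have s2 := Cfsg.Agent.Lib_helper6_SmallPerm.swap_share h3 h2 h
        clear hcc haa hbb hab h s1
        rcases s2 with (h | h) | (h | h) <;> simp [h]

end Cfsg.Agent.S4337
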