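import Cfsg.Statements.S4343
import Cfsg.Agent.Lib_helper6_Sylow

set_option autoImplicit false
open Cfsg

namespace Cfsg.Agent.S4343


open Cfsg.Agent

theorem card_mul_relIndex' {G : Type*} [Group G] (E R : Subgroup G) (h : E ≤ R) :
    Nat.card E * E.relIndex R = Nat.card R := by
  have := Subgroup.relIndex_mul_relIndex ⊥ E R bot_le h
  rw [Subgroup.relIndex_bot_left, Subgroup.relIndex_bot_left] at this
  exact this

/-- two distinct Sylow subgroups meet in a subgroup of index `p` when there are fewer than `p^2`
Sylow subgroups -/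
theorem relIndex_inf_eq {S : Type*} [Group S] [Finite S] (p : ℕ) [Fact p.Prime]
    (hn : Nat.card (Sylow p S) < p ^ 2) (P Q : Sylow p S) (hPQ : P ≠ Q) :
    ((P : Subgroup S) ⊓ (Q : Subgroup S)).relIndex (P : Subgroup S) = p := by
  classical
  have hp : p.Prime := Fact.out
  have h1 : (MulAction.orbit (P : Subgroup S) Q).ncard =
      (MulAction.stabilizer (P : Subgroup S) Q).index := (MulAction.index_stabilizer _ _).symm
  have h2 : MulAction.stabilizer (P : Subgroup S) Q =
      (Subgroup.normalizer ((Q : Subgroup S) : Set S)).subgroupOf (P : Subgroup S) := by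
    ext y
    rw [MulAction.mem_stabilizer_iff, Subgroup.mem_subgroupOf]
    exact Sylow.smul_eq_iff_mem_normalizer
  have h3 : (MulAction.stabilizer (P : Subgroup S) Q).index =
      ((P : Subgroup S) ⊓ (Q : Subgroup S)).relIndex (P : Subgroup S) := by
    rw [h2]
    show (Subgroup.normalizer ((Q : Subgroup S) : Set S)).relIndex (P : Subgroup S) = _
    have hinf : (P : Subgroup S) ⊓ Subgroup.normalizer ((Q : Subgroup S) : Set S) =
        (P : Subgroup S) ⊓ (Q : Subgroup S) := P.2.inf_normalizer_sylow Q
    rw [← Subgroup.inf_relIndex_left, hinf, Subgroup.inf_relIndex_left,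
      ← Subgroup.inf_relIndex_left]
  have h4 : (MulAction.orbit (P : Subgroup S) Q).ncard ≤ Nat.card (Sylow p S) :=
    Set.ncard_le_card _
  rw [h1, h3] at h4
  have h5 : ((P : Subgroup S) ⊓ (Q : Subgroup S)).relIndex (P : Subgroup S) ∣
      Nat.card (P : Subgroup S) := Subgroup.relIndex_dvd_card _ _
  obtain ⟨v, hv⟩ := IsPGroup.iff_card.mp P.2
  rw [hv] at h5
  obtain ⟨j, -, hj⟩ := (Nat.dvd_prime_pow hp).1 h5
  have hj1 : j ≠ 0 := by
    rintro rfl
    rw [pow_zero, Subgroup.relIndex_eq_one] at hj
    have hle : (P : Subgroup S) ≤ Q := fun x hx => (hj hx).2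
    exact hPQ (Sylow.ext (P.3 Q.2 hle).symm)
  have hj2 : j < 2 := by
    have : p ^ j < p ^ 2 := by rw [← hj]; exact lt_of_le_of_lt h4 hn
    exact (Nat.pow_lt_pow_iff_right hp.one_lt).mp this
  have : j = 1 := by omega
  rw [hj, this, pow_one]

/-- a subgroup of index `p` in a `p`-group is normalized by it -/
theorem le_normalizer_of_relIndex {S : Type*} [Group S] [Finite S] (p : ℕ) [Fact p.Prime]
    (R : Sylow p S) (E : Subgroup S) (hE : E ≤ (R : Subgroup S))
    (hidx : E.relIndex (R : Subgroup S) = p) :
    (R : Subgroup S) ≤ Subgroup.normalizer (E : Set S) := by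
  have hp : p.Prime := Fact.out
  rw [← Subgroup.normal_subgroupOf_iff_le_normalizer hE]
  apply Subgroup.normal_of_index_eq_minFac_card
  obtain ⟨v, hv⟩ := IsPGroup.iff_card.mp R.2
  have hv0 : v ≠ 0 := by
    rintro rfl
    rw [pow_zero] at hv
    have h1 := Subgroup.relIndex_dvd_card E (R : Subgroup S)
    rw [hidx, hv] at h1
    exact hp.one_lt.ne' (Nat.dvd_one.mp h1)
  rw [hv, hp.pow_minFac hv0]
  exact hidx

/-- Let S be a finite non-abelian simple group and p a prime dividing its order. If S has fewer than p² Sylow p-subgroups, then its Sylow p-subgroups have order p. -/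
theorem result {S : Type*} [Group S] [Finite S]
    [IsSimpleGroup S] (hS : ¬ IsMulCommutative S) (p : ℕ) [Fact p.Prime] (hp : p ∣ Nat.card S)
    (hn : Nat.card (Sylow p S) < p ^ 2) (P : Sylow p S) : Nat.card P = p := by
  classical
  have hp' : p.Prime := Fact.out
  have hcardP : Nat.card (P : Subgroup S) = p ^ (Nat.card S).factorization p :=
    Sylow.card_eq_multiplicity P
  have hv1 : 1 ≤ (Nat.card S).factorization p :=
    hp'.factorization_pos_of_dvd Nat.card_pos.ne' hp
  by_contra hne
  have hPgt : p < Nat.card (P : Subgroup S) := by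
    rw [hcardP]
    have h2 : 2 ≤ (Nat.card S).factorization p := by
      rcases Nat.lt_or_ge ((Nat.card S).factorization p) 2 with h | h
      · exfalso
        apply hne
        have : (Nat.card S).factorization p = 1 := by omega
        show Nat.card (P : Subgroup S) = p
        rw [hcardP, this, pow_one]
      · exact h
    calc p = p ^ 1 := (pow_one p).symm
      _ < p ^ (Nat.card S).factorization p := Nat.pow_lt_pow_right hp'.one_lt h2
  -- P is not normal
  have hPbot : (P : Subgroup S) ≠ ⊥ := by
    intro h
    rw [h, Subgroup.card_bot] at hPgt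
    exact absurd hPgt (by have := hp'.one_lt; omega)
  have hnn : ¬ (P : Subgroup S).Normal := by
    intro hN
    rcases hN.eq_bot_or_eq_top with h | h
    · exact hPbot h
    · -- S is a p-group, hence has nontrivial centre, hence abelian
      have hSp : IsPGroup p S := by
        intro g
        obtain ⟨k, hk⟩ := P.2 ⟨g, by rw [h]; trivial⟩
        exact ⟨k, congrArg Subtype.val hk⟩
      have hnt : Nontrivial S := by
        rw [← Finite.one_lt_card_iff_nontrivial]
        exact lt_of_lt_of_le hp'.one_lt (Nat.le_of_dvd Nat.card_pos hp)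
      have hZ : Subgroup.center S ≠ ⊥ := by
        have := hSp.center_nontrivial
        intro hbot
        rw [hbot] at this
        exact not_nontrivial _ this
      rcases (inferInstance : (Subgroup.center S).Normal).eq_bot_or_eq_top with h' | h'
      · exact hZ h'
      · apply hS
        refine ⟨⟨fun a b => ?_⟩⟩
        have ha : a ∈ Subgroup.center S := by rw [h']; trivial
        exact ((Subgroup.mem_center_iff.mp ha) b).symm
  obtain ⟨Q, hQP⟩ : ∃ Q : Sylow p S, Q ≠ P := by
    by_contra hall
    push Not at hall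
    apply hnn
    rw [← Subgroup.normalizer_eq_top_iff, eq_top_iff]
    intro g _
    exact Sylow.smul_eq_iff_mem_normalizer.mp (hall (g • P))
  have hidxP := relIndex_inf_eq p hn P Q hQP.symm
  have hidxQ := relIndex_inf_eq p hn Q P hQP
  rw [inf_comm] at hidxQ
  have hDcard := card_mul_relIndex' ((P : Subgroup S) ⊓ (Q : Subgroup S)) (P : Subgroup S) inf_le_left
  rw [hidxP] at hDcard
  have hDbot : (P : Subgroup S) ⊓ (Q : Subgroup S) ≠ ⊥ := by
    intro h
    rw [h, Subgroup.card_bot, one_mul] at hDcard
    omega
  have hPN : (P : Subgroup S) ≤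
      Subgroup.normalizer (((P : Subgroup S) ⊓ (Q : Subgroup S) : Subgroup S) : Set S) :=
    le_normalizer_of_relIndex p P _ inf_le_left hidxP
  have hQN : (Q : Subgroup S) ≤
      Subgroup.normalizer (((P : Subgroup S) ⊓ (Q : Subgroup S) : Subgroup S) : Set S) :=
    le_normalizer_of_relIndex p Q _ inf_le_right hidxQ
  have hcardeq : ∀ R R' : Sylow p S, Nat.card (R : Subgroup S) = Nat.card (R' : Subgroup S) := by
    intro R R'
    rw [Sylow.card_eq_multiplicity, Sylow.card_eq_multiplicity]
  have hall : ∀ R : Sylow p S, (R : Subgroup S) ≤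
      Subgroup.normalizer (((P : Subgroup S) ⊓ (Q : Subgroup S) : Subgroup S) : Set S) := by
    intro R
    by_cases hRP : R = P
    · rw [hRP]; exact hPN
    by_cases hRQ : R = Q
    · rw [hRQ]; exact hQN
    have i1 := relIndex_inf_eq p hn R P hRP
    have i2 := relIndex_inf_eq p hn R Q hRQ
    have c1 := card_mul_relIndex' ((R : Subgroup S) ⊓ (P : Subgroup S)) (R : Subgroup S) inf_le_left
    have c2 := card_mul_relIndex' ((R : Subgroup S) ⊓ (Q : Subgroup S)) (R : Subgroup S) inf_le_left
    rw [i1] at c1
    rw [i2] at c2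
    by_cases hD : (R : Subgroup S) ⊓ (P : Subgroup S) = (R : Subgroup S) ⊓ (Q : Subgroup S)
    · have hle : (R : Subgroup S) ⊓ (P : Subgroup S) ≤ (P : Subgroup S) ⊓ (Q : Subgroup S) :=
        le_inf inf_le_right (hD ▸ inf_le_right)
      have hcard : Nat.card ((P : Subgroup S) ⊓ (Q : Subgroup S) : Subgroup S) ≤
          Nat.card ((R : Subgroup S) ⊓ (P : Subgroup S) : Subgroup S) := by
        have := hcardeq R P
        have hp0 : 0 < p := hp'.pos
        nlinarith
      have heq : (R : Subgroup S) ⊓ (P : Subgroup S) = (P : Subgroup S) ⊓ (Q : Subgroup S) :=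
        Subgroup.eq_of_le_of_card_ge hle hcard
      rw [← heq]
      exact le_normalizer_of_relIndex p R _ inf_le_left i1
    · have hsup : (R : Subgroup S) ⊓ (P : Subgroup S) ⊔ (R : Subgroup S) ⊓ (Q : Subgroup S) =
          (R : Subgroup S) := by
        apply Subgroup.eq_of_le_of_card_ge (sup_le inf_le_left inf_le_left)
        -- the join strictly contains R ⊓ P and has order a power of p
        have hlt : (R : Subgroup S) ⊓ (P : Subgroup S) <
            (R : Subgroup S) ⊓ (P : Subgroup S) ⊔ (R : Subgroup S) ⊓ (Q : Subgroup S) := by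
          refine lt_of_le_of_ne le_sup_left (fun h => hD ?_)
          have hle : (R : Subgroup S) ⊓ (Q : Subgroup S) ≤ (R : Subgroup S) ⊓ (P : Subgroup S) := by
            rw [h]; exact le_sup_right
          exact (Subgroup.eq_of_le_of_card_ge hle (by
            have hp0 : 0 < p := hp'.pos
            nlinarith)).symm
        have hcl : Nat.card ((R : Subgroup S) ⊓ (P : Subgroup S) : Subgroup S) <
            Nat.card ((R : Subgroup S) ⊓ (P : Subgroup S) ⊔
              (R : Subgroup S) ⊓ (Q : Subgroup S) : Subgroup S) := by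
          by_contra hcon
          push Not at hcon
          exact hlt.ne (Subgroup.eq_of_le_of_card_ge hlt.le hcon)
        have hdvd : Nat.card ((R : Subgroup S) ⊓ (P : Subgroup S) ⊔
            (R : Subgroup S) ⊓ (Q : Subgroup S) : Subgroup S) ∣ Nat.card (R : Subgroup S) :=
          Subgroup.card_dvd_of_le (sup_le inf_le_left inf_le_left)
        obtain ⟨v, hv⟩ := IsPGroup.iff_card.mp R.2
        rw [hv] at hdvd
        obtain ⟨j, hjv, hj⟩ := (Nat.dvd_prime_pow hp').1 hdvd
        rw [hj] at hcl ⊢
        rw [hv] at c1 ⊢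
        -- card (R ⊓ P) * p = p ^ v and card (R ⊓ P) < p ^ j, j ≤ v
        rcases Nat.lt_or_ge j v with hjlt | hjge
        · exfalso
          have h1 : p ^ (j + 1) ≤ p ^ v := Nat.pow_le_pow_right hp'.pos hjlt
          rw [pow_succ] at h1
          have hp0 : 0 < p := hp'.pos
          nlinarith
        · exact Nat.pow_le_pow_right hp'.pos hjge
      rw [← hsup]
      exact sup_le (inf_le_right.trans hPN) (inf_le_right.trans hQN)
  have hncl : Subgroup.normalClosure ((P : Subgroup S) : Set S) ≤
      Subgroup.normalizer (((P : Subgroup S) ⊓ (Q : Subgroup S) : Subgroup S) : Set S) := by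
    apply (Subgroup.closure_le _).mpr
    intro x hx
    rw [Group.mem_conjugatesOfSet_iff] at hx
    obtain ⟨y, hy, hxy⟩ := hx
    rw [isConj_iff] at hxy
    obtain ⟨c, rfl⟩ := hxy
    apply hall (c • P)
    rw [Lib_helper6_Sylow.mem_smul_sylow]
    have : c⁻¹ * (c * y * c⁻¹) * c = y := by group
    rw [this]; exact hy
  have hncl_top : Subgroup.normalClosure ((P : Subgroup S) : Set S) = ⊤ := by
    rcases (Subgroup.normalClosure_normal (s := ((P : Subgroup S) : Set S))).eq_bot_or_eq_top with h | h
    · exfalso
      apply hPbot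
      rw [eq_bot_iff, ← h]
      exact Subgroup.le_normalClosure
    · exact h
  have hNtop : Subgroup.normalizer (((P : Subgroup S) ⊓ (Q : Subgroup S) : Subgroup S) : Set S) = ⊤ := by
    rw [eq_top_iff, ← hncl_top]; exact hncl
  have hDn : ((P : Subgroup S) ⊓ (Q : Subgroup S)).Normal := Subgroup.normalizer_eq_top_iff.mp hNtop
  rcases hDn.eq_bot_or_eq_top with h | h
  · exact hDbot h
  · have : (P : Subgroup S) ≤ (P : Subgroup S) ⊓ (Q : Subgroup S) := by rw [h]; exact le_top
    have h1 := Subgroup.relIndex_eq_one.mpr this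
    rw [hidxP] at h1
    exact hp'.one_lt.ne' h1

end Cfsg.Agent.S4343
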