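import Cfsg.Statements.S4344
import Cfsg.Agent.Lib_helper6_Sylow
import Cfsg.Agent.Lib_helper6_Cyclic

set_option autoImplicit false
open Cfsg

namespace Cfsg.Agent.S4344

/-- Let S be a finite non-abelian simple group, M a maximal subgroup of S and C a cyclic normal subgroup of M. If a Sylow p-subgroup P of S (for a prime p dividing the order of S) is contained in C, then the number of Sylow p-subgroups of S equals the index of M. -/
theorem result {S : Type*} [Group S] [Finite S]
    [IsSimpleGroup S] (hS : ¬ IsMulCommutative S) (p : ℕ) [Fact p.Prime] (hp : p ∣ Nat.card S)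
    (M : Subgroup S) (hM : IsCoatom M) (C : Subgroup S) (hCM : C ≤ M) (hCn : (C.subgroupOf M).Normal)
    (hC : IsCyclic C) (P : Sylow p S) (hP : (P : Subgroup S) ≤ C) :
    Nat.card (Sylow p S) = M.index := by
  haveI := hC
  rw [Sylow.card_eq_index_normalizer P]
  -- M ≤ N(P)
  have hMN : M ≤ Subgroup.normalizer ((P : Subgroup S) : Set S) := by
    intro m hm
    rw [Lib_helper6_Conj.mem_normalizer_iff_conjMap]
    apply Lib_helper6_Cyclic.eq_of_card_eq_of_le C _ _ _ hP (Lib_helper6_Conj.card_conjMap _ _)
    intro x hx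
    rw [Lib_helper6_Conj.mem_conjMap] at hx
    have hxC := hP hx
    have h1 : (⟨m, hm⟩ : M) * ⟨m⁻¹ * x * m, hCM hxC⟩ * (⟨m, hm⟩ : M)⁻¹ ∈ C.subgroupOf M :=
      hCn.conj_mem _ (Subgroup.mem_subgroupOf.mpr hxC) _
    rw [Subgroup.mem_subgroupOf] at h1
    have e : m * (m⁻¹ * x * m) * m⁻¹ = x := by group
    simpa [e] using h1
  have hNtop : Subgroup.normalizer ((P : Subgroup S) : Set S) ≠ ⊤ := by
    intro htop
    have hnorm : (P : Subgroup S).Normal := Subgroup.normalizer_eq_top_iff.mp htop
    rcases IsSimpleGroup.eq_bot_or_eq_top_of_normal _ hnorm with h | h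
    · exact P.ne_bot_of_dvd_card hp h
    · apply hS
      have hCtop : C = ⊤ := top_unique (h ▸ hP)
      apply IsMulCommutative.of_comm
      intro a b
      have := setLike_mul_comm (s := C) (a := a) (b := b) (by rw [hCtop]; trivial) (by rw [hCtop]; trivial)
      exact this
  exact congrArg Subgroup.index ((hM.le_iff_eq hNtop).mp hMN)

end Cfsg.Agent.S4344
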