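import Cfsg.Statements.S4345
import Cfsg.Agent.Lib_helper6_SylowFib
import Cfsg.Agent.Lib_helper1_Hall

set_option autoImplicit false
open Cfsg

namespace Cfsg.Agent.S4345


universe u

theorem main (p ℓ : ℕ) [Fact p.Prime] (hℓ : ℓ.Prime) :
    ∀ (n : ℕ) (G : Type u) [Group G] [Finite G], Group.IsSolvable G → Nat.card G = n →
      ℓ ^ (Nat.card (Sylow p G)).factorization ℓ ≡ 1 [MOD p] := by
  intro n
  induction n using Nat.strong_induction_on with
  | _ n ih =>
    intro G _ _ hG hn
    classical
    have P : Sylow p G := default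
    by_cases h1 : Nat.card G = 1
    · have hdvd : Nat.card (Sylow p G) ∣ Nat.card G :=
        (Sylow.card_dvd_index P).trans (Subgroup.index_dvd_card _)
      rw [h1, Nat.dvd_one] at hdvd
      rw [hdvd]
      simp
      rfl
    · have hnt : Nontrivial G := by
        rw [← Finite.one_lt_card_iff_nontrivial]
        have : 0 < Nat.card G := Nat.card_pos
        omega
      obtain ⟨M, hMn, hM1, -, -, q, k, hq, hk, hMcard⟩ :=
        Cfsg.Agent.Lib_helper1_Hall.exists_minimal_normal (G := G)
      have hsolv : Group.IsSolvable (G ⧸ M) :=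
        Group.isSolvable_of_surjective (QuotientGroup.mk'_surjective M)
      have hcardlt : Nat.card (G ⧸ M) < n := by
        rw [← hn, Subgroup.card_eq_card_quotient_mul_card_subgroup M, hMcard]
        have h2 : 1 < q ^ k := Nat.one_lt_pow hk hq.one_lt
        have h3 : 0 < Nat.card (G ⧸ M) := Nat.card_pos
        nlinarith
      have hIH := ih _ hcardlt (G ⧸ M) hsolv rfl
      have hA := Cfsg.Agent.Lib_helper6_SylowFib.card_sylow_eq_mul_fiber M P
      have hB := Cfsg.Agent.Lib_helper6_SylowFib.card_fiber_modEq_one M P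
      have hC := Cfsg.Agent.Lib_helper6_SylowFib.card_fiber_dvd M P
      rw [hMcard] at hC
      obtain ⟨j, -, hj⟩ := (Nat.dvd_prime_pow hq).1 hC
      rw [hj] at hA hB
      have hne1 : Nat.card (Sylow p (G ⧸ M)) ≠ 0 := Nat.card_pos.ne'
      have hne2 : q ^ j ≠ 0 := (pow_pos hq.pos j).ne'
      rw [hA, Nat.factorization_mul hne1 hne2, Finsupp.add_apply, hq.factorization_pow,
        Finsupp.single_apply]
      by_cases hlq : q = ℓ
      · rw [if_pos hlq, pow_add]
        have : ℓ ^ j ≡ 1 [MOD p] := by rw [← hlq]; exact hB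
        simpa using hIH.mul this
      · rw [if_neg hlq, add_zero]
        exact hIH

/-- Let G be a finite solvable group and p, ℓ primes. Then the largest power of ℓ dividing the number of Sylow p-subgroups of G is congruent to 1 modulo p. -/
theorem result {G : Type*} [Group G] [Finite G]
    (hG : Group.IsSolvable G) (p ℓ : ℕ) [Fact p.Prime] (hℓ : ℓ.Prime) :
    ℓ ^ (Nat.card (Sylow p G)).factorization ℓ ≡ 1 [MOD p] := by
  exact main p ℓ hℓ (Nat.card G) G hG rfl

end Cfsg.Agent.S4345
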