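import Cfsg.Statements.S4387
import Cfsg.Agent.Lib_helper6_Cover
import Cfsg.Agent.Lib_helper6_Conj

set_option autoImplicit false
open Pointwise
open Cfsg

namespace Cfsg.Agent.S4387

/-- Let G be a non-trivial finite group in which any two maximal subgroups are conjugate. Then G is cyclic of prime-power order. -/
theorem result {G : Type*} [Group G] [Finite G] [Nontrivial G]
    (h : ∀ M N : Subgroup G, IsCoatom M → IsCoatom N → ∃ g : G, N = MulAut.conj g • M) :
    IsCyclic G ∧ IsPrimePow (Nat.card G) := by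
  -- a coatom exists
  have hbt : (⊥ : Subgroup G) ≠ ⊤ := bot_ne_top
  obtain ⟨M0, hM0, -⟩ := (eq_top_or_exists_le_coatom (⊥ : Subgroup G)).resolve_left hbt
  have hcyc : IsCyclic G := by
    by_contra hnc
    rw [isCyclic_iff_exists_zpowers_eq_top] at hnc
    push Not at hnc
    obtain ⟨g, hg⟩ := Lib_helper6_Cover.exists_not_mem_conj M0 hM0.1
    obtain ⟨N, hN, hgN⟩ := (eq_top_or_exists_le_coatom (Subgroup.zpowers g)).resolve_left (hnc g)
    obtain ⟨y, rfl⟩ := h M0 N hM0 hN
    have := hgN (Subgroup.mem_zpowers g)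
    rw [Lib_helper6_Conj.mem_conj_smul] at this
    exact hg y this
  refine ⟨hcyc, ?_⟩
  haveI := hcyc
  have hcomm : ∀ a b : G, a * b = b * a := isMulCommutative_iff.mp inferInstance
  -- unique coatom
  have huniq : ∀ N : Subgroup G, IsCoatom N → N = M0 := by
    intro N hN
    obtain ⟨y, rfl⟩ := h M0 N hM0 hN
    ext x
    rw [Lib_helper6_Conj.mem_conj_smul]
    have : y⁻¹ * x * y = x := by rw [hcomm y⁻¹ x]; group
    rw [this]
  obtain ⟨a, ha⟩ := isCyclic_iff_exists_zpowers_eq_top.mp hcyc
  have hn : orderOf a = Nat.card G := by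
    rw [← Nat.card_zpowers, ha, Nat.card_congr (Subgroup.topEquiv (G := G)).toEquiv]
  have hn1 : 1 < Nat.card G := Finite.one_lt_card
  -- for each prime p ∣ n, a^p ∈ M0
  have hpow : ∀ p : ℕ, p.Prime → p ∣ Nat.card G → a ^ p ∈ M0 := by
    intro p hp hpn
    have hne : Subgroup.zpowers (a ^ p) ≠ ⊤ := by
      intro htop
      have h1 : orderOf (a ^ p) = Nat.card G := by
        rw [← Nat.card_zpowers, htop, Nat.card_congr (Subgroup.topEquiv (G := G)).toEquiv]
      rw [orderOf_pow' a hp.ne_zero, hn, Nat.gcd_eq_right hpn] at h1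
      have h2 := Nat.div_lt_self (by omega : 0 < Nat.card G) hp.one_lt
      omega
    obtain ⟨N, hN, hle⟩ := (eq_top_or_exists_le_coatom _).resolve_left hne
    rw [huniq N hN] at hle
    exact hle (Subgroup.mem_zpowers _)
  set p := (Nat.card G).minFac with hp
  have hpp : p.Prime := Nat.minFac_prime (by omega)
  have hpn : p ∣ Nat.card G := Nat.minFac_dvd _
  have hall : ∀ {d : ℕ}, d.Prime → d ∣ Nat.card G → d = p := by
    intro d hd hdn
    by_contra hne
    have hcop : Nat.Coprime p d := (Nat.coprime_primes hpp hd).mpr (fun h => hne h.symm)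
    have h1 := hpow p hpp hpn
    have h2 := hpow d hd hdn
    have ha1 : a ∈ M0 := by
      have hz : a ^ (1 : ℤ) ∈ M0 := by
        have hg : (p : ℤ) * Nat.gcdA p d + (d : ℤ) * Nat.gcdB p d = 1 := by
          have := Nat.gcd_eq_gcd_ab p d
          rw [hcop] at this
          simpa using this.symm
        rw [← hg, zpow_add, zpow_mul, zpow_mul]
        exact M0.mul_mem (M0.zpow_mem (by simpa using h1) _) (M0.zpow_mem (by simpa using h2) _)
      simpa using hz
    apply hM0.1
    apply top_unique
    rw [← ha]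
    exact (Subgroup.zpowers_le).mpr ha1
  have hcard := Nat.eq_prime_pow_of_unique_prime_dvd (by omega : Nat.card G ≠ 0) hall
  rw [isPrimePow_nat_iff]
  refine ⟨p, (Nat.card G).primeFactorsList.length, hpp, ?_, hcard.symm⟩
  by_contra h0
  have : (Nat.card G).primeFactorsList.length = 0 := by omega
  rw [this, pow_zero] at hcard
  omega

end Cfsg.Agent.S4387
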