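import Cfsg.Statements.S4399
import Cfsg.Agent.Lib_helper1_CycMax2
import Cfsg.Agent.Lib_helper4_QuatHom
import Cfsg.Agent.Lib_helper4_DihHom
import Cfsg.Agent.Lib_helper1_MaxClass3

set_option autoImplicit false
open Cfsg

namespace Cfsg.Agent.S4399



/-- Let S be a finite 2-group whose commutator quotient S/[S,S] is a Klein four-group (order 4 and exponent 2). Then S itself has order 4, or S is dihedral of order at least 8, semidihedral of order at least 16 (order 2^(k+4) with an element a of order 2^(k+3) and an involution b with b a b⁻¹ = a^(2^(k+2)−1)), or generalized quaternion of order at least 8. -/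
theorem result {S : Type*} [Group S] [Finite S] (h2 : IsPGroup 2 S) (hab : Nat.card (Abelianization S) = 4)
    (hexp : ∀ x : Abelianization S, x ^ 2 = 1) :
    Nat.card S = 4 ∨
    ((∃ k : ℕ, Nonempty (S ≃* DihedralGroup (2 ^ (k + 2)))) ∨
      (∃ k : ℕ, Nat.card S = 2 ^ (k + 4) ∧ ∃ a b : S, orderOf a = 2 ^ (k + 3) ∧ orderOf b = 2 ∧ b * a * b⁻¹ = a ^ (2 ^ (k + 2) - 1)) ∨
      (∃ k : ℕ, Nonempty (S ≃* QuaternionGroup (2 ^ (k + 1))))) := by
  haveI : Fact (Nat.Prime 2) := ⟨Nat.prime_two⟩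
  have h4 : (commutator S).index = 4 := by
    rw [Subgroup.index_eq_card]; exact hab
  obtain ⟨n, hn⟩ := IsPGroup.iff_card.mp h2
  have hn2 : 2 ≤ n := by
    have h1 : (commutator S).index ∣ Nat.card S := Subgroup.index_dvd_card _
    rw [h4, hn] at h1
    have h3 : (2 : ℕ) ^ 2 ≤ 2 ^ n := Nat.le_of_dvd (by positivity) (by simpa using h1)
    exact (Nat.pow_le_pow_iff_right (by norm_num : 1 < 2)).mp h3
  rcases Nat.lt_or_ge n 3 with hlt | hn3
  · left
    have : n = 2 := by omega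
    rw [hn, this]; norm_num
  right
  have hc := Cfsg.Agent.Lib_helper1_MaxClass3.max_class_of_comm_index n hn2 S hn h4
  obtain ⟨C, hCc, hCi⟩ := Cfsg.Agent.Lib_helper1_MaxClass3.exists_cyclic' n hn2 S hn hc
  obtain ⟨hcZ, -, -⟩ := Cfsg.Agent.Lib_helper1_MaxClass2.max_class_center 2 n hn3 hn hc
  have hna' : ∃ x y : S, x * y ≠ y * x := by
    by_contra hcon
    push Not at hcon
    have hcen : Subgroup.center S = ⊤ := by
      rw [eq_top_iff]
      intro x _
      rw [Subgroup.mem_center_iff]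
      intro g
      exact hcon g x
    rw [hcen, Subgroup.card_top, hn] at hcZ
    have h1 : (2 : ℕ) ^ 3 ≤ 2 ^ n := Nat.pow_le_pow_right (by norm_num) hn3
    omega
  obtain ⟨m, rfl⟩ : ∃ m, n = m + 2 := ⟨n - 2, by omega⟩
  have hm : 1 ≤ m := by omega
  obtain ⟨a, b, hao, hba, hCa, hcases⟩ :=
    Cfsg.Agent.Lib_helper1_CycMax2.cyclic_max_two m hm hn C hCc hCi hna'
  have hbC : b ∉ C := by rw [hCa]; exact hba
  have hsurj : ∀ g : S, ∃ k : ℕ, g = a ^ k ∨ g = b * a ^ k := by
    intro g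
    by_cases hg : g ∈ C
    · rw [hCa] at hg
      obtain ⟨k, hk⟩ := Cfsg.Agent.Lib_helper1_CyclicMax.exists_pow_of_mem_zpowers hg
      exact ⟨k, Or.inl hk.symm⟩
    · have h1 : b⁻¹ * g ∈ C := by
        rw [Subgroup.mul_mem_iff_of_index_two hCi]
        constructor
        · intro h; exact (hbC ((Subgroup.inv_mem_iff C).mp h)).elim
        · intro h; exact (hg h).elim
      rw [hCa] at h1
      obtain ⟨k, hk⟩ := Cfsg.Agent.Lib_helper1_CyclicMax.exists_pow_of_mem_zpowers h1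
      exact ⟨k, Or.inr (by rw [hk]; group)⟩
  have hyx : ∀ k : ℕ, b ≠ a ^ k := by
    intro k h
    apply hba
    rw [h]
    exact Subgroup.pow_mem _ (Subgroup.mem_zpowers a) k
  obtain ⟨k, rfl⟩ : ∃ k, m = k + 1 := ⟨m - 1, by omega⟩
  rcases hcases with ⟨hb2, hbab⟩ | ⟨hb2, hbab⟩ | ⟨hm2, hb2, hbab⟩ | ⟨hm2, hb2, hbab⟩
  · left
    refine ⟨k, ?_⟩
    haveI : NeZero (2 ^ (k + 2)) := ⟨by positivity⟩
    exact Cfsg.Agent.Lib_helper4_DihHom.dih_equiv (2 ^ (k + 2)) a b hao hbab
      (by rw [← pow_two]; exact hb2) hyx hsurj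
  · right; right
    refine ⟨k, ?_⟩
    haveI : NeZero (2 ^ (k + 1)) := ⟨by positivity⟩
    have h2m : 2 ≤ 2 ^ (k + 1) := by
      have h1 : 2 ^ 1 ≤ 2 ^ (k + 1) := Nat.pow_le_pow_right (by norm_num) (by omega)
      simpa using h1
    have hinj := Cfsg.Agent.Lib_helper4_QuatHom.quatHom_injective (2 ^ (k + 1)) h2m a b
      (by rw [hao, pow_succ']) hbab (by rw [← pow_two]; exact hb2)
    have hbij := hinj.bijective_of_nat_card_le (by
      rw [hn, Nat.card_eq_fintype_card, QuaternionGroup.card]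
      apply le_of_eq
      ring)
    exact ⟨(MulEquiv.ofBijective _ hbij).symm⟩
  · exfalso
    -- a ^ 2 is central, of order 2 ^ (k+1) ≥ 4
    have ha2b : b * a ^ 2 * b⁻¹ = a ^ 2 := by
      have h1 : b * a ^ 2 * b⁻¹ = (b * a * b⁻¹) ^ 2 := by
        rw [pow_two, pow_two]; group
      rw [h1, hbab, ← pow_mul]
      have h2 : (1 + 2 ^ (k + 1)) * 2 = 2 + 2 ^ (k + 1 + 1) := by ring
      rw [h2, pow_add, ← hao, pow_orderOf_eq_one, mul_one]
    have hcen : a ^ 2 ∈ Subgroup.center S := by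
      rw [Subgroup.mem_center_iff]
      intro g
      have hab2 : b * a ^ 2 = a ^ 2 * b := by
        calc b * a ^ 2 = (b * a ^ 2 * b⁻¹) * b := by group
          _ = a ^ 2 * b := by rw [ha2b]
      obtain ⟨j, hj | hj⟩ := hsurj g
      · rw [hj, ← pow_add, ← pow_add, add_comm]
      · rw [hj, mul_assoc, ← pow_add, add_comm j 2, pow_add, ← mul_assoc, hab2, mul_assoc]
    have h1 : orderOf (a ^ 2) = 2 ^ (k + 1) := by
      rw [orderOf_pow_of_dvd (by norm_num) (by rw [hao]; exact dvd_pow_self 2 (by omega)), hao,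
        pow_succ 2 (k + 1)]
      simp
    have h3 : orderOf (a ^ 2) ≤ 2 := by
      have h5 : orderOf (⟨a ^ 2, hcen⟩ : Subgroup.center S) ∣ Nat.card (Subgroup.center S) :=
        orderOf_dvd_natCard _
      rw [Subgroup.orderOf_mk, hcZ] at h5
      exact Nat.le_of_dvd (by norm_num) h5
    rw [h1] at h3
    have h4 : (2 : ℕ) ^ 2 ≤ 2 ^ (k + 1) := Nat.pow_le_pow_right (by norm_num) (by omega)
    omega
  · right; left
    obtain ⟨k', rfl⟩ : ∃ k', k = k' + 1 := ⟨k - 1, by omega⟩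
    refine ⟨k', hn, a, b, hao, ?_, hbab⟩
    apply orderOf_eq_prime hb2
    intro h
    exact hyx 0 (by rw [h, pow_zero])

end Cfsg.Agent.S4399
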