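import Cfsg.Statements.S4406
import Mathlib

set_option autoImplicit false
open Cfsg

namespace Cfsg.Agent.S4406

/-- The pair `(u, v)` is one of the three non-identity elements of the group generated by
`(x₁, y₁)` and `(x₂, y₂)`. -/
def InS (x₁ y₁ x₂ y₂ u v : Equiv.Perm (Fin 4)) : Prop :=
  (u = x₁ ∧ v = y₁) ∨ (u = x₂ ∧ v = y₂) ∨ (u = x₁ * x₂ ∧ v = y₁ * y₂)

instance (x₁ y₁ x₂ y₂ u v : Equiv.Perm (Fin 4)) : Decidable (InS x₁ y₁ x₂ y₂ u v) := by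
  unfold InS; infer_instance

/-- Conjugation by `(s, t)` sends both generators into the group. -/
def NN (s t x₁ y₁ x₂ y₂ : Equiv.Perm (Fin 4)) : Prop :=
  InS x₁ y₁ x₂ y₂ (s * x₁ * s⁻¹) (t * y₁ * t⁻¹) ∧ InS x₁ y₁ x₂ y₂ (s * x₂ * s⁻¹) (t * y₂ * t⁻¹)

instance (s t x₁ y₁ x₂ y₂ : Equiv.Perm (Fin 4)) : Decidable (NN s t x₁ y₁ x₂ y₂) := by
  unfold NN; infer_instance

/-- Non-identity element of the four-group of `A₄`. -/
def IsV (x : Equiv.Perm (Fin 4)) : Prop := x ≠ 1 ∧ x * x = 1 ∧ Equiv.Perm.sign x = 1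
instance (x : Equiv.Perm (Fin 4)) : Decidable (IsV x) := by unfold IsV; infer_instance

/-- Element of order three. -/
def IsT (s : Equiv.Perm (Fin 4)) : Prop := s ≠ 1 ∧ s * s * s = 1
instance (x : Equiv.Perm (Fin 4)) : Decidable (IsT x) := by unfold IsT; infer_instance

def P2 (x₁ y₁ x₂ y₂ : Equiv.Perm (Fin 4)) : Prop :=
  ∀ s : Equiv.Perm (Fin 4), IsT s → ∀ t : Equiv.Perm (Fin 4), IsT t →
    NN s t x₁ y₁ x₂ y₂ ∨ NN s t⁻¹ x₁ y₁ x₂ y₂
instance (x₁ y₁ x₂ y₂ : Equiv.Perm (Fin 4)) : Decidable (P2 x₁ y₁ x₂ y₂) := by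
  unfold P2; infer_instance

def P1 (x₁ y₁ : Equiv.Perm (Fin 4)) : Prop :=
  ∀ x₂ : Equiv.Perm (Fin 4), IsV x₂ → x₂ ≠ x₁ → ∀ y₂ : Equiv.Perm (Fin 4), IsV y₂ → y₂ ≠ y₁ →
    P2 x₁ y₁ x₂ y₂
instance (x₁ y₁ : Equiv.Perm (Fin 4)) : Decidable (P1 x₁ y₁) := by unfold P1; infer_instance

theorem core : ∀ x₁ : Equiv.Perm (Fin 4), IsV x₁ → ∀ y₁ : Equiv.Perm (Fin 4), IsV y₁ → P1 x₁ y₁ := by
  decide +kernel

theorem perm_pow12 : ∀ x : Equiv.Perm (Fin 4), x ^ 12 = 1 := by decide +kernel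

theorem perm_sq : ∀ x : Equiv.Perm (Fin 4), x ^ 4 = 1 → Equiv.Perm.sign x = 1 → x * x = 1 := by
  decide +kernel

theorem ord_dvd (x : Equiv.Perm (Fin 4)) (p k m : ℕ) (h1 : x ^ p ^ k = 1)
    (hm : Nat.gcd (p ^ k) 12 ∣ m) : x ^ m = 1 := by
  have h2 : orderOf x ∣ p ^ k := orderOf_dvd_of_pow_eq_one h1
  have h3 : orderOf x ∣ 12 := orderOf_dvd_of_pow_eq_one (perm_pow12 x)
  exact orderOf_dvd_iff_pow_eq_one.mp ((Nat.dvd_gcd h2 h3).trans hm)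

theorem gcd2 (k : ℕ) : Nat.gcd (2 ^ k) 12 ∣ 4 := by
  have hc : Nat.Coprime (Nat.gcd (2 ^ k) 12) 3 :=
    Nat.Coprime.coprime_dvd_left (Nat.gcd_dvd_left _ _) (Nat.Coprime.pow_left k (by norm_num))
  have hd : Nat.gcd (2 ^ k) 12 ∣ 4 * 3 := Nat.gcd_dvd_right (2 ^ k) 12
  exact hc.dvd_of_dvd_mul_right hd

theorem gcd3 (k : ℕ) : Nat.gcd (3 ^ k) 12 ∣ 3 := by
  have hc : Nat.Coprime (Nat.gcd (3 ^ k) 12) 4 :=
    Nat.Coprime.coprime_dvd_left (Nat.gcd_dvd_left _ _) (Nat.Coprime.pow_left k (by norm_num))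
  have hd : Nat.gcd (3 ^ k) 12 ∣ 3 * 4 := Nat.gcd_dvd_right (3 ^ k) 12
  exact hc.dvd_of_dvd_mul_right hd

/-- The ambient group `A₄ × A₄`. -/
abbrev PP : Type := ↥(alternatingGroup (Fin 4)) × ↥(alternatingGroup (Fin 4))

theorem cardA4 : Nat.card ↥(alternatingGroup (Fin 4)) = 12 := by
  rw [nat_card_alternatingGroup, Nat.card_eq_fintype_card, Fintype.card_fin]
  rfl

theorem cardPP : Nat.card PP = 144 := by
  rw [Nat.card_prod, cardA4]

theorem coords_pow (b : PP) (n : ℕ) (h : b ^ n = 1) :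
    (b.1 : Equiv.Perm (Fin 4)) ^ n = 1 ∧ (b.2 : Equiv.Perm (Fin 4)) ^ n = 1 := by
  constructor
  · have := congrArg (fun z : PP => (z.1 : Equiv.Perm (Fin 4))) h
    simpa using this
  · have := congrArg (fun z : PP => (z.2 : Equiv.Perm (Fin 4))) h
    simpa using this

theorem ext_val (u v : PP) (h1 : (u.1 : Equiv.Perm (Fin 4)) = v.1)
    (h2 : (u.2 : Equiv.Perm (Fin 4)) = v.2) : u = v :=
  Prod.ext (Subtype.ext h1) (Subtype.ext h2)

theorem mem_zpowers_sq {G : Type*} [Group G] (g c : G) (hg : g * g = 1)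
    (hc : c ∈ Subgroup.zpowers g) : c = 1 ∨ c = g := by
  let K : Subgroup G :=
    { carrier := {x | x = 1 ∨ x = g}
      one_mem' := Or.inl rfl
      mul_mem' := by
        rintro a b (rfl | rfl) (rfl | rfl)
        · exact Or.inl (mul_one 1)
        · exact Or.inr (one_mul _)
        · exact Or.inr (mul_one _)
        · exact Or.inl hg
      inv_mem' := by
        rintro a (rfl | rfl)
        · exact Or.inl inv_one
        · exact Or.inr (inv_eq_of_mul_eq_one_right hg) }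
  have hle : Subgroup.zpowers g ≤ K := (Subgroup.zpowers_le).mpr (Or.inr rfl)
  exact hle hc

/-- Elements of a Sylow 2-subgroup square to one. -/
theorem sq_of_two (X : Sylow 2 PP) (b : PP) (hb : b ∈ (X : Subgroup PP)) : b * b = 1 := by
  obtain ⟨k, hk⟩ := X.isPGroup' ⟨b, hb⟩
  have hk' : b ^ 2 ^ k = 1 := by
    have := congrArg Subtype.val hk
    simpa using this
  obtain ⟨h1, h2⟩ := coords_pow b _ hk'
  have e1 := perm_sq _ (ord_dvd _ 2 k 4 h1 (gcd2 k)) (Equiv.Perm.mem_alternatingGroup.mp b.1.2)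
  have e2 := perm_sq _ (ord_dvd _ 2 k 4 h2 (gcd2 k)) (Equiv.Perm.mem_alternatingGroup.mp b.2.2)
  exact ext_val _ _ e1 e2

/-- Elements of a Sylow 3-subgroup cube to one. -/
theorem cube_of_three (Q : Sylow 3 PP) (b : PP) (hb : b ∈ (Q : Subgroup PP)) :
    (b.1 : Equiv.Perm (Fin 4)) ^ 3 = 1 ∧ (b.2 : Equiv.Perm (Fin 4)) ^ 3 = 1 := by
  obtain ⟨k, hk⟩ := Q.isPGroup' ⟨b, hb⟩
  have hk' : b ^ 3 ^ k = 1 := by
    have := congrArg Subtype.val hk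
    simpa using this
  obtain ⟨h1, h2⟩ := coords_pow b _ hk'
  exact ⟨ord_dvd _ 3 k 3 h1 (gcd3 k), ord_dvd _ 3 k 3 h2 (gcd3 k)⟩

theorem exists_left (Q : Sylow 3 PP) : ∃ q : PP, q ∈ (Q : Subgroup PP) ∧ q ≠ 1 ∧ q.2 = 1 := by
  by_contra hcon
  push_neg at hcon
  let f : ↥(Q : Subgroup PP) →* ↥(alternatingGroup (Fin 4)) :=
    (MonoidHom.snd _ _).comp (Q : Subgroup PP).subtype
  have hinj : Function.Injective f := by
    rw [injective_iff_map_eq_one]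
    intro q hq
    by_contra hne
    exact hcon q.1 q.2 (fun h => hne (Subtype.ext h)) hq
  have hd := Subgroup.card_dvd_of_injective f hinj
  have h9 : 3 ^ 2 ∣ Nat.card (Q : Subgroup PP) :=
    Q.pow_dvd_card_of_pow_dvd_card (by rw [cardPP]; norm_num)
  rw [cardA4] at hd
  have h := h9.trans hd
  omega

theorem exists_right (Q : Sylow 3 PP) : ∃ q : PP, q ∈ (Q : Subgroup PP) ∧ q ≠ 1 ∧ q.1 = 1 := by
  by_contra hcon
  push_neg at hcon
  let f : ↥(Q : Subgroup PP) →* ↥(alternatingGroup (Fin 4)) :=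
    (MonoidHom.fst _ _).comp (Q : Subgroup PP).subtype
  have hinj : Function.Injective f := by
    rw [injective_iff_map_eq_one]
    intro q hq
    by_contra hne
    exact hcon q.1 q.2 (fun h => hne (Subtype.ext h)) hq
  have hd := Subgroup.card_dvd_of_injective f hinj
  have h9 : 3 ^ 2 ∣ Nat.card (Q : Subgroup PP) :=
    Q.pow_dvd_card_of_pow_dvd_card (by rw [cardPP]; norm_num)
  rw [cardA4] at hd
  have h := h9.trans hd
  omega

theorem inB (B : Subgroup PP) (b₁ b₂ u : PP) (hb₁ : b₁ ∈ B) (hb₂ : b₂ ∈ B)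
    (h : InS (b₁.1 : Equiv.Perm (Fin 4)) (b₁.2 : Equiv.Perm (Fin 4))
      (b₂.1 : Equiv.Perm (Fin 4)) (b₂.2 : Equiv.Perm (Fin 4))
      (u.1 : Equiv.Perm (Fin 4)) (u.2 : Equiv.Perm (Fin 4))) : u ∈ B := by
  rcases h with ⟨h1, h2⟩ | ⟨h1, h2⟩ | ⟨h1, h2⟩
  · have e : u = b₁ := ext_val _ _ h1 h2
    rw [e]; exact hb₁
  · have e : u = b₂ := ext_val _ _ h1 h2
    rw [e]; exact hb₂
  · have e : u = b₁ * b₂ := ext_val _ _ h1 h2
    rw [e]; exact B.mul_mem hb₁ hb₂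

/-- Final assembly: an element `r` of `Q` with both coordinates non-trivial whose conjugation
preserves the generators of `B`. -/
theorem finish (Q : Sylow 3 PP) (B : Subgroup PP) (b₁ b₂ r : PP)
    (hb₁ : b₁ ∈ B) (hb₂ : b₂ ∈ B)
    (hB : ∀ c ∈ B, c = 1 ∨ c = b₁ ∨ c = b₂ ∨ c = b₂ * b₁)
    (hrQ : r ∈ (Q : Subgroup PP)) (hr1 : r.1 ≠ 1) (hr2 : r.2 ≠ 1) (hr3 : r * r * r = 1)
    (hN : NN (r.1 : Equiv.Perm (Fin 4)) (r.2 : Equiv.Perm (Fin 4))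
      (b₁.1 : Equiv.Perm (Fin 4)) (b₁.2 : Equiv.Perm (Fin 4))
      (b₂.1 : Equiv.Perm (Fin 4)) (b₂.2 : Equiv.Perm (Fin 4))) :
    ∃ R : Subgroup PP, R ≤ (Q : Subgroup PP) ∧ Nat.card ↥R = 3 ∧
      R ≠ (Q : Subgroup PP) ⊓ Subgroup.prod ⊤ ⊥ ∧ R ≠ (Q : Subgroup PP) ⊓ Subgroup.prod ⊥ ⊤ ∧
      R ≤ Subgroup.normalizer (B : Set PP) := by
  have hrne : r ≠ 1 := by
    intro h
    apply hr1
    rw [h]; rfl
  have hc1 : r * b₁ * r⁻¹ ∈ B := inB B b₁ b₂ _ hb₁ hb₂ hN.1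
  have hc2 : r * b₂ * r⁻¹ ∈ B := inB B b₁ b₂ _ hb₁ hb₂ hN.2
  have hconj : ∀ c ∈ B, r * c * r⁻¹ ∈ B := by
    intro c hc
    rcases hB c hc with h | h | h | h
    · rw [h, mul_one, mul_inv_cancel]; exact B.one_mem
    · rw [h]; exact hc1
    · rw [h]; exact hc2
    · rw [h]
      have e : r * (b₂ * b₁) * r⁻¹ = (r * b₂ * r⁻¹) * (r * b₁ * r⁻¹) := by group
      rw [e]; exact B.mul_mem hc2 hc1
  refine ⟨Subgroup.zpowers r, Subgroup.zpowers_le.mpr hrQ, ?_, ?_, ?_, ?_⟩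
  · rw [Nat.card_zpowers]
    have h3 : r ^ 3 = 1 := by rw [pow_three']; exact hr3
    exact orderOf_eq_prime h3 hrne
  · intro h
    have hm : r ∈ (Q : Subgroup PP) ⊓ Subgroup.prod ⊤ ⊥ := h ▸ Subgroup.mem_zpowers r
    exact hr2 (Subgroup.mem_bot.mp (Subgroup.mem_prod.mp hm.2).2)
  · intro h
    have hm : r ∈ (Q : Subgroup PP) ⊓ Subgroup.prod ⊥ ⊤ := h ▸ Subgroup.mem_zpowers r
    exact hr1 (Subgroup.mem_bot.mp (Subgroup.mem_prod.mp hm.2).1)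
  · apply Subgroup.zpowers_le.mpr
    rw [Subgroup.mem_normalizer_iff]
    intro c
    constructor
    · intro hc
      exact hconj c hc
    · intro hc
      have h1 := hconj _ (hconj _ hc)
      have e : r * (r * (r * c * r⁻¹) * r⁻¹) * r⁻¹ = (r * r * r) * c * (r * r * r)⁻¹ := by group
      rw [e, hr3, one_mul, inv_one, mul_one] at h1
      exact h1

/-- In the direct product P = A₄ × A₄, let X be the Sylow 2-subgroup, X₁ and X₂ its intersections with the two direct factors, Q a Sylow 3-subgroup and Q₁, Q₂ its intersections with the two factors. Then every subgroup B of X of order 4 either meets X₁ or X₂ nontrivially, or is normalized by one of the two subgroups of Q of order 3 other than Q₁ and Q₂. -/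
theorem result
    (X : Sylow 2 (↥(alternatingGroup (Fin 4)) × ↥(alternatingGroup (Fin 4))))
    (Q : Sylow 3 (↥(alternatingGroup (Fin 4)) × ↥(alternatingGroup (Fin 4))))
    (B : Subgroup (↥(alternatingGroup (Fin 4)) × ↥(alternatingGroup (Fin 4)))) (hBX : B ≤ (X : Subgroup _)) (hB4 : Nat.card ↥B = 4) :
    B ⊓ ((X : Subgroup _) ⊓ Subgroup.prod ⊤ ⊥) ≠ ⊥ ∨ B ⊓ ((X : Subgroup _) ⊓ Subgroup.prod ⊥ ⊤) ≠ ⊥ ∨
      ∃ R : Subgroup (↥(alternatingGroup (Fin 4)) × ↥(alternatingGroup (Fin 4))), R ≤ (Q : Subgroup _) ∧ Nat.card ↥R = 3 ∧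
        R ≠ (Q : Subgroup _) ⊓ Subgroup.prod ⊤ ⊥ ∧ R ≠ (Q : Subgroup _) ⊓ Subgroup.prod ⊥ ⊤ ∧ R ≤ Subgroup.normalizer (B : Set _) := by
  by_cases h1 : B ⊓ ((X : Subgroup PP) ⊓ Subgroup.prod ⊤ ⊥) ≠ ⊥
  · exact Or.inl h1
  by_cases h2 : B ⊓ ((X : Subgroup PP) ⊓ Subgroup.prod ⊥ ⊤) ≠ ⊥
  · exact Or.inr (Or.inl h2)
  right; right
  have h1' := not_not.mp h1
  have h2' := not_not.mp h2
  -- elements of B with a trivial coordinate are trivial
  have ha : ∀ b ∈ B, b.2 = 1 → b = 1 := by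
    intro b hb hb2
    have hm : b ∈ B ⊓ ((X : Subgroup PP) ⊓ Subgroup.prod ⊤ ⊥) :=
      ⟨hb, hBX hb, Subgroup.mem_prod.mpr ⟨Subgroup.mem_top _, Subgroup.mem_bot.mpr hb2⟩⟩
    rw [h1'] at hm
    exact Subgroup.mem_bot.mp hm
  have hb' : ∀ b ∈ B, b.1 = 1 → b = 1 := by
    intro b hb hb1
    have hm : b ∈ B ⊓ ((X : Subgroup PP) ⊓ Subgroup.prod ⊥ ⊤) :=
      ⟨hb, hBX hb, Subgroup.mem_prod.mpr ⟨Subgroup.mem_bot.mpr hb1, Subgroup.mem_top _⟩⟩
    rw [h2'] at hm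
    exact Subgroup.mem_bot.mp hm
  have hsq : ∀ b ∈ B, b * b = 1 := fun b hb => sq_of_two X b (hBX hb)
  -- a non-identity element b₁
  have hex1 : ∃ b₁ ∈ B, b₁ ≠ 1 := by
    by_contra hcon
    push_neg at hcon
    have hbot : B = ⊥ := (Subgroup.eq_bot_iff_forall B).mpr hcon
    rw [hbot, Subgroup.card_bot] at hB4
    omega
  obtain ⟨b₁, hb₁, hb₁ne⟩ := hex1
  let b₁' : ↥B := ⟨b₁, hb₁⟩
  have hb₁'sq : b₁' * b₁' = 1 := Subtype.ext (hsq b₁ hb₁)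
  have hb₁'ne : b₁' ≠ 1 := fun h => hb₁ne (congrArg Subtype.val h)
  let H : Subgroup ↥B := Subgroup.zpowers b₁'
  have hHcard : Nat.card ↥H = 2 := by
    rw [Nat.card_zpowers]
    have h2 : b₁' ^ 2 = 1 := by rw [pow_two]; exact hb₁'sq
    exact orderOf_eq_prime h2 hb₁'ne
  have hidx : H.index = 2 := by
    have h := H.card_mul_index
    rw [hHcard, hB4] at h
    omega
  have hex2 : ∃ b₂' : ↥B, b₂' ∉ H := by
    by_contra hcon
    push_neg at hcon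
    have htop : H = ⊤ := (Subgroup.eq_top_iff' H).mpr hcon
    rw [htop, Subgroup.index_top] at hidx
    omega
  obtain ⟨b₂', hb₂'H⟩ := hex2
  have hb₂ : (b₂' : PP) ∈ B := b₂'.2
  have hb₂sq : (b₂' : PP) * (b₂' : PP) = 1 := hsq _ hb₂
  have hb₂ne : (b₂' : PP) ≠ 1 := by
    intro h
    apply hb₂'H
    have : b₂' = 1 := Subtype.ext h
    rw [this]; exact H.one_mem
  have hb₂ne1 : (b₂' : PP) ≠ b₁ := by
    intro h
    apply hb₂'H
    have : b₂' = b₁' := Subtype.ext h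
    rw [this]; exact Subgroup.mem_zpowers b₁'
  -- every element of B
  have hB : ∀ c ∈ B, c = 1 ∨ c = b₁ ∨ c = (b₂' : PP) ∨ c = (b₂' : PP) * b₁ := by
    intro c hc
    by_cases hcH : (⟨c, hc⟩ : ↥B) ∈ H
    · rcases mem_zpowers_sq b₁' _ hb₁'sq hcH with h | h
      · exact Or.inl (congrArg Subtype.val h)
      · exact Or.inr (Or.inl (congrArg Subtype.val h))
    · have hm : b₂' * (⟨c, hc⟩ : ↥B) ∈ H :=
        (Subgroup.mul_mem_iff_of_index_two hidx).mpr (iff_of_false hb₂'H hcH)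
      rcases mem_zpowers_sq b₁' _ hb₁'sq hm with h | h
      · have h' : (b₂' : PP) * c = 1 := congrArg Subtype.val h
        have e1 : c = (b₂' : PP)⁻¹ := eq_inv_of_mul_eq_one_right h'
        rw [inv_eq_of_mul_eq_one_right hb₂sq] at e1
        exact Or.inr (Or.inr (Or.inl e1))
      · have h' : (b₂' : PP) * c = b₁ := congrArg Subtype.val h
        have e1 : c = (b₂' : PP)⁻¹ * b₁ := eq_inv_mul_of_mul_eq h'
        rw [inv_eq_of_mul_eq_one_right hb₂sq] at e1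
        exact Or.inr (Or.inr (Or.inr e1))
  -- the four coordinates
  have hV : ∀ b ∈ B, b ≠ 1 → IsV (b.1 : Equiv.Perm (Fin 4)) ∧ IsV (b.2 : Equiv.Perm (Fin 4)) := by
    intro b hb hbne
    have hs := hsq b hb
    refine ⟨⟨?_, ?_, Equiv.Perm.mem_alternatingGroup.mp b.1.2⟩,
      ⟨?_, ?_, Equiv.Perm.mem_alternatingGroup.mp b.2.2⟩⟩
    · intro h
      exact hbne (hb' b hb (Subtype.ext h))
    · exact congrArg (fun z : PP => (z.1 : Equiv.Perm (Fin 4))) hs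
    · intro h
      exact hbne (ha b hb (Subtype.ext h))
    · exact congrArg (fun z : PP => (z.2 : Equiv.Perm (Fin 4))) hs
  obtain ⟨hx₁, hy₁⟩ := hV b₁ hb₁ hb₁ne
  obtain ⟨hx₂, hy₂⟩ := hV _ hb₂ hb₂ne
  have hprod : b₁ * (b₂' : PP) ≠ 1 := by
    intro h
    have e1 : (b₂' : PP) = b₁⁻¹ := eq_inv_of_mul_eq_one_right h
    rw [inv_eq_of_mul_eq_one_right (hsq b₁ hb₁)] at e1
    exact hb₂ne1 e1
  have hxne : ((b₂' : PP).1 : Equiv.Perm (Fin 4)) ≠ (b₁.1 : Equiv.Perm (Fin 4)) := by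
    intro h
    apply hprod
    apply hb' _ (B.mul_mem hb₁ hb₂)
    apply Subtype.ext
    show (b₁.1 : Equiv.Perm (Fin 4)) * ((b₂' : PP).1 : Equiv.Perm (Fin 4)) = 1
    rw [h]; exact hx₁.2.1
  have hyne : ((b₂' : PP).2 : Equiv.Perm (Fin 4)) ≠ (b₁.2 : Equiv.Perm (Fin 4)) := by
    intro h
    apply hprod
    apply ha _ (B.mul_mem hb₁ hb₂)
    apply Subtype.ext
    show (b₁.2 : Equiv.Perm (Fin 4)) * ((b₂' : PP).2 : Equiv.Perm (Fin 4)) = 1
    rw [h]; exact hy₁.2.1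
  -- elements of Q
  obtain ⟨q, hqQ, hqne, hq2⟩ := exists_left Q
  obtain ⟨q', hq'Q, hq'ne, hq'1⟩ := exists_right Q
  have hs1 : q.1 ≠ 1 := fun h => hqne (Prod.ext h hq2)
  have ht1 : q'.2 ≠ 1 := fun h => hq'ne (Prod.ext hq'1 h)
  have hs3 := (cube_of_three Q q hqQ).1
  have ht3 := (cube_of_three Q q' hq'Q).2
  have hsT : IsT (q.1 : Equiv.Perm (Fin 4)) :=
    ⟨fun h => hs1 (Subtype.ext h), by rw [← pow_three']; exact hs3⟩
  have htT : IsT (q'.2 : Equiv.Perm (Fin 4)) :=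
    ⟨fun h => ht1 (Subtype.ext h), by rw [← pow_three']; exact ht3⟩
  have hq_eq : q = (q.1, 1) := Prod.ext rfl hq2
  have hq'_eq : q' = (1, q'.2) := Prod.ext hq'1 rfl
  rcases core _ hx₁ _ hy₁ _ hx₂ hxne _ hy₂ hyne _ hsT _ htT with hN | hN
  · -- r = (s, t)
    have hr : ((q.1, q'.2) : PP) = q * q' := by
      rw [hq_eq, hq'_eq]
      exact Prod.ext (mul_one _).symm (one_mul _).symm
    have hrQ : ((q.1, q'.2) : PP) ∈ (Q : Subgroup PP) := by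
      rw [hr]; exact (Q : Subgroup PP).mul_mem hqQ hq'Q
    refine finish Q B b₁ (b₂' : PP) (q.1, q'.2) hb₁ hb₂ hB hrQ hs1 ht1 ?_ hN
    apply ext_val
    · exact hsT.2
    · exact htT.2
  · -- r = (s, t⁻¹)
    have hr : ((q.1, q'.2⁻¹) : PP) = q * q'⁻¹ := by
      rw [hq_eq, hq'_eq]
      exact Prod.ext (by simp) (by simp)
    have hrQ : ((q.1, q'.2⁻¹) : PP) ∈ (Q : Subgroup PP) := by
      rw [hr]; exact (Q : Subgroup PP).mul_mem hqQ ((Q : Subgroup PP).inv_mem hq'Q)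
    have ht1' : q'.2⁻¹ ≠ 1 := fun h => ht1 (inv_eq_one.mp h)
    refine finish Q B b₁ (b₂' : PP) (q.1, q'.2⁻¹) hb₁ hb₂ hB hrQ hs1 ht1' ?_ hN
    apply ext_val
    · exact hsT.2
    · show ((q'.2 : Equiv.Perm (Fin 4)))⁻¹ * ((q'.2 : Equiv.Perm (Fin 4)))⁻¹ * ((q'.2 : Equiv.Perm (Fin 4)))⁻¹ = 1
      have e := htT.2
      have e2 : ((q'.2 : Equiv.Perm (Fin 4)) * (q'.2 : Equiv.Perm (Fin 4)) * (q'.2 : Equiv.Perm (Fin 4)))⁻¹ = 1 := by
        rw [e, inv_one]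
      rw [← e2]; group

end Cfsg.Agent.S4406
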