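import Cfsg.Statements.S4420
-- import your own Cfsg.Agent.* helpers here

set_option autoImplicit false
open Cfsg

namespace Cfsg.Agent.S4420

/-- Structure of groups in which every element outside some proper subgroup has square 1. Let H be a finite group with a proper subgroup A such that every element outside A has square 1. Then H has an abelian normal subgroup B of index 2 such that every element outside B is an involution inverting every element of B; and if H is not an elementary abelian 2-group, B is the only abelian normal subgroup of index 2 with this property. -/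
theorem result {H : Type*} [Group H] [Finite H] (A : Subgroup H) (hA : A ≠ ⊤) (hD : ∀ x : H, x ∉ A → x ^ 2 = 1) :
    ∃ B : Subgroup H, B.Normal ∧ IsMulCommutative ↥B ∧ B.index = 2 ∧
      (∀ x : H, x ∉ B → x ^ 2 = 1 ∧ ∀ b ∈ B, x * b * x⁻¹ = b⁻¹) ∧
      (¬ (IsMulCommutative H ∧ ∀ x : H, x ^ 2 = 1) →
        ∀ B' : Subgroup H, B'.Normal → IsMulCommutative ↥B' → B'.index = 2 →
          (∀ x : H, x ∉ B' → x ^ 2 = 1 ∧ ∀ b ∈ B', x * b * x⁻¹ = b⁻¹) → B' = B) := by
  classical
  have hinv : ∀ y : H, y ∉ A → ∀ a ∈ A, y * a * y⁻¹ = a⁻¹ := by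
    intro y hy a ha
    have hya : y * a ∉ A := fun h => hy (by simpa using A.mul_mem h (A.inv_mem ha))
    have h1 := hD _ hya
    have h2 := hD _ hy
    have h3 : y⁻¹ = y := by
      rw [inv_eq_iff_mul_eq_one, ← pow_two]; exact h2
    rw [h3]
    rw [pow_two] at h1
    have : y * a * y * a = 1 := by simpa [mul_assoc] using h1
    exact eq_inv_of_mul_eq_one_left this
  by_cases hall : ∀ x : H, x ^ 2 = 1
  · -- elementary abelian
    have hcomm : ∀ a b : H, a * b = b * a := by
      intro a b
      have ha := hall a
      have hb := hall b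
      have hab := hall (a * b)
      rw [pow_two] at ha hb hab
      have e1 : a⁻¹ = a := inv_eq_of_mul_eq_one_left ha
      have e2 : b⁻¹ = b := inv_eq_of_mul_eq_one_left hb
      have e3 : (a * b)⁻¹ = a * b := inv_eq_of_mul_eq_one_left hab
      rw [mul_inv_rev, e1, e2] at e3
      exact e3.symm
    have hp : IsPGroup 2 H := by
      intro g
      exact ⟨1, by simpa using hall g⟩
    haveI : Fact (Nat.Prime 2) := ⟨Nat.prime_two⟩
    obtain ⟨n, hn⟩ := IsPGroup.iff_card.mp hp
    have hn0 : n ≠ 0 := by
      rintro rfl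
      rw [pow_zero] at hn
      haveI : Subsingleton H := (Nat.card_eq_one_iff_unique.mp hn).1
      exact hA (Subsingleton.elim _ _)
    obtain ⟨m, rfl⟩ := Nat.exists_eq_succ_of_ne_zero hn0
    obtain ⟨B, hB⟩ := Sylow.exists_subgroup_card_pow_prime 2 (n := m) (G := H) (by rw [hn]; exact pow_dvd_pow 2 (Nat.le_succ m))
    have hidx : B.index = 2 := by
      have h := B.card_mul_index
      rw [hB, hn, pow_succ] at h
      exact Nat.eq_of_mul_eq_mul_left (pow_pos (by norm_num) m) h
    refine ⟨B, ⟨fun n hn g => ?_⟩, ⟨⟨fun a b => ?_⟩⟩, hidx, ?_, ?_⟩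
    · rw [hcomm g n, mul_inv_cancel_right]; exact hn
    · exact Subtype.ext (hcomm a b)
    · intro x _
      refine ⟨hall x, fun b _ => ?_⟩
      rw [hcomm x b, mul_inv_cancel_right]
      have hb := hall b
      rw [pow_two] at hb
      exact (inv_eq_of_mul_eq_one_left hb).symm
    · intro hne
      exact absurd ⟨⟨⟨hcomm⟩⟩, hall⟩ hne
  · push Not at hall
    obtain ⟨x0, hx0⟩ := hall
    have hx0A : x0 ∈ A := by
      by_contra h
      exact hx0 (hD x0 h)
    obtain ⟨y, hy⟩ : ∃ y : H, y ∉ A := by
      by_contra h
      push Not at h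
      exact hA (eq_top_iff.mpr fun x _ => h x)
    have hidx : A.index = 2 := by
      rw [Subgroup.index_eq_two_iff]
      refine ⟨y, fun b => ?_⟩
      by_cases hb : b ∈ A
      · refine Or.inr ⟨hb, fun h => hy ?_⟩
        simpa using A.mul_mem (A.inv_mem hb) h
      · refine Or.inl ⟨?_, hb⟩
        by_contra hby
        have h1 := hinv (b * y) hby x0 hx0A
        have h2 := hinv y hy x0 hx0A
        have h3 := hinv b hb x0⁻¹ (A.inv_mem hx0A)
        have h4 : b * y * x0 * (b * y)⁻¹ = x0 := by
          have : b * y * x0 * (b * y)⁻¹ = b * (y * x0 * y⁻¹) * b⁻¹ := by group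
          rw [this, h2, h3, inv_inv]
        rw [h4] at h1
        apply hx0
        rw [pow_two]
        nth_rewrite 1 [h1]
        exact inv_mul_cancel x0
    have hnorm : A.Normal := Subgroup.normal_of_index_eq_two hidx
    have hAcomm : ∀ a ∈ A, ∀ b ∈ A, a * b = b * a := by
      intro a ha b hb
      have h1 := hinv y hy (a * b) (A.mul_mem ha hb)
      have h2 := hinv y hy a ha
      have h3 := hinv y hy b hb
      have h4 : y * (a * b) * y⁻¹ = (y * a * y⁻¹) * (y * b * y⁻¹) := by group
      rw [h4, h2, h3, mul_inv_rev] at h1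
      have := congrArg (fun t => t⁻¹) h1
      simpa using this.symm
    refine ⟨A, hnorm, ⟨⟨fun a b => Subtype.ext (hAcomm a a.2 b b.2)⟩⟩, hidx, ?_, ?_⟩
    · intro x hx
      exact ⟨hD x hx, hinv x hx⟩
    · intro _ B' hB'n hB'c hB'i hB'
      have hx0B : x0 ∈ B' := by
        by_contra h
        exact hx0 (hB' x0 h).1
      have hle : A ≤ B' := by
        intro a ha
        by_contra haB
        have h1 := (hB' a haB).2 x0 hx0B
        have h2 := hAcomm a ha x0 hx0A
        rw [h2, mul_inv_cancel_right] at h1
        apply hx0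
        rw [pow_two]
        nth_rewrite 1 [h1]
        exact inv_mul_cancel x0
      symm
      apply Subgroup.eq_of_le_of_card_ge hle
      have e1 := A.card_mul_index
      have e2 := B'.card_mul_index
      rw [hidx] at e1
      rw [hB'i] at e2
      omega

end Cfsg.Agent.S4420
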