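import Cfsg.Statements.S4558
import Cfsg.Agent.Lib_helper3_CharDiag

set_option autoImplicit false
open Cfsg

namespace Cfsg.Agent.S4558

/-- Let χ be a character of the finite group G and g an element of p-power order for the prime p. If χ g = 0, then p divides the degree of χ. -/
theorem result {G : Type*} [Group G] [Finite G] (p : ℕ) [Fact p.Prime] (χ : G → ℂ) (hχ : Cfsg.IsCharacter G χ) (g : G) (hg : ∃ j : ℕ, orderOf g = p ^ j) (h0 : χ g = 0) : p ∣ Cfsg.charDegree χ := by
  classical
  obtain ⟨n, ρ, rfl⟩ := hχ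
  obtain ⟨j, hj⟩ := hg
  obtain ⟨ι, _, b, ε, -, hpow, -, hchar, hcard⟩ := Lib_helper3_CharDiag.exists_eigen ρ g
  have hdeg : Cfsg.charDegree ρ.character = Fintype.card ι := by
    unfold Cfsg.charDegree
    rw [Representation.char_one, hcard, Complex.natCast_re, Nat.floor_natCast]
  rw [hdeg]
  have hsum : ∑ i, ε i = 0 := by
    have := hchar 1
    rw [pow_one, h0] at this
    rw [this]
    simp
  cases j with
  | zero =>
    have hg1 : g = 1 := by
      rw [← orderOf_eq_one_iff, hj, pow_zero]
    have h1 := hchar 0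
    simp only [pow_zero, Finset.sum_const, Finset.card_univ, nsmul_eq_mul, mul_one] at h1
    rw [hg1] at h0
    rw [h0] at h1
    have : Fintype.card ι = 0 := by exact_mod_cast h1.symm
    rw [this]; exact dvd_zero p
  | succ j' =>
    have hp := (Fact.out : p.Prime)
    have hpos : 0 < p ^ (j' + 1) := pow_pos hp.pos _
    have hne : p ^ (j' + 1) ≠ 0 := hpos.ne'
    set ζ : ℂ := Complex.exp (2 * Real.pi * Complex.I / (p ^ (j' + 1) : ℕ)) with hζdef
    have hζ : IsPrimitiveRoot ζ (p ^ (j' + 1)) := Complex.isPrimitiveRoot_exp _ hne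
    have hex : ∀ i, ∃ a : ℕ, ζ ^ a = ε i := by
      intro i
      have h1 : ε i ^ (p ^ (j' + 1)) = 1 := by rw [← hj]; exact hpow i
      haveI : NeZero (p ^ (j' + 1)) := ⟨hne⟩
      obtain ⟨a, -, ha⟩ := hζ.eq_pow_of_pow_eq_one h1
      exact ⟨a, ha⟩
    choose a ha using hex
    set P : Polynomial ℤ := ∑ i, (Polynomial.X : Polynomial ℤ) ^ a i with hP
    have haeval : Polynomial.aeval ζ P = 0 := by
      rw [hP, map_sum]
      simp only [map_pow, Polynomial.aeval_X, ha]
      exact hsum
    have hint : IsIntegral ℤ ζ := hζ.isIntegral hpos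
    have hdvd : Polynomial.cyclotomic (p ^ (j' + 1)) ℤ ∣ P := by
      rw [Polynomial.cyclotomic_eq_minpoly hζ hpos]
      exact minpoly.isIntegrallyClosed_dvd hint haeval
    obtain ⟨Q, hQ⟩ := hdvd
    have heval : Polynomial.eval 1 P = (p : ℤ) * Polynomial.eval 1 Q := by
      rw [hQ, Polynomial.eval_mul, Polynomial.eval_one_cyclotomic_prime_pow]
    have heval2 : Polynomial.eval 1 P = (Fintype.card ι : ℤ) := by
      rw [hP, Polynomial.eval_finset_sum]
      simp
    rw [heval2] at heval
    have : (p : ℤ) ∣ (Fintype.card ι : ℤ) := ⟨_, heval⟩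
    exact_mod_cast this

end Cfsg.Agent.S4558
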