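import Cfsg.Statements.S4566
import Cfsg.Agent.Lib_lead_CharCentral
import Cfsg.Agent.Lib_lead_CharLinear
import Cfsg.Agent.S0187

set_option autoImplicit false
open Cfsg

namespace Cfsg.Agent.S4566

/-- Let N be a central subgroup of the finite group G, ψ a faithful irreducible (hence degree-one) character of N, and χ an irreducible character of G whose restriction to N contains ψ. If g ∈ G and some x ∈ G has commutator x⁻¹ g⁻¹ x g in N but different from 1, then χ g = 0. -/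
theorem result {G : Type*} [Group G] [Fintype G] (N : Subgroup G) [Fintype N] (hN : N ≤ Subgroup.center G) (ψ : Cfsg.IrrCharacter ↥N) (hfaith : ∀ n : ↥N, (ψ : ↥N → ℂ) n = (ψ : ↥N → ℂ) 1 → n = 1) (χ : Cfsg.IrrCharacter G) (hover : Cfsg.classInner (fun n : ↥N => (χ : G → ℂ) n) (ψ : ↥N → ℂ) ≠ 0) (g x : G) (hcomm : x⁻¹ * g⁻¹ * x * g ∈ N) (hne : x⁻¹ * g⁻¹ * x * g ≠ 1) : (χ : G → ℂ) g = 0 := by
  classical
  set z : G := x⁻¹ * g⁻¹ * x * g with hz
  have hcfn := Lib_helper3_CharBasic.isClassFunction_of_irr χ.2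
  -- ψ is linear
  have hNcomm : ∀ a b : ↥N, a * b = b * a := by
    intro a b
    apply Subtype.ext
    have := Subgroup.mem_center_iff.mp (hN a.2) (b : G)
    simpa using this.symm
  have hψ1 : (ψ : ↥N → ℂ) 1 = 1 := (S0187.result.mp hNcomm) ψ
  obtain ⟨lam, hlam⟩ := Lib_lead_CharLinear.linear_irr_hom ψ.2 hψ1
  -- the sum S
  have hS : ∑ n : ↥N, (χ : G → ℂ) n * (starRingEnd ℂ) ((ψ : ↥N → ℂ) n) ≠ 0 := by
    intro h0
    apply hover
    rw [Lib_helper3_CharBasic.classInner_def, h0, mul_zero]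
  -- scalars of central elements agree with ψ
  have hmu : ∀ m : ↥N, ∀ c : ℂ, (∀ h : G, (χ : G → ℂ) (h * (m : G)) = c * (χ : G → ℂ) h)
      → c = (ψ : ↥N → ℂ) m := by
    intro m c hc
    have h1 : ∑ n : ↥N, (χ : G → ℂ) n * (starRingEnd ℂ) ((ψ : ↥N → ℂ) n)
        = ∑ n : ↥N, (χ : G → ℂ) ((n * m : ↥N) : G) * (starRingEnd ℂ) ((ψ : ↥N → ℂ) (n * m)) :=
      (Equiv.sum_comp (Equiv.mulRight m)
        (fun n : ↥N => (χ : G → ℂ) n * (starRingEnd ℂ) ((ψ : ↥N → ℂ) n))).symm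
    have h2 : ∀ n : ↥N, (χ : G → ℂ) ((n * m : ↥N) : G) * (starRingEnd ℂ) ((ψ : ↥N → ℂ) (n * m))
        = (c * (starRingEnd ℂ) ((ψ : ↥N → ℂ) m))
          * ((χ : G → ℂ) n * (starRingEnd ℂ) ((ψ : ↥N → ℂ) n)) := by
      intro n
      rw [Subgroup.coe_mul, hc, hlam (n * m), hlam n, hlam m, map_mul, Units.val_mul, map_mul]
      ring
    rw [Finset.sum_congr rfl (fun n _ => h2 n), ← Finset.mul_sum] at h1
    have h3 : c * (starRingEnd ℂ) ((ψ : ↥N → ℂ) m) = 1 := by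
      have h4 : (c * (starRingEnd ℂ) ((ψ : ↥N → ℂ) m) - 1)
          * ∑ n : ↥N, (χ : G → ℂ) n * (starRingEnd ℂ) ((ψ : ↥N → ℂ) n) = 0 := by
        linear_combination -h1
      rcases mul_eq_zero.mp h4 with h5 | h5
      · exact sub_eq_zero.mp h5
      · exact absurd h5 hS
    have hnorm := Lib_lead_CharLinear.linear_irr_norm ψ.2 hψ1 m
    have h6 : (starRingEnd ℂ) ((ψ : ↥N → ℂ) m) * (ψ : ↥N → ℂ) m = 1 := by
      rw [mul_comm, Complex.mul_conj, Complex.normSq_eq_norm_sq, hnorm]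
      norm_num
    calc c = c * ((starRingEnd ℂ) ((ψ : ↥N → ℂ) m) * (ψ : ↥N → ℂ) m) := by rw [h6, mul_one]
      _ = (c * (starRingEnd ℂ) ((ψ : ↥N → ℂ) m)) * (ψ : ↥N → ℂ) m := by ring
      _ = (ψ : ↥N → ℂ) m := by rw [h3, one_mul]
  -- apply to z⁻¹
  have hzN : z⁻¹ ∈ N := N.inv_mem hcomm
  obtain ⟨c, hc⟩ := Lib_lead_CharCentral.irr_mul_central χ.2 (hN hzN)
  have hcψ := hmu ⟨z⁻¹, hzN⟩ c hc
  have hc1 : c ≠ 1 := by
    intro h1
    rw [h1] at hcψ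
    have := hfaith ⟨z⁻¹, hzN⟩ (by rw [← hcψ, hψ1])
    have h2 : z⁻¹ = 1 := congrArg Subtype.val this
    exact hne (inv_eq_one.mp h2)
  have hconj : (χ : G → ℂ) (g * z⁻¹) = (χ : G → ℂ) g := by
    have e : g * z⁻¹ = x⁻¹ * g * (x⁻¹)⁻¹ := by rw [hz]; group
    rw [e, hcfn]
  rw [hc g] at hconj
  have h7 : (c - 1) * (χ : G → ℂ) g = 0 := by linear_combination hconj
  rcases mul_eq_zero.mp h7 with h8 | h8
  · exact absurd (sub_eq_zero.mp h8) hc1
  · exact h8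

end Cfsg.Agent.S4566
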