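import Cfsg.Statements.S4574
import Cfsg.Agent.Lib_helper3_Galois2
import Cfsg.Agent.Lib_helper3_CharIntegral

set_option autoImplicit false
open Cfsg

namespace Cfsg.Agent.S4574

/-- Let χ be an irreducible character of the finite group G, of degree d, and let Z(χ) be the set of elements g with |χ g| = d (the centre of χ). Then χ vanishes on at least (d ^ 2 - 1) · |Z(χ)| elements of G, with equality when every value |χ g| is 0, 1 or d. -/
theorem result {G : Type*} [Group G] [Fintype G] [DecidableEq G] (χ : G → ℂ) (hχ : Cfsg.IsIrrCharacter G χ) : (Cfsg.charDegree χ ^ 2 - 1) * (Finset.univ.filter (fun g : G => ‖χ g‖ = (Cfsg.charDegree χ : ℝ))).card ≤ (Finset.univ.filter (fun g : G => χ g = 0)).card ∧ ((∀ g : G, ‖χ g‖ = 0 ∨ ‖χ g‖ = 1 ∨ ‖χ g‖ = (Cfsg.charDegree χ : ℝ)) → (Cfsg.charDegree χ ^ 2 - 1) * (Finset.univ.filter (fun g : G => ‖χ g‖ = (Cfsg.charDegree χ : ℝ))).card = (Finset.univ.filter (fun g : G => χ g = 0)).card) := by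
  classical
  obtain ⟨n, ρ, hirr, rfl⟩ := hχ
  have hd : Cfsg.charDegree ρ.character = n := by
    unfold Cfsg.charDegree; rw [Representation.char_one]; simp
  rw [hd]
  have hfr : Module.finrank ℂ (Fin n → ℂ) = n := by simp
  have hn : 1 ≤ n := by
    have := Cfsg.Agent.Lib_helper3_CharIntegral.finrank_pos_of_irreducible ρ
    rw [hfr] at this; exact this
  have hχc : Cfsg.IsCharacter G ρ.character := ⟨n, ρ, rfl⟩
  have hχi : Cfsg.IsIrrCharacter G ρ.character := ⟨n, ρ, hirr, rfl⟩
  have hiff := fun g => Cfsg.Agent.Lib_helper3_CharDiag.norm_char_eq_iff ρ g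
  simp only [hfr] at hiff
  set Z : Finset G := Finset.univ.filter (fun g : G => ‖ρ.character g‖ = (n : ℝ)) with hZ
  set V : Finset G := Finset.univ.filter (fun g : G => ρ.character g = 0) with hV
  have hclosed : ∀ k : ℕ, Nat.Coprime k (Nat.card G) → ∀ x ∈ Zᶜ, x ^ k ∈ Zᶜ := by
    intro k hk x hx
    rw [Finset.mem_compl, hZ, Finset.mem_filter] at hx ⊢
    intro hxk
    apply hx
    refine ⟨Finset.mem_univ _, ?_⟩
    obtain ⟨ω, hω⟩ := (hiff (x ^ k)).mp hxk.2
    rw [hiff]
    have hcop : Nat.Coprime k (orderOf x) :=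
      Nat.Coprime.coprime_dvd_right (orderOf_dvd_natCard x) hk
    obtain ⟨m, hxm⟩ := exists_pow_eq_self_of_coprime hcop
    refine ⟨ω ^ m, ?_⟩
    rw [← hxm, map_pow, hω]
    ext v
    simp [smul_pow]
  have hKL := Cfsg.Agent.Lib_helper3_Galois.card_nonzero_le_sum hχc Zᶜ hclosed 2
  have hsum := Cfsg.Agent.Lib_helper3_Galois2.sum_norm_sq_irr hχi
  rw [Nat.card_eq_fintype_card] at hsum
  have hsplit : ∑ x : G, ‖ρ.character x‖ ^ 2
      = ∑ x ∈ Z, ‖ρ.character x‖ ^ 2 + ∑ x ∈ Zᶜ, ‖ρ.character x‖ ^ 2 :=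
    (Finset.sum_add_sum_compl Z _).symm
  have hZsum : ∑ x ∈ Z, ‖ρ.character x‖ ^ 2 = (n : ℝ) ^ 2 * (Z.card : ℝ) := by
    have : ∀ x ∈ Z, ‖ρ.character x‖ ^ 2 = (n : ℝ) ^ 2 := by
      intro x hx
      rw [hZ, Finset.mem_filter] at hx
      rw [hx.2]
    rw [Finset.sum_congr rfl this, Finset.sum_const, nsmul_eq_mul, mul_comm]
  have hdisj : Disjoint Z V := by
    rw [Finset.disjoint_left]
    intro x hxZ hxV
    rw [hZ, Finset.mem_filter] at hxZ
    rw [hV, Finset.mem_filter] at hxV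
    rw [hxV.2, norm_zero] at hxZ
    have : (1 : ℝ) ≤ n := by exact_mod_cast hn
    linarith [hxZ.2]
  have hfilter : Zᶜ.filter (fun x => ρ.character x ≠ 0) = (Z ∪ V)ᶜ := by
    ext x
    simp only [Finset.mem_filter, Finset.mem_compl, Finset.mem_union, hV, Finset.mem_univ,
      true_and, not_or]
  have hcard : ((Zᶜ.filter (fun x => ρ.character x ≠ 0)).card : ℝ)
      = (Fintype.card G : ℝ) - (Z.card : ℝ) - (V.card : ℝ) := by
    rw [hfilter, Finset.card_compl, Finset.card_union_of_disjoint hdisj]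
    have : Z.card + V.card ≤ Fintype.card G := by
      rw [← Finset.card_union_of_disjoint hdisj]
      exact Finset.card_le_univ _
    rw [Nat.cast_sub this]
    push_cast
    ring
  have hcast : ((n ^ 2 - 1 : ℕ) : ℝ) = (n : ℝ) ^ 2 - 1 := by
    rw [Nat.cast_sub (Nat.one_le_pow _ _ hn)]
    push_cast
    ring
  constructor
  · have : ((n ^ 2 - 1 : ℕ) : ℝ) * (Z.card : ℝ) ≤ (V.card : ℝ) := by
      rw [hcast]
      rw [hcard] at hKL
      nlinarith
    exact_mod_cast this
  · intro hall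
    have hsum2 : ∑ x ∈ Zᶜ, ‖ρ.character x‖ ^ 2
        = ((Zᶜ.filter (fun x => ρ.character x ≠ 0)).card : ℝ) := by
      rw [Finset.card_filter]
      push_cast
      apply Finset.sum_congr rfl
      intro x hx
      rw [Finset.mem_compl, hZ, Finset.mem_filter] at hx
      rcases hall x with h | h | h
      · rw [h]
        have : ρ.character x = 0 := norm_eq_zero.mp h
        simp [this]
      · rw [h]
        have : ρ.character x ≠ 0 := by
          intro h0
          rw [h0, norm_zero] at h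
          norm_num at h
        simp [this]
      · exact absurd ⟨Finset.mem_univ _, h⟩ hx
    have : ((n ^ 2 - 1 : ℕ) : ℝ) * (Z.card : ℝ) = (V.card : ℝ) := by
      rw [hcast]
      rw [hcard] at hsum2
      nlinarith
    exact_mod_cast this
end Cfsg.Agent.S4574
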