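import Cfsg.Statements.S4602
import Cfsg.Agent.Lib_helper1_MinNonNil
import Cfsg.Agent.Lib_helper1_Fitting
import Cfsg.Agent.Lib_helper1_PSolvComp
import Cfsg.Agent.Lib_helper6_PCore
import Cfsg.Agent.Lib_helper5_PSolv
import Cfsg.Agent.Lib_helper2_PComp

set_option autoImplicit false
open Cfsg

namespace Cfsg.Agent.S4602

open scoped Pointwise
universe u

theorem mem_of_coprime_index {G : Type*} [Group G] (N : Subgroup G) [N.Normal] (y : G)
    (hy : (orderOf y).Coprime N.index) : y ∈ N := by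
  apply Cfsg.Agent.Lib_helper1_MinNonNil.pow_coprime_mem N y hy
  · rw [pow_orderOf_eq_one]; exact one_mem _
  · exact Subgroup.pow_index_mem N y

theorem eq_one_of_pq {H : Type*} [Group H] {p q : ℕ} (hp : p.Prime) (hq : q.Prime) (hpq : p ≠ q)
    (z : H) (i j : ℕ) (h1 : z ^ (p ^ j) = 1) (h2 : z ^ (q ^ i) = 1) : z = 1 := by
  have hcop : Nat.Coprime (p ^ j) (q ^ i) :=
    Nat.Coprime.pow _ _ ((Nat.coprime_primes hp hq).mpr hpq)
  exact orderOf_eq_one_iff.mp (Nat.eq_one_of_dvd_coprimes hcop
    (orderOf_dvd_of_pow_eq_one h1) (orderOf_dvd_of_pow_eq_one h2))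


/-- Let G be a finite p-solvable group and q a prime different from p. Some Sylow p-subgroup of G normalizes some Sylow q-subgroup of G if and only if q does not divide the order of G/O_{p'}(G), the quotient by the largest normal subgroup of order prime to p. -/
theorem result {G : Type*} [Group G] [Finite G] (p q : ℕ) [Fact p.Prime] [Fact q.Prime] (hpq : p ≠ q) (hsolv : Cfsg.IsPSolvable p G) :
    (∃ (P : Sylow p G) (Q : Sylow q G), (P : Subgroup G) ≤ Subgroup.normalizer ((Q : Subgroup G) : Set G)) ↔ ¬ q ∣ (Cfsg.pPrimeCore p G).index := by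
  classical
  have hp : p.Prime := Fact.out
  have hq : q.Prime := Fact.out
  obtain ⟨K, hK⟩ : ∃ K : Subgroup G, K = Cfsg.pPrimeCore p G := ⟨_, rfl⟩
  rw [← hK]
  haveI hKn : K.Normal := by rw [hK]; exact Cfsg.Agent.Lib_helper6_PCore.pPrimeCore_normal p
  have hKc : (Nat.card ↥K).Coprime p := by
    rw [hK]; exact Cfsg.Agent.Lib_helper1_Fitting.pPrimeCore_coprime p
  constructor
  · rintro ⟨P, Q, hPQ⟩
    have hO : Cfsg.pPrimeCore p (G ⧸ K) = ⊥ := by
      subst hK
      exact Cfsg.Agent.Lib_helper2_PComp.pPrimeCore_quotient_bot p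
    have hsolvQ : Cfsg.IsPSolvable p (G ⧸ K) :=
      Cfsg.Agent.Lib_helper5_PSolv.isPSolvable_of_surjective (QuotientGroup.mk' K)
        (QuotientGroup.mk'_surjective K) hsolv
    have hcent := Cfsg.Agent.Lib_helper1_PSolvComp.centralizer_pCore_le_of_pSolvable p hO hsolvQ
    obtain ⟨V, hV⟩ : ∃ V : Subgroup (G ⧸ K), V = Cfsg.pCore p (G ⧸ K) := ⟨_, rfl⟩
    rw [← hV] at hcent
    have hVn : V.Normal := by rw [hV]; exact Cfsg.Agent.Lib_helper6_PCore.pCore_normal p
    have hVp : IsPGroup p V := by rw [hV]; exact Cfsg.Agent.Lib_helper6_PCore.pCore_isPGroup p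
    have hVP : V ≤ (P : Subgroup G).map (QuotientGroup.mk' K) := by
      have h1 := Cfsg.Agent.Lib_helper6_PCore.pCore_le_sylow
        (P.mapSurjective (QuotientGroup.mk'_surjective K))
      rw [Sylow.coe_mapSurjective] at h1
      rw [hV]; exact h1
    have hQK : (Q : Subgroup G) ≤ K := by
      intro x hx
      rw [← QuotientGroup.eq_one_iff]
      obtain ⟨i, hi⟩ := (Q.2 ⟨x, hx⟩)
      have h3 : x ^ (q ^ i) = 1 := by
        have := congrArg Subtype.val hi; simpa using this
      have hxc : (QuotientGroup.mk' K x) ∈ Subgroup.centralizer (V : Set (G ⧸ K)) := by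
        rw [Subgroup.mem_centralizer_iff]
        intro v hv
        obtain ⟨y, hyP, rfl⟩ := hVP hv
        have hyN : y ∈ Subgroup.normalizer ((Q : Subgroup G) : Set G) := hPQ hyP
        have hcQ : y * x * y⁻¹ * x⁻¹ ∈ (Q : Subgroup G) :=
          mul_mem ((Subgroup.mem_normalizer_iff.mp hyN x).mp hx) (inv_mem hx)
        have hcV : QuotientGroup.mk' K (y * x * y⁻¹ * x⁻¹) ∈ V := by
          have : QuotientGroup.mk' K (y * x * y⁻¹ * x⁻¹) = QuotientGroup.mk' K y *
              (QuotientGroup.mk' K x * (QuotientGroup.mk' K y)⁻¹ *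
                (QuotientGroup.mk' K x)⁻¹) := by
            simp only [map_mul, map_inv]; group
          rw [this]
          exact mul_mem hv (hVn.conj_mem _ (inv_mem hv) _)
        have h1 : QuotientGroup.mk' K (y * x * y⁻¹ * x⁻¹) = 1 := by
          obtain ⟨j, hj⟩ := (hVp ⟨_, hcV⟩)
          have h2 : (QuotientGroup.mk' K (y * x * y⁻¹ * x⁻¹)) ^ (p ^ j) = 1 := by
            have := congrArg Subtype.val hj; simpa using this
          obtain ⟨i', hi'⟩ := (Q.2 ⟨_, hcQ⟩)
          have h3' : (y * x * y⁻¹ * x⁻¹) ^ (q ^ i') = 1 := by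
            have := congrArg Subtype.val hi'; simpa using this
          have h4 : (QuotientGroup.mk' K (y * x * y⁻¹ * x⁻¹)) ^ (q ^ i') = 1 := by
            rw [← map_pow, h3', map_one]
          exact eq_one_of_pq hp hq hpq _ i' j h2 h4
        have h7 : QuotientGroup.mk' K y * QuotientGroup.mk' K x * (QuotientGroup.mk' K y)⁻¹ *
            (QuotientGroup.mk' K x)⁻¹ = 1 := by
          rw [← h1]; simp only [map_mul, map_inv]
        calc QuotientGroup.mk' K y * QuotientGroup.mk' K x
            = (QuotientGroup.mk' K y * QuotientGroup.mk' K x * (QuotientGroup.mk' K y)⁻¹ *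
                (QuotientGroup.mk' K x)⁻¹) * (QuotientGroup.mk' K x * QuotientGroup.mk' K y) := by
              group
          _ = QuotientGroup.mk' K x * QuotientGroup.mk' K y := by rw [h7, one_mul]
      have hxV : QuotientGroup.mk' K x ∈ V := hcent hxc
      obtain ⟨j, hj⟩ := (hVp ⟨_, hxV⟩)
      have h2 : (QuotientGroup.mk' K x) ^ (p ^ j) = 1 := by
        have := congrArg Subtype.val hj; simpa using this
      have h4 : (QuotientGroup.mk' K x) ^ (q ^ i) = 1 := by rw [← map_pow, h3, map_one]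
      exact eq_one_of_pq hp hq hpq _ i j h2 h4
    intro hdvd
    exact Q.not_dvd_index (dvd_trans hdvd (Subgroup.index_dvd_of_le hQK))
  · intro hq'
    obtain ⟨Q₀⟩ : Nonempty (Sylow q G) := inferInstance
    have hQ₀K : (Q₀ : Subgroup G) ≤ K := by
      intro x hx
      apply mem_of_coprime_index K x
      obtain ⟨i, hi⟩ := (Q₀.2 ⟨x, hx⟩)
      have h3 : x ^ (q ^ i) = 1 := by
        have := congrArg Subtype.val hi; simpa using this
      have h4 : orderOf x ∣ q ^ i := orderOf_dvd_of_pow_eq_one h3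
      exact Nat.Coprime.coprime_dvd_left h4
        (Nat.Coprime.pow_left i ((Nat.Prime.coprime_iff_not_dvd hq).mpr hq'))
    have hfr : Subgroup.normalizer ((Q₀ : Subgroup G) : Set G) ⊔ K = ⊤ :=
      Sylow.normalizer_sup_eq_top' Q₀ hQ₀K
    obtain ⟨N, hN⟩ : ∃ N : Subgroup G, N = Subgroup.normalizer ((Q₀ : Subgroup G) : Set G) :=
      ⟨_, rfl⟩
    rw [← hN] at hfr
    have hidx : N.index ∣ Nat.card ↥K := by
      have h1 := Cfsg.Agent.Lib_helper1_Fitting.card_sup_eq N K
      rw [hfr, Subgroup.card_top] at h1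
      have h2 : K.relIndex N ∣ Nat.card ↥N := Subgroup.relIndex_dvd_card K N
      have h3 := Subgroup.card_mul_index N
      obtain ⟨c, hc⟩ := h2
      have h4 : K.relIndex N * (c * N.index) = K.relIndex N * Nat.card ↥K := by
        rw [← mul_assoc, ← hc, h3, h1, mul_comm]
      have hpos : 0 < K.relIndex N := Nat.pos_of_ne_zero (fun h0 => by
        rw [h0, mul_zero] at h1; exact Nat.card_pos.ne' h1)
      exact Dvd.intro_left c (Nat.eq_of_mul_eq_mul_left hpos h4)
    have hnp : ¬ p ∣ Nat.card (Sylow q G) := by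
      have hcard : Nat.card (Sylow q G) = N.index := by
        rw [hN]; exact Sylow.card_eq_index_normalizer Q₀
      rw [hcard]
      intro hd
      have h1 : p ∣ Nat.card ↥K := dvd_trans hd hidx
      exact (Nat.Prime.coprime_iff_not_dvd hp).mp hKc.symm h1
    obtain ⟨P⟩ : Nonempty (Sylow p G) := inferInstance
    obtain ⟨Q, hQ⟩ := P.2.nonempty_fixed_point_of_prime_not_dvd_card (Sylow q G) hnp
    refine ⟨P, Q, ?_⟩
    intro g hg
    have h1 : (⟨g, hg⟩ : ↥(P : Subgroup G)) • Q = Q := hQ ⟨g, hg⟩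
    exact Sylow.smul_eq_iff_mem_normalizer.mp h1

end Cfsg.Agent.S4602
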