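import Cfsg.Statements.S4619
-- import your own Cfsg.Agent.* helpers here

set_option autoImplicit false
open scoped Pointwise
open Cfsg

namespace Cfsg.Agent.S4619

/-- Let P be a Sylow p-subgroup of the finite group G that is a trivial-intersection set: P meets each conjugate g P g⁻¹ with g outside N_G(P) trivially. Then for every nontrivial subgroup Q of P the normalizer of Q lies in the normalizer of P, and any g ∈ G conjugating Q into P lies in N_G(P). -/
theorem result {G : Type*} [Group G] [Finite G] (p : ℕ) [Fact p.Prime] (P : Sylow p G) (hTI : (∀ g : G, g ∉ Subgroup.normalizer ((P : Subgroup G) : Set G) → (P : Subgroup G) ⊓ (MulAut.conj g • (P : Subgroup G)) = ⊥)) (Q : Subgroup G) (hQ : Q ≤ (P : Subgroup G)) (hQ1 : Q ≠ ⊥) :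
    Subgroup.normalizer (Q : Set G) ≤ Subgroup.normalizer ((P : Subgroup G) : Set G) ∧
      ∀ g : G, MulAut.conj g • Q ≤ (P : Subgroup G) → g ∈ Subgroup.normalizer ((P : Subgroup G) : Set G) := by
  have key : ∀ g : G, MulAut.conj g • Q ≤ (P : Subgroup G)
      → g ∈ Subgroup.normalizer ((P : Subgroup G) : Set G) := by
    intro g hg
    by_contra hgn
    have hbot := hTI g hgn
    apply hQ1
    rw [eq_bot_iff]
    intro q hq
    have h1 : g * q * g⁻¹ ∈ MulAut.conj g • Q := by
      rw [Subgroup.mem_pointwise_smul_iff_inv_smul_mem]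
      simp only [MulAut.smul_def, MulAut.conj_inv_apply]
      have : g⁻¹ * (g * q * g⁻¹) * g = q := by group
      rw [this]; exact hq
    have h2 : g * q * g⁻¹ ∈ MulAut.conj g • (P : Subgroup G) := by
      rw [Subgroup.mem_pointwise_smul_iff_inv_smul_mem]
      simp only [MulAut.smul_def, MulAut.conj_inv_apply]
      have : g⁻¹ * (g * q * g⁻¹) * g = q := by group
      rw [this]; exact hQ hq
    have h3 : g * q * g⁻¹ ∈ (P : Subgroup G) ⊓ MulAut.conj g • (P : Subgroup G) := ⟨hg h1, h2⟩
    rw [hbot, Subgroup.mem_bot] at h3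
    rw [Subgroup.mem_bot]
    have : q = g⁻¹ * (g * q * g⁻¹) * g := by group
    rw [this, h3]; group
  refine ⟨?_, key⟩
  intro g hg
  apply key
  intro y hy
  rw [Subgroup.mem_pointwise_smul_iff_inv_smul_mem] at hy
  simp only [MulAut.smul_def, MulAut.conj_inv_apply] at hy
  have h1 := (Subgroup.mem_normalizer_iff.mp hg (g⁻¹ * y * g)).mp hy
  have : g * (g⁻¹ * y * g) * g⁻¹ = y := by group
  rw [this] at h1
  exact hQ h1

end Cfsg.Agent.S4619
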