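import Cfsg.Statements.S4754
import Cfsg.Agent.Lib_lead_CharSchur
import Cfsg.Agent.Lib_helper3_CharCount

set_option autoImplicit false
open Cfsg

namespace Cfsg.Agent.S4754

/-- For elements x, y of a finite group G, the conjugacy class of x y equals the set of all products of a conjugate of x with a conjugate of y if and only if χ(1) χ(a x a⁻¹ b y b⁻¹) = χ(x) χ(y) for all a, b ∈ G and every irreducible character χ. -/
theorem result {G : Type*} [Group G] [Finite G] (x y : G) : (∀ z : G, IsConj (x * y) z ↔ ∃ a b : G, z = a * x * a⁻¹ * (b * y * b⁻¹)) ↔ ∀ (a b : G) (χ : Cfsg.IrrCharacter G), (χ : G → ℂ) 1 * (χ : G → ℂ) (a * x * a⁻¹ * (b * y * b⁻¹)) = (χ : G → ℂ) x * (χ : G → ℂ) y := by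
  classical
  have := Fintype.ofFinite G
  constructor
  · intro h a b χ
    have hχ := χ.2
    have hcf := Lib_helper3_CharBasic.isClassFunction_iff_isConj.mp
      (Lib_helper3_CharBasic.isClassFunction_of_irr hχ)
    have hconj : ∀ a b : G, (χ : G → ℂ) (a * x * a⁻¹ * (b * y * b⁻¹)) = (χ : G → ℂ) (x * y) := by
      intro a b
      have : IsConj (x * y) (a * x * a⁻¹ * (b * y * b⁻¹)) := (h _).mpr ⟨a, b, rfl⟩
      exact (hcf _ _ this).symm
    have hsum := Lib_lead_CharSchur.sum_char_mul_conj hχ x y
    have h1 : ∀ b : G, (χ : G → ℂ) (x * (b * y * b⁻¹)) = (χ : G → ℂ) (x * y) := by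
      intro b
      have := hconj 1 b
      simpa using this
    rw [Finset.sum_congr rfl (fun b _ => h1 b), Finset.sum_const, Finset.card_univ, nsmul_eq_mul,
      ← Nat.card_eq_fintype_card] at hsum
    have hc := Lib_helper3_CharBasic.card_ne_zero (G := G)
    have h1ne := Lib_helper3_CharMore.irr_apply_one_ne_zero hχ
    rw [hconj a b]
    field_simp at hsum
    linear_combination hsum
  · intro h z
    constructor
    · intro hc
      obtain ⟨c, hc⟩ := isConj_iff.mp hc
      exact ⟨c, c, by rw [← hc]; group⟩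
    · rintro ⟨a, b, rfl⟩
      rw [Lib_helper3_CharCount.isConj_iff_forall_irr]
      intro χ
      have h1 := h a b χ
      have h2 := h 1 1 χ
      simp only [one_mul, inv_one, mul_one] at h2
      have h1ne := Lib_helper3_CharMore.irr_apply_one_ne_zero χ.2
      exact mul_left_cancel₀ h1ne (h2.trans h1.symm)

end Cfsg.Agent.S4754
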