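import Cfsg.Statements.S4755
import Cfsg.Agent.Lib_lead_CharSchur
import Cfsg.Agent.Lib_lead_CharLinear
import Cfsg.Agent.S4754
import Cfsg.Agent.S0154

set_option autoImplicit false
open Cfsg

namespace Cfsg.Agent.S4755

/-- Let x, y be non-identity elements of the finite group G such that χ(x' y') = χ(x') χ(y') for all conjugates x' of x, y' of y and every irreducible character χ. Then the conjugacy class of x y is the set of all products of a conjugate of x with a conjugate of y; every irreducible character of degree greater than 1 vanishes at x y; and the conjugacy class of x y is the coset of the commutator subgroup containing x y. -/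
theorem result {G : Type*} [Group G] [Finite G] (x y : G) (hx : x ≠ 1) (hy : y ≠ 1) (h : ∀ (a b : G) (χ : Cfsg.IrrCharacter G), (χ : G → ℂ) (a * x * a⁻¹ * (b * y * b⁻¹)) = (χ : G → ℂ) (a * x * a⁻¹) * (χ : G → ℂ) (b * y * b⁻¹)) : (∀ z : G, IsConj (x * y) z ↔ ∃ a b : G, z = a * x * a⁻¹ * (b * y * b⁻¹)) ∧ (∀ χ : Cfsg.IrrCharacter G, (χ : G → ℂ) 1 ≠ 1 → (χ : G → ℂ) (x * y) = 0) ∧ (∀ z : G, IsConj (x * y) z ↔ (x * y)⁻¹ * z ∈ commutator G) := by
  classical
  have := Fintype.ofFinite G
  have := Lib_helper3_CharBasic.irr_finite (G := G)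
  have := Fintype.ofFinite (Cfsg.IrrCharacter G)
  have hcard := Lib_helper3_CharBasic.card_ne_zero (G := G)
  have hcfn : ∀ χ : Cfsg.IrrCharacter G, Cfsg.IsClassFunction G (χ : G → ℂ) :=
    fun χ => Lib_helper3_CharBasic.isClassFunction_of_irr χ.2
  have hA : ∀ (a b : G) (χ : Cfsg.IrrCharacter G),
      (χ : G → ℂ) (a * x * a⁻¹ * (b * y * b⁻¹)) = (χ : G → ℂ) x * (χ : G → ℂ) y := by
    intro a b χ
    rw [h a b χ, hcfn χ x a, hcfn χ y b]
  have hB : ∀ χ : Cfsg.IrrCharacter G,
      (χ : G → ℂ) 1 * ((χ : G → ℂ) x * (χ : G → ℂ) y) = (χ : G → ℂ) x * (χ : G → ℂ) y := by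
    intro χ
    have hsum := Lib_lead_CharSchur.sum_char_mul_conj χ.2 x y
    have h1 : ∀ b : G, (χ : G → ℂ) (x * (b * y * b⁻¹)) = (χ : G → ℂ) x * (χ : G → ℂ) y := by
      intro b
      have := hA 1 b χ
      simpa using this
    rw [Finset.sum_congr rfl (fun b _ => h1 b), Finset.sum_const, Finset.card_univ, nsmul_eq_mul,
      ← Nat.card_eq_fintype_card] at hsum
    have h1ne := Lib_helper3_CharMore.irr_apply_one_ne_zero χ.2
    have h4 := (eq_div_iff h1ne).mp hsum
    exact mul_left_cancel₀ hcard (by linear_combination h4)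
  have hxy : ∀ χ : Cfsg.IrrCharacter G,
      (χ : G → ℂ) (x * y) = (χ : G → ℂ) x * (χ : G → ℂ) y := by
    intro χ
    have := hA 1 1 χ
    simpa using this
  have h2 : ∀ χ : Cfsg.IrrCharacter G, (χ : G → ℂ) 1 ≠ 1 → (χ : G → ℂ) (x * y) = 0 := by
    intro χ hne
    rw [hxy]
    have h3 : ((χ : G → ℂ) 1 - 1) * ((χ : G → ℂ) x * (χ : G → ℂ) y) = 0 := by
      linear_combination hB χ
    rcases mul_eq_zero.mp h3 with h4 | h4
    · exact absurd (sub_eq_zero.mp h4) hne
    · exact h4
  have h1 : ∀ z : G, IsConj (x * y) z ↔ ∃ a b : G, z = a * x * a⁻¹ * (b * y * b⁻¹) := by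
    rw [S4754.result x y]
    intro a b χ
    rw [hA a b χ]; exact hB χ
  refine ⟨h1, h2, ?_⟩
  have hsub : ∀ z : G, IsConj (x * y) z → (x * y)⁻¹ * z ∈ commutator G := by
    intro z hz
    obtain ⟨c, rfl⟩ := isConj_iff.mp hz
    have e1 : (x * y)⁻¹ * (c * (x * y) * c⁻¹) = (x * y)⁻¹ * c * ((x * y)⁻¹)⁻¹ * c⁻¹ := by group
    rw [e1]
    have e2 : (x * y)⁻¹ * c * ((x * y)⁻¹)⁻¹ * c⁻¹ ∈ commutator G :=
      Subgroup.commutator_mem_commutator (Subgroup.mem_top ((x * y)⁻¹)) (Subgroup.mem_top c)
    exact e2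
  have hcent : Nat.card (Subgroup.centralizer ({x * y} : Set G)) = (commutator G).index := by
    have e := Lib_lead_CharLinear.card_centralizer_eq_sum_normSq (x * y)
    have e2 : ∑ χ : Cfsg.IrrCharacter G, ‖(χ : G → ℂ) (x * y)‖ ^ 2
        = ∑ χ : Cfsg.IrrCharacter G, if (χ : G → ℂ) 1 = 1 then (1 : ℝ) else 0 := by
      apply Finset.sum_congr rfl
      intro χ _
      split_ifs with hχ1
      · rw [Lib_lead_CharLinear.linear_irr_norm χ.2 hχ1]; norm_num
      · rw [h2 χ hχ1]; simp
    rw [e2, Finset.sum_boole] at e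
    have e3 : (Finset.univ.filter (fun χ : Cfsg.IrrCharacter G => (χ : G → ℂ) 1 = 1)).card
        = Nat.card {χ : Cfsg.IrrCharacter G // (χ : G → ℂ) 1 = 1} := by
      rw [Nat.card_eq_fintype_card, Fintype.card_subtype]
    rw [e3, S0154.result] at e
    exact_mod_cast e
  intro z
  refine ⟨hsub z, ?_⟩
  intro hz
  have hK : {w : G | IsConj (x * y) w} ⊆ {w : G | (x * y)⁻¹ * w ∈ commutator G} :=
    fun w hw => hsub w hw
  have hcardK : Set.ncard {w : G | IsConj (x * y) w} = Nat.card (commutator G) := by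
    have h5 := Lib_helper3_CharBasic.card_isConj_eq_index (x * y)
    have h6 : Set.ncard {w : G | IsConj (x * y) w} = Nat.card {w : G // IsConj (x * y) w} :=
      (Nat.card_coe_set_eq _).symm
    rw [h6, h5]
    have i1 := Subgroup.card_mul_index (Subgroup.centralizer ({x * y} : Set G))
    have i2 := Subgroup.card_mul_index (commutator G)
    rw [hcent] at i1
    have hpos : 0 < (commutator G).index :=
      Nat.pos_of_ne_zero Subgroup.index_ne_zero_of_finite
    have : (commutator G).index * (Subgroup.centralizer ({x * y} : Set G)).index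
        = (commutator G).index * Nat.card (commutator G) := by
      rw [i1, mul_comm, i2]
    exact Nat.eq_of_mul_eq_mul_left hpos this
  have hcardC : Set.ncard {w : G | (x * y)⁻¹ * w ∈ commutator G} = Nat.card (commutator G) := by
    have h7 : {w : G | (x * y)⁻¹ * w ∈ commutator G}
        = (fun g => (x * y) * g) '' (commutator G : Set G) := by
      ext w
      simp only [Set.mem_setOf_eq, Set.mem_image, SetLike.mem_coe]
      constructor
      · intro hw
        exact ⟨(x * y)⁻¹ * w, hw, by group⟩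
      · rintro ⟨g, hg, rfl⟩
        have e3 : (x * y)⁻¹ * (x * y * g) = g := by group
        rw [e3]; exact hg
    rw [h7, Set.ncard_image_of_injective _ (mul_right_injective _)]
    exact (Nat.card_coe_set_eq _).symm
  have heq := Set.eq_of_subset_of_ncard_le hK (by rw [hcardK, hcardC]) (Set.toFinite _)
  have hz' : z ∈ {w : G | (x * y)⁻¹ * w ∈ commutator G} := hz
  rw [← heq] at hz'
  exact hz'

end Cfsg.Agent.S4755
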