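import Cfsg.Statements.S4796
import Mathlib
import Cfsg.Agent.Lib_lead_Codegree
import Cfsg.Agent.Lib_helper3_CharMore
import Cfsg.Agent.S0178
import Cfsg.Agent.Lib_helper9_Frob

set_option autoImplicit false
open Cfsg

namespace Cfsg.Agent.S4796

open Cfsg.Agent.Lib_lead_Codegree Cfsg.Agent.Lib_helper3_CharBasic Cfsg.Agent.Lib_helper3_CharMore

/-- Let G be a finite group with a faithful irreducible complex character χ whose codegree #G / χ(1) is a prime p (for a faithful character the kernel is trivial, so the codegree is #G / χ(1)). Then either G is cyclic of order p, or G is a Frobenius group whose Frobenius kernel has order p: some proper non-trivial subgroup H satisfies H ∩ gHg⁻¹ = 1 for every element g outside H, and the set of elements lying in no conjugate of H, together with the identity, has exactly p elements. -/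
theorem result {G : Type*} [Group G] [Finite G] (χ : Cfsg.IrrCharacter G) (hfaith : ∀ g : G, (χ : G → ℂ) g = (χ : G → ℂ) 1 → g = 1) (p : ℕ) (hp : p.Prime) (hcod : Nat.card G = p * Cfsg.charDegree (χ : G → ℂ)) : (IsCyclic G ∧ Nat.card G = p) ∨ ∃ H : Subgroup G, Cfsg.IsFrobeniusComplement H ∧ Nat.card ↥(Cfsg.frobeniusKernel H) = p := by
  classical
  haveI : Fintype G := Fintype.ofFinite G
  haveI : Finite (IrrCharacter G) := irr_finite
  haveI : Fintype (IrrCharacter G) := Fintype.ofFinite _
  haveI : Fact p.Prime := ⟨hp⟩
  obtain ⟨n, ρ, hirr, hρ⟩ := χ.2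
  haveI := hirr
  have hχ1 : (χ : G → ℂ) 1 = (n : ℂ) := by rw [← hρ, Representation.char_one]; simp
  have hdeg : charDegree (χ : G → ℂ) = n := charDegree_eq hχ1
  rw [hdeg] at hcod
  have hn0 : 0 < n := by
    rcases Nat.eq_zero_or_pos n with h | h
    · rw [h, mul_zero] at hcod; exact absurd hcod Nat.card_pos.ne'
    · exact h
  -- abelian subgroups have order at most p
  have hab : ∀ A : Subgroup G, (∀ a ∈ A, ∀ b ∈ A, a * b = b * a) → Nat.card A ≤ p := by
    intro A hA
    have h1 := Cfsg.Agent.S0178.result ρ A hA
    rw [Module.finrank_fin_fun] at h1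
    have h2 := Subgroup.card_mul_index A
    rw [hcod] at h2
    have h3 : Nat.card A * n ≤ p * n := by rw [← h2]; exact Nat.mul_le_mul_left _ h1
    exact Nat.le_of_mul_le_mul_right h3 hn0
  by_cases hn1 : n = 1
  · left
    rw [hn1, mul_one] at hcod
    exact ⟨isCyclic_of_prime_card hcod, hcod⟩
  · right
    have hn2 : 2 ≤ n := by omega
    have hnp : n < p := by
      have hsum := sum_sq_degree_nat (G := G)
      let χ0 : IrrCharacter G := ⟨fun _ => 1, isIrrCharacter_one⟩
      have hne : χ ≠ χ0 := by
        intro h
        have h' : (χ : G → ℂ) 1 = 1 := by rw [h]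
        rw [hχ1] at h'
        have : n = 1 := by exact_mod_cast h'
        exact hn1 this
      have h1 : ∑ ψ ∈ ({χ, χ0} : Finset (IrrCharacter G)), charDegree (ψ : G → ℂ) ^ 2
          ≤ ∑ ψ : IrrCharacter G, charDegree (ψ : G → ℂ) ^ 2 :=
        Finset.sum_le_sum_of_subset (Finset.subset_univ _)
      have h0 : charDegree (χ0 : G → ℂ) = 1 :=
        charDegree_eq (show (χ0 : G → ℂ) 1 = ((1 : ℕ) : ℂ) by simp [χ0])
      rw [Finset.sum_pair hne, hsum, hdeg, h0, hcod] at h1
      nlinarith
    have hpn : ¬ p ∣ n := fun h => absurd (Nat.le_of_dvd hn0 h) (not_le.mpr hnp)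
    obtain ⟨P⟩ : Nonempty (Sylow p G) := inferInstance
    have hPcard : Nat.card (P : Subgroup G) = p := by
      rw [Sylow.card_eq_multiplicity, hcod, Nat.factorization_mul hp.ne_zero hn0.ne',
        Finsupp.add_apply, hp.factorization_self, Nat.factorization_eq_zero_of_not_dvd hpn,
        pow_one]
    have hPidx : (P : Subgroup G).index = n := by
      have h := Subgroup.card_mul_index (P : Subgroup G)
      rw [hPcard, hcod] at h
      exact Nat.eq_of_mul_eq_mul_left hp.pos h
    have hPnormal : (P : Subgroup G).Normal := by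
      have h1 := card_sylow_modEq_one p G
      have h2 := Sylow.card_dvd_index P
      rw [hPidx] at h2
      have h3 : Nat.card (Sylow p G) ≤ n := Nat.le_of_dvd hn0 h2
      have h4 : Nat.card (Sylow p G) = 1 := by
        have h5 : Nat.card (Sylow p G) < p := lt_of_le_of_lt h3 hnp
        unfold Nat.ModEq at h1
        rw [Nat.mod_eq_of_lt h5, Nat.mod_eq_of_lt hp.one_lt] at h1
        exact h1
      rw [Sylow.card_eq_index_normalizer P, Subgroup.index_eq_one] at h4
      exact Subgroup.normalizer_eq_top_iff.mp h4
    haveI := hPnormal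
    have hcop : (Nat.card (P : Subgroup G)).Coprime (P : Subgroup G).index := by
      rw [hPcard, hPidx]; exact (Nat.Prime.coprime_iff_not_dvd hp).mpr hpn
    obtain ⟨H, hH⟩ := Subgroup.exists_right_complement'_of_coprime hcop
    have hHidx : H.index = p := by rw [hH.index_eq_card, hPcard]
    have hHcard : Nat.card H = n := by
      have h := hH.card_mul_card
      rw [hPcard, hcod] at h
      exact Nat.eq_of_mul_eq_mul_left hp.pos h
    have hdisj : ∀ y : G, y ∈ (P : Subgroup G) → y ∈ H → y = 1 := by
      intro y hy1 hy2
      exact Subgroup.disjoint_def.mp hH.disjoint hy1 hy2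
    have hkey : ∀ u : G, u ∈ (P : Subgroup G) → u ≠ 1 → ∀ y : G, u * y = y * u →
        y ∈ (P : Subgroup G) := by
      intro u hu hu1 y huy
      have hcomm : ∀ a ∈ ({u, y} : Set G), ∀ b ∈ ({u, y} : Set G), a * b = b * a := by
        intro a ha b hb
        simp only [Set.mem_insert_iff, Set.mem_singleton_iff] at ha hb
        rcases ha with rfl | rfl <;> rcases hb with rfl | rfl
        · rfl
        · exact huy
        · exact huy.symm
        · rfl
      haveI := Subgroup.isMulCommutative_closure hcomm
      have hAab : ∀ a ∈ Subgroup.closure ({u, y} : Set G),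
          ∀ b ∈ Subgroup.closure ({u, y} : Set G), a * b = b * a := by
        intro a ha b hb
        have h := mul_comm' (⟨a, ha⟩ : Subgroup.closure ({u, y} : Set G)) ⟨b, hb⟩
        exact congrArg Subtype.val h
      have hA := hab _ hAab
      have hzu : Subgroup.zpowers u = (P : Subgroup G) := by
        apply Subgroup.eq_of_le_of_card_ge
        · exact Subgroup.zpowers_le.mpr hu
        · rw [hPcard, Nat.card_zpowers]
          have h1 : orderOf u ∣ p := by
            have h : orderOf (⟨u, hu⟩ : (P : Subgroup G)) ∣ Nat.card (P : Subgroup G) :=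
              orderOf_dvd_natCard _
            rwa [Subgroup.orderOf_mk, hPcard] at h
          rcases (Nat.dvd_prime hp).mp h1 with h | h
          · exact absurd (orderOf_eq_one_iff.mp h) hu1
          · rw [h]
      have hPA : (P : Subgroup G) ≤ Subgroup.closure ({u, y} : Set G) := by
        rw [← hzu]; exact Subgroup.zpowers_le.mpr (Subgroup.subset_closure (by simp))
      have hPA' : (P : Subgroup G) = Subgroup.closure ({u, y} : Set G) :=
        Subgroup.eq_of_le_of_card_ge hPA (by rw [hPcard]; exact hA)
      rw [hPA']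
      exact Subgroup.subset_closure (by simp)
    have hFrob : IsFrobeniusComplement H := by
      refine ⟨?_, ?_, ?_⟩
      · rintro rfl
        rw [Subgroup.card_bot] at hHcard
        omega
      · rintro rfl
        rw [Subgroup.index_top] at hHidx
        exact hp.one_lt.ne hHidx
      · intro g hg
        rw [eq_bot_iff]
        intro y hy
        rw [Subgroup.mem_inf, Cfsg.Agent.Lib_helper9_Frob.mem_conj_smul_iff] at hy
        obtain ⟨hy1, hy2⟩ := hy
        rw [Subgroup.mem_bot]
        obtain ⟨⟨⟨u, hu⟩, ⟨h, hh⟩⟩, huh⟩ := hH.2 g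
        replace huh : u * h = g := huh
        have hu1 : u ≠ 1 := by
          rintro rfl
          apply hg
          rw [← huh, one_mul]
          exact hh
        have h1 : u⁻¹ * y * u ∈ H := by
          have e : u⁻¹ * y * u = h * (g⁻¹ * y * g) * h⁻¹ := by rw [← huh]; group
          rw [e]
          exact H.mul_mem (H.mul_mem hh hy2) (H.inv_mem hh)
        have h2 : y⁻¹ * (u⁻¹ * y * u) ∈ (P : Subgroup G) := by
          have e : y⁻¹ * (u⁻¹ * y * u) = (y⁻¹ * u⁻¹ * y⁻¹⁻¹) * u := by group
          rw [e]
          exact (P : Subgroup G).mul_mem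
            (hPnormal.conj_mem _ ((P : Subgroup G).inv_mem hu) _) hu
        have h3 := hdisj _ h2 (H.mul_mem (H.inv_mem hy1) h1)
        have h4 : u * y = y * u := by
          have e : u⁻¹ * y * u = y := by
            have e' := congrArg (fun z => y * z) h3
            simpa [mul_assoc] using e'
          calc u * y = u * (u⁻¹ * y * u) := by rw [e]
            _ = y * u := by group
        exact hdisj y (hkey u hu hu1 y h4) hy1
    exact ⟨H, hFrob, by rw [Cfsg.Agent.Lib_helper9_Frob.card_kernel hFrob, hHidx]⟩

end Cfsg.Agent.S4796
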