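import Cfsg.Statements.S4797
import Cfsg.Agent.Lib_helper3_Galois2
import Cfsg.Agent.Lib_helper3_CharMore
import Cfsg.Agent.Lib_lead_CharQuot

set_option autoImplicit false
open Cfsg

namespace Cfsg.Agent.S4797

theorem ker_top_of_perfect {Q A : Type*} [Group Q] [Group A] (f : Q →* A)
    (hA : ∀ a b : A, a * b = b * a) (hperf : commutator Q = ⊤) (g : Q) : f g = 1 := by
  have h1 : commutator Q ≤ f.ker := by
    rw [commutator_eq_closure]
    apply (Subgroup.closure_le _).mpr
    rintro g ⟨a, b, rfl⟩
    rw [SetLike.mem_coe, MonoidHom.mem_ker, commutatorElement_def, map_mul, map_mul, map_mul,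
      map_inv, map_inv, hA (f a) (f b)]
    group
  rw [hperf] at h1
  exact MonoidHom.mem_ker.mp (h1 (Subgroup.mem_top g))

theorem no_perfect {Q : Type*} [Group Q] [Finite Q] (p d : ℕ) (hp : p.Prime) (hd : 0 < d)
    (hdp : d ≤ p) (hcard : Nat.card Q = d * p) (hperf : commutator Q = ⊤) : False := by
  haveI : Fact p.Prime := ⟨hp⟩
  rcases eq_or_lt_of_le hdp with rfl | hlt
  · have hc := IsPGroup.commutative_of_card_eq_prime_sq (p := d) (G := Q) (by rw [hcard, sq])
    have hcen : Subgroup.center Q = ⊤ :=
      (Subgroup.eq_top_iff' _).mpr (fun g => Subgroup.mem_center_iff.mpr (fun h => hc h g))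
    have hbot := (commutator_eq_bot_iff_center_eq_top (G := Q)).mpr hcen
    rw [hperf] at hbot
    have h1 : Nat.card Q = 1 := by
      rw [← Subgroup.card_top (G := Q), hbot, Subgroup.card_bot]
    rw [hcard] at h1
    have := hp.one_lt
    nlinarith
  · obtain ⟨P⟩ : Nonempty (Sylow p Q) := inferInstance
    have hpd : ¬ p ∣ d := fun h => absurd (Nat.le_of_dvd hd h) (not_le.mpr hlt)
    have hPcard : Nat.card (P : Subgroup Q) = p := by
      rw [Sylow.card_eq_multiplicity, hcard, Nat.factorization_mul hd.ne' hp.ne_zero]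
      simp [Nat.factorization_eq_zero_of_not_dvd hpd, hp.factorization_self]
    have hidx : (P : Subgroup Q).index = d := by
      have := (P : Subgroup Q).card_mul_index
      rw [hPcard, hcard] at this
      have h2 : p * (P : Subgroup Q).index = p * d := by rw [this, mul_comm]
      exact Nat.eq_of_mul_eq_mul_left hp.pos h2
    have hn1 : Nat.card (Sylow p Q) = 1 := by
      have h1 := card_sylow_modEq_one p Q
      have h2 := Sylow.card_dvd_index P
      rw [hidx] at h2
      have h3 : Nat.card (Sylow p Q) ≤ d := Nat.le_of_dvd hd h2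
      have h4 : Nat.card (Sylow p Q) < p := lt_of_le_of_lt h3 hlt
      unfold Nat.ModEq at h1
      rw [Nat.mod_eq_of_lt h4, Nat.mod_eq_of_lt hp.one_lt] at h1
      exact h1
    haveI : Subsingleton (Sylow p Q) := (Nat.card_eq_one_iff_unique.mp hn1).1
    haveI hPn : (P : Subgroup Q).Normal := Sylow.normal_of_subsingleton P
    haveI : IsCyclic (P : Subgroup Q) := isCyclic_of_prime_card hPcard
    let f : Q →* (ZMod (Nat.card (P : Subgroup Q)))ˣ :=
      (IsCyclic.mulAutMulEquiv (P : Subgroup Q)).toMonoidHom.comp
        (MulAut.conjNormal (H := (P : Subgroup Q)))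
    have hker : ∀ g : Q, f g = 1 := ker_top_of_perfect f (fun a b => mul_comm a b) hperf
    have hcent : ∀ g : Q, ∀ h ∈ (P : Subgroup Q), g * h * g⁻¹ = h := by
      intro g h hh
      have h1 : MulAut.conjNormal (H := (P : Subgroup Q)) g = 1 := by
        have := hker g
        simp only [f, MonoidHom.comp_apply, MulEquiv.coe_toMonoidHom] at this
        exact (MulEquiv.map_eq_one_iff _).mp this
      have h2 := MulAut.conjNormal_apply (H := (P : Subgroup Q)) g ⟨h, hh⟩
      rw [h1] at h2
      simpa using h2.symm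
    have hP : Subgroup.normalizer ((P : Subgroup Q) : Set Q) ≤ Subgroup.centralizer ((P : Subgroup Q) : Set Q) := by
      intro g _
      rw [Subgroup.mem_centralizer_iff]
      intro h hh
      have := hcent g h hh
      rw [mul_inv_eq_iff_eq_mul] at this
      exact this.symm
    have hcompl := MonoidHom.ker_transferSylow_isComplement' P hP
    have hPcomm : ∀ a b : (P : Subgroup Q), a * b = b * a := by
      intro a b
      have := hcent a b b.2
      rw [mul_inv_eq_iff_eq_mul] at this
      exact Subtype.ext this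
    have hkertop : (MonoidHom.transferSylow P hP).ker = ⊤ := by
      apply (Subgroup.eq_top_iff' _).mpr
      intro g
      exact MonoidHom.mem_ker.mpr (ker_top_of_perfect _ hPcomm hperf g)
    have h5 := hcompl.card_mul_card
    rw [hkertop, Subgroup.card_top, hPcard, hcard] at h5
    have := hp.one_lt
    nlinarith

/-- The codegree of an irreducible complex character χ of a finite group G is [G : ker χ] / χ(1), where ker χ is the set of elements at which χ takes the value χ(1). A non-trivial finite group is perfect if and only if no irreducible complex character of it has prime codegree. -/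
theorem result {G : Type*} [Group G] [Finite G] [Nontrivial G] : commutator G = ⊤ ↔ ∀ χ : Cfsg.IrrCharacter G, ¬ ((Nat.card G / (Nat.card {g : G // (χ : G → ℂ) g = (χ : G → ℂ) 1} * Cfsg.charDegree (χ : G → ℂ)))).Prime := by
  classical
  haveI := Fintype.ofFinite G
  constructor
  · intro hperf χ hprime
    obtain ⟨χ, hχ⟩ := χ
    simp only at hprime
    have hchar := Cfsg.Agent.Lib_helper3_CharBasic.isCharacter_of_irr hχ
    obtain ⟨d, hd0, hd⟩ := Cfsg.Agent.Lib_helper3_CharMore.irr_apply_one_pos hχ
    have hdeg : Cfsg.charDegree χ = d := by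
      unfold Cfsg.charDegree; rw [hd]; simp
    rw [hdeg] at hprime
    set K := Cfsg.Agent.Lib_lead_CharQuot.charKer hchar with hK
    have hKcard : Nat.card {g : G // χ g = χ 1} = Nat.card K :=
      Nat.card_congr (Equiv.subtypeEquivRight (fun g => Iff.rfl))
    rw [hKcard] at hprime
    obtain ⟨c, hc⟩ := Cfsg.Agent.Lib_lead_CharQuot.irr_degree_dvd_index hχ K (fun g hg => hg) hd
    have hGK : Nat.card G = Nat.card K * (d * c) := by rw [← hc, Subgroup.card_mul_index]
    have hKpos : 0 < Nat.card K := Nat.card_pos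
    have hquot : Nat.card G / (Nat.card K * d) = c := by
      rw [hGK, ← mul_assoc]
      exact Nat.mul_div_cancel_left c (Nat.mul_pos hKpos hd0)
    rw [hquot] at hprime
    -- d ≤ c
    have hsum := Cfsg.Agent.Lib_helper3_Galois2.sum_norm_sq_irr hχ
    have hle : (Nat.card K : ℝ) * (d : ℝ) ^ 2 ≤ (Nat.card G : ℝ) := by
      rw [← hsum]
      have h1 : ∑ g ∈ Finset.univ.filter (fun g : G => g ∈ K), ‖χ g‖ ^ 2 ≤ ∑ g : G, ‖χ g‖ ^ 2 :=
        Finset.sum_le_sum_of_subset_of_nonneg (Finset.filter_subset _ _) (fun _ _ _ => by positivity)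
      have h2 : ∑ g ∈ Finset.univ.filter (fun g : G => g ∈ K), ‖χ g‖ ^ 2 =
          (Nat.card K : ℝ) * (d : ℝ) ^ 2 := by
        rw [Finset.sum_congr rfl (fun g hg => by
          have hg' : χ g = χ 1 := (Finset.mem_filter.mp hg).2
          rw [hg', hd, Complex.norm_natCast]), Finset.sum_const, nsmul_eq_mul,
          Nat.card_eq_fintype_card, Fintype.card_subtype]
      rw [← h2]; exact h1
    have hle' : Nat.card K * d ^ 2 ≤ Nat.card K * (d * c) := by
      rw [← hGK]; exact_mod_cast hle
    have hdc : d ≤ c := by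
      have h3 : d ^ 2 ≤ d * c := Nat.le_of_mul_le_mul_left hle' hKpos
      rw [sq] at h3
      exact Nat.le_of_mul_le_mul_left h3 hd0
    have hQcard : Nat.card (G ⧸ K) = d * c := by rw [← Subgroup.index_eq_card, hc]
    have hQperf : commutator (G ⧸ K) = ⊤ := by
      rw [commutator_def, ← Subgroup.map_top_of_surjective (QuotientGroup.mk' K)
        (QuotientGroup.mk'_surjective K), ← Subgroup.map_commutator, ← commutator_def, hperf]
    exact no_perfect c d hprime hd0 hdc hQcard hQperf
  · intro hall
    by_contra hne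
    -- a nontrivial linear character
    haveI : Nontrivial (Abelianization G) := by
      by_contra hcon
      rw [not_nontrivial_iff_subsingleton] at hcon
      apply hne
      apply (Subgroup.eq_top_iff' _).mpr
      intro g
      have h1 : (Abelianization.of g : Abelianization G) = 1 := Subsingleton.elim _ _
      exact (QuotientGroup.eq_one_iff g).mp h1
    obtain ⟨a, ha⟩ := exists_ne (1 : Abelianization G)
    haveI : NeZero (Monoid.exponent (Abelianization G)) := ⟨Monoid.exponent_ne_zero_of_finite⟩
    obtain ⟨φ₀, hφ₀⟩ := CommGroup.exists_apply_ne_one_of_hasEnoughRootsOfUnity (Abelianization G) ℂ ha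
    obtain ⟨g₀, rfl⟩ := QuotientGroup.mk_surjective a
    let φ : G →* ℂˣ := φ₀.comp (QuotientGroup.mk' (commutator G))
    have hφg₀ : φ g₀ ≠ 1 := hφ₀
    -- the range is cyclic
    haveI : Finite φ.range := Set.finite_range φ
    haveI hcyc : IsCyclic φ.range :=
      isCyclic_of_subgroup_isDomain ((Units.coeHom ℂ).comp φ.range.subtype)
        (fun x y hxy => Subtype.ext (Units.ext hxy))
    obtain ⟨r, hr⟩ := hcyc.exists_generator
    set n := Nat.card φ.range with hn
    have hrn : orderOf r = n := orderOf_eq_card_of_forall_mem_zpowers hr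
    obtain ⟨g₁, hg₁⟩ : ∃ g₁, φ g₁ = (r : ℂˣ) := r.2
    have hn1 : n ≠ 1 := by
      intro h1
      have hsub : Subsingleton φ.range := (Nat.card_eq_one_iff_unique.mp (hn ▸ h1)).1
      have : (⟨φ g₀, g₀, rfl⟩ : φ.range) = 1 := Subsingleton.elim _ _
      exact hφg₀ (congrArg Subtype.val this)
    have hnpos : 0 < n := Nat.card_pos
    set p := n.minFac with hp
    have hpp : p.Prime := Nat.minFac_prime hn1
    have hpn : p ∣ n := Nat.minFac_dvd n
    obtain ⟨m, hm⟩ := hpn
    have hmpos : 0 < m := by
      rcases Nat.eq_zero_or_pos m with h | h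
      · rw [h, mul_zero] at hm; omega
      · exact h
    have hmn : m < n := by
      rw [hm]; have := hpp.one_lt; nlinarith
    let ψ : G →* ℂˣ := (powMonoidHom m).comp φ
    have hψ : ∀ g, ψ g = φ g ^ m := fun g => rfl
    have hψp : ∀ g, ψ g ^ p = 1 := by
      intro g
      rw [hψ, ← pow_mul, mul_comm, ← hm]
      have h1 : (⟨φ g, g, rfl⟩ : φ.range) ^ n = 1 := by rw [hn]; exact pow_card_eq_one'
      exact congrArg Subtype.val h1
    have hψg₁ : ψ g₁ ≠ 1 := by
      rw [hψ, hg₁]
      intro h
      have h2 : r ^ m = 1 := Subtype.ext h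
      exact pow_ne_one_of_lt_orderOf hmpos.ne' (hrn ▸ hmn) h2
    haveI : NeZero p := ⟨hpp.ne_zero⟩
    have hrange : ψ.range ≤ rootsOfUnity p ℂ := by
      rintro x ⟨g, rfl⟩
      rw [mem_rootsOfUnity]
      exact hψp g
    have hcardrange : Nat.card ψ.range = p := by
      have h1 : Nat.card ψ.range ∣ p := by
        have := Subgroup.card_dvd_of_le hrange
        rwa [Complex.card_rootsOfUnity] at this
      rcases (Nat.dvd_prime hpp).mp h1 with h | h
      · exfalso
        haveI : Finite ψ.range := Set.finite_range ψ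
        have hsub : Subsingleton ψ.range := (Nat.card_eq_one_iff_unique.mp h).1
        have : (⟨ψ g₁, g₁, rfl⟩ : ψ.range) = 1 := Subsingleton.elim _ _
        exact hψg₁ (congrArg Subtype.val this)
      · exact h
    have hidx : ψ.ker.index = p := by rw [Subgroup.index_ker, hcardrange]
    have hirr := Cfsg.Agent.Lib_helper3_CharMore.isIrrCharacter_of_monoidHom ψ
    apply hall ⟨fun g => (ψ g : ℂ), hirr⟩
    simp only
    have hdeg : Cfsg.charDegree (fun g => (ψ g : ℂ)) = 1 := by
      unfold Cfsg.charDegree; simp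
    have hKcard : Nat.card {g : G // (ψ g : ℂ) = (ψ 1 : ℂ)} = Nat.card ψ.ker :=
      Nat.card_congr (Equiv.subtypeEquivRight (fun g => by
        rw [MonoidHom.mem_ker, map_one, Units.val_one, Units.val_eq_one]))
    rw [hdeg, hKcard, mul_one, ← Subgroup.card_mul_index ψ.ker, hidx,
      Nat.mul_div_cancel_left p Nat.card_pos]
    exact hpp

end Cfsg.Agent.S4797
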