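import Cfsg.Statements.S4798
import Cfsg.Agent.Lib_lead_Codegree
import Cfsg.Agent.Lib_lead_CharConstituent
import Cfsg.Agent.Lib_helper3_CharOdd

set_option autoImplicit false
open Cfsg

namespace Cfsg.Agent.S4798

open Cfsg.Agent.Lib_helper3_CharBasic Cfsg.Agent.Lib_helper3_CharMore Cfsg.Agent.Lib_helper3_CharInd

/-- Let p be a prime and χ a faithful irreducible complex character of the finite group G (χ(g) = χ(1) only for g = 1), so that its codegree is #G / χ(1). Then #G / χ(1) is a power of p if and only if χ is induced from a character of a Sylow p-subgroup of G. -/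
theorem result {G : Type*} [Group G] [Fintype G] (p : ℕ) [Fact p.Prime] (χ : Cfsg.IrrCharacter G) (hfaith : ∀ g : G, (χ : G → ℂ) g = (χ : G → ℂ) 1 → g = 1) : (∃ k : ℕ, Nat.card G = p ^ k * Cfsg.charDegree (χ : G → ℂ)) ↔ ∃ (P : Sylow p G) (θ : ↥(P : Subgroup G) → ℂ), Cfsg.IsCharacter ↥(P : Subgroup G) θ ∧ (χ : G → ℂ) = Cfsg.indFun (P : Subgroup G) θ := by
  classical
  obtain ⟨χ, hχ⟩ := χ
  simp only at hfaith ⊢
  have hp : p.Prime := Fact.out
  obtain ⟨d, hd0, hd, hdeg⟩ := Cfsg.Agent.Lib_lead_Codegree.irr_natDegree hχ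
  rw [hdeg]
  constructor
  · rintro ⟨k, hk⟩
    obtain ⟨P⟩ : Nonempty (Sylow p G) := inferInstance
    haveI : Fintype (P : Subgroup G) := Fintype.ofFinite _
    haveI : Finite (IrrCharacter (P : Subgroup G)) := irr_finite
    haveI : Fintype (IrrCharacter (P : Subgroup G)) := Fintype.ofFinite _
    set n := (Nat.card G).factorization p with hn
    have hPcard : Nat.card (P : Subgroup G) = p ^ n := Sylow.card_eq_multiplicity P
    set m := (P : Subgroup G).index with hm
    have hGm : Nat.card G = p ^ n * m := by rw [← hPcard, hm, Subgroup.card_mul_index]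
    have hpm : ¬ p ∣ m := P.not_dvd_index
    have hkn : k ≤ n := (hp.pow_dvd_iff_le_factorization Nat.card_pos.ne').mp ⟨d, hk⟩
    have hdm : d = p ^ (n - k) * m := by
      have : p ^ k * d = p ^ k * (p ^ (n - k) * m) := by
        rw [← hk, hGm, ← mul_assoc, ← pow_add, Nat.add_sub_cancel' hkn]
      exact Nat.eq_of_mul_eq_mul_left (pow_pos hp.pos k) this
    have hres := isCharacter_restrict (P : Subgroup G) (isCharacter_of_irr hχ)
    have hsum := Cfsg.Agent.Lib_lead_CharConstituent.apply_one_eq_sum hres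
    have hnat : ∀ θ : IrrCharacter (P : Subgroup G), ∃ n : ℕ,
        classInner (fun x : (P : Subgroup G) => χ x) (θ : ↥(P : Subgroup G) → ℂ) = n :=
      fun θ => classInner_nat hres (isCharacter_of_irr θ.2)
    choose mult hmult using hnat
    have hdegθ : ∀ θ : IrrCharacter (P : Subgroup G), ∃ j : ℕ, j ≤ n ∧
        (θ : ↥(P : Subgroup G) → ℂ) 1 = ((p ^ j : ℕ) : ℂ) := by
      intro θ
      obtain ⟨t, ht0, ht, _⟩ := Cfsg.Agent.Lib_lead_Codegree.irr_natDegree θ.2
      have hdvd := Cfsg.Agent.Lib_helper3_CharOdd.irr_degree_dvd_card θ.2 ht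
      rw [hPcard] at hdvd
      obtain ⟨j, hj, rfl⟩ := (Nat.dvd_prime_pow hp).mp hdvd
      exact ⟨j, hj, ht⟩
    choose j hjn hj using hdegθ
    have hsumN : d = ∑ θ : IrrCharacter (P : Subgroup G), mult θ * p ^ (j θ) := by
      have : (d : ℂ) = ((∑ θ : IrrCharacter (P : Subgroup G), mult θ * p ^ (j θ) : ℕ) : ℂ) := by
        rw [← hd]
        have h1 : χ 1 = ∑ θ : IrrCharacter (P : Subgroup G),
            classInner (fun x : (P : Subgroup G) => χ x) (θ : ↥(P : Subgroup G) → ℂ) *
              (θ : ↥(P : Subgroup G) → ℂ) 1 := hsum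
        rw [h1]
        push_cast
        apply Finset.sum_congr rfl
        intro θ _
        rw [hmult θ, hj θ]; push_cast; rfl
      exact_mod_cast this
    have hex : ∃ θ : IrrCharacter (P : Subgroup G), mult θ ≠ 0 ∧ j θ ≤ n - k := by
      by_contra hcon
      push_neg at hcon
      have hdvd : p ^ (n - k + 1) ∣ d := by
        rw [hsumN]
        apply Finset.dvd_sum
        intro θ _
        by_cases h0 : mult θ = 0
        · rw [h0, zero_mul]; exact dvd_zero _
        · exact Dvd.dvd.mul_left (pow_dvd_pow p (hcon θ h0)) _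
      rw [hdm, pow_succ] at hdvd
      exact hpm (Nat.dvd_of_mul_dvd_mul_left (pow_pos hp.pos _) hdvd)
    obtain ⟨θ, hθ0, hθj⟩ := hex
    refine ⟨P, (θ : ↥(P : Subgroup G) → ℂ), isCharacter_of_irr θ.2, ?_⟩
    symm
    apply Cfsg.Agent.Lib_lead_CharConstituent.eq_of_constituent_of_degree_le hχ
      (isCharacter_indFun _ (isCharacter_of_irr θ.2))
    · rw [frobenius_reciprocity _ _ _ (isClassFunction_of_irr hχ), ← classInner_conj_symm, hmult θ]
      simpa using hθ0
    · rw [indFun_apply_one, hj θ, hd]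
      have h3 : m * p ^ (j θ) ≤ d := by
        rw [hdm, mul_comm]
        exact Nat.mul_le_mul_right m (Nat.pow_le_pow_right hp.pos hθj)
      have h2 : ((m : ℂ) * ((p ^ j θ : ℕ) : ℂ)).re = ((m * p ^ (j θ) : ℕ) : ℝ) := by
        rw [← Nat.cast_mul, Complex.natCast_re]
      rw [h2, Complex.natCast_re]
      exact_mod_cast h3
  · rintro ⟨P, θ, hθ, hind⟩
    haveI : Fintype (P : Subgroup G) := Fintype.ofFinite _
    obtain ⟨t, ht⟩ := isCharacter_apply_one hθ
    have h1 : (d : ℂ) = ((P : Subgroup G).index : ℂ) * t := by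
      rw [← hd, hind, indFun_apply_one, ht]
    have h1' : d = (P : Subgroup G).index * t := by exact_mod_cast h1
    set n := (Nat.card G).factorization p with hn
    have hPcard : Nat.card (P : Subgroup G) = p ^ n := Sylow.card_eq_multiplicity P
    have hG : Nat.card G = p ^ n * (P : Subgroup G).index := by
      rw [← hPcard, Subgroup.card_mul_index]
    have hdvd : d ∣ Nat.card G := Cfsg.Agent.Lib_helper3_CharOdd.irr_degree_dvd_card hχ hd
    rw [h1', hG, mul_comm (p ^ n)] at hdvd
    have hidx : 0 < (P : Subgroup G).index := Nat.pos_of_ne_zero (Subgroup.index_ne_zero_of_finite)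
    have ht_dvd : t ∣ p ^ n := Nat.dvd_of_mul_dvd_mul_left hidx hdvd
    obtain ⟨j, hj, rfl⟩ := (Nat.dvd_prime_pow hp).mp ht_dvd
    refine ⟨n - j, ?_⟩
    have h5 : p ^ n = p ^ (n - j) * p ^ j := by rw [← pow_add, Nat.sub_add_cancel hj]
    rw [hG, h1', h5]
    ring

end Cfsg.Agent.S4798
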