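import Cfsg.Statements.S4801
import Cfsg.Agent.Lib_lead_Codegree

set_option autoImplicit false
open Cfsg

namespace Cfsg.Agent.S4801

/-- The codegree of an irreducible complex character χ of a finite group G is [G : ker χ] / χ(1), where ker χ is the set of elements at which χ takes the value χ(1). Let S be a finite simple group and G a finite group such that every codegree of an irreducible character of S is a codegree of an irreducible character of G. Then the order of S divides the order of G. -/
theorem result {S : Type*} [Group S] [Finite S] (hS : IsSimpleGroup S) {G : Type*} [Group G] [Finite G] (hsub : ∀ χ : Cfsg.IrrCharacter S, ∃ ψ : Cfsg.IrrCharacter G, (Nat.card S / (Nat.card {g : S // (χ : S → ℂ) g = (χ : S → ℂ) 1} * Cfsg.charDegree (χ : S → ℂ))) = (Nat.card G / (Nat.card {g : G // (ψ : G → ℂ) g = (ψ : G → ℂ) 1} * Cfsg.charDegree (ψ : G → ℂ)))) : Nat.card S ∣ Nat.card G := by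
  classical
  apply (Nat.factorization_le_iff_dvd Nat.card_pos.ne' Nat.card_pos.ne').mp
  intro p
  by_cases hp : p.Prime
  swap
  · simp [Nat.factorization_eq_zero_of_not_prime _ hp]
  by_cases hpS : p ∣ Nat.card S
  swap
  · rw [Nat.factorization_eq_zero_of_not_dvd hpS]; exact Nat.zero_le _
  obtain ⟨χ, hχ1, hχp⟩ := Cfsg.Agent.Lib_lead_Codegree.exists_irr_not_dvd p hp hpS
  obtain ⟨ψ, hψ⟩ := hsub χ
  obtain ⟨c, hc1, hc2⟩ := Cfsg.Agent.Lib_lead_Codegree.codegree_spec χ.2
  obtain ⟨c', hc1', hc2'⟩ := Cfsg.Agent.Lib_lead_Codegree.codegree_spec ψ.2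
  rw [hc2, hc2'] at hψ
  subst hψ
  have hker : Nat.card {g : S // (χ : S → ℂ) g = (χ : S → ℂ) 1} = 1 := by
    set K := Cfsg.Agent.Lib_lead_CharQuot.charKer
      (Cfsg.Agent.Lib_helper3_CharBasic.isCharacter_of_irr χ.2) with hK
    have hKcard : Nat.card {g : S // (χ : S → ℂ) g = (χ : S → ℂ) 1} = Nat.card K :=
      Nat.card_congr (Equiv.subtypeEquivRight (fun g => Iff.rfl))
    rw [hKcard]
    rcases hS.eq_bot_or_eq_top_of_normal K inferInstance with h | h
    · rw [h, Subgroup.card_bot]
    · exfalso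
      apply hχ1
      apply Cfsg.Agent.Lib_lead_Codegree.irr_eq_one_of_const χ.2
      intro g
      have hg : g ∈ K := by rw [h]; trivial
      exact hg
  rw [hker, one_mul] at hc1
  have h1 : p ^ (Nat.card S).factorization p ∣ c := by
    have h2 : p ^ (Nat.card S).factorization p ∣ Cfsg.charDegree (χ : S → ℂ) * c := by
      rw [← hc1]; exact Nat.ordProj_dvd _ _
    exact (Nat.Coprime.dvd_mul_left
      (Nat.Coprime.pow_left _ ((Nat.Prime.coprime_iff_not_dvd hp).mpr hχp))).mp h2
  have h3 : c ∣ Nat.card G := Dvd.intro_left _ hc1'.symm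
  exact (hp.pow_dvd_iff_le_factorization Nat.card_pos.ne').mp (h1.trans h3)

end Cfsg.Agent.S4801
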