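import Cfsg.Statements.S4802
import Cfsg.Agent.Lib_lead_CharNormal

set_option autoImplicit false
open Cfsg

namespace Cfsg.Agent.S4802

/-- Let N < M be normal subgroups of the finite group G and g ∈ M ∖ N. Then the conjugacy class of g is exactly M ∖ N if and only if every irreducible complex character of G whose kernel contains N takes the same value at all elements of M ∖ N, and every irreducible complex character of G whose kernel does not contain N vanishes at g. -/
theorem result {G : Type*} [Group G] [Finite G] (N M : Subgroup G) [N.Normal] [M.Normal] (hNM : N < M) (g : G) (hgM : g ∈ M) (hgN : g ∉ N) : {h : G | IsConj g h} = (M : Set G) \ (N : Set G) ↔ ((∀ χ : Cfsg.IrrCharacter G, (∀ x ∈ N, (χ : G → ℂ) x = (χ : G → ℂ) 1) → ∀ x ∈ M, x ∉ N → ∀ y ∈ M, y ∉ N → (χ : G → ℂ) x = (χ : G → ℂ) y) ∧ (∀ χ : Cfsg.IrrCharacter G, (∃ x ∈ N, (χ : G → ℂ) x ≠ (χ : G → ℂ) 1) → (χ : G → ℂ) g = 0)) := by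
  classical
  have := Fintype.ofFinite G
  have := Lib_helper3_CharBasic.irr_finite (G := G)
  have := Fintype.ofFinite (Cfsg.IrrCharacter G)
  constructor
  · intro hcl
    have hmem : ∀ w : G, w ∈ M → w ∉ N → IsConj g w := by
      intro w hwM hwN
      have : w ∈ (M : Set G) \ (N : Set G) := ⟨hwM, hwN⟩
      rw [← hcl] at this; exact this
    constructor
    · intro χ _ x hxM hxN y hyM hyN
      have hcf := Lib_helper3_CharBasic.isClassFunction_iff_isConj.mp
        (Lib_helper3_CharBasic.isClassFunction_of_irr χ.2)
      rw [← hcf g x (hmem x hxM hxN), ← hcf g y (hmem y hyM hyN)]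
    · intro χ hker
      have hcf := Lib_helper3_CharBasic.isClassFunction_iff_isConj.mp
        (Lib_helper3_CharBasic.isClassFunction_of_irr χ.2)
      have hsum := Lib_lead_CharNormal.sum_coset_char_eq_zero χ.2 N hker g
      have h1 : ∀ n : N, (χ : G → ℂ) (g * (n : G)) = (χ : G → ℂ) g := by
        intro n
        have hM : g * (n : G) ∈ M := M.mul_mem hgM (hNM.le n.2)
        have hN' : g * (n : G) ∉ N := by
          intro h
          apply hgN
          have := N.mul_mem h (N.inv_mem n.2)
          simpa using this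
        exact (hcf g _ (hmem _ hM hN')).symm
      rw [Finset.sum_congr rfl (fun n _ => h1 n), Finset.sum_const, Finset.card_univ,
        nsmul_eq_mul] at hsum
      have hNc : (Fintype.card N : ℂ) ≠ 0 := by exact_mod_cast Fintype.card_ne_zero
      exact (mul_eq_zero.mp hsum).resolve_left hNc
  · rintro ⟨hA, hB⟩
    ext y
    constructor
    · intro hy
      obtain ⟨c, rfl⟩ := isConj_iff.mp hy
      refine ⟨?_, ?_⟩
      · exact (inferInstance : M.Normal).conj_mem g hgM c
      · intro h
        apply hgN
        have := (inferInstance : N.Normal).conj_mem _ h c⁻¹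
        simpa [mul_assoc] using this
    · rintro ⟨hyM, hyN⟩
      have h1 := Lib_helper3_CharBasic.second_orthogonality (G := G) g y
      have h2 := Lib_helper3_CharBasic.second_orthogonality (G := G) g g
      rw [if_pos (IsConj.refl g)] at h2
      have h3 : ∑ χ : Cfsg.IrrCharacter G, (χ : G → ℂ) y * (starRingEnd ℂ) ((χ : G → ℂ) g)
          = ∑ χ : Cfsg.IrrCharacter G, (χ : G → ℂ) g * (starRingEnd ℂ) ((χ : G → ℂ) g) := by
        apply Finset.sum_congr rfl
        intro χ _
        by_cases hk : ∀ x ∈ N, (χ : G → ℂ) x = (χ : G → ℂ) 1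
        · rw [hA χ hk y hyM hyN g hgM hgN]
        · push_neg at hk
          rw [hB χ hk]; simp
      rw [h3, h2] at h1
      by_contra hc
      have hc' : ¬ IsConj g y := hc
      rw [if_neg hc'] at h1
      have : (Nat.card (Subgroup.centralizer ({g} : Set G)) : ℂ) ≠ 0 := by
        exact_mod_cast (Nat.card_pos (α := Subgroup.centralizer ({g} : Set G))).ne'
      exact this h1

end Cfsg.Agent.S4802
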