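import Cfsg.Statements.S4808
import Cfsg.Agent.Lib_lead_DefectZero
import Cfsg.Agent.Lib_lead_Codegree
import Cfsg.Agent.Lib_lead_CharQuot
import Cfsg.Agent.Lib_helper3_CharMore

set_option autoImplicit false
open Cfsg

namespace Cfsg.Agent.S4808

open Cfsg.Agent.Lib_lead_Codegree Cfsg.Agent.Lib_lead_CharQuot Cfsg.Agent.Lib_helper3_CharBasic
  Cfsg.Agent.Lib_helper3_CharMore Cfsg.Agent.Lib_lead_DefectZero
open scoped ComplexConjugate

/-- The codegree of an irreducible complex character χ of a finite group G is [G : ker χ] / χ(1), where ker χ is the set of elements at which χ takes the value χ(1). A prime divides the order of G if and only if it divides the codegree of some irreducible complex character of G. -/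
theorem result {G : Type*} [Group G] [Finite G] (p : ℕ) (hp : p.Prime) : p ∣ Nat.card G ↔ ∃ χ : Cfsg.IrrCharacter G, p ∣ (Nat.card G / (Nat.card {g : G // (χ : G → ℂ) g = (χ : G → ℂ) 1} * Cfsg.charDegree (χ : G → ℂ))) := by
  classical
  haveI : Fintype G := Fintype.ofFinite G
  haveI : Finite (IrrCharacter G) := irr_finite
  haveI : Fintype (IrrCharacter G) := Fintype.ofFinite _
  haveI : Fact p.Prime := ⟨hp⟩
  constructor
  · intro hpG
    by_contra hno
    push_neg at hno
    obtain ⟨x, hx⟩ := exists_prime_orderOf_dvd_card' p hpG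
    have hx1 : x ≠ 1 := by
      rintro rfl
      rw [orderOf_one] at hx
      exact hp.one_lt.ne hx
    have hval : ∀ χ : IrrCharacter G,
        (χ : G → ℂ) x = (χ : G → ℂ) 1 ∨ (χ : G → ℂ) x = 0 := by
      intro χ
      by_cases hk : (χ : G → ℂ) x = (χ : G → ℂ) 1
      · left; exact hk
      · right
        have hchar := isCharacter_of_irr χ.2
        obtain ⟨c, hc1, hc2⟩ := codegree_spec χ.2
        have hpc : ¬ p ∣ c := by rw [← hc2]; exact hno χ
        obtain ⟨ψ, hψ, hψχ⟩ := irr_quotient χ.2 (charKer hchar) (fun g hg => hg)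
        obtain ⟨d, hd0, hd, hdeg⟩ := irr_natDegree χ.2
        have hcardQ : Nat.card (G ⧸ charKer hchar) = c * d := by
          have h1 : Nat.card {g : G // (χ : G → ℂ) g = (χ : G → ℂ) 1}
              = Nat.card (charKer hchar) :=
            Nat.card_congr (Equiv.subtypeEquivRight (fun g => Iff.rfl))
          have h2 := Subgroup.card_mul_index (charKer hchar)
          rw [hc1, h1, hdeg, mul_assoc] at h2
          have hKpos : 0 < Nat.card (charKer hchar) := Nat.card_pos
          have h3 := Nat.eq_of_mul_eq_mul_left hKpos h2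
          rw [← Subgroup.index_eq_card, h3, mul_comm]
        have hψ1 : ψ 1 = d := by rw [← hd]; exact hψχ 1
        have hord : p ∣ orderOf (x : G ⧸ charKer hchar) := by
          have h1 : orderOf (x : G ⧸ charKer hchar) ∣ p := by
            apply orderOf_dvd_of_pow_eq_one
            rw [← QuotientGroup.mk_pow, ← hx, pow_orderOf_eq_one]
            rfl
          rcases (Nat.dvd_prime hp).mp h1 with h | h
          · exfalso
            apply hk
            have h2 : (x : G ⧸ charKer hchar) = 1 := orderOf_eq_one_iff.mp h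
            exact (QuotientGroup.eq_one_iff x).mp h2
          · rw [h]
        have h4 := defect_zero_vanish hψ p hp d c hψ1 hcardQ hpc (x : G ⧸ charKer hchar) hord
        rw [← hψχ x]
        exact h4
    have hso := second_orthogonality (G := G) 1 x
    rw [if_neg (by rw [isConj_one_right]; exact hx1)] at hso
    have hn : ∀ χ : IrrCharacter G, ∃ n : ℕ,
        (χ : G → ℂ) x * conj ((χ : G → ℂ) 1) = n ∧
        ((χ : G → ℂ) x = (χ : G → ℂ) 1 → n ≠ 0) := by
      intro χ
      obtain ⟨d, hd0, hd, hdeg⟩ := irr_natDegree χ.2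
      rcases hval χ with h | h
      · refine ⟨d * d, ?_, fun _ => (Nat.mul_pos hd0 hd0).ne'⟩
        rw [h, hd]
        simp
      · refine ⟨0, ?_, fun h' => ?_⟩
        · rw [h]; simp
        · exfalso
          rw [h, hd] at h'
          have : (d : ℂ) ≠ 0 := by exact_mod_cast hd0.ne'
          exact this h'.symm
    choose n hn1 hn2 using hn
    rw [Finset.sum_congr rfl (fun χ _ => hn1 χ), ← Nat.cast_sum, Nat.cast_eq_zero,
      Finset.sum_eq_zero_iff] at hso
    exact hn2 ⟨fun _ => 1, isIrrCharacter_one⟩ rfl (hso _ (Finset.mem_univ _))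
  · rintro ⟨χ, hχ⟩
    obtain ⟨c, hc1, hc2⟩ := codegree_spec χ.2
    rw [hc2] at hχ
    rw [hc1]
    exact Dvd.dvd.mul_left hχ _

end Cfsg.Agent.S4808
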