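import Cfsg.Statements.S4969
import Cfsg.Agent.Lib_helper3_CharBasic
import Cfsg.Agent.Lib_helper3_CharCount

set_option autoImplicit false
open Cfsg

namespace Cfsg.Agent.S4969

/-- Let G be a finite group with k conjugacy classes, g ∈ G, and N > 0. Then the sum over the irreducible complex characters χ of G with χ(1) ≥ N of |χ(g)|/χ(1) is at most √(k · #C_G(g)) / N. -/
theorem result {G : Type*} [Group G] [Finite G] (g : G) (N : ℝ) (hN : 0 < N) :
    ∑ᶠ χ : Cfsg.IrrCharacter G, (if N ≤ ‖(χ : G → ℂ) 1‖ then ‖(χ : G → ℂ) g‖ / ‖(χ : G → ℂ) 1‖ else 0) ≤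
      Real.sqrt ((Nat.card (ConjClasses G) : ℝ) * (Nat.card ↥(Subgroup.centralizer ({g} : Set G)) : ℝ)) / N := by
  classical
  have := Fintype.ofFinite G
  have := Lib_helper3_CharBasic.irr_finite (G := G)
  have := Fintype.ofFinite (Cfsg.IrrCharacter G)
  rw [finsum_eq_sum_of_fintype]
  have hk : (Fintype.card (Cfsg.IrrCharacter G) : ℝ) = (Nat.card (ConjClasses G) : ℝ) := by
    rw [← Nat.card_eq_fintype_card, Lib_helper3_CharCount.card_irr_eq_card_conjClasses]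
  -- second orthogonality at (g, g)
  have h2 := Lib_helper3_CharBasic.second_orthogonality (G := G) g g
  rw [if_pos (IsConj.refl g)] at h2
  have hsq : ∑ χ : Cfsg.IrrCharacter G, ‖(χ : G → ℂ) g‖ ^ 2
      = (Nat.card ↥(Subgroup.centralizer ({g} : Set G)) : ℝ) := by
    have h3 : ∑ χ : Cfsg.IrrCharacter G, (χ : G → ℂ) g * (starRingEnd ℂ) ((χ : G → ℂ) g)
        = ((∑ χ : Cfsg.IrrCharacter G, ‖(χ : G → ℂ) g‖ ^ 2 : ℝ) : ℂ) := by
      rw [Complex.ofReal_sum]
      apply Finset.sum_congr rfl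
      intro χ _
      rw [Complex.mul_conj, Complex.normSq_eq_norm_sq, Complex.ofReal_pow]
    rw [h3] at h2
    exact_mod_cast h2
  have hcs : (∑ χ : Cfsg.IrrCharacter G, ‖(χ : G → ℂ) g‖) ^ 2
      ≤ (Nat.card (ConjClasses G) : ℝ) * (Nat.card ↥(Subgroup.centralizer ({g} : Set G)) : ℝ) := by
    have := sq_sum_le_card_mul_sum_sq (s := (Finset.univ : Finset (Cfsg.IrrCharacter G)))
      (f := fun χ => ‖(χ : G → ℂ) g‖)
    rw [Finset.card_univ, hk, hsq] at this
    exact this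
  have hsum_nonneg : 0 ≤ ∑ χ : Cfsg.IrrCharacter G, ‖(χ : G → ℂ) g‖ :=
    Finset.sum_nonneg (fun χ _ => norm_nonneg _)
  have hle : ∑ χ : Cfsg.IrrCharacter G, ‖(χ : G → ℂ) g‖
      ≤ Real.sqrt ((Nat.card (ConjClasses G) : ℝ)
        * (Nat.card ↥(Subgroup.centralizer ({g} : Set G)) : ℝ)) :=
    le_trans (le_abs_self _) (Real.abs_le_sqrt hcs)
  calc ∑ χ : Cfsg.IrrCharacter G,
        (if N ≤ ‖(χ : G → ℂ) 1‖ then ‖(χ : G → ℂ) g‖ / ‖(χ : G → ℂ) 1‖ else 0)
      ≤ ∑ χ : Cfsg.IrrCharacter G, ‖(χ : G → ℂ) g‖ / N := by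
        apply Finset.sum_le_sum
        intro χ _
        split_ifs with h
        · exact div_le_div_of_nonneg_left (norm_nonneg _) hN h
        · exact div_nonneg (norm_nonneg _) hN.le
    _ = (∑ χ : Cfsg.IrrCharacter G, ‖(χ : G → ℂ) g‖) / N := by rw [Finset.sum_div]
    _ ≤ _ := div_le_div_of_nonneg_right hle hN.le

end Cfsg.Agent.S4969
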