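import Cfsg.Statements.S4989
import Mathlib
import Cfsg.Agent.Lib_helper3_Galois2

set_option autoImplicit false
open Cfsg

namespace Cfsg.Agent.S4989

/-- Let H be a subgroup of the finite group G and χ an irreducible complex character of G. Then the inner product of the restriction of χ to H with itself, (1/#H)·Σ_{h ∈ H} |χ(h)|², is at most 1 + #(Z ∖ H)/#H, where Z is the set of zeros of χ in G. -/
theorem result {G : Type*} [Group G] [Finite G] (H : Subgroup G) (χ : Cfsg.IrrCharacter G) : (Nat.card ↥H : ℝ)⁻¹ * ∑ᶠ h : ↥H, ‖(χ : G → ℂ) h‖ ^ 2 ≤ 1 + (Set.ncard ({x : G | (χ : G → ℂ) x = 0} \ (H : Set G)) : ℝ) / (Nat.card ↥H : ℝ) := by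
  classical
  have := Fintype.ofFinite G
  have hχ := χ.2
  set f : G → ℂ := (χ : G → ℂ) with hf
  have hsum := Cfsg.Agent.Lib_helper3_Galois2.sum_norm_sq_irr hχ
  let S : Finset G := Finset.univ.filter (fun x => x ∉ H)
  let T : Finset G := Finset.univ.filter (fun x => x ∈ H)
  have hKL := Cfsg.Agent.Lib_helper3_Galois.card_nonzero_le_sum
    (Cfsg.Agent.Lib_helper3_CharBasic.isCharacter_of_irr hχ) S
    (fun k hk x hx => by
      simp only [S, Finset.mem_filter, Finset.mem_univ, true_and] at hx ⊢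
      intro hxk
      apply hx
      have h1 := (powCoprime hk.symm).left_inv x
      rw [← h1]
      exact H.zpow_mem hxk _) 2
  have hsplit : ∑ x : G, ‖f x‖ ^ 2 = ∑ x ∈ T, ‖f x‖ ^ 2 + ∑ x ∈ S, ‖f x‖ ^ 2 := by
    rw [← Finset.sum_filter_add_sum_filter_not Finset.univ (fun x => x ∈ H)]
  have hT : ∑ h : H, ‖f h‖ ^ 2 = ∑ x ∈ T, ‖f x‖ ^ 2 := by
    symm
    apply Finset.sum_subtype
    intro x
    simp [T]
  have hcardS : (S.filter (fun x => f x ≠ 0)).card + (S.filter (fun x => ¬ f x ≠ 0)).card = S.card :=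
    Finset.card_filter_add_card_filter_not (s := S) (fun x => f x ≠ 0)
  have hcardTS : T.card + S.card = Fintype.card G := by
    have := Finset.card_filter_add_card_filter_not (s := (Finset.univ : Finset G)) (fun x => x ∈ H)
    rw [Finset.card_univ] at this
    exact this
  have hTcard : T.card = Nat.card H := by
    rw [Nat.card_eq_fintype_card, Fintype.card_subtype]
  have hZ : Set.ncard ({x : G | f x = 0} \ (H : Set G)) = (S.filter (fun x => ¬ f x ≠ 0)).card := by
    have : ({x : G | f x = 0} \ (H : Set G)) = ((S.filter (fun x => ¬ f x ≠ 0) : Finset G) : Set G) := by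
      ext x
      simp [S]
      tauto
    rw [this, Set.ncard_coe_finset]
  rw [finsum_eq_sum_of_fintype, hT, hZ]
  have hH0 : (0 : ℝ) < (Nat.card H : ℝ) := by exact_mod_cast Nat.card_pos
  rw [inv_mul_le_iff₀ hH0, mul_add, mul_one, mul_div_cancel₀ _ hH0.ne']
  rw [hsplit, Nat.card_eq_fintype_card] at hsum
  have e1 : ((S.filter (fun x => f x ≠ 0)).card : ℝ) + ((S.filter (fun x => ¬ f x ≠ 0)).card : ℝ) =
      (S.card : ℝ) := by exact_mod_cast hcardS
  have e2 : (T.card : ℝ) + (S.card : ℝ) = (Fintype.card G : ℝ) := by exact_mod_cast hcardTS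
  have e3 : (T.card : ℝ) = (Nat.card H : ℝ) := by exact_mod_cast hTcard
  linarith
end Cfsg.Agent.S4989
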