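import Cfsg.Statements.S4996
import Cfsg.Agent.Lib_helper3_CharAvg

set_option autoImplicit false
open Cfsg

namespace Cfsg.Agent.S4996

/-- Let N be a normal subgroup of the finite group G and χ an irreducible complex character of G. Then the restriction of χ to N is not irreducible if and only if χ vanishes on some whole coset Nx of N in G. -/
theorem result {G : Type*} [Group G] [Finite G] (N : Subgroup G) [N.Normal] (χ : Cfsg.IrrCharacter G) : ¬ Cfsg.IsIrrCharacter ↥N (fun n : ↥N => (χ : G → ℂ) n) ↔ ∃ x : G, ∀ n : ↥N, (χ : G → ℂ) ((n : G) * x) = 0 := by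
  rw [Cfsg.Agent.Lib_helper3_CharAvg.restrict_irr_iff N χ.2]
  push Not
  constructor
  · rintro ⟨x, hx⟩
    refine ⟨x, fun n => ?_⟩
    have h1 : (n : G) * x = x * (x⁻¹ * (n : G) * x⁻¹⁻¹) := by group
    have h2 : x⁻¹ * (n : G) * x⁻¹⁻¹ ∈ N := ‹N.Normal›.conj_mem _ n.2 _
    rw [h1]
    exact hx ⟨_, h2⟩
  · rintro ⟨x, hx⟩
    refine ⟨x, fun n => ?_⟩
    have h1 : x * (n : G) = (x * (n : G) * x⁻¹) * x := by group
    have h2 : x * (n : G) * x⁻¹ ∈ N := ‹N.Normal›.conj_mem _ n.2 _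
    rw [h1]
    exact hx ⟨_, h2⟩
end Cfsg.Agent.S4996
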