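import Cfsg.Statements.S5011
-- import your own Cfsg.Agent.* helpers here

set_option autoImplicit false
open Cfsg

namespace Cfsg.Agent.S5011

/-- Let G be a finite non-abelian simple group and ρ an irreducible complex representation of G on a space of dimension greater than one (irreducible in the sense that the only subspaces invariant under every ρ(x) are 0 and the whole space). Then for every non-identity element g of G, the centralizer of g does not act irreducibly: there is a non-zero proper subspace invariant under ρ(c) for every c commuting with g. -/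
theorem result {G : Type*} [Group G] [Finite G] [IsSimpleGroup G]
    (hG : ¬ IsMulCommutative G) {V : Type*} [AddCommGroup V] [Module ℂ V] [FiniteDimensional ℂ V]
    (ρ : Representation ℂ G V)
    (hirr : ∀ W : Submodule ℂ V, (∀ x : G, ∀ v ∈ W, ρ x v ∈ W) → W = ⊥ ∨ W = ⊤)
    (hdim : 1 < Module.finrank ℂ V) (g : G) (hg : g ≠ 1) :
    ∃ W : Submodule ℂ V, W ≠ ⊥ ∧ W ≠ ⊤ ∧ ∀ c ∈ Subgroup.centralizer ({g} : Set G), ∀ v ∈ W, ρ c v ∈ W := by
  classical
  have hnt : Nontrivial V := Module.nontrivial_of_finrank_pos (R := ℂ) (by omega)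
  obtain ⟨μ, hμ⟩ := Module.End.exists_eigenvalue (ρ g)
  set W := Module.End.eigenspace (ρ g) μ with hW
  have hWbot : W ≠ ⊥ := hμ
  have hWinv : ∀ c ∈ Subgroup.centralizer ({g} : Set G), ∀ v ∈ W, ρ c v ∈ W := by
    intro c hc v hv
    rw [Subgroup.mem_centralizer_singleton_iff] at hc
    rw [hW, Module.End.mem_eigenspace_iff] at hv ⊢
    have h1 : ρ g (ρ c v) = ρ (g * c) v := by rw [map_mul]; rfl
    have h2 : ρ c (ρ g v) = ρ (c * g) v := by rw [map_mul]; rfl
    rw [h1, ← hc, ← h2, hv, map_smul]
  by_cases hWtop : W = ⊤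
  · -- ρ g is the scalar μ
    have hscal : ∀ v : V, ρ g v = μ • v := by
      intro v
      have : v ∈ W := by rw [hWtop]; trivial
      rwa [hW, Module.End.mem_eigenspace_iff] at this
    let Z : Subgroup G :=
      { carrier := {x | ∃ c : ℂ, ∀ v : V, ρ x v = c • v}
        one_mem' := ⟨1, fun v => by simp⟩
        mul_mem' := by
          rintro x y ⟨c, hc⟩ ⟨c', hc'⟩
          refine ⟨c' * c, fun v => ?_⟩
          rw [map_mul, Module.End.mul_apply, hc', map_smul, hc, smul_smul]
        inv_mem' := by
          rintro x ⟨c, hc⟩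
          have hc0 : c ≠ 0 := by
            rintro rfl
            obtain ⟨v, hv⟩ := exists_ne (0 : V)
            apply hv
            have : ρ x⁻¹ (ρ x v) = v := by
              rw [← Module.End.mul_apply, ← map_mul, inv_mul_cancel, map_one, Module.End.one_apply]
            rw [← this, hc, zero_smul, map_zero]
          refine ⟨c⁻¹, fun v => ?_⟩
          have h1 : ρ x⁻¹ (ρ x (ρ x⁻¹ v)) = ρ x⁻¹ v := by
            rw [← Module.End.mul_apply, ← map_mul, inv_mul_cancel, map_one, Module.End.one_apply]
          have h2 : ρ x (ρ x⁻¹ v) = v := by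
            rw [← Module.End.mul_apply, ← map_mul, mul_inv_cancel, map_one, Module.End.one_apply]
          have h3 : c • ρ x⁻¹ v = v := by rw [← hc, h2]
          rw [← h3, smul_smul, inv_mul_cancel₀ hc0, one_smul, h3] }
    have hZn : Z.Normal := by
      constructor
      rintro x ⟨c, hc⟩ y
      refine ⟨c, fun v => ?_⟩
      rw [map_mul, map_mul, Module.End.mul_apply, Module.End.mul_apply, hc, map_smul,
        ← Module.End.mul_apply, ← map_mul, mul_inv_cancel, map_one, Module.End.one_apply]
    have hgZ : g ∈ Z := ⟨μ, hscal⟩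
    have hZtop : Z = ⊤ := by
      rcases hZn.eq_bot_or_eq_top with h | h
      · exfalso
        rw [h, Subgroup.mem_bot] at hgZ
        exact hg hgZ
      · exact h
    obtain ⟨v, hv⟩ := exists_ne (0 : V)
    refine ⟨Submodule.span ℂ {v}, ?_, ?_, ?_⟩
    · intro h
      have : v ∈ Submodule.span ℂ ({v} : Set V) := Submodule.mem_span_singleton_self v
      rw [h, Submodule.mem_bot] at this
      exact hv this
    · intro h
      have h1 : Module.finrank ℂ (Submodule.span ℂ ({v} : Set V)) = 1 := finrank_span_singleton hv
      rw [h, finrank_top] at h1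
      omega
    · intro c _ w hw
      have hcZ : c ∈ Z := by rw [hZtop]; trivial
      obtain ⟨a, ha⟩ := hcZ
      rw [ha]
      exact Submodule.smul_mem _ _ hw
  · exact ⟨W, hWbot, hWtop, hWinv⟩

end Cfsg.Agent.S5011
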