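import Cfsg.Statements.S5729
import Mathlib

set_option autoImplicit false
open Cfsg

namespace Cfsg.Agent.S5729

/-- Let a finite group G act faithfully and transitively on a set with n ≥ 3 points. Then either G is a Frobenius permutation group (Frobenius as a permutation group: transitive, some non-identity element fixes a point, and no non-identity element fixes two points) of order n(n − 1) and exactly |G|/n of its elements are derangements (fix no point), or the number of derangements is greater than |G|/n. -/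
theorem result {G Ω : Type*} [Group G] [Finite G] [MulAction G Ω] [FaithfulSMul G Ω] [Fintype Ω] (htr : MulAction.IsPretransitive G Ω) (hn : 3 ≤ Fintype.card Ω) :
    ((MulAction.IsPretransitive G Ω ∧ (∃ g : G, g ≠ 1 ∧ ∃ ω : Ω, g • ω = ω) ∧ ∀ g : G, g ≠ 1 → Nat.card (MulAction.fixedBy Ω g) ≤ 1) ∧ Nat.card G = Fintype.card Ω * (Fintype.card Ω - 1) ∧ Fintype.card Ω * Nat.card {g : G // ∀ ω : Ω, g • ω ≠ ω} = Nat.card G) ∨
    Nat.card G < Fintype.card Ω * Nat.card {g : G // ∀ ω : Ω, g • ω ≠ ω} := by
  classical
  have : Fintype G := Fintype.ofFinite G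
  have hne : Nonempty Ω := Fintype.card_pos_iff.mp (by omega)
  -- Burnside on Ω
  have B1 : ∑ g : G, Fintype.card (MulAction.fixedBy Ω g) = Fintype.card G := by
    have h := MulAction.sum_card_fixedBy_eq_card_orbits_mul_card_group G Ω
    have h1 : Fintype.card (Quotient (MulAction.orbitRel G Ω)) = 1 := by
      rw [Fintype.card_eq_one_iff]
      obtain ⟨ω⟩ := hne
      refine ⟨Quotient.mk'' ω, ?_⟩
      intro y
      induction y using Quotient.inductionOn' with
      | _ y =>
        apply Quotient.sound'
        exact MulAction.exists_smul_eq G ω y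
    rw [h, h1, one_mul]
  -- Burnside on Ω × Ω
  have B2 : ∃ r : ℕ, 2 ≤ r ∧
      ∑ g : G, Fintype.card (MulAction.fixedBy Ω g) ^ 2 = r * Fintype.card G := by
    refine ⟨Fintype.card (Quotient (MulAction.orbitRel G (Ω × Ω))), ?_, ?_⟩
    · obtain ⟨x, y, hxy⟩ := Fintype.exists_pair_of_one_lt_card (by omega : 1 < Fintype.card Ω)
      apply Fintype.one_lt_card_iff.mpr
      refine ⟨Quotient.mk'' (x, x), Quotient.mk'' (x, y), ?_⟩
      intro h
      have h' := Quotient.exact' h
      obtain ⟨g, hg⟩ := h'
      have h1 : g • x = x := congrArg Prod.fst hg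
      have h2 : g • y = x := congrArg Prod.snd hg
      exact hxy (MulAction.injective g (h1.trans h2.symm))
    · rw [← MulAction.sum_card_fixedBy_eq_card_orbits_mul_card_group G (Ω × Ω)]
      apply Finset.sum_congr rfl
      intro g _
      rw [sq, ← Fintype.card_prod]
      apply Fintype.card_congr
      exact
        { toFun := fun p => ⟨(p.1.1, p.2.1), by
            show g • (p.1.1, p.2.1) = (p.1.1, p.2.1)
            rw [Prod.smul_mk, p.1.2, p.2.2]⟩
          invFun := fun p => (⟨p.1.1, congrArg Prod.fst p.2⟩, ⟨p.1.2, congrArg Prod.snd p.2⟩)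
          left_inv := fun p => rfl
          right_inv := fun p => rfl }
  obtain ⟨r, hr, B2⟩ := B2
  have hφ_le : ∀ g : G, Fintype.card (MulAction.fixedBy Ω g) ≤ Fintype.card Ω :=
    fun g => set_fintype_card_le_univ _
  have hφ0 : ∀ g : G, Fintype.card (MulAction.fixedBy Ω g) = 0 ↔ ∀ ω : Ω, g • ω ≠ ω := by
    intro g
    rw [Fintype.card_eq_zero_iff]
    constructor
    · intro h ω hω; exact h.false ⟨ω, hω⟩
    · intro h; exact ⟨fun ⟨ω, hω⟩ => h ω hω⟩
  have hφn : ∀ g : G, Fintype.card (MulAction.fixedBy Ω g) = Fintype.card Ω → g = 1 := by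
    intro g hg
    apply FaithfulSMul.eq_of_smul_eq_smul (α := Ω)
    intro ω
    rw [one_smul]
    have h1 : (MulAction.fixedBy Ω g).toFinset = Finset.univ := by
      apply Finset.eq_univ_of_card
      rw [Set.toFinset_card, hg]
    have h2 : ω ∈ (MulAction.fixedBy Ω g).toFinset := by rw [h1]; exact Finset.mem_univ _
    have h3 : ω ∈ MulAction.fixedBy Ω g := by simpa using h2
    exact h3
  have hφ1 : Fintype.card (MulAction.fixedBy Ω (1 : G)) = Fintype.card Ω := by
    have : (MulAction.fixedBy Ω (1 : G)) = Set.univ := by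
      ext ω; simp
    rw [Fintype.card_congr (Equiv.setCongr this), Fintype.card_congr (Equiv.Set.univ Ω)]
  -- the derangements
  have hD : Nat.card {g : G // ∀ ω : Ω, g • ω ≠ ω} =
      (Finset.univ.filter (fun g : G => ∀ ω : Ω, g • ω ≠ ω)).card := by
    rw [Nat.card_eq_fintype_card, Fintype.card_subtype]
  rw [hD, Nat.card_eq_fintype_card]
  -- integer computation
  have key1 : ∑ g : G, ((Fintype.card (MulAction.fixedBy Ω g) : ℤ) - 1) *
      ((Fintype.card (MulAction.fixedBy Ω g) : ℤ) - Fintype.card Ω) =
      ((r : ℤ) - 1) * Fintype.card G := by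
    have e : ∀ g : G, ((Fintype.card (MulAction.fixedBy Ω g) : ℤ) - 1) *
        ((Fintype.card (MulAction.fixedBy Ω g) : ℤ) - Fintype.card Ω) =
        ((Fintype.card (MulAction.fixedBy Ω g) ^ 2 : ℕ) : ℤ) -
        ((Fintype.card Ω : ℤ) + 1) * ((Fintype.card (MulAction.fixedBy Ω g) : ℕ) : ℤ) +
        (Fintype.card Ω : ℤ) := by
      intro g; push_cast; ring
    simp_rw [e]
    rw [Finset.sum_add_distrib, Finset.sum_sub_distrib, ← Finset.mul_sum, ← Nat.cast_sum,
      ← Nat.cast_sum, B1, B2, Finset.sum_const, Finset.card_univ]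
    push_cast
    simp only [nsmul_eq_mul]
    ring
  have key2 : ∀ g : G, ((Fintype.card (MulAction.fixedBy Ω g) : ℤ) - 1) *
      ((Fintype.card (MulAction.fixedBy Ω g) : ℤ) - Fintype.card Ω) ≤
      (if (∀ ω : Ω, g • ω ≠ ω) then (Fintype.card Ω : ℤ) else 0) := by
    intro g
    split_ifs with hg
    · rw [(hφ0 g).mpr hg]; simp
    · have h1 : 1 ≤ Fintype.card (MulAction.fixedBy Ω g) := by
        rcases Nat.eq_zero_or_pos (Fintype.card (MulAction.fixedBy Ω g)) with h | h
        · exact absurd ((hφ0 g).mp h) hg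
        · exact h
      apply mul_nonpos_of_nonneg_of_nonpos
      · have : (1 : ℤ) ≤ Fintype.card (MulAction.fixedBy Ω g) := by exact_mod_cast h1
        linarith
      · have : (Fintype.card (MulAction.fixedBy Ω g) : ℤ) ≤ Fintype.card Ω := by
          exact_mod_cast hφ_le g
        linarith
  have key3 : ∑ g : G, (if (∀ ω : Ω, g • ω ≠ ω) then (Fintype.card Ω : ℤ) else 0) =
      (Fintype.card Ω : ℤ) * (Finset.univ.filter (fun g : G => ∀ ω : Ω, g • ω ≠ ω)).card := by
    rw [Finset.sum_ite, Finset.sum_const, Finset.sum_const_zero, add_zero, nsmul_eq_mul, mul_comm]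
  have key4 : ((r : ℤ) - 1) * Fintype.card G ≤
      (Fintype.card Ω : ℤ) * (Finset.univ.filter (fun g : G => ∀ ω : Ω, g • ω ≠ ω)).card := by
    rw [← key1, ← key3]
    exact Finset.sum_le_sum (fun g _ => key2 g)
  have hGpos : (0 : ℤ) < Fintype.card G := by exact_mod_cast Fintype.card_pos
  have key5 : (Fintype.card G : ℤ) ≤
      (Fintype.card Ω : ℤ) * (Finset.univ.filter (fun g : G => ∀ ω : Ω, g • ω ≠ ω)).card := by
    have h2 : (2 : ℤ) ≤ r := by exact_mod_cast hr
    nlinarith
  by_cases hlt : Fintype.card G <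
      Fintype.card Ω * (Finset.univ.filter (fun g : G => ∀ ω : Ω, g • ω ≠ ω)).card
  · right; exact hlt
  · left
    have heq : Fintype.card Ω * (Finset.univ.filter (fun g : G => ∀ ω : Ω, g • ω ≠ ω)).card =
        Fintype.card G := by
      have : Fintype.card G ≤
          Fintype.card Ω * (Finset.univ.filter (fun g : G => ∀ ω : Ω, g • ω ≠ ω)).card := by
        exact_mod_cast key5
      omega
    have heqZ : (Fintype.card Ω : ℤ) * (Finset.univ.filter (fun g : G => ∀ ω : Ω, g • ω ≠ ω)).card =
        Fintype.card G := by exact_mod_cast heq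
    -- all terms vanish
    have hterm : ∀ g : G, ((Fintype.card (MulAction.fixedBy Ω g) : ℤ) - 1) *
        ((Fintype.card (MulAction.fixedBy Ω g) : ℤ) - Fintype.card Ω) =
        (if (∀ ω : Ω, g • ω ≠ ω) then (Fintype.card Ω : ℤ) else 0) := by
      have hsum : ∑ g : G, ((if (∀ ω : Ω, g • ω ≠ ω) then (Fintype.card Ω : ℤ) else 0) -
          ((Fintype.card (MulAction.fixedBy Ω g) : ℤ) - 1) *
          ((Fintype.card (MulAction.fixedBy Ω g) : ℤ) - Fintype.card Ω)) = 0 := by
        apply le_antisymm
        · rw [Finset.sum_sub_distrib, key3, key1, heqZ]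
          have h2 : (2 : ℤ) ≤ r := by exact_mod_cast hr
          nlinarith
        · exact Finset.sum_nonneg (fun g _ => sub_nonneg.mpr (key2 g))
      have h0 := (Finset.sum_eq_zero_iff_of_nonneg (fun g _ => sub_nonneg.mpr (key2 g))).mp hsum
      intro g
      have := h0 g (Finset.mem_univ g)
      linarith
    have hfix1 : ∀ g : G, g ≠ 1 → (¬ ∀ ω : Ω, g • ω ≠ ω) →
        Fintype.card (MulAction.fixedBy Ω g) = 1 := by
      intro g hg1 hgD
      have h1 := hterm g
      rw [if_neg hgD] at h1
      rcases mul_eq_zero.mp h1 with h | h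
      · have : (Fintype.card (MulAction.fixedBy Ω g) : ℤ) = 1 := by linarith
        exact_mod_cast this
      · have : (Fintype.card (MulAction.fixedBy Ω g) : ℤ) = Fintype.card Ω := by linarith
        exact absurd (hφn g (by exact_mod_cast this)) hg1
    -- count: |G| = n + #(non-identity non-derangements)
    have hcount : Fintype.card G + 1 + (Finset.univ.filter (fun g : G => ∀ ω : Ω, g • ω ≠ ω)).card =
        Fintype.card Ω + Fintype.card G := by
      have e' : ∀ g : G, Fintype.card (MulAction.fixedBy Ω g) + (if g = 1 then 1 else 0) +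
          (if (∀ ω : Ω, g • ω ≠ ω) then 1 else 0) =
          (if g = 1 then Fintype.card Ω else 0) + 1 := by
        intro g
        by_cases hg1 : g = 1
        · subst hg1
          have hnD : ¬ ∀ ω : Ω, (1 : G) • ω ≠ ω := by
            intro h
            obtain ⟨ω⟩ := hne
            exact h ω (one_smul _ _)
          rw [if_pos rfl, if_neg hnD, if_pos rfl, hφ1]
        · by_cases hgD : ∀ ω : Ω, g • ω ≠ ω
          · rw [if_neg hg1, if_pos hgD, if_neg hg1, (hφ0 g).mpr hgD]
          · rw [if_neg hg1, if_neg hgD, if_neg hg1, hfix1 g hg1 hgD]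
      have hs := Finset.sum_congr (rfl : (Finset.univ : Finset G) = Finset.univ) (fun g _ => e' g)
      rw [Finset.sum_add_distrib, Finset.sum_add_distrib, Finset.sum_add_distrib, B1] at hs
      simp only [Finset.sum_ite_eq', Finset.mem_univ, if_true, Finset.sum_boole, Finset.sum_const,
        Finset.card_univ, smul_eq_mul, mul_one] at hs
      simp only [Nat.cast_id] at hs
      omega
    have hDcard : (Finset.univ.filter (fun g : G => ∀ ω : Ω, g • ω ≠ ω)).card + 1 =
        Fintype.card Ω := by omega
    have hG : Fintype.card G = Fintype.card Ω * (Fintype.card Ω - 1) := by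
      rw [← heq, ← hDcard]; simp
    refine ⟨⟨htr, ?_, ?_⟩, hG, heq⟩
    · -- a non-identity element with a fixed point
      by_contra hcon
      push Not at hcon
      -- then every non-identity element is a derangement
      have hsub : (Finset.univ.filter (fun g : G => g ≠ 1)) ⊆
          (Finset.univ.filter (fun g : G => ∀ ω : Ω, g • ω ≠ ω)) := by
        intro g hg
        rw [Finset.mem_filter] at hg ⊢
        exact ⟨Finset.mem_univ _, hcon g hg.2⟩
      have hc := Finset.card_le_card hsub
      have hc2 : (Finset.univ.filter (fun g : G => g ≠ 1)).card = Fintype.card G - 1 := by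
        rw [Finset.filter_ne' Finset.univ (1 : G), Finset.card_erase_of_mem (Finset.mem_univ _),
          Finset.card_univ]
      rw [hc2, hG] at hc
      have h3 : 3 ≤ Fintype.card Ω := hn
      have h4 : Fintype.card Ω * (Fintype.card Ω - 1) ≥ 3 * (Fintype.card Ω - 1) :=
        Nat.mul_le_mul_right _ h3
      omega
    · intro g hg1
      rw [Nat.card_eq_fintype_card]
      by_cases hgD : ∀ ω : Ω, g • ω ≠ ω
      · rw [(hφ0 g).mpr hgD]; omega
      · rw [hfix1 g hg1 hgD]

end Cfsg.Agent.S5729
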