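import Cfsg.Statements.S5738
import Mathlib

set_option autoImplicit false
open Cfsg

namespace Cfsg.Agent.S5738

/-- Let F ⊆ K be finite fields with |F| = q and [K : F] = n ≥ 2, so |K| = q^n. Regard K as an n-dimensional F-vector space; the multiplications by non-zero elements of K form a cyclic subgroup of GL_F(K) of order q^n − 1 acting regularly on the non-zero vectors (a Singer group). Its normaliser in GL_F(K) has order n·(q^n − 1). -/
theorem result {F K : Type*} [Field F] [Fintype F] [Field K] [Fintype K] [Algebra F K] (n : ℕ) (hn : 2 ≤ n) (hdim : Module.finrank F K = n) :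
    Nat.card (Subgroup.normalizer (((Units.map ((Algebra.lmul F K : K →ₐ[F] Module.End F K) : K →* Module.End F K)).range : Subgroup (Module.End F K)ˣ) : Set (Module.End F K)ˣ)) = n * (Fintype.card K - 1) := by
--PROOF
  classical
  obtain ⟨u, hu⟩ : ∃ u : Kˣ →* (Module.End F K)ˣ, u = Units.map
      ((Algebra.lmul F K : K →ₐ[F] Module.End F K) : K →* Module.End F K) := ⟨_, rfl⟩
  rw [← hu]
  have hu_val : ∀ (a : Kˣ) (x : K), (u a).val x = a.val * x := by
    intro a x
    rw [hu]
    rfl
  obtain ⟨s, hs⟩ : ∃ s : (K ≃ₐ[F] K) → (Module.End F K)ˣ, ∀ σ,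
      s σ = LinearMap.GeneralLinearGroup.ofLinearEquiv σ.toLinearEquiv := ⟨_, fun _ => rfl⟩
  have hs_val : ∀ (σ : K ≃ₐ[F] K) (x : K), (s σ).val x = σ x := by
    intro σ x
    rw [hs]
    rfl
  have hkey : ∀ (σ : K ≃ₐ[F] K) (b : Kˣ), s σ * u b = u (Units.map (σ : K →* K) b) * s σ := by
    intro σ b
    apply Units.ext
    apply LinearMap.ext
    intro x
    show (s σ).val ((u b).val x) = (u (Units.map (σ : K →* K) b)).val ((s σ).val x)
    rw [hu_val, hu_val, hs_val, hs_val, map_mul]
    rfl
  have hsN : ∀ σ : K ≃ₐ[F] K, s σ ∈ Subgroup.normalizer ((u.range : Subgroup (Module.End F K)ˣ) :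
      Set (Module.End F K)ˣ) := by
    intro σ
    rw [Subgroup.mem_set_normalizer_iff]
    intro h
    constructor
    · rintro ⟨b, rfl⟩
      refine ⟨Units.map (σ : K →* K) b, ?_⟩
      rw [hkey, mul_inv_cancel_right]
    · rintro ⟨c, hc⟩
      refine ⟨Units.map (σ.symm : K →* K) c, ?_⟩
      have h1 := hkey σ (Units.map (σ.symm : K →* K) c)
      have h2 : Units.map (σ : K →* K) (Units.map (σ.symm : K →* K) c) = c := by
        apply Units.ext
        show σ (σ.symm c.val) = c.val
        exact σ.apply_symm_apply _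
      rw [h2] at h1
      have h3 : u c * s σ = s σ * h := by
        rw [hc, inv_mul_cancel_right]
      rw [h3] at h1
      exact mul_left_cancel h1
  have huN : ∀ a : Kˣ, u a ∈ Subgroup.normalizer ((u.range : Subgroup (Module.End F K)ˣ) :
      Set (Module.End F K)ˣ) := fun a => Subgroup.le_normalizer ⟨a, rfl⟩
  have hinj : Function.Injective (fun p : Kˣ × (K ≃ₐ[F] K) =>
      (⟨u p.1 * s p.2, mul_mem (huN p.1) (hsN p.2)⟩ : Subgroup.normalizer
        ((u.range : Subgroup (Module.End F K)ˣ) : Set (Module.End F K)ˣ))) := by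
    rintro ⟨a, σ⟩ ⟨a', σ'⟩ h
    have h0 : u a * s σ = u a' * s σ' := congrArg Subtype.val h
    have h1 := congrArg (fun g : (Module.End F K)ˣ => g.val 1) h0
    have h2 : a = a' := by
      apply Units.ext
      have h3 : (u a).val ((s σ).val 1) = (u a').val ((s σ').val 1) := h1
      rw [hu_val, hu_val, hs_val, hs_val, map_one, map_one, mul_one, mul_one] at h3
      exact h3
    subst h2
    have h4 : s σ = s σ' := mul_left_cancel h0
    have h5 : σ = σ' := by
      apply AlgEquiv.ext
      intro x
      have h6 := congrArg (fun g : (Module.End F K)ˣ => g.val x) h4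
      simp only [hs_val] at h6
      exact h6
    rw [h5]
  have hsurj : Function.Surjective (fun p : Kˣ × (K ≃ₐ[F] K) =>
      (⟨u p.1 * s p.2, mul_mem (huN p.1) (hsN p.2)⟩ : Subgroup.normalizer
        ((u.range : Subgroup (Module.End F K)ˣ) : Set (Module.End F K)ˣ))) := by
    rintro ⟨g, hg⟩
    have hginv : ∀ x, g.inv (g.val x) = x := by
      intro x
      have h1 : (g.inv * g.val) x = x := by rw [g.inv_val]; rfl
      exact h1
    have hv : g.val 1 ≠ 0 := by
      intro h0
      have h1 := hginv 1
      rw [h0, map_zero] at h1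
      exact zero_ne_one h1
    obtain ⟨h, hh⟩ : ∃ h : (Module.End F K)ˣ, h = (u (Units.mk0 (g.val 1) hv))⁻¹ * g := ⟨_, rfl⟩
    have hhN : h ∈ Subgroup.normalizer ((u.range : Subgroup (Module.End F K)ˣ) :
        Set (Module.End F K)ˣ) := by
      rw [hh]
      exact mul_mem (inv_mem (huN _)) hg
    have hh1 : h.val 1 = 1 := by
      rw [hh, ← map_inv]
      show (u (Units.mk0 (g.val 1) hv)⁻¹).val (g.val 1) = 1
      rw [hu_val]
      show (g.val 1)⁻¹ * g.val 1 = 1
      exact inv_mul_cancel₀ hv
    have hmulu : ∀ (b : Kˣ) (x : K), h.val (b.val * x) = h.val b.val * h.val x := by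
      intro b x
      obtain ⟨c, hc⟩ := (Subgroup.mem_set_normalizer_iff.1 hhN (u b)).1 ⟨b, rfl⟩
      have h1 : u c * h = h * u b := by rw [hc, inv_mul_cancel_right]
      have h2 : ∀ y, c.val * h.val y = h.val (b.val * y) := by
        intro y
        have h3 := congrArg (fun g : (Module.End F K)ˣ => g.val y) h1
        have h4 : (u c).val (h.val y) = h.val ((u b).val y) := h3
        rw [hu_val, hu_val] at h4
        exact h4
      have h5 := h2 1
      rw [hh1, mul_one, mul_one] at h5
      rw [← h2, h5]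
    have hmul : ∀ b x : K, h.val (b * x) = h.val b * h.val x := by
      intro b x
      by_cases hb : b = 0
      · rw [hb, zero_mul, map_zero, zero_mul]
      · exact hmulu (Units.mk0 b hb) x
    refine ⟨(Units.mk0 (g.val 1) hv, AlgEquiv.ofLinearEquiv
      (LinearMap.GeneralLinearGroup.toLinearEquiv h) hh1 hmul), ?_⟩
    apply Subtype.ext
    show u (Units.mk0 (g.val 1) hv) * s _ = g
    have h6 : s (AlgEquiv.ofLinearEquiv (LinearMap.GeneralLinearGroup.toLinearEquiv h) hh1 hmul)
        = h := by
      apply Units.ext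
      apply LinearMap.ext
      intro x
      rw [hs_val]
      rfl
    rw [h6, hh, mul_inv_cancel_left]
  rw [← Nat.card_congr (Equiv.ofBijective _ ⟨hinj, hsurj⟩), Nat.card_prod, Nat.card_units,
    IsGalois.card_aut_eq_finrank, hdim, Nat.card_eq_fintype_card, mul_comm]

end Cfsg.Agent.S5738
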