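import Cfsg.Statements.S5739
import Mathlib

set_option autoImplicit false
open Cfsg

namespace Cfsg.Agent.S5739

theorem key {F K : Type*} [Field F] [Fintype F] [Field K] [Fintype K] [Algebra F K] (n : ℕ)
    (hdim : Module.finrank F K = n) (g : (Module.End F K)ˣ)
    (φ : Kˣ →* (Module.End F K)ˣ)
    (hφ : ∀ x : Kˣ, ((φ x : (Module.End F K)ˣ) : Module.End F K) = Algebra.lmul F K (x : K))
    (hg : φ.range.map (MulAut.conj g).toMonoidHom ≠ φ.range) :
    ∃ r : ℕ, 1 ≤ r ∧ r ∣ n ∧ r < n ∧
      Nat.card ↥(φ.range.map (MulAut.conj g).toMonoidHom ⊓ φ.range) ∣ Fintype.card F ^ r - 1 := by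
  classical
  haveI : Finite (Module.End F K) :=
    Finite.of_injective (fun f : Module.End F K => (f : K → K)) DFunLike.coe_injective
  have hlinj : ∀ x y : K, Algebra.lmul F K x = Algebra.lmul F K y → x = y := by
    intro x y h1
    have h2 := congrArg (fun f : Module.End F K => f 1) h1
    simpa using h2
  have hφinj : Function.Injective φ := by
    intro x y hxy
    have h1 := hφ x
    rw [hxy, hφ y] at h1
    exact Units.ext (hlinj _ _ h1).symm
  set M := φ.range with hM
  set gM := M.map (MulAut.conj g).toMonoidHom with hgM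
  have hmem : ∀ d, d ∈ gM ↔ ∃ y : Kˣ, g * φ y * g⁻¹ = d := by
    intro d; constructor
    · rintro ⟨m, ⟨y, rfl⟩, rfl⟩; exact ⟨y, rfl⟩
    · rintro ⟨y, rfl⟩; exact ⟨φ y, ⟨y, rfl⟩, rfl⟩
  let L : Submodule F K :=
    { carrier := {x | ∃ y : K, Algebra.lmul F K x = (g : Module.End F K) * Algebra.lmul F K y
          * ((g⁻¹ : (Module.End F K)ˣ) : Module.End F K)}
      add_mem' := by
        rintro a b ⟨y, hy⟩ ⟨y', hy'⟩
        exact ⟨y + y', by rw [map_add, map_add, hy, hy', mul_add, add_mul]⟩
      zero_mem' := ⟨0, by simp⟩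
      smul_mem' := by
        rintro c a ⟨y, hy⟩
        exact ⟨c • y, by rw [map_smul, map_smul, hy, mul_smul_comm, smul_mul_assoc]⟩ }
  have hLmem : ∀ x : K, x ∈ L ↔ ∃ y : K, Algebra.lmul F K x = (g : Module.End F K)
      * Algebra.lmul F K y * ((g⁻¹ : (Module.End F K)ˣ) : Module.End F K) := fun x => Iff.rfl
  set U := gM.comap φ with hU
  have hUL : ∀ x : Kˣ, x ∈ U ↔ (x : K) ∈ L := by
    intro x
    rw [hU, Subgroup.mem_comap, hmem, hLmem]
    constructor
    · rintro ⟨y, hy⟩
      refine ⟨(y : K), ?_⟩
      have := congrArg (fun u : (Module.End F K)ˣ => (u : Module.End F K)) hy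
      simp only [Units.val_mul, hφ] at this
      exact this.symm
    · rintro ⟨y, hy⟩
      have hy0 : y ≠ 0 := by
        rintro rfl
        rw [map_zero, mul_zero, zero_mul] at hy
        have := hlinj _ _ (hy.trans (map_zero _).symm)
        exact x.ne_zero this
      refine ⟨Units.mk0 y hy0, ?_⟩
      apply Units.ext
      simp only [Units.val_mul, hφ, Units.val_mk0]
      exact hy.symm
  have hD : Nat.card ↥(gM ⊓ M) = Nat.card U := by
    have : gM ⊓ M = U.map φ := by
      rw [hU, Subgroup.map_comap_eq, inf_comm]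
    rw [this]
    exact Nat.card_congr (U.equivMapOfInjective φ hφinj).symm.toEquiv
  have hLcard : Nat.card L = Nat.card U + 1 := by
    rw [← Finite.card_option]
    apply Nat.card_congr
    refine ⟨fun x => if h : (x : K) = 0 then none else some ⟨Units.mk0 (x : K) h, (hUL _).2 x.2⟩,
      fun o => match o with
        | none => 0
        | some u => ⟨(u : Kˣ), (hUL _).1 u.2⟩, ?_, ?_⟩
    · intro x
      by_cases h : (x : K) = 0
      · simp only [h, dite_true]; exact Subtype.ext h.symm
      · simp only [h, dite_false]; rfl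
    · rintro (_ | u)
      · simp
      · have : ((u : Kˣ) : K) ≠ 0 := Units.ne_zero _
        simp only [this, dite_false]
        congr 1
        apply Subtype.ext
        apply Units.ext
        rfl
  have hLpow : Nat.card L = Fintype.card F ^ Module.finrank F L := by
    rw [Module.natCard_eq_pow_finrank (K := F), Nat.card_eq_fintype_card]
  set r := Module.finrank F L with hr
  have hq : 2 ≤ Fintype.card F := Fintype.one_lt_card
  have hUcard : Nat.card U = Fintype.card F ^ r - 1 := by omega
  have hKcard : Nat.card Kˣ = Fintype.card F ^ n - 1 := by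
    rw [Nat.card_units, ← hdim, Module.natCard_eq_pow_finrank (K := F) (V := K),
      Nat.card_eq_fintype_card]
  refine ⟨r, ?_, ?_, ?_, ?_⟩
  · have h1 : (1 : K) ∈ L := ⟨1, by rw [map_one, mul_one, Units.mul_inv]⟩
    have : Nontrivial L := ⟨⟨⟨1, h1⟩, 0, fun h => one_ne_zero (congrArg Subtype.val h)⟩⟩
    exact Module.finrank_pos
  · have h1 : Nat.card U ∣ Nat.card Kˣ := Subgroup.card_subgroup_dvd_card U
    rw [hUcard, hKcard] at h1
    have h2 := Nat.pow_sub_one_gcd_pow_sub_one (Fintype.card F) r n
    rw [Nat.gcd_eq_left h1] at h2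
    have h3 : Fintype.card F ^ r = Fintype.card F ^ Nat.gcd r n := by
      have := Nat.one_le_pow r _ (by omega : 0 < Fintype.card F)
      have := Nat.one_le_pow (Nat.gcd r n) _ (by omega : 0 < Fintype.card F)
      omega
    have h4 : r = Nat.gcd r n := Nat.pow_right_injective hq h3
    rw [h4]
    exact Nat.gcd_dvd_right r n
  · by_contra hge
    have hle : r ≤ n := by rw [← hdim]; exact Submodule.finrank_le L
    have hrn : r = n := by omega
    have hLtop : L = ⊤ := Submodule.eq_top_of_finrank_eq (hrn.trans hdim.symm)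
    apply hg
    have hle' : M ≤ gM := by
      rintro _ ⟨x, rfl⟩
      have : x ∈ U := (hUL x).2 (by rw [hLtop]; trivial)
      exact this
    symm
    apply Subgroup.eq_of_le_of_card_ge hle'
    exact (Subgroup.card_map_of_injective (MulAut.conj g).injective).le
  · rw [hD, hUcard]

/-- Let F ⊆ K be finite fields with |F| = q and [K : F] = n ≥ 2, and let M ≤ GL_F(K) be the Singer group of multiplications by non-zero elements of K. If g ∈ GL_F(K) does not normalise M, then the order of M ∩ gMg⁻¹ divides q^r − 1 for some proper divisor r of n. In particular, when n is prime, that order divides q − 1. -/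
theorem result {F K : Type*} [Field F] [Fintype F] [Field K] [Fintype K] [Algebra F K] (n : ℕ) (hn : 2 ≤ n) (hdim : Module.finrank F K = n)
    (g : (Module.End F K)ˣ) (hg : ((Units.map ((Algebra.lmul F K : K →ₐ[F] Module.End F K) : K →* Module.End F K)).range).map (MulAut.conj g).toMonoidHom ≠ (Units.map ((Algebra.lmul F K : K →ₐ[F] Module.End F K) : K →* Module.End F K)).range) :
    ∃ r : ℕ, 1 ≤ r ∧ r ∣ n ∧ r < n ∧ Nat.card ↥(((Units.map ((Algebra.lmul F K : K →ₐ[F] Module.End F K) : K →* Module.End F K)).range).map (MulAut.conj g).toMonoidHom ⊓ (Units.map ((Algebra.lmul F K : K →ₐ[F] Module.End F K) : K →* Module.End F K)).range) ∣ Fintype.card F ^ r - 1 := by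
  have := key n hdim g (Units.map ((Algebra.lmul F K : K →ₐ[F] Module.End F K) : K →* Module.End F K))
    (fun x => rfl) hg
  exact this

end Cfsg.Agent.S5739
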