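import Cfsg.Statements.S5747
import Mathlib

set_option autoImplicit false
open Cfsg

namespace Cfsg.Agent.S5747

universe u v

def IB (G : Type u) {Ω : Type v} [Group G] [MulAction G Ω] (t : ℕ) (f : Fin t → Ω) : Prop :=
  (∀ g : G, (∀ i : Fin t, g • f i = f i) → g = 1) ∧
    ∀ i : Fin t, ∃ g : G, (∀ j : Fin t, j < i → g • f j = f j) ∧ g • f i ≠ f i

theorem IS {G : Type u} {Ω : Type v} [Group G] [MulAction G Ω] (t : ℕ) (f : Fin t → Ω)
    (hbase : ∀ g : G, (∀ i, g • f i = f i) → g = 1) :
    ∃ (s : ℕ) (C : Fin s → Ω), IB G s C ∧ (∀ j, ∃ i, C j = f i) ∧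
      (∀ i, (∃ g : G, (∀ j, j < i → g • f j = f j) ∧ g • f i ≠ f i) → ∃ j, C j = f i) ∧
      (s = t → IB G t f) := by
  classical
  obtain ⟨S, hmem⟩ : ∃ S : Finset (Fin t), ∀ i, i ∈ S ↔
      ∃ g : G, (∀ j, j < i → g • f j = f j) ∧ g • f i ≠ f i :=
    ⟨Finset.univ.filter (fun i => ∃ g : G, (∀ j, j < i → g • f j = f j) ∧ g • f i ≠ f i),
      fun i => by simp⟩
  have hrange : Set.range (S.orderEmbOfFin rfl) = S := Finset.range_orderEmbOfFin S rfl
  refine ⟨S.card, f ∘ (S.orderEmbOfFin rfl), ⟨?_, ?_⟩, ?_, ?_, ?_⟩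
  · intro g hg
    apply hbase
    have : ∀ (m : ℕ) (i : Fin t), i.1 = m → g • f i = f i := by
      intro m
      induction m using Nat.strong_induction_on with
      | _ m ih =>
        intro i him
        by_cases hi : i ∈ S
        · have hi' : i ∈ Set.range (S.orderEmbOfFin rfl) := by
            rw [hrange]
            exact hi
          obtain ⟨j, hj⟩ := hi'
          rw [← hj]
          exact hg j
        · by_contra hne
          exact hi ((hmem i).2 ⟨g, fun j hj => ih j.1 (by rw [← him]; exact hj) j rfl, hne⟩)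
    exact fun i => this i.1 i rfl
  · intro i
    obtain ⟨g, hg1, hg2⟩ := (hmem (S.orderEmbOfFin rfl i)).1 (Finset.orderEmbOfFin_mem S rfl i)
    exact ⟨g, fun j hj => hg1 (S.orderEmbOfFin rfl j) ((S.orderEmbOfFin rfl).lt_iff_lt.2 hj), hg2⟩
  · intro j
    exact ⟨S.orderEmbOfFin rfl j, rfl⟩
  · intro i hi
    have hi' : i ∈ Set.range (S.orderEmbOfFin rfl) := by
      rw [hrange]
      exact (hmem i).2 hi
    obtain ⟨j, hj⟩ := hi'
    exact ⟨j, by rw [Function.comp_apply, hj]⟩
  · intro hst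
    refine ⟨hbase, fun i => (hmem i).1 ?_⟩
    have : S = Finset.univ := by
      rw [← Finset.card_eq_iff_eq_univ, Fintype.card_fin]
      exact hst
    rw [this]
    exact Finset.mem_univ i

theorem IB_cons {G : Type u} {Ω : Type v} [Group G] [MulAction G Ω] (a : Ω)
    (hmove : ∃ g : G, g • a ≠ a) (r : ℕ) (c : Fin r → Ω)
    (hc : IB (MulAction.stabilizer G a) r c) : IB G (r + 1) (Fin.cons a c) := by
  refine ⟨?_, ?_⟩
  · intro g hg
    have ha : g ∈ MulAction.stabilizer G a := by
      have := hg 0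
      simpa using this
    have := hc.1 ⟨g, ha⟩ (fun i => by
      have := hg i.succ
      rw [Fin.cons_succ] at this
      exact this)
    exact congrArg Subtype.val this
  · intro i
    refine Fin.cases ?_ (fun i' => ?_) i
    · obtain ⟨g, hg⟩ := hmove
      exact ⟨g, fun j hj => absurd hj (Fin.not_lt_zero j), by simpa using hg⟩
    · obtain ⟨h, hh1, hh2⟩ := hc.2 i'
      refine ⟨h.1, fun j => ?_, ?_⟩
      · refine Fin.cases ?_ (fun j' => ?_) j
        · intro _
          rw [Fin.cons_zero]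
          exact h.2
        · intro hj
          rw [Fin.cons_succ]
          exact hh1 j' (Fin.succ_lt_succ_iff.1 hj)
      · rw [Fin.cons_succ]
        exact hh2

theorem IB_tail {G : Type u} {Ω : Type v} [Group G] [MulAction G Ω] (r : ℕ)
    (f : Fin (r + 1) → Ω) (hf : IB G (r + 1) f) (a : Ω) (ha : f 0 = a) :
    IB (MulAction.stabilizer G a) r (Fin.tail f) := by
  subst ha
  refine ⟨?_, ?_⟩
  · intro h hh
    have : (h : G) = 1 := hf.1 h.1 (fun i => by
      refine Fin.cases ?_ (fun i' => ?_) i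
      · exact h.2
      · exact hh i')
    exact Subtype.ext this
  · intro i
    obtain ⟨g, hg1, hg2⟩ := hf.2 i.succ
    exact ⟨⟨g, hg1 0 (Fin.succ_pos i)⟩, fun j hj => hg1 j.succ (Fin.succ_lt_succ_iff.2 hj), hg2⟩

theorem B_stab {G : Type u} {Ω : Type v} [Group G] [MulAction G Ω]
    (hB : ∀ (t : ℕ) (f : Fin t → Ω) (σ : Equiv.Perm (Fin t)), IB G t f → IB G t (f ∘ σ))
    (a : Ω) (hmove : ∃ g : G, g • a ≠ a) :
    ∀ (t : ℕ) (f : Fin t → Ω) (σ : Equiv.Perm (Fin t)),
      IB (MulAction.stabilizer G a) t f → IB (MulAction.stabilizer G a) t (f ∘ σ) := by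
  intro t f σ hf
  have h1 := IB_cons a hmove t f hf
  have h2 := hB (t + 1) (Fin.cons a f) (Equiv.Perm.decomposeFin.symm (0, σ)) h1
  have h3 : (Fin.cons a f : Fin (t + 1) → Ω) ∘ (Equiv.Perm.decomposeFin.symm (0, σ))
      = Fin.cons a (f ∘ σ) := by
    funext i
    refine Fin.cases ?_ (fun i' => ?_) i
    · simp
    · simp
  rw [h3] at h2
  have h4 := IB_tail t _ h2 a (Fin.cons_zero _ _)
  rw [Fin.tail_cons] at h4
  exact h4

theorem common {Ω : Type v} (G : Type u) [Group G] [MulAction G Ω]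
    (hB : ∀ (t : ℕ) (f : Fin t → Ω) (σ : Equiv.Perm (Fin t)), IB G t f → IB G t (f ∘ σ))
    (ih : ∀ (a : Ω), (∃ g : G, g • a ≠ a) → ∀ (t t' : ℕ) (f : Fin t → Ω) (f' : Fin t' → Ω),
      IB (MulAction.stabilizer G a) t f → IB (MulAction.stabilizer G a) t' f' → t = t')
    (t t' : ℕ) (f : Fin t → Ω) (f' : Fin t' → Ω) (hf : IB G t f) (hf' : IB G t' f')
    (i : Fin t) (i' : Fin t') (h : f i = f' i') : t = t' := by
  obtain ⟨r, rfl⟩ : ∃ r, t = r + 1 := ⟨t - 1, by have := i.2; omega⟩
  obtain ⟨r', rfl⟩ : ∃ r', t' = r' + 1 := ⟨t' - 1, by have := i'.2; omega⟩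
  have h1 := hB _ f (Equiv.swap 0 i) hf
  have h1' := hB _ f' (Equiv.swap 0 i') hf'
  have e1 : (f ∘ Equiv.swap 0 i) 0 = f i := by simp
  have e1' : (f' ∘ Equiv.swap 0 i') 0 = f i := by simp [h]
  have hmove : ∃ g : G, g • f i ≠ f i := by
    obtain ⟨g, -, hg⟩ := h1.2 0
    exact ⟨g, by rwa [e1] at hg⟩
  have h2 := IB_tail r _ h1 (f i) e1
  have h2' := IB_tail r' _ h1' (f i) e1'
  have := ih (f i) hmove r r' _ _ h2 h2'
  omega

theorem BA {Ω : Type v} : ∀ (n : ℕ) (G : Type u) [Group G] [Finite G] [MulAction G Ω],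
    Nat.card G = n →
    (∀ (t : ℕ) (f : Fin t → Ω) (σ : Equiv.Perm (Fin t)), IB G t f → IB G t (f ∘ σ)) →
    ∀ (t t' : ℕ) (f : Fin t → Ω) (f' : Fin t' → Ω), IB G t f → IB G t' f' → t = t' := by
  intro n
  induction n using Nat.strong_induction_on with
  | _ n IH =>
    intro G _ _ _ hn hB
    have ih : ∀ (a : Ω), (∃ g : G, g • a ≠ a) → ∀ (t t' : ℕ) (f : Fin t → Ω)
        (f' : Fin t' → Ω), IB (MulAction.stabilizer G a) t f →
        IB (MulAction.stabilizer G a) t' f' → t = t' := by
      intro a hmove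
      have hlt : Nat.card (MulAction.stabilizer G a) < n := by
        rw [← hn]
        refine lt_of_le_of_ne (Subgroup.card_le_card_group _) ?_
        intro hcard
        have htop := (Subgroup.card_eq_iff_eq_top _).1 hcard
        obtain ⟨g, hg⟩ := hmove
        have hmem : g ∈ MulAction.stabilizer G a := by
          rw [htop]
          trivial
        exact hg hmem
      exact IH _ hlt (MulAction.stabilizer G a) rfl (B_stab hB a hmove)
    have W : ∀ (t t' : ℕ) (f : Fin t → Ω) (f' : Fin t' → Ω), IB G t f → IB G t' f' → 0 < t →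
        t = t' ∨ t = 1 := by
      intro t t' f f' hf hf' ht
      obtain ⟨k, rfl⟩ : ∃ k, t = k + 1 := ⟨t - 1, by omega⟩
      have hmove : ∃ g : G, g • f 0 ≠ f 0 := by
        obtain ⟨g, -, hg⟩ := hf.2 0
        exact ⟨g, hg⟩
      obtain ⟨s, C, hC, hsub, hcont, -⟩ := IS (G := G) (t' + 1) (Fin.cons (f 0) f') (by
        intro g hg
        exact hf'.1 g (fun i => by
          have := hg i.succ
          rw [Fin.cons_succ] at this
          exact this))
      obtain ⟨j0, hj0⟩ := hcont 0 (by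
        obtain ⟨g, hg⟩ := hmove
        exact ⟨g, fun j hj => absurd hj (Fin.not_lt_zero j), by rw [Fin.cons_zero]; exact hg⟩)
      rw [Fin.cons_zero] at hj0
      have hst : s = k + 1 := common G hB ih s (k + 1) C f hC hf j0 0 hj0
      by_cases hex : ∃ j i, C j = f' i
      · obtain ⟨j, i, hji⟩ := hex
        left
        rw [← hst]
        exact common G hB ih s t' C f' hC hf' j i hji
      · right
        have hconst : ∀ j, C j = f 0 := by
          intro j
          obtain ⟨i, hi⟩ := hsub j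
          revert hi
          refine Fin.cases ?_ (fun i' => ?_) i
          · intro hi
            rw [Fin.cons_zero] at hi
            exact hi
          · intro hi
            rw [Fin.cons_succ] at hi
            exact absurd ⟨j, i', hi⟩ hex
        by_contra hk
        have hs2 : 2 ≤ s := by omega
        obtain ⟨g, hg1, hg2⟩ := hC.2 ⟨1, by omega⟩
        have h0 := hg1 ⟨0, by omega⟩ (by simp [Fin.lt_def])
        rw [hconst] at h0 hg2
        exact hg2 h0
    intro t t' f f' hf hf'
    rcases Nat.eq_zero_or_pos t with h0 | hpos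
    · subst h0
      have hG : ∀ g : G, g = 1 := fun g => hf.1 g (fun i => i.elim0)
      by_contra hne
      have hpos' : 0 < t' := by omega
      obtain ⟨g, -, hg⟩ := hf'.2 ⟨0, hpos'⟩
      rw [hG g, one_smul] at hg
      exact hg rfl
    · rcases Nat.eq_zero_or_pos t' with h0' | hpos'
      · subst h0'
        have hG : ∀ g : G, g = 1 := fun g => hf'.1 g (fun i => i.elim0)
        obtain ⟨g, -, hg⟩ := hf.2 ⟨0, hpos⟩
        rw [hG g, one_smul] at hg
        exact absurd rfl hg
      · rcases W t t' f f' hf hf' hpos with h | h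
        · exact h
        · rcases W t' t f' f hf' hf hpos' with h' | h'
          · exact h'.symm
          · omega


/-- Let a finite group G act on a finite set Ω. An irredundant base is a sequence of points ω₁, …, ω_t whose pointwise stabiliser is trivial and in which each ω_i is moved by some element fixing ω₁, …, ω_{i−1}. Then all irredundant bases have the same length if and only if every reordering of an irredundant base is again an irredundant base. -/
theorem result {G Ω : Type*} [Group G] [Finite G] [MulAction G Ω] [Fintype Ω] :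
    (∀ (t t' : ℕ) (f : Fin t → Ω) (f' : Fin t' → Ω), ((∀ g : G, (∀ i : Fin t, g • f i = f i) → g = 1) ∧ ∀ i : Fin t, ∃ g : G, (∀ j : Fin t, j < i → g • f j = f j) ∧ g • f i ≠ f i) → ((∀ g : G, (∀ i : Fin t', g • f' i = f' i) → g = 1) ∧ ∀ i : Fin t', ∃ g : G, (∀ j : Fin t', j < i → g • f' j = f' j) ∧ g • f' i ≠ f' i) → t = t') ↔
    (∀ (t : ℕ) (f : Fin t → Ω) (σ : Equiv.Perm (Fin t)), ((∀ g : G, (∀ i : Fin t, g • f i = f i) → g = 1) ∧ ∀ i : Fin t, ∃ g : G, (∀ j : Fin t, j < i → g • f j = f j) ∧ g • f i ≠ f i) → ((∀ g : G, (∀ i : Fin t, g • (f ∘ σ) i = (f ∘ σ) i) → g = 1) ∧ ∀ i : Fin t, ∃ g : G, (∀ j : Fin t, j < i → g • (f ∘ σ) j = (f ∘ σ) j) ∧ g • (f ∘ σ) i ≠ (f ∘ σ) i)) := by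
  constructor
  · intro hA t f σ hf
    obtain ⟨s, C, hC, -, -, hfull⟩ := IS (G := G) t (f ∘ σ) (by
      intro g hg
      apply hf.1 g
      intro i
      have := hg (σ.symm i)
      simpa using this)
    exact hfull (hA s t C f hC hf)
  · intro hB t t' f f' hf hf'
    exact BA (Nat.card G) G rfl hB t t' f f' hf hf'

end Cfsg.Agent.S5747
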