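import Cfsg.Statements.S5754
import Mathlib

set_option autoImplicit false
open Cfsg

namespace Cfsg.Agent.S5754

theorem exists_refl {F V : Type*} [Field F] [AddCommGroup V] [Module F V]
    (Q : QuadraticForm F V) (a : V) (ha : Q a ≠ 0) :
    ∃ φ : Q.IsometryEquiv Q, ∀ v, φ v = v - ((Q a)⁻¹ * QuadraticMap.polar Q v a) • a := by
  let f : V →ₗ[F] V :=
    LinearMap.id - ((Q a)⁻¹ • (QuadraticMap.polarBilin Q).flip a).smulRight a
  have hfv : ∀ v, f v = v - ((Q a)⁻¹ * QuadraticMap.polar Q v a) • a := by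
    intro v
    simp [f]
  have hpa : QuadraticMap.polar Q a a = 2 * Q a := by
    simp [QuadraticMap.polar_self]
  have hinv : ∀ v, f (f v) = v := by
    intro v
    rw [hfv (f v), hfv v, QuadraticMap.polar_sub_left, QuadraticMap.polar_smul_left, hpa]
    have : (Q a)⁻¹ * (QuadraticMap.polar Q v a - ((Q a)⁻¹ * QuadraticMap.polar Q v a) • (2 * Q a))
        = - ((Q a)⁻¹ * QuadraticMap.polar Q v a) := by
      rw [smul_eq_mul]
      field_simp
      ring
    rw [this, neg_smul]
    abel
  refine ⟨{ toLinearEquiv := LinearEquiv.ofInvolutive f hinv, map_app' := ?_ }, ?_⟩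
  · intro v
    change Q (f v) = Q v
    rw [hfv, sub_eq_add_neg, QuadraticMap.map_add Q, QuadraticMap.map_neg, QuadraticMap.map_smul,
      QuadraticMap.polar_neg_right, QuadraticMap.polar_smul_right]
    rw [smul_eq_mul, smul_eq_mul]
    field_simp
    ring
  · intro v
    exact hfv v

theorem polar_iso {F V : Type*} [Field F] [AddCommGroup V] [Module F V]
    (Q : QuadraticForm F V) (φ : Q.IsometryEquiv Q) (a b : V) :
    QuadraticMap.polar Q (φ a) (φ b) = QuadraticMap.polar Q a b := by
  simp only [QuadraticMap.polar, ← map_add, QuadraticMap.IsometryEquiv.map_app]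

theorem extend {F V : Type*} [Field F] [AddCommGroup V] [Module F V]
    (Q : QuadraticForm F V) (hQ : Q.Anisotropic) :
    ∀ (m : ℕ) (x x' : Fin m → V), (∀ i, Q (x i) = Q (x' i)) →
      (∀ i j, QuadraticMap.polar Q (x i) (x j) = QuadraticMap.polar Q (x' i) (x' j)) →
      ∃ φ : Q.IsometryEquiv Q, ∀ i, φ (x i) = x' i := by
  intro m
  induction m with
  | zero =>
    intro x x' _ _
    exact ⟨QuadraticMap.IsometryEquiv.refl Q, fun i => i.elim0⟩
  | succ m ih =>
    intro x x' hq hp
    obtain ⟨φ₀, hφ₀⟩ := ih (fun i => x i.castSucc) (fun i => x' i.castSucc) (fun i => hq _)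
      (fun i j => hp _ _)
    have hQw : Q (φ₀ (x (Fin.last m))) = Q (x' (Fin.last m)) := by
      rw [φ₀.map_app]
      exact hq _
    have hpol : ∀ i : Fin m, QuadraticMap.polar Q (x' i.castSucc) (φ₀ (x (Fin.last m)))
        = QuadraticMap.polar Q (x' i.castSucc) (x' (Fin.last m)) := by
      intro i
      rw [← hp, ← hφ₀ i, polar_iso]
    by_cases hww : φ₀ (x (Fin.last m)) = x' (Fin.last m)
    · refine ⟨φ₀, ?_⟩
      intro i
      rcases Fin.eq_castSucc_or_eq_last i with ⟨j, rfl⟩ | rfl
      · exact hφ₀ j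
      · exact hww
    · have ha : Q (φ₀ (x (Fin.last m)) - x' (Fin.last m)) ≠ 0 :=
        fun h => hww (sub_eq_zero.1 (hQ _ h))
      obtain ⟨r, hr⟩ := exists_refl Q _ ha
      refine ⟨φ₀.trans r, ?_⟩
      intro i
      change r (φ₀ (x i)) = x' i
      rcases Fin.eq_castSucc_or_eq_last i with ⟨j, rfl⟩ | rfl
      · rw [hφ₀ j, hr, QuadraticMap.polar_sub_right, hpol j, sub_self, mul_zero, zero_smul,
          sub_zero]
      · rw [hr]
        have h1 : QuadraticMap.polar Q (φ₀ (x (Fin.last m)))
            (φ₀ (x (Fin.last m)) - x' (Fin.last m))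
            = Q (φ₀ (x (Fin.last m)) - x' (Fin.last m)) := by
          rw [QuadraticMap.polar_sub_right]
          have h2 : Q (φ₀ (x (Fin.last m)) - x' (Fin.last m))
              = Q (φ₀ (x (Fin.last m))) + Q (x' (Fin.last m))
                - QuadraticMap.polar Q (φ₀ (x (Fin.last m))) (x' (Fin.last m)) := by
            rw [sub_eq_add_neg, QuadraticMap.map_add Q, QuadraticMap.map_neg,
              QuadraticMap.polar_neg_right]
            ring
          rw [h2, ← hQw]
          have h3 : QuadraticMap.polar Q (φ₀ (x (Fin.last m))) (φ₀ (x (Fin.last m)))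
              = 2 * Q (φ₀ (x (Fin.last m))) := by
            simp [QuadraticMap.polar_self]
          rw [h3]
          ring
        rw [h1, inv_mul_cancel₀ ha, one_smul]
        abel


/-- Let V be a finite-dimensional vector space over a finite field F carrying an anisotropic quadratic form Q (Q(v) = 0 only for v = 0). Then the group of all maps v ↦ φ(v) + c, with φ an isometry of Q and c ∈ V, acts on V as a binary permutation group: given n ≥ 2 and two n-tuples u, u' of vectors such that every pair of corresponding entries of u is carried to that of u' by such a map, one such map carries u to u'. -/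
theorem result {F V : Type*} [Field F] [Finite F] [AddCommGroup V] [Module F V] [Module.Finite F V]
    (Q : QuadraticForm F V) (hQ : Q.Anisotropic) (n : ℕ) (hn : 2 ≤ n) (u u' : Fin n → V)
    (h2 : ∀ i j : Fin n, i ≠ j → ∃ (φ : Q.IsometryEquiv Q) (c : V), φ (u i) + c = u' i ∧ φ (u j) + c = u' j) :
    ∃ (φ : Q.IsometryEquiv Q) (c : V), ∀ i, φ (u i) + c = u' i := by
  have hn0 : 0 < n := by omega
  have hQd : ∀ i j, Q (u i - u j) = Q (u' i - u' j) := by
    intro i j
    by_cases hij : i = j
    · subst hij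
      simp
    · obtain ⟨φ, c, h1, h2'⟩ := h2 i j hij
      rw [← h1, ← h2']
      have : φ (u i) + c - (φ (u j) + c) = φ (u i - u j) := by
        rw [map_sub]
        abel
      rw [this, φ.map_app]
  have key : ∀ a b : V, QuadraticMap.polar Q a b = Q a + Q b - Q (a - b) := by
    intro a b
    rw [sub_eq_add_neg a b, QuadraticMap.map_add Q, QuadraticMap.map_neg,
      QuadraticMap.polar_neg_right]
    ring
  obtain ⟨φ, hφ⟩ := extend Q hQ n (fun i => u i - u ⟨0, hn0⟩) (fun i => u' i - u' ⟨0, hn0⟩)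
    (fun i => hQd i ⟨0, hn0⟩) (by
      intro i j
      rw [key, key]
      have e1 : u i - u ⟨0, hn0⟩ - (u j - u ⟨0, hn0⟩) = u i - u j := by abel
      have e2 : u' i - u' ⟨0, hn0⟩ - (u' j - u' ⟨0, hn0⟩) = u' i - u' j := by abel
      rw [e1, e2, hQd i ⟨0, hn0⟩, hQd j ⟨0, hn0⟩, hQd i j])
  refine ⟨φ, u' ⟨0, hn0⟩ - φ (u ⟨0, hn0⟩), fun i => ?_⟩
  have h := hφ i
  simp only [map_sub] at h
  have e : φ (u i) + (u' ⟨0, hn0⟩ - φ (u ⟨0, hn0⟩))
      = (φ (u i) - φ (u ⟨0, hn0⟩)) + u' ⟨0, hn0⟩ := by abel
  rw [e, h]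
  abel

end Cfsg.Agent.S5754
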