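import Cfsg.Statements.S5763
import Mathlib
import Cfsg.Agent.Lib_helper4_Syl8

set_option autoImplicit false
open Cfsg

namespace Cfsg.Agent.S5763

open Cfsg.Agent.Lib_helper4_Syl8

theorem aiv (a : P8) (i : Fin 8) : a (a⁻¹ i) = i := a.apply_symm_apply i

/-- The automorphism group of the standard binary tree structure on 8 points. -/
def P0 : Subgroup P8 where
  carrier := {σ | pres σ lab0}
  mul_mem' := by
    intro a b ha hb i j
    have h1 := ha (b i) (b j)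
    have h2 := hb i j
    exact ⟨h1.1.trans h2.1, h1.2.trans h2.2⟩
  one_mem' := by
    intro i j
    exact ⟨Iff.rfl, Iff.rfl⟩
  inv_mem' := by
    intro a ha i j
    have h1 := ha (a⁻¹ i) (a⁻¹ j)
    simp only [aiv] at h1
    exact ⟨h1.1.symm, h1.2.symm⟩

theorem cf_inv : ∀ k : Fin 14, ∀ i : Fin 8, cfi k (cf k i) = i := by decide
theorem cf_inv' : ∀ k : Fin 14, ∀ i : Fin 8, cf k (cfi k i) = i := by decide

def cand (k : Fin 14) : P8 := ⟨cf k, cfi k, cf_inv k, cf_inv' k⟩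

theorem cand_ne : ∀ k : Fin 14, ∃ i : Fin 8, cf k i ≠ i := by decide

theorem cand_mem : ∀ k : Fin 14, pres (cf k) lab0 := by decide +kernel

theorem fibz (z : P8) (v : Fin 4) :
    [lab0 (z 0), lab0 (z 1), lab0 (z 2), lab0 (z 3), lab0 (z 4), lab0 (z 5), lab0 (z 6),
      lab0 (z 7)].count v = 2 := by
  have h8 : List.finRange 8 = [0, 1, 2, 3, 4, 5, 6, 7] := by decide
  have hp := (Equiv.Perm.map_finRange_perm z).map lab0
  rw [h8] at hp
  have hc := hp.count_eq v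
  have hd : ∀ w : Fin 4, List.count w (List.map lab0 [0, 1, 2, 3, 4, 5, 6, 7]) = 2 := by decide
  exact hc.trans (hd v)

theorem key (z : P8) : ∃ h : P8, h ≠ 1 ∧ h ∈ P0 ∧ z * h * z⁻¹ ∈ P0 := by
  obtain ⟨k, hk⟩ := L _ _ _ _ _ _ _ _ (fibz z)
  have hfun : (![lab0 (z 0), lab0 (z 1), lab0 (z 2), lab0 (z 3), lab0 (z 4), lab0 (z 5),
      lab0 (z 6), lab0 (z 7)] : Fin 8 → Fin 4) = fun i => lab0 (z i) := by
    funext i; fin_cases i <;> rfl
  rw [hfun] at hk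
  refine ⟨cand k, ?_, cand_mem k, ?_⟩
  · intro h
    obtain ⟨i, hi⟩ := cand_ne k
    exact hi (congrArg (fun s : P8 => s i) h)
  · intro i j
    have h1 := hk (z⁻¹ i) (z⁻¹ j)
    simp only [aiv] at h1
    exact h1

def rep : Fin 4 → Fin 8 := ![0, 2, 4, 6]

theorem rep_lab : ∀ v : Fin 4, lab0 (rep v) = v := by decide
theorem lab_rep : ∀ i : Fin 8, lab0 (rep (lab0 i)) = lab0 i := by decide

theorem D1 : ∀ c0 c1 c2 c3 : Fin 4,
    (∀ u v : Fin 4, ![c0, c1, c2, c3] u = ![c0, c1, c2, c3] v → u = v) →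
    (∀ u v : Fin 4, (![c0, c1, c2, c3] u).val / 2 = (![c0, c1, c2, c3] v).val / 2 ↔
      u.val / 2 = v.val / 2) →
    ∀ v : Fin 4, ![c0, c1, c2, c3] (![c0, c1, c2, c3] (![c0, c1, c2, c3] (![c0, c1, c2, c3] v))) = v := by
  decide +kernel

theorem D2 : ∀ i j k : Fin 8, lab0 j = lab0 i → lab0 k = lab0 j → (j = k → i = j) →
    (i = j → j = k) → k = i := by decide +kernel

theorem pow8 (σ : P8) (hσ : pres σ lab0) : σ ^ 8 = 1 := by
  obtain ⟨π, hπ⟩ : ∃ π : Fin 4 → Fin 4, ∀ v, π v = lab0 (σ (rep v)) := ⟨_, fun _ => rfl⟩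
  have h1 : ∀ i, lab0 (σ i) = π (lab0 i) := by
    intro i
    rw [hπ]
    exact ((hσ i (rep (lab0 i))).1).2 (lab_rep i).symm
  have hinj : ∀ u v : Fin 4, π u = π v → u = v := by
    intro u v huv
    rw [hπ, hπ] at huv
    have := ((hσ (rep u) (rep v)).1).1 huv
    rwa [rep_lab, rep_lab] at this
  have hblk : ∀ u v : Fin 4, (π u).val / 2 = (π v).val / 2 ↔ u.val / 2 = v.val / 2 := by
    intro u v
    have := (hσ (rep u) (rep v)).2
    rw [rep_lab, rep_lab] at this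
    rw [hπ, hπ]
    exact this
  have hπe : π = ![π 0, π 1, π 2, π 3] := by
    funext v; fin_cases v <;> rfl
  have h4 : ∀ v, π (π (π (π v))) = v := by
    have := D1 (π 0) (π 1) (π 2) (π 3)
    rw [← hπe] at this
    exact this hinj hblk
  have e4 : σ ^ 4 = σ * σ * σ * σ := by
    rw [show (4 : ℕ) = 1 + 1 + 1 + 1 from rfl, pow_succ, pow_succ, pow_succ, pow_one]
  have h3 : ∀ i, lab0 ((σ ^ 4) i) = lab0 i := by
    intro i
    rw [e4]
    simp only [Equiv.Perm.mul_apply, h1]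
    exact h4 _
  have e8 : σ ^ 8 = σ ^ 4 * σ ^ 4 := by rw [← pow_add]
  rw [e8]
  ext i
  rw [Equiv.Perm.mul_apply, Equiv.Perm.one_apply]
  congr 1
  exact D2 i ((σ ^ 4) i) ((σ ^ 4) ((σ ^ 4) i)) (h3 i) (h3 _)
    (fun h => ((σ ^ 4).injective h))
    (fun h => congrArg (⇑(σ ^ 4)) h)

theorem isP : IsPGroup 2 P0 := by
  intro g
  refine ⟨3, ?_⟩
  have h8 : (2 : ℕ) ^ 3 = 8 := by norm_num
  rw [h8]
  apply Subtype.ext
  rw [Subgroup.coe_pow, Subgroup.coe_one]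
  exact pow8 g.1 g.2


/-- In the symmetric group on 8 letters any two Sylow 2-subgroups have non-trivial intersection: for a Sylow 2-subgroup H and every element x, H ∩ xHx⁻¹ ≠ 1. -/
theorem result (H : Sylow 2 (Equiv.Perm (Fin 8))) (x : Equiv.Perm (Fin 8)) :
    (H : Subgroup (Equiv.Perm (Fin 8))) ⊓ (H : Subgroup (Equiv.Perm (Fin 8))).map (MulAut.conj x).toMonoidHom ≠ ⊥ := by
  obtain ⟨S, hS⟩ := isP.exists_le_sylow
  obtain ⟨g, hg⟩ := MulAction.exists_smul_eq (Equiv.Perm (Fin 8)) S H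
  have hmem : ∀ w ∈ P0, g * w * g⁻¹ ∈ (H : Subgroup (Equiv.Perm (Fin 8))) := by
    intro w hw
    have h1 : w ∈ (S : Subgroup (Equiv.Perm (Fin 8))) := hS hw
    rw [← hg, Sylow.smul_def, Sylow.pointwise_smul_def]
    have h2 := Subgroup.smul_mem_pointwise_smul w (MulAut.conj g) (S : Subgroup (Equiv.Perm (Fin 8))) h1
    simpa [MulAut.smul_def, MulAut.conj_apply] using h2
  obtain ⟨h, hne, hh, hzh⟩ := key (g⁻¹ * x⁻¹ * g)
  intro hbot
  have hin : g * h * g⁻¹ ∈ (H : Subgroup (Equiv.Perm (Fin 8))) ⊓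
      (H : Subgroup (Equiv.Perm (Fin 8))).map (MulAut.conj x).toMonoidHom := by
    refine ⟨hmem h hh, ?_⟩
    refine ⟨g * ((g⁻¹ * x⁻¹ * g) * h * (g⁻¹ * x⁻¹ * g)⁻¹) * g⁻¹, hmem _ hzh, ?_⟩
    simp only [MulEquiv.coe_toMonoidHom, MulAut.conj_apply]
    group
  rw [hbot, Subgroup.mem_bot] at hin
  apply hne
  have e : h = g⁻¹ * (g * h * g⁻¹) * g := by group
  rw [e, hin]
  group

end Cfsg.Agent.S5763
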