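import Cfsg.Statements.S5895
import Mathlib

set_option autoImplicit false
open Cfsg

namespace Cfsg.Agent.S5895

open SemidirectProduct

def sub {N L : Type} [Group N] [Group L] (φ : L →* MulAut N) (W : Subgroup N) (S : Subgroup L)
    (h : ∀ s ∈ S, ∀ n ∈ W, φ s n ∈ W) : Subgroup (N ⋊[φ] L) where
  carrier := {x | x.left ∈ W ∧ x.right ∈ S}
  mul_mem' := by
    rintro a b ⟨ha1, ha2⟩ ⟨hb1, hb2⟩
    exact ⟨by rw [mul_left]; exact W.mul_mem ha1 (h _ ha2 _ hb1),
      by rw [mul_right]; exact S.mul_mem ha2 hb2⟩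
  one_mem' := ⟨W.one_mem, S.one_mem⟩
  inv_mem' := by
    rintro a ⟨ha1, ha2⟩
    exact ⟨by rw [inv_left]; exact h _ (S.inv_mem ha2) _ (W.inv_mem ha1),
      by rw [inv_right]; exact S.inv_mem ha2⟩

theorem abstract {N L : Type} [Group N] [Group L] [Finite N] [Finite L] (φ : L →* MulAut N)
    (hirr : ∀ W : Subgroup N, (∀ (h : L) (n : N), n ∈ W → φ h n ∈ W) → W = ⊥ ∨ W = ⊤)
    (H : Subgroup L) (hH : IsCoatom H) (W : Subgroup N) (hW0 : W ≠ ⊥) (hW1 : W ≠ ⊤)
    (hWH : ∀ h ∈ H, ∀ n ∈ W, φ h n ∈ W) :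
    ∃ (M H' K : Subgroup (N ⋊[φ] L)), IsCoatom M ∧ M.index = Nat.card N ∧ H' ≤ M ∧
      IsCoatom (H'.subgroupOf M) ∧ IsCoatom K ∧ H' ≤ K ∧ ¬ IsCoatom (H'.subgroupOf K) := by
  haveI : Finite (N ⋊[φ] L) := Finite.of_equiv _ SemidirectProduct.equivProd.symm
  have hbot : ∀ (S : Subgroup L), ∀ s ∈ S, ∀ n ∈ (⊥ : Subgroup N),
      φ s n ∈ (⊥ : Subgroup N) := by
    intro S s _ n hn
    rw [Subgroup.mem_bot] at hn ⊢
    rw [hn, map_one]
  have htop : ∀ (S : Subgroup L), ∀ s ∈ S, ∀ n ∈ (⊤ : Subgroup N),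
      φ s n ∈ (⊤ : Subgroup N) := fun _ _ _ _ _ => Subgroup.mem_top _
  obtain ⟨M, hM⟩ : ∃ M : Subgroup (N ⋊[φ] L), M = sub φ ⊥ ⊤ (hbot ⊤) := ⟨_, rfl⟩
  obtain ⟨H', hH'⟩ : ∃ H' : Subgroup (N ⋊[φ] L), H' = sub φ ⊥ H (hbot H) := ⟨_, rfl⟩
  obtain ⟨A, hA⟩ : ∃ A : Subgroup (N ⋊[φ] L), A = sub φ W H hWH := ⟨_, rfl⟩
  obtain ⟨B, hB⟩ : ∃ B : Subgroup (N ⋊[φ] L), B = sub φ ⊤ H (htop H) := ⟨_, rfl⟩
  have memM : ∀ x : N ⋊[φ] L, x ∈ M ↔ x.left = 1 := by
    intro x
    rw [hM]
    exact ⟨fun h => Subgroup.mem_bot.1 h.1, fun h => ⟨Subgroup.mem_bot.2 h, Subgroup.mem_top _⟩⟩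
  have memH' : ∀ x : N ⋊[φ] L, x ∈ H' ↔ x.left = 1 ∧ x.right ∈ H := by
    intro x
    rw [hH']
    exact ⟨fun h => ⟨Subgroup.mem_bot.1 h.1, h.2⟩, fun h => ⟨Subgroup.mem_bot.2 h.1, h.2⟩⟩
  have memA : ∀ x : N ⋊[φ] L, x ∈ A ↔ x.left ∈ W ∧ x.right ∈ H := by
    intro x
    rw [hA]
    exact Iff.rfl
  have memB : ∀ x : N ⋊[φ] L, x ∈ B ↔ x.right ∈ H := by
    intro x
    rw [hB]
    exact ⟨fun h => h.2, fun h => ⟨Subgroup.mem_top _, h⟩⟩
  obtain ⟨w, hwW, hw1⟩ : ∃ w ∈ W, w ≠ 1 := by
    by_contra hcon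
    push_neg at hcon
    exact hW0 ((Subgroup.eq_bot_iff_forall _).2 hcon)
  obtain ⟨n0, hn0⟩ : ∃ n0, n0 ∉ W := by
    by_contra hcon
    push_neg at hcon
    exact hW1 ((Subgroup.eq_top_iff' _).2 hcon)
  obtain ⟨l0, hl0⟩ : ∃ l0, l0 ∉ H := by
    by_contra hcon
    push_neg at hcon
    exact hH.1 ((Subgroup.eq_top_iff' _).2 hcon)
  have hinrM : ∀ l : L, (inr l : N ⋊[φ] L) ∈ M := fun l => (memM _).2 rfl
  have hMcoatom : IsCoatom M := by
    refine ⟨?_, ?_⟩
    · intro htop'
      have : (inl w : N ⋊[φ] L) ∈ M := by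
        rw [htop']
        exact Subgroup.mem_top _
      exact hw1 ((memM _).1 this)
    · intro X hX
      have hinv : ∀ (h : L) (n : N), n ∈ X.comap (inl : N →* N ⋊[φ] L) →
          φ h n ∈ X.comap (inl : N →* N ⋊[φ] L) := by
        intro h n hn
        rw [Subgroup.mem_comap] at hn ⊢
        rw [inl_aut]
        have hr : (inr h : N ⋊[φ] L) ∈ X := hX.le (hinrM h)
        have hr' : (inr h⁻¹ : N ⋊[φ] L) ∈ X := hX.le (hinrM h⁻¹)
        exact X.mul_mem (X.mul_mem hr hn) hr'
      rcases hirr _ hinv with h0 | h1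
      · exfalso
        obtain ⟨x, hxX, hxM⟩ := SetLike.exists_of_lt hX
        have hr : (inr x.right : N ⋊[φ] L) ∈ X := hX.le (hinrM _)
        have hl : (inl x.left : N ⋊[φ] L) ∈ X := by
          have e : (inl x.left : N ⋊[φ] L) = x * (inr x.right)⁻¹ := by
            rw [eq_mul_inv_iff_mul_eq, inl_left_mul_inr_right]
          rw [e]
          exact X.mul_mem hxX (X.inv_mem hr)
        have h1 : x.left ∈ X.comap (inl : N →* N ⋊[φ] L) := hl
        rw [h0, Subgroup.mem_bot] at h1
        exact hxM ((memM _).2 h1)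
      · rw [Subgroup.eq_top_iff']
        intro x
        rw [← inl_left_mul_inr_right x]
        refine X.mul_mem ?_ (hX.le (hinrM _))
        have : x.left ∈ X.comap (inl : N →* N ⋊[φ] L) := by
          rw [h1]
          exact Subgroup.mem_top _
        exact this
  have hMcard : Nat.card M = Nat.card L := by
    refine Nat.card_congr ⟨fun x => x.1.right, fun l => ⟨inr l, hinrM l⟩, ?_, ?_⟩
    · rintro ⟨x, hx⟩
      apply Subtype.ext
      have h1 : x.left = 1 := (memM _).1 hx
      ext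
      · simp [h1]
      · simp
    · intro l
      rfl
  have hidx : M.index = Nat.card N := by
    have h1 := Subgroup.index_mul_card M
    rw [hMcard, SemidirectProduct.card] at h1
    exact Nat.eq_of_mul_eq_mul_right Nat.card_pos h1
  have hH'M : H' ≤ M := fun x hx => (memM _).2 ((memH' _).1 hx).1
  have hH'coatom : IsCoatom (H'.subgroupOf M) := by
    refine ⟨?_, ?_⟩
    · intro htop'
      have : (⟨inr l0, hinrM l0⟩ : M) ∈ H'.subgroupOf M := by
        rw [htop']
        exact Subgroup.mem_top _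
      rw [Subgroup.mem_subgroupOf] at this
      exact hl0 ((memH' _).1 this).2
    · intro X hX
      obtain ⟨f, hf⟩ : ∃ f : L →* M, ∀ l, (f l : N ⋊[φ] L) = inr l :=
        ⟨(inr : L →* N ⋊[φ] L).codRestrict M hinrM, fun l => rfl⟩
      have hfx : ∀ x : M, f x.1.right = x := by
        rintro ⟨x, hx⟩
        apply Subtype.ext
        rw [hf]
        have h1 : x.left = 1 := (memM _).1 hx
        ext
        · simp [h1]
        · simp
      have hlt : H < X.comap f := by
        refine lt_of_le_of_ne ?_ ?_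
        · intro h hh
          apply hX.le
          rw [Subgroup.mem_subgroupOf, hf]
          exact (memH' _).2 ⟨rfl, hh⟩
        · intro heq
          obtain ⟨x, hxX, hxH⟩ := SetLike.exists_of_lt hX
          apply hxH
          rw [Subgroup.mem_subgroupOf]
          have : x.1.right ∈ X.comap f := by
            rw [Subgroup.mem_comap, hfx]
            exact hxX
          rw [← heq] at this
          exact (memH' _).2 ⟨(memM _).1 x.2, this⟩
      have htop' := hH.2 _ hlt
      rw [Subgroup.eq_top_iff']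
      intro x
      have : x.1.right ∈ X.comap f := by
        rw [htop']
        exact Subgroup.mem_top _
      rw [Subgroup.mem_comap, hfx] at this
      exact this
  have hBtop : B ≠ ⊤ := by
    intro htop'
    have : (inr l0 : N ⋊[φ] L) ∈ B := by
      rw [htop']
      exact Subgroup.mem_top _
    exact hl0 ((memB _).1 this)
  obtain ⟨K, hK, hBK⟩ := (eq_top_or_exists_le_coatom B).resolve_left hBtop
  have hAK : A ≤ K := fun x hx => hBK ((memB _).2 ((memA _).1 hx).2)
  refine ⟨M, H', K, hMcoatom, hidx, hH'M, hH'coatom, hK,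
    fun x hx => hBK ((memB _).2 ((memH' _).1 hx).2), ?_⟩
  intro hco
  have hlt : H'.subgroupOf K < A.subgroupOf K := by
    refine lt_of_le_of_ne ?_ ?_
    · intro x hx
      rw [Subgroup.mem_subgroupOf] at hx ⊢
      have h1 := (memH' _).1 hx
      exact (memA _).2 ⟨by rw [h1.1]; exact W.one_mem, h1.2⟩
    · intro heq
      have hmemA : (inl w : N ⋊[φ] L) ∈ A := (memA _).2 ⟨hwW, H.one_mem⟩
      have : (⟨inl w, hAK hmemA⟩ : K) ∈ A.subgroupOf K := by
        rw [Subgroup.mem_subgroupOf]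
        exact hmemA
      rw [← heq, Subgroup.mem_subgroupOf] at this
      exact hw1 ((memH' _).1 this).1
  have htop' := hco.2 _ hlt
  have hmemB : (inl n0 : N ⋊[φ] L) ∈ B := (memB _).2 H.one_mem
  have : (⟨inl n0, hBK hmemB⟩ : K) ∈ A.subgroupOf K := by
    rw [htop']
    exact Subgroup.mem_top _
  rw [Subgroup.mem_subgroupOf] at this
  exact hn0 ((memA _).1 this).1

noncomputable def act (F : Type) [Field F] : Fˣ →* MulAut (Multiplicative F) where
  toFun u :=
    { toFun := fun x => Multiplicative.ofAdd ((u : F) * Multiplicative.toAdd x)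
      invFun := fun x => Multiplicative.ofAdd (((u⁻¹ : Fˣ) : F) * Multiplicative.toAdd x)
      left_inv := fun x => by simp
      right_inv := fun x => by simp
      map_mul' := fun x y => by simp [mul_add] }
  map_one' := by
    ext x
    simp
  map_mul' := fun u v => by
    ext x
    simp [mul_assoc]

theorem act_apply (F : Type) [Field F] (u : Fˣ) (x : Multiplicative F) :
    act F u x = Multiplicative.ofAdd ((u : F) * Multiplicative.toAdd x) := rfl


/-- For every prime p and every d ≥ 2 there is a finite group G with a maximal subgroup M of index p^d and a maximal subgroup H of M that is not second maximal in G: some maximal subgroup K of G contains H without H being maximal in K. (One may take G the affine group V ⋊ GL(V) of V = 𝔽_p^d, M = GL(V), H the stabiliser in M of a line W of V, and K = V ⋊ H, with H < W ⋊ H < K.) So the prime-index hypothesis in the second-maximality criterion cannot be relaxed to prime-power index. -/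
theorem result (p d : ℕ) (hp : p.Prime)
    (hd : 2 ≤ d) :
    ∃ (G : Type) (_ : Group G) (_ : Finite G) (M H K : Subgroup G), IsCoatom M ∧ M.index = p ^ d ∧ H ≤ M ∧
      IsCoatom (H.subgroupOf M) ∧ IsCoatom K ∧ H ≤ K ∧ ¬ IsCoatom (H.subgroupOf K) := by
  haveI : Fact p.Prime := ⟨hp⟩
  have hcard : Nat.card (Multiplicative (GaloisField p d)) = p ^ d :=
    GaloisField.card p d (by omega)
  haveI : Finite (GaloisField p d) := Nat.finite_of_card_ne_zero (by
    have : Nat.card (GaloisField p d) = p ^ d := GaloisField.card p d (by omega)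
    rw [this]
    exact pow_ne_zero _ hp.ne_zero)
  haveI : Finite (Multiplicative (GaloisField p d)) :=
    inferInstanceAs (Finite (GaloisField p d))
  obtain ⟨Irr, hIrr⟩ : ∃ Irr : Subgroup (GaloisField p d)ˣ → Prop, ∀ S, Irr S ↔
      ∀ W : Subgroup (Multiplicative (GaloisField p d)),
        (∀ u ∈ S, ∀ n ∈ W, act (GaloisField p d) u n ∈ W) → W = ⊥ ∨ W = ⊤ := ⟨_, fun S => Iff.rfl⟩
  have hIrrTop : Irr ⊤ := by
    rw [hIrr]
    intro W hW
    by_cases h0 : W = ⊥
    · exact Or.inl h0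
    · right
      obtain ⟨w, hwW, hw1⟩ : ∃ w ∈ W, w ≠ 1 := by
        by_contra hcon
        push_neg at hcon
        exact h0 ((Subgroup.eq_bot_iff_forall _).2 hcon)
      rw [Subgroup.eq_top_iff']
      intro n
      have hw0 : Multiplicative.toAdd w ≠ 0 := fun h => hw1 (toAdd_eq_zero.1 h)
      by_cases hn : Multiplicative.toAdd n = 0
      · rw [toAdd_eq_zero.1 hn]
        exact W.one_mem
      · have h1 := hW (Units.mk0 (Multiplicative.toAdd n / Multiplicative.toAdd w)
          (div_ne_zero hn hw0)) (Subgroup.mem_top _) w hwW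
        rw [act_apply, Units.val_mk0, div_mul_cancel₀ _ hw0] at h1
        exact h1
  have hIrrBot : ¬ Irr ⊥ := by
    rw [hIrr]
    intro h
    obtain ⟨W, hWc⟩ := Sylow.exists_subgroup_card_pow_prime p
      (G := Multiplicative (GaloisField p d)) (n := 1) (by
        rw [hcard]
        exact pow_dvd_pow p (by omega))
    rcases h W (fun u hu n hn => by
      rw [Subgroup.mem_bot.1 hu, map_one, MulAut.one_apply]
      exact hn) with h0 | h1
    · rw [h0, Subgroup.card_bot, pow_one] at hWc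
      have := hp.one_lt
      omega
    · rw [h1, Subgroup.card_top, hcard] at hWc
      have := Nat.pow_right_injective hp.two_le hWc
      omega
  obtain ⟨L, hLmin⟩ := exists_minimal_of_wellFoundedLT Irr ⟨⊤, hIrrTop⟩
  have hLbot : L ≠ ⊥ := fun h => hIrrBot (h ▸ hLmin.1)
  have hntop : (⊥ : Subgroup L) ≠ ⊤ := by
    intro h
    apply hLbot
    rw [Subgroup.eq_bot_iff_forall]
    intro x hx
    have : (⟨x, hx⟩ : L) ∈ (⊥ : Subgroup L) := by
      rw [h]
      exact Subgroup.mem_top _
    exact congrArg Subtype.val (Subgroup.mem_bot.1 this)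
  obtain ⟨H, hH, -⟩ := (eq_top_or_exists_le_coatom (⊥ : Subgroup L)).resolve_left hntop
  have hH0 : ¬ Irr (H.map L.subtype) := by
    intro hI
    have hle : H.map L.subtype ≤ L := by
      rintro _ ⟨h, -, rfl⟩
      exact h.2
    have hge := hLmin.2 hI hle
    apply hH.1
    rw [Subgroup.eq_top_iff']
    intro x
    obtain ⟨h, hh, hx⟩ := hge x.2
    have : h = x := Subtype.ext hx
    rw [← this]
    exact hh
  rw [hIrr] at hH0
  push_neg at hH0
  obtain ⟨W, hWinv, hW0, hW1⟩ := hH0
  obtain ⟨M, H', K, h1, h2, h3, h4, h5, h6, h7⟩ :=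
    abstract ((act (GaloisField p d)).comp L.subtype)
      (fun W hW => (hIrr L).1 hLmin.1 W (fun u hu n hn => hW ⟨u, hu⟩ n hn)) H hH W hW0 hW1
      (fun h hh n hn => hWinv (h : (GaloisField p d)ˣ) (Subgroup.mem_map_of_mem _ hh) n hn)
  exact ⟨Multiplicative (GaloisField p d) ⋊[(act (GaloisField p d)).comp L.subtype] L,
    inferInstance, Finite.of_equiv _ SemidirectProduct.equivProd.symm, M, H', K, h1,
    by rw [h2, hcard], h3, h4, h5, h6, h7⟩

end Cfsg.Agent.S5895
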