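import Cfsg.Statements.S5896
import Mathlib
import Cfsg.Agent.Lib_helper4_SmallSimple

set_option autoImplicit false
open Cfsg

namespace Cfsg.Agent.S5896

open SemidirectProduct
open scoped commutatorElement

theorem step_abstract {N G : Type} [CommGroup N] [Group G] [Finite N] [Finite G]
    (φ : G →* MulAut N)
    (hP : ∀ n : N, n ∈ Subgroup.closure {x : N | ∃ (g : G) (m : N), x = φ g m * m⁻¹})
    (hF : ∀ h : G, h ≠ 1 → ∃ n : N, φ h (φ h n) * n ≠ φ h n * φ h n)
    (hperf : commutator G = ⊤) (H : Subgroup G) (hH : IsCoatom H) (hsol : Group.IsSolvable H)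
    (d : ℕ) (hd : derivedSeries H d ≠ ⊥) :
    ∃ H' : Subgroup (N ⋊[φ] G), commutator (N ⋊[φ] G) = ⊤ ∧ IsCoatom H' ∧
      Group.IsSolvable H' ∧ derivedSeries H' (d + 1) ≠ ⊥ := by
  haveI : Finite (N ⋊[φ] G) := Finite.of_equiv _ SemidirectProduct.equivProd.symm
  obtain ⟨H', hH'def⟩ : ∃ H' : Subgroup (N ⋊[φ] G),
      H' = H.comap (rightHom : N ⋊[φ] G →* G) := ⟨_, rfl⟩
  have memH' : ∀ x : N ⋊[φ] G, x ∈ H' ↔ x.right ∈ H := by
    intro x
    rw [hH'def]
    exact Iff.rfl
  have hinl : ∀ n : N, (inl n : N ⋊[φ] G) ∈ H' := fun n => (memH' _).2 H.one_mem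
  have hperf' : commutator (N ⋊[φ] G) = ⊤ := by
    rw [eq_top_iff]
    have h1 : ∀ g : G, (inr g : N ⋊[φ] G) ∈ commutator (N ⋊[φ] G) := by
      intro g
      have hg : g ∈ commutator G := by
        rw [hperf]
        exact Subgroup.mem_top g
      have h := Subgroup.mem_map_of_mem (inr : G →* N ⋊[φ] G) hg
      rw [commutator_def, Subgroup.map_commutator] at h
      exact Subgroup.commutator_mono le_top le_top h
    have h2 : ∀ n : N, (inl n : N ⋊[φ] G) ∈ commutator (N ⋊[φ] G) := by
      intro n
      have hle : Subgroup.closure {x : N | ∃ (g : G) (m : N), x = φ g m * m⁻¹}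
          ≤ (commutator (N ⋊[φ] G)).comap (inl : N →* N ⋊[φ] G) := by
        rw [Subgroup.closure_le]
        rintro x ⟨g, m, rfl⟩
        change (inl (φ g m * m⁻¹) : N ⋊[φ] G) ∈ commutator _
        rw [map_mul, inl_aut, map_inv]
        have e : (inr g * inl m * (inr g)⁻¹ * inl m⁻¹ : N ⋊[φ] G)
            = ⁅(inr g : N ⋊[φ] G), inl m⁆ := by
          rw [commutatorElement_def, map_inv]
        rw [e, commutator_def]
        exact Subgroup.commutator_mem_commutator (Subgroup.mem_top _) (Subgroup.mem_top _)
      exact hle (hP n)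
    intro x _
    rw [← inl_left_mul_inr_right x]
    exact Subgroup.mul_mem _ (h2 _) (h1 _)
  have hH'co : IsCoatom H' := by
    refine ⟨?_, ?_⟩
    · intro htop
      obtain ⟨l0, hl0⟩ : ∃ l0, l0 ∉ H := by
        by_contra hcon
        push_neg at hcon
        exact hH.1 ((Subgroup.eq_top_iff' _).2 hcon)
      have : (inr l0 : N ⋊[φ] G) ∈ H' := by
        rw [htop]
        exact Subgroup.mem_top _
      exact hl0 ((memH' _).1 this)
    · intro X hX
      have hlt : H < X.comap (inr : G →* N ⋊[φ] G) := by
        refine lt_of_le_of_ne (fun h hh => hX.le ((memH' _).2 hh)) ?_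
        intro heq
        obtain ⟨x, hxX, hxH⟩ := SetLike.exists_of_lt hX
        apply hxH
        rw [memH', heq]
        change (inr x.right : N ⋊[φ] G) ∈ X
        have e : (inr x.right : N ⋊[φ] G) = (inl x.left)⁻¹ * x := by
          rw [eq_inv_mul_iff_mul_eq, inl_left_mul_inr_right]
        rw [e]
        exact X.mul_mem (X.inv_mem (hX.le (hinl _))) hxX
      have htop := hH.2 _ hlt
      rw [eq_top_iff]
      intro x _
      rw [← inl_left_mul_inr_right x]
      refine X.mul_mem (hX.le (hinl _)) ?_
      have : x.right ∈ X.comap (inr : G →* N ⋊[φ] G) := by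
        rw [htop]
        exact Subgroup.mem_top _
      exact this
  have hsol' : Group.IsSolvable H' := by
    haveI := hsol
    obtain ⟨f, hf⟩ : ∃ f : N →* H', ∀ n, (f n : N ⋊[φ] G) = inl n :=
      ⟨(inl : N →* N ⋊[φ] G).codRestrict H' hinl, fun n => rfl⟩
    obtain ⟨g, hg⟩ : ∃ g : H' →* H, ∀ x : H', (g x : G) = (x : N ⋊[φ] G).right :=
      ⟨((rightHom : N ⋊[φ] G →* G).comp H'.subtype).codRestrict H
        (fun x => (memH' _).1 x.2), fun x => rfl⟩
    haveI : Group.IsSolvable N := Group.isSolvable_of_comm (fun a b => mul_comm a b)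
    refine Group.isSolvable_of_ker_le_range f g ?_
    intro x hx
    rw [MonoidHom.mem_ker] at hx
    have hr : (x : N ⋊[φ] G).right = 1 := by
      rw [← hg, hx]
      rfl
    refine ⟨(x : N ⋊[φ] G).left, Subtype.ext ?_⟩
    rw [hf]
    ext
    · rfl
    · exact hr.symm
  refine ⟨H', hperf', hH'co, hsol', ?_⟩
  intro hbot
  obtain ⟨j, hj⟩ : ∃ j : H →* H', ∀ h : H, (j h : N ⋊[φ] G) = inr (h : G) :=
    ⟨((inr : G →* N ⋊[φ] G).comp H.subtype).codRestrict H' (fun h => (memH' _).2 h.2),
      fun h => rfl⟩
  obtain ⟨h, hhD, hh1⟩ : ∃ h : H, h ∈ derivedSeries H d ∧ h ≠ 1 := by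
    by_contra hcon
    push_neg at hcon
    exact hd ((Subgroup.eq_bot_iff_forall _).2 hcon)
  have hjD : j h ∈ derivedSeries H' d :=
    map_derivedSeries_le_derivedSeries j d (Subgroup.mem_map_of_mem j hhD)
  have hh1' : (h : G) ≠ 1 := fun e => hh1 (Subtype.ext e)
  obtain ⟨n, hn⟩ := hF (h : G) hh1'
  obtain ⟨ν, hν⟩ : ∃ ν : H', (ν : N ⋊[φ] G) = inl n := ⟨⟨inl n, hinl n⟩, rfl⟩
  haveI : (derivedSeries H' d).Normal := derivedSeries_normal _ d
  have hx : ν * j h * ν⁻¹ * (j h)⁻¹ ∈ derivedSeries H' d :=
    Subgroup.mul_mem _ (Subgroup.Normal.conj_mem inferInstance _ hjD ν) (Subgroup.inv_mem _ hjD)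
  have hcomm : ⁅ν * j h * ν⁻¹ * (j h)⁻¹, j h⁆ = 1 := by
    have h1 : ⁅ν * j h * ν⁻¹ * (j h)⁻¹, j h⁆ ∈ derivedSeries H' (d + 1) :=
      Subgroup.commutator_mem_commutator hx hjD
    rw [hbot] at h1
    exact Subgroup.mem_bot.1 h1
  have hc2 : (ν * j h * ν⁻¹ * (j h)⁻¹) * j h = j h * (ν * j h * ν⁻¹ * (j h)⁻¹) :=
    commutatorElement_eq_one_iff_mul_comm.1 hcomm
  have hc3 := congrArg (fun z : H' => (z : N ⋊[φ] G).left) hc2
  simp only [Subgroup.coe_mul, Subgroup.coe_inv, hν, hj, SemidirectProduct.mul_left,
    SemidirectProduct.mul_right, SemidirectProduct.inv_left, SemidirectProduct.inv_right,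
    left_inl, right_inl, left_inr, right_inr, map_one, map_inv, one_mul, mul_one,
    MulAut.one_apply, inv_one, mul_inv_cancel] at hc3
  apply hn
  have h4 : n / φ (h : G) n = φ (h : G) n / φ (h : G) (φ (h : G) n) := by
    rw [div_eq_mul_inv, div_eq_mul_inv]
    simpa using hc3
  have h5 := (div_eq_div_iff_mul_eq_mul).1 h4
  rw [mul_comm]
  exact h5

def sumZero (G : Type) [Fintype G] (p : ℕ) : AddSubgroup (G → ZMod p) where
  carrier := {f | ∑ x, f x = 0}
  zero_mem' := by simp
  add_mem' := by
    intro a b ha hb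
    simp only [Set.mem_setOf_eq, Pi.add_apply, Finset.sum_add_distrib] at *
    rw [ha, hb, add_zero]
  neg_mem' := by
    intro a ha
    simp only [Set.mem_setOf_eq, Pi.neg_apply, Finset.sum_neg_distrib] at *
    rw [ha, neg_zero]

theorem mem_sumZero {G : Type} [Fintype G] {p : ℕ} (f : G → ZMod p) :
    f ∈ sumZero G p ↔ ∑ x, f x = 0 := Iff.rfl

def trS {G : Type} [Group G] [Fintype G] {p : ℕ} (g : G) : sumZero G p ≃+ sumZero G p where
  toFun f := ⟨fun y => f.1 (g⁻¹ * y), by
    rw [mem_sumZero]
    have := Equiv.sum_comp (Equiv.mulLeft g⁻¹) f.1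
    simp only [Equiv.coe_mulLeft] at this
    rw [this]
    exact f.2⟩
  invFun f := ⟨fun y => f.1 (g * y), by
    rw [mem_sumZero]
    have := Equiv.sum_comp (Equiv.mulLeft g) f.1
    simp only [Equiv.coe_mulLeft] at this
    rw [this]
    exact f.2⟩
  left_inv f := by
    apply Subtype.ext
    funext y
    simp
  right_inv f := by
    apply Subtype.ext
    funext y
    simp
  map_add' a b := by
    apply Subtype.ext
    funext y
    rfl

theorem trS_apply {G : Type} [Group G] [Fintype G] {p : ℕ} (g : G) (f : sumZero G p) (y : G) :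
    (trS g f).1 y = f.1 (g⁻¹ * y) := rfl

def phi (G : Type) [Group G] [Fintype G] (p : ℕ) : G →* MulAut (Multiplicative (sumZero G p)) where
  toFun g := AddEquiv.toMultiplicative (trS g)
  map_one' := by
    apply MulEquiv.ext
    intro x
    change Multiplicative.ofAdd (trS 1 (Multiplicative.toAdd x)) = x
    have : trS (1 : G) (Multiplicative.toAdd x) = Multiplicative.toAdd x := by
      apply Subtype.ext
      funext y
      rw [trS_apply, inv_one, one_mul]
    rw [this]
    rfl
  map_mul' g h := by
    apply MulEquiv.ext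
    intro x
    change Multiplicative.ofAdd (trS (g * h) (Multiplicative.toAdd x))
      = Multiplicative.ofAdd (trS g (trS h (Multiplicative.toAdd x)))
    have : trS (g * h) (Multiplicative.toAdd x) = trS g (trS h (Multiplicative.toAdd x)) := by
      apply Subtype.ext
      funext y
      rw [trS_apply, trS_apply, trS_apply, mul_inv_rev, mul_assoc]
    rw [this]

theorem phi_apply {G : Type} [Group G] [Fintype G] {p : ℕ} (g : G) (f : sumZero G p) :
    phi G p g (Multiplicative.ofAdd f) = Multiplicative.ofAdd (trS g f) := rfl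

theorem exists_module (G : Type) [Group G] [Finite G] :
    ∃ (N : Type) (_ : CommGroup N) (_ : Finite N) (φ : G →* MulAut N),
      (∀ n : N, n ∈ Subgroup.closure {x : N | ∃ (g : G) (m : N), x = φ g m * m⁻¹}) ∧
      (∀ h : G, h ≠ 1 → ∃ n : N, φ h (φ h n) * n ≠ φ h n * φ h n) := by
  classical
  haveI : Fintype G := Fintype.ofFinite G
  obtain ⟨p, hpge, hp⟩ := Nat.exists_infinite_primes (Fintype.card G + 3)
  haveI : Fact p.Prime := ⟨hp⟩
  have hcard0 : (Fintype.card G : ZMod p) ≠ 0 := by
    intro h
    rw [ZMod.natCast_eq_zero_iff] at h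
    have := Nat.le_of_dvd Fintype.card_pos h
    omega
  have h20 : (2 : ZMod p) ≠ 0 := by
    intro h
    have h' : ((2 : ℕ) : ZMod p) = 0 := by exact_mod_cast h
    rw [ZMod.natCast_eq_zero_iff] at h'
    have := Nat.le_of_dvd (by norm_num) h'
    omega
  obtain ⟨κ, hκ⟩ : ∃ κ : ZMod p, (Fintype.card G : ZMod p) * κ = 1 :=
    ⟨(Fintype.card G : ZMod p)⁻¹, mul_inv_cancel₀ hcard0⟩
  have hvmem : (fun y : G => (if y = 1 then (1 : ZMod p) else 0) - κ) ∈ sumZero G p := by
    rw [mem_sumZero, Finset.sum_sub_distrib, Finset.sum_ite_eq' Finset.univ (1 : G),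
      if_pos (Finset.mem_univ _), Finset.sum_const, Finset.card_univ, nsmul_eq_mul, hκ, sub_self]
  obtain ⟨v, hv⟩ : ∃ v : sumZero G p, ∀ y : G,
      v.1 y = (if y = 1 then (1 : ZMod p) else 0) - κ := ⟨⟨_, hvmem⟩, fun y => rfl⟩
  refine ⟨Multiplicative (sumZero G p), inferInstance, inferInstance, phi G p, ?_, ?_⟩
  · intro n
    obtain ⟨C, hC⟩ : ∃ C : Subgroup (Multiplicative (sumZero G p)), C = Subgroup.closure
        {x : Multiplicative (sumZero G p) | ∃ (g : G) (m : Multiplicative (sumZero G p)),
          x = phi G p g m * m⁻¹} := ⟨_, rfl⟩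
    rw [← hC]
    have hw : ∀ x : G, trS x v - v ∈ Subgroup.toAddSubgroup' C := by
      intro x
      rw [Subgroup.mem_toAddSubgroup', hC]
      apply Subgroup.subset_closure
      refine ⟨x, Multiplicative.ofAdd v, ?_⟩
      rw [phi_apply, ofAdd_sub, div_eq_mul_inv]
    have hf : ∀ f : sumZero G p, f ∈ Subgroup.toAddSubgroup' C := by
      intro f
      have e : f = ∑ x : G, (f.1 x).val • (trS x v - v) := by
        apply Subtype.ext
        funext y
        rw [AddSubgroup.val_finsetSum, Finset.sum_apply]
        have e1 : ∀ x : G, (((f.1 x).val • (trS x v - v) : sumZero G p) : G → ZMod p) y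
            = f.1 x * (if x = y then 1 else 0) - f.1 x * (if y = 1 then 1 else 0) := by
          intro x
          rw [AddSubgroup.coe_nsmul, AddSubgroup.coe_sub, Pi.smul_apply, Pi.sub_apply,
            trS_apply, hv, hv, nsmul_eq_mul, ZMod.natCast_zmod_val]
          have e2 : (x⁻¹ * y = 1) ↔ (x = y) := by
            rw [inv_mul_eq_one]
          simp only [e2]
          ring
        simp only [e1]
        rw [Finset.sum_sub_distrib, ← Finset.sum_mul, (mem_sumZero _).1 f.2, zero_mul, sub_zero]
        simp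
      rw [e]
      exact AddSubgroup.sum_mem _ (fun x _ => AddSubgroup.nsmul_mem _ (hw x) _)
    have := hf (Multiplicative.toAdd n)
    rw [Subgroup.mem_toAddSubgroup'] at this
    exact this
  · intro h hh1
    refine ⟨Multiplicative.ofAdd v, ?_⟩
    intro heq
    rw [phi_apply, phi_apply, ← ofAdd_add, ← ofAdd_add] at heq
    have h1 : trS h (trS h v) + v = trS h v + trS h v := Multiplicative.ofAdd.injective heq
    have h2 := congrArg (fun f : sumZero G p => f.1 (1 : G)) h1
    simp only [AddSubgroup.coe_add, Pi.add_apply, trS_apply, hv, mul_one] at h2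
    have hh' : ¬ (h⁻¹ = 1) := fun e => hh1 (inv_eq_one.1 e)
    rw [if_neg hh'] at h2
    simp only [if_true] at h2
    by_cases h3 : h⁻¹ * h⁻¹ = 1
    · rw [if_pos h3] at h2
      apply h20
      linear_combination h2
    · rw [if_neg h3] at h2
      have : (1 : ZMod p) = 0 := by linear_combination h2
      exact one_ne_zero this

theorem solvable_normalizer {G : Type*} [Group G] [Finite G] (P : Subgroup G)
    (hP : Nat.card P = 5) (hN : Nat.card (Subgroup.normalizer (P : Set G)) = 10) :
    Group.IsSolvable (Subgroup.normalizer (P : Set G)) := by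
  haveI : Fact (Nat.Prime 5) := ⟨by norm_num⟩
  haveI : Fact (Nat.Prime 2) := ⟨by norm_num⟩
  have hPle : P ≤ Subgroup.normalizer (P : Set G) := Subgroup.le_normalizer
  haveI hnorm : (P.subgroupOf (Subgroup.normalizer (P : Set G))).Normal :=
    Subgroup.normal_in_normalizer
  have hc1 : Nat.card (P.subgroupOf (Subgroup.normalizer (P : Set G))) = 5 := by
    rw [Nat.card_congr (Subgroup.subgroupOfEquivOfLe hPle).toEquiv, hP]
  have hc2 : Nat.card (Subgroup.normalizer (P : Set G) ⧸
      P.subgroupOf (Subgroup.normalizer (P : Set G))) = 2 := by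
    have := Subgroup.card_eq_card_quotient_mul_card_subgroup
      (P.subgroupOf (Subgroup.normalizer (P : Set G)))
    rw [hN, hc1] at this
    omega
  haveI : Group.IsSolvable (P.subgroupOf (Subgroup.normalizer (P : Set G))) := by
    haveI := (IsPGroup.of_card (p := 5) (n := 1) (by rw [hc1]; norm_num)).isNilpotent
    exact IsNilpotent.to_isSolvable
  haveI : Group.IsSolvable (Subgroup.normalizer (P : Set G) ⧸
      P.subgroupOf (Subgroup.normalizer (P : Set G))) := by
    haveI := (IsPGroup.of_card (p := 2) (n := 1) (by rw [hc2]; norm_num)).isNilpotent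
    exact IsNilpotent.to_isSolvable
  exact (Group.isSolvable_iff_subgroup_quotient
    (P.subgroupOf (Subgroup.normalizer (P : Set G)))).2 ⟨inferInstance, inferInstance⟩

theorem base : ∃ (H : Subgroup (alternatingGroup (Fin 5))),
    commutator (alternatingGroup (Fin 5)) = ⊤ ∧ IsCoatom H ∧ Group.IsSolvable H ∧
      derivedSeries H 0 ≠ ⊥ := by
  haveI : Fact (Nat.Prime 5) := ⟨by norm_num⟩
  have hcard : Nat.card (alternatingGroup (Fin 5)) = 60 := by
    have h2 := two_mul_nat_card_alternatingGroup (α := Fin 5)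
    rw [Nat.card_perm, Nat.card_eq_fintype_card (α := Fin 5), Fintype.card_fin] at h2
    have : Nat.factorial 5 = 120 := by decide
    omega
  obtain ⟨P⟩ : Nonempty (Sylow 5 (alternatingGroup (Fin 5))) := inferInstance
  have hPc : Nat.card (P : Subgroup (alternatingGroup (Fin 5))) = 5 := by
    have := Cfsg.Agent.Lib_helper4_SmallSimple.card_sylow_of_card (p := 5) (k := 1) (m := 12)
      (by rw [hcard]; norm_num) (by norm_num) P
    simpa using this
  have hn5 : Nat.card (Sylow 5 (alternatingGroup (Fin 5))) = 6 := by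
    have hdvd := Cfsg.Agent.Lib_helper4_SmallSimple.card_sylow_dvd
      (G := alternatingGroup (Fin 5)) (p := 5) (k := 1) (m := 12) (by rw [hcard]; norm_num) (by norm_num)
    have hmod := card_sylow_modEq_one 5 (alternatingGroup (Fin 5))
    have hne := Cfsg.Agent.Lib_helper4_SmallSimple.card_sylow_ne_one
      (G := alternatingGroup (Fin 5)) (p := 5) (k := 1) (m := 12) (by rw [hcard]; norm_num) (by norm_num)
      (by norm_num) (by norm_num)
    have hle := Nat.le_of_dvd (by norm_num) hdvd
    unfold Nat.ModEq at hmod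
    generalize Nat.card (Sylow 5 (alternatingGroup (Fin 5))) = N at *
    interval_cases N <;> omega
  have hNc : Nat.card (Subgroup.normalizer ((P : Subgroup (alternatingGroup (Fin 5))) :
      Set (alternatingGroup (Fin 5)))) = 10 := by
    have := Cfsg.Agent.Lib_helper4_SmallSimple.card_normalizer_sylow P
    rw [hn5, hcard] at this
    omega
  refine ⟨Subgroup.normalizer ((P : Subgroup (alternatingGroup (Fin 5))) :
      Set (alternatingGroup (Fin 5))), commutator_alternatingGroup_eq_top (by simp), ?_,
    solvable_normalizer _ hPc hNc, ?_⟩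
  · refine ⟨?_, ?_⟩
    · intro htop
      rw [htop, Subgroup.card_top, hcard] at hNc
      omega
    · intro X hX
      by_contra hXtop
      have hfac := Cfsg.Agent.Lib_helper4_SmallSimple.card_dvd_factorial_index X hXtop
      rw [hcard] at hfac
      have h1 := Subgroup.card_mul_index X
      rw [hcard] at h1
      have h2 : 10 ∣ Nat.card X := by
        rw [← hNc]
        exact Subgroup.card_dvd_of_le hX.le
      have h3 : Nat.card X ≠ 10 := by
        intro h
        have := Subgroup.eq_of_le_of_card_ge hX.le (by rw [h, hNc])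
        exact hX.ne this
      obtain ⟨t, ht⟩ := h2
      have ht2 : 2 ≤ t := by
        rcases t with _ | _ | t
        · rw [ht] at h1
          simp at h1
        · omega
        · omega
      rw [ht] at h1
      have hi : X.index ≤ 3 := by nlinarith
      have hi0 : X.index ≠ 1 := fun h => hXtop (Subgroup.index_eq_one.1 h)
      have hi1 : X.index ≠ 0 := by
        intro h
        rw [h] at h1
        omega
      generalize X.index = i at *
      interval_cases i
      · omega
      · omega
      · norm_num [Nat.factorial] at hfac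
      · norm_num [Nat.factorial] at hfac
  · rw [derivedSeries_zero]
    intro h
    have : Nat.card (Subgroup.normalizer ((P : Subgroup (alternatingGroup (Fin 5))) :
        Set (alternatingGroup (Fin 5)))) = 1 := by
      rw [← Subgroup.card_top (G := Subgroup.normalizer
        ((P : Subgroup (alternatingGroup (Fin 5))) : Set (alternatingGroup (Fin 5)))), h,
        Subgroup.card_bot]
    omega


/-- Finite perfect groups have solvable maximal subgroups of unbounded derived length: for every d there is a finite perfect group G (equal to its commutator subgroup) with a solvable maximal subgroup H whose derived length exceeds d, i.e. the d-th term of the derived series of H is non-trivial. (Take the derived subgroup of a wreath product S ≀ A₅ with S solvable of large derived length, and H the preimage of a maximal subgroup of A₅.) -/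
theorem result (d : ℕ) :
    ∃ (G : Type) (_ : Group G) (_ : Finite G) (H : Subgroup G), commutator G = ⊤ ∧ IsCoatom H ∧ Group.IsSolvable H ∧
      derivedSeries H d ≠ ⊥ := by
  induction d with
  | zero =>
    obtain ⟨H, h⟩ := base
    exact ⟨alternatingGroup (Fin 5), inferInstance, inferInstance, H, h⟩
  | succ d ih =>
    obtain ⟨G, _, _, H, hperf, hH, hsol, hd⟩ := ih
    obtain ⟨N, _, _, φ, hP, hF⟩ := exists_module G
    obtain ⟨H', h⟩ := step_abstract φ hP hF hperf H hH hsol d hd
    exact ⟨N ⋊[φ] G, inferInstance, Finite.of_equiv _ SemidirectProduct.equivProd.symm, H', h⟩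

end Cfsg.Agent.S5896
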