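import Cfsg.Statements.S5902
import Mathlib
import Cfsg.Agent.S5901

set_option autoImplicit false
open Cfsg

namespace Cfsg.Agent.S5902

/-- Let G be a finite group, X a subgroup whose own subgroup lattice is complemented, and suppose X lies in exactly one maximal subgroup M of G. Then every subgroup H of G not contained in the normal core of M has a complement in the subgroup lattice of G (some C with H ⊔ C = G and H ⊓ C = 1); in particular the subgroup lattice of G modulo the normal core of M is complemented. -/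
theorem result {G : Type*} [Group G] [Finite G] (X M : Subgroup G)
    (hK : ComplementedLattice (Subgroup X))
    (hM : IsCoatom M) (hXM : X ≤ M) (huniq : ∀ M' : Subgroup G, IsCoatom M' → X ≤ M' → M' = M) :
    (∀ H : Subgroup G, ¬ H ≤ M.normalCore → ∃ C : Subgroup G, H ⊔ C = ⊤ ∧ H ⊓ C = ⊥) ∧
    ComplementedLattice (Subgroup (G ⧸ M.normalCore)) := by
  have hXtop : X ≠ ⊤ := by
    rintro rfl
    exact hM.1 (top_le_iff.mp hXM)
  have hint : ∀ Y : Subgroup G, (⊥ : Subgroup G) ≤ Y → Y ≤ X →
      ∃ C : Subgroup G, (⊥ : Subgroup G) ≤ C ∧ C ≤ X ∧ Y ⊔ C = X ∧ Y ⊓ C = ⊥ := by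
    intro Y _ hYX
    obtain ⟨C', hC'⟩ := hK.exists_isCompl (Y.subgroupOf X)
    refine ⟨C'.map X.subtype, bot_le, ?_, ?_, ?_⟩
    · intro x hx
      obtain ⟨y, -, rfl⟩ := hx
      exact y.2
    · have h1 : (Y.subgroupOf X).map X.subtype = Y := Subgroup.map_subgroupOf_eq_of_le hYX
      nth_rewrite 1 [← h1]
      rw [← Subgroup.map_sup, hC'.sup_eq_top, ← MonoidHom.range_eq_map, Subgroup.range_subtype]
    · have h1 : (Y.subgroupOf X).map X.subtype = Y := Subgroup.map_subgroupOf_eq_of_le hYX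
      nth_rewrite 1 [← h1]
      rw [← Subgroup.map_inf _ _ _ X.subtype_injective, hC'.inf_eq_bot, Subgroup.map_bot]
  have partA : ∀ H : Subgroup G, ¬ H ≤ M.normalCore → ∃ C : Subgroup G, H ⊔ C = ⊤ ∧ H ⊓ C = ⊥ := by
    intro H hH
    obtain ⟨h, hhH, hhM⟩ := SetLike.not_le_iff_exists.mp hH
    have hb : ∃ b : G, b * h * b⁻¹ ∉ M := by
      by_contra hcon
      apply hhM
      intro b
      by_contra hb
      exact hcon ⟨b, hb⟩
    obtain ⟨b, hb⟩ := hb
    have hH' : ¬ H.map (MulAut.conj b).toMonoidHom ≤ M := by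
      intro hle
      apply hb
      apply hle
      exact ⟨h, hhH, by simp⟩
    obtain ⟨C', hC1, hC2⟩ := Cfsg.Agent.S5901.result ⊥ X M bot_le hXtop hint hM hXM huniq
      (H.map (MulAut.conj b).toMonoidHom) hH' (inf_bot_eq _)
    have hinj : Function.Injective (MulAut.conj b⁻¹).toMonoidHom := (MulAut.conj b⁻¹).injective
    have hsurj : Function.Surjective (MulAut.conj b⁻¹).toMonoidHom := (MulAut.conj b⁻¹).surjective
    have hHH : (H.map (MulAut.conj b).toMonoidHom).map (MulAut.conj b⁻¹).toMonoidHom = H := by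
      rw [Subgroup.map_map]
      have : (MulAut.conj b⁻¹).toMonoidHom.comp (MulAut.conj b).toMonoidHom = MonoidHom.id G := by
        ext x
        simp [mul_assoc]
      rw [this, Subgroup.map_id]
    refine ⟨C'.map (MulAut.conj b⁻¹).toMonoidHom, ?_, ?_⟩
    · nth_rewrite 1 [← hHH]
      rw [← Subgroup.map_sup, hC1, Subgroup.map_top_of_surjective _ hsurj]
    · nth_rewrite 1 [← hHH]
      rw [← Subgroup.map_inf _ _ _ hinj, hC2, Subgroup.map_bot]
  refine ⟨partA, ⟨fun Hbar => ?_⟩⟩
  by_cases hbot : Hbar = ⊥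
  · exact ⟨⊤, hbot ▸ isCompl_bot_top⟩
  · have hsurj : Function.Surjective (QuotientGroup.mk' M.normalCore) := QuotientGroup.mk'_surjective _
    have hH : ¬ Hbar.comap (QuotientGroup.mk' M.normalCore) ≤ M.normalCore := by
      intro hle
      apply hbot
      rw [eq_bot_iff, ← Subgroup.map_comap_eq_self_of_surjective hsurj Hbar]
      intro x hx
      obtain ⟨y, hy, rfl⟩ := hx
      rw [Subgroup.mem_bot, QuotientGroup.mk'_apply, QuotientGroup.eq_one_iff]
      exact hle hy
    obtain ⟨C, hC1, hC2⟩ := partA _ hH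
    refine ⟨C.map (QuotientGroup.mk' M.normalCore), IsCompl.of_eq ?_ ?_⟩
    · rw [eq_bot_iff]
      intro x hx
      obtain ⟨hx1, hx2⟩ := hx
      obtain ⟨c, hc, rfl⟩ := hx2
      have hcH : c ∈ Hbar.comap (QuotientGroup.mk' M.normalCore) := hx1
      have : c ∈ Hbar.comap (QuotientGroup.mk' M.normalCore) ⊓ C := ⟨hcH, hc⟩
      rw [hC2, Subgroup.mem_bot] at this
      rw [this, map_one]
      exact Subgroup.one_mem _
    · nth_rewrite 1 [← Subgroup.map_comap_eq_self_of_surjective hsurj Hbar]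
      rw [← Subgroup.map_sup, hC1, Subgroup.map_top_of_surjective _ hsurj]

end Cfsg.Agent.S5902
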