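import Cfsg.Statements.S5903
import Mathlib

set_option autoImplicit false
open Cfsg

namespace Cfsg.Agent.S5903

section
variable {G : Type*} [Group G] [Finite G] [IsSimpleGroup G]

theorem exists_compl_aux (X M N H : Subgroup G)
    (huniq : ∀ M' : Subgroup G, IsCoatom M' → X ≤ M' → M' = M)
    (hN : (Nat.card N).Prime)
    [(N.subgroupOf X).Normal] (hK : ComplementedLattice (Subgroup (X ⧸ N.subgroupOf X)))
    (hNH : ¬ N ≤ H) (hHM : ¬ H ≤ M) : ∃ K : Subgroup G, IsCompl H K := by
  obtain ⟨Cb, hCb⟩ := hK.exists_isCompl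
    (((H ⊓ X).subgroupOf X ⊔ N.subgroupOf X).map (QuotientGroup.mk' (N.subgroupOf X)))
  have hNC : N.subgroupOf X ≤ Cb.comap (QuotientGroup.mk' (N.subgroupOf X)) := by
    intro x hx
    rw [Subgroup.mem_comap]
    have : QuotientGroup.mk' (N.subgroupOf X) x = 1 := (QuotientGroup.eq_one_iff x).2 hx
    rw [this]; exact Cb.one_mem
  have hNH' : N ⊓ H = ⊥ := by
    have hd : Nat.card (N ⊓ H : Subgroup G) ∣ Nat.card N := Subgroup.card_dvd_of_le inf_le_left
    rcases (Nat.dvd_prime hN).1 hd with h | h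
    · exact Subgroup.card_eq_one.1 h
    · exfalso
      have : (N ⊓ H : Subgroup G) = N := Subgroup.eq_of_le_of_card_ge inf_le_left (le_of_eq h.symm)
      exact hNH (this ▸ inf_le_right)
  refine ⟨(Cb.comap (QuotientGroup.mk' (N.subgroupOf X))).map X.subtype, ?_⟩
  constructor
  · rw [disjoint_iff, eq_bot_iff]
    rintro x ⟨hxH, ⟨c, hc, rfl⟩⟩
    have hcD : c ∈ (H ⊓ X).subgroupOf X ⊔ N.subgroupOf X :=
      Subgroup.mem_sup_left (by rw [Subgroup.mem_subgroupOf]; exact ⟨hxH, c.2⟩)
    have h1 : QuotientGroup.mk' (N.subgroupOf X) c ∈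
        ((H ⊓ X).subgroupOf X ⊔ N.subgroupOf X).map (QuotientGroup.mk' (N.subgroupOf X)) ⊓ Cb :=
      ⟨Subgroup.mem_map_of_mem _ hcD, hc⟩
    rw [hCb.inf_eq_bot, Subgroup.mem_bot] at h1
    have hcN : c ∈ N.subgroupOf X := (QuotientGroup.eq_one_iff c).1 h1
    have hcN' : (c : G) ∈ N := hcN
    have : (c : G) ∈ N ⊓ H := ⟨hcN', hxH⟩
    rw [hNH'] at this
    exact this
  · rw [codisjoint_iff]
    by_contra hne
    obtain ⟨M', hM', hle⟩ := (eq_top_or_exists_le_coatom
      (H ⊔ (Cb.comap (QuotientGroup.mk' (N.subgroupOf X))).map X.subtype)).resolve_left hne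
    have hXL : X ≤ H ⊔ (Cb.comap (QuotientGroup.mk' (N.subgroupOf X))).map X.subtype := by
      have h1 : (((H ⊓ X).subgroupOf X ⊔ N.subgroupOf X) ⊔
          Cb.comap (QuotientGroup.mk' (N.subgroupOf X))).map (QuotientGroup.mk' (N.subgroupOf X))
          = ⊤ := by
        rw [Subgroup.map_sup, Subgroup.map_comap_eq_self_of_surjective
          (QuotientGroup.mk'_surjective (N.subgroupOf X)), hCb.sup_eq_top]
      have h2 : ((H ⊓ X).subgroupOf X ⊔ N.subgroupOf X) ⊔
          Cb.comap (QuotientGroup.mk' (N.subgroupOf X)) = ⊤ := by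
        have hker : (QuotientGroup.mk' (N.subgroupOf X)).ker ≤ ((H ⊓ X).subgroupOf X ⊔ N.subgroupOf X) ⊔
            Cb.comap (QuotientGroup.mk' (N.subgroupOf X)) := by
          rw [QuotientGroup.ker_mk']; exact le_sup_of_le_right hNC
        have := Subgroup.comap_map_eq_self hker
        rw [h1, Subgroup.comap_top] at this
        exact this.symm
      have h3 : ((H ⊓ X).subgroupOf X ⊔ N.subgroupOf X) ⊔
          Cb.comap (QuotientGroup.mk' (N.subgroupOf X))
          = (H ⊓ X).subgroupOf X ⊔ Cb.comap (QuotientGroup.mk' (N.subgroupOf X)) := by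
        rw [sup_assoc, sup_eq_right.2 hNC]
      rw [h3] at h2
      have h4 : ((H ⊓ X).subgroupOf X ⊔ Cb.comap (QuotientGroup.mk' (N.subgroupOf X))).map
          X.subtype = X := by
        rw [h2, ← MonoidHom.range_eq_map, Subgroup.range_subtype]
      rw [Subgroup.map_sup, Subgroup.subgroupOf_map_subtype] at h4
      calc X = (H ⊓ X ⊓ X) ⊔ (Cb.comap (QuotientGroup.mk' (N.subgroupOf X))).map X.subtype :=
            h4.symm
        _ ≤ H ⊔ (Cb.comap (QuotientGroup.mk' (N.subgroupOf X))).map X.subtype :=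
            sup_le_sup_right (inf_le_left.trans inf_le_left) _
    have hMM := huniq M' hM' (hXL.trans hle)
    exact hHM (le_sup_left.trans (hMM ▸ hle))

theorem exists_good (M N H : Subgroup G) (hM : IsCoatom M) (hN : (Nat.card N).Prime)
    (hcen : ∀ n ∈ N, ∀ m ∈ M, m * n = n * m) (hH0 : H ≠ ⊥) (hH1 : H ≠ ⊤) :
    ∃ g : G, ¬ (∀ n ∈ N, g * n * g⁻¹ ∈ H) ∧ ¬ (∀ h ∈ H, g⁻¹ * h * g ∈ M) := by
  by_contra hcon
  have hall : ∀ g : G, (∀ n ∈ N, g * n * g⁻¹ ∈ H) ∨ (∀ h ∈ H, g⁻¹ * h * g ∈ M) := by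
    intro g
    by_contra h
    push Not at h
    apply hcon
    refine ⟨g, ?_, ?_⟩
    · intro h1
      obtain ⟨⟨n, hn, hn'⟩, -⟩ := h
      exact hn' (h1 n hn)
    · intro h1
      obtain ⟨-, ⟨x, hx, hx'⟩⟩ := h
      exact hx' (h1 x hx)
  set P : Subgroup G := Subgroup.closure
    {x | ∃ g n, (∀ n' ∈ N, g * n' * g⁻¹ ∈ H) ∧ n ∈ N ∧ x = g * n * g⁻¹} with hP
  have hPH : P ≤ H := by
    rw [hP, Subgroup.closure_le]
    rintro _ ⟨g, n, hg, hn, rfl⟩
    exact hg n hn
  have hnorm : ∀ g n, n ∈ N → g * n * g⁻¹ ∈ Subgroup.normalizer (P : Set G) := by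
    intro g n hn
    by_cases hg : ∀ n' ∈ N, g * n' * g⁻¹ ∈ H
    · exact Subgroup.le_normalizer (Subgroup.subset_closure ⟨g, n, hg, hn, rfl⟩)
    · have hHM : ∀ h ∈ H, g⁻¹ * h * g ∈ M := (hall g).resolve_left hg
      apply Subgroup.centralizer_le_normalizer
      rw [Subgroup.mem_centralizer_iff]
      intro x hx
      have hle : P ≤ Subgroup.centralizer {g * n * g⁻¹} := by
        rw [hP, Subgroup.closure_le]
        rintro _ ⟨t, n', ht, hn', rfl⟩
        rw [SetLike.mem_coe, Subgroup.mem_centralizer_iff]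
        rintro _ rfl
        have hm := hHM _ (ht n' hn')
        have hc := hcen n hn _ hm
        calc g * n * g⁻¹ * (t * n' * t⁻¹)
            = g * (n * (g⁻¹ * (t * n' * t⁻¹) * g)) * g⁻¹ := by group
          _ = g * ((g⁻¹ * (t * n' * t⁻¹) * g) * n) * g⁻¹ := by rw [hc]
          _ = t * n' * t⁻¹ * (g * n * g⁻¹) := by group
      have h2 := hle hx
      rw [Subgroup.mem_centralizer_iff] at h2
      exact (h2 _ rfl).symm
  have hN1 : N ≠ ⊥ := by
    intro h
    rw [h, Subgroup.card_bot] at hN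
    exact Nat.not_prime_one hN
  have hPnormal : P.Normal := by
    rw [← Subgroup.normalizer_eq_top_iff, eq_top_iff]
    have hNC : Subgroup.normalClosure (N : Set G) = ⊤ := by
      have hne : Subgroup.normalClosure (N : Set G) ≠ ⊥ := by
        intro h
        have h1 : N ≤ Subgroup.normalClosure (N : Set G) := Subgroup.le_normalClosure
        rw [h] at h1
        exact hN1 (le_bot_iff.1 h1)
      exact (Subgroup.normalClosure_normal.eq_bot_or_eq_top).resolve_left hne
    rw [← hNC, Subgroup.normalClosure, Subgroup.closure_le]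
    intro x hx
    rw [Group.mem_conjugatesOfSet_iff] at hx
    obtain ⟨n, hn, hconj⟩ := hx
    obtain ⟨c, rfl⟩ := isConj_iff.1 hconj
    exact hnorm c n hn
  have hPtop : P ≠ ⊤ := fun h => hH1 (top_le_iff.1 (h ▸ hPH))
  have hPbot : P ≠ ⊥ := by
    have hex : ∃ g : G, ∀ n' ∈ N, g * n' * g⁻¹ ∈ H := by
      by_contra hno
      push Not at hno
      have hcore : H ≤ M.normalCore := by
        intro h hh b
        have h1 := (hall b⁻¹).resolve_left (by
          intro h2
          obtain ⟨n', hn', hn''⟩ := hno b⁻¹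
          exact hn'' (h2 n' hn'))
        have h2 := h1 h hh
        rwa [inv_inv] at h2
      have hcb : M.normalCore = ⊥ := by
        rcases (Subgroup.normalCore_normal M).eq_bot_or_eq_top with h | h
        · exact h
        · exfalso
          exact hM.1 (top_le_iff.1 (h ▸ Subgroup.normalCore_le M))
      rw [hcb] at hcore
      exact hH0 (le_bot_iff.1 hcore)
    obtain ⟨g, hg⟩ := hex
    obtain ⟨n, hn⟩ := (Subgroup.ne_bot_iff_exists_ne_one).1 hN1
    intro hbot
    have hmem : g * (n : G) * g⁻¹ ∈ P := Subgroup.subset_closure ⟨g, n, hg, n.2, rfl⟩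
    rw [hbot, Subgroup.mem_bot] at hmem
    apply hn
    apply Subtype.ext
    have : (n : G) = g⁻¹ * (g * (n : G) * g⁻¹) * g := by group
    rw [this, hmem]; simp
  rcases hPnormal.eq_bot_or_eq_top with h | h
  · exact hPbot h
  · exact hPtop h

end


/-- Let G be a finite simple group, X a subgroup lying in exactly one maximal subgroup M of G, and N a subgroup of prime order with N ≤ X that is central in M. If the subgroup lattice of X/N is complemented, then the subgroup lattice of G is complemented. -/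
theorem result {G : Type*} [Group G] [Finite G] [IsSimpleGroup G] (X M N : Subgroup G)
    (hM : IsCoatom M) (hXM : X ≤ M) (huniq : ∀ M' : Subgroup G, IsCoatom M' → X ≤ M' → M' = M)
    (hNX : N ≤ X) (hN : (Nat.card N).Prime) (hcen : ∀ n ∈ N, ∀ m ∈ M, m * n = n * m)
    [(N.subgroupOf X).Normal] (hK : ComplementedLattice (Subgroup (X ⧸ N.subgroupOf X))) :
    ComplementedLattice (Subgroup G) := by
  constructor
  intro H
  by_cases hH0 : H = ⊥
  · exact ⟨⊤, hH0 ▸ isCompl_bot_top⟩
  by_cases hH1 : H = ⊤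
  · exact ⟨⊥, hH1 ▸ isCompl_top_bot⟩
  obtain ⟨g, hg1, hg2⟩ := exists_good M N H hM hN hcen hH0 hH1
  have hNH' : ¬ N ≤ H.comap (MulAut.conj g).toMonoidHom := fun h => hg1 (fun n hn => h hn)
  have hH'M : ¬ H.comap (MulAut.conj g).toMonoidHom ≤ M := fun h => hg2 (fun x hx => by
    have : g⁻¹ * x * g ∈ H.comap (MulAut.conj g).toMonoidHom := by
      rw [Subgroup.mem_comap]
      change g * (g⁻¹ * x * g) * g⁻¹ ∈ H
      have e : g * (g⁻¹ * x * g) * g⁻¹ = x := by group
      rw [e]; exact hx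
    exact h this)
  obtain ⟨K', hK'⟩ := exists_compl_aux X M N (H.comap (MulAut.conj g).toMonoidHom) huniq hN hK
    hNH' hH'M
  refine ⟨K'.map (MulAut.conj g).toMonoidHom, ?_⟩
  have hHeq : H = (H.comap (MulAut.conj g).toMonoidHom).map (MulAut.conj g).toMonoidHom := by
    rw [Subgroup.map_comap_eq_self_of_surjective (MulAut.conj g).surjective]
  rw [hHeq]
  exact (MulEquiv.mapSubgroup (MulAut.conj g)).isCompl hK'

end Cfsg.Agent.S5903
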