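import Cfsg.Statements.S5904
import Mathlib

set_option autoImplicit false
open scoped Pointwise
open Cfsg

namespace Cfsg.Agent.S5904

/-- Let Ω be a finite set with more than two elements and O ⊆ Ω a subset with exactly as many elements as its complement. Then the setwise stabilizer of O in the symmetric group on Ω is not a maximal subgroup (it is properly contained in the stabilizer of the partition {O, Ω ∖ O}, which is proper). -/
theorem result {Ω : Type*} [Fintype Ω] [DecidableEq Ω] (hΩ : 2 < Fintype.card Ω)
    (O : Set Ω) (hO : Nat.card O = Nat.card ↥Oᶜ) :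
    ¬ IsCoatom (MulAction.stabilizer (Equiv.Perm Ω) O) := by
  classical
  intro hco
  have hcard : O.ncard + Oᶜ.ncard = Fintype.card Ω := by
    rw [Set.ncard_add_ncard_compl, Nat.card_eq_fintype_card]
  rw [Nat.card_coe_set_eq, Nat.card_coe_set_eq] at hO
  have h2 : 1 < O.ncard := by omega
  have h2' : 0 < Oᶜ.ncard := by omega
  obtain ⟨a, a', ha, ha', hne⟩ := (Set.one_lt_ncard_iff).mp h2
  obtain ⟨b, hb⟩ := Set.nonempty_of_ncard_ne_zero h2'.ne'
  -- the stabiliser of the partition
  let K : Subgroup (Equiv.Perm Ω) :=
    { carrier := {g | g • O = O ∨ g • O = Oᶜ}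
      one_mem' := Or.inl (one_smul _ _)
      mul_mem' := by
        intro g h hg hh
        show (g * h) • O = O ∨ (g * h) • O = Oᶜ
        rw [mul_smul]
        rcases hh with hh | hh
        · rw [hh]; exact hg
        · rw [hh, Set.smul_set_compl]
          rcases hg with hg | hg
          · right; rw [hg]
          · left; rw [hg, compl_compl]
      inv_mem' := by
        intro g hg
        show g⁻¹ • O = O ∨ g⁻¹ • O = Oᶜ
        rcases hg with hg | hg
        · left
          nth_rewrite 1 [← hg]
          rw [inv_smul_smul]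
        · right
          have h3 : g⁻¹ • Oᶜ = O := by rw [← hg, inv_smul_smul]
          rw [Set.smul_set_compl] at h3
          exact (compl_eq_comm.mp h3).symm }
  have hle : MulAction.stabilizer (Equiv.Perm Ω) O ≤ K := by
    intro g hg
    exact Or.inl (MulAction.mem_stabilizer_iff.mp hg)
  -- an element exchanging O and its complement
  obtain ⟨e⟩ : Nonempty ({x // x ∈ O} ≃ {x // x ∈ Oᶜ}) := by
    have : Nat.card {x // x ∈ O} = Nat.card {x // x ∈ Oᶜ} := hO
    exact (Finite.card_eq).mp this
  have hgO : e.extendSubtype • O = Oᶜ := by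
    ext x
    rw [Set.mem_smul_set_iff_inv_smul_mem]
    constructor
    · intro hx
      have := e.extendSubtype_mem _ hx
      rwa [Equiv.Perm.smul_def, Equiv.Perm.inv_def, Equiv.apply_symm_apply] at this
    · intro hx
      by_contra hcon
      have := e.extendSubtype_not_mem _ hcon
      rw [Equiv.Perm.smul_def, Equiv.Perm.inv_def, Equiv.apply_symm_apply] at this
      exact this hx
  have hlt : MulAction.stabilizer (Equiv.Perm Ω) O < K := by
    refine SetLike.lt_iff_le_and_exists.mpr ⟨hle, e.extendSubtype, Or.inr hgO, ?_⟩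
    intro hmem
    rw [MulAction.mem_stabilizer_iff, hgO] at hmem
    have : a ∈ Oᶜ := by rw [hmem]; exact ha
    exact this ha
  have htop := hco.2 K hlt
  have hsw : Equiv.swap a b ∈ K := by rw [htop]; trivial
  have hab : a ≠ b := fun h => hb (h ▸ ha)
  have ha'b : a' ≠ b := fun h => hb (h ▸ ha')
  rcases hsw with h | h
  · have hbm : b ∈ Equiv.swap a b • O := by
      rw [Set.mem_smul_set_iff_inv_smul_mem, Equiv.swap_inv, Equiv.Perm.smul_def, Equiv.swap_apply_right]
      exact ha
    rw [h] at hbm
    exact hb hbm
  · have ham : a' ∈ Equiv.swap a b • O := by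
      rw [Set.mem_smul_set_iff_inv_smul_mem, Equiv.swap_inv, Equiv.Perm.smul_def,
        Equiv.swap_apply_of_ne_of_ne (Ne.symm hne) ha'b]
      exact ha'
    rw [h] at ham
    exact ham ha'

end Cfsg.Agent.S5904
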