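import Cfsg.Statements.S5908
import Mathlib
import Cfsg.Agent.S0827

set_option autoImplicit false
open Cfsg

namespace Cfsg.Agent.S5908

theorem q1 : ∀ g : QuaternionGroup 2, g ≠ 1 →
    g = QuaternionGroup.a 2 ∨ g ^ 2 = QuaternionGroup.a 2 := by decide +kernel

theorem q2 : (QuaternionGroup.a 2 : QuaternionGroup 2) ^ 2 = 1 := by decide +kernel

theorem q3 : (QuaternionGroup.a 1 : QuaternionGroup 2) ^ 2 ≠ 1 := by decide +kernel

theorem q4 : (QuaternionGroup.a 2 : QuaternionGroup 2) ≠ 1 := by decide +kernel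

theorem sq_zpow {H : Type*} [Group H] (z : H) (hz : z ^ 2 = 1) (k : ℤ) : (z ^ k) ^ 2 = 1 := by
  rw [pow_two, ← zpow_add, ← two_mul, zpow_mul, zpow_two, ← pow_two, hz, one_zpow]

theorem core {G : Type*} [Group G] (N : Subgroup G) [N.Normal]
    (ε : G ⧸ N ≃* QuaternionGroup 2) : ¬ ComplementedLattice (Subgroup G) := by
  intro hc
  obtain ⟨ρ, hρ⟩ : ∃ ρ : G →* QuaternionGroup 2, Function.Surjective ρ :=
    ⟨ε.toMonoidHom.comp (QuotientGroup.mk' N),
      ε.surjective.comp (QuotientGroup.mk'_surjective N)⟩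
  obtain ⟨X, hX⟩ := hc.exists_isCompl ((Subgroup.zpowers (QuaternionGroup.a 2 :
    QuaternionGroup 2)).comap ρ)
  have hsup : Subgroup.zpowers (QuaternionGroup.a 2 : QuaternionGroup 2) ⊔ X.map ρ = ⊤ := by
    rw [eq_top_iff, ← Subgroup.map_top_of_surjective ρ hρ, ← hX.sup_eq_top, Subgroup.map_sup]
    exact sup_le_sup_right (Subgroup.map_comap_le _ _) _
  have hz2 : ∀ g ∈ Subgroup.zpowers (QuaternionGroup.a 2 : QuaternionGroup 2), g ^ 2 = 1 := by
    intro g hg
    obtain ⟨k, rfl⟩ := Subgroup.mem_zpowers_iff.mp hg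
    exact sq_zpow _ q2 k
  have hzK : (QuaternionGroup.a 2 : QuaternionGroup 2) ∈ X.map ρ := by
    by_cases hK : X.map ρ = ⊥
    · exfalso
      rw [hK, sup_bot_eq] at hsup
      have h1 : (QuaternionGroup.a 1 : QuaternionGroup 2) ∈
          Subgroup.zpowers (QuaternionGroup.a 2 : QuaternionGroup 2) := by
        rw [hsup]; exact Subgroup.mem_top _
      exact q3 (hz2 _ h1)
    · obtain ⟨⟨g, hg⟩, hg1⟩ := (Subgroup.ne_bot_iff_exists_ne_one.mp hK)
      rcases q1 g (fun h => hg1 (Subtype.ext h)) with h | h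
      · rw [← h]; exact hg
      · rw [← h]; exact pow_mem hg 2
  obtain ⟨x, hxX, hxz⟩ := Subgroup.mem_map.mp hzK
  have hxH : x ∈ (Subgroup.zpowers (QuaternionGroup.a 2 : QuaternionGroup 2)).comap ρ := by
    rw [Subgroup.mem_comap, hxz]
    exact Subgroup.mem_zpowers _
  have hx1 : x ∈ ((Subgroup.zpowers (QuaternionGroup.a 2 : QuaternionGroup 2)).comap ρ) ⊓ X :=
    ⟨hxH, hxX⟩
  rw [hX.inf_eq_bot, Subgroup.mem_bot] at hx1
  rw [hx1, map_one] at hxz
  exact q4 hxz.symm


/-- The subgroup lattice of PSU₃(2) (the solvable group of order 72, realised over the field with 4 elements) is not complemented: some subgroup H has no subgroup X with H ⊔ X = ⊤ and H ⊓ X = ⊥. -/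
theorem result {F : Type*} [Field F] [Fintype F] (hF : Fintype.card F = 4) :
    ¬ ComplementedLattice (Subgroup (Cfsg.PSU 3 F 2)) := by
  obtain ⟨N, hN, _, _, ⟨ε⟩⟩ := Cfsg.Agent.S0827.result hF
  exact core N ε

end Cfsg.Agent.S5908
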