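import Cfsg.Statements.S5910
import Mathlib

set_option autoImplicit false
open Cfsg

namespace Cfsg.Agent.S5910

abbrev M := Fin 4 × Bool

def x3 (i j k : Fin 4) : Fin 4 := ⟨(i.val ^^^ j.val ^^^ k.val) % 4, Nat.mod_lt _ (by norm_num)⟩

def T (x y z : M) : M := (x3 x.1 y.1 z.1, xor x.2 (xor y.2 z.2))

theorem L1aux : ∀ a b c d : Fin 4,
    (a ≠ b ∧ a ≠ c ∧ a ≠ d ∧ b ≠ c ∧ b ≠ d ∧ c ≠ d) → x3 a b c = d := by
  decide

theorem L1 : ∀ a b c d : Fin 4, a ≠ b → a ≠ c → a ≠ d → b ≠ c → b ≠ d → c ≠ d → x3 a b c = d := by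
  intro a b c d h1 h2 h3 h4 h5 h6
  exact L1aux a b c d ⟨h1, h2, h3, h4, h5, h6⟩

theorem L2a : ∀ i k : Fin 4, x3 i i k = k := by decide
theorem L2b : ∀ i j : Fin 4, x3 i j j = i := by decide
theorem L2c : ∀ i j : Fin 4, x3 i j i = j := by decide

theorem L3aux : ∀ i j k : Fin 4, (i ≠ j ∧ j ≠ k ∧ i ≠ k) →
    x3 i j k ≠ i ∧ x3 i j k ≠ j ∧ x3 i j k ≠ k := by decide

theorem L3 : ∀ i j k : Fin 4, i ≠ j → j ≠ k → i ≠ k →
    x3 i j k ≠ i ∧ x3 i j k ≠ j ∧ x3 i j k ≠ k := by
  intro i j k h1 h2 h3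
  exact L3aux i j k ⟨h1, h2, h3⟩

theorem Lπ (π : Equiv.Perm (Fin 4)) (i j k : Fin 4) : π (x3 i j k) = x3 (π i) (π j) (π k) := by
  by_cases hij : i = j
  · subst hij; rw [L2a, L2a]
  by_cases hjk : j = k
  · subst hjk; rw [L2b, L2b]
  by_cases hik : i = k
  · subst hik; rw [L2c, L2c]
  obtain ⟨h1, h2, h3⟩ := L3 i j k hij hjk hik
  exact (L1 (π i) (π j) (π k) (π (x3 i j k)) (π.injective.ne hij) (π.injective.ne hik)
    (π.injective.ne (Ne.symm h1)) (π.injective.ne hjk) (π.injective.ne (Ne.symm h2))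
    (π.injective.ne (Ne.symm h3))).symm

theorem L4 (ε : Equiv.Perm Bool) (b : Bool) : ε b = xor b (ε false) := by
  cases b
  · simp
  · have h : ε true ≠ ε false := ε.injective.ne (by decide)
    revert h
    generalize ε true = u
    generalize ε false = v
    revert u v
    decide

theorem L5 : ∀ c0 c1 c2 c3 : Bool, xor c0 (xor c1 (xor c2 c3)) = false →
    ∀ i j k : Fin 4, (![c0, c1, c2, c3] (x3 i j k)) =
      xor (![c0, c1, c2, c3] i) (xor (![c0, c1, c2, c3] j) (![c0, c1, c2, c3] k)) := by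
  decide

theorem L6 (ε : Equiv.Perm Bool) :
    Equiv.Perm.sign ε = if ε false = true then -1 else 1 := by
  by_cases h : ε false = true
  · have : ε = Equiv.swap false true := by
      ext b
      rw [L4 ε b, h]
      cases b <;> rfl
    rw [if_pos h, this, Equiv.Perm.sign_swap (by decide)]
  · have h' : ε false = false := by simpa using h
    have : ε = 1 := by
      ext b
      rw [L4 ε b, h']
      cases b <;> rfl
    rw [if_neg h, this, Equiv.Perm.sign_one]

theorem L7 : ∀ c0 c1 c2 c3 : Bool,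
    ((if c0 = true then (-1 : ℤˣ) else 1) * (if c1 = true then (-1 : ℤˣ) else 1) *
      (if c2 = true then (-1 : ℤˣ) else 1) * (if c3 = true then (-1 : ℤˣ) else 1) = 1) →
    xor c0 (xor c1 (xor c2 c3)) = false := by
  decide

def K₀ : Subgroup (Equiv.Perm M) where
  carrier := {g | ∀ x y z, g (T x y z) = T (g x) (g y) (g z)}
  mul_mem' := fun {a b} ha hb x y z => by
    rw [Equiv.Perm.mul_apply, hb, ha]
    rfl
  one_mem' := fun x y z => rfl
  inv_mem' := fun {g} hg x y z => by
    apply g.injective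
    rw [hg]
    simp

theorem M1 (g : Equiv.Perm M) (hg : ∀ a b : M, a.1 = b.1 ↔ (g a).1 = (g b).1)
    (hs : Equiv.Perm.sign g = 1) : g ∈ K₀ := by
  have hπinj : Function.Injective (fun i : Fin 4 => (g (i, false)).1) := by
    intro i j hij
    exact (hg (i, false) (j, false)).2 hij
  let π : Equiv.Perm (Fin 4) := Equiv.ofBijective _ (Finite.injective_iff_bijective.1 hπinj)
  have hπ : ∀ i b, (g (i, b)).1 = π i := fun i b => (hg (i, b) (i, false)).1 rfl
  have hεinj : ∀ i, Function.Injective (fun b : Bool => (g (i, b)).2) := by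
    intro i b b' h
    have : g (i, b) = g (i, b') := Prod.ext (by rw [hπ, hπ]) h
    exact (Prod.ext_iff.1 (g.injective this)).2
  let ε : Fin 4 → Equiv.Perm Bool := fun i =>
    Equiv.ofBijective _ (Finite.injective_iff_bijective.1 (hεinj i))
  have hε : ∀ i b, (g (i, b)).2 = ε i b := fun i b => rfl
  have hdec : g = (Equiv.prodCongrLeft (fun _ : Bool => π)) * (Equiv.prodCongrRight ε) := by
    apply Equiv.ext
    rintro ⟨i, b⟩
    apply Prod.ext
    · rw [hπ]; rfl
    · rfl
  have hsign : ∏ i, Equiv.Perm.sign (ε i) = 1 := by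
    rw [hdec, Equiv.Perm.sign_mul, Equiv.Perm.sign_prodCongrLeft,
      Equiv.Perm.sign_prodCongrRight, Fintype.prod_bool, Int.units_mul_self, one_mul] at hs
    exact hs
  have hxor : xor (ε 0 false) (xor (ε 1 false) (xor (ε 2 false) (ε 3 false))) = false := by
    apply L7
    rw [Fin.prod_univ_four, L6, L6, L6, L6] at hsign
    exact hsign
  have hc : ∀ i j k : Fin 4, ε (x3 i j k) false
      = xor (ε i false) (xor (ε j false) (ε k false)) := by
    have hvec : (fun i => ε i false) = ![ε 0 false, ε 1 false, ε 2 false, ε 3 false] := by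
      funext i
      fin_cases i <;> rfl
    intro i j k
    have := L5 _ _ _ _ hxor i j k
    rw [← hvec] at this
    exact this
  rintro ⟨i, b⟩ ⟨j, b'⟩ ⟨k, b''⟩
  apply Prod.ext
  · change (g (x3 i j k, xor b (xor b' b''))).1 = x3 (g (i, b)).1 (g (j, b')).1 (g (k, b'')).1
    rw [hπ, hπ, hπ, hπ, Lπ]
  · change (g (x3 i j k, xor b (xor b' b''))).2 = xor (g (i, b)).2 (xor (g (j, b')).2 (g (k, b'')).2)
    rw [hε, hε, hε, hε, L4 (ε _) _, L4 (ε i) b, L4 (ε j) b', L4 (ε k) b'', hc]
    generalize ε i false = ci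
    generalize ε j false = cj
    generalize ε k false = ck
    revert b b' b'' ci cj ck
    decide

def t₀ : Equiv.Perm M := Equiv.swap (0, true) (1, false) * Equiv.swap (2, true) (3, false)

def c₀ : Equiv.Perm M := Equiv.swap (0, false) (1, false) * Equiv.swap (1, false) (2, false)

theorem t₀_sign : Equiv.Perm.sign t₀ = 1 := by
  unfold t₀
  rw [Equiv.Perm.sign_mul, Equiv.Perm.sign_swap (by decide), Equiv.Perm.sign_swap (by decide)]
  rfl

theorem c₀_sign : Equiv.Perm.sign c₀ = 1 := by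
  unfold c₀
  rw [Equiv.Perm.sign_mul, Equiv.Perm.sign_swap (by decide), Equiv.Perm.sign_swap (by decide)]
  rfl

theorem t₀_mem : t₀ ∈ K₀ := by
  have : ∀ x y z : M, t₀ (T x y z) = T (t₀ x) (t₀ y) (t₀ z) := by decide
  exact this

theorem t₀_not : ¬ ∀ a b : M, a.1 = b.1 ↔ (t₀ a).1 = (t₀ b).1 := by decide

theorem c₀_not : c₀ ∉ K₀ := by
  intro h
  have := h (0, false) (0, true) (1, false)
  revert this
  decide

/-- Let Ω be a set with 8 elements and f : Ω → Fin 4 a labelling whose four fibres all have size 2 (a partition of the 8 points into 4 pairs). Then the group of even permutations preserving this partition, (S₂ ≀ S₄) ∩ A₈, is not a maximal subgroup of the alternating group A₈ (it lies in a subgroup isomorphic to the affine group AGL₃(2)). -/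
theorem result {Ω : Type*} [Fintype Ω] [DecidableEq Ω] (h8 : Fintype.card Ω = 8)
    (f : Ω → Fin 4) (hf : ∀ i : Fin 4, Nat.card {x : Ω // f x = i} = 2) :
    ¬ IsCoatom ((Subgroup.closure {g : Equiv.Perm Ω | ∀ x y : Ω, f x = f y ↔ f (g x) = f (g y)} ⊓ alternatingGroup Ω).subgroupOf (alternatingGroup Ω)) := by
  classical
  have hcard : ∀ i : Fin 4, Fintype.card {x : Ω // f x = i} = Fintype.card Bool := by
    intro i
    rw [← Nat.card_eq_fintype_card, hf i, Fintype.card_bool]
  let ei : ∀ i : Fin 4, {x : Ω // f x = i} ≃ Bool := fun i => Fintype.equivOfCardEq (hcard i)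
  let e : Ω ≃ M := (Equiv.sigmaFiberEquiv f).symm.trans
    ((Equiv.sigmaCongrRight ei).trans (Equiv.sigmaEquivProd (Fin 4) Bool))
  have he : ∀ x, (e x).1 = f x := fun x => rfl
  have he' : ∀ a : M, a.1 = f (e.symm a) := by
    intro a
    rw [← he, Equiv.apply_symm_apply]
  -- block preservation transports
  have hblock : ∀ g : Equiv.Perm Ω, (∀ x y : Ω, f x = f y ↔ f (g x) = f (g y)) →
      ∀ a b : M, a.1 = b.1 ↔ (e.permCongr g a).1 = (e.permCongr g b).1 := by
    intro g hg a b
    rw [Equiv.permCongr_apply, Equiv.permCongr_apply, he, he, he' a, he' b]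
    exact hg _ _
  have hclos : ∀ g ∈ Subgroup.closure {g : Equiv.Perm Ω | ∀ x y : Ω, f x = f y ↔ f (g x) = f (g y)},
      ∀ x y : Ω, f x = f y ↔ f (g x) = f (g y) := by
    intro g hg
    induction hg using Subgroup.closure_induction with
    | mem g hg => exact hg
    | one => intro x y; rfl
    | mul g h _ _ ihg ihh =>
      intro x y
      rw [Equiv.Perm.mul_apply, Equiv.Perm.mul_apply]
      exact (ihh x y).trans (ihg _ _)
    | inv g _ ih =>
      intro x y
      have := ih (g⁻¹ x) (g⁻¹ y)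
      have h1 : g (g⁻¹ x) = x := by simp
      have h2 : g (g⁻¹ y) = y := by simp
      rw [h1, h2] at this
      exact this.symm
  -- the intermediate subgroup
  let K' : Subgroup (Equiv.Perm Ω) := K₀.comap (e.permCongrHom : Equiv.Perm Ω ≃* Equiv.Perm M).toMonoidHom
  have hK' : ∀ g : Equiv.Perm Ω, g ∈ K' ↔ e.permCongr g ∈ K₀ := fun g => Iff.rfl
  -- the two witnesses
  obtain ⟨t, ht⟩ : ∃ t : Equiv.Perm Ω, e.permCongr t = t₀ :=
    ⟨e.symm.permCongr t₀, by
      apply Equiv.ext
      intro a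
      show e (e.symm (t₀ (e (e.symm a)))) = t₀ a
      rw [Equiv.apply_symm_apply, Equiv.apply_symm_apply]⟩
  obtain ⟨c, hc⟩ : ∃ c : Equiv.Perm Ω, e.permCongr c = c₀ :=
    ⟨e.symm.permCongr c₀, by
      apply Equiv.ext
      intro a
      show e (e.symm (c₀ (e (e.symm a)))) = c₀ a
      rw [Equiv.apply_symm_apply, Equiv.apply_symm_apply]⟩
  have ht_sign : Equiv.Perm.sign t = 1 := by
    rw [← Equiv.Perm.sign_permCongr e t, ht, t₀_sign]
  have hc_sign : Equiv.Perm.sign c = 1 := by
    rw [← Equiv.Perm.sign_permCongr e c, hc, c₀_sign]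
  have ht_K : t ∈ K' := by
    rw [hK', ht]
    exact t₀_mem
  have hc_K : c ∉ K' := by
    rw [hK', hc]
    exact c₀_not
  have ht_S : t ∉ Subgroup.closure {g : Equiv.Perm Ω | ∀ x y : Ω, f x = f y ↔ f (g x) = f (g y)} := by
    intro h
    have := hblock t (hclos t h)
    rw [ht] at this
    exact t₀_not this
  intro hco
  obtain ⟨-, hmax⟩ := hco
  have hlt : (Subgroup.closure {g : Equiv.Perm Ω | ∀ x y : Ω, f x = f y ↔ f (g x) = f (g y)} ⊓
      alternatingGroup Ω).subgroupOf (alternatingGroup Ω) <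
      (K' ⊓ alternatingGroup Ω).subgroupOf (alternatingGroup Ω) := by
    refine lt_of_le_of_ne ?_ ?_
    · intro x hx
      rw [Subgroup.mem_subgroupOf] at hx ⊢
      refine ⟨(hK' _).2 ?_, hx.2⟩
      exact M1 _ (hblock _ (hclos _ hx.1))
        (by rw [Equiv.Perm.sign_permCongr]; exact Equiv.Perm.mem_alternatingGroup.1 hx.2)
    · intro heq
      have hmem : (⟨t, Equiv.Perm.mem_alternatingGroup.2 ht_sign⟩ : alternatingGroup Ω) ∈
          (K' ⊓ alternatingGroup Ω).subgroupOf (alternatingGroup Ω) := by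
        rw [Subgroup.mem_subgroupOf]
        exact ⟨ht_K, Equiv.Perm.mem_alternatingGroup.2 ht_sign⟩
      rw [← heq, Subgroup.mem_subgroupOf] at hmem
      exact ht_S hmem.1
  have htop := hmax _ hlt
  have hmem : (⟨c, Equiv.Perm.mem_alternatingGroup.2 hc_sign⟩ : alternatingGroup Ω) ∈
      (K' ⊓ alternatingGroup Ω).subgroupOf (alternatingGroup Ω) := by
    rw [htop]
    trivial
  rw [Subgroup.mem_subgroupOf] at hmem
  exact hc_K hmem.1

end Cfsg.Agent.S5910
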