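import Cfsg.Statements.S5913
import Mathlib

set_option autoImplicit false
open Cfsg

namespace Cfsg.Agent.S5913

/-- Let S be a non-abelian simple group and n a natural number. Every normal subgroup N of the direct power S^n (functions Fin n → S) is a subproduct: there is a set T of coordinates such that N consists exactly of the elements whose coordinates outside T are trivial. In particular the minimal normal subgroups of S^n are its n factors. -/
theorem result {S : Type*} [Group S] [IsSimpleGroup S] (hS : ¬ IsMulCommutative S) (n : ℕ)
    (N : Subgroup (Fin n → S)) [N.Normal] :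
    ∃ T : Finset (Fin n), ∀ x : Fin n → S, x ∈ N ↔ ∀ i, i ∉ T → x i = 1 := by
  classical
  refine ⟨Finset.univ.filter (fun i => ∃ x ∈ N, x i ≠ 1), fun x => ?_⟩
  constructor
  · intro hx i hi
    by_contra h
    exact hi (by
      rw [Finset.mem_filter]
      exact ⟨Finset.mem_univ _, x, hx, h⟩)
  · intro hx
    have key : ∀ i, (∃ y ∈ N, y i ≠ 1) → ∀ s : S, Pi.mulSingle i s ∈ N := by
      rintro i ⟨y, hy, hyi⟩
      have hnorm : (N.comap (MonoidHom.mulSingle (fun _ : Fin n => S) i)).Normal := inferInstance
      have hne : N.comap (MonoidHom.mulSingle (fun _ : Fin n => S) i) ≠ ⊥ := by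
        obtain ⟨s, hs⟩ : ∃ s : S, y i * s ≠ s * y i := by
          by_contra hcon
          have hcon' : ∀ s : S, y i * s = s * y i := by
            intro s
            by_contra h
            exact hcon ⟨s, h⟩
          have hc : y i ∈ Subgroup.center S := by
            rw [Subgroup.mem_center_iff]
            intro g
            exact (hcon' g).symm
          rcases IsSimpleGroup.eq_bot_or_eq_top_of_normal (Subgroup.center S) inferInstance with h | h
          · rw [h] at hc
            exact hyi (Subgroup.mem_bot.mp hc)
          · apply hS
            refine ⟨⟨fun a b => ?_⟩⟩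
            have ha : a ∈ Subgroup.center S := by rw [h]; trivial
            exact (Subgroup.mem_center_iff.mp ha b).symm
        intro hbot
        have hmem : y i * s * (y i)⁻¹ * s⁻¹ ∈ N.comap (MonoidHom.mulSingle (fun _ : Fin n => S) i) := by
          rw [Subgroup.mem_comap]
          have h1 : MonoidHom.mulSingle (fun _ : Fin n => S) i (y i * s * (y i)⁻¹ * s⁻¹)
              = y * (Pi.mulSingle i s * y⁻¹ * (Pi.mulSingle i s)⁻¹) := by
            ext j
            by_cases hj : j = i
            · subst hj
              simp [mul_assoc]
            · simp [Pi.mulSingle_eq_of_ne hj]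
          rw [h1]
          exact N.mul_mem hy (‹N.Normal›.conj_mem _ (N.inv_mem hy) _)
        rw [hbot, Subgroup.mem_bot] at hmem
        apply hs
        have h2 : y i * s * (y i)⁻¹ = s := by
          rw [mul_inv_eq_one] at hmem
          exact hmem
        calc y i * s = y i * s * (y i)⁻¹ * y i := by group
          _ = s * y i := by rw [h2]
      have htop := (IsSimpleGroup.eq_bot_or_eq_top_of_normal _ hnorm).resolve_left hne
      intro s
      have h3 : s ∈ N.comap (MonoidHom.mulSingle (fun _ : Fin n => S) i) := by
        rw [htop]
        trivial
      exact h3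
    rw [← Finset.noncommProd_mulSingle x]
    apply Subgroup.noncommProd_mem
    intro i _
    by_cases hi : ∃ y ∈ N, y i ≠ 1
    · exact key i hi (x i)
    · have h4 : x i = 1 := hx i (by
        rw [Finset.mem_filter]
        exact fun h => hi h.2)
      rw [h4, Pi.mulSingle_one]
      exact N.one_mem

end Cfsg.Agent.S5913
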