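import Cfsg.Statements.S5914
import Mathlib
import Cfsg.Agent.Lib_helper4_CharSimple
import Cfsg.Agent.S5913

set_option autoImplicit false
open Cfsg

namespace Cfsg.Agent.S5914

/-- permuting the coordinates -/
def permAut {S : Type*} [Group S] {n : ℕ} (σ : Equiv.Perm (Fin n)) :
    (Fin n → S) ≃* (Fin n → S) where
  toFun f := f ∘ σ
  invFun f := f ∘ σ.symm
  left_inv f := by funext k; simp
  right_inv f := by funext k; simp
  map_mul' f g := rfl

theorem permAut_mulSingle {S : Type*} [Group S] {n : ℕ} (i j : Fin n) (s : S) :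
    permAut (Equiv.swap i j) (Pi.mulSingle i s : Fin n → S) = Pi.mulSingle j s := by
  funext k
  show (Pi.mulSingle i s : Fin n → S) (Equiv.swap i j k) = _
  by_cases hk : k = j
  · subst hk; simp
  · rw [Pi.mulSingle_eq_of_ne hk]
    by_cases hki : k = i
    · subst hki
      rw [Equiv.swap_apply_left]
      exact Pi.mulSingle_eq_of_ne (fun h => hk h.symm) _
    · rw [Equiv.swap_apply_of_ne_of_ne hki hk]
      exact Pi.mulSingle_eq_of_ne hki _

/-- a transvection automorphism of a commutative power -/
def tau {S : Type*} [Group S] (hS : IsMulCommutative S) {n : ℕ} (i j : Fin n) (hij : i ≠ j) :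
    (Fin n → S) ≃* (Fin n → S) where
  toFun f := f * Pi.mulSingle j (f i)
  invFun f := f * Pi.mulSingle j (f i)⁻¹
  left_inv f := by
    funext k
    by_cases hk : k = j
    · subst hk
      simp [hij]
    · simp [hk]
  right_inv f := by
    funext k
    by_cases hk : k = j
    · subst hk
      simp [hij]
    · simp [hk]
  map_mul' f g := by
    funext k
    by_cases hk : k = j
    · subst hk
      simp only [Pi.mul_apply, Pi.mulSingle_eq_same]
      rw [mul_assoc, mul_assoc, ← mul_assoc (g k) (f i) (g i), hS.is_comm.comm (g k) (f i),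
        mul_assoc]
    · simp [hk]

theorem charSimple_pi {S : Type*} [Group S] [IsSimpleGroup S] (n : ℕ)
    (H : Subgroup (Fin n → S)) (hH : H.Characteristic) : H = ⊥ ∨ H = ⊤ := by
  classical
  have hfix : ∀ (ϕ : (Fin n → S) ≃* (Fin n → S)) (x : Fin n → S), x ∈ H → ϕ x ∈ H :=
    fun ϕ x hx => (Subgroup.characteristic_iff_map_le.mp hH ϕ) ⟨x, hx, rfl⟩
  by_cases hbot : H = ⊥
  · left; exact hbot
  right
  obtain ⟨x, hx, hx1⟩ : ∃ x ∈ H, x ≠ 1 := by
    by_contra hc
    push Not at hc
    exact hbot (eq_bot_iff.mpr (fun k hk => Subgroup.mem_bot.mpr (hc k hk)))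
  obtain ⟨i, hi⟩ : ∃ i, x i ≠ 1 := by
    by_contra hc
    push Not at hc
    exact hx1 (funext hc)
  -- it suffices to find one coordinate
  suffices hsuff : ∃ j : Fin n, ∀ t : S, (Pi.mulSingle j t : Fin n → S) ∈ H by
    obtain ⟨j, hj⟩ := hsuff
    rw [eq_top_iff]
    intro f _
    apply Subgroup.pi_mem_of_mulSingle_mem
    intro l
    rw [← permAut_mulSingle j l (f l)]
    exact hfix _ _ (hj (f l))
  by_cases hS : IsMulCommutative S
  · -- commutative case
    have hgen : ∀ s : S, s ≠ 1 → ∀ t : S, ∃ k : ℤ, s ^ k = t := by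
      intro s hs t
      have hn : (Subgroup.zpowers s).Normal := by
        constructor
        intro a ha g
        rw [hS.is_comm.comm g a, mul_inv_cancel_right]
        exact ha
      rcases IsSimpleGroup.eq_bot_or_eq_top_of_normal (Subgroup.zpowers s) hn with h | h
      · exact absurd (Subgroup.zpowers_eq_bot.mp h) hs
      · have : t ∈ Subgroup.zpowers s := by rw [h]; trivial
        exact Subgroup.mem_zpowers_iff.mp this
    by_cases hj : ∃ j, j ≠ i
    · obtain ⟨j, hji⟩ := hj
      refine ⟨j, fun t => ?_⟩
      have h1 : (Pi.mulSingle j (x i) : Fin n → S) ∈ H := by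
        have h2 := H.mul_mem (H.inv_mem hx) (hfix (tau hS i j (fun h => hji h.symm)) x hx)
        have h3 : x⁻¹ * (tau hS i j (fun h => hji h.symm)) x = Pi.mulSingle j (x i) := by
          show x⁻¹ * (x * Pi.mulSingle j (x i)) = _
          rw [inv_mul_cancel_left]
        rwa [h3] at h2
      obtain ⟨k, hk⟩ := hgen (x i) hi t
      have h4 : (Pi.mulSingle j t : Fin n → S) = (Pi.mulSingle j (x i) : Fin n → S) ^ k := by
        rw [← hk]
        exact map_zpow (MonoidHom.mulSingle (fun _ : Fin n => S) j) (x i) k
      rw [h4]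
      exact H.zpow_mem h1 k
    · push Not at hj
      refine ⟨i, fun t => ?_⟩
      have hxs : x = Pi.mulSingle i (x i) := by
        funext l
        rw [hj l]
        simp
      obtain ⟨k, hk⟩ := hgen (x i) hi t
      have h4 : (Pi.mulSingle i t : Fin n → S) = (Pi.mulSingle i (x i) : Fin n → S) ^ k := by
        rw [← hk]
        exact map_zpow (MonoidHom.mulSingle (fun _ : Fin n => S) i) (x i) k
      rw [h4, ← hxs]
      exact H.zpow_mem hx k
  · -- non-commutative case
    haveI : H.Normal := Subgroup.normal_of_characteristic H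
    obtain ⟨Tset, hT⟩ := Cfsg.Agent.S5913.result hS n H
    have hiT : i ∈ Tset := by
      by_contra hiT
      exact hi ((hT x).mp hx i hiT)
    refine ⟨i, fun t => ?_⟩
    rw [hT]
    intro l hl
    have hli : l ≠ i := by
      rintro rfl
      exact hl hiT
    exact Pi.mulSingle_eq_of_ne hli _


/-- A non-trivial finite group G is characteristically simple (its only characteristic subgroups are 1 and G) if and only if G is isomorphic to a direct power S^n (n ≥ 1) of some simple group S (possibly cyclic of prime order). -/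
theorem result {G : Type*} [Group G] [Finite G] [Nontrivial G] :
    (∀ H : Subgroup G, H.Characteristic → H = ⊥ ∨ H = ⊤) ↔
    ∃ (S : Type) (_ : Group S) (_ : IsSimpleGroup S) (n : ℕ), 1 ≤ n ∧ Nonempty (G ≃* (Fin n → S)) := by
  constructor
  · intro h
    obtain ⟨T, hT, m, hsimple, hm, e⟩ :=
      Cfsg.Agent.Lib_helper4_CharSimple.exists_equiv_pi' (G := G) ⊤ (by
        intro K hK
        apply h
        rw [Subgroup.characteristic_iff_map_le]
        intro ϕ
        exact hK ϕ trivial)
    exact ⟨T, hT, hsimple, m, hm, e⟩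
  · rintro ⟨S, hS, hsimple, n, hn, ⟨e⟩⟩ H hH
    have hH' : (H.map e.toMonoidHom).Characteristic := by
      rw [Subgroup.characteristic_iff_map_le]
      intro ψ
      rintro _ ⟨_, ⟨x, hx, rfl⟩, rfl⟩
      have h1 := (Subgroup.characteristic_iff_map_le.mp hH ((e.trans ψ).trans e.symm))
        ⟨x, hx, rfl⟩
      refine ⟨_, h1, ?_⟩
      simp
    rcases charSimple_pi n (H.map e.toMonoidHom) hH' with h | h
    · left
      exact (Subgroup.map_eq_bot_iff_of_injective H e.injective).mp h
    · right
      rw [eq_top_iff]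
      intro g _
      have h2 : e g ∈ H.map e.toMonoidHom := by rw [h]; trivial
      obtain ⟨x, hx, hxg⟩ := h2
      have h3 : x = g := e.injective hxg
      rw [← h3]; exact hx

end Cfsg.Agent.S5914
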